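import Cfsg.Agent.Lib.H8Group.ConjMax
import Cfsg.Agent.Lib.OddLocal.Trans1
import Cfsg.Agent.Lib.Char.Kernel

/-!
# Normal `p'`-subgroups in the kernels of blocks

For a normal `p'`-subgroup `U` of a finite group, the irreducible characters with `U` in the kernel
form a union of blocks (`kerSet`), with idempotent the average of `U`.  Along the Brauer map, the
image of that idempotent is the corresponding idempotent of the fixed points of `U`: this is
`mem_kerSet_iff_of_brData`, which allows to push kernels along inclusions of Brauer pairs.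
-/

set_option autoImplicit false
set_option linter.unusedSectionVars false

namespace Cfsg.Agent.Lib.Char.BK

open Cfsg Cfsg.Agent.Lib.Blocks Cfsg.Agent.Lib.H8Group

universe u v

section Eps

variable {A : Type u} [Group A] [Fintype A]

/-- Irreducible characters with `U` in their kernel. -/
def kerSet (U : Subgroup A) : Set (IrrCharacter A) :=
  {χ | ∀ u ∈ U, (χ : A → ℂ) u = (χ : A → ℂ) 1}

theorem mem_kerSet {U : Subgroup A} {χ : IrrCharacter A} :
    χ ∈ kerSet U ↔ ∀ u ∈ U, (χ : A → ℂ) u = (χ : A → ℂ) 1 := Iff.rfl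

theorem mem_kerSet_iff_le {U : Subgroup A} {χ : IrrCharacter A} :
    χ ∈ kerSet U ↔ U ≤ Cfsg.Agent.Lib.Char.charKer (χ : A → ℂ) := by
  constructor
  · intro h u hu
    exact (Cfsg.Agent.Lib.Char.mem_charKer (Cfsg.Agent.Lib.Char.IsIrrCharacter.isCharacter χ.2)).mpr (h u hu)
  · intro h u hu
    exact (Cfsg.Agent.Lib.Char.mem_charKer (Cfsg.Agent.Lib.Char.IsIrrCharacter.isCharacter χ.2)).mp (h hu)

/-- The coefficients of the average of the elements of `U`. -/
noncomputable def eps (U : Subgroup A) (x : A) : ℂ :=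
  open scoped Classical in if x ∈ U then (Nat.card U : ℂ)⁻¹ else 0

theorem eps_of_mem {U : Subgroup A} {x : A} (h : x ∈ U) : eps U x = (Nat.card U : ℂ)⁻¹ := by
  simp only [eps, if_pos h]

theorem eps_of_notMem {U : Subgroup A} {x : A} (h : x ∉ U) : eps U x = 0 := by
  simp only [eps, if_neg h]

theorem eps_isClassFunction (U : Subgroup A) [hU : U.Normal] : IsClassFunction A (eps U) := by
  intro g k
  by_cases h : g ∈ U
  · rw [eps_of_mem h, eps_of_mem (hU.conj_mem g h k)]
  · rw [eps_of_notMem h, eps_of_notMem]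
    intro h1
    apply h
    have h2 := hU.conj_mem _ h1 k⁻¹
    simpa [mul_assoc] using h2

theorem sum_eps_mul (U : Subgroup A) [Fintype U] (F : A → ℂ) :
    ∑ x, eps U x * F x = (Nat.card U : ℂ)⁻¹ * ∑ u : U, F u := by
  classical
  have h1 : ∑ x, eps U x * F x = ∑ x ∈ Finset.univ.filter (fun x => x ∈ U), (Nat.card U : ℂ)⁻¹ * F x := by
    rw [Finset.sum_filter]
    refine Finset.sum_congr rfl fun x _ => ?_
    by_cases h : x ∈ U
    · rw [eps_of_mem h, if_pos h]
    · rw [eps_of_notMem h, if_neg h, zero_mul]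
  rw [h1, ← Finset.mul_sum]
  congr 1
  exact Finset.sum_subtype _ (fun x => by simp) F

theorem spec_eps (U : Subgroup A) [hU : U.Normal] : spec (eps U) = indic (kerSet U) := by
  classical
  funext χ
  have h1 := Cfsg.Agent.Lib.Char.sum_coset_irr U χ.2 1
  simp only [mul_one] at h1
  have hne := Cfsg.Agent.Lib.Char.IsIrrCharacter.apply_one_ne_zero χ.2
  have hU0 : (Nat.card U : ℂ) ≠ 0 := by exact_mod_cast Nat.card_pos.ne'
  rw [spec, sum_eps_mul, h1]
  by_cases h : χ ∈ kerSet U
  · rw [if_pos (mem_kerSet_iff_le.mp h), indic_apply_of_mem h]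
    field_simp
  · rw [if_neg (fun h2 => h (mem_kerSet_iff_le.mpr h2)), indic_apply_of_notMem h]
    simp

theorem coef_indic_kerSet (U : Subgroup A) [hU : U.Normal] : coef (indic (kerSet U)) = eps U := by
  rw [← spec_eps, coef_spec _ (eps_isClassFunction U)]

variable {M : Ideal AlgInt} {p : ℕ}

theorem indic_kerSet_mem_zS (hM : IsPModular p M) [M.IsPrime] (U : Subgroup A) [hU : U.Normal]
    (hUp : ¬ p ∣ Nat.card U) : indic (kerSet U) ∈ zS M A := by
  rw [← spec_eps]
  refine spec_mem_zS (eps_isClassFunction U) fun x => ?_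
  by_cases h : x ∈ U
  · rw [eps_of_mem h]
    exact inv_natCast_memLocalRing hM hUp
  · rw [eps_of_notMem h]
    exact memLocalRing_zero

/-- The characters with `U` in the kernel form a union of blocks. -/
theorem subset_kerSet_of_mem (hM : IsPModular p M) [M.IsPrime] (U : Subgroup A) [hU : U.Normal]
    (hUp : ¬ p ∣ Nat.card U) {f : Set (IrrCharacter A)} (hf : IsPBlock M f) {χ : IrrCharacter A}
    (hχ : χ ∈ f) (hχU : χ ∈ kerSet U) : f ⊆ kerSet U := by
  intro ψ hψ
  by_contra hn
  have h1 := zS_apply_congr hf (indic_kerSet_mem_zS hM U hUp) hχ hψ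
  rw [indic_apply_of_mem hχU, indic_apply_of_notMem hn, sub_zero] at h1
  exact not_memLocalIdeal_one h1

/-- Multiplying the idempotent of a block by the idempotent of `kerSet U`. -/
theorem indic_mul_kerSet_of_subset {f : Set (IrrCharacter A)} {U : Subgroup A} (h : f ⊆ kerSet U) :
    indic f * indic (kerSet U) = indic f := by
  funext χ
  simp only [Pi.mul_apply]
  by_cases h1 : χ ∈ f
  · rw [indic_apply_of_mem h1, indic_apply_of_mem (h h1), mul_one]
  · rw [indic_apply_of_notMem h1, zero_mul]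

theorem indic_mul_kerSet_of_disjoint {f : Set (IrrCharacter A)} {U : Subgroup A}
    (h : ∀ χ ∈ f, χ ∉ kerSet U) : indic f * indic (kerSet U) = 0 := by
  funext χ
  simp only [Pi.mul_apply, Pi.zero_apply]
  by_cases h1 : χ ∈ f
  · rw [indic_apply_of_notMem (h χ h1), mul_zero]
  · rw [indic_apply_of_notMem h1, zero_mul]

end Eps

section Brauer

variable {C D : Type u} [Group C] [Fintype C] [Group D] [Fintype D] {Γ : Type v} [Group Γ]
  {M : Ideal AlgInt} {p : ℕ} [hp : Fact p.Prime] {ρ : Γ →* MulAut C} {ι : D →* C}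

omit [Fintype D] in
theorem card_comap_dvd (hι : Function.Injective ι) (U : Subgroup C) :
    Nat.card (U.comap ι) ∣ Nat.card U := by
  have h1 : Nat.card ((U.comap ι).map ι) = Nat.card (U.comap ι) :=
    Subgroup.card_map_of_injective hι
  rw [← h1]
  exact Subgroup.card_dvd_of_le (Subgroup.map_comap_le _ _)

/-- The image of the idempotent of `kerSet U` under the Brauer map. -/
theorem brV_indic_kerSet (hι : Function.Injective ι) (U : Subgroup C) [hU : U.Normal] (ξ : IrrCharacter D) :
    brV ι (indic (kerSet U)) ξ =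
      ((Nat.card (U.comap ι) : ℂ) / (Nat.card U : ℂ)) * indic (kerSet (U.comap ι)) ξ := by
  classical
  haveI hU' : (U.comap ι).Normal := Subgroup.Normal.comap hU ι
  have hc0 : (Nat.card (U.comap ι) : ℂ) ≠ 0 := by exact_mod_cast Nat.card_pos.ne'
  have h1 : coef (indic (kerSet U)) ∘ ι =
      ((Nat.card (U.comap ι) : ℂ) / (Nat.card U : ℂ)) • eps (U.comap ι) := by
    funext y
    rw [coef_indic_kerSet]
    simp only [Function.comp_apply, Pi.smul_apply, smul_eq_mul]
    by_cases h : ι y ∈ U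
    · have h2 : y ∈ U.comap ι := h
      rw [eps_of_mem h, eps_of_mem h2]
      field_simp
    · have h2 : y ∉ U.comap ι := h
      rw [eps_of_notMem h, eps_of_notMem h2, mul_zero]
  rw [brV, h1, spec_smul, spec_eps]
  rfl

/-- **The kernels along the Brauer map**: a stable block `f` above `ξ` has the normal `p'`-subgroup
`U` in its kernel if and only if `ξ` has the fixed points of `U` in its kernel. -/
theorem subset_kerSet_iff_of_brData (hM : IsPModular p M) (hΓ : IsPGroup p Γ) (h : BrData ρ ι)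
    (U : Subgroup C) [hU : U.Normal] (hUp : ¬ p ∣ Nat.card U) (hUρ : ∀ γ x, ρ γ x ∈ U ↔ x ∈ U)
    {f : Set (IrrCharacter C)} (hf : IsPBlock M f) (hfs : IsStable ρ f) {ξ : IrrCharacter D}
    (hξ : MemLocalIdeal M (brV ι (indic f) ξ - 1)) :
    f ⊆ kerSet U ↔ ξ ∈ kerSet (U.comap ι) := by
  classical
  have := isPrime_of_modular hM
  have hcS := indic_kerSet_mem_zS hM U hUp
  have hfS := indic_mem_zS hf
  have hinv : InvF ρ (coef (indic (kerSet U))) := by
    intro γ x
    rw [coef_indic_kerSet]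
    by_cases hx : x ∈ U
    · rw [eps_of_mem hx, eps_of_mem ((hUρ γ x).mpr hx)]
    · rw [eps_of_notMem hx, eps_of_notMem (fun h1 => hx ((hUρ γ x).mp h1))]
  have hm := brV_mul hM hΓ h hfS hcS (invF_of_isStable hfs) hinv ξ
  have hloc := brV_memLocalRing (M := M) ι hcS ξ
  have hform := brV_indic_kerSet h.inj U ξ
  have hd : ¬ p ∣ Nat.card (U.comap ι) := fun h1 => hUp (h1.trans (card_comap_dvd h.inj U))
  constructor
  · intro hsub
    rw [indic_mul_kerSet_of_subset hsub] at hm
    by_contra hn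
    rw [indic_apply_of_notMem hn, mul_zero] at hform
    rw [hform, mul_zero, sub_zero] at hm
    have h2 := MemLocalIdeal.sub hm hξ
    simp only [sub_sub_cancel] at h2
    exact not_memLocalIdeal_one h2
  · intro hmem
    rw [indic_apply_of_mem hmem, mul_one] at hform
    by_contra hsub
    have hdisj : ∀ χ ∈ f, χ ∉ kerSet U := by
      intro χ hχ hχU
      exact hsub (subset_kerSet_of_mem hM U hUp hf hχ hχU)
    rw [indic_mul_kerSet_of_disjoint hdisj, brV_zero, zero_sub] at hm
    have h4 := MemLocalIdeal.neg hm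
    rw [neg_neg] at h4
    have h5 := MemLocalIdeal.mul_right hξ hloc
    have h6 := MemLocalIdeal.sub h4 h5
    have h7 : brV ι (indic f) ξ * brV ι (indic (kerSet U)) ξ - (brV ι (indic f) ξ - 1) * brV ι (indic (kerSet U)) ξ =
        brV ι (indic (kerSet U)) ξ := by ring
    rw [h7, hform] at h6
    -- a unit is not in the local ideal
    have hU0 : (Nat.card U : ℂ) ≠ 0 := by exact_mod_cast Nat.card_pos.ne'
    have h8 : (Nat.card (U.comap ι) : ℂ) = (Nat.card U : ℂ) * ((Nat.card (U.comap ι) : ℂ) / (Nat.card U : ℂ)) := by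
      field_simp
    have h9 := MemLocalIdeal.mul_left (MemLocalRing.natCast (M := M) (Nat.card U)) h6
    rw [← h8] at h9
    exact natCast_not_memLocalIdeal hM hd h9

end Brauer

section PiCore

variable {X Y : Type u} [Group X] [Group Y] {σ : Set ℕ}

theorem card_comap_dvd' (ι : Y →* X) (hι : Function.Injective ι) (U : Subgroup X) :
    Nat.card (U.comap ι) ∣ Nat.card U := by
  have h1 : Nat.card ((U.comap ι).map ι) = Nat.card (U.comap ι) :=
    Subgroup.card_map_of_injective hι
  rw [← h1]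
  exact Subgroup.card_dvd_of_le (Subgroup.map_comap_le _ _)

theorem comap_piCore_le [Finite X] (ι : Y →* X) (hι : Function.Injective ι) :
    (piCore σ X).comap ι ≤ piCore σ Y := by
  apply le_sSup
  refine ⟨Subgroup.Normal.comap inferInstance ι, fun q hq hd => ?_⟩
  exact Cfsg.Agent.Lib.OddLocal.piCore_isPi σ X q hq (hd.trans (card_comap_dvd' ι hι _))

theorem not_dvd_card_piCore [Finite X] {p : ℕ} (hp : p.Prime) (hσ : p ∉ σ) : ¬ p ∣ Nat.card (piCore σ X) :=
  fun h => hσ (Cfsg.Agent.Lib.OddLocal.piCore_isPi σ X p hp h)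

theorem mem_piCore_of_equiv [Finite Y] (e : X ≃* Y) {x : X} (hx : e x ∈ piCore σ Y) : x ∈ piCore σ X :=
  comap_piCore_le (e.toMonoidHom) e.injective hx

theorem mem_piCore_equiv_iff [Finite X] [Finite Y] (e : X ≃* Y) {x : X} :
    e x ∈ piCore σ Y ↔ x ∈ piCore σ X := by
  refine ⟨mem_piCore_of_equiv e, fun h => ?_⟩
  apply mem_piCore_of_equiv e.symm
  simpa using h

/-- The elements of the core are `σ`-elements. -/
theorem isSigma_of_mem_piCore [Finite X] {x : X} (hx : x ∈ piCore σ X) {q : ℕ} (hq : q.Prime)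
    (hd : q ∣ orderOf x) : q ∈ σ := by
  refine Cfsg.Agent.Lib.OddLocal.piCore_isPi σ X q hq (hd.trans ?_)
  have h1 : orderOf x = orderOf (⟨x, hx⟩ : piCore σ X) := (Subgroup.orderOf_mk x hx).symm
  rw [h1]
  exact orderOf_dvd_natCard _

end PiCore

section Cover

variable {A : Type u} [Group A] [Fintype A]

theorem sum_mul_eq_zero_of_invariant {C : Type u} [Group C] [Fintype C] {T : Type*} [Fintype T] [Nonempty T]
    (τ : T → C) (a b : C → ℂ) (ha : ∀ t c, a (τ t * c) = a c) (hb : ∀ c, ∑ t, b (τ t * c) = 0) :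
    ∑ c, a c * b c = 0 := by
  have h1 : ∀ t : T, ∑ c, a c * b c = ∑ c, a c * b (τ t * c) := by
    intro t
    rw [← Fintype.sum_equiv (Equiv.mulLeft (τ t)) (fun c => a (τ t * c) * b (τ t * c)) (fun c => a c * b c)
      (fun c => rfl)]
    exact Finset.sum_congr rfl fun c _ => by rw [ha]
  have h2 : (Fintype.card T : ℂ) * ∑ c, a c * b c = 0 := by
    have h3 : ∑ _t : T, ∑ c, a c * b c = ∑ t : T, ∑ c, a c * b (τ t * c) :=
      Finset.sum_congr rfl fun t _ => h1 t
    rw [Finset.sum_const, Finset.card_univ, nsmul_eq_mul, Finset.sum_comm] at h3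
    rw [h3]
    refine Finset.sum_eq_zero fun c _ => ?_
    rw [← Finset.mul_sum, hb, mul_zero]
  have h4 : (Fintype.card T : ℂ) ≠ 0 := by exact_mod_cast Fintype.card_ne_zero
  exact (mul_eq_zero.mp h2).resolve_left h4

/-- If `ψ` lies over `ξ` and `W ≤ ker ψ` is normal in `C`, then `W ≤ ker ξ`. -/
theorem mem_kerSet_of_classInner (C : Subgroup A) [Fintype C] {ψ : IrrCharacter A} {ξ : IrrCharacter C}
    (hne : classInner (fun c : C => (ψ : A → ℂ) c) (ξ : C → ℂ) ≠ 0) (W : Subgroup C) [hW : W.Normal]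
    (hψ : ∀ w ∈ W, (ψ : A → ℂ) (w : C) = (ψ : A → ℂ) 1) : ξ ∈ kerSet W := by
  classical
  by_contra hn
  apply hne
  rw [classInner]
  have h1 : ∑ c : C, (ψ : A → ℂ) c * (starRingEnd ℂ) ((ξ : C → ℂ) c) = 0 := by
    refine sum_mul_eq_zero_of_invariant (T := W) (fun t => (t : C)) (fun c : C => (ψ : A → ℂ) c)
      (fun c => (starRingEnd ℂ) ((ξ : C → ℂ) c)) (fun t c => ?_) (fun c => ?_)
    · have hk : ((t : C) : A) ∈ Cfsg.Agent.Lib.Char.charKer (ψ : A → ℂ) :=
        (Cfsg.Agent.Lib.Char.mem_charKer (Cfsg.Agent.Lib.Char.IsIrrCharacter.isCharacter ψ.2)).mpr (hψ _ t.2)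
      exact Cfsg.Agent.Lib.Char.apply_mem_charKer_mul (Cfsg.Agent.Lib.Char.IsIrrCharacter.isCharacter ψ.2) hk _
    · rw [← map_sum, Cfsg.Agent.Lib.Char.sum_coset_irr W ξ.2 c, if_neg (fun h => hn (mem_kerSet_iff_le.mpr h)), map_zero]
  rw [h1, mul_zero]

/-- If `ψ` lies over `ξ` and `W ≤ ker ξ` is normal in `A`, then `W ≤ ker ψ`. -/
theorem mem_kerSet_of_classInner' (C : Subgroup A) [Fintype C] {ψ : IrrCharacter A} {ξ : IrrCharacter C}
    (hne : classInner (fun c : C => (ψ : A → ℂ) c) (ξ : C → ℂ) ≠ 0) (W : Subgroup A) [hW : W.Normal]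
    (hWC : W ≤ C) (hξ : ∀ w (hw : w ∈ W), (ξ : C → ℂ) ⟨w, hWC hw⟩ = (ξ : C → ℂ) 1) : ψ ∈ kerSet W := by
  classical
  by_contra hn
  apply hne
  rw [classInner]
  have h1 : ∑ c : C, (ψ : A → ℂ) c * (starRingEnd ℂ) ((ξ : C → ℂ) c) = 0 := by
    have h2 : ∑ c : C, (ψ : A → ℂ) c * (starRingEnd ℂ) ((ξ : C → ℂ) c) =
        ∑ c : C, (starRingEnd ℂ) ((ξ : C → ℂ) c) * (ψ : A → ℂ) c :=
      Finset.sum_congr rfl fun c _ => mul_comm _ _
    rw [h2]
    refine sum_mul_eq_zero_of_invariant (T := W) (fun t => (⟨t, hWC t.2⟩ : C))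
      (fun c => (starRingEnd ℂ) ((ξ : C → ℂ) c)) (fun c : C => (ψ : A → ℂ) c) (fun t c => ?_) (fun c => ?_)
    · have hk : ((⟨t, hWC t.2⟩ : C) : C) ∈ Cfsg.Agent.Lib.Char.charKer (ξ : C → ℂ) :=
        (Cfsg.Agent.Lib.Char.mem_charKer (Cfsg.Agent.Lib.Char.IsIrrCharacter.isCharacter ξ.2)).mpr (hξ _ t.2)
      show (starRingEnd ℂ) ((ξ : C → ℂ) ((⟨t, hWC t.2⟩ : C) * c)) = (starRingEnd ℂ) ((ξ : C → ℂ) c)
      rw [Cfsg.Agent.Lib.Char.apply_mem_charKer_mul (Cfsg.Agent.Lib.Char.IsIrrCharacter.isCharacter ξ.2) hk]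
    · have h3 := Cfsg.Agent.Lib.Char.sum_coset_irr W ψ.2 (c : A)
      rw [if_neg (fun h => hn (mem_kerSet_iff_le.mpr h))] at h3
      exact h3
  rw [h1, mul_zero]

end Cover

section Pairs

variable {G : Type u} [Group G] [Fintype G] {M : Ideal AlgInt} {p : ℕ} [hp : Fact p.Prime] {σ : Set ℕ}
  {Q Q' R : Subgroup G}

/-- The block `f` of `C_G(Q)` has the `σ`-core of `C_G(Q)` in its kernel. -/
def KerC (σ : Set ℕ) (Q : Subgroup G) (f : Set (IrrCharacter (Subgroup.centralizer (Q : Set G)))) : Prop :=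
  f ⊆ kerSet (piCore σ (Subgroup.centralizer (Q : Set G)))

/-- All `σ`-elements of `C_G(Q)` lie in its `σ`-core. -/
def HallC (σ : Set ℕ) (Q : Subgroup G) : Prop :=
  ∀ x : Subgroup.centralizer (Q : Set G), (∀ q : ℕ, q.Prime → q ∣ orderOf x → q ∈ σ) →
    x ∈ piCore σ (Subgroup.centralizer (Q : Set G))

theorem cenIncl_injective (hQR : Q ≤ R) : Function.Injective (cenIncl hQR) :=
  fun a b h => Subtype.ext (congrArg (fun z : Subgroup.centralizer (Q : Set G) => (z : G)) h)

theorem orderOf_cenIncl (hQR : Q ≤ R) (x : Subgroup.centralizer (R : Set G)) :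
    orderOf (cenIncl hQR x) = orderOf x :=
  orderOf_injective _ (cenIncl_injective hQR) x

theorem HallC.of_le (hQR : Q ≤ R) (hH : HallC σ Q) : HallC σ R := by
  intro x hx
  apply comap_piCore_le (cenIncl hQR) (cenIncl_injective hQR)
  apply hH
  rwa [orderOf_cenIncl]

/-- **Descent.** -/
theorem KerC.of_normalSubpair (hM : IsPModular p M) (hσ : p ∉ σ)
    {f : Set (IrrCharacter (Subgroup.centralizer (Q : Set G)))}
    {g : Set (IrrCharacter (Subgroup.centralizer (R : Set G)))}
    (h : IsNormalSubpair p M Q f R g) (hg : KerC σ R g) : KerC σ Q f := by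
  classical
  have := isPrime_of_modular hM
  letI : Fintype (Subgroup.centralizer (R : Set G)) := Fintype.ofFinite _
  letI : Fintype (Subgroup.centralizer (Q : Set G)) := Fintype.ofFinite _
  obtain ⟨hQf, hRg, hQR, hRN, hst, hv⟩ := h
  obtain ⟨ξ, hξ⟩ := IsPBlock.nonempty hRg.2
  have hs := (isStable_iff_stabilizes hRN f).mpr hst
  have hv' := hv ξ hξ
  rw [brauerOmega_eq_brV_c hQR] at hv'
  refine (subset_kerSet_iff_of_brData hM hRg.1 (brData_c hQR hRN) (piCore σ (Subgroup.centralizer (Q : Set G)))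
    (not_dvd_card_piCore hp.out hσ) (fun γ x => mem_piCore_equiv_iff _) hQf.2 hs hv').mpr ?_
  intro u hu
  exact hg hξ u (comap_piCore_le _ (cenIncl_injective hQR) hu)

/-- **Ascent.** -/
theorem KerC.up_of_normalSubpair (hM : IsPModular p M) (hσ : p ∉ σ)
    {f : Set (IrrCharacter (Subgroup.centralizer (Q : Set G)))}
    {g : Set (IrrCharacter (Subgroup.centralizer (R : Set G)))}
    (h : IsNormalSubpair p M Q f R g) (hH : HallC σ Q) (hf : KerC σ Q f) : KerC σ R g := by
  classical
  have := isPrime_of_modular hM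
  letI : Fintype (Subgroup.centralizer (R : Set G)) := Fintype.ofFinite _
  letI : Fintype (Subgroup.centralizer (Q : Set G)) := Fintype.ofFinite _
  obtain ⟨hQf, hRg, hQR, hRN, hst, hv⟩ := h
  intro ξ hξ u hu
  have hs := (isStable_iff_stabilizes hRN f).mpr hst
  have hv' := hv ξ hξ
  rw [brauerOmega_eq_brV_c hQR] at hv'
  have h1 := (subset_kerSet_iff_of_brData hM hRg.1 (brData_c hQR hRN) (piCore σ (Subgroup.centralizer (Q : Set G)))
    (not_dvd_card_piCore hp.out hσ) (fun γ x => mem_piCore_equiv_iff _) hQf.2 hs hv').mp hf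
  apply h1
  apply hH
  rw [orderOf_cenIncl]
  exact fun q hq hd => isSigma_of_mem_piCore hu hq hd

theorem KerC.of_chain (hM : IsPModular p M) (hσ : p ∉ σ) {a b : BrauerPairIdx G}
    (h : Relation.ReflTransGen (NormalSubpairRel p M) a b) (hb : KerC σ b.1 b.2) : KerC σ a.1 a.2 := by
  induction h using Relation.ReflTransGen.head_induction_on with
  | refl => exact hb
  | head hstep _ ih => exact KerC.of_normalSubpair hM hσ hstep ih

theorem KerC.up_chain (hM : IsPModular p M) (hσ : p ∉ σ) {a b : BrauerPairIdx G}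
    (h : Relation.ReflTransGen (NormalSubpairRel p M) a b) (hH : HallC σ a.1) (ha : KerC σ a.1 a.2) :
    KerC σ b.1 b.2 := by
  induction h with
  | refl => exact ha
  | tail hprev hstep ih => exact KerC.up_of_normalSubpair hM hσ hstep (HallC.of_le (le_of_chain hprev) hH) ih

/-- Transport of the kernel condition along conjugation. -/
theorem KerC.map_conj (x : G) (h : conjS x Q = Q') {f : Set (IrrCharacter (Subgroup.centralizer (Q : Set G)))}
    (hf : KerC σ Q f) : KerC σ Q' (conjB x h f) := by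
  classical
  letI : Fintype (Subgroup.centralizer (Q' : Set G)) := Fintype.ofFinite _
  letI : Fintype (Subgroup.centralizer (Q : Set G)) := Fintype.ofFinite _
  intro ξ' hξ' u hu
  have h1 := (mem_conjB x h f ξ').mp hξ'
  have h2 := hf h1 ((cenIso x h).symm u) ((mem_piCore_equiv_iff (cenIso x h).symm).mpr hu)
  simpa [Cfsg.Agent.Lib.Blocks.irrComp_coe] using h2

theorem KerC.of_map_conj (x : G) (h : conjS x Q = Q') {f : Set (IrrCharacter (Subgroup.centralizer (Q : Set G)))}
    (hf : KerC σ Q' (conjB x h f)) : KerC σ Q f := by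
  have h1 := KerC.map_conj (σ := σ) x⁻¹ (conjS_inv_of_conjS x h) hf
  rwa [conjB_conjB_inv] at h1

section Top

variable {D : Subgroup G} {B : Set (IrrCharacter G)}
  {B₁ : Set (IrrCharacter (Subgroup.normalizer (D : Set G)))}
  {e : Set (IrrCharacter (Subgroup.centralizer (D : Set G)))}

/-- The block `B₁` of `N_G(D)` lies over every member of the second component of a maximal pair. -/
theorem exists_mem_over_of_maximal (hM : IsPModular p M) (hmax : IsMaximalBrauerPair p M B D e)
    (hB₁ : IsInducedBlock M (Subgroup.normalizer (D : Set G)) B₁ B)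
    (hB₁D : IsDefectGroup p M B₁ (D.subgroupOf (Subgroup.normalizer (D : Set G))))
    [Fintype (Subgroup.normalizer (D : Set G))] [Fintype (Subgroup.centralizer (D : Set G))]
    [Fintype ((Subgroup.centralizer (D : Set G)).subgroupOf (Subgroup.normalizer (D : Set G)))]
    {ξ : IrrCharacter (Subgroup.centralizer (D : Set G))} (hξ : ξ ∈ e) :
    ∃ ψ ∈ B₁, classInner (fun n : ((Subgroup.centralizer (D : Set G)).subgroupOf (Subgroup.normalizer (D : Set G))) =>
        (ψ : Subgroup.normalizer (D : Set G) → ℂ) n)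
        ((Cfsg.Agent.Lib.Blocks.irrComp (cenSub D) ξ : IrrCharacter _) : _ → ℂ) ≠ 0 := by
  classical
  have := isPrime_of_modular hM
  haveI := normal_centralizer_subgroupOf D
  obtain ⟨⟨hDp, he⟩, hB, hv⟩ := hmax.1
  obtain ⟨ψ, hψ⟩ := exists_over_irr ((Subgroup.centralizer (D : Set G)).subgroupOf (Subgroup.normalizer (D : Set G)))
    (Cfsg.Agent.Lib.Blocks.irrComp (cenSub D) ξ)
  obtain ⟨hD, hind⟩ := exists_cover_of_maximal hM hmax hξ hψ
  have hBD := isDefectGroup_of_isMaximalBrauerPair hM hmax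
  have hbb : blockOf M (ψ : Subgroup.normalizer (D : Set G) → ℂ) = B₁ :=
    (first_main_ii hM hDp hB hBD).unique ⟨isPBlock_blockOf ψ, hD, hind⟩ ⟨hB₁.1, hB₁D, hB₁⟩
  refine ⟨ψ, ?_, hψ⟩
  rw [← hbb]
  exact self_mem_blockOf ψ

/-- The `σ`-core of `C_G(D)`, as a normal subgroup of `N_G(D)`. -/
def coreN (σ : Set ℕ) (D : Subgroup G) : Subgroup (Subgroup.normalizer (D : Set G)) :=
  ((piCore σ (Subgroup.centralizer (D : Set G))).map (Subgroup.subtype _)).subgroupOf _

theorem mem_coreN {σ : Set ℕ} {n : Subgroup.normalizer (D : Set G)} :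
    n ∈ coreN σ D ↔ ∃ u ∈ piCore σ (Subgroup.centralizer (D : Set G)), (u : G) = n := by
  rw [coreN, Subgroup.mem_subgroupOf, Subgroup.mem_map]
  rfl

instance coreN_normal : (coreN σ D).Normal := by
  constructor
  intro n hn g
  rw [mem_coreN] at hn ⊢
  obtain ⟨u, hu, hun⟩ := hn
  refine ⟨cenConj D g u, (mem_piCore_equiv_iff (cenConj D g)).mpr hu, ?_⟩
  rw [cenConj_coe, hun]
  rfl

theorem coreN_le_piCore : coreN σ D ≤ piCore σ (Subgroup.normalizer (D : Set G)) := by
  apply le_sSup
  refine ⟨coreN_normal, fun q hq hd => ?_⟩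
  apply Cfsg.Agent.Lib.OddLocal.piCore_isPi σ (Subgroup.centralizer (D : Set G)) q hq
  refine hd.trans ?_
  -- inject into the core
  have h1 : Nat.card (coreN σ D) = Nat.card ((coreN σ D).map (Subgroup.subtype _)) :=
    (Subgroup.card_map_of_injective (Subtype.val_injective)).symm
  have h2 : Nat.card ((piCore σ (Subgroup.centralizer (D : Set G))).map (Subgroup.subtype _)) =
      Nat.card (piCore σ (Subgroup.centralizer (D : Set G))) :=
    Subgroup.card_map_of_injective (Subtype.val_injective)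
  rw [h1, ← h2]
  apply Subgroup.card_dvd_of_le
  rintro _ ⟨n, hn, rfl⟩
  obtain ⟨u, hu, hun⟩ := mem_coreN.mp hn
  exact ⟨u, hu, hun⟩

/-- **Step (a)**: from the Brauer correspondent to the maximal pair. -/
theorem kerC_of_maximal (hM : IsPModular p M) (hmax : IsMaximalBrauerPair p M B D e)
    (hB₁ : IsInducedBlock M (Subgroup.normalizer (D : Set G)) B₁ B)
    (hB₁D : IsDefectGroup p M B₁ (D.subgroupOf (Subgroup.normalizer (D : Set G))))
    (hker : ∀ n : Subgroup.normalizer (D : Set G), n ∈ piCore σ (Subgroup.normalizer (D : Set G)) → n ∈ blockKer B₁) :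
    KerC σ D e := by
  classical
  letI : Fintype (Subgroup.normalizer (D : Set G)) := Fintype.ofFinite _
  letI : Fintype (Subgroup.centralizer (D : Set G)) := Fintype.ofFinite _
  letI : Fintype ((Subgroup.centralizer (D : Set G)).subgroupOf (Subgroup.normalizer (D : Set G))) := Fintype.ofFinite _
  intro ξ hξ u hu
  obtain ⟨ψ, hψ, hne⟩ := exists_mem_over_of_maximal hM hmax hB₁ hB₁D hξ
  haveI hW : ((piCore σ (Subgroup.centralizer (D : Set G))).comap (cenSub D).toMonoidHom).Normal :=
    Subgroup.Normal.comap inferInstance _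
  have h1 := mem_kerSet_of_classInner _ hne ((piCore σ (Subgroup.centralizer (D : Set G))).comap (cenSub D).toMonoidHom)
    (fun w hw => by
      have h2 : ((w : _) : Subgroup.normalizer (D : Set G)) ∈ coreN σ D := mem_coreN.mpr ⟨cenSub D w, hw, rfl⟩
      exact hker _ (coreN_le_piCore h2) ψ hψ)
  have h3 := h1 ((cenSub D).symm u) (by
    show cenSub D ((cenSub D).symm u) ∈ piCore σ (Subgroup.centralizer (D : Set G))
    simpa using hu)
  simpa [Cfsg.Agent.Lib.Blocks.irrComp_coe] using h3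

/-- The `σ`-core of `N_G(D)` centralizes `D`. -/
theorem piCore_normalizer_le (hDp : IsPGroup p D) (hσ : p ∉ σ) {n : Subgroup.normalizer (D : Set G)}
    (hn : n ∈ piCore σ (Subgroup.normalizer (D : Set G))) : (n : G) ∈ Subgroup.centralizer (D : Set G) := by
  classical
  have hDn : (D.subgroupOf (Subgroup.normalizer (D : Set G))).Normal := Subgroup.normal_in_normalizer
  have hDp' : IsPGroup p (D.subgroupOf (Subgroup.normalizer (D : Set G))) :=
    IsPGroup.to_le (IsPGroup.comap_of_injective hDp _ Subtype.val_injective) le_rfl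
  have hdis : Disjoint (piCore σ (Subgroup.normalizer (D : Set G))) (D.subgroupOf (Subgroup.normalizer (D : Set G))) := by
    apply Subgroup.disjoint_of_coprime_natCard
    obtain ⟨k, hk⟩ := IsPGroup.iff_card.mp hDp'
    rw [hk]
    apply Nat.Coprime.pow_right
    exact ((Nat.Prime.coprime_iff_not_dvd hp.out).mpr (not_dvd_card_piCore hp.out hσ)).symm
  rw [Subgroup.mem_centralizer_iff]
  intro d hd
  have h1 := Subgroup.commute_of_normal_of_disjoint _ _ inferInstance hDn hdis n
    ⟨d, Subgroup.le_normalizer hd⟩ hn (Subgroup.mem_subgroupOf.mpr hd)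
  exact (congrArg Subtype.val h1).symm

/-- **Step (b)**: from the maximal pair to the Brauer correspondent. -/
theorem blockKer_of_kerC (hM : IsPModular p M) (hσ : p ∉ σ) (hmax : IsMaximalBrauerPair p M B D e)
    (hB₁ : IsInducedBlock M (Subgroup.normalizer (D : Set G)) B₁ B)
    (hB₁D : IsDefectGroup p M B₁ (D.subgroupOf (Subgroup.normalizer (D : Set G))))
    (he : KerC σ D e) :
    ∀ n : Subgroup.normalizer (D : Set G), n ∈ piCore σ (Subgroup.normalizer (D : Set G)) → n ∈ blockKer B₁ := by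
  classical
  have := isPrime_of_modular hM
  letI : Fintype (Subgroup.normalizer (D : Set G)) := Fintype.ofFinite _
  letI : Fintype (Subgroup.centralizer (D : Set G)) := Fintype.ofFinite _
  letI : Fintype ((Subgroup.centralizer (D : Set G)).subgroupOf (Subgroup.normalizer (D : Set G))) := Fintype.ofFinite _
  have hDp := hmax.1.1.1
  obtain ⟨ξ, hξ⟩ := IsPBlock.nonempty hmax.1.1.2
  obtain ⟨ψ, hψ, hne⟩ := exists_mem_over_of_maximal hM hmax hB₁ hB₁D hξ
  have hWC : piCore σ (Subgroup.normalizer (D : Set G)) ≤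
      (Subgroup.centralizer (D : Set G)).subgroupOf (Subgroup.normalizer (D : Set G)) := by
    intro n hn
    exact Subgroup.mem_subgroupOf.mpr (piCore_normalizer_le hDp hσ hn)
  have h1 := mem_kerSet_of_classInner' _ hne (piCore σ (Subgroup.normalizer (D : Set G))) hWC (fun w hw => by
    simp only [Cfsg.Agent.Lib.Blocks.irrComp_coe, Function.comp_apply, map_one]
    refine he hξ _ (comap_piCore_le (Subgroup.inclusion (Subgroup.centralizer_le_normalizer _ :
      Subgroup.centralizer (D : Set G) ≤ Subgroup.normalizer (D : Set G)))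
      (Subgroup.inclusion_injective _) ?_)
    exact hw)
  have h2 := subset_kerSet_of_mem hM (piCore σ (Subgroup.normalizer (D : Set G)))
    (not_dvd_card_piCore hp.out hσ) hB₁.1 hψ h1
  intro n hn χ hχ
  exact h2 hχ n hn

/-- **All pairs of the block.** -/
theorem kerC_of_isBrauerPairOf (hM : IsPModular p M) (hσ : p ∉ σ) (hBD : IsDefectGroup p M B D)
    (hB₁ : IsInducedBlock M (Subgroup.normalizer (D : Set G)) B₁ B)
    (hB₁D : IsDefectGroup p M B₁ (D.subgroupOf (Subgroup.normalizer (D : Set G))))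
    (hker : ∀ n : Subgroup.normalizer (D : Set G), n ∈ piCore σ (Subgroup.normalizer (D : Set G)) → n ∈ blockKer B₁)
    {f : Set (IrrCharacter (Subgroup.centralizer (Q : Set G)))} (hf : IsBrauerPairOf p M B Q f) :
    KerC σ Q f := by
  obtain ⟨R, g, hle, hRmax⟩ := exists_maximal_above Q f hf
  have hRD := isDefectGroup_of_isMaximalBrauerPair hM hRmax
  obtain ⟨y, hy⟩ := IsDefectGroup.exists_conj_eq hM hf.2.1 hRD hBD
  have hy' : conjS y R = D := hy.symm
  have hmax' := isMaximalBrauerPair_conjB y hy' hRmax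
  have h1 := kerC_of_maximal hM hmax' hB₁ hB₁D hker
  exact KerC.of_chain hM hσ hle (KerC.of_map_conj y hy' h1)

/-- **Going up from a pair with the Hall property.** -/
theorem blockKer_of_isBrauerPairOf (hM : IsPModular p M) (hσ : p ∉ σ) (hBD : IsDefectGroup p M B D)
    (hB₁ : IsInducedBlock M (Subgroup.normalizer (D : Set G)) B₁ B)
    (hB₁D : IsDefectGroup p M B₁ (D.subgroupOf (Subgroup.normalizer (D : Set G))))
    {f : Set (IrrCharacter (Subgroup.centralizer (Q : Set G)))} (hf : IsBrauerPairOf p M B Q f)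
    (hH : HallC σ Q) (hKf : KerC σ Q f) :
    ∀ n : Subgroup.normalizer (D : Set G), n ∈ piCore σ (Subgroup.normalizer (D : Set G)) → n ∈ blockKer B₁ := by
  obtain ⟨R, g, hle, hRmax⟩ := exists_maximal_above Q f hf
  have hRD := isDefectGroup_of_isMaximalBrauerPair hM hRmax
  obtain ⟨y, hy⟩ := IsDefectGroup.exists_conj_eq hM hf.2.1 hRD hBD
  have hy' : conjS y R = D := hy.symm
  have hmax' := isMaximalBrauerPair_conjB y hy' hRmax
  have h1 : KerC σ R g := KerC.up_chain hM hσ hle hH hKf
  exact blockKer_of_kerC hM hσ hmax' hB₁ hB₁D (KerC.map_conj y hy' h1)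

end Top

end Pairs

end Cfsg.Agent.Lib.Char.BK
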