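import Cfsg.Agent.Lib.Char.BlockKer
import Cfsg.Agent.Lib.H8Group.DefectPairs

/-!
# Blocks of subgroups between `C_G(P)` and `N_G(P)`, over a block of `C_G(P)`
-/

set_option autoImplicit false
set_option linter.unusedSectionVars false

namespace Cfsg.Agent.Lib.Char.BK

open Cfsg Cfsg.Agent.Lib.Blocks Cfsg.Agent.Lib.H8Group

universe u

section Gen

variable {G : Type u} [Group G] [Fintype G] {M : Ideal AlgInt} {p : ℕ} [hp : Fact p.Prime] {P : Subgroup G}

/-- A block of `H`, with `P C_G(P) ≤ H ≤ N_G(P)`, over a block of `C_G(P)` inducing `B` induces `B`. -/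
theorem isInducedBlock_of_cover_gen (hM : IsPModular p M) (hP : IsPGroup p P) (H : Subgroup G) (hPH : P ≤ H)
    (hHN : H ≤ Subgroup.normalizer (P : Set G)) (hCH : Subgroup.centralizer (P : Set G) ≤ H)
    [Fintype H] [Fintype (Subgroup.centralizer (P : Set G))]
    [Fintype ((Subgroup.centralizer (P : Set G)).subgroupOf H)]
    [hN : ((Subgroup.centralizer (P : Set G)).subgroupOf H).Normal]
    {e : Set (IrrCharacter (Subgroup.centralizer (P : Set G)))} {B : Set (IrrCharacter G)}
    (he : IsInducedBlock M (Subgroup.centralizer (P : Set G)) e B)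
    {B₀ : Set (IrrCharacter H)} (hB₀ : IsPBlock M B₀)
    {ψ : IrrCharacter H} (hψ : ψ ∈ B₀) {ξ : IrrCharacter (Subgroup.centralizer (P : Set G))}
    (hξ : ξ ∈ e)
    (hcon : classInner (fun n : ((Subgroup.centralizer (P : Set G)).subgroupOf H) =>
        (ψ : H → ℂ) n) ((Cfsg.Agent.Lib.Blocks.irrComp (Subgroup.subgroupOfEquivOfLe hCH) ξ : IrrCharacter _) : _ → ℂ) ≠ 0) :
    IsInducedBlock M H B₀ B := by
  classical
  have := isPrime_of_modular hM
  obtain ⟨χ, hχ⟩ := IsPBlock.nonempty he.2.1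
  refine isInducedBlock_of_mem _ hB₀ he.2.1 hψ hχ fun g => ?_
  have h1 := induced_sub_brauer (M := M) H hM hP hPH hHN ψ g
  rw [brauerCentralChar_eq_spec] at h1
  have hf : ∀ t : H,
      Cfsg.Agent.Lib.Char.conjFun ((Subgroup.centralizer (P : Set G)).subgroupOf H) t
        (fun n : ((Subgroup.centralizer (P : Set G)).subgroupOf H) => brT H P (cls g) n) =
      fun n : ((Subgroup.centralizer (P : Set G)).subgroupOf H) => brT H P (cls g) n := by
    intro t
    funext n
    rw [Cfsg.Agent.Lib.Char.conjFun_apply]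
    have h2 := brT_isClassFunction H (P := P) hHN (cls_isClassFunction g) (n : _) t⁻¹
    simpa using h2
  have h3 := spec_extendByZero _ hf hcon
  have h4 : extendByZero ((Subgroup.centralizer (P : Set G)).subgroupOf H)
      (fun n : ((Subgroup.centralizer (P : Set G)).subgroupOf H) => brT H P (cls g) n) =
      brT H P (cls g) := by
    funext t
    by_cases ht : t ∈ (Subgroup.centralizer (P : Set G)).subgroupOf H
    · rw [extendByZero_of_mem _ _ ht]
    · rw [extendByZero_of_notMem _ _ ht, brT_of_notMem _ _ _ (fun h => ht (Subgroup.mem_subgroupOf.mpr h))]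
  rw [h4] at h3
  rw [h3] at h1
  have h5 : spec (fun n : ((Subgroup.centralizer (P : Set G)).subgroupOf H) => brT H P (cls g) n)
      (Cfsg.Agent.Lib.Blocks.irrComp (Subgroup.subgroupOfEquivOfLe hCH) ξ) =
      spec (Cfsg.Agent.Lib.Blocks.resFun (Subgroup.centralizer (P : Set G)) (cls g)) ξ := by
    rw [← spec_irrComp (Subgroup.subgroupOfEquivOfLe hCH)]
    congr 1
    funext n
    have hn : ((n : H) : G) ∈ Subgroup.centralizer (P : Set G) :=
      Subgroup.mem_subgroupOf.mp n.2
    rw [brT_of_mem _ _ _ hn]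
    rfl
  rw [h5, ← inducedCentralChar_eq_spec] at h1
  exact MemLocalIdeal.trans h1 (he.2.2 ξ hξ χ hχ g)

/-- Every defect group of a block is the first component of a Brauer pair of the block. -/
theorem exists_isBrauerPairOf_of_isDefectGroup (hM : IsPModular p M) {B : Set (IrrCharacter G)}
    (hB : IsPBlock M B) {D : Subgroup G} (hD : IsDefectGroup p M B D) :
    ∃ e : Set (IrrCharacter (Subgroup.centralizer (D : Set G))), IsBrauerPairOf p M B D e := by
  classical
  have := isPrime_of_modular hM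
  letI : Fintype (Subgroup.centralizer (D : Set G)) := Fintype.ofFinite _
  obtain ⟨g, hg, hS⟩ := isDefectGroup_iff.mp hD
  have hDp := hS.isPGroup
  have hgC : g ∈ Subgroup.centralizer (D : Set G) := by
    rw [Subgroup.mem_centralizer_iff]
    intro t ht
    exact Subgroup.mem_centralizer_singleton_iff.mp (hS.le ht)
  have hy : ¬ MemLocalIdeal M (coef (indic B) (Subgroup.subtype _ (⟨g, hgC⟩ : Subgroup.centralizer (D : Set G)))) := by
    rw [← blockCoeff_eq_coef]
    exact hg.2.1
  obtain ⟨ξ₀, hξ₀⟩ := exists_brV_not_mem hM hDp (brData_g D) (indic_mem_zS hB) (indic_mul_self B)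
    (invF_of_isStable (isStable_g B)) hy
  obtain ⟨f₂, ⟨hf₂, hf₂s, hf₂1⟩, -⟩ := existsUnique_stable_block hM hDp (brData_g D) ξ₀
  have hff₂ : f₂ = B := by
    by_contra hne
    have h3 := brV_mul hM hDp (brData_g D) (indic_mem_zS hf₂) (indic_mem_zS hB) (invF_of_isStable hf₂s)
      (invF_of_isStable (isStable_g B)) ξ₀
    rw [indic_mul_indic_eq_zero hf₂ hB hne, brV_zero, zero_sub] at h3
    have h4 := MemLocalIdeal.neg h3
    rw [neg_neg] at h4
    have h5 := MemLocalIdeal.mul_right hf₂1 (brV_memLocalRing (Subgroup.subtype _) (indic_mem_zS hB) ξ₀)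
    apply hξ₀
    have h6 := MemLocalIdeal.sub h4 h5
    convert h6 using 1
    ring
  rw [hff₂] at hf₂1
  refine ⟨blockOf M (ξ₀ : Subgroup.centralizer (D : Set G) → ℂ), ⟨hDp, isPBlock_blockOf ξ₀⟩, hB, fun ξ hξ => ?_⟩
  rw [brauerOmega_eq_brV_g]
  exact MemLocalIdeal.trans (brV_congr (Subgroup.subtype _) (indic_mem_zS hB) (isPBlock_blockOf ξ₀) hξ (self_mem_blockOf ξ₀)) hf₂1

/-- **Transitivity of block induction**, with a subgroup of a subgroup identified with a subgroup. -/
theorem isInducedBlock_tower (hM : IsPModular p M) (K : Subgroup G) [Fintype K] (L : Subgroup K) [Fintype L]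
    (L' : Subgroup G) [Fintype L'] (φ : L ≃* L') (hφ : ∀ x : L, ((φ x : L') : G) = ((x : K) : G)) {b : Set (IrrCharacter L)}
    {B₀ : Set (IrrCharacter K)} {B : Set (IrrCharacter G)} (h1 : IsInducedBlock M L b B₀)
    (h2 : IsInducedBlock M K B₀ B) : IsInducedBlock M L' (transBlock φ.symm b) B := by
  classical
  have := isPrime_of_modular hM
  refine ⟨isPBlock_transBlock _ h1.1, h2.2.1, fun ξ' hξ' χ hχ g => ?_⟩
  have hξ : Cfsg.Agent.Lib.Blocks.irrComp φ ξ' ∈ b := hξ'
  obtain ⟨θ, hθ⟩ := IsPBlock.nonempty h1.2.1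
  have ha : IsClassFunction K (Cfsg.Agent.Lib.Blocks.resFun K (cls g)) :=
    resFun_isClassFunction K (cls_isClassFunction g)
  have hc : spec (Cfsg.Agent.Lib.Blocks.resFun K (cls g)) ∈ zS M K :=
    spec_mem_zS ha (fun x => cls_memLocalRing g x)
  have h3 := IsInducedBlock.resPhi_congr L h1 hξ hθ hc
  rw [resPhi, coef_spec _ ha] at h3
  have h4 : spec (Cfsg.Agent.Lib.Blocks.resFun L (Cfsg.Agent.Lib.Blocks.resFun K (cls g)))
      (Cfsg.Agent.Lib.Blocks.irrComp φ ξ') = spec (Cfsg.Agent.Lib.Blocks.resFun L' (cls g)) ξ' := by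
    rw [← spec_irrComp φ]
    congr 1
    funext x
    simp only [resFun_apply, Function.comp_apply, hφ]
  have h5 := h2.2.2 θ hθ χ hχ g
  rw [inducedCentralChar_eq_spec] at h5 ⊢
  rw [h4] at h3
  exact MemLocalIdeal.trans h3 h5

end Gen

end Cfsg.Agent.Lib.Char.BK
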