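import Mathlib
import Cfsg.Agent.Lib.Char.Kernel
import Cfsg.Agent.Lib.Char.Degree

/-!
Products of an irreducible character with the constituents of a permutation character:
producing a constituent of large degree with a small kernel.
-/

set_option autoImplicit false

namespace Cfsg.Agent.Lib.Char.Broline

open Cfsg Module
open scoped ComplexConjugate

universe u

variable {G : Type u} [Group G] [Fintype G]

theorem eq_of_norm_le_of_le_re {z : ℂ} {r : ℝ} (h1 : ‖z‖ ≤ r) (h2 : r ≤ z.re) : z = r := by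
  have h3 : z.re ≤ ‖z‖ := Complex.re_le_norm z
  have h4 : z.re = r := le_antisymm (h3.trans h1) h2
  have h5 : ‖z‖ = r := le_antisymm h1 (by rw [← h4]; exact h3)
  have h6 : ‖z‖ ^ 2 = z.re ^ 2 + z.im ^ 2 := by
    rw [Complex.sq_norm, Complex.normSq_apply]
    ring
  rw [h5, h4] at h6
  have h7 : z.im = 0 := by
    have : z.im ^ 2 = 0 := by linarith
    exact pow_eq_zero_iff (two_ne_zero) |>.mp this
  apply Complex.ext
  · simpa using h4
  · simpa using h7

theorem character_re_le {χ : G → ℂ} (hχ : IsCharacter G χ) (g : G) : (χ g).re ≤ (χ 1).re := by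
  obtain ⟨n, hn⟩ := IsCharacter.apply_one hχ
  have h1 := IsCharacter.norm_le hχ g
  have h2 := Complex.re_le_norm (χ g)
  rw [hn] at h1 ⊢
  simp only [Complex.norm_natCast, Complex.natCast_re] at h1 ⊢
  linarith

theorem eq_of_re_ge {χ : G → ℂ} (hχ : IsCharacter G χ) {g : G} (h : (χ 1).re ≤ (χ g).re) :
    χ g = χ 1 := by
  obtain ⟨n, hn⟩ := IsCharacter.apply_one hχ
  have h1 := IsCharacter.norm_le hχ g
  rw [hn] at h1 h ⊢
  simp only [Complex.norm_natCast, Complex.natCast_re] at h1 h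
  simpa using eq_of_norm_le_of_le_re h1 h

/-- A constituent of a character inherits the elements on which the character takes its degree. -/
theorem irr_apply_eq_of_constituent {γ β : G → ℂ} (hγ : IsCharacter G γ) (hβ : IsIrrCharacter G β)
    (hne : classInner γ β ≠ 0) {l : G} (hl : γ l = γ 1) : β l = β 1 := by
  classical
  obtain ⟨m, hm, hsum⟩ := IsCharacter.exists_eq_sum hγ
  have hmβ : m ⟨β, hβ⟩ ≠ 0 := by
    intro h0
    apply hne
    rw [hm ⟨β, hβ⟩, h0, Nat.cast_zero]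
  have hval : ∀ g, γ g = ∑ ψ : IrrCharacter G, (m ψ : ℂ) * (ψ : G → ℂ) g := by
    intro g
    conv_lhs => rw [hsum]
    rw [Finset.sum_apply]
    refine Finset.sum_congr rfl fun ψ _ => ?_
    simp
  have h1 : ∑ ψ : IrrCharacter G, (m ψ : ℝ) * (((ψ : G → ℂ) 1).re - ((ψ : G → ℂ) l).re) = 0 := by
    have h2 := congrArg Complex.re hl
    rw [hval l, hval 1, Complex.re_sum, Complex.re_sum] at h2
    simp only [Complex.mul_re, Complex.natCast_re, Complex.natCast_im, zero_mul, sub_zero] at h2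
    simp only [mul_sub, Finset.sum_sub_distrib]
    linarith
  have hnn : ∀ ψ ∈ (Finset.univ : Finset (IrrCharacter G)),
      0 ≤ (m ψ : ℝ) * (((ψ : G → ℂ) 1).re - ((ψ : G → ℂ) l).re) := by
    intro ψ _
    apply mul_nonneg (Nat.cast_nonneg _)
    have := character_re_le (IsIrrCharacter.isCharacter ψ.2) l
    linarith
  have h3 := (Finset.sum_eq_zero_iff_of_nonneg hnn).mp h1 ⟨β, hβ⟩ (Finset.mem_univ _)
  have h4 : (m ⟨β, hβ⟩ : ℝ) ≠ 0 := by exact_mod_cast hmβ
  have h5 := (mul_eq_zero.mp h3).resolve_left h4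
  apply eq_of_re_ge (IsIrrCharacter.isCharacter hβ)
  simp only at h5
  linarith

/-- A character with small norm has a constituent of large degree. -/
theorem exists_large_constituent {γ : G → ℂ} (hγ : IsCharacter G γ) (d : ℝ) (hd : 0 ≤ d)
    (hlt : d * (classInner γ γ).re < (γ 1).re) :
    ∃ ψ : IrrCharacter G, classInner γ (ψ : G → ℂ) ≠ 0 ∧ d < ((ψ : G → ℂ) 1).re := by
  classical
  by_contra hcon
  push Not at hcon
  obtain ⟨m, hm, hsum⟩ := IsCharacter.exists_eq_sum hγ
  have h1 : (γ 1).re = ∑ ψ : IrrCharacter G, (m ψ : ℝ) * ((ψ : G → ℂ) 1).re := by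
    conv_lhs => rw [hsum]
    rw [Finset.sum_apply, Complex.re_sum]
    refine Finset.sum_congr rfl fun ψ _ => ?_
    simp
  have h2 : classInner γ γ = ∑ ψ : IrrCharacter G, (m ψ : ℂ) * (m ψ : ℂ) := by
    calc classInner γ γ = classInner (∑ ψ : IrrCharacter G, m ψ • (ψ : G → ℂ)) γ := by rw [← hsum]
      _ = ∑ ψ : IrrCharacter G, (m ψ : ℂ) * classInner (ψ : G → ℂ) γ := by
          rw [classInner_sum_left]
          refine Finset.sum_congr rfl fun ψ _ => ?_
          rw [← Nat.cast_smul_eq_nsmul ℂ, classInner_smul_left]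
      _ = _ := by
          refine Finset.sum_congr rfl fun ψ _ => ?_
          rw [classInner_conj_symm, hm ψ, map_natCast]
  have h3 : (classInner γ γ).re = ∑ ψ : IrrCharacter G, (m ψ : ℝ) * (m ψ : ℝ) := by
    rw [h2, Complex.re_sum]
    refine Finset.sum_congr rfl fun ψ _ => ?_
    rw [← Nat.cast_mul, Complex.natCast_re, Nat.cast_mul]
  have h4 : (γ 1).re ≤ d * (classInner γ γ).re := by
    rw [h1, h3, Finset.mul_sum]
    refine Finset.sum_le_sum fun ψ _ => ?_
    by_cases h0 : m ψ = 0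
    · simp [h0]
    · have h5 : classInner γ (ψ : G → ℂ) ≠ 0 := by
        rw [hm ψ]
        exact_mod_cast h0
      have h6 := hcon ψ h5
      have h7 : (1 : ℝ) ≤ (m ψ : ℝ) := by exact_mod_cast Nat.one_le_iff_ne_zero.mpr h0
      have h8 : (0 : ℝ) ≤ m ψ := by positivity
      calc (m ψ : ℝ) * ((ψ : G → ℂ) 1).re ≤ (m ψ : ℝ) * d := by
            exact mul_le_mul_of_nonneg_left h6 h8
        _ ≤ d * ((m ψ : ℝ) * (m ψ : ℝ)) := by
            nlinarith [mul_nonneg (mul_nonneg hd h8) (sub_nonneg.mpr h7)]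
  linarith

/-- Splitting a character into the part nontrivial on `N` and the part trivial on `N`. -/
theorem exists_split {π : G → ℂ} (hπ : IsCharacter G π) (N : Subgroup G) :
    ∃ A B : G → ℂ, IsCharacter G A ∧ IsCharacter G B ∧ π = A + B ∧
      (∀ β : G → ℂ, IsIrrCharacter G β → classInner A β ≠ 0 →
        ¬ N ≤ charKer β ∧ classInner π β ≠ 0) ∧
      (∀ n ∈ N, B n = B 1) := by
  classical
  obtain ⟨m, hm, hsum⟩ := IsCharacter.exists_eq_sum hπ
  let S : Finset (IrrCharacter G) := Finset.univ.filter fun β => ¬ N ≤ charKer (β : G → ℂ)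
  let T : Finset (IrrCharacter G) := Finset.univ.filter fun β => N ≤ charKer (β : G → ℂ)
  have hA : IsCharacter G (∑ β ∈ S, m β • (β : G → ℂ)) :=
    IsCharacter.sum _ fun β _ => IsCharacter.nsmul (IsIrrCharacter.isCharacter β.2) _
  have hB : IsCharacter G (∑ β ∈ T, m β • (β : G → ℂ)) :=
    IsCharacter.sum _ fun β _ => IsCharacter.nsmul (IsIrrCharacter.isCharacter β.2) _
  refine ⟨_, _, hA, hB, ?_, ?_, ?_⟩
  · rw [hsum]
    have h1 := Finset.sum_filter_add_sum_filter_not (Finset.univ : Finset (IrrCharacter G))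
      (fun β => N ≤ charKer (β : G → ℂ)) (fun β => m β • (β : G → ℂ))
    rw [← h1, add_comm]
  · intro β hβ hne
    have h2 : classInner (∑ β ∈ S, m β • (β : G → ℂ)) β =
        ∑ ψ ∈ S, (m ψ : ℂ) * classInner (ψ : G → ℂ) β := by
      rw [classInner_sum_left]
      refine Finset.sum_congr rfl fun ψ _ => ?_
      rw [← Nat.cast_smul_eq_nsmul ℂ, classInner_smul_left]
    rw [h2] at hne
    obtain ⟨ψ, hψS, hψ⟩ := Finset.exists_ne_zero_of_sum_ne_zero hne
    have h3 := (mul_ne_zero_iff.mp hψ).1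
    have h4 := (mul_ne_zero_iff.mp hψ).2
    have h5 : (ψ : G → ℂ) = β := by
      by_contra h6
      exact h4 (classInner_irr_of_ne ψ.2 hβ h6)
    have h6 : ψ = ⟨β, hβ⟩ := Subtype.ext h5
    subst h6
    refine ⟨(Finset.mem_filter.mp hψS).2, ?_⟩
    have h7 : classInner π β = (m ⟨β, hβ⟩ : ℂ) := hm ⟨β, hβ⟩
    rw [h7]
    exact h3
  · intro n hn
    simp only [Finset.sum_apply, Pi.smul_apply]
    refine Finset.sum_congr rfl fun β hβ => ?_
    have h1 := (Finset.mem_filter.mp hβ).2 hn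
    rw [mem_charKer (IsIrrCharacter.isCharacter β.2)] at h1
    rw [h1]

/-- Restriction to a subgroup supplementing a subgroup of the kernel preserves averages. -/
theorem avg_subgroup_eq (K H : Subgroup G) [Fintype K] [Fintype H]
    (hKH : ∀ g : G, ∃ k ∈ K, ∃ h ∈ H, g = k * h) (f : G → ℂ) (hf : ∀ k ∈ K, ∀ g, f (k * g) = f g) :
    (Nat.card H : ℂ)⁻¹ * ∑ h : H, f h = (Nat.card G : ℂ)⁻¹ * ∑ g, f g := by
  classical
  let w : G → ℂ := fun c => ∑ k : K, if (k : G) * c ∈ H then 1 else 0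
  have hw1 : ∀ (k₀ : K) c, w ((k₀ : G) * c) = w c := by
    intro k₀ c
    simp only [w]
    rw [← Equiv.sum_comp (Equiv.mulRight k₀⁻¹)]
    refine Finset.sum_congr rfl fun k _ => ?_
    simp [mul_assoc]
  have hw2 : ∀ (h₀ : H) c, w (c * (h₀ : G)) = w c := by
    intro h₀ c
    simp only [w]
    refine Finset.sum_congr rfl fun k _ => ?_
    have h1 : (k : G) * (c * h₀) ∈ H ↔ (k : G) * c ∈ H := by
      rw [← mul_assoc]
      exact Subgroup.mul_mem_cancel_right H h₀.2
    simp [h1]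
  have hw : ∀ c, w c = w 1 := by
    intro c
    obtain ⟨k, hk, h, hh, rfl⟩ := hKH c
    have h1 := hw1 ⟨k, hk⟩ h
    have h2 := hw2 ⟨h, hh⟩ 1
    simp only [one_mul] at h2
    rw [show k * h = ((⟨k, hk⟩ : K) : G) * h from rfl, h1, h2]
  have hmain : ∀ f' : G → ℂ, (∀ k ∈ K, ∀ g, f' (k * g) = f' g) →
      w 1 * ∑ g, f' g = (Nat.card K : ℂ) * ∑ h : H, f' h := by
    intro f' hf'
    have h1 : ∀ g, w 1 * f' g = ∑ k : K, (if (k : G) * g ∈ H then 1 else 0) * f' g := by
      intro g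
      rw [← hw g, ← Finset.sum_mul]
    rw [Finset.mul_sum, Finset.sum_congr rfl fun g _ => h1 g, Finset.sum_comm]
    have h2 : ∀ k : K, ∑ g, (if (k : G) * g ∈ H then (1 : ℂ) else 0) * f' g = ∑ h : H, f' h := by
      intro k
      rw [← Equiv.sum_comp (Equiv.mulLeft (k : G)⁻¹)]
      have h3 : ∀ g : G, (if (k : G) * (Equiv.mulLeft (k : G)⁻¹ g) ∈ H then (1 : ℂ) else 0) *
          f' (Equiv.mulLeft (k : G)⁻¹ g) = (if g ∈ H then (1 : ℂ) else 0) * f' g := by
        intro g
        simp only [Equiv.coe_mulLeft, mul_inv_cancel_left]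
        rw [hf' _ (K.inv_mem k.2)]
      rw [Finset.sum_congr rfl fun g _ => h3 g]
      simp only [ite_mul, one_mul, zero_mul]
      rw [← Finset.sum_filter, Finset.sum_subtype (p := (· ∈ H)) _ (by simp)]
    rw [Finset.sum_congr rfl fun k _ => h2 k]
    rw [Finset.sum_const, Finset.card_univ, nsmul_eq_mul, Nat.card_eq_fintype_card]
  have h1 := hmain f hf
  have h2 := hmain (fun _ => 1) (fun _ _ _ => rfl)
  simp only [Finset.sum_const, Finset.card_univ, nsmul_eq_mul, mul_one] at h2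
  rw [← Nat.card_eq_fintype_card, ← Nat.card_eq_fintype_card] at h2
  have hG : (Nat.card G : ℂ) ≠ 0 := by exact_mod_cast (Nat.card_pos (α := G)).ne'
  have hH : (Nat.card H : ℂ) ≠ 0 := by exact_mod_cast (Nat.card_pos (α := H)).ne'
  have hK : (Nat.card K : ℂ) ≠ 0 := by exact_mod_cast (Nat.card_pos (α := K)).ne'
  have hw0 : w 1 ≠ 0 := by
    intro h0
    rw [h0, zero_mul] at h2
    exact mul_ne_zero hK hH h2.symm
  have h3 : (Nat.card K : ℂ) * ((Nat.card H : ℂ) * ∑ g, f g) =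
      (Nat.card K : ℂ) * ((Nat.card G : ℂ) * ∑ h : H, f h) := by
    calc (Nat.card K : ℂ) * ((Nat.card H : ℂ) * ∑ g, f g)
        = ((Nat.card K : ℂ) * (Nat.card H : ℂ)) * ∑ g, f g := by ring
      _ = (w 1 * (Nat.card G : ℂ)) * ∑ g, f g := by rw [h2]
      _ = (Nat.card G : ℂ) * (w 1 * ∑ g, f g) := by ring
      _ = _ := by rw [h1]; ring
  have h4 := mul_left_cancel₀ hK h3
  calc (Nat.card H : ℂ)⁻¹ * ∑ h : H, f h
      = (Nat.card H : ℂ)⁻¹ * ((Nat.card G : ℂ)⁻¹ * ((Nat.card H : ℂ) * ∑ g, f g)) := by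
        rw [h4, inv_mul_cancel_left₀ hG]
    _ = (Nat.card G : ℂ)⁻¹ * ∑ g, f g := by
        field_simp

end Cfsg.Agent.Lib.Char.Broline
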