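import Cfsg.Agent.Lib.Char.CanonInd
import Cfsg.Agent.Lib.Coprime.CycCore
import Cfsg.Agent.Lib.PLocal.PSolv
import Cfsg.Agent.Lib.Basic.SchurZassenhaus
import Cfsg.Agent.Lib.Coprime.PSolvable

/-!
# The bound on `[P : O_p(G)]` for `p`-soluble linear groups
-/

set_option autoImplicit false
set_option linter.unusedSectionVars false

namespace Cfsg.Agent.Lib.Char

open Cfsg Module
open scoped ComplexConjugate Pointwise

universe u

namespace Canon

section Main

variable {G : Type u} [Group G] [Finite G] {p : ℕ} [hp : Fact p.Prime]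

/-- The ambient form of `exists_kernel_bound`. -/
theorem exists_kernel_bound' (Y S : Subgroup G) (hnorm : S ≤ Subgroup.normalizer (Y : Set G))
    (hYp : Nat.Coprime (Nat.card Y) p) (hS : IsPGroup p S) {ψ : G → ℂ} (hψ : IsCharacter G ψ)
    (hf : ∀ g, ψ g = ψ 1 → g = 1) {n : ℕ} (hn : ψ 1 = n) :
    ∃ K : Subgroup S, (∀ x ∈ K, ∀ y ∈ Y, (x : G) * y = y * x) ∧
      K.index.factorization p ≤ ∑ i ∈ Finset.range (n + 1), n / ((p - 1) * p ^ i) := by
  classical
  set H : Subgroup G := S ⊔ Y with hH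
  have hSH : S ≤ H := le_sup_left
  have hYH : Y ≤ H := le_sup_right
  haveI hY' : (Y.subgroupOf H).Normal :=
    (Subgroup.normal_subgroupOf_iff_le_normalizer hYH).mpr (sup_le hnorm Subgroup.le_normalizer)
  have hsup : S.subgroupOf H ⊔ Y.subgroupOf H = ⊤ := by
    rw [← Subgroup.subgroupOf_sup hSH hYH]
    exact Subgroup.subgroupOf_self H
  have hcard : Nat.card (Y.subgroupOf H) = Nat.card Y :=
    Nat.card_congr (Subgroup.subgroupOfEquivOfLe hYH).toEquiv
  have hS' : IsPGroup p (S.subgroupOf H) := hS.of_equiv (Subgroup.subgroupOfEquivOfLe hSH).symm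
  obtain ⟨K', hK', hb⟩ := exists_kernel_bound (Y.subgroupOf H) (by rw [hcard]; exact hYp)
    (S.subgroupOf H) hS' hsup (IsCharacter.comp hψ H.subtype)
    (fun g hg => Subtype.ext (hf _ hg)) (n := n) hn
  let e : S.subgroupOf H ≃* S := Subgroup.subgroupOfEquivOfLe hSH
  refine ⟨K'.comap e.symm.toMonoidHom, ?_, ?_⟩
  · intro x hx y hy
    have h1 := hK' (e.symm x) hx ⟨y, hYH hy⟩ hy
    exact congrArg Subtype.val h1
  · rw [Subgroup.index_comap_of_surjective _ e.symm.surjective]
    exact hb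

/-- The bound for `p`-soluble linear groups. -/
theorem linear_bound (χ : G → ℂ) (hχ : IsCharacter G χ) (hfaith : ∀ g : G, χ g = χ 1 → g = 1) (n : ℕ)
    (hn : charDegree χ = n) (hsolv : IsPSolvable p G) :
    ((pCore p G).index).factorization p ≤ ∑ i ∈ Finset.range (n + 1), n / ((p - 1) * p ^ i) := by
  classical
  have h1 : χ 1 = n := by rw [apply_one_eq_charDegree hχ, hn]
  set Q := pCore p G with hQ
  haveI hQn : Q.Normal := Cfsg.Agent.Lib.Basic.pCore_normal p
  have hQp : IsPGroup p Q := Cfsg.Agent.Lib.Basic.pCore_isPGroup p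
  let π : G →* G ⧸ Q := QuotientGroup.mk' Q
  have hπ : Function.Surjective π := QuotientGroup.mk'_surjective Q
  set R := pPrimeCore p (G ⧸ Q) with hR
  haveI hRn : R.Normal := Cfsg.Agent.Lib.Basic.pPrimeCore_normal p
  have hRp : Nat.Coprime (Nat.card R) p := Cfsg.Agent.Lib.Basic.pPrimeCore_coprime p
  set Y₁ := R.comap π with hY₁
  haveI hY₁n : Y₁.Normal := hRn.comap π
  have hQY₁ : Q ≤ Y₁ := fun x hx => by
    show π x ∈ R
    have : π x = 1 := (QuotientGroup.eq_one_iff x).mpr hx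
    rw [this]
    exact R.one_mem
  have hrel : Q.relIndex Y₁ = Nat.card R := by
    have h2 := Subgroup.relIndex_ker (K := Y₁) π
    have h3 : π.ker = Q := QuotientGroup.ker_mk' Q
    rw [h3] at h2
    rw [h2, Subgroup.map_comap_eq_self_of_surjective hπ]
  obtain ⟨a, ha⟩ := IsPGroup.iff_card.mp hQp
  have hc : (Nat.card Q).Coprime (Q.relIndex Y₁) := by
    rw [ha, hrel]
    exact Nat.Coprime.pow_left _ hRp.symm
  obtain ⟨Y, hYY₁, hsupY, hinfY, hcardY⟩ := Cfsg.Agent.Lib.Coprime.exists_complement_of_coprime hQY₁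
    (by rw [Subgroup.normalizer_eq_top_iff.mpr hQn]; exact le_top) hc
  have hYp : Nat.Coprime (Nat.card Y) p := by
    rw [hcardY, hrel]
    exact hRp
  -- Frattini
  set N := Subgroup.normalizer (Y : Set G) with hN
  have hfrat : ∀ g : G, ∃ q ∈ Q, q * g ∈ N := by
    intro g
    let Yg : Subgroup G := Y.map (MulAut.conj g).toMonoidHom
    have hcard' : Nat.card Yg = Nat.card Y :=
      Subgroup.card_map_of_injective (MulAut.conj g).injective
    have hYgsup : Yg ⊔ Q = Y ⊔ Q := by
      rw [sup_comm Y Q, hsupY]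
      apply le_antisymm
      · refine sup_le ?_ hQY₁
        rintro _ ⟨y, hy, rfl⟩
        exact hY₁n.conj_mem y (hYY₁ hy) g
      · intro x hx
        have h2 : g⁻¹ * x * g⁻¹⁻¹ ∈ Q ⊔ Y := by
          rw [hsupY]
          exact hY₁n.conj_mem x hx g⁻¹
        obtain ⟨q, hq, y, hy, hqy⟩ := Subgroup.mem_sup_of_normal_left.mp h2
        have h3 : x = (g * y * g⁻¹) * (g * (y⁻¹ * q * y) * g⁻¹) := by
          have h4 : x = g * (q * y) * g⁻¹ := by rw [hqy]; group
          rw [h4]
          group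
        rw [h3]
        apply Subgroup.mul_mem
        · exact (le_sup_left : Yg ≤ Yg ⊔ Q) ⟨y, hy, rfl⟩
        · apply (le_sup_right : Q ≤ Yg ⊔ Q)
          exact hQn.conj_mem _ (hQn.conj_mem' q hq y) g
    haveI hnilQ : Group.IsNilpotent Q := hQp.isNilpotent
    have hsolvQ : Group.IsSolvable Q := inferInstance
    have hcop1 : (Nat.card Q).Coprime (Nat.card Yg) := by
      rw [hcard', ha]
      exact Nat.Coprime.pow_left _ hYp.symm
    have hcop2 : (Nat.card Q).Coprime (Nat.card Y) := by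
      rw [ha]
      exact Nat.Coprime.pow_left _ hYp.symm
    have hnQ : ∀ K : Subgroup G, K ≤ Subgroup.normalizer (Q : Set G) := fun K => by
      rw [Subgroup.normalizer_eq_top_iff.mpr hQn]
      exact le_top
    obtain ⟨q, hq, hqg⟩ := Cfsg.Agent.Lib.Basic.schurZassenhaus_conj_rel Q Yg Y (hnQ _) (hnQ _) hcop1 hcop2
      hYgsup (Or.inl hsolvQ)
    refine ⟨q, hq, ?_⟩
    rw [hN, Subgroup.mem_normalizer_iff]
    intro y
    have hval : ∀ y : G, (q * g) * y * (q * g)⁻¹ = MulAut.conj q • (MulAut.conj g y) := by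
      intro y
      simp [MulAut.smul_def, mul_assoc]
    constructor
    · intro hy
      have h2 : MulAut.conj g y ∈ Yg := ⟨y, hy, rfl⟩
      have h3 : MulAut.conj q • (MulAut.conj g y) ∈ MulAut.conj q • Yg :=
        Subgroup.smul_mem_pointwise_smul _ _ _ h2
      rw [hqg] at h3
      rw [hval]
      exact h3
    · intro hy
      rw [hval, ← hqg] at hy
      obtain ⟨w, hw, hwy⟩ := (Subgroup.mem_smul_pointwise_iff_exists _ _ _).mp hy
      have h2 : w = MulAut.conj g y := (MulAut.conj q).injective hwy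
      obtain ⟨y', hy', hy'w⟩ := hw
      have h3 : y' = y := (MulAut.conj g).injective (by rw [← h2]; exact hy'w)
      rw [← h3]
      exact hy'
  have hQN : Q ⊔ N = ⊤ := by
    rw [eq_top_iff]
    intro g _
    obtain ⟨q, hq, hqg⟩ := hfrat g
    have h2 : g = q⁻¹ * (q * g) := by group
    rw [h2]
    exact Subgroup.mul_mem _ ((le_sup_left : Q ≤ Q ⊔ N) (Q.inv_mem hq)) ((le_sup_right : N ≤ Q ⊔ N) hqg)
  -- a Sylow subgroup of the normalizer
  obtain ⟨S₀⟩ : Nonempty (Sylow p N) := inferInstance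
  set S : Subgroup G := (S₀ : Subgroup N).map N.subtype with hS
  have hSN : S ≤ N := Subgroup.map_subtype_le _
  have hSp : IsPGroup p S := S₀.isPGroup'.map _
  obtain ⟨K, hK, hb⟩ := exists_kernel_bound' Y S hSN hYp hSp hχ hfaith h1
  -- `K` lies in `Q`
  have hsR : IsPSolvable p (G ⧸ Q) :=
    Cfsg.Agent.Lib.Coprime.isPSolvable_map π hπ hsolv
  have hbot : pCore p (G ⧸ Q) = ⊥ := Cfsg.Agent.Lib.Coprime.CycCore.pCore_quot_self'
  have hcentR := Cfsg.Agent.Lib.PLocal.centralizer_pPrimeCore_le_of_isPSolvable hsR hbot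
  have hKQ : ∀ x ∈ K, ((x : S) : G) ∈ Q := by
    intro x hx
    have h2 : π x ∈ Subgroup.centralizer (R : Set (G ⧸ Q)) := by
      rw [Subgroup.mem_centralizer_iff]
      intro r hr
      obtain ⟨g, rfl⟩ := hπ r
      have hg : g ∈ Y₁ := hr
      rw [← hsupY] at hg
      obtain ⟨q, hq, y, hy, rfl⟩ := Subgroup.mem_sup_of_normal_left.mp hg
      have h3 : π q = 1 := (QuotientGroup.eq_one_iff q).mpr hq
      rw [map_mul, h3, one_mul, ← map_mul, ← map_mul, hK x hx y hy]
    have h3 := hcentR h2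
    obtain ⟨j, hj⟩ := IsPGroup.iff_orderOf.mp hSp x
    have h4 : (π x) ^ p ^ j = 1 := by
      rw [← map_pow, ← hj]
      have h5 : ((x : S) : G) ^ orderOf x = 1 := by
        rw [← Subgroup.coe_pow, pow_orderOf_eq_one]
        rfl
      rw [h5, map_one]
    have h5 : orderOf (π x) ∣ p ^ j := orderOf_dvd_of_pow_eq_one h4
    have h6 : orderOf (π x) ∣ Nat.card R := by
      rw [← Subgroup.orderOf_mk (π x) h3]
      exact orderOf_dvd_natCard _
    have h7 : Nat.Coprime (p ^ j) (Nat.card R) := Nat.Coprime.pow_left _ hRp.symm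
    have h8 : π x = 1 := orderOf_eq_one_iff.mp (Nat.eq_one_of_dvd_coprimes h7 h5 h6)
    exact (QuotientGroup.eq_one_iff _).mp h8
  -- the index computation
  have hKW : K ≤ Q.subgroupOf S := fun x hx => hKQ x hx
  have hAdvd : Q.relIndex S ∣ K.index := Subgroup.index_dvd_of_le hKW
  have hidx1 : Q.index = Q.relIndex N := by
    rw [← Subgroup.relIndex_sup_left N Q, hQN, Subgroup.relIndex_top_right]
  have hinf : Q ⊓ N = Q ⊓ S := by
    apply le_antisymm
    · intro x hx
      refine ⟨hx.1, ?_⟩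
      have hn : (Q.subgroupOf N).Normal := Subgroup.normal_subgroupOf
      have hp2 : IsPGroup p (Q.subgroupOf N) := by
        rintro ⟨⟨z, hzN⟩, hzQ⟩
        obtain ⟨k, hk⟩ := hQp ⟨z, hzQ⟩
        have h5 : z ^ p ^ k = 1 := congrArg Subtype.val hk
        exact ⟨k, Subtype.ext (Subtype.ext h5)⟩
      have h3 := Cfsg.Agent.Lib.Basic.normal_pGroup_le_sylow hn hp2 S₀
      have h4 : (⟨x, hx.2⟩ : N) ∈ (S₀ : Subgroup N) := h3 hx.1
      exact ⟨_, h4, rfl⟩
    · exact le_inf inf_le_left (inf_le_right.trans hSN)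
  have hidx2 : Q.relIndex N = Q.relIndex S * S.relIndex N := by
    have h2 := Subgroup.relIndex_mul_relIndex (Q ⊓ S) S N inf_le_right hSN
    rw [Subgroup.inf_relIndex_right, ← hinf, Subgroup.inf_relIndex_right] at h2
    exact h2.symm
  have hnd : ¬ p ∣ S.relIndex N := by
    have h2 : S.subgroupOf N = (S₀ : Subgroup N) := by
      rw [hS, Subgroup.subgroupOf, Subgroup.comap_map_eq_self_of_injective N.subtype_injective]
    show ¬ p ∣ (S.subgroupOf N).index
    rw [h2]
    exact S₀.not_dvd_index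
  have hne : Q.index ≠ 0 := Subgroup.index_ne_zero_of_finite
  have hA0 : Q.relIndex S ≠ 0 := by
    intro h
    rw [hidx1, hidx2, h, zero_mul] at hne
    exact hne rfl
  have hC0 : S.relIndex N ≠ 0 := by
    intro h
    rw [hidx1, hidx2, h, mul_zero] at hne
    exact hne rfl
  have hK0 : K.index ≠ 0 := Subgroup.index_ne_zero_of_finite
  rw [hidx1, hidx2, Nat.factorization_mul hA0 hC0, Finsupp.add_apply,
    Nat.factorization_eq_zero_of_not_dvd hnd, add_zero]
  exact ((Nat.factorization_le_iff_dvd hA0 hK0).mpr hAdvd p).trans hb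

end Main

end Canon

end Cfsg.Agent.Lib.Char
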