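import Mathlib

set_option autoImplicit false

/-!
Covers of a finite abelian `p`-group by `p + 1` proper subgroups.
-/

namespace Cfsg.Agent.Lib.Char.CdP

universe u

section Cover

variable {T : Type u} [CommGroup T] [Finite T] {p : ℕ} [hp : Fact p.Prime] {ι : Type} [Fintype ι]

/-- Number theory for the count. -/
theorem count_aux {m q : ℕ} (hm : 1 ≤ m) (hq : q ≤ p + 1) (h : p ^ m = 1 + q * (p - 1)) :
    q = 1 ∨ q = p + 1 := by
  have hp2 := hp.out.two_le
  rcases q with _ | q'
  · simp at h
    have : p ≤ p ^ m := Nat.le_self_pow (by omega) p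
    omega
  · have hd : p ∣ p ^ m := dvd_pow_self p (by omega)
    rw [h] at hd
    have h1 : 1 + (q' + 1) * (p - 1) = p + q' * (p - 1) := by
      have : p = (p - 1) + 1 := by omega
      nth_rw 2 [this]
      ring
    rw [h1] at hd
    have h2 : p ∣ q' * (p - 1) := (Nat.dvd_add_right (dvd_refl p)).mp hd
    have h3 : Nat.Coprime p (p - 1) := by
      rw [hp.out.coprime_iff_not_dvd]
      intro h
      have := Nat.le_of_dvd (by omega) h
      omega
    have h4 : p ∣ q' := h3.dvd_of_dvd_mul_right h2
    rcases Nat.eq_zero_or_pos q' with h5 | h5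
    · left
      omega
    · right
      have : p ≤ q' := Nat.le_of_dvd h5 h4
      omega

/-- The abstract cover lemma, for a cover with trivial pairwise intersections. -/
theorem cover_aux (hT : IsPGroup p T) (hι : Fintype.card ι = p + 1) (Q : ι → Subgroup T)
    (hcover : ∀ μ, ∃ i, μ ∈ Q i) (hinter : ∀ i j, i ≠ j → Q i ⊓ Q j = ⊥) (hne : ∀ i, Q i ≠ ⊤) :
    (∀ i, Nat.card (Q i) = p) ∧ Nat.card T = p ^ 2 := by
  classical
  have hp2 := hp.out.two_le
  letI : Fintype T := Fintype.ofFinite T
  letI : ∀ i, Fintype (Q i) := fun i => Fintype.ofFinite _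
  -- each component has at most `p` elements
  choose idx hidx using hcover
  have hle : ∀ i, Nat.card (Q i) ≤ p := by
    intro i
    obtain ⟨μ, hμ⟩ : ∃ μ, μ ∉ Q i := by
      by_contra hcon
      push Not at hcon
      exact hne i (Subgroup.eq_top_iff' _ |>.mpr hcon)
    let f : Q i → {j : ι // j ≠ i} := fun ν => ⟨idx (μ * ν), by
      intro h
      have h1 := hidx (μ * ν)
      rw [h] at h1
      apply hμ
      have h2 := mul_mem h1 (inv_mem ν.2)
      simpa using h2⟩
    have hf : Function.Injective f := by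
      intro ν₁ ν₂ h
      have h0 : idx (μ * ν₁) = idx (μ * ν₂) := congrArg Subtype.val h
      have h1 := hidx (μ * ν₁)
      have h2 := hidx (μ * ν₂)
      rw [← h0] at h2
      have h3 : (ν₁ : T)⁻¹ * ν₂ ∈ Q (idx (μ * ν₁)) := by
        have := mul_mem (inv_mem h1) h2
        have h4 : (μ * ν₁)⁻¹ * (μ * ν₂) = (ν₁ : T)⁻¹ * ν₂ := by
          rw [mul_inv_rev]
          group
        rwa [h4] at this
      have h4 : (ν₁ : T)⁻¹ * ν₂ ∈ Q i := mul_mem (inv_mem ν₁.2) ν₂.2
      have h5 : idx (μ * ν₁) ≠ i := (f ν₁).2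
      have h6 : (ν₁ : T)⁻¹ * ν₂ ∈ Q (idx (μ * ν₁)) ⊓ Q i := Subgroup.mem_inf.mpr ⟨h3, h4⟩
      rw [hinter _ _ h5, Subgroup.mem_bot] at h6
      apply Subtype.ext
      exact (inv_mul_eq_one.mp h6)
    have h1 := Fintype.card_le_of_injective f hf
    rw [Fintype.card_subtype_compl, hι, Fintype.card_subtype_eq] at h1
    rw [Nat.card_eq_fintype_card]
    simpa using h1
  have hval : ∀ i, Nat.card (Q i) = 1 ∨ Nat.card (Q i) = p := by
    intro i
    obtain ⟨n, hn⟩ := IsPGroup.iff_card.mp (hT.to_subgroup (Q i))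
    rcases n with _ | n
    · left
      simpa using hn
    · right
      have h1 := hle i
      rw [hn] at h1 ⊢
      have h2 : p ^ (n + 1) = p ^ n * p := pow_succ p n
      have h3 : 0 < p ^ n := pow_pos hp.out.pos n
      have h4 : p ^ n = 1 := by
        nlinarith [h2, h1]
      rw [h2, h4, one_mul]
  -- the count
  have hsum : Nat.card T = 1 + ∑ i, (Nat.card (Q i) - 1) := by
    have h1 : (Finset.univ : Finset T).erase 1 =
        Finset.univ.biUnion (fun i => (Finset.univ.filter (· ∈ Q i)).erase 1) := by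
      ext μ
      simp only [Finset.mem_erase, Finset.mem_univ, and_true, Finset.mem_biUnion, Finset.mem_filter,
        true_and]
      constructor
      · intro h
        exact ⟨idx μ, h, hidx μ⟩
      · rintro ⟨i, h, -⟩
        exact h
    have h2 : ((Finset.univ : Finset T).erase 1).card =
        ∑ i, ((Finset.univ.filter (· ∈ Q i)).erase 1).card := by
      rw [h1, Finset.card_biUnion]
      intro i _ j _ hij
      rw [Function.onFun, Finset.disjoint_left]
      intro μ hμ hμ'
      simp only [Finset.mem_erase, Finset.mem_filter, Finset.mem_univ, true_and] at hμ hμ'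
      have h6 : μ ∈ Q i ⊓ Q j := Subgroup.mem_inf.mpr ⟨hμ.2, hμ'.2⟩
      rw [hinter _ _ hij, Subgroup.mem_bot] at h6
      exact hμ.1 h6
    have h3 : ∀ i, ((Finset.univ.filter (· ∈ Q i)).erase 1).card = Nat.card (Q i) - 1 := by
      intro i
      rw [Finset.card_erase_of_mem (by simp [one_mem])]
      rw [Nat.card_eq_fintype_card]
      congr 1
      rw [Fintype.card_subtype]
    rw [Finset.card_erase_of_mem (Finset.mem_univ _), Finset.card_univ, ← Nat.card_eq_fintype_card] at h2
    simp only [h3] at h2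
    have h4 : 0 < Nat.card T := Nat.card_pos
    omega
  set q := (Finset.univ.filter (fun i => Nat.card (Q i) = p)).card with hq
  have hsum2 : ∑ i, (Nat.card (Q i) - 1) = q * (p - 1) := by
    have h1 : ∀ i, Nat.card (Q i) - 1 = if Nat.card (Q i) = p then p - 1 else 0 := by
      intro i
      rcases hval i with h | h
      · rw [h]
        have : 1 ≠ p := by omega
        simp [this]
      · rw [h]
        simp
    simp only [h1]
    rw [← Finset.sum_filter, Finset.sum_const, smul_eq_mul]
  have hqle : q ≤ p + 1 := by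
    rw [← hι, hq]
    exact Finset.card_le_univ _
  obtain ⟨m, hm⟩ := IsPGroup.iff_card.mp hT
  rw [hsum2] at hsum
  rw [hm] at hsum
  obtain ⟨i₀⟩ : Nonempty ι := by
    rw [← Fintype.card_pos_iff]
    omega
  have hcardtop : ∀ i, Nat.card (Q i) ≠ Nat.card T := by
    intro i h
    apply hne i
    exact Subgroup.eq_top_of_card_eq _ h
  rcases m with _ | m
  · exfalso
    apply hcardtop i₀
    rw [hm]
    have h0 : Nat.card T = 1 := by simpa using hm
    have h1 : Nat.card (Q i₀) ≤ Nat.card T := Subgroup.card_le_card_group _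
    have h2 : 0 < Nat.card (Q i₀) := Nat.card_pos
    simp only [pow_zero]
    omega
  · rcases count_aux (by omega) hqle hsum with h | h
    · exfalso
      rw [h] at hsum hq
      obtain ⟨i, hi⟩ := Finset.card_eq_one.mp hq.symm
      have h2 : i ∈ Finset.univ.filter (fun i => Nat.card (Q i) = p) := by
        rw [hi]
        simp
      have h3 : Nat.card (Q i) = p := (Finset.mem_filter.mp h2).2
      apply hcardtop i
      rw [hm, hsum, h3]
      omega
    · have h3 : Finset.univ.filter (fun i => Nat.card (Q i) = p) = Finset.univ := by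
        apply Finset.eq_univ_of_card
        rw [← hq, h, hι]
      constructor
      · intro i
        have : i ∈ Finset.univ.filter (fun i => Nat.card (Q i) = p) := by
          rw [h3]
          simp
        exact (Finset.mem_filter.mp this).2
      · rw [hm, hsum, h]
        have h1 : 1 ≤ p := hp.out.pos
        zify [h1]
        ring

/-- The abstract cover lemma. -/
theorem cover_main (hT : IsPGroup p T) (hι : Fintype.card ι = p + 1) (P : ι → Subgroup T) (F₀ : Subgroup T)
    (hcover : ∀ μ, ∃ i, μ ∈ P i) (hinter : ∀ i j, i ≠ j → P i ⊓ P j = F₀) (hne : ∀ i, P i ≠ ⊤) :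
    (∀ i, (P i).index = p) ∧ F₀.index = p ^ 2 := by
  classical
  have hp2 := hp.out.two_le
  let π : T →* T ⧸ F₀ := QuotientGroup.mk' F₀
  have hπ : Function.Surjective π := QuotientGroup.mk'_surjective F₀
  have hker : π.ker = F₀ := QuotientGroup.ker_mk' F₀
  have hF₀le : ∀ i, F₀ ≤ P i := by
    intro i
    obtain ⟨j, hj⟩ : ∃ j, j ≠ i := by
      have : 1 < Fintype.card ι := by omega
      haveI := Fintype.one_lt_card_iff_nontrivial.mp this
      exact exists_ne i
    rw [← hinter i j hj.symm]
    exact inf_le_left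
  let Q : ι → Subgroup (T ⧸ F₀) := fun i => (P i).map π
  have hQP : ∀ i, (Q i).comap π = P i := by
    intro i
    apply Subgroup.comap_map_eq_self
    rw [hker]
    exact hF₀le i
  obtain ⟨h1, h2⟩ := cover_aux (T := T ⧸ F₀) (p := p) (hT.to_quotient F₀) hι Q
    (by
      intro μ
      obtain ⟨m, rfl⟩ := hπ μ
      obtain ⟨i, hi⟩ := hcover m
      exact ⟨i, Subgroup.mem_map_of_mem _ hi⟩)
    (by
      intro i j hij
      rw [eq_bot_iff]
      intro μ hμ
      obtain ⟨m, rfl⟩ := hπ μ
      have h1 : m ∈ (Q i).comap π := (Subgroup.mem_inf.mp hμ).1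
      have h2 : m ∈ (Q j).comap π := (Subgroup.mem_inf.mp hμ).2
      rw [hQP] at h1 h2
      have h3 : m ∈ P i ⊓ P j := Subgroup.mem_inf.mpr ⟨h1, h2⟩
      rw [hinter i j hij] at h3
      rw [Subgroup.mem_bot]
      exact (QuotientGroup.eq_one_iff _).mpr h3)
    (by
      intro i h
      apply hne i
      rw [← hQP i, h, Subgroup.comap_top])
  have hcard : F₀.index = p ^ 2 := by
    rw [Subgroup.index_eq_card]
    exact h2
  refine ⟨?_, hcard⟩
  intro i
  rw [← hQP i, Subgroup.index_comap_of_surjective _ hπ]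
  have h3 := Subgroup.card_mul_index (Q i)
  rw [h1 i, h2] at h3
  have h4 : p * (Q i).index = p * p := by
    rw [h3]
    ring
  exact Nat.eq_of_mul_eq_mul_left hp.out.pos h4

end Cover

end Cfsg.Agent.Lib.Char.CdP
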