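import Mathlib
import Cfsg.Agent.Lib.Char.CdPA
import Cfsg.Agent.Lib.Char.E3Dual
import Cfsg.Agent.Lib.Char.CliffordBij
import Cfsg.Agent.Lib.Char.Linear
import Cfsg.Agent.Lib.Char.Degree

set_option autoImplicit false

/-!
`p`-groups whose irreducible characters have degrees `1` and `p`: the action on the dual of a
self-centralizing abelian normal subgroup.
-/

namespace Cfsg.Agent.Lib.Char.CdP

open Cfsg Cfsg.Agent.Lib.Char Cfsg.Agent.Lib.Char.E3
open scoped commutatorElement

universe u

section Ann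

variable {X : Type u} [Group X]

/-- The annihilator of a subgroup in the dual. -/
def ann (R : Subgroup X) : Subgroup (X →* ℂˣ) where
  carrier := {μ | ∀ r ∈ R, μ r = 1}
  mul_mem' := by
    intro a b ha hb r hr
    simp [ha r hr, hb r hr]
  one_mem' := by
    intro r _
    simp
  inv_mem' := by
    intro a ha r hr
    simp [ha r hr]

@[simp] theorem mem_ann {R : Subgroup X} {μ : X →* ℂˣ} : μ ∈ ann R ↔ ∀ r ∈ R, μ r = 1 := Iff.rfl

theorem card_ann [Finite X] (hcomm : ∀ x y : X, x * y = y * x) (R : Subgroup X) :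
    Nat.card (ann R) * Nat.card R = Nat.card X := by
  haveI hRn : R.Normal := ⟨fun n hn g => by
    rw [hcomm g n, mul_inv_cancel_right]
    exact hn⟩
  let e : ann R ≃ (X ⧸ R →* ℂˣ) :=
    { toFun := fun μ => QuotientGroup.lift R μ.1 μ.2
      invFun := fun ν => ⟨ν.comp (QuotientGroup.mk' R), by
        intro r hr
        simp only [MonoidHom.comp_apply]
        rw [(QuotientGroup.eq_one_iff r).mpr hr |> fun h => (show QuotientGroup.mk' R r = 1 from h), map_one]⟩
      left_inv := by
        intro μ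
        ext x
        rfl
      right_inv := by
        intro ν
        ext x
        rfl }
  have h1 : Nat.card (ann R) = Nat.card (X ⧸ R) := by
    rw [Nat.card_congr e]
    exact dual_card (fun x y => by
      obtain ⟨a, rfl⟩ := QuotientGroup.mk_surjective x
      obtain ⟨b, rfl⟩ := QuotientGroup.mk_surjective y
      rw [← QuotientGroup.mk_mul, ← QuotientGroup.mk_mul, hcomm])
  rw [h1, mul_comm]
  exact Subgroup.card_mul_index R

theorem index_ann [Finite X] (hcomm : ∀ x y : X, x * y = y * x) (R : Subgroup X) :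
    (ann R).index = Nat.card R := by
  have h1 := card_ann hcomm R
  have h2 := Subgroup.card_mul_index (ann R)
  rw [dual_card hcomm, ← h1] at h2
  exact Nat.eq_of_mul_eq_mul_left Nat.card_pos h2

theorem ann_injective [Finite X] (hcomm : ∀ x y : X, x * y = y * x) {R R' : Subgroup X} (h : R ≤ R') :
    ann R' ≤ ann R := fun _ hμ r hr => hμ r (h hr)

end Ann

/-- Members of a prime order subgroup are powers of any nontrivial member. -/
theorem le_zpowers_of_prime_card {X : Type*} [Group X] [Finite X] {p : ℕ} [hp : Fact p.Prime] {R : Subgroup X}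
    (hc : Nat.card R = p) {u : X} (hu : u ∈ R) (hu1 : u ≠ 1) : R ≤ Subgroup.zpowers u := by
  have h1 : Subgroup.zpowers u ≤ R := by
    rw [Subgroup.zpowers_le]
    exact hu
  have h2 : orderOf u ∣ p := by
    rw [← hc, ← Subgroup.orderOf_mk u hu]
    exact orderOf_dvd_natCard _
  have h3 : orderOf u ≠ 1 := by
    rw [Ne, orderOf_eq_one_iff]
    exact hu1
  have h4 : orderOf u = p := ((Nat.dvd_prime hp.out).mp h2).resolve_left h3
  have h5 := Subgroup.eq_of_le_of_card_ge h1 (by rw [hc, Nat.card_zpowers, h4])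
  rw [h5]

theorem eq_of_le_of_index_eq {X : Type*} [Group X] [Finite X] {H K : Subgroup X} (h : H ≤ K)
    (hi : H.index = K.index) : H = K := by
  have h1 := Subgroup.relIndex_mul_index h
  rw [hi] at h1
  have h2 : K.index ≠ 0 := Subgroup.index_ne_zero_of_finite
  have h3 : H.relIndex K = 1 := by
    have : H.relIndex K * K.index = 1 * K.index := by rw [h1, one_mul]
    exact Nat.eq_of_mul_eq_mul_right (Nat.pos_of_ne_zero h2) this
  exact le_antisymm h (Subgroup.relIndex_eq_one.mp h3)

/-- Subgroups of index one or `p` in a `p`-group contain commutators and `p`-th powers. -/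
theorem sub_facts {G : Type*} [Group G] [Finite G] {p : ℕ} [hp : Fact p.Prime] (hG : IsPGroup p G)
    (H : Subgroup G) (h : H.index = 1 ∨ H.index = p) :
    (∀ x y : G, ⁅x, y⁆ ∈ H) ∧ ∀ x : G, x ^ p ∈ H := by
  rcases h with h | h
  · have h1 : H = ⊤ := Subgroup.index_eq_one.mp h
    rw [h1]
    exact ⟨fun _ _ => trivial, fun _ => trivial⟩
  · obtain ⟨n, hn⟩ := IsPGroup.iff_card.mp hG
    have hn0 : n ≠ 0 := by
      rintro rfl
      have h1 := Subgroup.index_dvd_card H
      rw [h, hn, pow_zero] at h1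
      exact hp.out.one_lt.ne' (Nat.dvd_one.mp h1)
    haveI hHn : H.Normal := Subgroup.normal_of_index_eq_minFac_card (by
      rw [h, hn, hp.out.pow_minFac hn0])
    haveI : Fact (Nat.card (G ⧸ H)).Prime := ⟨by
      rw [← Subgroup.index_eq_card, h]
      exact hp.out⟩
    have hc : IsCyclic (G ⧸ H) := isCyclic_of_prime_card (p := Nat.card (G ⧸ H)) rfl
    constructor
    · intro x y
      rw [← QuotientGroup.eq_one_iff]
      have h2 : ((⁅x, y⁆ : G) : G ⧸ H) = ⁅(x : G ⧸ H), (y : G ⧸ H)⁆ :=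
        map_commutatorElement (QuotientGroup.mk' H) x y
      rw [h2, commutatorElement_eq_one_iff_mul_comm]
      letI := IsCyclic.commGroup (α := G ⧸ H)
      exact mul_comm _ _
    · intro x
      have := Subgroup.pow_index_mem H x
      rwa [h] at this

section Main

variable {G : Type u} [Group G] [Fintype G] {p : ℕ} [hp : Fact p.Prime]
  {A : Subgroup G} [hAn : A.Normal] [Fintype A]

/-- The stabilizer of a homomorphism of `A` into `ℂˣ`. -/
noncomputable abbrev stab (μ : A →* ℂˣ) : Subgroup G := inertia A (ev μ)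

theorem isIrr_ev (μ : A →* ℂˣ) : IsIrrCharacter A (ev μ) := isIrrCharacter_of_monoidHom μ

omit [Fintype A] in
theorem mem_stab [Fintype A] {μ : A →* ℂˣ} {g : G} :
    g ∈ stab μ ↔ ∀ a : A, μ ⟨g⁻¹ * a * g, hAn.conj_mem' a a.2 g⟩ = μ a := by
  rw [mem_inertia]
  constructor
  · intro h a
    have := congrFun h a
    simp only [conjFun_apply, ev] at this
    exact Units.ext this
  · intro h
    funext a
    simp only [conjFun_apply, ev]
    rw [h a]

section Deg

variable (hdeg : ∀ χ : G → ℂ, IsIrrCharacter G χ → charDegree χ = 1 ∨ charDegree χ = p)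

include hdeg

theorem index_stab (μ : A →* ℂˣ) : (stab μ).index = 1 ∨ (stab μ).index = p := by
  obtain ⟨χ, hχ, hne⟩ := exists_over A (isIrr_ev μ)
  letI : Fintype (stab μ) := Fintype.ofFinite _
  obtain ⟨ψ, hψ, -, rfl⟩ := exists_indFun_over (isIrr_ev μ) hχ hne
  have h1 := charDegree_indFun (IsIrrCharacter.isCharacter hψ)
  have h2 : (stab μ).index ∣ charDegree (indFun (stab μ) ψ) := by
    rw [h1]
    exact dvd_mul_right _ _
  rcases hdeg _ hχ with h | h
  · rw [h] at h2
    left
    exact Nat.dvd_one.mp h2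
  · rw [h] at h2
    exact (Nat.dvd_prime hp.out).mp h2

theorem deg_one (μ : A →* ℂˣ) (hi : (stab μ).index = p) [Fintype (stab μ)]
    {ψ : stab μ → ℂ} (hψ : IsIrrCharacter (stab μ) ψ)
    (hover : classInner (resTo A (le_inertia_of_irr (isIrr_ev μ)) ψ) (ev μ) ≠ 0) :
    charDegree ψ = 1 := by
  have h0 := isIrrCharacter_indFun_over (isIrr_ev μ) hψ hover
  have h1 := charDegree_indFun (IsIrrCharacter.isCharacter hψ)
  have hpos := charDegree_pos hψ
  rcases hdeg _ h0 with h | h
  · rw [h1, hi] at h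
    have := hp.out.two_le
    nlinarith
  · rw [h1, hi] at h
    have h3 : p * charDegree ψ = p * 1 := by rw [h, mul_one]
    exact Nat.eq_of_mul_eq_mul_left hp.out.pos h3

/-- Homomorphisms with stabilizer of index `p` kill commutators of the stabilizer. -/
theorem eval_commutator (μ : A →* ℂˣ) (hi : (stab μ).index = p) {y w : G} (hy : y ∈ stab μ)
    (hw : w ∈ stab μ) (hc : ⁅y, w⁆ ∈ A) : μ ⟨⁅y, w⁆, hc⟩ = 1 := by
  classical
  obtain ⟨χ, hχ, hne⟩ := exists_over A (isIrr_ev μ)
  letI : Fintype (stab μ) := Fintype.ofFinite _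
  obtain ⟨ψ, hψ, hover, -⟩ := exists_indFun_over (isIrr_ev μ) hχ hne
  have hd := deg_one hdeg μ hi hψ hover
  have h1 : ψ 1 = 1 := by
    rw [apply_one_eq_charDegree (IsIrrCharacter.isCharacter hψ), hd]
    simp
  obtain ⟨lam, rfl⟩ := IsCharacter.exists_monoidHom (IsIrrCharacter.isCharacter hψ) h1
  have hle : A ≤ stab μ := le_inertia_of_irr (isIrr_ev μ)
  let lam' : A →* ℂˣ := lam.comp (Subgroup.inclusion hle)
  have h2 : resTo A hle (fun g => ((lam g : ℂˣ) : ℂ)) = ev lam' := rfl
  have h3 : ev lam' = ev μ := by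
    by_contra hcon
    apply hover
    rw [h2]
    exact classInner_irr_of_ne (isIrr_ev lam') (isIrr_ev μ) hcon
  have h4 : ev lam' ⟨⁅y, w⁆, hc⟩ = ev μ ⟨⁅y, w⁆, hc⟩ := congrFun h3 _
  have h5 : lam' ⟨⁅y, w⁆, hc⟩ = 1 := by
    have h6 : Subgroup.inclusion hle ⟨⁅y, w⁆, hc⟩ = ⁅(⟨y, hy⟩ : stab μ), (⟨w, hw⟩ : stab μ)⁆ := by
      ext
      rfl
    simp only [lam', MonoidHom.comp_apply, h6]
    rw [map_commutatorElement, commutatorElement_eq_one_iff_mul_comm]
    exact mul_comm _ _
  have h7 : ev μ ⟨⁅y, w⁆, hc⟩ = 1 := by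
    rw [← h4, ev, h5]
    simp
  exact ev_eq_one_iff.mp h7

end Deg

section Sep

variable (hAc : ∀ a ∈ A, ∀ b ∈ A, a * b = b * a)

include hAc

theorem comm_A : ∀ x y : A, x * y = y * x := fun x y => Subtype.ext (hAc x x.2 y y.2)

theorem commute_of_all_stab {g : G} (h : ∀ μ : A →* ℂˣ, g ∈ stab μ) (a : A) :
    g * a = a * g := by
  by_contra hcon
  let t : A := ⟨g⁻¹ * a * g, hAn.conj_mem' a a.2 g⟩ * a⁻¹
  have ht : t ≠ 1 := by
    intro h1
    apply hcon
    have h2 : g⁻¹ * a * g * (a : G)⁻¹ = 1 := by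
      have := congrArg (Subtype.val) h1
      simpa [t] using this
    have h3 : g⁻¹ * a * g = a := mul_inv_eq_one.mp h2
    calc g * a = g * (g⁻¹ * a * g) := by rw [h3]
      _ = a * g := by group
  obtain ⟨μ, hμ⟩ := dual_separate (comm_A hAc) ht
  apply hμ
  have h1 := (mem_stab.mp (h μ)) a
  simp only [t, map_mul, map_inv, h1, mul_inv_cancel]

end Sep

end Main

end Cfsg.Agent.Lib.Char.CdP
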