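import Mathlib
import Cfsg.Agent.Lib.Char.CdPB

set_option autoImplicit false

/-!
`p`-groups whose irreducible characters have degrees `1` and `p`: a self-centralizing abelian
normal subgroup of index different from `p` contains the centre with index `p`.
-/

namespace Cfsg.Agent.Lib.Char.CdP

open Cfsg Cfsg.Agent.Lib.Char Cfsg.Agent.Lib.Char.E3
open scoped commutatorElement

universe u

theorem comm_rearrange {X : Type*} [Group X] (hc : ∀ x y : X, x * y = y * x) (x y a b : X) :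
    x * y * (a * b)⁻¹ = x * a⁻¹ * (y * b⁻¹) := by
  rw [mul_inv_rev]
  calc x * y * (b⁻¹ * a⁻¹) = x * (y * b⁻¹ * a⁻¹) := by simp only [mul_assoc]
    _ = x * (a⁻¹ * (y * b⁻¹)) := by rw [hc (y * b⁻¹) a⁻¹]
    _ = x * a⁻¹ * (y * b⁻¹) := by simp only [mul_assoc]

theorem mem_of_pow_mem {X : Type*} [Group X] {S : Subgroup X} {y : X} {m p : ℕ} (hcop : m.Coprime p)
    (h1 : y ^ m ∈ S) (h2 : y ^ p ∈ S) : y ∈ S := by
  obtain ⟨a, b, hab⟩ := Nat.isCoprime_iff_coprime.mpr hcop
  have h3 : y = (y ^ m) ^ a * (y ^ p) ^ b := by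
    rw [← zpow_natCast, ← zpow_natCast, ← zpow_mul, ← zpow_mul, ← zpow_add]
    rw [mul_comm (m : ℤ), mul_comm (p : ℤ), hab, zpow_one]
  rw [h3]
  exact mul_mem (zpow_mem h1 a) (zpow_mem h2 b)

theorem normal_of_index_p {G : Type*} [Group G] [Finite G] {p : ℕ} [hp : Fact p.Prime] (hG : IsPGroup p G)
    {H : Subgroup G} (h : H.index = p) : H.Normal := by
  obtain ⟨n, hn⟩ := IsPGroup.iff_card.mp hG
  have hn0 : n ≠ 0 := by
    rintro rfl
    have h1 := Subgroup.index_dvd_card H
    rw [h, hn, pow_zero] at h1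
    exact hp.out.one_lt.ne' (Nat.dvd_one.mp h1)
  exact Subgroup.normal_of_index_eq_minFac_card (by rw [h, hn, hp.out.pow_minFac hn0])

theorem exists_pow_mul_mem {G : Type*} [Group G] [Finite G] {p : ℕ} [hp : Fact p.Prime] (hG : IsPGroup p G)
    {H : Subgroup G} (h : H.index = p) {y : G} (hy : y ∉ H) (w : G) : ∃ k < p, y ^ k * w ∈ H := by
  haveI hHn : H.Normal := normal_of_index_p hG h
  have hc : Nat.card (G ⧸ H) = p := by
    rw [← Subgroup.index_eq_card, h]
  have hy1 : (y : G ⧸ H) ≠ 1 := fun h1 => hy ((QuotientGroup.eq_one_iff y).mp h1)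
  obtain ⟨k, hk⟩ := Submonoid.mem_powers_iff _ _ |>.mp (mem_powers_of_prime_card hc hy1 (g' := ((w : G ⧸ H))⁻¹))
  have hp1 : (y : G ⧸ H) ^ p = 1 := by
    rw [← hc]
    exact pow_card_eq_one'
  refine ⟨k % p, Nat.mod_lt _ hp.out.pos, ?_⟩
  rw [← QuotientGroup.eq_one_iff, QuotientGroup.mk_mul, QuotientGroup.mk_pow, ← pow_eq_pow_mod k hp1, hk]
  simp

section Claim1

variable {G : Type u} [Group G] [Fintype G] {p : ℕ} [hp : Fact p.Prime]
  {A : Subgroup G} [hAn : A.Normal] [Fintype A]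
  (hAc : ∀ a ∈ A, ∀ b ∈ A, a * b = b * a)

/-- The map `a ↦ g⁻¹ a g a⁻¹`. -/
noncomputable def delta (g : G) : A →* A where
  toFun a := ⟨g⁻¹ * a * g, hAn.conj_mem' a a.2 g⟩ * a⁻¹
  map_one' := by
    ext
    simp
  map_mul' a b := by
    have h : (⟨g⁻¹ * ((a * b : A) : G) * g, hAn.conj_mem' _ (a * b).2 g⟩ : A) =
        ⟨g⁻¹ * a * g, hAn.conj_mem' a a.2 g⟩ * ⟨g⁻¹ * b * g, hAn.conj_mem' b b.2 g⟩ := by
      ext
      simp only [Subgroup.coe_mul]
      group
    rw [h]
    exact comm_rearrange (comm_A hAc) _ _ _ _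

theorem delta_coe (g : G) (a : A) : ((delta hAc g a : A) : G) = g⁻¹ * a * g * (a : G)⁻¹ := rfl

theorem delta_eq_one_iff {g : G} {a : A} : delta hAc g a = 1 ↔ g * a = a * g := by
  constructor
  · intro h
    have h2 : g⁻¹ * a * g * (a : G)⁻¹ = 1 := by
      have := congrArg (Subtype.val) h
      simpa [delta_coe] using this
    have h3 : g⁻¹ * a * g = a := mul_inv_eq_one.mp h2
    calc g * a = g * (g⁻¹ * a * g) := by rw [h3]
      _ = a * g := by group
  · intro h
    ext
    rw [delta_coe]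
    have h3 : g⁻¹ * a * g = a := by
      rw [mul_assoc, ← h]
      group
    rw [h3]
    simp

/-- The subgroup of homomorphisms fixed by `g`. -/
noncomputable def F (g : G) : Subgroup (A →* ℂˣ) := ann (delta hAc g).range

theorem mem_F {g : G} {μ : A →* ℂˣ} : μ ∈ F hAc g ↔ g ∈ stab μ := by
  rw [mem_stab]
  constructor
  · intro h a
    have h1 := h _ ⟨a, rfl⟩
    have h2 : μ (delta hAc g a) = μ ⟨g⁻¹ * a * g, hAn.conj_mem' a a.2 g⟩ * (μ a)⁻¹ := by
      show μ (⟨g⁻¹ * a * g, hAn.conj_mem' a a.2 g⟩ * a⁻¹) = _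
      rw [map_mul, map_inv]
    rw [h2] at h1
    exact mul_inv_eq_one.mp h1
  · rintro h _ ⟨a, rfl⟩
    show μ (⟨g⁻¹ * a * g, hAn.conj_mem' a a.2 g⟩ * a⁻¹) = 1
    rw [map_mul, map_inv, h a, mul_inv_cancel]

variable (hG : IsPGroup p G)
  (hdeg : ∀ χ : G → ℂ, IsIrrCharacter G χ → charDegree χ = 1 ∨ charDegree χ = p)
  (hAs : ∀ g, (∀ a ∈ A, g * a = a * g) → g ∈ A)

include hAc hAs

theorem mem_A_of_all_stab {g : G} (h : ∀ μ : A →* ℂˣ, g ∈ stab μ) : g ∈ A :=
  hAs g fun a ha => commute_of_all_stab hAc h ⟨a, ha⟩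

include hG hdeg

theorem pow_mem_A (y : G) : y ^ p ∈ A :=
  mem_A_of_all_stab hAc hAs fun μ => (sub_facts hG _ (index_stab hdeg μ)).2 y

theorem comm_mem_A (x y : G) : ⁅x, y⁆ ∈ A :=
  mem_A_of_all_stab hAc hAs fun μ => (sub_facts hG _ (index_stab hdeg μ)).1 x y

/-- The cover of the dual. -/
theorem cover_apply {y w : G} (hy : y ∉ A) (hw : ∀ k : ℕ, y ^ k * w ∉ A) :
    (F hAc y).index = p ∧ (F hAc y ⊓ F hAc w).index = p ^ 2 := by
  classical
  have hcA := comm_A hAc
  haveI hfin : Finite (A →* ℂˣ) := dual_finite hcA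
  have hT : IsPGroup p (A →* ℂˣ) := by
    obtain ⟨n, hn⟩ := IsPGroup.iff_card.mp (hG.to_subgroup A)
    exact IsPGroup.of_card (n := n) (by rw [dual_card hcA, hn])
  let gg : Option (Fin p) → G := fun i => match i with
    | none => y
    | some k => y ^ (k : ℕ) * w
  have hcover : ∀ μ : A →* ℂˣ, ∃ i, μ ∈ F hAc (gg i) := by
    intro μ
    by_cases hyS : y ∈ stab μ
    · exact ⟨none, (mem_F hAc).mpr hyS⟩
    · have hi : (stab μ).index = p := by
        rcases index_stab hdeg μ with h | h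
        · exact absurd (by rw [Subgroup.index_eq_one.mp h]; trivial) hyS
        · exact h
      obtain ⟨k, hk, hk'⟩ := exists_pow_mul_mem hG hi hyS w
      exact ⟨some ⟨k, hk⟩, (mem_F hAc).mpr hk'⟩
  have hinter : ∀ i j, i ≠ j → F hAc (gg i) ⊓ F hAc (gg j) = F hAc y ⊓ F hAc w := by
    intro i j hij
    ext μ
    simp only [Subgroup.mem_inf, mem_F]
    have hpw : y ^ p ∈ stab μ := (sub_facts hG _ (index_stab hdeg μ)).2 y
    have hback : y ∈ stab μ ∧ w ∈ stab μ → ∀ i, gg i ∈ stab μ := by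
      rintro ⟨h1, h2⟩ i
      rcases i with _ | k
      · exact h1
      · exact mul_mem (pow_mem h1 _) h2
    have hkl : ∀ k l : ℕ, k < l → l < p → y ^ k * w ∈ stab μ → y ^ l * w ∈ stab μ → y ∈ stab μ ∧ w ∈ stab μ := by
      intro k l hkl hlp h1 h2
      have h3 : y ^ (l - k) ∈ stab μ := by
        have h4 := mul_mem h2 (inv_mem h1)
        have h5 : y ^ l * w * (y ^ k * w)⁻¹ = y ^ (l - k) := by
          have h6 : y ^ l = y ^ (l - k) * y ^ k := by
            rw [← pow_add, Nat.sub_add_cancel hkl.le]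
          rw [h6]
          group
        rwa [h5] at h4
      have h7 : y ∈ stab μ := mem_of_pow_mem
        (Nat.coprime_comm.mp (Nat.coprime_of_lt_prime (by omega) (by omega) hp.out)) h3 hpw
      refine ⟨h7, ?_⟩
      have h8 := mul_mem (inv_mem (pow_mem h7 k)) h1
      simpa using h8
    constructor
    · rintro ⟨h1, h2⟩
      rcases i with _ | k <;> rcases j with _ | l
      · exact absurd rfl hij
      · have h1' : y ∈ stab μ := h1
        have h2' : y ^ (l : ℕ) * w ∈ stab μ := h2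
        refine ⟨h1', ?_⟩
        have h8 := mul_mem (inv_mem (pow_mem h1' l)) h2'
        simpa using h8
      · have h1' : y ^ (k : ℕ) * w ∈ stab μ := h1
        have h2' : y ∈ stab μ := h2
        refine ⟨h2', ?_⟩
        have h8 := mul_mem (inv_mem (pow_mem h2' k)) h1'
        simpa using h8
      · rcases lt_or_gt_of_ne (fun h : (k : ℕ) = l => hij (by rw [Fin.ext h])) with h | h
        · exact hkl k l h l.2 h1 h2
        · exact hkl l k h k.2 h2 h1
    · intro h
      exact ⟨hback h i, hback h j⟩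
  have hne : ∀ i, F hAc (gg i) ≠ ⊤ := by
    intro i h
    have h1 : gg i ∈ A := mem_A_of_all_stab hAc hAs fun μ => by
      rw [← mem_F hAc, h]
      trivial
    rcases i with _ | k
    · exact hy h1
    · exact hw k h1
  obtain ⟨h1, h2⟩ := cover_main (T := A →* ℂˣ) (p := p) hT (by simp) (fun i => F hAc (gg i))
    (F hAc y ⊓ F hAc w) hcover hinter hne
  exact ⟨h1 none, h2⟩

theorem exists_indep {y : G} (hy : y ∉ A) (hbig : A.index ≠ p) : ∃ w : G, ∀ k : ℕ, y ^ k * w ∉ A := by
  by_contra hcon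
  push Not at hcon
  apply hbig
  have hy1 : (y : G ⧸ A) ≠ 1 := fun h1 => hy ((QuotientGroup.eq_one_iff y).mp h1)
  have hp1 : (y : G ⧸ A) ^ p = 1 := by
    rw [← QuotientGroup.mk_pow]
    exact (QuotientGroup.eq_one_iff _).mpr (pow_mem_A hAc hG hdeg hAs y)
  have hord : orderOf (y : G ⧸ A) = p := orderOf_eq_prime hp1 hy1
  have htop : Subgroup.zpowers (y : G ⧸ A) = ⊤ := by
    rw [eq_top_iff]
    intro x _
    obtain ⟨w, rfl⟩ := QuotientGroup.mk_surjective x
    obtain ⟨k, hk⟩ := hcon w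
    have h1 : (y : G ⧸ A) ^ k * (w : G ⧸ A) = 1 := by
      rw [← QuotientGroup.mk_pow, ← QuotientGroup.mk_mul]
      exact (QuotientGroup.eq_one_iff _).mpr hk
    have h2 : (w : G ⧸ A) = ((y : G ⧸ A) ^ k)⁻¹ := eq_inv_of_mul_eq_one_right h1
    rw [h2]
    exact inv_mem (pow_mem (Subgroup.mem_zpowers _) k)
  rw [Subgroup.index_eq_card, ← Subgroup.card_top (G := G ⧸ A), ← htop, Nat.card_zpowers, hord]

theorem card_range_delta {y : G} (hy : y ∉ A) (hbig : A.index ≠ p) : Nat.card (delta hAc y).range = p := by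
  obtain ⟨w, hw⟩ := exists_indep hAc hG hdeg hAs hy hbig
  rw [← index_ann (comm_A hAc)]
  exact (cover_apply hAc hG hdeg hAs hy hw).1

theorem index_ker_delta {y : G} (hy : y ∉ A) (hbig : A.index ≠ p) : (delta hAc y).ker.index = p := by
  rw [Subgroup.index_ker]
  exact card_range_delta hAc hG hdeg hAs hy hbig

/-- Conjugation by `y * w` and by `w * y` agree on `A`. -/
theorem act_comm (y w : G) (a : A) : (y * w)⁻¹ * a * (y * w) = (w * y)⁻¹ * a * (w * y) := by
  have hc : (w * y)⁻¹ * (y * w) ∈ A := by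
    have h1 := comm_mem_A hAc hG hdeg hAs y⁻¹ w⁻¹
    have h2 : ⁅y⁻¹, w⁻¹⁆ = (w * y)⁻¹ * (y * w) := by
      rw [commutatorElement_def]
      group
    rwa [h2] at h1
  have ha' : (w * y)⁻¹ * a * (w * y) ∈ A := hAn.conj_mem' a a.2 _
  have h3 := hAc _ ha' _ hc
  set c := (w * y)⁻¹ * (y * w) with hcdef
  have h4 : y * w = w * y * c := by
    rw [hcdef]
    group
  rw [h4]
  calc (w * y * c)⁻¹ * a * (w * y * c) = c⁻¹ * ((w * y)⁻¹ * a * (w * y) * c) := by group
    _ = c⁻¹ * (c * ((w * y)⁻¹ * a * (w * y))) := by rw [h3]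
    _ = (w * y)⁻¹ * a * (w * y) := by group

theorem delta_mul_left {y w : G} {a : A} (ha : delta hAc w a = 1) : delta hAc (y * w) a = delta hAc y a := by
  ext
  rw [delta_coe, delta_coe, act_comm hAc hG hdeg hAs]
  have h1 : w * a = a * w := (delta_eq_one_iff hAc).mp ha
  have h2 : (w * y)⁻¹ * a * (w * y) = y⁻¹ * a * y := by
    have h3 : w⁻¹ * a * w = a := by
      rw [mul_assoc, ← h1]
      group
    calc (w * y)⁻¹ * a * (w * y) = y⁻¹ * (w⁻¹ * a * w) * y := by group
      _ = y⁻¹ * a * y := by rw [h3]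
  rw [h2]

omit hAs hG hdeg in
theorem delta_mul_right {y w : G} {b : A} (hb : delta hAc y b = 1) : delta hAc (y * w) b = delta hAc w b := by
  ext
  rw [delta_coe, delta_coe]
  have h1 : y * b = b * y := (delta_eq_one_iff hAc).mp hb
  have h3 : y⁻¹ * b * y = b := by
    rw [mul_assoc, ← h1]
    group
  have h2 : (y * w)⁻¹ * b * (y * w) = w⁻¹ * b * w := by
    calc (y * w)⁻¹ * b * (y * w) = w⁻¹ * (y⁻¹ * b * y) * w := by group
      _ = w⁻¹ * b * w := by rw [h3]
  rw [h2]

/-- Independent elements have the same centralizer in `A`. -/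
theorem ker_eq_of_indep {y w : G} (hy : y ∉ A) (hw : ∀ k : ℕ, y ^ k * w ∉ A) (hbig : A.index ≠ p) :
    (delta hAc y).ker = (delta hAc w).ker := by
  classical
  have hw0 : w ∉ A := by simpa using hw 0
  have hyw : y * w ∉ A := by simpa using hw 1
  have hiy := index_ker_delta hAc hG hdeg hAs hy hbig
  have hiw := index_ker_delta hAc hG hdeg hAs hw0 hbig
  by_contra hne
  obtain ⟨a, ha1, ha2⟩ : ∃ a, a ∈ (delta hAc w).ker ∧ a ∉ (delta hAc y).ker := by
    by_contra hcon
    push Not at hcon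
    exact hne (eq_of_le_of_index_eq hcon (by rw [hiy, hiw])).symm
  obtain ⟨b, hb1, hb2⟩ : ∃ b, b ∈ (delta hAc y).ker ∧ b ∉ (delta hAc w).ker := by
    by_contra hcon
    push Not at hcon
    exact hne (eq_of_le_of_index_eq hcon (by rw [hiy, hiw]))
  have ha1' : delta hAc w a = 1 := ha1
  have hb1' : delta hAc y b = 1 := hb1
  have ha3 := delta_mul_left hAc hG hdeg hAs (y := y) ha1'
  have hb3 := delta_mul_right hAc (w := w) hb1'
  have ha4 : delta hAc y a ≠ 1 := ha2
  have hb4 : delta hAc w b ≠ 1 := hb2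
  -- the ranges agree
  have hR3 := card_range_delta hAc hG hdeg hAs hyw hbig
  have hRy := card_range_delta hAc hG hdeg hAs hy hbig
  have hRw := card_range_delta hAc hG hdeg hAs hw0 hbig
  have h1 : delta hAc y a ∈ (delta hAc w).range := by
    have h2 : delta hAc (y * w) b ∈ (delta hAc (y * w)).range := ⟨b, rfl⟩
    have h3 : delta hAc (y * w) a ∈ (delta hAc (y * w)).range := ⟨a, rfl⟩
    have h4 := le_zpowers_of_prime_card hR3 h2 (by rw [hb3]; exact hb4) h3
    rw [hb3, ha3] at h4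
    exact (Subgroup.zpowers_le.mpr (show delta hAc w b ∈ (delta hAc w).range from ⟨b, rfl⟩)) h4
  have h5 : (delta hAc y).range ≤ (delta hAc w).range := by
    refine (le_zpowers_of_prime_card hRy ⟨a, rfl⟩ ha4).trans ?_
    exact Subgroup.zpowers_le.mpr h1
  have h6 : (delta hAc y).range = (delta hAc w).range :=
    Subgroup.eq_of_le_of_card_ge h5 (by rw [hRy, hRw])
  have h7 : F hAc y = F hAc w := by
    simp only [F, h6]
  have h8 := cover_apply hAc hG hdeg hAs hy hw
  rw [← h7, inf_idem, h8.1] at h8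
  have h9 := h8.2
  have := hp.out.two_le
  nlinarith

/-- All elements outside `A` have the same centralizer in `A`. -/
theorem ker_eq {y w : G} (hy : y ∉ A) (hw0 : w ∉ A) (hbig : A.index ≠ p) :
    (delta hAc y).ker = (delta hAc w).ker := by
  by_cases hw : ∀ k : ℕ, y ^ k * w ∉ A
  · exact ker_eq_of_indep hAc hG hdeg hAs hy hw hbig
  · push Not at hw
    obtain ⟨k, hk⟩ := hw
    refine eq_of_le_of_index_eq ?_ (by
      rw [index_ker_delta hAc hG hdeg hAs hy hbig, index_ker_delta hAc hG hdeg hAs hw0 hbig])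
    intro a ha
    have h1 : y * a = a * y := (delta_eq_one_iff hAc).mp ha
    have h2 : (y ^ k * w) * a = a * (y ^ k * w) := hAc _ hk _ a.2
    have h3 : Commute y (a : G) := h1
    have h4 : Commute (y ^ k) (a : G) := h3.pow_left k
    have h5 : y ^ k * (w * a) = y ^ k * (a * w) := by
      calc y ^ k * (w * a) = (y ^ k * w) * a := by rw [mul_assoc]
        _ = a * (y ^ k * w) := h2
        _ = (a * y ^ k) * w := by rw [mul_assoc]
        _ = (y ^ k * a) * w := by rw [h4.eq]
        _ = y ^ k * (a * w) := by rw [mul_assoc]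
    exact (delta_eq_one_iff hAc).mpr (mul_left_cancel h5)

/-- Claim 1: the index of the centre in `A` is `p`. -/
theorem claim1 (hne : A ≠ ⊤) (hbig : A.index ≠ p) :
    Subgroup.center G ≤ A ∧ (Subgroup.center G).relIndex A = p := by
  have hZA : Subgroup.center G ≤ A := fun z hz => hAs z fun a _ => (Subgroup.mem_center_iff.mp hz a).symm
  refine ⟨hZA, ?_⟩
  obtain ⟨y₀, hy₀⟩ : ∃ y, y ∉ A := by
    by_contra hcon
    push Not at hcon
    exact hne (Subgroup.eq_top_iff' _ |>.mpr hcon)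
  have h1 : (Subgroup.center G).subgroupOf A = (delta hAc y₀).ker := by
    ext a
    rw [Subgroup.mem_subgroupOf]
    constructor
    · intro h
      exact (delta_eq_one_iff hAc).mpr (Subgroup.mem_center_iff.mp h y₀)
    · intro h
      rw [Subgroup.mem_center_iff]
      intro g
      by_cases hg : g ∈ A
      · exact hAc _ hg _ a.2
      · have h2 := ker_eq hAc hG hdeg hAs hy₀ hg hbig
        rw [h2] at h
        exact (delta_eq_one_iff hAc).mp h
  rw [Subgroup.relIndex, h1]
  exact index_ker_delta hAc hG hdeg hAs hy₀ hbig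

end Claim1

end Cfsg.Agent.Lib.Char.CdP
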