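import Mathlib
import Cfsg.Agent.Lib.Char.CdPC
import Cfsg.Agent.Lib.Basic.Nilpotent

set_option autoImplicit false

/-!
`p`-groups whose irreducible characters have degrees `1` and `p`: the centre has index `p ^ 3`
unless there is an abelian normal subgroup of index `p`.
-/

namespace Cfsg.Agent.Lib.Char.CdP

open Cfsg Cfsg.Agent.Lib.Char Cfsg.Agent.Lib.Char.E3
open scoped commutatorElement

universe u

theorem exists_hom_kill {X : Type*} [Group X] [Finite X] (hc : ∀ x y : X, x * y = y * x) (R : Subgroup X)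
    {t : X} (ht : t ∉ R) : ∃ μ : X →* ℂˣ, (∀ r ∈ R, μ r = 1) ∧ μ t ≠ 1 := by
  haveI hRn : R.Normal := ⟨fun n hn g => by
    rw [hc g n, mul_inv_cancel_right]
    exact hn⟩
  have h1 : (t : X ⧸ R) ≠ 1 := fun h => ht ((QuotientGroup.eq_one_iff t).mp h)
  obtain ⟨ν, hν⟩ := dual_separate (fun x y => by
      obtain ⟨a, rfl⟩ := QuotientGroup.mk_surjective x
      obtain ⟨b, rfl⟩ := QuotientGroup.mk_surjective y
      rw [← QuotientGroup.mk_mul, ← QuotientGroup.mk_mul, hc]) h1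
  refine ⟨ν.comp (QuotientGroup.mk' R), ?_, hν⟩
  intro r hr
  have h2 : (QuotientGroup.mk' R) r = 1 := (QuotientGroup.eq_one_iff r).mpr hr
  rw [MonoidHom.comp_apply, h2, map_one]

theorem mem_closure_pair' {X : Type*} [Group X] (hc : ∀ x y : X, x * y = y * x) {a b t : X}
    (h : t ∈ Subgroup.closure {a, b}) : ∃ m n : ℤ, a ^ m * b ^ n = t := by
  letI : CommGroup X := { ‹Group X› with mul_comm := hc }
  exact Subgroup.mem_closure_pair.mp h

theorem card_closure_pair_le {X : Type*} [Group X] [Finite X] (hc : ∀ x y : X, x * y = y * x) {p : ℕ}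
    [hp : Fact p.Prime] {a b : X} (ha : a ^ p = 1) (hb : b ^ p = 1) :
    Nat.card (Subgroup.closure {a, b}) ≤ p ^ 2 := by
  have hmema : a ∈ Subgroup.closure {a, b} := Subgroup.subset_closure (by simp)
  have hmemb : b ∈ Subgroup.closure {a, b} := Subgroup.subset_closure (by simp)
  let f : Fin p × Fin p → Subgroup.closure {a, b} := fun i =>
    ⟨a ^ (i.1 : ℕ) * b ^ (i.2 : ℕ), mul_mem (pow_mem hmema _) (pow_mem hmemb _)⟩
  have hs : Function.Surjective f := by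
    rintro ⟨t, ht⟩
    obtain ⟨m, n, rfl⟩ := mem_closure_pair' hc ht
    have hp0 : (p : ℤ) ≠ 0 := by exact_mod_cast hp.out.ne_zero
    have key : ∀ (c : X) (m : ℤ), c ^ p = 1 → ∃ i : Fin p, c ^ (i : ℕ) = c ^ m := by
      intro c m hcp
      have h1 : c ^ (p : ℤ) = 1 := by rw [zpow_natCast]; exact hcp
      have h2 := zpow_eq_zpow_emod m h1
      have h3 : 0 ≤ m % (p : ℤ) := Int.emod_nonneg _ hp0
      have h4 : m % (p : ℤ) < p := Int.emod_lt_of_pos _ (by exact_mod_cast hp.out.pos)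
      refine ⟨⟨(m % (p : ℤ)).toNat, by omega⟩, ?_⟩
      rw [h2, ← zpow_natCast]
      congr 1
      exact Int.toNat_of_nonneg h3
    obtain ⟨i, hi⟩ := key a m ha
    obtain ⟨j, hj⟩ := key b n hb
    exact ⟨(i, j), Subtype.ext (by simp only [f]; rw [hi, hj])⟩
  have h1 := Nat.card_le_card_of_surjective f hs
  simpa [Nat.card_prod, sq] using h1

section Bilinear

variable {G : Type*} [Group G] (hcent : ∀ g h : G, ⁅g, h⁆ ∈ Subgroup.center G)

include hcent

theorem comm_mul_left (g₁ g₂ h : G) : ⁅g₁ * g₂, h⁆ = ⁅g₁, h⁆ * ⁅g₂, h⁆ := by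
  have h1 := Subgroup.mem_center_iff.mp (hcent g₂ h) g₁
  simp only [commutatorElement_def] at h1 ⊢
  calc g₁ * g₂ * h * (g₁ * g₂)⁻¹ * h⁻¹ = (g₁ * (g₂ * h * g₂⁻¹ * h⁻¹)) * h * g₁⁻¹ * h⁻¹ := by group
    _ = ((g₂ * h * g₂⁻¹ * h⁻¹) * g₁) * h * g₁⁻¹ * h⁻¹ := by rw [h1]
    _ = (g₂ * h * g₂⁻¹ * h⁻¹) * (g₁ * h * g₁⁻¹ * h⁻¹) := by group
    _ = (g₁ * h * g₁⁻¹ * h⁻¹) * (g₂ * h * g₂⁻¹ * h⁻¹) := by
      have h2 := Subgroup.mem_center_iff.mp (hcent g₂ h) (g₁ * h * g₁⁻¹ * h⁻¹)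
      simp only [commutatorElement_def] at h2
      exact h2.symm

theorem comm_mul_right (g h₁ h₂ : G) : ⁅g, h₁ * h₂⁆ = ⁅g, h₁⁆ * ⁅g, h₂⁆ := by
  have h1 : ⁅g, h₁ * h₂⁆ = ⁅h₁ * h₂, g⁆⁻¹ := (commutatorElement_inv _ _).symm
  rw [h1, comm_mul_left hcent, mul_inv_rev, commutatorElement_inv, commutatorElement_inv]
  exact (Subgroup.mem_center_iff.mp (hcent g h₁) _)

/-- The commutator homomorphism, in the first variable. -/
def commL (h : G) : G →* G := MonoidHom.mk' (fun g => ⁅g, h⁆) (fun a b => comm_mul_left hcent a b h)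

theorem comm_zpow_left (g h : G) (n : ℤ) : ⁅g ^ n, h⁆ = ⁅g, h⁆ ^ n := map_zpow (commL hcent h) g n

theorem comm_zpow_right (g h : G) (n : ℤ) : ⁅g, h ^ n⁆ = ⁅g, h⁆ ^ n := by
  have h1 : ⁅g, h ^ n⁆ = ⁅h ^ n, g⁆⁻¹ := (commutatorElement_inv _ _).symm
  rw [h1, comm_zpow_left hcent, ← inv_zpow, commutatorElement_inv]

end Bilinear

section Max

variable {G : Type u} [Group G] [Finite G] {p : ℕ} [hp : Fact p.Prime]

theorem exists_selfcent (hG : IsPGroup p G) (B : Subgroup G) (hBn : B.Normal)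
    (hB : ∀ a ∈ B, ∀ b ∈ B, a * b = b * a) :
    ∃ A : Subgroup G, B ≤ A ∧ A.Normal ∧ (∀ a ∈ A, ∀ b ∈ A, a * b = b * a) ∧
      ∀ g, (∀ a ∈ A, g * a = a * g) → g ∈ A := by
  obtain ⟨A, hBA, hmax⟩ := Finite.exists_le_maximal
    (p := fun A : Subgroup G => A.Normal ∧ ∀ a ∈ A, ∀ b ∈ A, a * b = b * a) (a := B) ⟨hBn, hB⟩
  haveI hAn : A.Normal := hmax.prop.1
  have hAc := hmax.prop.2
  refine ⟨A, hBA, hAn, hAc, ?_⟩
  intro g hg
  by_contra hgA
  let C : Subgroup G :=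
    { carrier := {c | ∀ a ∈ A, c * a = a * c}
      mul_mem' := by
        intro u v hu hv a ha
        rw [mul_assoc, hv a ha, ← mul_assoc, hu a ha, mul_assoc]
      one_mem' := by
        intro a _
        simp
      inv_mem' := by
        intro u hu a ha
        have := hu a ha
        calc u⁻¹ * a = u⁻¹ * (a * u) * u⁻¹ := by group
          _ = u⁻¹ * (u * a) * u⁻¹ := by rw [this]
          _ = a * u⁻¹ := by group }
  have hCn : C.Normal := ⟨fun c hc g a ha => by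
    have h1 : g⁻¹ * a * g ∈ A := hAn.conj_mem' a ha g
    have h2 := hc _ h1
    calc g * c * g⁻¹ * a = g * (c * (g⁻¹ * a * g)) * g⁻¹ := by group
      _ = g * ((g⁻¹ * a * g) * c) * g⁻¹ := by rw [h2]
      _ = a * (g * c * g⁻¹) := by group⟩
  let π : G →* G ⧸ A := QuotientGroup.mk' A
  have hπ : Function.Surjective π := QuotientGroup.mk'_surjective A
  haveI hCb : (C.map π).Normal := hCn.map π hπ
  have hCb1 : C.map π ≠ ⊥ := by
    intro h
    have h1 : π g ∈ C.map π := Subgroup.mem_map_of_mem _ hg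
    rw [h, Subgroup.mem_bot] at h1
    exact hgA ((QuotientGroup.eq_one_iff g).mp h1)
  haveI hnil : Group.IsNilpotent (G ⧸ A) := (hG.to_quotient A).isNilpotent
  have h1 := Cfsg.Agent.Lib.Basic.normal_inf_center_ne_bot (C.map π) hCb1
  obtain ⟨t₀, ht₀⟩ := Subgroup.ne_bot_iff_exists_ne_one.mp h1
  have ht := t₀.2
  have ht1 : (t₀ : G ⧸ A) ≠ 1 := fun h => ht₀ (Subtype.ext h)
  generalize (t₀ : G ⧸ A) = t at ht ht1
  obtain ⟨ht2, ht3⟩ := Subgroup.mem_inf.mp ht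
  obtain ⟨c, hc, rfl⟩ := ht2
  have hcA : c ∉ A := fun h => ht1 ((QuotientGroup.eq_one_iff c).mpr h)
  have hzn : (Subgroup.zpowers (π c)).Normal := by
    refine ⟨fun n hn g => ?_⟩
    have h2 : g * n * g⁻¹ = n := by
      obtain ⟨k, rfl⟩ := Subgroup.mem_zpowers_iff.mp hn
      have h3 := (Subgroup.mem_center_iff.mp (Subgroup.zpow_mem _ ht3 k)) g
      rw [h3]
      group
    rwa [h2]
  let A' : Subgroup G := (Subgroup.zpowers (π c)).comap π
  have hA'n : A'.Normal := hzn.comap π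
  have hform : ∀ u ∈ A', ∃ k : ℤ, ∃ b ∈ A, u = c ^ k * b := by
    intro u hu
    obtain ⟨k, hk⟩ := Subgroup.mem_zpowers_iff.mp hu
    refine ⟨k, (c ^ k)⁻¹ * u, ?_, by group⟩
    apply (QuotientGroup.eq_one_iff _).mp
    have h3 : (((c ^ k)⁻¹ * u : G) : G ⧸ A) = (π c ^ k)⁻¹ * π u := by
      simp [π]
    rw [h3, hk, inv_mul_cancel]
  have hcz : ∀ (k : ℤ), ∀ a ∈ A, c ^ k * a = a * c ^ k := by
    intro k a ha
    have h3 : Commute c a := hc a ha
    exact (h3.zpow_left k).eq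
  have hA'c : ∀ a ∈ A', ∀ b ∈ A', a * b = b * a := by
    intro u hu v hv
    obtain ⟨i, b, hb, rfl⟩ := hform u hu
    obtain ⟨j, b', hb', rfl⟩ := hform v hv
    calc c ^ i * b * (c ^ j * b') = c ^ i * (b * c ^ j) * b' := by group
      _ = c ^ i * (c ^ j * b) * b' := by rw [hcz j b hb]
      _ = c ^ (i + j) * (b * b') := by rw [zpow_add]; group
      _ = c ^ (j + i) * (b' * b) := by rw [add_comm, hAc b hb b' hb']
      _ = c ^ j * (c ^ i * b') * b := by rw [zpow_add]; group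
      _ = c ^ j * (b' * c ^ i) * b := by rw [hcz i b' hb']
      _ = c ^ j * b' * (c ^ i * b) := by group
  have hle : A ≤ A' := by
    intro a ha
    show π a ∈ Subgroup.zpowers (π c)
    have h5 : π a = 1 := (QuotientGroup.eq_one_iff a).mpr ha
    rw [h5]
    exact one_mem _
  have h4 : A' ≤ A := hmax.2 ⟨hA'n, hA'c⟩ hle
  exact hcA (h4 (Subgroup.mem_zpowers (π c) : π c ∈ Subgroup.zpowers (π c)))

end Max

end Cfsg.Agent.Lib.Char.CdP
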