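import Mathlib
import Cfsg.Agent.Lib.Char.Coset
import Cfsg.Agent.Lib.H8Group.CharVal
import Cfsg.Agent.Lib.H8Group.GlaubMain
import Cfsg.Agent.S0886

set_option autoImplicit false

/-!
Dade–Glauberman–Nagao correspondence, first part: congruences and the dichotomy for averages of
characters on a generating coset.
-/

namespace Cfsg.Agent.Lib.Char.DGN

open Cfsg Module Cfsg.Agent.Lib.Char Cfsg.Agent.Lib.H8Group
open scoped ComplexConjugate

universe u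

/-- Multiplicity divisible by `p`. -/
def RelZ (p : ℕ) (z : ℂ) : Prop := ∃ m : ℕ, z = m ∧ p ∣ m

/-- Multiplicity congruent to `±1` modulo `p`. -/
def RelU (p : ℕ) (z : ℂ) : Prop := ∃ m : ℕ, z = m ∧ ((m : ZMod p) = 1 ∨ (m : ZMod p) = -1)

/-- If `z ^ (p ^ a) ≡ m` modulo `p` and `|z| = 1` then `m ≡ ±1` modulo `p`. -/
theorem natCast_eq_one_or_neg_of_norm {p : ℕ} [hp : Fact p.Prime] {z : ℂ} {m a : ℕ}
    {γ : AlgInt} (h : z ^ (p ^ a) - m = (p : ℂ) * (γ : ℂ)) (hz : ‖z‖ = 1) :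
    (m : ZMod p) = 1 ∨ (m : ZMod p) = -1 := by
  have hp0 : (p : ℂ) ≠ 0 := by exact_mod_cast hp.out.ne_zero
  set w : ℂ := z ^ (p ^ a) with hw
  have hwn : ‖w‖ = 1 := by rw [hw, norm_pow, hz, one_pow]
  have hww : w * conj w = 1 := by
    rw [Complex.mul_conj, Complex.normSq_eq_norm_sq, hwn]
    simp
  have h1 : w = m + p * γ := by linear_combination h
  have h2 : conj w = m + p * conj (γ : ℂ) := by
    rw [h1]
    simp
  have hγ' : IsIntegral ℤ (conj (γ : ℂ)) := by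
    exact γ.2.map ((starRingEnd ℂ).toIntAlgHom)
  let δ : ℂ := m * γ + m * conj (γ : ℂ) + p * (γ * conj (γ : ℂ))
  have hδ : IsIntegral ℤ δ := by
    have hm : IsIntegral ℤ (m : ℂ) := isIntegral_natCast m
    have hpi : IsIntegral ℤ (p : ℂ) := isIntegral_natCast p
    exact ((hm.mul γ.2).add (hm.mul hγ')).add (hpi.mul (γ.2.mul hγ'))
  have h3 : (1 : ℂ) - (m : ℂ) ^ 2 = p * δ := by
    have h4 : (1 : ℂ) = (m + p * γ) * (m + p * conj (γ : ℂ)) := by
      rw [← h1, ← h2, hww]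
    simp only [δ]
    linear_combination h4
  have hrat : ∃ q : ℚ, δ = q := by
    refine ⟨((1 : ℚ) - (m : ℚ) ^ 2) / p, ?_⟩
    push_cast
    field_simp
    linear_combination -h3
  obtain ⟨q, hq⟩ := int_of_isIntegral_of_rat hδ hrat
  have h5 : ((1 : ℤ) - (m : ℤ) ^ 2 : ℤ) = p * q := by
    rw [hq] at h3
    exact_mod_cast h3
  have h6 : ((m : ZMod p)) ^ 2 = 1 := by
    have h7 := congrArg (Int.cast : ℤ → ZMod p) h5
    push_cast at h7
    simp only [CharP.cast_eq_zero, zero_mul] at h7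
    linear_combination -h7
  rw [pow_two] at h6
  exact mul_self_eq_one_iff.mp h6


section Vectors

variable {ι : Type*} [Fintype ι]

theorem sum_sub_mul_conj_sub (f g g' : ι → ℂ) (N A B : ℂ) :
    ∑ i, (N * f i - A * g i - B * g' i) * conj (N * f i - A * g i - B * g' i) =
      N * conj N * ∑ i, f i * conj (f i) - N * conj A * ∑ i, f i * conj (g i)
        - N * conj B * ∑ i, f i * conj (g' i) - A * conj N * ∑ i, g i * conj (f i)
        + A * conj A * ∑ i, g i * conj (g i) + A * conj B * ∑ i, g i * conj (g' i)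
        - B * conj N * ∑ i, g' i * conj (f i) + B * conj A * ∑ i, g' i * conj (g i)
        + B * conj B * ∑ i, g' i * conj (g' i) := by
  simp only [map_sub, map_mul, Finset.mul_sum, ← Finset.sum_add_distrib, ← Finset.sum_sub_distrib]
  refine Finset.sum_congr rfl fun i _ => ?_
  ring

theorem sum_conj_swap (f g : ι → ℂ) : ∑ i, g i * conj (f i) = conj (∑ i, f i * conj (g i)) := by
  rw [map_sum]
  refine Finset.sum_congr rfl fun i _ => ?_
  simp [mul_comm]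

theorem sum_mul_conj_self (f : ι → ℂ) : ∑ i, f i * conj (f i) = ((∑ i, ‖f i‖ ^ 2 : ℝ) : ℂ) := by
  push_cast
  refine Finset.sum_congr rfl fun i _ => ?_
  rw [Complex.mul_conj, Complex.normSq_eq_norm_sq]
  push_cast
  rfl

/-- Bessel's inequality for two orthogonal vectors of the same norm. -/
theorem bessel_two (f g g' : ι → ℂ) {n : ℝ} (hn : 0 < n) (hf : ∑ i, ‖f i‖ ^ 2 = n)
    (hg : ∑ i, ‖g i‖ ^ 2 = n) (hg' : ∑ i, ‖g' i‖ ^ 2 = n)
    (horth : ∑ i, g i * conj (g' i) = 0) :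
    ‖∑ i, f i * conj (g i)‖ ^ 2 + ‖∑ i, f i * conj (g' i)‖ ^ 2 ≤ n ^ 2 := by
  set a : ℂ := ∑ i, f i * conj (g i) with ha
  set b : ℂ := ∑ i, f i * conj (g' i) with hb
  have h1 := sum_sub_mul_conj_sub f g g' (n : ℂ) a b
  have h2 : ∑ i, g i * conj (f i) = conj a := sum_conj_swap f g
  have h3 : ∑ i, g' i * conj (f i) = conj b := sum_conj_swap f g'
  have h4 : ∑ i, g' i * conj (g i) = 0 := by
    rw [sum_conj_swap g g', horth, map_zero]
  rw [h2, h3, h4, horth, ← ha, ← hb, sum_mul_conj_self f, sum_mul_conj_self g,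
    sum_mul_conj_self g', hf, hg, hg', sum_mul_conj_self] at h1
  have haa : a * conj a = ((‖a‖ ^ 2 : ℝ) : ℂ) := by
    rw [Complex.mul_conj, Complex.normSq_eq_norm_sq]
  have hbb : b * conj b = ((‖b‖ ^ 2 : ℝ) : ℂ) := by
    rw [Complex.mul_conj, Complex.normSq_eq_norm_sq]
  have hnn : conj (n : ℂ) = n := Complex.conj_ofReal n
  have h5 : ((∑ i, ‖(n : ℂ) * f i - a * g i - b * g' i‖ ^ 2 : ℝ) : ℂ) =
      ((n * (n ^ 2 - ‖a‖ ^ 2 - ‖b‖ ^ 2) : ℝ) : ℂ) := by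
    rw [h1, hnn]
    push_cast
    push_cast at haa hbb
    linear_combination (-(n : ℂ)) * haa - (n : ℂ) * hbb
  have h6 : ∑ i, ‖(n : ℂ) * f i - a * g i - b * g' i‖ ^ 2 = n * (n ^ 2 - ‖a‖ ^ 2 - ‖b‖ ^ 2) := by
    exact_mod_cast h5
  have h7 : 0 ≤ n * (n ^ 2 - ‖a‖ ^ 2 - ‖b‖ ^ 2) := by
    rw [← h6]
    exact Finset.sum_nonneg fun i _ => by positivity
  have h8 : 0 ≤ n ^ 2 - ‖a‖ ^ 2 - ‖b‖ ^ 2 := nonneg_of_mul_nonneg_right h7 hn
  linarith

/-- The Cauchy–Schwarz bound for two vectors of the same norm. -/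
theorem norm_sum_mul_conj_le (f g : ι → ℂ) {n : ℝ} (hf : ∑ i, ‖f i‖ ^ 2 = n)
    (hg : ∑ i, ‖g i‖ ^ 2 = n) : ‖∑ i, f i * conj (g i)‖ ≤ n := by
  calc ‖∑ i, f i * conj (g i)‖ ≤ ∑ i, ‖f i * conj (g i)‖ := norm_sum_le _ _
    _ ≤ ∑ i, (‖f i‖ ^ 2 + ‖g i‖ ^ 2) / 2 := by
        refine Finset.sum_le_sum fun i _ => ?_
        rw [norm_mul, RCLike.norm_conj]
        nlinarith [sq_nonneg (‖f i‖ - ‖g i‖)]
    _ = n := by
        rw [← Finset.sum_div, Finset.sum_add_distrib, hf, hg]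
        ring

end Vectors

section Dichotomy

variable {R : Type u} [Group R] [Fintype R] (N : Subgroup R) [hN : N.Normal] [Fintype N]

theorem dichotomy {p : ℕ} [hp : Fact p.Prime] {y : R} {a : ℕ} (hy : y ^ (p ^ a) = 1)
    (hgen : Subgroup.zpowers (y : R ⧸ N) = ⊤) {φ : R → ℂ} (hφ : IsCharacter R φ)
    (hbd : ∀ k : ℕ, k.Coprime p → ‖∑ n : N, φ (n * y ^ k)‖ ≤ Nat.card N) :
    ∃ m : ℕ, ∑ n : N, φ n = (Nat.card N : ℂ) * m ∧
      ((∑ n : N, φ (n * y) = 0 ∧ p ∣ m) ∨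
       (‖∑ n : N, φ (n * y)‖ = Nat.card N ∧ ((m : ZMod p) = 1 ∨ (m : ZMod p) = -1))) := by
  classical
  let _ : Fintype (R ⧸ N) := Fintype.ofFinite _
  obtain ⟨β, hβ, hsum⟩ := exists_coset_avg N hφ
  obtain ⟨m, hm⟩ := IsCharacter.apply_one hβ
  have hNne : (Nat.card N : ℝ) ≠ 0 := by exact_mod_cast Nat.card_pos.ne'
  have hNpos : (0 : ℝ) < Nat.card N := by exact_mod_cast Nat.card_pos
  refine ⟨m, ?_, ?_⟩
  · have h1 := hsum 1
    simp only [mul_one] at h1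
    rw [h1]
    congr 1
  obtain ⟨ybar, hybar⟩ : ∃ ybar : R ⧸ N, ybar = (y : R ⧸ N) := ⟨_, rfl⟩
  have hypow : ybar ^ (p ^ a) = 1 := by
    rw [hybar, ← QuotientGroup.mk_pow, hy]
    rfl
  have hA : ∑ n : N, φ (n * y) = (Nat.card N : ℂ) * β ybar := by
    rw [hybar]
    exact hsum y
  by_cases h0 : β ybar = 0
  · left
    refine ⟨by rw [hA, h0, mul_zero], ?_⟩
    have h1 := dvd_charDegree_of_apply_eq_zero hβ hypow h0
    rwa [charDegree_natCast hm] at h1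
  · right
    have hcard : Nat.card (R ⧸ N) ∣ p ^ a := by
      have h1 : Nat.card (R ⧸ N) = orderOf ybar := by
        rw [← Nat.card_zpowers, hybar, hgen, Nat.card_congr Subgroup.topEquiv.toEquiv]
      rw [h1]
      exact orderOf_dvd_of_pow_eq_one hypow
    have hcop : ∀ k : ℕ, k.Coprime p → k.Coprime (Nat.card (R ⧸ N)) := fun k hk =>
      (Nat.Coprime.pow_right a hk).coprime_dvd_right hcard
    let S : Finset (R ⧸ N) := Finset.univ.filter fun x => ∃ k : ℕ, k.Coprime p ∧ x = ybar ^ k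
    have hS : ∀ k : ℕ, k.Coprime (Nat.card (R ⧸ N)) → ∀ x ∈ S, x ^ k ∈ S := by
      intro k hk x hx
      obtain ⟨j, hj, rfl⟩ := (Finset.mem_filter.mp hx).2
      refine Finset.mem_filter.mpr ⟨Finset.mem_univ _, ?_⟩
      by_cases hpk : k.Coprime p
      · exact ⟨j * k, Nat.Coprime.mul_left hj hpk, by rw [pow_mul]⟩
      · -- the quotient is trivial
        have hpk' : p ∣ k := by
          by_contra hcon
          exact hpk ((Nat.Prime.coprime_iff_not_dvd hp.out).mpr hcon).symm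
        obtain ⟨e, -, he⟩ := (Nat.dvd_prime_pow hp.out).mp hcard
        have he0 : e = 0 := by
          by_contra hne
          have h1 : p ∣ Nat.card (R ⧸ N) := by
            rw [he]
            exact dvd_pow_self p hne
          have h2 := Nat.dvd_gcd hpk' h1
          rw [hk] at h2
          exact hp.out.one_lt.ne' (Nat.dvd_one.mp h2)
        have h1 : Nat.card (R ⧸ N) = 1 := by rw [he, he0, pow_zero]
        have h2 : Subsingleton (R ⧸ N) := (Nat.card_eq_one_iff_unique.mp h1).1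
        exact ⟨1, Nat.coprime_one_left p, Subsingleton.elim _ _⟩
    have hne : ∀ x ∈ S, β x ≠ 0 := by
      intro x hx
      obtain ⟨j, hj, rfl⟩ := (Finset.mem_filter.mp hx).2
      intro h1
      exact h0 ((apply_pow_eq_zero_iff hβ (hcop j hj) ybar).mp h1)
    have hle : ∀ x ∈ S, ‖β x‖ ≤ 1 := by
      intro x hx
      obtain ⟨j, hj, rfl⟩ := (Finset.mem_filter.mp hx).2
      have h1 := hbd j hj
      have h2 : ∑ n : N, φ (n * y ^ j) = (Nat.card N : ℂ) * β (ybar ^ j) := by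
        rw [hybar, ← QuotientGroup.mk_pow]
        exact hsum (y ^ j)
      rw [h2, norm_mul, Complex.norm_natCast] at h1
      exact le_of_mul_le_mul_left (by simpa using h1) hNpos
    have hcardle := card_le_sum_norm_sq hβ S hS hne
    have hyS : ybar ∈ S := Finset.mem_filter.mpr ⟨Finset.mem_univ _, 1, Nat.coprime_one_left p, by simp⟩
    have hnorm : ‖β ybar‖ = 1 := by
      by_contra hcon
      have hlt : ‖β ybar‖ < 1 := lt_of_le_of_ne (hle _ hyS) hcon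
      have h2 : ∑ x ∈ S, ‖β x‖ ^ 2 < ∑ _x ∈ S, (1 : ℝ) := by
        apply Finset.sum_lt_sum
        · intro x hx
          have := hle x hx
          have h3 := norm_nonneg (β x)
          nlinarith
        · refine ⟨ybar, hyS, ?_⟩
          have h3 := norm_nonneg (β ybar)
          nlinarith
      simp only [Finset.sum_const, nsmul_eq_mul, mul_one] at h2
      linarith
    refine ⟨by rw [hA, norm_mul, Complex.norm_natCast, hnorm, mul_one], ?_⟩
    obtain ⟨γ, hγ⟩ := exists_character_pow_sub hβ hypow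
    rw [hm] at hγ
    exact natCast_eq_one_or_neg_of_norm hγ hnorm

end Dichotomy


section Pair

variable {R : Type u} [Group R] [Fintype R] (N : Subgroup R) [hN : N.Normal] [Fintype N]

/-- The pairing of two functions on the coset `N y`. -/
noncomputable def pairA (ρ τ : R → ℂ) (y : R) : ℂ := ∑ n : N, ρ (n * y) * conj (τ (n * y))

theorem sum_norm_sq_of_irr_res {τ : R → ℂ} (hτ : IsCharacter R τ)
    (hirr : IsIrrCharacter N (resFun N τ)) (x : R) :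
    ∑ n : N, ‖τ (n * x)‖ ^ 2 = (Nat.card N : ℝ) := by
  have h1 := gallagher_norm N hτ hirr x
  rw [sum_mul_conj_self (fun n : N => τ (n * x))] at h1
  exact_mod_cast h1

variable {N}

theorem pair_dichotomy {p : ℕ} [hp : Fact p.Prime] {y : R} {a : ℕ} (hy : y ^ (p ^ a) = 1)
    (hgen : Subgroup.zpowers (y : R ⧸ N) = ⊤) {ρ τ : R → ℂ} (hρ : IsCharacter R ρ)
    (hτ : IsCharacter R τ)
    (hnρ : ∀ k : ℕ, k.Coprime p → ∑ n : N, ‖ρ (n * y ^ k)‖ ^ 2 = (Nat.card N : ℝ))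
    (hnτ : ∀ k : ℕ, k.Coprime p → ∑ n : N, ‖τ (n * y ^ k)‖ ^ 2 = (Nat.card N : ℝ)) :
    ∃ m : ℕ, classInner (resFun N ρ) (resFun N τ) = m ∧
      ((pairA N ρ τ y = 0 ∧ p ∣ m) ∨
       (‖pairA N ρ τ y‖ = Nat.card N ∧ ((m : ZMod p) = 1 ∨ (m : ZMod p) = -1))) := by
  have hφ : IsCharacter R (fun x => ρ x * conj (τ x)) := IsCharacter.mul hρ (IsCharacter.conj hτ)
  obtain ⟨m, hm, hd⟩ := dichotomy N hy hgen hφ fun k hk =>
    norm_sum_mul_conj_le _ _ (hnρ k hk) (hnτ k hk)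
  refine ⟨m, ?_, hd⟩
  have hNne : (Nat.card N : ℂ) ≠ 0 := by exact_mod_cast Nat.card_pos.ne'
  simp only [classInner]
  have h1 : ∑ g : N, resFun N ρ g * conj (resFun N τ g) = ∑ n : N, ρ n * conj (τ n) := rfl
  rw [h1, hm]
  field_simp

theorem pair_relZ {p : ℕ} [hp : Fact p.Prime] {y : R} {a : ℕ} (hy : y ^ (p ^ a) = 1)
    (hgen : Subgroup.zpowers (y : R ⧸ N) = ⊤) {ρ τ : R → ℂ} (hρ : IsCharacter R ρ)
    (hτ : IsCharacter R τ)
    (hnρ : ∀ k : ℕ, k.Coprime p → ∑ n : N, ‖ρ (n * y ^ k)‖ ^ 2 = (Nat.card N : ℝ))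
    (hnτ : ∀ k : ℕ, k.Coprime p → ∑ n : N, ‖τ (n * y ^ k)‖ ^ 2 = (Nat.card N : ℝ))
    (h0 : pairA N ρ τ y = 0) : RelZ p (classInner (resFun N ρ) (resFun N τ)) := by
  obtain ⟨m, hm, hd⟩ := pair_dichotomy hy hgen hρ hτ hnρ hnτ
  refine ⟨m, hm, ?_⟩
  rcases hd with ⟨-, h⟩ | ⟨h, -⟩
  · exact h
  · rw [h0, norm_zero] at h
    have : (0 : ℝ) < Nat.card N := by exact_mod_cast Nat.card_pos
    linarith

theorem pair_relU {p : ℕ} [hp : Fact p.Prime] {y : R} {a : ℕ} (hy : y ^ (p ^ a) = 1)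
    (hgen : Subgroup.zpowers (y : R ⧸ N) = ⊤) {ρ τ : R → ℂ} (hρ : IsCharacter R ρ)
    (hτ : IsCharacter R τ)
    (hnρ : ∀ k : ℕ, k.Coprime p → ∑ n : N, ‖ρ (n * y ^ k)‖ ^ 2 = (Nat.card N : ℝ))
    (hnτ : ∀ k : ℕ, k.Coprime p → ∑ n : N, ‖τ (n * y ^ k)‖ ^ 2 = (Nat.card N : ℝ))
    (h0 : pairA N ρ τ y ≠ 0) : RelU p (classInner (resFun N ρ) (resFun N τ)) := by
  obtain ⟨m, hm, hd⟩ := pair_dichotomy hy hgen hρ hτ hnρ hnτ
  refine ⟨m, hm, ?_⟩
  rcases hd with ⟨h, -⟩ | ⟨-, h⟩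
  · exact absurd h h0
  · exact h

theorem pair_norm {p : ℕ} [hp : Fact p.Prime] {y : R} {a : ℕ} (hy : y ^ (p ^ a) = 1)
    (hgen : Subgroup.zpowers (y : R ⧸ N) = ⊤) {ρ τ : R → ℂ} (hρ : IsCharacter R ρ)
    (hτ : IsCharacter R τ)
    (hnρ : ∀ k : ℕ, k.Coprime p → ∑ n : N, ‖ρ (n * y ^ k)‖ ^ 2 = (Nat.card N : ℝ))
    (hnτ : ∀ k : ℕ, k.Coprime p → ∑ n : N, ‖τ (n * y ^ k)‖ ^ 2 = (Nat.card N : ℝ))
    (h0 : pairA N ρ τ y ≠ 0) : ‖pairA N ρ τ y‖ = Nat.card N := by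
  obtain ⟨m, -, hd⟩ := pair_dichotomy hy hgen hρ hτ hnρ hnτ
  rcases hd with ⟨h, -⟩ | ⟨h, -⟩
  · exact absurd h h0
  · exact h

/-- Two vectors orthogonal: the right slot. -/
theorem pair_zero_of_orth_right {p : ℕ} [hp : Fact p.Prime] {y : R} {a : ℕ} (hy : y ^ (p ^ a) = 1)
    (hgen : Subgroup.zpowers (y : R ⧸ N) = ⊤) {ρ τ τ' : R → ℂ} (hρ : IsCharacter R ρ)
    (hτ : IsCharacter R τ) (hτ' : IsCharacter R τ')
    (hnρ : ∀ k : ℕ, k.Coprime p → ∑ n : N, ‖ρ (n * y ^ k)‖ ^ 2 = (Nat.card N : ℝ))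
    (hnτ : ∀ k : ℕ, k.Coprime p → ∑ n : N, ‖τ (n * y ^ k)‖ ^ 2 = (Nat.card N : ℝ))
    (hnτ' : ∀ k : ℕ, k.Coprime p → ∑ n : N, ‖τ' (n * y ^ k)‖ ^ 2 = (Nat.card N : ℝ))
    (horth : pairA N τ τ' y = 0) : pairA N ρ τ y = 0 ∨ pairA N ρ τ' y = 0 := by
  by_contra hcon
  push Not at hcon
  have h1 := pair_norm hy hgen hρ hτ hnρ hnτ hcon.1
  have h2 := pair_norm hy hgen hρ hτ' hnρ hnτ' hcon.2
  have hk : Nat.Coprime 1 p := Nat.coprime_one_left p
  have hf := hnρ 1 hk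
  have hg := hnτ 1 hk
  have hg' := hnτ' 1 hk
  simp only [pow_one] at hf hg hg'
  have hpos : (0 : ℝ) < Nat.card N := by exact_mod_cast Nat.card_pos
  have h3 := bessel_two (fun n : N => ρ (n * y)) (fun n : N => τ (n * y)) (fun n : N => τ' (n * y))
    hpos hf hg hg' horth
  change ‖pairA N ρ τ y‖ ^ 2 + ‖pairA N ρ τ' y‖ ^ 2 ≤ _ at h3
  rw [h1, h2] at h3
  nlinarith

/-- Two vectors orthogonal: the left slot. -/
theorem pair_zero_of_orth_left {p : ℕ} [hp : Fact p.Prime] {y : R} {a : ℕ} (hy : y ^ (p ^ a) = 1)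
    (hgen : Subgroup.zpowers (y : R ⧸ N) = ⊤) {ρ ρ' τ : R → ℂ} (hρ : IsCharacter R ρ)
    (hρ' : IsCharacter R ρ') (hτ : IsCharacter R τ)
    (hnρ : ∀ k : ℕ, k.Coprime p → ∑ n : N, ‖ρ (n * y ^ k)‖ ^ 2 = (Nat.card N : ℝ))
    (hnρ' : ∀ k : ℕ, k.Coprime p → ∑ n : N, ‖ρ' (n * y ^ k)‖ ^ 2 = (Nat.card N : ℝ))
    (hnτ : ∀ k : ℕ, k.Coprime p → ∑ n : N, ‖τ (n * y ^ k)‖ ^ 2 = (Nat.card N : ℝ))
    (horth : pairA N ρ ρ' y = 0) : pairA N ρ τ y = 0 ∨ pairA N ρ' τ y = 0 := by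
  have hswap : ∀ u v : R → ℂ, pairA N v u y = conj (pairA N u v y) := fun u v =>
    sum_conj_swap (fun n : N => u (n * y)) (fun n : N => v (n * y))
  have h1 := pair_zero_of_orth_right hy hgen hτ hρ hρ' hnτ hnρ hnρ' horth
  rcases h1 with h1 | h1
  · left
    rw [hswap τ ρ, h1, map_zero]
  · right
    rw [hswap τ ρ', h1, map_zero]

/-- A vector of norm `|N|` on the coset has a nonzero pairing with some irreducible character
of `R` whose restriction to `N` is irreducible. -/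
theorem exists_irr_pair {y : R} (hgen : Subgroup.zpowers (y : R ⧸ N) = ⊤) {ρ : R → ℂ}
    (hρ : IsCharacter R ρ) (hnρ : ∑ n : N, ‖ρ (n * y)‖ ^ 2 = (Nat.card N : ℝ)) :
    ∃ τ : R → ℂ, IsIrrCharacter R τ ∧ IsIrrCharacter N (resFun N τ) ∧ pairA N ρ τ y ≠ 0 := by
  classical
  have hexp := classFunction_eq_sum ρ (IsCharacter.isClassFunction hρ)
  have hself : pairA N ρ ρ y = (Nat.card N : ℂ) := by
    simp only [pairA]
    rw [sum_mul_conj_self (fun n : N => ρ (n * y)), hnρ]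
    simp
  have hNne : (Nat.card N : ℂ) ≠ 0 := by exact_mod_cast Nat.card_pos.ne'
  have hex : ∃ χ : IrrCharacter R, pairA N ρ (χ : R → ℂ) y ≠ 0 := by
    by_contra hcon
    push Not at hcon
    apply hNne
    rw [← hself]
    have h2 : ∀ n : N, conj (ρ (n * y)) = ∑ χ : IrrCharacter R, conj (classInner ρ (χ : R → ℂ)) *
        conj ((χ : R → ℂ) (n * y)) := by
      intro n
      conv_lhs => rw [hexp]
      simp only [Finset.sum_apply, Pi.smul_apply, smul_eq_mul, map_sum, map_mul]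
    simp only [pairA]
    simp only [h2, Finset.mul_sum]
    rw [Finset.sum_comm]
    refine Finset.sum_eq_zero fun χ _ => ?_
    have h3 := hcon χ
    simp only [pairA] at h3
    calc ∑ x : N, ρ (x * y) * (conj (classInner ρ (χ : R → ℂ)) * conj ((χ : R → ℂ) (x * y)))
        = conj (classInner ρ (χ : R → ℂ)) * ∑ x : N, ρ (x * y) * conj ((χ : R → ℂ) (x * y)) := by
          rw [Finset.mul_sum]
          refine Finset.sum_congr rfl fun x _ => ?_
          ring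
      _ = 0 := by rw [h3, mul_zero]
  obtain ⟨χ, hχ⟩ := hex
  refine ⟨χ, χ.2, ?_, hχ⟩
  obtain ⟨n, hn⟩ : ∃ n : N, (χ : R → ℂ) (n * y) ≠ 0 := by
    by_contra hcon
    push Not at hcon
    apply hχ
    simp only [pairA, hcon]
    simp
  refine irr_res_of_apply_ne_zero N (x := (n : R) * y) ?_ χ.2 hn
  rw [mk_mul_of_mem n.2]
  exact hgen

/-- An invariant irreducible character of `N` extends, when `R / N` is generated by `y`. -/
theorem exists_ext_of_gen {y : R} (hgen : Subgroup.zpowers (y : R ⧸ N) = ⊤) {ϑ : N → ℂ}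
    (hϑ : IsIrrCharacter N ϑ) (hinv : ∀ n n' : N, (n' : R) = y * n * y⁻¹ → ϑ n' = ϑ n) :
    ∃ χ : R → ℂ, IsIrrCharacter R χ ∧ resFun N χ = ϑ := by
  have hI : N ≤ inertia N ϑ := le_inertia N (IsCharacter.isClassFunction (IsIrrCharacter.isCharacter hϑ))
  have hyI : y ∈ inertia N ϑ := by
    rw [mem_inertia]
    funext n
    simp only [conjFun_apply]
    exact (hinv ⟨y⁻¹ * n * y, hN.conj_mem' n n.2 y⟩ n (by simp [mul_assoc])).symm
  have hall : ∀ g : R, g ∈ inertia N ϑ := by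
    intro g
    obtain ⟨y₀, hy₀, j, rfl⟩ := exists_mul_zpow hgen g
    exact (inertia N ϑ).mul_mem (hI hy₀) ((inertia N ϑ).zpow_mem hyI j)
  have hcyc : IsCyclic (R ⧸ N) := isCyclic_iff_exists_zpowers_eq_top.mpr ⟨_, hgen⟩
  obtain ⟨χ, hχ, hres⟩ := Cfsg.Agent.S0886.result N hcyc ϑ hϑ (fun g n => by
    have h1 := congrFun ((mem_inertia N).mp (hall g⁻¹)) n
    simp only [conjFun_apply, inv_inv] at h1
    exact h1)
  exact ⟨χ, hχ, funext hres⟩

end Pair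

end Cfsg.Agent.Lib.Char.DGN
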