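import Mathlib
import Cfsg.Agent.Lib.Char.DGN1
import Cfsg.Agent.Lib.H8Group.GlaubP

set_option autoImplicit false

/-!
Dade–Glauberman–Nagao correspondence, second part: the coset geometry for the cyclic case.
-/

namespace Cfsg.Agent.Lib.Char.DGN

open Cfsg Module Cfsg.Agent.Lib.Char Cfsg.Agent.Lib.H8Group
open scoped ComplexConjugate

universe u

section CosetGeneral

variable {Γ : Type*} [Group Γ] {K C : Subgroup Γ} {s : Γ}

/-- The coset map. -/
def cosetMap' (hs : s ∈ Subgroup.normalizer (K : Set Γ)) (hCK : C ≤ K) : K × C → K :=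
  fun p => ⟨(p.1 : Γ) * (p.2 : Γ) * (s * (p.1 : Γ)⁻¹ * s⁻¹), K.mul_mem (K.mul_mem p.1.2 (hCK p.2.2))
    ((Subgroup.mem_normalizer_iff.mp hs _).mp (K.inv_mem p.1.2))⟩

theorem cosetMap'_mul (hs : s ∈ Subgroup.normalizer (K : Set Γ)) (hCK : C ≤ K) (p : K × C) :
    ((cosetMap' hs hCK p : K) : Γ) * s = (p.1 : Γ) * ((p.2 : Γ) * s) * (p.1 : Γ)⁻¹ := by
  simp only [cosetMap']
  group

theorem card_fiber_le' [Finite Γ] (hs : s ∈ Subgroup.normalizer (K : Set Γ)) (hCK : C ≤ K)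
    (hb : ∀ y ∈ K, ∀ c ∈ C, ∀ c' ∈ C, y * (c * s) * y⁻¹ = c' * s → y ∈ C) (h : K) :
    Nat.card {p : K × C // cosetMap' hs hCK p = h} ≤ Nat.card C := by
  classical
  by_cases hne : ∃ p₀, cosetMap' hs hCK p₀ = h
  · obtain ⟨p₀, hp₀⟩ := hne
    have hinj : Function.Injective (fun p : {p : K × C // cosetMap' hs hCK p = h} =>
        ((⟨(p₀.1 : Γ)⁻¹ * (p.1.1 : Γ), by
          have h1 : ((cosetMap' hs hCK p.1 : K) : Γ) * s = ((cosetMap' hs hCK p₀ : K) : Γ) * s := by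
            rw [p.2, hp₀]
          rw [cosetMap'_mul, cosetMap'_mul] at h1
          have h2 : ((p₀.1 : Γ)⁻¹ * (p.1.1 : Γ)) * ((p.1.2 : Γ) * s) * ((p₀.1 : Γ)⁻¹ * (p.1.1 : Γ))⁻¹ =
              (p₀.2 : Γ) * s := by
            calc _ = (p₀.1 : Γ)⁻¹ * ((p.1.1 : Γ) * ((p.1.2 : Γ) * s) * (p.1.1 : Γ)⁻¹) * (p₀.1 : Γ) := by group
              _ = _ := by rw [h1]; group
          exact hb _ (K.mul_mem (K.inv_mem p₀.1.2) p.1.1.2) _ p.1.2.2 _ p₀.2.2 h2⟩ : C))) := by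
      intro p q hpq
      have h1 : (p.1.1 : Γ) = q.1.1 := by
        have := congrArg Subtype.val hpq
        exact mul_left_cancel this
      have hp1 : p.1.1 = q.1.1 := Subtype.ext h1
      apply Subtype.ext
      apply Prod.ext hp1
      have h2 : ((cosetMap' hs hCK p.1 : K) : Γ) * s = ((cosetMap' hs hCK q.1 : K) : Γ) * s := by
        rw [p.2, q.2]
      rw [cosetMap'_mul, cosetMap'_mul, h1] at h2
      have h3 := mul_left_cancel (mul_right_cancel h2)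
      exact Subtype.ext (mul_right_cancel h3)
    exact Nat.card_le_card_of_injective _ hinj
  · have : IsEmpty {p : K × C // cosetMap' hs hCK p = h} :=
      ⟨fun p => hne ⟨p.1, p.2⟩⟩
    simp

theorem card_fiber' [Finite Γ] (hs : s ∈ Subgroup.normalizer (K : Set Γ)) (hCK : C ≤ K)
    (hb : ∀ y ∈ K, ∀ c ∈ C, ∀ c' ∈ C, y * (c * s) * y⁻¹ = c' * s → y ∈ C) (h : K) :
    Nat.card {p : K × C // cosetMap' hs hCK p = h} = Nat.card C := by
  classical
  let _ : Fintype K := Fintype.ofFinite K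
  let _ : Fintype C := Fintype.ofFinite _
  have hsum : ∑ h : K, Nat.card {p : K × C // cosetMap' hs hCK p = h} =
      ∑ _h : K, Nat.card C := by
    rw [Finset.sum_const, Finset.card_univ, smul_eq_mul, ← Nat.card_eq_fintype_card, ← Nat.card_prod]
    have h1 := Finset.card_eq_sum_card_fiberwise (s := (Finset.univ : Finset (K × C)))
      (t := (Finset.univ : Finset K)) (f := cosetMap' hs hCK) (fun _ _ => Finset.mem_univ _)
    rw [Nat.card_eq_fintype_card (α := K × C), ← Finset.card_univ, h1]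
    refine Finset.sum_congr rfl fun h _ => ?_
    rw [Nat.card_eq_fintype_card, Fintype.card_subtype]
  have hall := (Finset.sum_eq_sum_iff_of_le (fun h _ => card_fiber_le' hs hCK hb h)).mp hsum
  exact hall h (Finset.mem_univ _)

/-- Every element of `K s` is `K`-conjugate to an element of `C s`. -/
theorem exists_conj_of_mem_coset' [Finite Γ] (hs : s ∈ Subgroup.normalizer (K : Set Γ)) (hCK : C ≤ K)
    (hb : ∀ y ∈ K, ∀ c ∈ C, ∀ c' ∈ C, y * (c * s) * y⁻¹ = c' * s → y ∈ C) (h : Γ) (hh : h ∈ K) :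
    ∃ g ∈ K, ∃ c ∈ C, h * s = g * (c * s) * g⁻¹ := by
  have h1 := card_fiber' hs hCK hb ⟨h, hh⟩
  have h2 : 0 < Nat.card {p : K × C // cosetMap' hs hCK p = ⟨h, hh⟩} := by
    rw [h1]; exact Nat.card_pos
  rw [Nat.card_pos_iff] at h2
  obtain ⟨⟨p, hp⟩⟩ := h2.1
  refine ⟨p.1, p.1.2, p.2, p.2.2, ?_⟩
  rw [← cosetMap'_mul hs hCK p, hp]

/-- Sum over the coset `K s` of a `K`-invariant function. -/
theorem sum_coset_eq' [Finite Γ] [Fintype K] [Fintype C]
    (hs : s ∈ Subgroup.normalizer (K : Set Γ)) (hCK : C ≤ K)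
    (hb : ∀ y ∈ K, ∀ c ∈ C, ∀ c' ∈ C, y * (c * s) * y⁻¹ = c' * s → y ∈ C) (F : Γ → ℂ)
    (hF : ∀ g ∈ K, ∀ x, F (g * x * g⁻¹) = F x) :
    (Nat.card C : ℂ) * ∑ h : K, F ((h : Γ) * s) =
      (Nat.card K : ℂ) * ∑ c : C, F ((c : Γ) * s) := by
  classical
  have h1 : ∑ p : K × C, F (((cosetMap' hs hCK p : K) : Γ) * s) =
      (Nat.card K : ℂ) * ∑ c : C, F ((c : Γ) * s) := by
    rw [Fintype.sum_prod_type]
    have : ∀ (g : K) (c : C), F (((cosetMap' hs hCK (g, c) : K) : Γ) * s) = F ((c : Γ) * s) := by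
      intro g c
      rw [cosetMap'_mul]
      exact hF g g.2 _
    simp only [this, Finset.sum_const, Finset.card_univ, nsmul_eq_mul, Nat.card_eq_fintype_card]
  rw [← h1, Finset.mul_sum]
  rw [← Finset.sum_fiberwise Finset.univ (cosetMap' hs hCK)]
  refine Finset.sum_congr rfl fun h _ => ?_
  have h2 : ∑ p ∈ Finset.univ.filter (fun p => cosetMap' hs hCK p = h),
      F (((cosetMap' hs hCK p : K) : Γ) * s) =
      ∑ _p ∈ Finset.univ.filter (fun p => cosetMap' hs hCK p = h), F ((h : Γ) * s) := by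
    refine Finset.sum_congr rfl fun p hp => ?_
    rw [(Finset.mem_filter.mp hp).2]
  rw [h2, Finset.sum_const, nsmul_eq_mul]
  have h3 := card_fiber' hs hCK hb h
  rw [Nat.card_eq_fintype_card (α := {p : K × C // cosetMap' hs hCK p = h}),
    Fintype.card_subtype] at h3
  rw [h3]

end CosetGeneral

section Data

variable {Γ : Type u} [Group Γ]

/-- The data of the cyclic case in normal form. -/
structure Data (p : ℕ) (K Q C : Subgroup Γ) [K.Normal] [Q.Normal] (s : Γ) (a : ℕ) : Prop where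
  hQK : Q ≤ K
  hidx : ¬ p ∣ Q.relIndex K
  hs : s ^ (p ^ a) = 1
  hgen : Subgroup.zpowers (s : Γ ⧸ K) = ⊤
  hC : ∀ k : Γ, k ∈ C ↔ k ∈ K ∧ s * k * s⁻¹ * k⁻¹ ∈ Q

theorem mem_zpowers_pow_of_coprime {p : ℕ} {s : Γ} {a k : ℕ} (hs : s ^ (p ^ a) = 1)
    (hk : k.Coprime p) : s ∈ Subgroup.zpowers (s ^ k) := by
  have hc : Nat.gcd k (p ^ a) = 1 := Nat.Coprime.pow_right a hk
  have h1 : ((Nat.gcd k (p ^ a) : ℕ) : ℤ) =
      k * Nat.gcdA k (p ^ a) + (p ^ a : ℕ) * Nat.gcdB k (p ^ a) := Nat.gcd_eq_gcd_ab _ _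
  rw [hc] at h1
  refine Subgroup.mem_zpowers_iff.mpr ⟨Nat.gcdA k (p ^ a), ?_⟩
  have h2 : s ^ (1 : ℤ) = s ^ ((k : ℤ) * Nat.gcdA k (p ^ a) + ((p ^ a : ℕ) : ℤ) * Nat.gcdB k (p ^ a)) := by
    rw [← h1]
    simp
  rw [zpow_one, zpow_add, zpow_mul, zpow_mul, zpow_natCast, zpow_natCast, hs] at h2
  simpa using h2.symm

theorem comm_mem_iff (Q : Subgroup Γ) [Q.Normal] (x k : Γ) :
    x * k * x⁻¹ * k⁻¹ ∈ Q ↔ (x : Γ ⧸ Q) * (k : Γ ⧸ Q) = (k : Γ ⧸ Q) * (x : Γ ⧸ Q) := by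
  rw [← QuotientGroup.eq_one_iff]
  simp only [QuotientGroup.mk_mul, QuotientGroup.mk_inv]
  rw [mul_inv_eq_one, mul_inv_eq_iff_eq_mul]

namespace Data

variable {p : ℕ} {K Q C : Subgroup Γ} [K.Normal] [Q.Normal] {s : Γ} {a : ℕ}

theorem pow (hd : Data p K Q C s a) {k : ℕ} (hk : k.Coprime p) : Data p K Q C (s ^ k) a where
  hQK := hd.hQK
  hidx := hd.hidx
  hs := by rw [← pow_mul, mul_comm, pow_mul, hd.hs, one_pow]
  hgen := by
    rw [eq_top_iff, ← hd.hgen]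
    rw [Subgroup.zpowers_le]
    have h1 := mem_zpowers_pow_of_coprime hd.hs hk
    obtain ⟨j, hj⟩ := Subgroup.mem_zpowers_iff.mp h1
    refine Subgroup.mem_zpowers_iff.mpr ⟨j, ?_⟩
    rw [← QuotientGroup.mk_zpow, hj]
  hC := by
    intro k'
    rw [hd.hC]
    refine and_congr_right fun _ => ?_
    rw [comm_mem_iff, comm_mem_iff]
    constructor
    · intro h
      have h1 : Commute (s : Γ ⧸ Q) (k' : Γ ⧸ Q) := h
      have h2 := h1.pow_left k
      rw [QuotientGroup.mk_pow]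
      exact h2
    · intro h
      have h1 := mem_zpowers_pow_of_coprime hd.hs hk
      obtain ⟨j, hj⟩ := Subgroup.mem_zpowers_iff.mp h1
      have h2 : Commute ((s ^ k : Γ) : Γ ⧸ Q) (k' : Γ ⧸ Q) := h
      have h3 := h2.zpow_left j
      rw [← QuotientGroup.mk_zpow, hj] at h3
      exact h3

theorem hCK (hd : Data p K Q C s a) : C ≤ K := fun _ hc => ((hd.hC _).mp hc).1

theorem hQC (hd : Data p K Q C s a) : Q ≤ C := by
  intro q hq
  refine (hd.hC q).mpr ⟨hd.hQK hq, ?_⟩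
  have h1 : s * q * s⁻¹ ∈ Q := ‹Q.Normal›.conj_mem q hq s
  exact Q.mul_mem h1 (Q.inv_mem hq)

theorem hsK (_hd : Data p K Q C s a) : s ∈ Subgroup.normalizer (K : Set Γ) := by
  rw [Subgroup.mem_normalizer_iff]
  intro h
  exact ⟨fun hh => ‹K.Normal›.conj_mem h hh s, fun hh => by
    have := ‹K.Normal›.conj_mem _ hh s⁻¹
    simpa [mul_assoc] using this⟩

theorem hsC (hd : Data p K Q C s a) : s ∈ Subgroup.normalizer (C : Set Γ) := by
  rw [Subgroup.mem_normalizer_iff]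
  intro y
  rw [hd.hC, hd.hC]
  constructor
  · rintro ⟨hy, hq⟩
    refine ⟨‹K.Normal›.conj_mem y hy s, ?_⟩
    have h1 : s * (s * y * s⁻¹ * y⁻¹) * s⁻¹ ∈ Q := ‹Q.Normal›.conj_mem _ hq s
    convert h1 using 1
    group
  · rintro ⟨hy, hq⟩
    have hy' : y ∈ K := by
      have := ‹K.Normal›.conj_mem _ hy s⁻¹
      simpa [mul_assoc] using this
    refine ⟨hy', ?_⟩
    have h1 : s⁻¹ * (s * (s * y * s⁻¹) * s⁻¹ * (s * y * s⁻¹)⁻¹) * s⁻¹⁻¹ ∈ Q := ‹Q.Normal›.conj_mem _ hq s⁻¹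
    convert h1 using 1
    group

/-- The key uniqueness property of the coset geometry. -/
theorem hb [Finite Γ] [hp : Fact p.Prime] (hd : Data p K Q C s a) :
    ∀ y ∈ K, ∀ c ∈ C, ∀ c' ∈ C, y * (c * s) * y⁻¹ = c' * s → y ∈ C := by
  classical
  intro y hy c hc c' hc' h
  let π := QuotientGroup.mk' Q
  let D : Subgroup (Γ ⧸ Q) := K.map π
  have hcardD : Nat.card D = Q.relIndex K := by
    let f : K →* D := π.subgroupMap K
    have hf : Function.Surjective f := π.subgroupMap_surjective K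
    have h2 : f.ker = Q.subgroupOf K := by
      ext x
      rw [MonoidHom.mem_ker, Subgroup.mem_subgroupOf]
      constructor
      · intro h
        have h3 : π (x : Γ) = 1 := congrArg Subtype.val h
        exact (QuotientGroup.eq_one_iff _).mp h3
      · intro h
        apply Subtype.ext
        exact (QuotientGroup.eq_one_iff _).mpr h
    have h3 : f.range = ⊤ := MonoidHom.range_eq_top.mpr hf
    have h4 := Subgroup.index_ker f
    rw [h3, h2, Nat.card_congr Subgroup.topEquiv.toEquiv] at h4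
    exact h4.symm
  have hcop : Nat.Coprime (orderOf (s : Γ ⧸ Q)) (Nat.card D) := by
    have h1 : orderOf (s : Γ ⧸ Q) ∣ p ^ a := by
      apply orderOf_dvd_of_pow_eq_one
      rw [← QuotientGroup.mk_pow, hd.hs]
      rfl
    rw [hcardD]
    refine Nat.Coprime.coprime_dvd_left h1 (Nat.Coprime.pow_left a ?_)
    exact (Nat.Prime.coprime_iff_not_dvd hp.out).mpr hd.hidx
  have hmem : ∀ z ∈ C, (z : Γ ⧸ Q) ∈ cD D (s : Γ ⧸ Q) := by
    intro z hz
    obtain ⟨hzK, hzq⟩ := (hd.hC z).mp hz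
    refine mem_cD.mpr ⟨⟨z, hzK, rfl⟩, ?_⟩
    exact ((comm_mem_iff Q s z).mp hzq).symm
  have h1 : (y : Γ ⧸ Q) * ((c : Γ ⧸ Q) * (s : Γ ⧸ Q)) * (y : Γ ⧸ Q)⁻¹ = (c' : Γ ⧸ Q) * (s : Γ ⧸ Q) := by
    have := congrArg (fun x : Γ => (x : Γ ⧸ Q)) h
    simpa only [QuotientGroup.mk_mul, QuotientGroup.mk_inv] using this
  have h2 := (conj_unique hcop (y := (y : Γ ⧸ Q)) ⟨y, hy, rfl⟩ (hmem c hc) (hmem c' hc') h1).1
  refine (hd.hC y).mpr ⟨hy, ?_⟩
  exact (comm_mem_iff Q s y).mpr (mem_cD.mp h2).2.symm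

end Data

end Data


section Rel

variable {Γ : Type u} [Group Γ]

/-- The multiplicity of `ξ` in the restriction of `θ`. -/
noncomputable def mult {K C : Subgroup Γ} [Fintype C] (hCK : C ≤ K) (θ : K → ℂ) (ξ : C → ℂ) : ℂ :=
  classInner (fun c : C => θ ⟨c, hCK c.2⟩) ξ

/-- The correspondence between the invariant irreducible characters. -/
def DGNRel (p : ℕ) (T K C : Subgroup Γ) [Fintype C] (hCK : C ≤ K) : Prop :=
  (∀ θ : IrrCharacter K, InvBy T (θ : K → ℂ) → ∃ ξ : IrrCharacter C, InvBy T (ξ : C → ℂ) ∧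
    RelU p (mult hCK (θ : K → ℂ) (ξ : C → ℂ)) ∧
    ∀ γ : IrrCharacter C, InvBy T (γ : C → ℂ) → γ ≠ ξ → RelZ p (mult hCK (θ : K → ℂ) (γ : C → ℂ))) ∧
  (∀ ξ : IrrCharacter C, InvBy T (ξ : C → ℂ) → ∃ θ : IrrCharacter K, InvBy T (θ : K → ℂ) ∧
    RelU p (mult hCK (θ : K → ℂ) (ξ : C → ℂ)) ∧
    ∀ θ' : IrrCharacter K, InvBy T (θ' : K → ℂ) → θ' ≠ θ → RelZ p (mult hCK (θ' : K → ℂ) (ξ : C → ℂ)))

theorem invBy_zpowers_of {D : Subgroup Γ} {s : Γ} (hs : s ∈ Subgroup.normalizer (D : Set Γ))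
    {θ : D → ℂ} (h : ∀ g g' : D, (g' : Γ) = s * g * s⁻¹ → θ g' = θ g) :
    InvBy (Subgroup.zpowers s) θ := by
  intro x hx
  have hle : Subgroup.zpowers s ≤ stabSub D θ := Subgroup.zpowers_le.mpr ⟨hs, h⟩
  exact (hle hx).2

end Rel

section Norms

variable {Γ : Type u} [Group Γ] [Fintype Γ] {p : ℕ} [hp : Fact p.Prime] {K Q C : Subgroup Γ}
  [hK : K.Normal] [hQ : Q.Normal] [Fintype K] [Fintype C] {s : Γ} {a : ℕ}

namespace Data

theorem sum_norm (hd : Data p K Q C s a) {ψ : Γ → ℂ} (hψ : IsCharacter Γ ψ)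
    (hirr : IsIrrCharacter K (resFun K ψ)) : ∑ c : C, ‖ψ ((c : Γ) * s)‖ ^ 2 = (Nat.card C : ℝ) := by
  have h1 := sum_coset_eq' hd.hsK hd.hCK hd.hb (fun x => ψ x * conj (ψ x)) (by
    intro g _ x
    have := (IsCharacter.isClassFunction hψ) x g
    simp only [this])
  have h2 := gallagher_norm K hψ hirr s
  rw [h2] at h1
  have hKne : (Nat.card K : ℂ) ≠ 0 := by exact_mod_cast Nat.card_pos.ne'
  have h3 : ∑ c : C, ψ ((c : Γ) * s) * conj (ψ ((c : Γ) * s)) = (Nat.card C : ℂ) := by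
    apply mul_left_cancel₀ hKne
    rw [← h1]
    ring
  rw [sum_mul_conj_self (fun c : C => ψ ((c : Γ) * s))] at h3
  exact_mod_cast h3

theorem sum_orth (hd : Data p K Q C s a) {ψ ψ' : Γ → ℂ} (h₁ : IsIrrCharacter Γ ψ)
    (h₂ : IsIrrCharacter Γ ψ') (hne : resFun K ψ ≠ resFun K ψ') :
    ∑ c : C, ψ ((c : Γ) * s) * conj (ψ' ((c : Γ) * s)) = 0 := by
  have hcyc : IsCyclic (Γ ⧸ K) := isCyclic_iff_exists_zpowers_eq_top.mpr ⟨_, hd.hgen⟩
  have hcomm : ∀ a b : Γ ⧸ K, a * b = b * a := fun a b =>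
    (IsCyclic.commGroup : CommGroup (Γ ⧸ K)).mul_comm a b
  have h3 := sum_coset_eq_zero K hcomm h₁ h₂ hne s
  have h1 := sum_coset_eq' hd.hsK hd.hCK hd.hb (fun x => ψ x * conj (ψ' x)) (by
    intro g _ x
    have e1 := (IsCharacter.isClassFunction (IsIrrCharacter.isCharacter h₁)) x g
    have e2 := (IsCharacter.isClassFunction (IsIrrCharacter.isCharacter h₂)) x g
    simp only [e1, e2])
  rw [h3, mul_zero] at h1
  have hKne : (Nat.card K : ℂ) ≠ 0 := by exact_mod_cast Nat.card_pos.ne'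
  exact (mul_eq_zero.mp h1.symm).resolve_left hKne

/-- A function on the coset `C s` invariant under `C` is detected by an irreducible character of
`Γ` with irreducible restriction to `K`. -/
theorem exists_irr_of_fun (hd : Data p K Q C s a) (f : C → ℂ)
    (hf : ∀ u c c' : C, (u : Γ) * ((c : Γ) * s) * (u : Γ)⁻¹ = (c' : Γ) * s → f c' = f c)
    (hne : ∃ c, f c ≠ 0) :
    ∃ ψ : Γ → ℂ, IsIrrCharacter Γ ψ ∧ IsIrrCharacter K (resFun K ψ) ∧
      ∑ c : C, f c * conj (ψ ((c : Γ) * s)) ≠ 0 := by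
  classical
  have hb := hd.hb
  have hCK := hd.hCK
  let P : Γ → Prop := fun x => ∃ c : C, ∃ g ∈ K, x = g * ((c : Γ) * s) * g⁻¹
  let F : Γ → ℂ := fun x => if h : P x then f h.choose else 0
  have hFval : ∀ (c : C) (g : Γ), g ∈ K → F (g * ((c : Γ) * s) * g⁻¹) = f c := by
    intro c g hg
    have hP : P (g * ((c : Γ) * s) * g⁻¹) := ⟨c, g, hg, rfl⟩
    simp only [F, dif_pos hP]
    obtain ⟨g₀, hg₀, e⟩ := hP.choose_spec
    have e2 : (g₀⁻¹ * g) * ((c : Γ) * s) * (g₀⁻¹ * g)⁻¹ = (hP.choose : Γ) * s := by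
      calc (g₀⁻¹ * g) * ((c : Γ) * s) * (g₀⁻¹ * g)⁻¹ = g₀⁻¹ * (g * ((c : Γ) * s) * g⁻¹) * g₀ := by group
        _ = g₀⁻¹ * (g₀ * ((hP.choose : Γ) * s) * g₀⁻¹) * g₀ := by rw [← e]
        _ = _ := by group
    have hu := hb _ (K.mul_mem (K.inv_mem hg₀) hg) c c.2 _ hP.choose.2 e2
    exact hf ⟨_, hu⟩ c hP.choose e2
  have hconj : ∀ (c : C) (h : Γ), ∃ y₀ ∈ K, h * ((c : Γ) * s) * h⁻¹ = y₀ * ((c : Γ) * s) * y₀⁻¹ := by
    intro c h
    have hgenc : Subgroup.zpowers (((c : Γ) * s : Γ) : Γ ⧸ K) = ⊤ := by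
      rw [mk_mul_of_mem (hCK c.2)]
      exact hd.hgen
    obtain ⟨y₀, hy₀, j, rfl⟩ := exists_mul_zpow hgenc h
    refine ⟨y₀, hy₀, ?_⟩
    have hc : Commute (((c : Γ) * s) ^ j) ((c : Γ) * s) := (Commute.refl _).zpow_left j
    calc (y₀ * ((c : Γ) * s) ^ j) * ((c : Γ) * s) * (y₀ * ((c : Γ) * s) ^ j)⁻¹
        = y₀ * (((c : Γ) * s) ^ j * ((c : Γ) * s)) * (((c : Γ) * s) ^ j)⁻¹ * y₀⁻¹ := by group
      _ = y₀ * (((c : Γ) * s) * ((c : Γ) * s) ^ j) * (((c : Γ) * s) ^ j)⁻¹ * y₀⁻¹ := by rw [hc.eq]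
      _ = _ := by group
  have hPconj : ∀ (x h : Γ), P x → P (h * x * h⁻¹) := by
    rintro x h ⟨c, g, hg, rfl⟩
    obtain ⟨y₀, hy₀, e⟩ := hconj c (h * g)
    refine ⟨c, y₀, hy₀, ?_⟩
    rw [← e]
    group
  have hclass : IsClassFunction Γ F := by
    intro x h
    by_cases hx : P x
    · obtain ⟨c, g, hg, rfl⟩ := hx
      obtain ⟨y₀, hy₀, e⟩ := hconj c (h * g)
      have e' : h * (g * ((c : Γ) * s) * g⁻¹) * h⁻¹ = y₀ * ((c : Γ) * s) * y₀⁻¹ := by
        rw [← e]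
        group
      rw [e', hFval c y₀ hy₀, hFval c g hg]
    · have hx' : ¬ P (h * x * h⁻¹) := by
        intro hc
        apply hx
        have := hPconj _ h⁻¹ hc
        convert this using 1
        group
      simp only [F, dif_neg hx, dif_neg hx']
  obtain ⟨c₁, hc₁⟩ := hne
  have hF1 : F ((c₁ : Γ) * s) = f c₁ := by
    have := hFval c₁ 1 K.one_mem
    simpa using this
  have hex : ∃ ψ : Γ → ℂ, IsIrrCharacter Γ ψ ∧ classInner F ψ ≠ 0 := by
    by_contra hcon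
    push Not at hcon
    have h0 := classFunction_eq_zero_of_orthogonal F hclass hcon
    apply hc₁
    rw [← hF1, h0]
    rfl
  obtain ⟨ψ, hψ, hin⟩ := hex
  let G : Γ → ℂ := fun x => F x * conj (ψ x)
  have hGinv : ∀ g ∈ K, ∀ x, G (g * x * g⁻¹) = G x := by
    intro g _ x
    have e2 := (IsCharacter.isClassFunction (IsIrrCharacter.isCharacter hψ)) x g
    simp only [G, hclass x g, e2]
  have hcoset := sum_coset_eq' hd.hsK hCK hb G hGinv
  have hGsum : ∑ x : Γ, G x = ∑ w : K, G ((w : Γ) * s) := by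
    have h1 : ∑ x : Γ, G x = ∑ z : Γ, G (z * s) := (Equiv.sum_comp (Equiv.mulRight s) G).symm
    rw [h1, ← sum_dite_mem K (fun w : K => G ((w : Γ) * s))]
    refine Finset.sum_congr rfl fun z _ => ?_
    by_cases hz : z ∈ K
    · rw [dif_pos hz]
    · rw [dif_neg hz]
      have hnP : ¬ P (z * s) := by
        rintro ⟨c, g, hg, e⟩
        apply hz
        have h3 : z = g * (c : Γ) * (s * g⁻¹ * s⁻¹) := by
          have h4 : z * s = g * (c : Γ) * (s * g⁻¹ * s⁻¹) * s := by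
            rw [e]
            group
          exact mul_right_cancel h4
        rw [h3]
        exact K.mul_mem (K.mul_mem hg (hCK c.2))
          ((Subgroup.mem_normalizer_iff.mp hd.hsK _).mp (K.inv_mem hg))
      simp only [G, F, dif_neg hnP, zero_mul]
  have hGval : ∀ c : C, G ((c : Γ) * s) = f c * conj (ψ ((c : Γ) * s)) := by
    intro c
    have := hFval c 1 K.one_mem
    simp only [one_mul, inv_one, mul_one] at this
    simp only [G, this]
  have hsumne : ∑ c : C, f c * conj (ψ ((c : Γ) * s)) ≠ 0 := by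
    intro h0
    apply hin
    simp only [classInner]
    have hCne : (Nat.card C : ℂ) ≠ 0 := by exact_mod_cast Nat.card_pos.ne'
    have h5 : ∑ c : C, G ((c : Γ) * s) = 0 := by
      rw [← h0]
      exact Finset.sum_congr rfl fun c _ => hGval c
    rw [h5, mul_zero] at hcoset
    have h6 : ∑ w : K, G ((w : Γ) * s) = 0 := (mul_eq_zero.mp hcoset).resolve_left hCne
    have h7 : ∑ g : Γ, F g * conj (ψ g) = 0 := by
      change ∑ x : Γ, G x = 0
      rw [hGsum, h6]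
    rw [h7, mul_zero]
  refine ⟨ψ, hψ, ?_, hsumne⟩
  obtain ⟨c₂, hc₂⟩ : ∃ c : C, ψ ((c : Γ) * s) ≠ 0 := by
    by_contra hcon
    push Not at hcon
    apply hsumne
    simp only [hcon]
    simp
  refine irr_res_of_apply_ne_zero K (x := (c₂ : Γ) * s) ?_ hψ hc₂
  rw [mk_mul_of_mem (hCK c₂.2)]
  exact hd.hgen

end Data

end Norms

end Cfsg.Agent.Lib.Char.DGN
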