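import Mathlib
import Cfsg.Agent.Lib.Char.DGN2

set_option autoImplicit false
set_option linter.unusedSectionVars false

/-!
Dade–Glauberman–Nagao correspondence, third part: the cyclic case in normal form.
-/

namespace Cfsg.Agent.Lib.Char.DGN

open Cfsg Module Cfsg.Agent.Lib.Char Cfsg.Agent.Lib.H8Group
open scoped ComplexConjugate

universe u

section Abstract

variable {Γ : Type u} [Group Γ] [Fintype Γ] {p : ℕ} [hp : Fact p.Prime] {K Q C : Subgroup Γ}
  [hK : K.Normal] [hQ : Q.Normal] [Fintype K] [Fintype C] {s : Γ} {a : ℕ}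
  {R : Type u} [Group R] [Fintype R] {N : Subgroup R} [hN : N.Normal] [Fintype N]

/-- The group `C ⟨s⟩` presented abstractly. -/
structure RData (C : Subgroup Γ) (s : Γ) (p a : ℕ) (N : Subgroup R) [N.Normal] (j : R →* Γ)
    (eC : N ≃* C) (y : R) : Prop where
  hj : ∀ n : N, j n = (eC n : Γ)
  hjy : j y = s
  hy : y ^ (p ^ a) = 1
  hgen : Subgroup.zpowers (y : R ⧸ N) = ⊤
  hinj : Function.Injective j

variable {j : R →* Γ} {eC : N ≃* C} {y : R}

namespace RData

theorem sum_norm_res (hr : RData C s p a N j eC y) (hd : Data p K Q C s a) {ψ : Γ → ℂ}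
    (hψ : IsCharacter Γ ψ) (hirr : IsIrrCharacter K (resFun K ψ)) (k : ℕ) (hk : k.Coprime p) :
    ∑ n : N, ‖(ψ ∘ j) (n * y ^ k)‖ ^ 2 = (Nat.card N : ℝ) := by
  have h1 := (hd.pow hk).sum_norm hψ hirr
  rw [Nat.card_congr eC.toEquiv, ← h1, ← Equiv.sum_comp eC.toEquiv]
  refine Finset.sum_congr rfl fun n _ => ?_
  simp only [Function.comp_apply, map_mul, map_pow, hr.hjy, hr.hj]
  rfl

theorem mult_eq (hr : RData C s p a N j eC y) (hCK : C ≤ K) {θ : K → ℂ} {ξ : C → ℂ} {ψ : Γ → ℂ}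
    {τ : R → ℂ} (hψ : resFun K ψ = θ) (hτ : resFun N τ = ξ ∘ eC) :
    classInner (resFun N (ψ ∘ j)) (resFun N τ) = mult hCK θ ξ := by
  rw [hτ]
  have h1 : resFun N (ψ ∘ j) = (fun c : C => θ ⟨c, hCK c.2⟩) ∘ eC := by
    funext n
    simp only [Function.comp_apply]
    rw [← hψ]
    show ψ (j n) = ψ _
    rw [hr.hj]
  rw [h1, classInner_comp_mulEquiv]
  rfl

theorem pair_eq (hr : RData C s p a N j eC y) (ψ : Γ → ℂ) (τ : R → ℂ) :
    pairA N (ψ ∘ j) τ y = ∑ c : C, ψ ((c : Γ) * s) * conj (τ (eC.symm c * y)) := by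
  simp only [pairA]
  rw [← Equiv.sum_comp eC.toEquiv]
  refine Finset.sum_congr rfl fun n _ => ?_
  simp only [Function.comp_apply, map_mul, hr.hjy, hr.hj]
  simp

theorem invy_of_invBy (hr : RData C s p a N j eC y) {ξ : C → ℂ}
    (hξ : InvBy (Subgroup.zpowers s) ξ) (n n' : N) (h : (n' : R) = y * n * y⁻¹) :
    (ξ ∘ eC) n' = (ξ ∘ eC) n := by
  refine hξ s (Subgroup.mem_zpowers s) (eC n) (eC n') ?_
  rw [← hr.hj, ← hr.hj, h, map_mul, map_mul, map_inv, hr.hjy]

end RData

/-- Invariance on `K` from a character of `Γ`. -/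
theorem invBy_resFun (ψ : Γ → ℂ) (hψ : IsClassFunction Γ ψ) (T : Subgroup Γ) :
    InvBy T (resFun K ψ) := by
  intro x _ g g' hgg'
  show ψ g' = ψ g
  rw [hgg']
  exact hψ _ _

theorem Data.exists_ext (hd : Data p K Q C s a) (θ : IrrCharacter K)
    (hθ : InvBy (Subgroup.zpowers s) (θ : K → ℂ)) :
    ∃ ψ : Γ → ℂ, IsIrrCharacter Γ ψ ∧ resFun K ψ = (θ : K → ℂ) := by
  refine exists_ext_of_gen hd.hgen θ.2 fun n n' h => ?_
  exact hθ s (Subgroup.mem_zpowers s) n n' h

theorem RData.exists_ext (hr : RData C s p a N j eC y) (ξ : IrrCharacter C)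
    (hξ : InvBy (Subgroup.zpowers s) (ξ : C → ℂ)) :
    ∃ τ : R → ℂ, IsIrrCharacter R τ ∧ resFun N τ = (ξ : C → ℂ) ∘ eC := by
  refine exists_ext_of_gen hr.hgen (isIrrCharacter_comp_mulEquiv eC ξ.2) fun n n' h => ?_
  exact hr.invy_of_invBy hξ n n' h

/-- The cyclic case in normal form. -/
theorem normal_form (hd : Data p K Q C s a) (hr : RData C s p a N j eC y) :
    DGNRel p (Subgroup.zpowers s) K C hd.hCK := by
  classical
  have hCK := hd.hCK
  have hρ : ∀ {ψ : Γ → ℂ}, IsIrrCharacter Γ ψ → IsCharacter R (ψ ∘ j) := fun h =>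
    IsCharacter.comp (IsIrrCharacter.isCharacter h) j
  have hnρ : ∀ {ψ : Γ → ℂ}, IsIrrCharacter Γ ψ → IsIrrCharacter K (resFun K ψ) →
      ∀ k : ℕ, k.Coprime p → ∑ n : N, ‖(ψ ∘ j) (n * y ^ k)‖ ^ 2 = (Nat.card N : ℝ) :=
    fun h h' k hk => hr.sum_norm_res hd (IsIrrCharacter.isCharacter h) h' k hk
  have hnτ : ∀ {τ : R → ℂ}, IsIrrCharacter R τ → IsIrrCharacter N (resFun N τ) →
      ∀ k : ℕ, k.Coprime p → ∑ n : N, ‖τ (n * y ^ k)‖ ^ 2 = (Nat.card N : ℝ) :=
    fun h h' k _ => sum_norm_sq_of_irr_res N (IsIrrCharacter.isCharacter h) h' _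
  -- the restriction of a good `τ` to `C`
  have hξ_of : ∀ {τ : R → ℂ}, IsIrrCharacter N (resFun N τ) → IsClassFunction R τ →
      ∃ ξ : IrrCharacter C, InvBy (Subgroup.zpowers s) (ξ : C → ℂ) ∧
        resFun N τ = (ξ : C → ℂ) ∘ eC := by
    intro τ hτ hcl
    refine ⟨⟨resFun N τ ∘ eC.symm, isIrrCharacter_comp_mulEquiv eC.symm hτ⟩, ?_, ?_⟩
    · refine invBy_zpowers_of hd.hsC fun g g' h => ?_
      simp only [Function.comp_apply]
      show τ (eC.symm g') = τ (eC.symm g)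
      have h1 : ((eC.symm g' : N) : R) = y * (eC.symm g : N) * y⁻¹ := by
        apply hr.hinj
        rw [hr.hj, map_mul, map_mul, map_inv, hr.hj, hr.hjy]
        simp [h]
      rw [h1]
      exact hcl _ _
    · funext n
      simp
  refine ⟨fun θ hθ => ?_, fun ξ hξ => ?_⟩
  · obtain ⟨ψ, hψ, hres⟩ := hd.exists_ext θ hθ
    have hirr : IsIrrCharacter K (resFun K ψ) := by rw [hres]; exact θ.2
    obtain ⟨τ, hτ, hτirr, hne⟩ := exists_irr_pair hr.hgen (hρ hψ) (by
      have := hnρ hψ hirr 1 (Nat.coprime_one_left p)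
      simpa using this)
    obtain ⟨ξ, hξ, hξτ⟩ := hξ_of hτirr (IsCharacter.isClassFunction (IsIrrCharacter.isCharacter hτ))
    refine ⟨ξ, hξ, ?_, fun γ hγ hne' => ?_⟩
    · rw [← hr.mult_eq hCK hres hξτ]
      exact pair_relU hr.hy hr.hgen (hρ hψ) (IsIrrCharacter.isCharacter hτ) (hnρ hψ hirr)
        (hnτ hτ hτirr) hne
    · obtain ⟨τ', hτ', hτ'res⟩ := hr.exists_ext γ hγ
      have hτ'irr : IsIrrCharacter N (resFun N τ') := by
        rw [hτ'res]
        exact isIrrCharacter_comp_mulEquiv eC γ.2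
      rw [← hr.mult_eq hCK hres hτ'res]
      have hres_ne : resFun N τ ≠ resFun N τ' := by
        intro h
        apply hne'
        apply Subtype.ext
        funext c
        have h1 := congrFun (hξτ.symm.trans (h.trans hτ'res)) (eC.symm c)
        simpa using h1.symm
      have hcyc : IsCyclic (R ⧸ N) := isCyclic_iff_exists_zpowers_eq_top.mpr ⟨_, hr.hgen⟩
      have hcomm : ∀ a b : R ⧸ N, a * b = b * a := fun a b =>
        (IsCyclic.commGroup : CommGroup (R ⧸ N)).mul_comm a b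
      have horth : pairA N τ τ' y = 0 := sum_coset_eq_zero N hcomm hτ hτ' hres_ne y
      have h2 := pair_zero_of_orth_right hr.hy hr.hgen (hρ hψ) (IsIrrCharacter.isCharacter hτ)
        (IsIrrCharacter.isCharacter hτ') (hnρ hψ hirr) (hnτ hτ hτirr) (hnτ hτ' hτ'irr) horth
      refine pair_relZ hr.hy hr.hgen (hρ hψ) (IsIrrCharacter.isCharacter hτ') (hnρ hψ hirr)
        (hnτ hτ' hτ'irr) (h2.resolve_left hne)
  · obtain ⟨τ, hτ, hτres⟩ := hr.exists_ext ξ hξ
    have hτirr : IsIrrCharacter N (resFun N τ) := by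
      rw [hτres]
      exact isIrrCharacter_comp_mulEquiv eC ξ.2
    -- the function on `C`
    let f : C → ℂ := fun c => τ (eC.symm c * y)
    have hf : ∀ u c c' : C, (u : Γ) * ((c : Γ) * s) * (u : Γ)⁻¹ = (c' : Γ) * s → f c' = f c := by
      intro u c c' h
      have h1 : (eC.symm c' : R) * y = (eC.symm u : R) * ((eC.symm c : R) * y) * (eC.symm u : R)⁻¹ := by
        apply hr.hinj
        simp only [map_mul, map_inv, hr.hj, hr.hjy]
        simp [h]
      simp only [f]
      rw [h1]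
      exact (IsCharacter.isClassFunction (IsIrrCharacter.isCharacter hτ)) _ _
    have hfne : ∃ c, f c ≠ 0 := by
      by_contra hcon
      push Not at hcon
      have h1 := hnτ hτ hτirr 1 (Nat.coprime_one_left p)
      have h2 : ∑ n : N, ‖τ (n * y ^ 1)‖ ^ 2 = 0 := by
        refine Finset.sum_eq_zero fun n _ => ?_
        have h3 := hcon (eC n)
        simp only [f, MulEquiv.symm_apply_apply] at h3
        simp [h3]
      rw [h2] at h1
      have : (0 : ℝ) < Nat.card N := by exact_mod_cast Nat.card_pos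
      linarith
    obtain ⟨ψ, hψ, hψirr, hne⟩ := hd.exists_irr_of_fun f hf hfne
    have hpair : pairA N (ψ ∘ j) τ y ≠ 0 := by
      rw [hr.pair_eq]
      intro h0
      apply hne
      have h1 := sum_conj_swap (fun c : C => ψ ((c : Γ) * s)) f
      rw [h1, h0, map_zero]
    let θ : IrrCharacter K := ⟨resFun K ψ, hψirr⟩
    have hθres : resFun K ψ = (θ : K → ℂ) := rfl
    refine ⟨θ, invBy_resFun ψ (IsCharacter.isClassFunction (IsIrrCharacter.isCharacter hψ)) _,
      ?_, fun θ' hθ' hne' => ?_⟩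
    · rw [← hr.mult_eq hCK hθres hτres]
      exact pair_relU hr.hy hr.hgen (hρ hψ) (IsIrrCharacter.isCharacter hτ) (hnρ hψ hψirr)
        (hnτ hτ hτirr) hpair
    · obtain ⟨ψ', hψ', hres'⟩ := hd.exists_ext θ' hθ'
      have hψ'irr : IsIrrCharacter K (resFun K ψ') := by rw [hres']; exact θ'.2
      rw [← hr.mult_eq hCK hres' hτres]
      have hres_ne : resFun K ψ ≠ resFun K ψ' := by
        intro h
        apply hne'
        apply Subtype.ext
        rw [← hres', ← h]
      have horth : pairA N (ψ ∘ j) (ψ' ∘ j) y = 0 := by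
        have h1 := hd.sum_orth hψ hψ' hres_ne
        simp only [pairA]
        rw [← h1, ← Equiv.sum_comp eC.toEquiv]
        refine Finset.sum_congr rfl fun n _ => ?_
        simp only [Function.comp_apply, map_mul, hr.hjy, hr.hj]
        rfl
      have h2 := pair_zero_of_orth_left hr.hy hr.hgen (hρ hψ) (hρ hψ')
        (IsIrrCharacter.isCharacter hτ) (hnρ hψ hψirr) (hnρ hψ' hψ'irr) (hnτ hτ hτirr) horth
      exact pair_relZ hr.hy hr.hgen (hρ hψ') (IsIrrCharacter.isCharacter hτ) (hnρ hψ' hψ'irr)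
        (hnτ hτ hτirr) (h2.resolve_left hpair)

end Abstract

end Cfsg.Agent.Lib.Char.DGN
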