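import Mathlib
import Cfsg.Agent.Lib.Char.DGN3

set_option autoImplicit false
set_option linter.unusedSectionVars false

/-!
Dade–Glauberman–Nagao correspondence, fourth part: the cyclic case in an arbitrary ambient group.
-/

namespace Cfsg.Agent.Lib.Char.DGN

open Cfsg Module Cfsg.Agent.Lib.Char Cfsg.Agent.Lib.H8Group
open scoped ComplexConjugate

universe u

section Transport

variable {Γ : Type u} [Group Γ] {Γ' : Type u} [Group Γ']

theorem mult_comp {K C : Subgroup Γ} {K' C' : Subgroup Γ'} [Fintype C] [Fintype C']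
    (hCK : C ≤ K) (hCK' : C' ≤ K') (eK : K' ≃* K) (eC : C' ≃* C)
    (hcompat : ∀ c : C', ((eK ⟨c, hCK' c.2⟩ : K) : Γ) = ((eC c : C) : Γ))
    (θ : K → ℂ) (ξ : C → ℂ) :
    mult hCK' (θ ∘ eK) (ξ ∘ eC) = mult hCK θ ξ := by
  have key : (fun c : C' => (θ ∘ eK) ⟨c, hCK' c.2⟩) = (fun c : C => θ ⟨c, hCK c.2⟩) ∘ eC := by
    funext c
    simp only [Function.comp_apply]
    congr 1
    exact Subtype.ext (hcompat c)
  simp only [mult]
  rw [key, classInner_comp_mulEquiv]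

theorem DGNRel.transport {p : ℕ} {T K C : Subgroup Γ} {T' K' C' : Subgroup Γ'} [Fintype K] [Fintype K'] [Fintype C] [Fintype C']
    {hCK : C ≤ K} {hCK' : C' ≤ K'} (h : DGNRel p T' K' C' hCK') (eK : K' ≃* K) (eC : C' ≃* C)
    (hcompat : ∀ c : C', ((eK ⟨c, hCK' c.2⟩ : K) : Γ) = ((eC c : C) : Γ))
    (hinvK : ∀ θ : K → ℂ, InvBy T θ ↔ InvBy T' (θ ∘ eK))
    (hinvC : ∀ ξ : C → ℂ, InvBy T ξ ↔ InvBy T' (ξ ∘ eC)) :
    DGNRel p T K C hCK := by
  have hcK : ∀ θ : K → ℂ, θ ∘ eK ∘ eK.symm = θ := fun θ => by funext g; simp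
  have hcC : ∀ ξ : C → ℂ, ξ ∘ eC ∘ eC.symm = ξ := fun ξ => by funext g; simp
  have hcK' : ∀ θ : K' → ℂ, θ ∘ eK.symm ∘ eK = θ := fun θ => by funext g; simp
  have hcC' : ∀ ξ : C' → ℂ, ξ ∘ eC.symm ∘ eC = ξ := fun ξ => by funext g; simp
  obtain ⟨h1, h2⟩ := h
  refine ⟨fun θ hθ => ?_, fun ξ hξ => ?_⟩
  · obtain ⟨ξ', hξ', hU, hZ⟩ := h1 ⟨(θ : K → ℂ) ∘ eK, isIrrCharacter_comp_mulEquiv eK θ.2⟩
      ((hinvK _).mp hθ)
    let ξ : IrrCharacter C := ⟨(ξ' : C' → ℂ) ∘ eC.symm, isIrrCharacter_comp_mulEquiv eC.symm ξ'.2⟩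
    have hξξ' : (ξ : C → ℂ) ∘ eC = (ξ' : C' → ℂ) := hcC' _
    refine ⟨ξ, (hinvC _).mpr (by rw [hξξ']; exact hξ'), ?_, fun γ hγ hne => ?_⟩
    · rw [← mult_comp hCK hCK' eK eC hcompat, hξξ']
      exact hU
    · rw [← mult_comp hCK hCK' eK eC hcompat]
      refine hZ ⟨(γ : C → ℂ) ∘ eC, isIrrCharacter_comp_mulEquiv eC γ.2⟩ ((hinvC _).mp hγ) fun h => hne ?_
      apply Subtype.ext
      have h3 : (γ : C → ℂ) ∘ eC = (ξ' : C' → ℂ) := congrArg Subtype.val h
      show (γ : C → ℂ) = (ξ' : C' → ℂ) ∘ eC.symm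
      rw [← h3, Function.comp_assoc, hcC]
  · obtain ⟨θ', hθ', hU, hZ⟩ := h2 ⟨(ξ : C → ℂ) ∘ eC, isIrrCharacter_comp_mulEquiv eC ξ.2⟩
      ((hinvC _).mp hξ)
    let θ : IrrCharacter K := ⟨(θ' : K' → ℂ) ∘ eK.symm, isIrrCharacter_comp_mulEquiv eK.symm θ'.2⟩
    have hθθ' : (θ : K → ℂ) ∘ eK = (θ' : K' → ℂ) := hcK' _
    refine ⟨θ, (hinvK _).mpr (by rw [hθθ']; exact hθ'), ?_, fun γ hγ hne => ?_⟩
    · rw [← mult_comp hCK hCK' eK eC hcompat, hθθ']
      exact hU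
    · rw [← mult_comp hCK hCK' eK eC hcompat]
      refine hZ ⟨(γ : K → ℂ) ∘ eK, isIrrCharacter_comp_mulEquiv eK γ.2⟩ ((hinvK _).mp hγ) fun h => hne ?_
      apply Subtype.ext
      have h3 : (γ : K → ℂ) ∘ eK = (θ' : K' → ℂ) := congrArg Subtype.val h
      show (γ : K → ℂ) = (θ' : K' → ℂ) ∘ eK.symm
      rw [← h3, Function.comp_assoc, hcK]

end Transport

section Gen

variable {Γ : Type u} [Group Γ]

/-- `⟨D, t⟩ / D` is generated by the image of `t`. -/
theorem zpowers_mk_eq_top {D : Subgroup Γ} {t : Γ} {L : Subgroup Γ} (hL : L = D ⊔ Subgroup.zpowers t)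
    (htL : t ∈ L) [hn : (D.subgroupOf L).Normal] :
    Subgroup.zpowers (((⟨t, htL⟩ : L) : L) : L ⧸ D.subgroupOf L) = ⊤ := by
  have hDL : D ≤ L := by rw [hL]; exact le_sup_left
  rw [eq_top_iff]
  intro q _
  obtain ⟨y, rfl⟩ := QuotientGroup.mk_surjective q
  let s : L := ⟨t, htL⟩
  let U : Subgroup L := (Subgroup.zpowers (s : L ⧸ D.subgroupOf L)).comap (QuotientGroup.mk' (D.subgroupOf L))
  have hLU : L ≤ U.map L.subtype := by
    conv_lhs => rw [hL]
    refine sup_le (fun d hd => ?_) (Subgroup.zpowers_le.mpr ?_)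
    · refine ⟨⟨d, hDL hd⟩, ?_, rfl⟩
      show ((⟨d, hDL hd⟩ : L) : L ⧸ D.subgroupOf L) ∈ Subgroup.zpowers (s : L ⧸ D.subgroupOf L)
      have : ((⟨d, hDL hd⟩ : L) : L ⧸ D.subgroupOf L) = 1 := (QuotientGroup.eq_one_iff _).mpr hd
      rw [this]
      exact Subgroup.one_mem _
    · exact ⟨s, Subgroup.mem_zpowers (s : L ⧸ D.subgroupOf L), rfl⟩
  obtain ⟨y', hy', hyy'⟩ := hLU y.2
  have : y' = y := Subtype.ext hyy'
  rw [← this]
  exact hy'

end Gen

section Cyclic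

variable {Γ : Type u} [Group Γ] [Fintype Γ] {p : ℕ} [hp : Fact p.Prime] {K Q C : Subgroup Γ}
  [hK : K.Normal] [hQ : Q.Normal] [Fintype K] [Fintype C] {s : Γ} {a : ℕ}

/-- The cyclic case for normal `K`, `Q`. -/
theorem data_rel (hd : Data p K Q C s a) : DGNRel p (Subgroup.zpowers s) K C hd.hCK := by
  classical
  obtain ⟨R, hR⟩ : ∃ R : Subgroup Γ, R = C ⊔ Subgroup.zpowers s := ⟨_, rfl⟩
  have hCR : C ≤ R := by rw [hR]; exact le_sup_left
  have hsR : s ∈ R := by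
    rw [hR]
    exact (le_sup_right : Subgroup.zpowers s ≤ _) (Subgroup.mem_zpowers s)
  have hRn : R ≤ Subgroup.normalizer (C : Set Γ) := by
    rw [hR]
    exact sup_le Subgroup.le_normalizer (Subgroup.zpowers_le.mpr hd.hsC)
  have hN : (C.subgroupOf R).Normal := (Subgroup.normal_subgroupOf_iff_le_normalizer hCR).mpr hRn
  let _ : Fintype R := Fintype.ofFinite _
  let _ : Fintype (C.subgroupOf R) := Fintype.ofFinite _
  let eC : (C.subgroupOf R) ≃* C := Subgroup.subgroupOfEquivOfLe hCR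
  have hr : RData C s p a (C.subgroupOf R) R.subtype eC ⟨s, hsR⟩ :=
    { hj := fun _ => rfl
      hjy := rfl
      hy := by
        apply Subtype.ext
        simpa using hd.hs
      hgen := zpowers_mk_eq_top hR hsR
      hinj := R.subtype_injective }
  exact normal_form hd hr

end Cyclic


section Ambient

variable {G : Type u} [Group G] {p : ℕ}

theorem invBy_subgroupOf {D L : Subgroup G} (hDL : D ≤ L) {t : G} (htL : t ∈ L) (θ : D → ℂ) :
    InvBy (Subgroup.zpowers t) θ ↔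
      InvBy (Subgroup.zpowers (⟨t, htL⟩ : L)) (θ ∘ (Subgroup.subgroupOfEquivOfLe hDL)) := by
  constructor
  · intro h x hx g g' hgg'
    obtain ⟨j, rfl⟩ := Subgroup.mem_zpowers_iff.mp hx
    refine h (t ^ j) (Subgroup.zpow_mem_zpowers t j) _ _ ?_
    have h1 : ((g' : L) : G) = (((⟨t, htL⟩ : L) ^ j * (g : L) * ((⟨t, htL⟩ : L) ^ j)⁻¹ : L) : G) :=
      congrArg Subtype.val hgg'
    simpa using h1
  · intro h x hx g g' hgg'
    obtain ⟨j, rfl⟩ := Subgroup.mem_zpowers_iff.mp hx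
    have h1 := h ((⟨t, htL⟩ : L) ^ j) (Subgroup.zpow_mem_zpowers _ j)
      ((Subgroup.subgroupOfEquivOfLe hDL).symm g) ((Subgroup.subgroupOfEquivOfLe hDL).symm g') (by
        apply Subtype.ext
        simpa using hgg')
    simpa using h1

variable [Finite G] [hp : Fact p.Prime]

theorem ambient_cyclic (K Q C : Subgroup G) [Fintype K] [Fintype C] (t : G) (a : ℕ)
    (hQK : Q ≤ K) (hidx : ¬ p ∣ Q.relIndex K) (ht : t ^ (p ^ a) = 1)
    (htK : t ∈ Subgroup.normalizer (K : Set G)) (hKQ : K ≤ Subgroup.normalizer (Q : Set G))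
    (htQ : t ∈ Subgroup.normalizer (Q : Set G))
    (hC : ∀ k : G, k ∈ C ↔ k ∈ K ∧ t * k * t⁻¹ * k⁻¹ ∈ Q) (hCK : C ≤ K) :
    DGNRel p (Subgroup.zpowers t) K C hCK := by
  classical
  obtain ⟨L, hL⟩ : ∃ L : Subgroup G, L = K ⊔ Subgroup.zpowers t := ⟨_, rfl⟩
  have hKL : K ≤ L := by rw [hL]; exact le_sup_left
  have htL : t ∈ L := by
    rw [hL]
    exact (le_sup_right : Subgroup.zpowers t ≤ _) (Subgroup.mem_zpowers t)
  have hLK : L ≤ Subgroup.normalizer (K : Set G) := by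
    rw [hL]
    exact sup_le Subgroup.le_normalizer (Subgroup.zpowers_le.mpr htK)
  have hLQ : L ≤ Subgroup.normalizer (Q : Set G) := by
    rw [hL]
    exact sup_le hKQ (Subgroup.zpowers_le.mpr htQ)
  have hn1 : (K.subgroupOf L).Normal := (Subgroup.normal_subgroupOf_iff_le_normalizer hKL).mpr hLK
  have hn2 : (Q.subgroupOf L).Normal :=
    (Subgroup.normal_subgroupOf_iff_le_normalizer (hQK.trans hKL)).mpr hLQ
  let _ : Fintype L := Fintype.ofFinite _
  let _ : Fintype (K.subgroupOf L) := Fintype.ofFinite _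
  let _ : Fintype (C.subgroupOf L) := Fintype.ofFinite _
  have hd : Data p (K.subgroupOf L) (Q.subgroupOf L) (C.subgroupOf L) (⟨t, htL⟩ : L) a :=
    { hQK := fun x hx => hQK hx
      hidx := by
        rw [Subgroup.relIndex_subgroupOf hKL]
        exact hidx
      hs := by
        apply Subtype.ext
        simpa using ht
      hgen := zpowers_mk_eq_top hL htL
      hC := by
        intro k
        simp only [Subgroup.mem_subgroupOf]
        exact hC (k : G) }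
  have hrel := data_rel hd
  have hCL : C ≤ L := hCK.trans hKL
  exact hrel.transport (Subgroup.subgroupOfEquivOfLe hKL) (Subgroup.subgroupOfEquivOfLe hCL)
    (fun _ => rfl) (invBy_subgroupOf hKL htL) (invBy_subgroupOf hCL htL)

end Ambient

end Cfsg.Agent.Lib.Char.DGN
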