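import Mathlib
import Cfsg.Agent.Lib.Char.DGN4

set_option autoImplicit false
set_option linter.unusedSectionVars false

/-!
Dade–Glauberman–Nagao correspondence, fifth part: weights and the action on irreducible
characters.
-/

namespace Cfsg.Agent.Lib.Char.DGN

open Cfsg Module Cfsg.Agent.Lib.Char Cfsg.Agent.Lib.H8Group
open scoped ComplexConjugate

universe u

section Weight

/-- Sums of invariant weights modulo `p` only see the fixed points of a `p`-group. -/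
theorem sum_weight_eq {T X : Type*} [Group T] [MulAction T X] [Fintype X] {p : ℕ} [hp : Fact p.Prime]
    (hT : IsPGroup p T) (w : X → ℕ) (hw : ∀ (t : T) (x : X), w (t • x) = w x)
    [DecidablePred fun x : X => ∀ t : T, t • x = x] :
    ∑ x, (w x : ZMod p) =
      ∑ x ∈ Finset.univ.filter (fun x : X => ∀ t : T, t • x = x), (w x : ZMod p) := by
  classical
  let Y := {y : X × ℕ // y.2 < w y.1}
  letI : MulAction T Y :=
    { smul := fun t y => ⟨(t • y.1.1, y.1.2), by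
        show y.1.2 < w (t • y.1.1)
        rw [hw]
        exact y.2⟩
      one_smul := fun y => Subtype.ext (Prod.ext (one_smul T y.1.1) rfl)
      mul_smul := fun a b y => Subtype.ext (Prod.ext (mul_smul a b y.1.1) rfl) }
  let e₁ : Y ≃ Σ x : X, Fin (w x) :=
    { toFun := fun y => ⟨y.1.1, ⟨y.1.2, y.2⟩⟩
      invFun := fun z => ⟨(z.1, z.2.1), z.2.2⟩
      left_inv := fun _ => rfl
      right_inv := fun _ => rfl }
  haveI : Finite Y := Finite.of_equiv _ e₁.symm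
  let e₂ : MulAction.fixedPoints T Y ≃ Σ x : {x : X // ∀ t : T, t • x = x}, Fin (w x) :=
    { toFun := fun y => ⟨⟨y.1.1.1, fun t => congrArg (fun u : Y => u.1.1) (y.2 t)⟩,
        ⟨y.1.1.2, y.1.2⟩⟩
      invFun := fun z => ⟨⟨(z.1.1, z.2.1), z.2.2⟩, fun t => Subtype.ext (Prod.ext (z.1.2 t) rfl)⟩
      left_inv := fun _ => rfl
      right_inv := fun _ => rfl }
  have h := hT.card_modEq_card_fixedPoints Y
  have h1 : Nat.card Y = ∑ x, w x := by
    rw [Nat.card_congr e₁, Nat.card_sigma]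
    simp
  have h2 : Nat.card (MulAction.fixedPoints T Y) =
      ∑ x ∈ Finset.univ.filter (fun x : X => ∀ t : T, t • x = x), w x := by
    rw [Nat.card_congr e₂, Nat.card_sigma]
    simp only [Nat.card_eq_fintype_card, Fintype.card_fin]
    exact (Finset.sum_subtype _ (by simp) w).symm
  rw [h1, h2] at h
  have h3 := (ZMod.natCast_eq_natCast_iff _ _ p).mpr h
  push_cast at h3
  exact h3

end Weight

section IrrAct

variable {G : Type u} [Group G] {C : Subgroup G} [Fintype C]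

/-- The conjugate of an irreducible character. -/
noncomputable def conjIrr (x : G) (hx : x ∈ Subgroup.normalizer (C : Set G)) (γ : IrrCharacter C) :
    IrrCharacter C :=
  ⟨(γ : C → ℂ) ∘ conjOn C x hx, isIrrCharacter_comp_mulEquiv _ γ.2⟩

theorem invBy_iff_conjIrr {T : Subgroup G} (hT : ∀ x ∈ T, x ∈ Subgroup.normalizer (C : Set G))
    (γ : IrrCharacter C) : InvBy T (γ : C → ℂ) ↔ ∀ x (hx : x ∈ T), conjIrr x (hT x hx) γ = γ := by
  constructor
  · intro h x hx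
    exact Subtype.ext (comp_conjOn_of_invBy hx (hT x hx) h)
  · intro h x hx g g' hgg'
    have h1 := congrFun (congrArg Subtype.val (h x hx)) g
    have hg' : g' = conjOn C x (hT x hx) g := Subtype.ext hgg'
    rw [hg']
    exact h1

/-- The action of a subgroup normalizing `C` on the irreducible characters of `C`. -/
noncomputable def irrAct (T : Subgroup G) (hT : ∀ x ∈ T, x ∈ Subgroup.normalizer (C : Set G)) :
    MulAction T (IrrCharacter C) where
  smul x γ := conjIrr ((x : G)⁻¹) (Subgroup.inv_mem _ (hT x x.2)) γ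
  one_smul γ := Subtype.ext (funext fun c => congrArg γ.1 (Subtype.ext (by
    show ((1 : T) : G)⁻¹ * c * ((1 : T) : G)⁻¹⁻¹ = c
    simp)))
  mul_smul a b γ := Subtype.ext (funext fun c => congrArg γ.1 (Subtype.ext (by
    show ((a * b : T) : G)⁻¹ * c * ((a * b : T) : G)⁻¹⁻¹ =
      (b : G)⁻¹ * ((a : G)⁻¹ * c * (a : G)⁻¹⁻¹) * (b : G)⁻¹⁻¹
    simp [mul_assoc])))

theorem sum_irr_weight {p : ℕ} [hp : Fact p.Prime] {T : Subgroup G} (hTp : IsPGroup p T)
    (hT : ∀ x ∈ T, x ∈ Subgroup.normalizer (C : Set G)) (w : IrrCharacter C → ℕ)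
    (hw : ∀ x (hx : x ∈ T) γ, w (conjIrr x (hT x hx) γ) = w γ)
    [DecidablePred fun γ : IrrCharacter C => InvBy T (γ : C → ℂ)] :
    ∑ γ, (w γ : ZMod p) =
      ∑ γ ∈ Finset.univ.filter (fun γ : IrrCharacter C => InvBy T (γ : C → ℂ)), (w γ : ZMod p) := by
  classical
  letI := irrAct T hT
  have hact : ∀ (t : T) (γ : IrrCharacter C),
      t • γ = conjIrr ((t : G)⁻¹) (Subgroup.inv_mem _ (hT t t.2)) γ := fun _ _ => rfl
  have h1 := sum_weight_eq hTp w (fun t γ => by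
    rw [hact]
    exact hw _ (T.inv_mem t.2) γ)
  rw [h1]
  refine Finset.sum_congr (Finset.filter_congr fun γ _ => ?_) fun _ _ => rfl
  constructor
  · intro h x hx g g' hgg'
    have h2 := h ⟨x⁻¹, T.inv_mem hx⟩
    rw [hact] at h2
    have h3 := congrFun (congrArg Subtype.val h2) g
    have hg' : g' = conjOn C ((x⁻¹)⁻¹) (Subgroup.inv_mem _ (hT _ (T.inv_mem hx))) g :=
      Subtype.ext (by
        show (g' : G) = (x⁻¹)⁻¹ * (g : G) * ((x⁻¹)⁻¹)⁻¹
        rw [hgg']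
        simp)
    rw [hg']
    exact h3
  · intro h t
    rw [hact]
    exact (invBy_iff_conjIrr hT γ).mp h _ (T.inv_mem t.2)

end IrrAct

section MN

variable {G : Type u} [Group G]

/-- The multiplicity as a natural number. -/
noncomputable def mN {K C : Subgroup G} [Fintype C] (hCK : C ≤ K) (θ : K → ℂ) (ξ : C → ℂ) : ℕ :=
  ⌊(mult hCK θ ξ).re⌋₊

theorem mult_eq_mN {K C : Subgroup G} [Fintype C] (hCK : C ≤ K) {θ : K → ℂ} (hθ : IsCharacter K θ)
    (ξ : IrrCharacter C) : mult hCK θ (ξ : C → ℂ) = mN hCK θ (ξ : C → ℂ) := by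
  obtain ⟨n, hn⟩ := IsCharacter.classInner_irr_eq_nat
    (IsCharacter.comp hθ (Subgroup.inclusion hCK)) ξ.2
  have h1 : mult hCK θ (ξ : C → ℂ) = n := hn
  simp [mN, h1]

theorem RelZ.dvd_natCast {p m : ℕ} (h : RelZ p (m : ℂ)) : p ∣ m := by
  obtain ⟨n, hn, hd⟩ := h
  have : m = n := by exact_mod_cast hn
  rwa [this]

theorem RelU.natCast {p m : ℕ} (h : RelU p (m : ℂ)) : (m : ZMod p) = 1 ∨ (m : ZMod p) = -1 := by
  obtain ⟨n, hn, hd⟩ := h
  have : m = n := by exact_mod_cast hn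
  rwa [this]

theorem RelU.not_relZ {p : ℕ} [hp : Fact p.Prime] {z : ℂ} (h : RelU p z) (h' : RelZ p z) : False := by
  obtain ⟨n, rfl, hd⟩ := h
  have h1 := h'.dvd_natCast
  have h2 : (n : ZMod p) = 0 := (ZMod.natCast_eq_zero_iff n p).mpr h1
  rw [h2] at hd
  rcases hd with hd | hd
  · exact zero_ne_one hd
  · have : (1 : ZMod p) = 0 := by
      have h3 : (0 : ZMod p) = -1 := hd
      rw [eq_comm, neg_eq_zero] at h3
      exact h3
    exact one_ne_zero this

theorem mN_trans {K C₁ C : Subgroup G} [Fintype C₁] [Fintype C] (h₁ : C₁ ≤ K) (h₂ : C ≤ C₁)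
    {θ : K → ℂ} (hθ : IsCharacter K θ) (γ : IrrCharacter C) :
    mN (h₂.trans h₁) θ (γ : C → ℂ) =
      ∑ τ : IrrCharacter C₁, mN h₁ θ (τ : C₁ → ℂ) * mN h₂ (τ : C₁ → ℂ) (γ : C → ℂ) := by
  classical
  let f : C₁ → ℂ := fun c => θ ⟨c, h₁ c.2⟩
  have hf : IsCharacter C₁ f := IsCharacter.comp hθ (Subgroup.inclusion h₁)
  have hsum : f = ∑ ψ : IrrCharacter C₁, classInner f (ψ : C₁ → ℂ) • (ψ : C₁ → ℂ) :=
    classFunction_eq_sum f (IsCharacter.isClassFunction hf)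
  have hexp : mult (h₂.trans h₁) θ (γ : C → ℂ) =
      ∑ ψ : IrrCharacter C₁, classInner f (ψ : C₁ → ℂ) *
        classInner (fun c : C => (ψ : C₁ → ℂ) ⟨c, h₂ c.2⟩) (γ : C → ℂ) := by
    have h1 : (fun c : C => θ ⟨c, (h₂.trans h₁) c.2⟩) =
        ∑ ψ : IrrCharacter C₁, classInner f (ψ : C₁ → ℂ) •
          (fun c : C => (ψ : C₁ → ℂ) ⟨c, h₂ c.2⟩) := by
      funext c
      have h2 := congrFun hsum ⟨c, h₂ c.2⟩
      simp only [Finset.sum_apply, Pi.smul_apply, smul_eq_mul] at h2 ⊢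
      exact h2
    simp only [mult]
    rw [h1, classInner_sum_left]
    refine Finset.sum_congr rfl fun ψ _ => ?_
    rw [classInner_smul_left]
  have hc : (mN (h₂.trans h₁) θ (γ : C → ℂ) : ℂ) =
      ((∑ τ : IrrCharacter C₁, mN h₁ θ (τ : C₁ → ℂ) * mN h₂ (τ : C₁ → ℂ) (γ : C → ℂ) : ℕ) : ℂ) := by
    rw [← mult_eq_mN _ hθ, hexp]
    push_cast
    refine Finset.sum_congr rfl fun τ _ => ?_
    rw [← mult_eq_mN h₁ hθ τ, ← mult_eq_mN h₂ (IsIrrCharacter.isCharacter τ.2) γ]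
    rfl
  exact_mod_cast hc

theorem mN_conj {K C : Subgroup G} [Fintype C] (hCK : C ≤ K) {x : G}
    (hK : x ∈ Subgroup.normalizer (K : Set G)) (hC : x ∈ Subgroup.normalizer (C : Set G))
    (θ : K → ℂ) (ξ : C → ℂ) :
    mN hCK (θ ∘ conjOn K x hK) (ξ ∘ conjOn C x hC) = mN hCK θ ξ := by
  simp only [mN]
  rw [mult_comp hCK hCK (conjOn K x hK) (conjOn C x hC) (fun _ => rfl)]

variable {p : ℕ} [hp : Fact p.Prime]

/-- The formula for the composite multiplicity modulo `p`. -/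
theorem chain_formula {T K C₁ C : Subgroup G} [Fintype C₁] [Fintype C] (hTp : IsPGroup p T)
    (hTK : ∀ x ∈ T, x ∈ Subgroup.normalizer (K : Set G))
    (hTC₁ : ∀ x ∈ T, x ∈ Subgroup.normalizer (C₁ : Set G))
    (hTC : ∀ x ∈ T, x ∈ Subgroup.normalizer (C : Set G)) (h₁ : C₁ ≤ K) (h₂ : C ≤ C₁)
    {θ : K → ℂ} (hθ : IsCharacter K θ) (hθT : InvBy T θ) (γ : IrrCharacter C)
    (hγ : InvBy T (γ : C → ℂ))
    [DecidablePred fun τ : IrrCharacter C₁ => InvBy T (τ : C₁ → ℂ)] :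
    (mN (h₂.trans h₁) θ (γ : C → ℂ) : ZMod p) =
      ∑ τ ∈ Finset.univ.filter (fun τ : IrrCharacter C₁ => InvBy T (τ : C₁ → ℂ)),
        (mN h₁ θ (τ : C₁ → ℂ) : ZMod p) * (mN h₂ (τ : C₁ → ℂ) (γ : C → ℂ) : ZMod p) := by
  classical
  have h1 := sum_irr_weight hTp hTC₁
    (fun τ => mN h₁ θ (τ : C₁ → ℂ) * mN h₂ (τ : C₁ → ℂ) (γ : C → ℂ)) (by
      intro x hx τ
      have e1 := mN_conj h₁ (hTK x hx) (hTC₁ x hx) θ (τ : C₁ → ℂ)
      rw [comp_conjOn_of_invBy hx (hTK x hx) hθT] at e1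
      have e2 := mN_conj h₂ (hTC₁ x hx) (hTC x hx) (τ : C₁ → ℂ) (γ : C → ℂ)
      rw [comp_conjOn_of_invBy hx (hTC x hx) hγ] at e2
      show mN h₁ θ ((τ : C₁ → ℂ) ∘ conjOn C₁ x (hTC₁ x hx)) *
        mN h₂ ((τ : C₁ → ℂ) ∘ conjOn C₁ x (hTC₁ x hx)) (γ : C → ℂ) = _
      rw [e1, e2])
  rw [mN_trans h₁ h₂ hθ γ]
  push_cast at h1 ⊢
  exact h1

/-- A character that is the unique one with nonzero weight among those invariant under `t` is
invariant under the whole `p`-group. -/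
theorem invBy_of_unique_nonzero {T D : Subgroup G} [Fintype D] (hTp : IsPGroup p T)
    (hTD : ∀ x ∈ T, x ∈ Subgroup.normalizer (D : Set G)) {t : G} (ht : t ∈ T)
    (f : IrrCharacter D → ℕ) (hf : ∀ x (hx : x ∈ T) γ, f (conjIrr x (hTD x hx) γ) = f γ)
    (ξ : IrrCharacter D) (hξ : InvBy (Subgroup.zpowers t) (ξ : D → ℂ)) (hξ0 : (f ξ : ZMod p) ≠ 0)
    (h0 : ∀ γ : IrrCharacter D, InvBy (Subgroup.zpowers t) (γ : D → ℂ) → γ ≠ ξ → (f γ : ZMod p) = 0) :
    InvBy T (ξ : D → ℂ) := by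
  classical
  have hle : Subgroup.zpowers t ≤ T := Subgroup.zpowers_le.mpr ht
  have h1 := sum_irr_weight hTp hTD f hf
  have h2 := sum_irr_weight (T := Subgroup.zpowers t) (hTp.to_le hle) (fun x hx => hTD x (hle hx)) f
    (fun x hx γ => hf x (hle hx) γ)
  have h3 : ∑ γ ∈ Finset.univ.filter (fun γ : IrrCharacter D => InvBy (Subgroup.zpowers t) (γ : D → ℂ)),
      (f γ : ZMod p) = f ξ := by
    apply Finset.sum_eq_single_of_mem ξ (Finset.mem_filter.mpr ⟨Finset.mem_univ _, hξ⟩)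
    intro γ hγ hne
    exact h0 γ (Finset.mem_filter.mp hγ).2 hne
  rw [h3] at h2
  rw [h2] at h1
  obtain ⟨γ, hγ, hγne⟩ : ∃ γ ∈ Finset.univ.filter (fun γ : IrrCharacter D => InvBy T (γ : D → ℂ)),
      (f γ : ZMod p) ≠ 0 := by
    by_contra hcon
    push Not at hcon
    apply hξ0
    rw [h1]
    exact Finset.sum_eq_zero hcon
  have hγT : InvBy T (γ : D → ℂ) := (Finset.mem_filter.mp hγ).2
  by_cases he : γ = ξ
  · rw [← he]
    exact hγT
  · exact absurd (h0 γ (fun x hx => hγT x (hle hx)) he) hγne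

end MN

end Cfsg.Agent.Lib.Char.DGN
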