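import Mathlib
import Cfsg.Agent.Lib.Char.DGN5
import Cfsg.Agent.Lib.OddLocal.PGroup

set_option autoImplicit false
set_option linter.unusedSectionVars false

/-!
Dade–Glauberman–Nagao correspondence, sixth part: composing along a chain of `p`-subgroups.
-/

namespace Cfsg.Agent.Lib.Char.DGN

open Cfsg Module Cfsg.Agent.Lib.Char Cfsg.Agent.Lib.H8Group
open scoped ComplexConjugate

universe u

section Chain

variable {G : Type u} [Group G] {p : ℕ} [hp : Fact p.Prime]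

theorem DGNRel.unique_right {T K C : Subgroup G} [Fintype C] {hCK : C ≤ K} (h : DGNRel p T K C hCK)
    {θ : IrrCharacter K} (hθ : InvBy T (θ : K → ℂ)) {ξ ξ' : IrrCharacter C}
    (hξ : InvBy T (ξ : C → ℂ)) (hξ' : InvBy T (ξ' : C → ℂ))
    (hU : RelU p (mult hCK (θ : K → ℂ) (ξ : C → ℂ)))
    (hU' : RelU p (mult hCK (θ : K → ℂ) (ξ' : C → ℂ))) : ξ = ξ' := by
  obtain ⟨ξ₀, -, -, hZ⟩ := h.1 θ hθ
  have e1 : ξ = ξ₀ := by
    by_contra hne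
    exact hU.not_relZ (hZ ξ hξ hne)
  have e2 : ξ' = ξ₀ := by
    by_contra hne
    exact hU'.not_relZ (hZ ξ' hξ' hne)
  rw [e1, e2]

theorem DGNRel.unique_left {T K C : Subgroup G} [Fintype C] {hCK : C ≤ K} (h : DGNRel p T K C hCK)
    {ξ : IrrCharacter C} (hξ : InvBy T (ξ : C → ℂ)) {θ θ' : IrrCharacter K}
    (hθ : InvBy T (θ : K → ℂ)) (hθ' : InvBy T (θ' : K → ℂ))
    (hU : RelU p (mult hCK (θ : K → ℂ) (ξ : C → ℂ)))
    (hU' : RelU p (mult hCK (θ' : K → ℂ) (ξ : C → ℂ))) : θ = θ' := by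
  obtain ⟨θ₀, -, -, hZ⟩ := h.2 ξ hξ
  have e1 : θ = θ₀ := by
    by_contra hne
    exact hU.not_relZ (hZ θ hθ hne)
  have e2 : θ' = θ₀ := by
    by_contra hne
    exact hU'.not_relZ (hZ θ' hθ' hne)
  rw [e1, e2]

theorem conjIrr_invBy {T₁ T D : Subgroup G} [Fintype D]
    (hconj : ∀ x ∈ T, ∀ u ∈ T₁, x * u * x⁻¹ ∈ T₁) {x : G} (hx : x ∈ T)
    (hn : x ∈ Subgroup.normalizer (D : Set G)) {γ : IrrCharacter D}
    (hγ : InvBy T₁ (γ : D → ℂ)) : InvBy T₁ (conjIrr x hn γ : D → ℂ) := by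
  intro u hu g g' hgg'
  show (γ : D → ℂ) (conjOn D x hn g') = (γ : D → ℂ) (conjOn D x hn g)
  refine hγ (x * u * x⁻¹) (hconj x hx u hu) _ _ ?_
  show x * (g' : G) * x⁻¹ = x * u * x⁻¹ * (x * (g : G) * x⁻¹) * (x * u * x⁻¹)⁻¹
  rw [hgg']
  group

theorem mult_conjIrr_right {T K C : Subgroup G} [Fintype C] (hCK : C ≤ K) {θ : K → ℂ}
    (hθ : InvBy T θ) {x : G} (hx : x ∈ T) (hK : x ∈ Subgroup.normalizer (K : Set G))
    (hC : x ∈ Subgroup.normalizer (C : Set G)) (γ : IrrCharacter C) :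
    mult hCK θ (conjIrr x hC γ : C → ℂ) = mult hCK θ (γ : C → ℂ) := by
  have h1 := mult_comp hCK hCK (conjOn K x hK) (conjOn C x hC) (fun _ => rfl) θ (γ : C → ℂ)
  rwa [comp_conjOn_of_invBy hx hK hθ] at h1

theorem mult_conjIrr_left {T K C : Subgroup G} [Fintype K] [Fintype C] (hCK : C ≤ K) {ξ : C → ℂ}
    (hξ : InvBy T ξ) {x : G} (hx : x ∈ T) (hK : x ∈ Subgroup.normalizer (K : Set G))
    (hC : x ∈ Subgroup.normalizer (C : Set G)) (θ : IrrCharacter K) :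
    mult hCK (conjIrr x hK θ : K → ℂ) ξ = mult hCK (θ : K → ℂ) ξ := by
  have h1 := mult_comp hCK hCK (conjOn K x hK) (conjOn C x hC) (fun _ => rfl) (θ : K → ℂ) ξ
  rwa [comp_conjOn_of_invBy hx hC hξ] at h1

theorem natCast_ne_zero_of_pm {m : ℕ} (h : (m : ZMod p) = 1 ∨ (m : ZMod p) = -1) :
    (m : ZMod p) ≠ 0 := by
  rcases h with h | h <;> rw [h]
  · exact one_ne_zero
  · exact neg_ne_zero.mpr one_ne_zero

theorem pm_mul {x y : ZMod p} (hx : x = 1 ∨ x = -1) (hy : y = 1 ∨ y = -1) :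
    x * y = 1 ∨ x * y = -1 := by
  rcases hx with rfl | rfl <;> rcases hy with rfl | rfl <;> simp

theorem DGNRel.chain {T T₁ K C₁ C : Subgroup G} [Fintype K] [Fintype C₁] [Fintype C] {t : G}
    (hTp : IsPGroup p T) (hT₁T : T₁ ≤ T) (htT : t ∈ T)
    (hconj : ∀ x ∈ T, ∀ u ∈ T₁, x * u * x⁻¹ ∈ T₁)
    (hTK : ∀ x ∈ T, x ∈ Subgroup.normalizer (K : Set G))
    (hTC₁ : ∀ x ∈ T, x ∈ Subgroup.normalizer (C₁ : Set G))
    (hTC : ∀ x ∈ T, x ∈ Subgroup.normalizer (C : Set G)) {h₁ : C₁ ≤ K} {h₂ : C ≤ C₁}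
    (H₁ : DGNRel p T₁ K C₁ h₁) (H₂ : DGNRel p (Subgroup.zpowers t) C₁ C h₂) :
    DGNRel p T K C (h₂.trans h₁) := by
  classical
  have hle : Subgroup.zpowers t ≤ T := Subgroup.zpowers_le.mpr htT
  have hinv₁ : ∀ {D : Subgroup G} {f : D → ℂ}, InvBy T f → InvBy T₁ f :=
    fun h x hx => h x (hT₁T hx)
  have hinvt : ∀ {D : Subgroup G} {f : D → ℂ}, InvBy T f → InvBy (Subgroup.zpowers t) f :=
    fun h x hx => h x (hle hx)
  have hm : ∀ {A B : Subgroup G} [Fintype B] (hBA : B ≤ A) (α : IrrCharacter A) (β : IrrCharacter B),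
      mult hBA (α : A → ℂ) (β : B → ℂ) = mN hBA (α : A → ℂ) (β : B → ℂ) :=
    fun hBA α β => mult_eq_mN hBA (IsIrrCharacter.isCharacter α.2) β
  have hZ0 : ∀ {A B : Subgroup G} [Fintype B] (hBA : B ≤ A) (α : IrrCharacter A) (β : IrrCharacter B),
      RelZ p (mult hBA (α : A → ℂ) (β : B → ℂ)) → (mN hBA (α : A → ℂ) (β : B → ℂ) : ZMod p) = 0 := by
    intro A B _ hBA α β h
    rw [hm] at h
    exact (ZMod.natCast_eq_zero_iff _ p).mpr h.dvd_natCast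
  have hU1 : ∀ {A B : Subgroup G} [Fintype B] (hBA : B ≤ A) (α : IrrCharacter A) (β : IrrCharacter B),
      RelU p (mult hBA (α : A → ℂ) (β : B → ℂ)) →
      (mN hBA (α : A → ℂ) (β : B → ℂ) : ZMod p) = 1 ∨ (mN hBA (α : A → ℂ) (β : B → ℂ) : ZMod p) = -1 := by
    intro A B _ hBA α β h
    rw [hm] at h
    exact h.natCast
  refine ⟨fun θ hθ => ?_, fun ξ hξ => ?_⟩
  · obtain ⟨ξ₁, hξ₁, hU₁, hZ₁⟩ := H₁.1 θ (hinv₁ hθ)
    have hξ₁T : InvBy T (ξ₁ : C₁ → ℂ) := by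
      rw [invBy_iff_conjIrr hTC₁]
      intro x hx
      refine H₁.unique_right (hinv₁ hθ) (conjIrr_invBy hconj hx _ hξ₁) hξ₁ ?_ hU₁
      rw [mult_conjIrr_right h₁ hθ hx (hTK x hx)]
      exact hU₁
    obtain ⟨ξ, hξ, hU₂, hZ₂⟩ := H₂.1 ξ₁ (hinvt hξ₁T)
    have hξT : InvBy T (ξ : C → ℂ) := by
      refine invBy_of_unique_nonzero hTp hTC htT (fun γ => mN h₂ (ξ₁ : C₁ → ℂ) (γ : C → ℂ)) ?_ ξ hξ
        (natCast_ne_zero_of_pm (hU1 h₂ ξ₁ ξ hU₂)) fun γ hγ hne => hZ0 h₂ ξ₁ γ (hZ₂ γ hγ hne)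
      intro x hx γ
      have e := mN_conj h₂ (hTC₁ x hx) (hTC x hx) (ξ₁ : C₁ → ℂ) (γ : C → ℂ)
      rwa [comp_conjOn_of_invBy hx (hTC₁ x hx) hξ₁T] at e
    have hform : ∀ γ : IrrCharacter C, InvBy T (γ : C → ℂ) →
        (mN (h₂.trans h₁) (θ : K → ℂ) (γ : C → ℂ) : ZMod p) =
          (mN h₁ (θ : K → ℂ) (ξ₁ : C₁ → ℂ) : ZMod p) * (mN h₂ (ξ₁ : C₁ → ℂ) (γ : C → ℂ) : ZMod p) := by
      intro γ hγ
      rw [chain_formula hTp hTK hTC₁ hTC h₁ h₂ (IsIrrCharacter.isCharacter θ.2) hθ γ hγ]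
      apply Finset.sum_eq_single_of_mem ξ₁ (Finset.mem_filter.mpr ⟨Finset.mem_univ _, hξ₁T⟩)
      intro τ hτ hne
      rw [hZ0 h₁ θ τ (hZ₁ τ (hinv₁ (Finset.mem_filter.mp hτ).2) hne), zero_mul]
    refine ⟨ξ, hξT, ?_, fun γ hγ hne => ?_⟩
    · rw [hm]
      refine ⟨_, rfl, ?_⟩
      rw [hform ξ hξT]
      exact pm_mul (hU1 h₁ θ ξ₁ hU₁) (hU1 h₂ ξ₁ ξ hU₂)
    · rw [hm]
      refine ⟨_, rfl, ?_⟩
      rw [← ZMod.natCast_eq_zero_iff, hform γ hγ, hZ0 h₂ ξ₁ γ (hZ₂ γ (hinvt hγ) hne), mul_zero]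
  · obtain ⟨τ₀, hτ₀, hU₂, hZ₂⟩ := H₂.2 ξ (hinvt hξ)
    have hτ₀T : InvBy T (τ₀ : C₁ → ℂ) := by
      refine invBy_of_unique_nonzero hTp hTC₁ htT (fun τ => mN h₂ (τ : C₁ → ℂ) (ξ : C → ℂ)) ?_ τ₀ hτ₀
        (natCast_ne_zero_of_pm (hU1 h₂ τ₀ ξ hU₂)) fun γ hγ hne => hZ0 h₂ γ ξ (hZ₂ γ hγ hne)
      intro x hx γ
      have e := mN_conj h₂ (hTC₁ x hx) (hTC x hx) (γ : C₁ → ℂ) (ξ : C → ℂ)
      rwa [comp_conjOn_of_invBy hx (hTC x hx) hξ] at e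
    obtain ⟨θ₀, hθ₀, hU₁, hZ₁⟩ := H₁.2 τ₀ (hinv₁ hτ₀T)
    have hθ₀T : InvBy T (θ₀ : K → ℂ) := by
      rw [invBy_iff_conjIrr hTK]
      intro x hx
      refine H₁.unique_left (hinv₁ hτ₀T) (conjIrr_invBy hconj hx _ hθ₀) hθ₀ ?_ hU₁
      rw [mult_conjIrr_left h₁ hτ₀T hx _ (hTC₁ x hx)]
      exact hU₁
    have hform : ∀ θ : IrrCharacter K, InvBy T (θ : K → ℂ) →
        (mN (h₂.trans h₁) (θ : K → ℂ) (ξ : C → ℂ) : ZMod p) =
          (mN h₁ (θ : K → ℂ) (τ₀ : C₁ → ℂ) : ZMod p) * (mN h₂ (τ₀ : C₁ → ℂ) (ξ : C → ℂ) : ZMod p) := by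
      intro θ hθ
      rw [chain_formula hTp hTK hTC₁ hTC h₁ h₂ (IsIrrCharacter.isCharacter θ.2) hθ ξ hξ]
      apply Finset.sum_eq_single_of_mem τ₀ (Finset.mem_filter.mpr ⟨Finset.mem_univ _, hτ₀T⟩)
      intro τ hτ hne
      rw [hZ0 h₂ τ ξ (hZ₂ τ (hinvt (Finset.mem_filter.mp hτ).2) hne), mul_zero]
    refine ⟨θ₀, hθ₀T, ?_, fun θ' hθ' hne => ?_⟩
    · rw [hm]
      refine ⟨_, rfl, ?_⟩
      rw [hform θ₀ hθ₀T]
      exact pm_mul (hU1 h₁ θ₀ τ₀ hU₁) (hU1 h₂ τ₀ ξ hU₂)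
    · rw [hm]
      refine ⟨_, rfl, ?_⟩
      rw [← ZMod.natCast_eq_zero_iff, hform θ' hθ', hZ0 h₁ θ' τ₀ (hZ₁ θ' (hinv₁ hθ') hne), zero_mul]

end Chain


section Main

variable {G : Type u} [Group G] {p : ℕ}

/-- The subgroup of those `k ∈ K` whose commutator with each element of `T` lies in `Q`. -/
def cQ (K Q T : Subgroup G) (hKQ : K ≤ Subgroup.normalizer (Q : Set G)) : Subgroup G where
  carrier := {k | k ∈ K ∧ ∀ x ∈ T, x * k * x⁻¹ * k⁻¹ ∈ Q}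
  mul_mem' := by
    rintro k k' ⟨hk, hk₁⟩ ⟨hk', hk₁'⟩
    refine ⟨K.mul_mem hk hk', fun x hx => ?_⟩
    have h1 := hk₁ x hx
    have h2 : k * (x * k' * x⁻¹ * k'⁻¹) * k⁻¹ ∈ Q :=
      (Subgroup.mem_normalizer_iff.mp (hKQ hk) _).mp (hk₁' x hx)
    have h3 := Q.mul_mem h1 h2
    convert h3 using 1
    group
  one_mem' := ⟨K.one_mem, fun x _ => by simp⟩
  inv_mem' := by
    rintro k ⟨hk, hk₁⟩
    refine ⟨K.inv_mem hk, fun x hx => ?_⟩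
    have h1 := Q.inv_mem (hk₁ x hx)
    have h2 : k⁻¹ * (x * k * x⁻¹ * k⁻¹)⁻¹ * k⁻¹⁻¹ ∈ Q :=
      (Subgroup.mem_normalizer_iff.mp (Subgroup.inv_mem _ (hKQ hk)) _).mp h1
    convert h2 using 1
    group

theorem mem_cQ {K Q T : Subgroup G} {hKQ : K ≤ Subgroup.normalizer (Q : Set G)} {k : G} :
    k ∈ cQ K Q T hKQ ↔ k ∈ K ∧ ∀ x ∈ T, x * k * x⁻¹ * k⁻¹ ∈ Q := Iff.rfl

/-- The elements normalizing `Q` and centralizing `k` modulo `Q`. -/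
def comSub (Q : Subgroup G) (k : G) : Subgroup G where
  carrier := {x | x ∈ Subgroup.normalizer (Q : Set G) ∧ x * k * x⁻¹ * k⁻¹ ∈ Q}
  mul_mem' := by
    rintro a b ⟨ha, ha'⟩ ⟨hb, hb'⟩
    refine ⟨Subgroup.mul_mem _ ha hb, ?_⟩
    have h2 : a * (b * k * b⁻¹ * k⁻¹) * a⁻¹ ∈ Q := (Subgroup.mem_normalizer_iff.mp ha _).mp hb'
    have h3 := Q.mul_mem h2 ha'
    convert h3 using 1
    group
  one_mem' := ⟨Subgroup.one_mem _, by simp⟩
  inv_mem' := by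
    rintro a ⟨ha, ha'⟩
    refine ⟨Subgroup.inv_mem _ ha, ?_⟩
    have h1 := Q.inv_mem ha'
    have h2 : a⁻¹ * (a * k * a⁻¹ * k⁻¹)⁻¹ * a⁻¹⁻¹ ∈ Q :=
      (Subgroup.mem_normalizer_iff.mp (Subgroup.inv_mem _ ha) _).mp h1
    convert h2 using 1
    group

/-- Conjugation preserves a subgroup of the shape `cQ`. -/
theorem conj_mem_of_char {K Q T' C : Subgroup G}
    (hC : ∀ k : G, k ∈ C ↔ k ∈ K ∧ ∀ x ∈ T', x * k * x⁻¹ * k⁻¹ ∈ Q) {x : G}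
    (hxK : x ∈ Subgroup.normalizer (K : Set G)) (hxQ : x ∈ Subgroup.normalizer (Q : Set G))
    (hT' : ∀ u ∈ T', x⁻¹ * u * x⁻¹⁻¹ ∈ T') {y : G} (hy : y ∈ C) : x * y * x⁻¹ ∈ C := by
  obtain ⟨hyK, hy'⟩ := (hC y).mp hy
  refine (hC _).mpr ⟨(Subgroup.mem_normalizer_iff.mp hxK _).mp hyK, fun u hu => ?_⟩
  have h1 := hy' _ (hT' u hu)
  have h2 := (Subgroup.mem_normalizer_iff.mp hxQ _).mp h1
  convert h2 using 1
  group

theorem normalizer_of_char {K Q T' C T : Subgroup G}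
    (hC : ∀ k : G, k ∈ C ↔ k ∈ K ∧ ∀ x ∈ T', x * k * x⁻¹ * k⁻¹ ∈ Q)
    (hTK : ∀ x ∈ T, x ∈ Subgroup.normalizer (K : Set G))
    (hTQ : ∀ x ∈ T, x ∈ Subgroup.normalizer (Q : Set G))
    (hT' : ∀ x ∈ T, ∀ u ∈ T', x * u * x⁻¹ ∈ T') :
    ∀ x ∈ T, x ∈ Subgroup.normalizer (C : Set G) := by
  intro x hx
  rw [Subgroup.mem_normalizer_iff]
  intro y
  have hx' := T.inv_mem hx
  refine ⟨fun hy => conj_mem_of_char hC (hTK x hx) (hTQ x hx) (fun u hu => hT' _ hx' u hu) hy,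
    fun hy => ?_⟩
  have h1 := conj_mem_of_char hC (Subgroup.inv_mem _ (hTK x hx)) (Subgroup.inv_mem _ (hTQ x hx))
    (fun u hu => by
      have := hT' x hx u hu
      simpa using this) hy
  simpa [mul_assoc] using h1

theorem dgnRel_bot (K : Subgroup G) [Fintype K] (hKK : K ≤ K) : DGNRel p ⊥ K K hKK := by
  have hinv : ∀ f : K → ℂ, InvBy (⊥ : Subgroup G) f := by
    intro f s hs g g' h
    have hs1 : s = 1 := by simpa using hs
    subst hs1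
    congr 1
    apply Subtype.ext
    rw [h]
    simp
  have hself : ∀ θ : IrrCharacter K, RelU p (mult hKK (θ : K → ℂ) (θ : K → ℂ)) := by
    intro θ
    refine ⟨1, ?_, Or.inl (by simp)⟩
    have : mult hKK (θ : K → ℂ) (θ : K → ℂ) = classInner (θ : K → ℂ) (θ : K → ℂ) := rfl
    rw [this, classInner_irr_self θ.2]
    simp
  have hne : ∀ θ γ : IrrCharacter K, θ ≠ γ → RelZ p (mult hKK (θ : K → ℂ) (γ : K → ℂ)) := by
    intro θ γ h
    refine ⟨0, ?_, dvd_zero p⟩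
    have : mult hKK (θ : K → ℂ) (γ : K → ℂ) = classInner (θ : K → ℂ) (γ : K → ℂ) := rfl
    rw [this, classInner_irr_of_ne θ.2 γ.2 (fun h' => h (Subtype.ext h'))]
    simp
  refine ⟨fun θ _ => ⟨θ, hinv _, hself θ, fun γ _ h => hne θ γ h.symm⟩,
    fun ξ _ => ⟨ξ, hinv _, hself ξ, fun γ _ h => hne γ ξ h⟩⟩

variable [Finite G] [hp : Fact p.Prime]

theorem dgn_main (K Q : Subgroup G) [Fintype K] (hQK : Q ≤ K)
    (hKQ : K ≤ Subgroup.normalizer (Q : Set G)) (hidx : ¬ p ∣ Q.relIndex K) :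
    ∀ (n : ℕ) (T : Subgroup G), Nat.card T = n → IsPGroup p T →
      (∀ x ∈ T, x ∈ Subgroup.normalizer (K : Set G)) →
      (∀ x ∈ T, x ∈ Subgroup.normalizer (Q : Set G)) →
      ∀ (C : Subgroup G) [Fintype C] (hCK : C ≤ K),
        (∀ k : G, k ∈ C ↔ k ∈ K ∧ ∀ x ∈ T, x * k * x⁻¹ * k⁻¹ ∈ Q) → DGNRel p T K C hCK := by
  classical
  intro n
  induction n using Nat.strong_induction_on with
  | _ n ih =>
  intro T hTn hT hTK hTQ C iC hCK hC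
  by_cases hbot : T = ⊥
  · subst hbot
    have hCeq : C = K := by
      apply le_antisymm hCK
      intro k hk
      refine (hC k).mpr ⟨hk, fun x hx => ?_⟩
      have hs1 : x = 1 := by simpa using hx
      subst hs1
      simp
    subst hCeq
    exact @dgnRel_bot G _ p C iC hCK
  · have hnt : Nontrivial T := (Subgroup.nontrivial_iff_ne_bot T).mpr hbot
    obtain ⟨M, hMn, hMi⟩ := Cfsg.Agent.Lib.OddLocal.exists_normal_index_prime p hT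
    obtain ⟨t', ht'⟩ : ∃ t' : T, t' ∉ M := by
      by_contra hcon
      push Not at hcon
      have : M = ⊤ := by
        rw [eq_top_iff]
        intro x _
        exact hcon x
      rw [this, Subgroup.index_top] at hMi
      exact hp.out.one_lt.ne hMi
    obtain ⟨t, htdef⟩ : ∃ t : G, t = (t' : G) := ⟨_, rfl⟩
    have htT : t ∈ T := htdef ▸ t'.2
    obtain ⟨T₁, hT₁⟩ : ∃ T₁ : Subgroup G, T₁ = M.map T.subtype := ⟨_, rfl⟩
    have hT₁T : T₁ ≤ T := by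
      rw [hT₁]
      rintro _ ⟨x, -, rfl⟩
      exact x.2
    have hcardT₁ : Nat.card T₁ * p = Nat.card T := by
      have h1 : Nat.card T₁ = Nat.card M := by
        rw [hT₁]
        exact Nat.card_congr (Subgroup.equivMapOfInjective M T.subtype T.subtype_injective).toEquiv.symm
      rw [h1, ← hMi, mul_comm, Subgroup.index_mul_card]
    have hlt : Nat.card T₁ < n := by
      rw [← hTn, ← hcardT₁]
      have : 0 < Nat.card T₁ := Nat.card_pos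
      have := hp.out.one_lt
      nlinarith
    have hT₁conj : ∀ x ∈ T, ∀ u ∈ T₁, x * u * x⁻¹ ∈ T₁ := by
      intro x hx u hu
      rw [hT₁] at hu ⊢
      obtain ⟨u', hu', rfl⟩ := hu
      refine ⟨⟨x, hx⟩ * u' * (⟨x, hx⟩ : T)⁻¹, hMn.conj_mem u' hu' ⟨x, hx⟩, rfl⟩
    have hsup : T₁ ⊔ Subgroup.zpowers t = T := by
      have h1 := sup_zpowers_eq_top hp.out hMi ht'
      have h2 := congrArg (Subgroup.map T.subtype) h1
      rw [Subgroup.map_sup, MonoidHom.map_zpowers, ← hT₁] at h2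
      rw [show (Subgroup.map T.subtype (⊤ : Subgroup T)) = T by
        rw [← MonoidHom.range_eq_map, Subgroup.range_subtype]] at h2
      rw [htdef]
      exact h2
    obtain ⟨a, ha⟩ : ∃ a, t ^ (p ^ a) = 1 := by
      obtain ⟨a, ha⟩ := (IsPGroup.iff_orderOf.mp hT) t'
      refine ⟨a, ?_⟩
      rw [← ha, ← Subgroup.orderOf_coe, htdef]
      exact pow_orderOf_eq_one _
    -- the intermediate subgroup
    obtain ⟨C₁, hC₁⟩ : ∃ C₁ : Subgroup G, C₁ = cQ K Q T₁ hKQ := ⟨_, rfl⟩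
    have hC₁char : ∀ k : G, k ∈ C₁ ↔ k ∈ K ∧ ∀ x ∈ T₁, x * k * x⁻¹ * k⁻¹ ∈ Q := by
      intro k
      rw [hC₁]
      exact mem_cQ
    have hC₁K : C₁ ≤ K := fun k hk => ((hC₁char k).mp hk).1
    let _ : Fintype C₁ := Fintype.ofFinite _
    have hQC₁ : Q ≤ C₁ := by
      intro q hq
      refine (hC₁char q).mpr ⟨hQK hq, fun x hx => ?_⟩
      have h1 : x * q * x⁻¹ ∈ Q :=
        (Subgroup.mem_normalizer_iff.mp (hTQ x (hT₁T hx)) q).mp hq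
      exact Q.mul_mem h1 (Q.inv_mem hq)
    have hCC₁ : C ≤ C₁ := by
      intro k hk
      obtain ⟨hk1, hk2⟩ := (hC k).mp hk
      exact (hC₁char k).mpr ⟨hk1, fun x hx => hk2 x (hT₁T hx)⟩
    have hidx₁ : ¬ p ∣ Q.relIndex C₁ := by
      intro h
      apply hidx
      rw [← Subgroup.relIndex_mul_relIndex Q C₁ K hQC₁ hC₁K]
      exact Dvd.dvd.mul_right h _
    have hTC₁ := normalizer_of_char hC₁char hTK hTQ hT₁conj
    have hTC : ∀ x ∈ T, x ∈ Subgroup.normalizer (C : Set G) :=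
      normalizer_of_char hC hTK hTQ fun x hx u hu => T.mul_mem (T.mul_mem hx hu) (T.inv_mem hx)
    have H₁ := ih _ hlt T₁ rfl (hT.to_le hT₁T) (fun x hx => hTK x (hT₁T hx))
      (fun x hx => hTQ x (hT₁T hx)) C₁ hC₁K hC₁char
    have hCt : ∀ k : G, k ∈ C ↔ k ∈ C₁ ∧ t * k * t⁻¹ * k⁻¹ ∈ Q := by
      intro k
      constructor
      · intro hk
        exact ⟨hCC₁ hk, ((hC k).mp hk).2 t htT⟩
      · rintro ⟨hk1, hk2⟩
        obtain ⟨hk3, hk4⟩ := (hC₁char k).mp hk1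
        refine (hC k).mpr ⟨hk3, fun x hx => ?_⟩
        have hle : T ≤ comSub Q k := by
          rw [← hsup]
          refine sup_le (fun u hu => ⟨hTQ u (hT₁T hu), hk4 u hu⟩) (Subgroup.zpowers_le.mpr ?_)
          exact ⟨hTQ t htT, hk2⟩
        exact (hle hx).2
    have H₂ := ambient_cyclic C₁ Q C t a hQC₁ hidx₁ ha (hTC₁ t htT) (hC₁K.trans hKQ) (hTQ t htT) hCt hCC₁
    exact DGNRel.chain hT hT₁T htT hT₁conj hTK hTC₁ hTC H₁ H₂

end Main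

end Cfsg.Agent.Lib.Char.DGN
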