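import Mathlib

/-!
Primitive Schur rings over dihedral groups (Wielandt): basic layer.
-/

set_option autoImplicit false
set_option linter.unusedSectionVars false
set_option linter.style.haveILetI false

namespace Cfsg.Agent.Lib.Char.Dih

open DihedralGroup

variable {m : ℕ}

/-- Invariant sets. -/
def Adm (D : Subgroup (Equiv.Perm (DihedralGroup m))) (A : Set (DihedralGroup m)) : Prop :=
  ∀ π ∈ D, ∀ x ∈ A, π x ∈ A

/-- The compatibility with translations. -/
structure SS (D : Subgroup (Equiv.Perm (DihedralGroup m))) : Prop where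
  fix1 : ∀ π ∈ D, π 1 = 1
  shift : ∀ π ∈ D, ∀ t, ∃ π' ∈ D, ∀ y, π' y = (π t)⁻¹ * π (t * y)

/-- Orbits. -/
def cls (D : Subgroup (Equiv.Perm (DihedralGroup m))) (x : DihedralGroup m) : Set (DihedralGroup m) :=
  {w | ∃ π ∈ D, π x = w}

variable {D : Subgroup (Equiv.Perm (DihedralGroup m))}

theorem Adm.iff {A : Set (DihedralGroup m)} (hA : Adm D A) {π : Equiv.Perm (DihedralGroup m)} (hπ : π ∈ D)
    (x : DihedralGroup m) : π x ∈ A ↔ x ∈ A := by
  constructor
  · intro h
    have := hA π⁻¹ (D.inv_mem hπ) _ h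
    simpa using this
  · exact hA π hπ x

theorem adm_cls (x : DihedralGroup m) : Adm D (cls D x) := by
  rintro π hπ _ ⟨ρ, hρ, rfl⟩
  exact ⟨π * ρ, D.mul_mem hπ hρ, rfl⟩

theorem self_mem_cls (x : DihedralGroup m) : x ∈ cls D x := ⟨1, D.one_mem, rfl⟩

theorem cls_sub {A : Set (DihedralGroup m)} (hA : Adm D A) {x : DihedralGroup m} (hx : x ∈ A) :
    cls D x ⊆ A := by
  rintro _ ⟨π, hπ, rfl⟩
  exact hA π hπ x hx

theorem cls_symm {x y : DihedralGroup m} (h : y ∈ cls D x) : x ∈ cls D y := by
  obtain ⟨π, hπ, rfl⟩ := h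
  exact ⟨π⁻¹, D.inv_mem hπ, by simp⟩

theorem adm_compl {A : Set (DihedralGroup m)} (hA : Adm D A) : Adm D Aᶜ := by
  intro π hπ x hx h
  exact hx ((hA.iff hπ x).mp h)

theorem adm_inter {A B : Set (DihedralGroup m)} (hA : Adm D A) (hB : Adm D B) : Adm D (A ∩ B) :=
  fun π hπ x hx => ⟨hA π hπ x hx.1, hB π hπ x hx.2⟩

theorem adm_union {A B : Set (DihedralGroup m)} (hA : Adm D A) (hB : Adm D B) : Adm D (A ∪ B) := by
  rintro π hπ x (hx | hx)
  · exact Or.inl (hA π hπ x hx)
  · exact Or.inr (hB π hπ x hx)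

theorem SS.adm_one (h : SS D) : Adm D {1} := by
  intro π hπ x hx
  rw [Set.mem_singleton_iff] at hx ⊢
  rw [hx, h.fix1 π hπ]

theorem SS.adm_inv (h : SS D) {A : Set (DihedralGroup m)} (hA : Adm D A) : Adm D {x | x⁻¹ ∈ A} := by
  intro π hπ x hx
  obtain ⟨π', hπ', he⟩ := h.shift π hπ x
  have h1 := hA π' hπ' _ hx
  rw [he, mul_inv_cancel, h.fix1 π hπ, mul_one] at h1
  exact h1

theorem SS.closure (h : SS D) {A : Set (DihedralGroup m)} (hA : Adm D A) :
    Adm D (Subgroup.closure A : Subgroup (DihedralGroup m)) := by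
  have key : ∀ x ∈ Subgroup.closure A, ∀ π ∈ D, π x ∈ Subgroup.closure A := by
    intro x hx
    induction hx using Subgroup.closure_induction with
    | mem y hy =>
      intro π hπ
      exact Subgroup.subset_closure (hA π hπ y hy)
    | one =>
      intro π hπ
      rw [h.fix1 π hπ]
      exact one_mem _
    | mul u v _ _ hu hv =>
      intro π hπ
      obtain ⟨π', hπ', he⟩ := h.shift π hπ u
      have h1 := hv π' hπ'
      rw [he] at h1
      have h2 := mul_mem (hu π hπ) h1
      rwa [mul_inv_cancel_left] at h2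
    | inv u _ hu =>
      intro π hπ
      obtain ⟨π', hπ', he⟩ := h.shift π hπ u⁻¹
      have h1 := hu π' hπ'
      rw [he, inv_mul_cancel, h.fix1 π hπ, mul_one] at h1
      have h2 := inv_mem h1
      rwa [inv_inv] at h2
  intro π hπ x hx
  exact key x hx π hπ

section count

variable [NeZero m]

open Classical in
/-- The convolution count. -/
noncomputable def cnt (A B : Set (DihedralGroup m)) (h : DihedralGroup m) : ℕ :=
  (Finset.univ.filter fun t : DihedralGroup m => t ∈ A ∧ t⁻¹ * h ∈ B).card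

theorem SS.cnt_inv (hs : SS D) {A B : Set (DihedralGroup m)} (hA : Adm D A) (hB : Adm D B)
    {π : Equiv.Perm (DihedralGroup m)} (hπ : π ∈ D) (h : DihedralGroup m) : cnt A B (π h) = cnt A B h := by
  classical
  unfold cnt
  symm
  apply Finset.card_equiv π
  intro t
  simp only [Finset.mem_filter, Finset.mem_univ, true_and]
  obtain ⟨π', hπ', he⟩ := hs.shift π hπ t
  have h1 := he (t⁻¹ * h)
  rw [mul_inv_cancel_left] at h1
  rw [hA.iff hπ, ← h1, hB.iff hπ']

theorem SS.adm_level (hs : SS D) {A B : Set (DihedralGroup m)} (hA : Adm D A) (hB : Adm D B) (v : ℕ) :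
    Adm D {h | cnt A B h = v} := by
  intro π hπ x hx
  change cnt A B (π x) = v
  rw [hs.cnt_inv hA hB hπ]
  exact hx

/-- Support of a product. -/
theorem SS.adm_mul (hs : SS D) {A B : Set (DihedralGroup m)} (hA : Adm D A) (hB : Adm D B) :
    Adm D {h | ∃ t ∈ A, t⁻¹ * h ∈ B} := by
  classical
  intro π hπ x hx
  change ∃ t ∈ A, t⁻¹ * π x ∈ B
  have h1 : 0 < cnt A B x := by
    obtain ⟨t, ht, ht'⟩ := hx
    exact Finset.card_pos.mpr ⟨t, by simp [ht, ht']⟩
  rw [← hs.cnt_inv hA hB hπ] at h1
  obtain ⟨t, ht⟩ := Finset.card_pos.mp h1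
  simp only [Finset.mem_filter, Finset.mem_univ, true_and] at ht
  exact ⟨t, ht.1, ht.2⟩

end count

/-- The standing assumptions. -/
structure Ctx (D : Subgroup (Equiv.Perm (DihedralGroup m))) : Prop extends SS D where
  two : 2 ≤ m
  prim : ∀ K : Subgroup (DihedralGroup m), Adm D (K : Set (DihedralGroup m)) → K = ⊥ ∨ K = ⊤

/-- The rotation subgroup. -/
def Rot (m : ℕ) : Subgroup (DihedralGroup m) where
  carrier := {x | ∃ i, x = r i}
  one_mem' := ⟨0, rfl⟩
  mul_mem' := by
    rintro _ _ ⟨i, rfl⟩ ⟨j, rfl⟩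
    exact ⟨i + j, by simp⟩
  inv_mem' := by
    rintro _ ⟨i, rfl⟩
    exact ⟨-i, by simp⟩

section ctx

variable [NeZero m] (hC : Ctx D)
include hC

theorem Ctx.no_sub_r {A : Set (DihedralGroup m)} (hA : Adm D A) (h1 : (1 : DihedralGroup m) ∉ A)
    (hne : A.Nonempty) (hsub : ∀ x ∈ A, ∃ i, x = r i) : False := by
  rcases hC.prim _ (hC.toSS.closure hA) with h | h
  · obtain ⟨x, hx⟩ := hne
    have h2 : x ∈ Subgroup.closure A := Subgroup.subset_closure hx
    rw [h, Subgroup.mem_bot] at h2
    exact h1 (h2 ▸ hx)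
  · have hle : Subgroup.closure A ≤ Rot m := by
      rw [Subgroup.closure_le]
      exact fun x hx => hsub x hx
    rw [h] at hle
    obtain ⟨i, hi⟩ := hle (Subgroup.mem_top (sr (0 : ZMod m)))
    cases hi

/-- Every non-identity orbit contains a reflection. -/
theorem Ctx.exists_sr {x : DihedralGroup m} (hx : x ≠ 1) : ∃ j, sr j ∈ cls D x := by
  by_contra hcon
  push Not at hcon
  refine hC.no_sub_r (A := cls D x) (adm_cls x) ?_ ⟨x, self_mem_cls x⟩ ?_
  · rintro ⟨π, hπ, h⟩
    apply hx
    apply π.injective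
    rw [h, hC.toSS.fix1 π hπ]
  · intro y hy
    cases y with
    | r i => exact ⟨i, rfl⟩
    | sr j => exact absurd hy (hcon j)

/-- Every orbit is closed under inverses. -/
theorem Ctx.inv_mem_cls (x : DihedralGroup m) : x⁻¹ ∈ cls D x := by
  by_cases hx : x = 1
  · subst hx
    simpa using self_mem_cls (D := D) (1 : DihedralGroup m)
  obtain ⟨j, hj⟩ := hC.exists_sr hx
  have h1 : Adm D {u | u⁻¹ ∈ cls D x} := hC.toSS.adm_inv (adm_cls x)
  have h2 : sr j ∈ {u | u⁻¹ ∈ cls D x} := by
    change (sr j)⁻¹ ∈ cls D x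
    rwa [DihedralGroup.inv_sr]
  have h3 := cls_sub h1 h2
  have h4 : x ∈ cls D (sr j) := cls_symm hj
  exact h3 h4

theorem Ctx.inv_mem {A : Set (DihedralGroup m)} (hA : Adm D A) {x : DihedralGroup m} (hx : x ∈ A) :
    x⁻¹ ∈ A := cls_sub hA hx (hC.inv_mem_cls x)

/-- No orbit consists of reflections only. -/
theorem Ctx.no_sub_sr {A : Set (DihedralGroup m)} (hA : Adm D A) (hne : A.Nonempty)
    (hsub : ∀ x ∈ A, ∃ j, x = sr j) : False := by
  classical
  obtain ⟨y, hy⟩ := hne
  have hyy : y⁻¹ = y := by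
    obtain ⟨j, rfl⟩ := hsub y hy
    exact DihedralGroup.inv_sr j
  -- the product set lies in the rotations
  have hE : Adm D ({h | ∃ t ∈ A, t⁻¹ * h ∈ A} ∩ {1}ᶜ) :=
    adm_inter (hC.toSS.adm_mul hA hA) (adm_compl hC.toSS.adm_one)
  have hempty : ({h | ∃ t ∈ A, t⁻¹ * h ∈ A} ∩ {1}ᶜ : Set (DihedralGroup m)) = ∅ := by
    by_contra hne'
    refine hC.no_sub_r hE (fun h => h.2 rfl) (Set.nonempty_iff_ne_empty.mpr hne') ?_
    rintro x ⟨⟨t, ht, ht'⟩, -⟩
    obtain ⟨j, rfl⟩ := hsub t ht
    obtain ⟨j', hj'⟩ := hsub _ ht'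
    have h5 : x = sr j * sr j' := by
      rw [← hj', DihedralGroup.inv_sr, ← mul_assoc]
      simp
    exact ⟨j' - j, h5.trans (by simp)⟩
  have huniq : ∀ w ∈ A, w = y := by
    intro w hw
    by_contra hne'
    have h6 : y * w ∈ ({h | ∃ t ∈ A, t⁻¹ * h ∈ A} ∩ {1}ᶜ : Set (DihedralGroup m)) := by
      refine ⟨⟨y, hy, by simpa using hw⟩, ?_⟩
      intro h7
      rw [Set.mem_singleton_iff] at h7
      apply hne'
      have : w = y⁻¹ := by
        exact eq_inv_of_mul_eq_one_right h7
      rw [this, hyy]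
    rw [hempty] at h6
    exact h6
  -- `{1, y}` is an invariant subgroup
  let K : Subgroup (DihedralGroup m) := Subgroup.closure {y}
  have hAeq : A = {y} := by
    ext w
    constructor
    · exact fun hw => huniq w hw
    · rintro rfl
      exact hy
  have hKadm : Adm D (K : Set (DihedralGroup m)) := by
    have := hC.toSS.closure hA
    rwa [hAeq] at this
  rcases hC.prim K hKadm with h | h
  · have h1 : y ∈ K := Subgroup.subset_closure rfl
    rw [h, Subgroup.mem_bot] at h1
    obtain ⟨j, rfl⟩ := hsub y hy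
    cases h1
  · have htwo := hC.two
    have hcard : Nat.card (DihedralGroup m) = 2 * m := DihedralGroup.nat_card
    have h3 : Nat.card K = orderOf y := by
      have : K = Subgroup.zpowers y := (Subgroup.zpowers_eq_closure y).symm
      rw [this, Nat.card_zpowers]
    have h4 : orderOf y ≤ 2 := by
      apply orderOf_le_of_pow_eq_one (by norm_num)
      rw [pow_two]
      have := hyy
      rw [inv_eq_iff_mul_eq_one] at this
      exact this
    have h5 : Nat.card K = 2 * m := by
      rw [h, Subgroup.card_top, hcard]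
    omega

/-- Every non-identity orbit contains a nonzero rotation. -/
theorem Ctx.exists_r {x : DihedralGroup m} (hx : x ≠ 1) : ∃ i, i ≠ 0 ∧ r i ∈ cls D x := by
  by_contra hcon
  push Not at hcon
  have h1 : 1 ∉ cls D x := by
    rintro ⟨π, hπ, h⟩
    apply hx
    apply π.injective
    rw [h, hC.toSS.fix1 π hπ]
  refine hC.no_sub_sr (A := cls D x) (adm_cls x) ⟨x, self_mem_cls x⟩ ?_
  intro y hy
  cases y with
  | sr j => exact ⟨j, rfl⟩
  | r i =>
    by_cases hi : i = 0
    · subst hi
      exact absurd hy h1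
    · exact absurd hy (hcon i hi)

/-- An invariant set without identity and with all rotations absent is empty. -/
theorem Ctx.exists_r_of {A : Set (DihedralGroup m)} (hA : Adm D A) {x : DihedralGroup m} (hx : x ∈ A)
    (hx1 : x ≠ 1) : ∃ i, i ≠ 0 ∧ r i ∈ A := by
  obtain ⟨i, hi, h⟩ := hC.exists_r hx1
  exact ⟨i, hi, cls_sub hA hx h⟩

theorem Ctx.exists_sr_of {A : Set (DihedralGroup m)} (hA : Adm D A) {x : DihedralGroup m} (hx : x ∈ A)
    (hx1 : x ≠ 1) : ∃ j, sr j ∈ A := by
  obtain ⟨j, h⟩ := hC.exists_sr hx1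
  exact ⟨j, cls_sub hA hx h⟩

/-- A nontrivial left translation symmetry forces triviality. -/
theorem Ctx.rad {S : Set (DihedralGroup m)} (hS : Adm D S) (hne : S.Nonempty) {c : DihedralGroup m}
    (hc1 : c ≠ 1) (hc : ∀ s, s ∈ S ↔ c * s ∈ S) : S = Set.univ := by
  classical
  let K : Subgroup (DihedralGroup m) :=
    { carrier := {u | ∀ s, s ∈ S ↔ u * s ∈ S}
      one_mem' := by intro s; simp
      mul_mem' := by
        intro a b ha hb s
        rw [mul_assoc, ← ha, ← hb]
      inv_mem' := by
        intro a ha s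
        have := ha (a⁻¹ * s)
        rw [mul_inv_cancel_left] at this
        exact this.symm }
  have hchar : ∀ u, u ∈ K ↔ cnt S S u = cnt S S 1 := by
    intro u
    have h1 : cnt S S 1 = (Finset.univ.filter fun t : DihedralGroup m => t ∈ S).card := by
      unfold cnt
      congr 1
      ext t
      simp only [Finset.mem_filter, Finset.mem_univ, true_and, mul_one]
      exact ⟨fun h => h.1, fun h => ⟨h, hC.inv_mem hS h⟩⟩
    rw [h1]
    constructor
    · intro hu
      unfold cnt
      congr 1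
      ext t
      simp only [Finset.mem_filter, Finset.mem_univ, true_and]
      refine ⟨fun h => h.1, fun h => ⟨h, ?_⟩⟩
      have h2 : u⁻¹ * t ∈ S := by
        have := (K.inv_mem hu) t
        exact this.mp h
      have h3 := hC.inv_mem hS h2
      simpa using h3
    · intro hu
      have hsub : (Finset.univ.filter fun t : DihedralGroup m => t ∈ S ∧ t⁻¹ * u ∈ S) =
          Finset.univ.filter fun t : DihedralGroup m => t ∈ S := by
        apply Finset.eq_of_subset_of_card_le
        · intro t ht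
          simp only [Finset.mem_filter, Finset.mem_univ, true_and] at ht ⊢
          exact ht.1
        · exact hu.ge
      have hall : ∀ t ∈ S, u⁻¹ * t ∈ S := by
        intro t ht
        have h2 : t ∈ Finset.univ.filter fun t : DihedralGroup m => t ∈ S ∧ t⁻¹ * u ∈ S := by
          rw [hsub]
          simp [ht]
        simp only [Finset.mem_filter, Finset.mem_univ, true_and] at h2
        have h3 := hC.inv_mem hS h2.2
        simpa using h3
      -- the inverse of `u` maps `S` into `S`, hence permutes it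
      have hperm : u⁻¹ ∈ K := by
        intro s
        have hinj : Set.InjOn (fun t => u⁻¹ * t) S := fun a _ b _ hab => mul_left_cancel hab
        have himg : (fun t => u⁻¹ * t) '' S = S := by
          apply Set.eq_of_subset_of_ncard_le
          · rintro _ ⟨t, ht, rfl⟩
            exact hall t ht
          · rw [hinj.ncard_image]
          · exact Set.toFinite _
        constructor
        · exact hall s
        · intro h
          have h2 : u⁻¹ * s ∈ (fun t => u⁻¹ * t) '' S := by rw [himg]; exact h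
          obtain ⟨t, ht, e⟩ := h2
          have : t = s := mul_left_cancel e
          rwa [← this]
      have := K.inv_mem hperm
      rwa [inv_inv] at this
  have hKadm : Adm D (K : Set (DihedralGroup m)) := by
    intro π hπ u hu
    change π u ∈ K
    rw [hchar, hC.toSS.cnt_inv hS hS hπ]
    exact (hchar u).mp hu
  rcases hC.prim K hKadm with h | h
  · have h1 : c ∈ K := hc
    rw [h, Subgroup.mem_bot] at h1
    exact absurd h1 hc1
  · obtain ⟨s₀, hs₀⟩ := hne
    ext u
    simp only [Set.mem_univ, iff_true]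
    have h1 : u * s₀⁻¹ ∈ K := by rw [h]; exact Subgroup.mem_top _
    have h2 := (h1 s₀).mp hs₀
    simpa using h2

end ctx

end Cfsg.Agent.Lib.Char.Dih
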