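import Cfsg.Agent.Lib.Char.DihA

/-!
Group algebra computations over the dihedral group.
-/

set_option autoImplicit false
set_option linter.unusedSectionVars false
set_option linter.style.haveILetI false

namespace Cfsg.Agent.Lib.Char.Dih

open DihedralGroup MonoidAlgebra

variable {m : ℕ} [NeZero m] {D : Subgroup (Equiv.Perm (DihedralGroup m))}

section alg

variable {k : Type*} [CommRing k]

theorem coeff_mul' (X Y : MonoidAlgebra k (DihedralGroup m)) (c : DihedralGroup m) :
    (X * Y).coeff c = ∑ t, X.coeff t * Y.coeff (t⁻¹ * c) := by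
  classical
  rw [coeff_mul_apply_left, Finsupp.sum_fintype _ _ (by simp)]

/-- The algebra element with given coefficients. -/
noncomputable def mk (f : DihedralGroup m → k) : MonoidAlgebra k (DihedralGroup m) :=
  ∑ h, single h (f h)

theorem coeff_mk (f : DihedralGroup m → k) (c : DihedralGroup m) : (mk f).coeff c = f c := by
  classical
  simp only [mk, coeff_sum, coeff_single, Finsupp.finsetSum_apply, Finsupp.single_apply]
  simp

/-- Class-constant elements. -/
def CC (D : Subgroup (Equiv.Perm (DihedralGroup m))) (Y : MonoidAlgebra k (DihedralGroup m)) : Prop :=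
  ∀ π ∈ D, ∀ c, Y.coeff (π c) = Y.coeff c

theorem SS.cc_mul (hs : SS D) {X Y : MonoidAlgebra k (DihedralGroup m)} (hX : CC D X) (hY : CC D Y) :
    CC D (X * Y) := by
  intro π hπ c
  rw [coeff_mul', coeff_mul', ← Equiv.sum_comp π]
  refine Finset.sum_congr rfl fun t _ => ?_
  obtain ⟨π', hπ', he⟩ := hs.shift π hπ t
  have h1 := he (t⁻¹ * c)
  rw [mul_inv_cancel_left] at h1
  rw [hX π hπ, ← h1, hY π' hπ']

theorem SS.cc_pow (hs : SS D) {X : MonoidAlgebra k (DihedralGroup m)} (hX : CC D X) (n : ℕ) :
    CC D (X ^ n) := by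
  classical
  induction n with
  | zero =>
    intro π hπ c
    rw [pow_zero, MonoidAlgebra.one_def, coeff_single]
    by_cases hc : c = 1
    · subst hc
      rw [hs.fix1 π hπ]
    · have : π c ≠ 1 := by
        intro h1
        apply hc
        apply π.injective
        rw [h1, hs.fix1 π hπ]
      rw [Finsupp.single_apply, Finsupp.single_apply, if_neg (Ne.symm this), if_neg (Ne.symm hc)]
  | succ n ih =>
    rw [pow_succ]
    exact hs.cc_mul ih hX

/-- Augmentation. -/
noncomputable def aug (Y : MonoidAlgebra k (DihedralGroup m)) : k := ∑ c, Y.coeff c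

theorem aug_mul (X Y : MonoidAlgebra k (DihedralGroup m)) : aug (X * Y) = aug X * aug Y := by
  unfold aug
  simp only [coeff_mul']
  rw [Finset.sum_comm, Finset.sum_mul]
  refine Finset.sum_congr rfl fun t _ => ?_
  rw [← Finset.mul_sum]
  congr 1
  exact Equiv.sum_comp (Equiv.mulLeft t⁻¹) _

theorem aug_one : aug (1 : MonoidAlgebra k (DihedralGroup m)) = 1 := by
  classical
  unfold aug
  simp only [MonoidAlgebra.one_def, coeff_single, Finsupp.single_apply]
  simp

theorem aug_pow (X : MonoidAlgebra k (DihedralGroup m)) (n : ℕ) : aug (X ^ n) = aug X ^ n := by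
  induction n with
  | zero => simp [aug_one]
  | succ n ih => rw [pow_succ, aug_mul, ih, pow_succ]

theorem aug_mk (f : DihedralGroup m → k) : aug (mk f) = ∑ c, f c := by
  unfold aug
  simp only [coeff_mk]

/-- The rotation part. -/
noncomputable def Jp (f : DihedralGroup m → k) : MonoidAlgebra k (DihedralGroup m) :=
  ∑ i : ZMod m, single (r i) (f (r i))

/-- The reflection part. -/
noncomputable def Bp (f : DihedralGroup m → k) : MonoidAlgebra k (DihedralGroup m) :=
  ∑ j : ZMod m, single (sr j) (f (sr j))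

theorem coeff_Jp_r (f : DihedralGroup m → k) (u : ZMod m) : (Jp f).coeff (r u) = f (r u) := by
  classical
  simp only [Jp, coeff_sum, coeff_single, Finsupp.finsetSum_apply, Finsupp.single_apply, r.injEq]
  simp

theorem coeff_Jp_sr (f : DihedralGroup m → k) (u : ZMod m) : (Jp f).coeff (sr u) = 0 := by
  classical
  simp only [Jp, coeff_sum, coeff_single, Finsupp.finsetSum_apply, Finsupp.single_apply]
  simp

theorem coeff_Bp_r (f : DihedralGroup m → k) (u : ZMod m) : (Bp f).coeff (r u) = 0 := by
  classical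
  simp only [Bp, coeff_sum, coeff_single, Finsupp.finsetSum_apply, Finsupp.single_apply]
  simp

theorem coeff_Bp_sr (f : DihedralGroup m → k) (u : ZMod m) : (Bp f).coeff (sr u) = f (sr u) := by
  classical
  simp only [Bp, coeff_sum, coeff_single, Finsupp.finsetSum_apply, Finsupp.single_apply, sr.injEq]
  simp

theorem ext_coeff {X Y : MonoidAlgebra k (DihedralGroup m)} (h : ∀ c, X.coeff c = Y.coeff c) : X = Y := by
  exact MonoidAlgebra.ext (Finsupp.ext h)

theorem mk_eq (f : DihedralGroup m → k) : mk f = Jp f + Bp f := by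
  apply ext_coeff
  intro c
  rw [coeff_add, Finsupp.add_apply, coeff_mk]
  cases c with
  | r i => rw [coeff_Jp_r, coeff_Bp_r, add_zero]
  | sr j => rw [coeff_Jp_sr, coeff_Bp_sr, zero_add]

theorem commute_J_B (f : DihedralGroup m → k) (hf : ∀ i, f (r (-i)) = f (r i)) :
    Commute (Jp f) (Bp f) := by
  classical
  unfold Commute SemiconjBy
  unfold Jp Bp
  rw [Finset.sum_mul_sum, Finset.sum_mul_sum, Finset.sum_comm]
  refine Finset.sum_congr rfl fun j _ => ?_
  rw [← Equiv.sum_comp (Equiv.neg (ZMod m))]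
  refine Finset.sum_congr rfl fun i _ => ?_
  simp only [Equiv.neg_apply, single_mul_single, r_mul_sr, sr_mul_r, hf, mul_comm]
  congr 2
  ring

/-- Frobenius for commuting families. -/
theorem sum_pow_char_comm {R ι : Type*} [Ring R] (p : ℕ) [Fact p.Prime] [CharP R p] (s : Finset ι)
    (f : ι → R) (hc : ∀ i j, Commute (f i) (f j)) : (∑ i ∈ s, f i) ^ p = ∑ i ∈ s, f i ^ p := by
  classical
  induction s using Finset.induction_on with
  | empty =>
    simp only [Finset.sum_empty]
    exact zero_pow (Fact.out : p.Prime).ne_zero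
  | insert a s ha ih =>
    rw [Finset.sum_insert ha, Finset.sum_insert ha, add_pow_char_of_commute, ih]
    exact Commute.sum_right _ _ _ (fun j _ => hc a j)

theorem r_pow (i : ZMod m) (n : ℕ) : (r i : DihedralGroup m) ^ n = r ((n : ZMod m) * i) := by
  induction n with
  | zero => simp
  | succ n ih =>
    rw [pow_succ, ih, r_mul_r]
    congr 1
    push_cast
    ring

/-- Only rotations. -/
def OnlyR (Y : MonoidAlgebra k (DihedralGroup m)) : Prop := ∀ j, Y.coeff (sr j) = 0

/-- Only reflections. -/
def OnlySR (Y : MonoidAlgebra k (DihedralGroup m)) : Prop := ∀ i, Y.coeff (r i) = 0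

theorem onlyR_mul {X Y : MonoidAlgebra k (DihedralGroup m)} (hX : OnlySR X) (hY : OnlySR Y) :
    OnlyR (X * Y) := by
  intro j
  rw [coeff_mul']
  refine Finset.sum_eq_zero fun t _ => ?_
  cases t with
  | r a => rw [hX a, zero_mul]
  | sr a =>
    have : (sr a : DihedralGroup m)⁻¹ * sr j = r (j - a) := by simp
    rw [this, hY, mul_zero]

theorem onlySR_mul {X Y : MonoidAlgebra k (DihedralGroup m)} (hX : OnlyR X) (hY : OnlySR Y) :
    OnlySR (X * Y) := by
  intro j
  rw [coeff_mul']
  refine Finset.sum_eq_zero fun t _ => ?_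
  cases t with
  | r a =>
    have : (r a : DihedralGroup m)⁻¹ * r j = r (j - a) := by
      simp [sub_eq_neg_add]
    rw [this, hY, mul_zero]
  | sr a => rw [hX a, zero_mul]

theorem onlyR_one : OnlyR (1 : MonoidAlgebra k (DihedralGroup m)) := by
  classical
  intro j
  rw [MonoidAlgebra.one_def, coeff_single, Finsupp.single_apply, if_neg]
  exact fun h => by cases h

theorem onlySR_Bp (f : DihedralGroup m → k) : OnlySR (Bp f) := coeff_Bp_r f

theorem onlySR_odd_pow (f : DihedralGroup m → k) (n : ℕ) :
    OnlyR (Bp f ^ (2 * n)) ∧ OnlySR (Bp f ^ (2 * n + 1)) := by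
  induction n with
  | zero =>
    constructor
    · simpa using onlyR_one
    · simpa using onlySR_Bp f
  | succ n ih =>
    have h1 : OnlyR (Bp f ^ (2 * (n + 1))) := by
      have e : 2 * (n + 1) = (2 * n + 1) + 1 := by ring
      rw [e, pow_succ]
      exact onlyR_mul ih.2 (onlySR_Bp f)
    refine ⟨h1, ?_⟩
    rw [pow_succ]
    exact onlySR_mul h1 (onlySR_Bp f)

end alg

section frob

variable {q : ℕ} [hq : Fact q.Prime]

noncomputable instance charP_alg : CharP (MonoidAlgebra (ZMod q) (DihedralGroup m)) q :=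
  charP_of_injective_algebraMap (R := ZMod q)
    (algebraMap (ZMod q) (MonoidAlgebra (ZMod q) (DihedralGroup m))).injective q

theorem Jp_pow (f : DihedralGroup m → ZMod q) :
    Jp f ^ q = ∑ i : ZMod m, single (r ((q : ZMod m) * i)) (f (r i)) := by
  classical
  unfold Jp
  rw [sum_pow_char_comm]
  · refine Finset.sum_congr rfl fun i _ => ?_
    rw [single_pow, r_pow, ZMod.pow_card]
  · intro i j
    unfold Commute SemiconjBy
    rw [single_mul_single, single_mul_single, r_mul_r, r_mul_r, add_comm i j, mul_comm]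

theorem coeff_Jp_pow_r (f : DihedralGroup m → ZMod q) (u : ZMod m) :
    (Jp f ^ q).coeff (r u) = ∑ i : ZMod m, if (q : ZMod m) * i = u then f (r i) else 0 := by
  classical
  rw [Jp_pow]
  simp only [coeff_sum, coeff_single, Finsupp.finsetSum_apply, Finsupp.single_apply, r.injEq]

theorem coeff_Jp_pow_sr (f : DihedralGroup m → ZMod q) (u : ZMod m) :
    (Jp f ^ q).coeff (sr u) = 0 := by
  classical
  rw [Jp_pow]
  simp only [coeff_sum, coeff_single, Finsupp.finsetSum_apply, Finsupp.single_apply]
  simp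

theorem mk_pow (f : DihedralGroup m → ZMod q) (hf : ∀ i, f (r (-i)) = f (r i)) :
    mk f ^ q = Jp f ^ q + Bp f ^ q := by
  rw [mk_eq, add_pow_char_of_commute q (commute_J_B f hf)]

/-- Frobenius on rotations, odd case. -/
theorem coeff_pow_r (hq2 : q ≠ 2) (f : DihedralGroup m → ZMod q) (hf : ∀ i, f (r (-i)) = f (r i))
    (u : ZMod m) :
    (mk f ^ q).coeff (r u) = ∑ i : ZMod m, if (q : ZMod m) * i = u then f (r i) else 0 := by
  rw [mk_pow f hf, coeff_add, Finsupp.add_apply, coeff_Jp_pow_r]
  obtain ⟨n, hn⟩ := hq.out.odd_of_ne_two hq2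
  have h1 := (onlySR_odd_pow f n).2
  rw [← hn] at h1
  rw [h1 u, add_zero]

/-- If the reflection part squares to zero, its powers vanish. -/
theorem Bp_pow_zero (f : DihedralGroup m → ZMod q) (hB : Bp f * Bp f = 0) : Bp f ^ q = 0 := by
  have h2 := hq.out.two_le
  obtain ⟨n, rfl⟩ : ∃ n, q = n + 2 := ⟨q - 2, by omega⟩
  rw [pow_add, pow_two, hB, mul_zero]

theorem coeff_pow_r_of (f : DihedralGroup m → ZMod q) (hf : ∀ i, f (r (-i)) = f (r i))
    (hB : Bp f * Bp f = 0) (u : ZMod m) :
    (mk f ^ q).coeff (r u) = ∑ i : ZMod m, if (q : ZMod m) * i = u then f (r i) else 0 := by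
  rw [mk_pow f hf, Bp_pow_zero f hB, add_zero, coeff_Jp_pow_r]

theorem coeff_pow_sr_of (f : DihedralGroup m → ZMod q) (hf : ∀ i, f (r (-i)) = f (r i))
    (hB : Bp f * Bp f = 0) (u : ZMod m) : (mk f ^ q).coeff (sr u) = 0 := by
  rw [mk_pow f hf, Bp_pow_zero f hB, add_zero, coeff_Jp_pow_sr]

/-- Periodicity of the reflection part passes to powers. -/
theorem coeff_pow_sr_periodic (f : DihedralGroup m → ZMod q) (hf : ∀ i, f (r (-i)) = f (r i))
    (e : ZMod m) (hper : ∀ j, f (sr (j + e)) = f (sr j)) (j : ZMod m) :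
    (mk f ^ q).coeff (sr (j + e)) = (mk f ^ q).coeff (sr j) := by
  classical
  have h1 : single (r (-e) : DihedralGroup m) (1 : ZMod q) * Bp f = Bp f := by
    apply ext_coeff
    intro c
    rw [coeff_mul']
    rw [Finset.sum_eq_single (r (-e))]
    · rw [coeff_single, Finsupp.single_eq_same, one_mul]
      cases c with
      | r a =>
        have : (r (-e) : DihedralGroup m)⁻¹ * r a = r (e + a) := by simp
        rw [this, coeff_Bp_r, coeff_Bp_r]
      | sr a =>
        have : (r (-e) : DihedralGroup m)⁻¹ * sr a = sr (a - e) := by simp [sub_eq_add_neg]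
        rw [this, coeff_Bp_sr, coeff_Bp_sr]
        have := hper (a - e)
        rw [sub_add_cancel] at this
        exact this.symm
    · intro b _ hb
      rw [coeff_single, Finsupp.single_apply, if_neg (Ne.symm hb), zero_mul]
    · simp
  have h2 : ∀ n : ℕ, single (r (-e) : DihedralGroup m) (1 : ZMod q) * Bp f ^ (n + 1) = Bp f ^ (n + 1) := by
    intro n
    rw [pow_succ', ← mul_assoc, h1]
  have h3 := h2 (q - 1)
  rw [Nat.sub_add_cancel hq.out.one_le] at h3
  have hY : ∀ a, (Bp f ^ q).coeff (sr (a - e)) = (Bp f ^ q).coeff (sr a) := by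
    intro a
    have h4 : (single (r (-e) : DihedralGroup m) (1 : ZMod q) * Bp f ^ q).coeff (sr a) =
        (Bp f ^ q).coeff (sr a) := by rw [h3]
    rw [coeff_mul', Finset.sum_eq_single (r (-e))] at h4
    · rw [coeff_single, Finsupp.single_eq_same, one_mul] at h4
      have h5 : (r (-e) : DihedralGroup m)⁻¹ * sr a = sr (a - e) := by simp [sub_eq_add_neg]
      rwa [h5] at h4
    · intro b _ hb
      rw [coeff_single, Finsupp.single_apply, if_neg (Ne.symm hb), zero_mul]
    · simp
  rw [mk_pow f hf, coeff_add, Finsupp.add_apply, Finsupp.add_apply, coeff_Jp_pow_sr,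
    coeff_Jp_pow_sr, zero_add, zero_add]
  have := hY (j + e)
  rw [add_sub_cancel_right] at this
  exact this.symm

end frob

end Cfsg.Agent.Lib.Char.Dih
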