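import Cfsg.Agent.Lib.Char.DihB

/-!
Multipliers and the triviality of invariant sets with periodic reflection part.
-/

set_option autoImplicit false
set_option linter.unusedSectionVars false
set_option linter.style.haveILetI false

namespace Cfsg.Agent.Lib.Char.Dih

open DihedralGroup MonoidAlgebra

variable {m : ℕ} [NeZero m] {D : Subgroup (Equiv.Perm (DihedralGroup m))}

open Classical in
/-- The indicator. -/
noncomputable def ind (q : ℕ) (A : Set (DihedralGroup m)) : DihedralGroup m → ZMod q :=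
  fun h => if h ∈ A then 1 else 0

theorem ind_congr {q : ℕ} {A B : Set (DihedralGroup m)} {x y : DihedralGroup m} (h : x ∈ A ↔ y ∈ B) :
    ind q A x = ind q B y := by
  by_cases hx : x ∈ A
  · have hy := h.mp hx
    simp [ind, hx, hy]
  · have hy : y ∉ B := fun hy => hx (h.mpr hy)
    simp [ind, hx, hy]

theorem ind_cc {q : ℕ} {A : Set (DihedralGroup m)} (hA : Adm D A) : CC D (Dih.mk (ind q A)) := by
  intro π hπ c
  rw [coeff_mk, coeff_mk]
  exact ind_congr (hA.iff hπ c)

theorem ind_eq_iff {q : ℕ} [hq : Fact q.Prime] {A : Set (DihedralGroup m)} {x y : DihedralGroup m}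
    (h : ind q A x = ind q A y) : x ∈ A ↔ y ∈ A := by
  unfold ind at h
  by_cases hx : x ∈ A <;> by_cases hy : y ∈ A <;> simp [hx, hy] at h ⊢

section ctx

variable (hC : Ctx D)
include hC

theorem Ctx.ind_sym (q : ℕ) {A : Set (DihedralGroup m)} (hA : Adm D A) (i : ZMod m) :
    ind q A (r (-i)) = ind q A (r i) := by
  have h1 : r (-i) ∈ A ↔ r i ∈ A := by
    constructor
    · intro h
      have := hC.inv_mem hA h
      simpa using this
    · intro h
      have := hC.inv_mem hA h
      simpa using this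
  exact ind_congr h1

omit hC in
theorem exists_prime_unit (t : (ZMod m)ˣ) (n : ℕ) : ∃ q > n, q.Prime ∧ (q : ZMod m) = t :=
  Nat.forall_exists_prime_gt_and_eq_mod t.isUnit n

theorem Ctx.frob_unit {q : ℕ} [hq : Fact q.Prime] (hq2 : q ≠ 2) {t : (ZMod m)ˣ} (ht : (q : ZMod m) = t)
    {A : Set (DihedralGroup m)} (hA : Adm D A) (u : ZMod m) :
    (Dih.mk (ind q A) ^ q).coeff (r u) = ind q A (r (((t⁻¹ : (ZMod m)ˣ) : ZMod m) * u)) := by
  classical
  rw [coeff_pow_r hq2 _ (hC.ind_sym q hA), ht, Finset.sum_eq_single (((t⁻¹ : (ZMod m)ˣ) : ZMod m) * u)]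
  · rw [if_pos (by simp)]
  · intro b _ hb
    rw [if_neg]
    intro h
    apply hb
    rw [← h]
    simp
  · simp

/-- Multipliers reflect the relation. -/
theorem Ctx.reflect (t : (ZMod m)ˣ) (i i' : ZMod m)
    (h : r ((t : ZMod m) * i') ∈ cls D (r ((t : ZMod m) * i))) : r i' ∈ cls D (r i) := by
  obtain ⟨q, hq2, hqp, hqt⟩ := exists_prime_unit t 2
  haveI : Fact q.Prime := ⟨hqp⟩
  obtain ⟨π, hπ, he⟩ := h
  have hcc := hC.toSS.cc_pow (ind_cc (q := q) (adm_cls (D := D) (r i))) q
  have h1 := hcc π hπ (r ((t : ZMod m) * i))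
  rw [he, hC.frob_unit hq2.ne' hqt (adm_cls _), hC.frob_unit hq2.ne' hqt (adm_cls _)] at h1
  have e1 : ∀ x : ZMod m, ((t⁻¹ : (ZMod m)ˣ) : ZMod m) * ((t : ZMod m) * x) = x := by
    intro x
    rw [← mul_assoc]
    simp
  rw [e1, e1] at h1
  exact (ind_eq_iff h1).mpr (self_mem_cls _)

theorem Ctx.preserve (t : (ZMod m)ˣ) (i i' : ZMod m) (h : r i' ∈ cls D (r i)) :
    r ((t : ZMod m) * i') ∈ cls D (r ((t : ZMod m) * i)) := by
  apply hC.reflect t⁻¹
  have e1 : ∀ x : ZMod m, ((t⁻¹ : (ZMod m)ˣ) : ZMod m) * ((t : ZMod m) * x) = x := by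
    intro x
    rw [← mul_assoc]
    simp
  rwa [e1, e1]

end ctx

/-- The image under a multiplier. -/
def img (D : Subgroup (Equiv.Perm (DihedralGroup m))) (t : (ZMod m)ˣ) (V : Set (DihedralGroup m)) :
    Set (DihedralGroup m) :=
  {h | ∃ i, r i ∈ V ∧ h ∈ cls D (r ((t : ZMod m) * i))}

theorem adm_img (t : (ZMod m)ˣ) (V : Set (DihedralGroup m)) : Adm D (img D t V) := by
  rintro π hπ x ⟨i, hi, hx⟩
  exact ⟨i, hi, adm_cls _ π hπ x hx⟩

section ctx2

variable (hC : Ctx D)
include hC

theorem Ctx.img_r (t : (ZMod m)ˣ) {V : Set (DihedralGroup m)} (hV : Adm D V) (u : ZMod m) :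
    r u ∈ img D t V ↔ r (((t⁻¹ : (ZMod m)ˣ) : ZMod m) * u) ∈ V := by
  constructor
  · rintro ⟨i, hi, hu⟩
    have e : r u = r ((t : ZMod m) * (((t⁻¹ : (ZMod m)ˣ) : ZMod m) * u)) := by
      rw [← mul_assoc]
      simp
    rw [e] at hu
    exact cls_sub hV hi (hC.reflect t _ _ hu)
  · intro h
    refine ⟨_, h, ?_⟩
    have e : r u = r ((t : ZMod m) * (((t⁻¹ : (ZMod m)ˣ) : ZMod m) * u)) := by
      rw [← mul_assoc]
      simp
    rw [← e]
    exact self_mem_cls _

theorem Ctx.one_not_img (t : (ZMod m)ˣ) {V : Set (DihedralGroup m)} (hV : Adm D V)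
    (h1 : (1 : DihedralGroup m) ∉ V) : (1 : DihedralGroup m) ∉ img D t V := by
  intro h
  have e : (1 : DihedralGroup m) = r 0 := rfl
  rw [e, hC.img_r t hV, mul_zero] at h
  exact h1 h

/-- Raising to a prime power realizes the multiplier. -/
theorem Ctx.pow_eq_img {q : ℕ} [hq : Fact q.Prime] (hq2 : q ≠ 2) {t : (ZMod m)ˣ} (ht : (q : ZMod m) = t)
    {V : Set (DihedralGroup m)} (hV : Adm D V) :
    Dih.mk (ind q V) ^ q = Dih.mk (ind q (img D t V)) := by
  have hr : ∀ u, (Dih.mk (ind q V) ^ q).coeff (r u) = (Dih.mk (ind q (img D t V))).coeff (r u) := by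
    intro u
    rw [hC.frob_unit hq2 ht hV, coeff_mk]
    exact ind_congr (hC.img_r t hV u).symm
  apply ext_coeff
  intro c
  cases c with
  | r u => exact hr u
  | sr j =>
    obtain ⟨i, _, π, hπ, he⟩ := hC.exists_r (x := sr j) (by
      intro h
      cases h)
    have h1 := hC.toSS.cc_pow (ind_cc (q := q) hV) q π hπ (sr j)
    have h2 := ind_cc (q := q) (adm_img (D := D) t V) π hπ (sr j)
    rw [← h1, ← h2, he]
    exact hr i

end ctx2

open Classical in
/-- Number of rotations. -/
noncomputable def acount (A : Set (DihedralGroup m)) : ℕ :=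
  (Finset.univ.filter fun i : ZMod m => r i ∈ A).card

open Classical in
/-- Number of reflections. -/
noncomputable def bcount (A : Set (DihedralGroup m)) : ℕ :=
  (Finset.univ.filter fun i : ZMod m => sr i ∈ A).card

/-- Splitting. -/
def splitEquiv (m : ℕ) : ZMod m ⊕ ZMod m ≃ DihedralGroup m where
  toFun
    | Sum.inl i => r i
    | Sum.inr i => sr i
  invFun
    | r i => Sum.inl i
    | sr i => Sum.inr i
  left_inv := by rintro (x | x) <;> rfl
  right_inv := by rintro (x | x) <;> rfl

theorem sum_split {M : Type*} [AddCommMonoid M] (g : DihedralGroup m → M) :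
    ∑ h, g h = ∑ i, g (r i) + ∑ i, g (sr i) := by
  rw [← Equiv.sum_comp (splitEquiv m), Fintype.sum_sum_type]
  rfl

theorem ncard_eq (A : Set (DihedralGroup m)) : A.ncard = acount A + bcount A := by
  classical
  have h1 : A.ncard = (Finset.univ.filter fun h => h ∈ A).card := by
    rw [← Set.ncard_coe_finset]
    congr 1
    ext h
    simp
  rw [h1, Finset.card_filter, sum_split]
  unfold acount bcount
  rw [Finset.card_filter, Finset.card_filter]

theorem aug_ind {q : ℕ} (A : Set (DihedralGroup m)) : aug (Dih.mk (ind q A)) = ((A.ncard : ℕ) : ZMod q) := by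
  classical
  rw [aug_mk]
  have h1 : A.ncard = (Finset.univ.filter fun h => h ∈ A).card := by
    rw [← Set.ncard_coe_finset]
    congr 1
    ext h
    simp
  rw [h1, Finset.card_filter]
  push_cast
  refine Finset.sum_congr rfl fun x _ => ?_
  simp [ind]

section ctx3

variable (hC : Ctx D)
include hC

theorem Ctx.acount_img (t : (ZMod m)ˣ) {V : Set (DihedralGroup m)} (hV : Adm D V) :
    acount (img D t V) = acount V := by
  classical
  unfold acount
  symm
  apply Finset.card_equiv (Units.mulLeft t)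
  intro i
  simp only [Finset.mem_filter, Finset.mem_univ, true_and, Units.mulLeft_apply]
  rw [hC.img_r t hV, ← mul_assoc]
  simp

omit hC in
theorem ncard_le (A : Set (DihedralGroup m)) : A.ncard ≤ 2 * m := by
  have h1 := Set.ncard_le_card A
  rwa [DihedralGroup.nat_card] at h1

theorem Ctx.ncard_img (t : (ZMod m)ˣ) {V : Set (DihedralGroup m)} (hV : Adm D V) :
    (img D t V).ncard = V.ncard := by
  obtain ⟨q, hq2, hqp, hqt⟩ := exists_prime_unit t (2 * m + 2)
  haveI : Fact q.Prime := ⟨hqp⟩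
  have h1 := hC.pow_eq_img (q := q) (by omega) hqt hV
  have h2 := congrArg aug h1
  rw [aug_pow, aug_ind, aug_ind, ZMod.pow_card, ZMod.natCast_eq_natCast_iff'] at h2
  have h3 := ncard_le V
  have h4 := ncard_le (img D t V)
  rwa [Nat.mod_eq_of_lt (by omega), Nat.mod_eq_of_lt (by omega), eq_comm] at h2

theorem Ctx.bcount_img (t : (ZMod m)ˣ) {V : Set (DihedralGroup m)} (hV : Adm D V) :
    bcount (img D t V) = bcount V := by
  have h1 := hC.ncard_img t hV
  rw [ncard_eq, ncard_eq, hC.acount_img t hV] at h1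
  omega

theorem Ctx.periodic_img (t : (ZMod m)ˣ) {V : Set (DihedralGroup m)} (hV : Adm D V) (e : ZMod m)
    (hper : ∀ j, sr (j + e) ∈ V ↔ sr j ∈ V) (j : ZMod m) :
    sr (j + e) ∈ img D t V ↔ sr j ∈ img D t V := by
  obtain ⟨q, hq2, hqp, hqt⟩ := exists_prime_unit t 2
  haveI : Fact q.Prime := ⟨hqp⟩
  have h1 := hC.pow_eq_img (q := q) hq2.ne' hqt hV
  have h2 := coeff_pow_sr_periodic (ind q V) (hC.ind_sym q hV) e (by
    intro j
    exact ind_congr (hper j)) j
  rw [h1, coeff_mk, coeff_mk] at h2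
  exact ind_eq_iff h2

end ctx3

section kernel

variable {p : ℕ}

open Classical in
theorem card_ker (hp : p.Prime) (hpm : p ∣ m) :
    (Finset.univ.filter fun e : ZMod m => (p : ZMod m) * e = 0).card = p := by
  have h1 := IsAddCyclic.card_nsmulAddMonoidHom_ker (ZMod m) p
  rw [Nat.card_zmod, Nat.gcd_eq_right hpm] at h1
  refine Eq.trans ?_ h1
  rw [Nat.card_eq_fintype_card, Fintype.card_subtype]
  congr 1
  ext e
  simp [AddMonoidHom.mem_ker, nsmul_eq_mul]

open Classical in
theorem card_fiber (hp : p.Prime) (hpm : p ∣ m) (i : ZMod m) :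
    (Finset.univ.filter fun i' : ZMod m => (p : ZMod m) * i' = p * i).card = p := by
  refine Eq.trans ?_ (card_ker hp hpm)
  symm
  apply Finset.card_equiv (Equiv.addLeft i)
  intro e
  simp only [Finset.mem_filter, Finset.mem_univ, true_and, Equiv.coe_addLeft, mul_add]
  constructor
  · intro h
    rw [h, add_zero]
  · intro h
    simpa using h

open Classical in
theorem dvd_of_periodic (hp : p.Prime) (hpm : p ∣ m) (S : ZMod m → Prop)
    (hS : ∀ a e, (p : ZMod m) * e = 0 → (S (a + e) ↔ S a)) :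
    p ∣ (Finset.univ.filter S).card := by
  rw [Finset.card_eq_sum_card_image (fun a : ZMod m => (p : ZMod m) * a)]
  apply Finset.dvd_sum
  intro u hu
  obtain ⟨a, ha, rfl⟩ := Finset.mem_image.mp hu
  have h1 : ((Finset.univ.filter S).filter fun x => (p : ZMod m) * x = p * a) =
      Finset.univ.filter fun x => (p : ZMod m) * x = p * a := by
    ext x
    simp only [Finset.mem_filter, Finset.mem_univ, true_and, and_iff_right_iff_imp]
    intro hx
    have h2 := hS a (x - a) (by rw [mul_sub, hx, sub_self])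
    rw [add_sub_cancel] at h2
    exact h2.mpr (by simpa using ha)
  rw [h1, card_fiber hp hpm]

open Classical in
theorem fiber_all [hp : Fact p.Prime] (hpm : p ∣ m) (Z : ZMod m → Prop) (i : ZMod m)
    (h : (((Finset.univ.filter fun i' : ZMod m => Z i' ∧ (p : ZMod m) * i' = p * i).card : ℕ) : ZMod p) = 0)
    (e : ZMod m) (he : (p : ZMod m) * e = 0) : Z (i + e) ↔ Z i := by
  rw [ZMod.natCast_eq_zero_iff] at h
  have hsub : (Finset.univ.filter fun i' : ZMod m => Z i' ∧ (p : ZMod m) * i' = p * i) ⊆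
      Finset.univ.filter fun i' : ZMod m => (p : ZMod m) * i' = p * i := by
    intro x hx
    simp only [Finset.mem_filter, Finset.mem_univ, true_and] at hx ⊢
    exact hx.2
  have hle := Finset.card_le_card hsub
  rw [card_fiber hp.out hpm] at hle
  have hei : (p : ZMod m) * (i + e) = p * i := by rw [mul_add, he, add_zero]
  rcases Nat.eq_zero_or_pos (Finset.univ.filter fun i' : ZMod m => Z i' ∧ (p : ZMod m) * i' = p * i).card with h0 | h0
  · rw [Finset.card_eq_zero, Finset.filter_eq_empty_iff] at h0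
    have h1 := h0 (Finset.mem_univ i)
    have h2 := h0 (Finset.mem_univ (i + e))
    constructor
    · intro h3
      exact absurd ⟨h3, hei⟩ h2
    · intro h3
      exact absurd ⟨h3, rfl⟩ h1
  · have h1 := Nat.le_of_dvd h0 h
    have h2 : (Finset.univ.filter fun i' : ZMod m => Z i' ∧ (p : ZMod m) * i' = p * i) =
        Finset.univ.filter fun i' : ZMod m => (p : ZMod m) * i' = p * i := by
      apply Finset.eq_of_subset_of_card_le hsub
      rw [card_fiber hp.out hpm]
      exact h1
    have h3 : i ∈ Finset.univ.filter fun i' : ZMod m => Z i' ∧ (p : ZMod m) * i' = p * i := by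
      rw [h2]; simp
    have h4 : i + e ∈ Finset.univ.filter fun i' : ZMod m => Z i' ∧ (p : ZMod m) * i' = p * i := by
      rw [h2]; simp [hei]
    simp only [Finset.mem_filter, Finset.mem_univ, true_and] at h3 h4
    exact ⟨fun _ => h3.1, fun _ => h4.1⟩

theorem exists_ker (hp : p.Prime) (hpm : p ∣ m) : ∃ e : ZMod m, e ≠ 0 ∧ (p : ZMod m) * e = 0 := by
  have hm : 0 < m := Nat.pos_of_ne_zero (NeZero.ne m)
  obtain ⟨w, rfl⟩ := hpm
  have hw : 0 < w := Nat.pos_of_ne_zero (by
    rintro rfl
    simp at hm)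
  refine ⟨(w : ZMod (p * w)), ?_, ?_⟩
  · intro h
    rw [ZMod.natCast_eq_zero_iff] at h
    have := Nat.le_of_dvd hw h
    have := hp.two_le
    nlinarith
  · have : ((p : ZMod (p * w))) * (w : ZMod (p * w)) = ((p * w : ℕ) : ZMod (p * w)) := by push_cast; ring
    rw [this]
    exact ZMod.natCast_self _

/-- Lifting residues to units. -/
theorem unit_lift (o : ℕ) (ho : o ∣ m) (s : ℕ) (hs : Nat.Coprime s o) :
    ∃ t : (ZMod m)ˣ, ∀ i : ZMod m, (o : ZMod m) * i = 0 → (t : ZMod m) * i = (s : ZMod m) * i := by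
  obtain ⟨t, ht⟩ := ZMod.unitsMap_surjective ho (ZMod.unitOfCoprime s hs)
  refine ⟨t, fun i hi => ?_⟩
  have h1 := congrArg (fun u : (ZMod o)ˣ => (u : ZMod o)) ht
  simp only [ZMod.unitsMap_val, ZMod.coe_unitOfCoprime] at h1
  have h2 : (((t : ZMod m).val : ℕ) : ZMod o) = (s : ZMod o) := by
    rw [← h1, ZMod.natCast_val]
  rw [ZMod.natCast_eq_natCast_iff, Nat.modEq_iff_dvd] at h2
  obtain ⟨k, hk⟩ := h2
  have h3 : ((s : ℤ) : ZMod m) - (((t : ZMod m).val : ℤ) : ZMod m) = (o : ZMod m) * (k : ZMod m) := by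
    have := congrArg (fun z : ℤ => (z : ZMod m)) hk
    simpa using this
  have h4 : (t : ZMod m) = (s : ZMod m) - (o : ZMod m) * (k : ZMod m) := by
    rw [← h3]
    simp
  rw [h4, sub_mul, mul_right_comm, hi]
  simp

/-- Any two nonzero elements of order `p` differ by a unit. -/
theorem ker_trans [hp : Fact p.Prime] (hpm : p ∣ m) {e e' : ZMod m} (he : e ≠ 0) (hep : (p : ZMod m) * e = 0)
    (he' : e' ≠ 0) (hep' : (p : ZMod m) * e' = 0) : ∃ t : (ZMod m)ˣ, (t : ZMod m) * e = e' := by
  have hord : addOrderOf e = p := by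
    apply addOrderOf_eq_prime
    · rw [nsmul_eq_mul]; exact hep
    · exact he
  classical
  have hinj : Set.InjOn (fun n : ℕ => (n : ZMod m) * e) (Finset.range p : Set ℕ) := by
    intro a ha b hb hab
    have h1 := nsmul_injOn_Iio_addOrderOf (x := e)
    rw [hord] at h1
    apply h1
    · simpa using ha
    · simpa using hb
    · simpa [nsmul_eq_mul] using hab
  have hsub : (Finset.range p).image (fun n : ℕ => (n : ZMod m) * e) ⊆
      Finset.univ.filter fun e : ZMod m => (p : ZMod m) * e = 0 := by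
    intro x hx
    obtain ⟨n, _, rfl⟩ := Finset.mem_image.mp hx
    simp only [Finset.mem_filter, Finset.mem_univ, true_and]
    rw [mul_left_comm, hep, mul_zero]
  have heq := Finset.eq_of_subset_of_card_le hsub (by
    rw [card_ker hp.out hpm, Finset.card_image_of_injOn hinj, Finset.card_range])
  have hmem : e' ∈ (Finset.range p).image (fun n : ℕ => (n : ZMod m) * e) := by
    rw [heq]; simpa using hep'
  obtain ⟨n, hn, rfl⟩ := Finset.mem_image.mp hmem
  have hn0 : n ≠ 0 := by
    rintro rfl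
    simp at he'
  have hnlt := Finset.mem_range.mp hn
  have hco : Nat.Coprime n p :=
    ((Nat.Prime.coprime_iff_not_dvd hp.out).mpr (Nat.not_dvd_of_pos_of_lt (Nat.pos_of_ne_zero hn0) hnlt)).symm
  obtain ⟨t, ht⟩ := unit_lift p hpm n hco
  exact ⟨t, ht e hep⟩

end kernel

end Cfsg.Agent.Lib.Char.Dih
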