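import Cfsg.Agent.Lib.Char.DihC

/-!
Invariant sets with periodic reflection part are trivial.
-/

set_option autoImplicit false
set_option linter.unusedSectionVars false
set_option linter.style.haveILetI false

namespace Cfsg.Agent.Lib.Char.Dih

open DihedralGroup MonoidAlgebra

variable {m : ℕ} [NeZero m] {D : Subgroup (Equiv.Perm (DihedralGroup m))}

section frobJ

variable {p : ℕ} [hp : Fact p.Prime]

theorem Bp_sq (hpm : p ∣ m) (V : Set (DihedralGroup m))
    (hper : ∀ j e : ZMod m, (p : ZMod m) * e = 0 → (sr (j + e) ∈ V ↔ sr j ∈ V)) :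
    Bp (ind p V) * Bp (ind p V) = 0 := by
  classical
  apply ext_coeff
  intro c
  cases c with
  | sr j =>
    have := onlyR_mul (onlySR_Bp (ind p V)) (onlySR_Bp (ind p V)) j
    rw [this]
    simp
  | r u =>
    rw [coeff_mul', sum_split]
    have h1 : ∑ i : ZMod m, (Bp (ind p V)).coeff (r i) * (Bp (ind p V)).coeff ((r i)⁻¹ * r u) = 0 :=
      Finset.sum_eq_zero fun i _ => by rw [coeff_Bp_r, zero_mul]
    rw [h1, zero_add]
    have h2 : ∀ a : ZMod m, (Bp (ind p V)).coeff (sr a) * (Bp (ind p V)).coeff ((sr a)⁻¹ * r u) =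
        if (sr a ∈ V ∧ sr (a + u) ∈ V) then 1 else 0 := by
      intro a
      have e1 : (sr a : DihedralGroup m)⁻¹ * r u = sr (a + u) := by simp
      rw [e1, coeff_Bp_sr, coeff_Bp_sr]
      by_cases h3 : sr a ∈ V <;> by_cases h4 : sr (a + u) ∈ V <;> simp [ind, h3, h4]
    rw [Finset.sum_congr rfl (fun a _ => h2 a), Finset.sum_boole]
    have hd := dvd_of_periodic hp.out hpm (fun a : ZMod m => sr a ∈ V ∧ sr (a + u) ∈ V) (by
      intro a e he
      have e2 : a + e + u = (a + u) + e := by ring
      simp only [e2]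
      rw [hper a e he, hper (a + u) e he])
    have hz : (0 : MonoidAlgebra (ZMod p) (DihedralGroup m)).coeff (r u) = 0 := by simp
    rw [hz]
    convert (ZMod.natCast_eq_zero_iff _ _).mpr hd

variable (hC : Ctx D)
include hC

theorem Ctx.frob_J (hpm : p ∣ m) {V : Set (DihedralGroup m)} (hV : Adm D V)
    (hper : ∀ j e : ZMod m, (p : ZMod m) * e = 0 → (sr (j + e) ∈ V ↔ sr j ∈ V)) (i e : ZMod m)
    (hi : (p : ZMod m) * i ≠ 0) (he : (p : ZMod m) * e = 0) : r (i + e) ∈ V ↔ r i ∈ V := by
  classical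
  have hB := Bp_sq hpm V hper
  have hsym := hC.ind_sym p hV
  have hvan : ∀ h : DihedralGroup m, h ≠ 1 → (Dih.mk (ind p V) ^ p).coeff h = 0 := by
    intro h hh
    obtain ⟨j, π, hπ, hj⟩ := hC.exists_sr hh
    have h1 := hC.toSS.cc_pow (ind_cc (q := p) hV) p π hπ h
    rw [← h1, hj, coeff_pow_sr_of _ hsym hB]
  have h2 := hvan (r ((p : ZMod m) * i)) (by
    intro h
    apply hi
    exact DihedralGroup.r.inj h)
  rw [coeff_pow_r_of _ hsym hB] at h2
  apply fiber_all hpm (fun x => r x ∈ V) i _ e he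
  rw [← h2, Finset.card_filter]
  push_cast
  refine Finset.sum_congr rfl fun x _ => ?_
  by_cases h3 : r x ∈ V <;> by_cases h4 : (p : ZMod m) * x = p * i <;> simp [ind, h3, h4]

end frobJ

/-- Invariant sets avoiding the identity with periodic reflection part. -/
structure IP (D : Subgroup (Equiv.Perm (DihedralGroup m))) (p : ℕ) (V : Set (DihedralGroup m)) : Prop where
  adm : Adm D V
  one : (1 : DihedralGroup m) ∉ V
  per : ∀ j e : ZMod m, (p : ZMod m) * e = 0 → (sr (j + e) ∈ V ↔ sr j ∈ V)

/-- The union of images. -/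
def orb (D : Subgroup (Equiv.Perm (DihedralGroup m))) (V : Set (DihedralGroup m)) : Set (DihedralGroup m) :=
  {h | ∃ t : (ZMod m)ˣ, h ∈ img D t V}

section ip

variable {p : ℕ} (hC : Ctx D)
include hC

theorem Ctx.ip_img {V : Set (DihedralGroup m)} (hV : IP D p V) (t : (ZMod m)ˣ) : IP D p (img D t V) :=
  ⟨adm_img t V, hC.one_not_img t hV.adm hV.one, fun j e he =>
    hC.periodic_img t hV.adm e (fun j => hV.per j e he) j⟩

omit hC in
theorem adm_orb (V : Set (DihedralGroup m)) : Adm D (orb D V) := by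
  rintro π hπ x ⟨t, ht⟩
  exact ⟨t, adm_img t V π hπ x ht⟩

theorem Ctx.ip_orb {V : Set (DihedralGroup m)} (hV : IP D p V) : IP D p (orb D V) := by
  refine ⟨adm_orb V, ?_, ?_⟩
  · rintro ⟨t, ht⟩
    exact hC.one_not_img t hV.adm hV.one ht
  · intro j e he
    constructor
    · rintro ⟨t, ht⟩
      exact ⟨t, ((hC.ip_img hV t).per j e he).mp ht⟩
    · rintro ⟨t, ht⟩
      exact ⟨t, ((hC.ip_img hV t).per j e he).mpr ht⟩

omit hC in
theorem IP.inter {V W : Set (DihedralGroup m)} (hV : IP D p V) (hW : IP D p W) : IP D p (V ∩ W) := by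
  refine ⟨adm_inter hV.adm hW.adm, fun h => hV.one h.1, ?_⟩
  intro j e he
  constructor
  · rintro ⟨h1, h2⟩
    exact ⟨(hV.per j e he).mp h1, (hW.per j e he).mp h2⟩
  · rintro ⟨h1, h2⟩
    exact ⟨(hV.per j e he).mpr h1, (hW.per j e he).mpr h2⟩

theorem Ctx.sub_img_one {V : Set (DihedralGroup m)} (hV : Adm D V) (h1 : (1 : DihedralGroup m) ∉ V)
    {h : DihedralGroup m} (hh : h ∈ V) : h ∈ img D 1 V := by
  have hne : h ≠ 1 := fun e => h1 (e ▸ hh)
  obtain ⟨i, _, hi⟩ := hC.exists_r hne
  refine ⟨i, cls_sub hV hh hi, ?_⟩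
  simp only [Units.val_one, one_mul]
  exact cls_symm hi

theorem Ctx.img_one_sub {V : Set (DihedralGroup m)} (hV : Adm D V)
    {h : DihedralGroup m} (hh : h ∈ img D 1 V) : h ∈ V := by
  obtain ⟨i, hi, h2⟩ := hh
  simp only [Units.val_one, one_mul] at h2
  exact cls_sub hV hi h2

theorem Ctx.orb_units {V : Set (DihedralGroup m)} (hV : Adm D V) (s : (ZMod m)ˣ) {i : ZMod m}
    (hi : r i ∈ orb D V) : r ((s : ZMod m) * i) ∈ orb D V := by
  obtain ⟨t, ht⟩ := hi
  refine ⟨s * t, ?_⟩
  rw [hC.img_r _ hV]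
  rw [hC.img_r _ hV] at ht
  have e : (((s * t)⁻¹ : (ZMod m)ˣ) : ZMod m) * ((s : ZMod m) * i) = ((t⁻¹ : (ZMod m)ˣ) : ZMod m) * i := by
    rw [mul_inv_rev, Units.val_mul, mul_assoc, ← mul_assoc _ (s : ZMod m) i]
    simp
  rwa [e]

/-- Invariance under the kernel forces triviality. -/
theorem Ctx.ker_rad {p : ℕ} (hp : p.Prime) (hpm : p ∣ m) {S : Set (DihedralGroup m)} (hS : Adm D S) (hne : S.Nonempty)
    (hsr : ∀ j e : ZMod m, (p : ZMod m) * e = 0 → (sr (j + e) ∈ S ↔ sr j ∈ S))
    (hr : ∀ i e : ZMod m, (p : ZMod m) * e = 0 → (r (i + e) ∈ S ↔ r i ∈ S)) : S = Set.univ := by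
  obtain ⟨e₀, he₀, hpe₀⟩ := exists_ker (m := m) hp hpm
  apply hC.rad hS hne (c := r e₀)
  · intro h
    exact he₀ (DihedralGroup.r.inj h)
  · intro s
    cases s with
    | r i =>
      have e1 : (r e₀ : DihedralGroup m) * r i = r (i + e₀) := by simp [add_comm]
      rw [e1, hr i e₀ hpe₀]
    | sr j =>
      have e1 : (r e₀ : DihedralGroup m) * sr j = sr (j - e₀) := by simp
      rw [e1]
      have := hsr (j - e₀) e₀ hpe₀
      rw [sub_add_cancel] at this
      exact this

end ip

section orbfull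

variable {p : ℕ} [hp : Fact p.Prime] (hC : Ctx D)
include hC

theorem Ctx.orb_full (hpm : p ∣ m) {V : Set (DihedralGroup m)} (hV : IP D p V) (hne : V.Nonempty)
    (h : DihedralGroup m) (hh : h ≠ 1) : h ∈ orb D V := by
  have hO := hC.ip_orb hV
  have hOne : (orb D V).Nonempty := by
    obtain ⟨x, hx⟩ := hne
    exact ⟨x, 1, hC.sub_img_one hV.adm hV.one hx⟩
  by_cases hcase : ∃ e : ZMod m, e ≠ 0 ∧ (p : ZMod m) * e = 0 ∧ r e ∈ orb D V
  · obtain ⟨e, he, hpe, hre⟩ := hcase
    have hall : ∀ e' : ZMod m, e' ≠ 0 → (p : ZMod m) * e' = 0 → r e' ∈ orb D V := by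
      intro e' he' hpe'
      obtain ⟨t, ht⟩ := ker_trans hpm he hpe he' hpe'
      rw [← ht]
      exact hC.orb_units hV.adm t hre
    have hU := hC.ker_rad hp.out hpm (S := orb D V ∪ {1}) (adm_union hO.adm hC.toSS.adm_one)
      (hOne.mono Set.subset_union_left) (by
        intro j e he
        have h1 := hO.per j e he
        constructor
        · rintro (h2 | h2)
          · exact Or.inl (h1.mp h2)
          · cases h2
        · rintro (h2 | h2)
          · exact Or.inl (h1.mpr h2)
          · cases h2) (by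
        intro i e' he'
        by_cases hi : (p : ZMod m) * i = 0
        · have hmem : ∀ x : ZMod m, (p : ZMod m) * x = 0 → r x ∈ orb D V ∪ {1} := by
            intro x hx
            by_cases hx0 : x = 0
            · subst hx0
              exact Or.inr rfl
            · exact Or.inl (hall x hx0 hx)
          exact ⟨fun _ => hmem i hi, fun _ => hmem (i + e') (by rw [mul_add, hi, he', add_zero])⟩
        · have h1 := hC.frob_J hpm hO.adm hO.per i e' hi he'
          have hne1 : ∀ x : ZMod m, (p : ZMod m) * x ≠ 0 → (r x ∈ orb D V ∪ {1} ↔ r x ∈ orb D V) := by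
            intro x hx
            constructor
            · rintro (h2 | h2)
              · exact h2
              · exfalso
                apply hx
                have : x = 0 := DihedralGroup.r.inj h2
                rw [this, mul_zero]
            · exact Or.inl
          rw [hne1 i hi, hne1 (i + e') (by rw [mul_add, he', add_zero]; exact hi)]
          exact h1)
    have hmem : h ∈ orb D V ∪ {1} := by rw [hU]; trivial
    rcases hmem with h2 | h2
    · exact h2
    · exact absurd h2 hh
  · exfalso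
    push Not at hcase
    have hU := hC.ker_rad hp.out hpm hO.adm hOne hO.per (by
      intro i e' he'
      by_cases hi : (p : ZMod m) * i = 0
      · have hnot : ∀ x : ZMod m, (p : ZMod m) * x = 0 → r x ∉ orb D V := by
          intro x hx
          by_cases hx0 : x = 0
          · subst hx0
            exact hO.one
          · exact hcase x hx0 hx
        exact ⟨fun h2 => absurd h2 (hnot _ (by rw [mul_add, hi, he', add_zero])),
          fun h2 => absurd h2 (hnot _ hi)⟩
      · exact hC.frob_J hpm hO.adm hO.per i e' hi he')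
    apply hO.one
    rw [hU]
    trivial

end orbfull

section atom

variable (hC : Ctx D)
include hC

theorem Ctx.atom_count {V : Set (DihedralGroup m)} (hV : Adm D V) (h1 : (1 : DihedralGroup m) ∉ V)
    (hdis : ∀ s t : (ZMod m)ˣ, (img D s V ∩ img D t V).Nonempty → img D s V = img D t V)
    (hfull : ∀ h : DihedralGroup m, h ≠ 1 → h ∈ orb D V) (h : DihedralGroup m) (hh : h ≠ 1) : h ∈ V := by
  classical
  let F0 : Finset (Set (DihedralGroup m)) := Finset.univ.image (fun t : (ZMod m)ˣ => img D t V)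
  have hmem : ∀ W ∈ F0, ∃ t : (ZMod m)ˣ, W = img D t V := by
    intro W hW
    obtain ⟨t, _, rfl⟩ := Finset.mem_image.mp hW
    exact ⟨t, rfl⟩
  have hin : ∀ t : (ZMod m)ˣ, img D t V ∈ F0 := fun t => Finset.mem_image_of_mem _ (Finset.mem_univ t)
  let F : Set (DihedralGroup m) → Finset (ZMod m) := fun W => Finset.univ.filter fun i => r i ∈ W
  let G : Set (DihedralGroup m) → Finset (ZMod m) := fun W => Finset.univ.filter fun i => sr i ∈ W
  have hFd : (F0 : Set (Set (DihedralGroup m))).PairwiseDisjoint F := by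
    intro W hW W' hW' hne
    obtain ⟨s, rfl⟩ := hmem W hW
    obtain ⟨t, rfl⟩ := hmem W' hW'
    rw [Function.onFun, Finset.disjoint_left]
    intro i hi hi'
    simp only [F, Finset.mem_filter, Finset.mem_univ, true_and] at hi hi'
    exact hne (hdis s t ⟨_, hi, hi'⟩)
  have hGd : (F0 : Set (Set (DihedralGroup m))).PairwiseDisjoint G := by
    intro W hW W' hW' hne
    obtain ⟨s, rfl⟩ := hmem W hW
    obtain ⟨t, rfl⟩ := hmem W' hW'
    rw [Function.onFun, Finset.disjoint_left]
    intro i hi hi'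
    simp only [G, Finset.mem_filter, Finset.mem_univ, true_and] at hi hi'
    exact hne (hdis s t ⟨_, hi, hi'⟩)
  have hFc : (F0.biUnion F).card = F0.card * acount V := by
    rw [Finset.card_biUnion hFd, Finset.sum_const_nat (m := acount V)]
    intro W hW
    obtain ⟨t, rfl⟩ := hmem W hW
    exact hC.acount_img t hV
  have hGc : (F0.biUnion G).card = F0.card * bcount V := by
    rw [Finset.card_biUnion hGd, Finset.sum_const_nat (m := bcount V)]
    intro W hW
    obtain ⟨t, rfl⟩ := hmem W hW
    exact hC.bcount_img t hV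
  have hGu : F0.biUnion G = Finset.univ := by
    ext j
    simp only [Finset.mem_biUnion, Finset.mem_univ, iff_true]
    obtain ⟨t, ht⟩ := hfull (sr j) (by intro h; cases h)
    exact ⟨_, hin t, by simpa [G] using ht⟩
  have hFu : F0.biUnion F = Finset.univ.erase 0 := by
    ext i
    simp only [Finset.mem_biUnion, Finset.mem_erase, Finset.mem_univ, and_true]
    constructor
    · rintro ⟨W, hW, hi⟩
      obtain ⟨t, rfl⟩ := hmem W hW
      simp only [F, Finset.mem_filter, Finset.mem_univ, true_and] at hi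
      rintro rfl
      exact hC.one_not_img t hV h1 hi
    · intro hi
      obtain ⟨t, ht⟩ := hfull (r i) (by
        intro h
        exact hi (DihedralGroup.r.inj h))
      exact ⟨_, hin t, by simpa [F] using ht⟩
  have hmc : Fintype.card (ZMod m) = m := ZMod.card m
  have hd1 : F0.card ∣ m := by
    rw [hGu, Finset.card_univ, hmc] at hGc
    exact ⟨_, hGc⟩
  have hd2 : F0.card ∣ m - 1 := by
    rw [hFu, Finset.card_erase_of_mem (Finset.mem_univ _), Finset.card_univ, hmc] at hFc
    exact ⟨_, hFc⟩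
  have hone : F0.card = 1 := by
    have h3 : F0.card ∣ m - (m - 1) := Nat.dvd_sub hd1 hd2
    have h4 : m - (m - 1) = 1 := by
      have := hC.two
      omega
    rw [h4] at h3
    exact Nat.dvd_one.mp h3
  obtain ⟨W, hW⟩ := Finset.card_eq_one.mp hone
  obtain ⟨t, ht⟩ := hfull h hh
  have e1 : img D t V = W := by
    have := hin t
    rw [hW] at this
    exact Finset.mem_singleton.mp this
  have e2 : img D 1 V = W := by
    have := hin 1
    rw [hW] at this
    exact Finset.mem_singleton.mp this
  rw [e1, ← e2] at ht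
  exact hC.img_one_sub hV ht

end atom

section triv

variable {p : ℕ} [hp : Fact p.Prime] (hC : Ctx D)
include hC

theorem Ctx.ip_triv (hpm : p ∣ m) {V : Set (DihedralGroup m)} (hV : IP D p V) (hne : V.Nonempty)
    (h : DihedralGroup m) (hh : h ≠ 1) : h ∈ V := by
  classical
  have hex : ∃ n, ∃ W : Set (DihedralGroup m), IP D p W ∧ W.Nonempty ∧ W.ncard = n := ⟨_, V, hV, hne, rfl⟩
  obtain ⟨W, hW, hWne, hWn⟩ := Nat.find_spec hex
  have hmin : ∀ X : Set (DihedralGroup m), IP D p X → X.Nonempty → W.ncard ≤ X.ncard := by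
    intro X hX hXne
    rw [hWn]
    exact Nat.find_min' hex ⟨X, hX, hXne, rfl⟩
  have hdis : ∀ s t : (ZMod m)ˣ, (img D s W ∩ img D t W).Nonempty → img D s W = img D t W := by
    intro s t hst
    have hI := (hC.ip_img hW s).inter (hC.ip_img hW t)
    have hle := hmin _ hI hst
    have e1 : img D s W ∩ img D t W = img D s W := by
      apply Set.eq_of_subset_of_ncard_le Set.inter_subset_left
      rw [hC.ncard_img s hW.adm]
      exact hle
    have e2 : img D s W ∩ img D t W = img D t W := by
      apply Set.eq_of_subset_of_ncard_le Set.inter_subset_right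
      rw [hC.ncard_img t hW.adm]
      exact hle
    rw [← e1, e2]
  have hWfull := hC.atom_count hW.adm hW.one hdis (hC.orb_full hpm hW hWne)
  have hWV : W.ncard ≤ V.ncard := hmin V hV hne
  have hsub : V ⊆ W := by
    intro x hx
    exact hWfull x (fun e => hV.one (e ▸ hx))
  have e : V = W := Set.eq_of_subset_of_ncard_le hsub hWV
  rw [e]
  exact hWfull h hh

/-- Class-constant functions with periodic values on reflections are constant off the identity. -/
theorem Ctx.level (hpm : p ∣ m) (X : DihedralGroup m → ℕ)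
    (hX : ∀ π ∈ D, ∀ h, X (π h) = X h)
    (hper : ∀ j e : ZMod m, (p : ZMod m) * e = 0 → X (sr (j + e)) = X (sr j))
    (h h' : DihedralGroup m) (hh : h ≠ 1) (hh' : h' ≠ 1) : X h = X h' := by
  have hI : IP D p {y | y ≠ 1 ∧ X y = X h} := by
    refine ⟨?_, fun h => h.1 rfl, ?_⟩
    · rintro π hπ x ⟨h1, h2⟩
      refine ⟨?_, by rw [hX π hπ]; exact h2⟩
      intro h3
      apply h1
      have := hC.fix1 π hπ
      exact π.injective (h3.trans this.symm)
    · intro j e he
      have e1 : ∀ a : ZMod m, (sr a : DihedralGroup m) ≠ 1 := by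
        intro a h
        cases h
      show (sr (j + e) ≠ 1 ∧ X (sr (j + e)) = X h) ↔ (sr j ≠ 1 ∧ X (sr j) = X h)
      rw [hper j e he]
      simp [e1]
  have := hC.ip_triv hpm hI ⟨h, hh, rfl⟩ h' hh'
  exact this.2.symm

end triv

end Cfsg.Agent.Lib.Char.Dih
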