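import Cfsg.Agent.Lib.Char.DihD

/-!
The numerical contradiction for sets with periodic rotation part.
-/

set_option autoImplicit false
set_option linter.unusedSectionVars false
set_option linter.style.haveILetI false

namespace Cfsg.Agent.Lib.Char.Dih

open Finset

variable {m : ℕ} [NeZero m]

/-- Convolution of the rotation part. -/
noncomputable def JJ (A : ZMod m → ℤ) (u : ZMod m) : ℤ := ∑ i, A i * A (u - i)

/-- Correlation of the reflection part. -/
noncomputable def II (B : ZMod m → ℤ) (u : ZMod m) : ℤ := ∑ i, B i * B (i + u)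

/-- The mixed term. -/
noncomputable def RS (A B : ZMod m → ℤ) (j : ZMod m) : ℤ :=
  ∑ i, A i * B (j + i) + ∑ i, B i * A (j - i)

/-- The numerical data. -/
structure Num (A B : ZMod m → ℤ) (p : ℕ) (c : ℤ) : Prop where
  A01 : ∀ i, A i = 0 ∨ A i = 1
  B01 : ∀ i, B i = 0 ∨ B i = 1
  sym : ∀ i, A (-i) = A i
  per : ∀ i e : ZMod m, (p : ZMod m) * e = 0 → A (i + e) = A i
  c1 : ∀ u : ZMod m, u ≠ 0 → JJ A u + II B u = c
  c2 : ∀ j : ZMod m, RS A B j = c
  a1 : 1 ≤ ∑ i, A i
  a2 : ∑ i, A i ≤ (m : ℤ) - 1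
  b1 : 1 ≤ ∑ i, B i
  b2 : ∑ i, B i ≤ (m : ℤ) - 1

theorem zs_add_right (F : ZMod m → ℤ) (x : ZMod m) : ∑ j, F (j + x) = ∑ j, F j :=
  Equiv.sum_comp (Equiv.addRight x) F

theorem zs_add_left (F : ZMod m → ℤ) (x : ZMod m) : ∑ j, F (x + j) = ∑ j, F j :=
  Equiv.sum_comp (Equiv.addLeft x) F

theorem zs_sub_right (F : ZMod m → ℤ) (x : ZMod m) : ∑ j, F (j - x) = ∑ j, F j :=
  Equiv.sum_comp (Equiv.subRight x) F

theorem zs_compl (X Y : ZMod m → ℤ) :
    ∑ i, (1 - X i) * (1 - Y i) = (m : ℤ) - ∑ i, X i - ∑ i, Y i + ∑ i, X i * Y i := by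
  have h : ∀ i, (1 - X i) * (1 - Y i) = 1 - X i - Y i + X i * Y i := fun i => by ring
  simp only [h]
  rw [sum_add_distrib, sum_sub_distrib, sum_sub_distrib]
  simp [ZMod.card]

theorem zs_range (F : ZMod m → ℤ) : ∑ i : ZMod m, F i = ∑ n ∈ range m, F (n : ZMod m) := by
  symm
  apply Finset.sum_nbij' (fun n : ℕ => (n : ZMod m)) (fun i : ZMod m => i.val)
  · intros
    simp
  · intro i _
    simp [ZMod.val_lt]
  · intro n hn
    exact ZMod.val_natCast_of_lt (Finset.mem_range.mp hn)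
  · intro i _
    simp
  · intros
    rfl

theorem sum_JJ (A : ZMod m → ℤ) : ∑ u, JJ A u = (∑ i, A i) ^ 2 := by
  unfold JJ
  rw [Finset.sum_comm, sq, Finset.sum_mul]
  refine Finset.sum_congr rfl fun i _ => ?_
  rw [← Finset.mul_sum, zs_sub_right A i]

theorem sum_II (B : ZMod m → ℤ) : ∑ u, II B u = (∑ i, B i) ^ 2 := by
  unfold II
  rw [Finset.sum_comm, sq, Finset.sum_mul]
  refine Finset.sum_congr rfl fun i _ => ?_
  rw [← Finset.mul_sum, zs_add_left B i]

section basic

variable {A B : ZMod m → ℤ} {p : ℕ} {c : ℤ} (h : Num A B p c)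
include h

theorem Num.mc : (m : ℤ) * c = 2 * (∑ i, A i) * (∑ i, B i) := by
  have e1 : ∑ j : ZMod m, ∑ i : ZMod m, A i * B (j + i) = (∑ i, A i) * ∑ j, B j := by
    rw [Finset.sum_comm, Finset.sum_mul]
    refine Finset.sum_congr rfl fun i _ => ?_
    rw [← Finset.mul_sum, zs_add_right B i]
  have e2 : ∑ j : ZMod m, ∑ i : ZMod m, B i * A (j - i) = (∑ i, B i) * ∑ j, A j := by
    rw [Finset.sum_comm, Finset.sum_mul]
    refine Finset.sum_congr rfl fun i _ => ?_
    rw [← Finset.mul_sum, zs_sub_right A i]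
  have e3 : ∑ j : ZMod m, RS A B j = (m : ℤ) * c := by
    rw [Finset.sum_congr rfl (fun j _ => h.c2 j), Finset.sum_const, Finset.card_univ, ZMod.card, nsmul_eq_mul]
  have e4 : ∑ j : ZMod m, RS A B j = ∑ j : ZMod m, ∑ i : ZMod m, A i * B (j + i) +
      ∑ j : ZMod m, ∑ i : ZMod m, B i * A (j - i) := Finset.sum_add_distrib
  rw [e4, e1, e2] at e3
  linarith

theorem Num.JJ_zero : JJ A 0 = ∑ i, A i := by
  unfold JJ
  refine Finset.sum_congr rfl fun i _ => ?_
  rw [zero_sub, h.sym]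
  rcases h.A01 i with x | x <;> rw [x] <;> norm_num

theorem Num.II_zero : II B 0 = ∑ i, B i := by
  unfold II
  refine Finset.sum_congr rfl fun i _ => ?_
  rw [add_zero]
  rcases h.B01 i with x | x <;> rw [x] <;> norm_num

theorem Num.sumU : (∑ i, A i) + (∑ i, B i) + ((m : ℤ) - 1) * c = (∑ i, A i) ^ 2 + (∑ i, B i) ^ 2 := by
  have e1 : ∑ u, (JJ A u + II B u) = (∑ i, A i) ^ 2 + (∑ i, B i) ^ 2 := by
    rw [sum_add_distrib, sum_JJ, sum_II]
  have e2 := Finset.add_sum_erase Finset.univ (fun u => JJ A u + II B u) (Finset.mem_univ (0 : ZMod m))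
  have e3 : ∑ u ∈ (Finset.univ : Finset (ZMod m)).erase 0, (JJ A u + II B u) = ((m : ℤ) - 1) * c := by
    rw [Finset.sum_congr rfl (fun u hu => h.c1 u (Finset.ne_of_mem_erase hu)), Finset.sum_const,
      Finset.card_erase_of_mem (Finset.mem_univ _), Finset.card_univ, ZMod.card, nsmul_eq_mul]
    have h1 : 1 ≤ m := NeZero.one_le
    rw [Nat.cast_sub h1, Nat.cast_one]
  rw [h.JJ_zero, h.II_zero, e3, e1] at e2
  exact e2

theorem Num.c_eq : c = (∑ i, A i) + (∑ i, B i) - ((∑ i, A i) - (∑ i, B i)) ^ 2 := by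
  have h1 := h.mc
  have h2 := h.sumU
  nlinarith

theorem Num.II_ker {e : ZMod m} (he0 : e ≠ 0) (hpe : (p : ZMod m) * e = 0) : II B e = c - ∑ i, A i := by
  have h1 := h.c1 e he0
  have h2 : JJ A e = ∑ i, A i := by
    unfold JJ
    refine Finset.sum_congr rfl fun i _ => ?_
    have e1 : e - i = -i + e := by ring
    rw [e1, h.per _ _ hpe, h.sym]
    rcases h.A01 i with x | x <;> rw [x] <;> norm_num
  linarith

theorem Num.B_nonneg (i : ZMod m) : 0 ≤ B i := by
  rcases h.B01 i with x | x <;> rw [x] <;> norm_num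

theorem Num.II_nonneg (u : ZMod m) : 0 ≤ II B u :=
  Finset.sum_nonneg fun i _ => mul_nonneg (h.B_nonneg i) (h.B_nonneg _)

theorem Num.cauchy (hp : p.Prime) (hpm : p ∣ m) :
    (p : ℤ) * (∑ i, B i) ^ 2 ≤ m * ((∑ i, B i) + ((p : ℤ) - 1) * (c - ∑ i, A i)) := by
  classical
  set K := (Finset.univ.filter fun e : ZMod m => (p : ZMod m) * e = 0) with hK
  have hKc : K.card = p := card_ker hp hpm
  let f : ZMod m → ℤ := fun i => ∑ e ∈ K, B (i + e)
  have s1 : ∑ i, f i = p * ∑ i, B i := by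
    simp only [f]
    rw [Finset.sum_comm, Finset.sum_congr rfl (fun e _ => zs_add_right B e), Finset.sum_const, hKc, nsmul_eq_mul]
  have shift : ∀ e e' : ZMod m, ∑ i, B (i + e) * B (i + e') = II B (e' - e) := by
    intro e e'
    unfold II
    rw [← zs_add_right (fun i => B i * B (i + (e' - e))) e]
    refine Finset.sum_congr rfl fun i _ => ?_
    have : i + e + (e' - e) = i + e' := by ring
    rw [this]
  have inner : ∀ e ∈ K, ∑ e' ∈ K, II B (e' - e) = (∑ i, B i) + ((p : ℤ) - 1) * (c - ∑ i, A i) := by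
    intro e he
    rw [← Finset.add_sum_erase K _ he, sub_self, h.II_zero]
    congr 1
    have hpe : (p : ZMod m) * e = 0 := (Finset.mem_filter.mp he).2
    have hh : ∀ e' ∈ K.erase e, II B (e' - e) = c - ∑ i, A i := by
      intro e' he'
      have h1 := Finset.ne_of_mem_erase he'
      have h2 : (p : ZMod m) * e' = 0 := (Finset.mem_filter.mp (Finset.mem_erase.mp he').2).2
      exact h.II_ker (sub_ne_zero.mpr h1) (by rw [mul_sub, h2, hpe, sub_zero])
    rw [Finset.sum_congr rfl hh, Finset.sum_const, Finset.card_erase_of_mem he, hKc, nsmul_eq_mul,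
      Nat.cast_sub hp.one_le, Nat.cast_one]
  have s2 : ∑ i, (f i) ^ 2 = p * ((∑ i, B i) + ((p : ℤ) - 1) * (c - ∑ i, A i)) := by
    have h1 : ∀ i, (f i) ^ 2 = ∑ e ∈ K, ∑ e' ∈ K, B (i + e) * B (i + e') := by
      intro i
      simp only [f]
      rw [sq, Finset.sum_mul_sum]
    rw [Finset.sum_congr rfl (fun i _ => h1 i), Finset.sum_comm]
    have h2 : ∀ e ∈ K, ∑ i, ∑ e' ∈ K, B (i + e) * B (i + e') =
        (∑ i, B i) + ((p : ℤ) - 1) * (c - ∑ i, A i) := by
      intro e he
      rw [Finset.sum_comm, Finset.sum_congr rfl (fun e' _ => shift e e'), inner e he]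
    rw [Finset.sum_congr rfl h2, Finset.sum_const, hKc, nsmul_eq_mul]
  have hcs := sq_sum_le_card_mul_sum_sq (s := Finset.univ) (f := f)
  rw [s1, s2, Finset.card_univ, ZMod.card] at hcs
  have hp0 : (0 : ℤ) < p := by exact_mod_cast hp.pos
  apply le_of_mul_le_mul_left _ hp0
  nlinarith

end basic

section arith

theorem arith_common {a b c M P : ℤ} (hmc : M * c = 2 * a * b)
    (hC : P * b ^ 2 ≤ M * (b + (P - 1) * (c - a))) (ha1 : 1 ≤ a) (hb1 : 1 ≤ b) (hM : 0 < M) :
    P * b * c ≤ 2 * a * (b + (P - 1) * (c - a)) := by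
  have hab : 0 < a * b := mul_pos (by omega) (by omega)
  have hcpos : 0 < c := by
    by_contra hn
    push Not at hn
    have := mul_nonpos_of_nonneg_of_nonpos hM.le hn
    nlinarith
  have h1 := mul_le_mul_of_nonneg_right hC hcpos.le
  have h2 : M * (b + (P - 1) * (c - a)) * c = b * (2 * a * (b + (P - 1) * (c - a))) := by
    calc M * (b + (P - 1) * (c - a)) * c = (M * c) * (b + (P - 1) * (c - a)) := by ring
      _ = _ := by rw [hmc]; ring
  rw [h2] at h1
  have h3 : b * (P * b * c) ≤ b * (2 * a * (b + (P - 1) * (c - a))) := by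
    have : b * (P * b * c) = P * b ^ 2 * c := by ring
    rw [this]
    exact h1
  exact le_of_mul_le_mul_left h3 (by omega)

theorem arith_eq {a M : ℤ} (hmc : M * (a + a - (a - a) ^ 2) = 2 * a * a) (ha1 : 1 ≤ a) (ha2 : a ≤ M - 1) : False := by
  have h1 : 0 < a * (M - a) := mul_pos (by omega) (by omega)
  nlinarith

theorem arith_gt {b t c M P : ℤ} (hmc : M * c = 2 * (b + t) * b) (hc : c = b + t + b - (b + t - b) ^ 2)
    (hK : P * b * c ≤ 2 * (b + t) * (b + (P - 1) * (c - (b + t)))) (ha2 : b + t ≤ M - 1) (hb1 : 1 ≤ b)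
    (ht : 1 ≤ t) (hP : 3 ≤ P) : False := by
  subst hc
  have e0 : (b + t - b) ^ 2 = t ^ 2 := by ring
  rw [e0] at hmc hK
  have hX : t * (b * ((P - 2) * t - P) + 2 * t ^ 2 * (P - 1)) ≤ 0 := by nlinarith [hK]
  have hX' : b * ((P - 2) * t - P) + 2 * t ^ 2 * (P - 1) ≤ 0 := by
    by_contra hn
    push Not at hn
    have := mul_pos (show (0 : ℤ) < t by omega) hn
    linarith
  have htt : 0 < t ^ 2 := by positivity
  have hY : (P - 2) * t - P < 0 := by
    by_contra hn
    push Not at hn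
    have h1 := mul_nonneg (show (0 : ℤ) ≤ b by omega) hn
    have h2 : 0 < 2 * t ^ 2 * (P - 1) := by
      apply mul_pos (by omega) (by omega)
    linarith
  have ht2 : t ≤ 2 := by
    by_contra hn
    push Not at hn
    nlinarith
  have hcases : t = 1 ∨ t = 2 := by omega
  rcases hcases with rfl | rfl
  · have h1 : 0 < b * (M - b - 1) := mul_pos (by omega) (by omega)
    nlinarith
  · have hP3 : P = 3 := by
      have : P < 4 := by linarith
      omega
    subst hP3
    have hb16 : 16 ≤ b := by nlinarith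
    have h3 : (b - 1) * (M - b - 3) = 3 := by nlinarith
    have h15 : 15 ≤ b - 1 := by omega
    by_cases hy : 1 ≤ M - b - 3
    · nlinarith
    · have : M - b - 3 ≤ 0 := by omega
      nlinarith

theorem arith_lt {b τ c P : ℤ} (hc : c = b - τ + b - (b - τ - b) ^ 2)
    (hK : P * b * c ≤ 2 * (b - τ) * (b + (P - 1) * (c - (b - τ)))) (hb : (b - τ - b) ^ 2 ≤ b)
    (ha1 : 1 ≤ b - τ) (hτ : 1 ≤ τ) (hP : 3 ≤ P) : False := by
  subst hc
  have e0 : (b - τ - b) ^ 2 = τ ^ 2 := by ring
  rw [e0] at hK hb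
  have hZ : τ * (b * ((P - 2) * τ + P) - 2 * τ ^ 2 * (P - 1)) ≤ 0 := by nlinarith [hK]
  have hZ' : b * ((P - 2) * τ + P) - 2 * τ ^ 2 * (P - 1) ≤ 0 := by
    by_contra hn
    push Not at hn
    have := mul_pos (show (0 : ℤ) < τ by omega) hn
    linarith
  by_cases h2 : 2 ≤ τ
  · have hpos : 0 ≤ (P - 2) * τ + P := by nlinarith
    have h1 := mul_le_mul_of_nonneg_right hb hpos
    have h3 : τ ^ 2 * ((P - 2) * τ + P) ≤ τ ^ 2 * (2 * (P - 1)) := by linarith
    have htt : 0 < τ ^ 2 := by positivity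
    have h4 := le_of_mul_le_mul_left h3 htt
    nlinarith
  · have : τ = 1 := by omega
    subst this
    nlinarith

theorem arith_two {b τ c M : ℤ} (hmc : M * c = 2 * (b - τ) * b) (hc : c = b - τ + b - (b - τ - b) ^ 2)
    (hK : 2 * b * c ≤ 2 * (b - τ) * (b + (2 - 1) * (c - (b - τ)))) (hb : (b - τ - b) ^ 2 ≤ b)
    (ha1 : 1 ≤ b - τ) (hτ : 1 ≤ τ) : b = τ ^ 2 ∧ M = 2 * b ∧ c = b - τ ∧ 2 ≤ τ := by
  subst hc
  have e0 : (b - τ - b) ^ 2 = τ ^ 2 := by ring
  rw [e0] at hK hb hmc
  have hZ : τ * (b * ((2 - 2) * τ + 2) - 2 * τ ^ 2 * (2 - 1)) ≤ 0 := by nlinarith [hK]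
  have hZ' : b * ((2 - 2) * τ + 2) - 2 * τ ^ 2 * (2 - 1) ≤ 0 := by
    by_contra hn
    push Not at hn
    have := mul_pos (show (0 : ℤ) < τ by omega) hn
    linarith
  have hb2 : b = τ ^ 2 := by nlinarith
  have hc2 : b - τ + b - τ ^ 2 = b - τ := by linarith
  rw [hc2] at hmc
  refine ⟨hb2, ?_, by rw [e0]; exact hc2, ?_⟩
  · have h1 : (b - τ) * (M - 2 * b) = 0 := by linarith
    rcases mul_eq_zero.mp h1 with h2 | h2
    · omega
    · omega
  · by_contra hn
    have : τ = 1 := by omega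
    subst this
    rw [hb2] at ha1
    norm_num at ha1

end arith

section compl

variable {A B : ZMod m → ℤ} {p : ℕ} {c : ℤ}

theorem Num.compl (h : Num A B p c) :
    Num (fun i => 1 - A i) (fun i => 1 - B i) p
      (2 * (m : ℤ) - 2 * (∑ i, A i) - 2 * (∑ i, B i) + c) := by
  have hsA : ∑ i, (1 - A i) = (m : ℤ) - ∑ i, A i := by
    rw [sum_sub_distrib]
    simp [ZMod.card]
  have hsB : ∑ i, (1 - B i) = (m : ℤ) - ∑ i, B i := by
    rw [sum_sub_distrib]
    simp [ZMod.card]
  refine ⟨?_, ?_, ?_, ?_, ?_, ?_, ?_, ?_, ?_, ?_⟩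
  · intro i
    rcases h.A01 i with x | x <;> rw [x] <;> norm_num
  · intro i
    rcases h.B01 i with x | x <;> rw [x] <;> norm_num
  · intro i
    simp only [h.sym]
  · intro i e he
    simp only [h.per i e he]
  · intro u hu
    have h1 := h.c1 u hu
    have e1 : JJ (fun i => 1 - A i) u = (m : ℤ) - ∑ i, A i - ∑ i, A i + JJ A u := by
      unfold JJ
      rw [zs_compl A (fun i => A (u - i))]
      rw [show ∑ i, A (u - i) = ∑ i, A i from Equiv.sum_comp (Equiv.subLeft u) A]
    have e2 : II (fun i => 1 - B i) u = (m : ℤ) - ∑ i, B i - ∑ i, B i + II B u := by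
      unfold II
      rw [zs_compl B (fun i => B (i + u))]
      rw [zs_add_right B u]
    rw [e1, e2]
    linarith
  · intro j
    have h1 := h.c2 j
    have e1 : RS (fun i => 1 - A i) (fun i => 1 - B i) j =
        (m : ℤ) - ∑ i, A i - ∑ i, B i + ((m : ℤ) - ∑ i, B i - ∑ i, A i) + RS A B j := by
      unfold RS
      rw [zs_compl A (fun i => B (j + i)), zs_compl B (fun i => A (j - i)), zs_add_left B j]
      rw [show ∑ i, A (j - i) = ∑ i, A i from Equiv.sum_comp (Equiv.subLeft j) A]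
      ring
    rw [e1]
    linarith
  · rw [hsA]
    linarith [h.a2]
  · rw [hsA]
    linarith [h.a1]
  · rw [hsB]
    linarith [h.b2]
  · rw [hsB]
    linarith [h.b1]

end compl

section two

variable {A B : ZMod m → ℤ} {c : ℤ}

theorem Num.false_two (h : Num A B 2 c) (h2m : 2 ∣ m) (hlt : ∑ i, A i < ∑ i, B i) : False := by
  have hmc := h.mc
  have hc := h.c_eq
  have hcau := h.cauchy Nat.prime_two h2m
  obtain ⟨e₀, he₀, hpe₀⟩ := exists_ker (m := m) Nat.prime_two h2m
  have hEE := h.II_ker he₀ hpe₀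
  have hb0 := h.II_nonneg e₀
  set a := ∑ i, A i with ha
  set b := ∑ i, B i with hb
  have hm0 : (0 : ℤ) < m := by exact_mod_cast Nat.pos_of_ne_zero (NeZero.ne m)
  have hK := arith_common hmc (by exact_mod_cast hcau) h.a1 h.b1 hm0
  obtain ⟨τ, hτ⟩ : ∃ τ, a = b - τ := ⟨b - a, by ring⟩
  have hτ1 : 1 ≤ τ := by omega
  rw [hτ] at hmc hc hK hEE
  have hba : (b - τ - b) ^ 2 ≤ b := by
    rw [hc] at hEE
    linarith
  have ha1 : 1 ≤ b - τ := by
    have := h.a1
    omega
  obtain ⟨hbτ, hMb, hca, hτ2⟩ := arith_two hmc hc (by exact_mod_cast hK) hba ha1 hτ1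
  -- the half
  have hb1 := h.b1
  have hbnn : 0 ≤ b := by omega
  obtain ⟨N, hN⟩ : ∃ N : ℕ, (N : ℤ) = b := ⟨b.toNat, Int.toNat_of_nonneg hbnn⟩
  have hmN : m = N + N := by
    have : (m : ℤ) = N + N := by rw [hMb, hN]; ring
    exact_mod_cast this
  have hN4 : 4 ≤ N := by
    have : (4 : ℤ) ≤ N := by
      rw [hN, hbτ]
      nlinarith
    exact_mod_cast this
  set g : ZMod m := (N : ZMod m) with hg
  have hg2 : ∀ i : ZMod m, i + g + g = i := by
    intro i
    have h1 : g + g = 0 := by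
      have : ((N + N : ℕ) : ZMod m) = 0 := by
        rw [← hmN]
        exact ZMod.natCast_self m
      rw [hg]
      exact_mod_cast this
    rw [add_assoc, h1, add_zero]
  have hg0 : g ≠ 0 := by
    intro h0
    rw [hg, ZMod.natCast_eq_zero_iff] at h0
    have := Nat.le_of_dvd (by omega) h0
    omega
  have hpg : ((2 : ℕ) : ZMod m) * g = 0 := by
    have h1 := hg2 0
    rw [zero_add] at h1
    have : g + g = 0 := by
      have e2 := hg2 0
      rw [zero_add] at e2
      exact e2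
    push_cast
    rw [two_mul]
    exact this
  have hIIg : II B g = 0 := by
    rw [h.II_ker hg0 hpg, ← ha, hτ, hca]
    ring
  have hprod : ∀ i, B i * B (i + g) = 0 := by
    intro i
    have h1 := (Finset.sum_eq_zero_iff_of_nonneg (fun i _ => mul_nonneg (h.B_nonneg i) (h.B_nonneg _))).mp hIIg
    exact h1 i (Finset.mem_univ i)
  have hsum1 : ∀ i, B (i + g) = 1 - B i := by
    have hle : ∀ i, 0 ≤ 1 - (B i + B (i + g)) := by
      intro i
      have h1 := hprod i
      rcases h.B01 i with x | x <;> rcases h.B01 (i + g) with y | y <;> simp [x, y] at h1 ⊢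
    have htot : ∑ i, (1 - (B i + B (i + g))) = 0 := by
      rw [sum_sub_distrib, sum_add_distrib, zs_add_right B g, ← hb]
      simp only [sum_const, Finset.card_univ, ZMod.card, nsmul_eq_mul, mul_one]
      rw [hMb]
      ring
    intro i
    have h1 := (Finset.sum_eq_zero_iff_of_nonneg (fun i _ => hle i)).mp htot
    have h2 := h1 i (Finset.mem_univ i)
    linarith
  have hone0 : (1 : ZMod m) ≠ 0 := by
    intro h0
    have : ((1 : ℕ) : ZMod m) = 0 := by exact_mod_cast h0
    rw [ZMod.natCast_eq_zero_iff] at this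
    have := Nat.le_of_dvd (by omega) this
    omega
  have hone1 : (1 : ZMod m) + g ≠ 0 := by
    intro h0
    have h1 : (1 : ZMod m) + g + ((1 : ZMod m) + g) = 0 := by rw [h0, add_zero]
    have h2 := hg2 1
    have h3 : ((2 : ℕ) : ZMod m) = 0 := by
      push_cast
      calc (2 : ZMod m) = ((1 : ZMod m) + g + g) + 1 := by rw [h2]; norm_num
        _ = (1 : ZMod m) + g + ((1 : ZMod m) + g) := by ring
        _ = 0 := h1
    rw [ZMod.natCast_eq_zero_iff] at h3
    have := Nat.le_of_dvd (by omega) h3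
    omega
  have hJ : JJ A (1 + g) = JJ A 1 := by
    unfold JJ
    refine Finset.sum_congr rfl fun i _ => ?_
    have e1 : (1 : ZMod m) + g - i = (1 - i) + g := by ring
    rw [e1, h.per _ _ hpg]
  have hIIeq : II B (1 + g) = II B 1 := by
    have h1 := h.c1 1 hone0
    have h2 := h.c1 (1 + g) hone1
    linarith
  have hIIsum : II B 1 + II B (1 + g) = b := by
    unfold II
    rw [← sum_add_distrib, hb]
    refine Finset.sum_congr rfl fun i _ => ?_
    have e1 : i + (1 + g) = (i + 1) + g := by ring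
    rw [e1, hsum1 (i + 1)]
    ring
  have h2II : 2 * II B 1 = b := by linarith
  -- parity
  let w : ℕ → ℤ := fun n => B (n : ZMod m)
  have hw : ∀ n, w (N + n) = 1 - w n := by
    intro n
    simp only [w]
    rw [← hsum1 (n : ZMod m), hg]
    congr 1
    push_cast
    ring
  have hII1 : II B 1 = ∑ n ∈ range (N + N), w n * w (n + 1) := by
    unfold II
    rw [zs_range, ← hmN]
    refine Finset.sum_congr rfl fun n _ => ?_
    simp only [w, Nat.cast_add, Nat.cast_one]
  rw [Finset.sum_range_add] at hII1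
  have hsplit : ∑ n ∈ range N, w (N + n) * w (N + n + 1) =
      ∑ n ∈ range N, (1 - w n) * (1 - w (n + 1)) := by
    refine Finset.sum_congr rfl fun n _ => ?_
    rw [hw n, add_assoc, hw (n + 1)]
  rw [hsplit] at hII1
  have hexp : ∑ n ∈ range N, (1 - w n) * (1 - w (n + 1)) =
      (N : ℤ) - ∑ n ∈ range N, w n - ∑ n ∈ range N, w (n + 1) + ∑ n ∈ range N, w n * w (n + 1) := by
    have : ∀ n, (1 - w n) * (1 - w (n + 1)) = 1 - w n - w (n + 1) + w n * w (n + 1) := fun n => by ring
    simp only [this]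
    rw [sum_add_distrib, sum_sub_distrib, sum_sub_distrib]
    simp
  have htel : ∑ n ∈ range N, w (n + 1) = ∑ n ∈ range N, w n + w N - w 0 := by
    have h1 := Finset.sum_range_succ w N
    have h2 := Finset.sum_range_succ' w N
    linarith
  have hw0 : w N = 1 - w 0 := by
    have := hw 0
    rwa [add_zero] at this
  rw [hexp, htel, hw0] at hII1
  have hfin : τ ^ 2 = 4 * (∑ n ∈ range N, w n - ∑ n ∈ range N, w n * w (n + 1) - w 0) + 2 := by
    rw [← hbτ, ← h2II]
    have : (N : ℤ) = b := hN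
    rw [this] at hII1
    linarith
  rcases Int.even_or_odd' τ with ⟨k, hk | hk⟩
  · rw [hk] at hfin
    have e2 : 4 * (k ^ 2 - (∑ n ∈ range N, w n - ∑ n ∈ range N, w n * w (n + 1) - w 0)) = 2 := by
      linarith
    omega
  · rw [hk] at hfin
    have e2 : 4 * (k ^ 2 + k - (∑ n ∈ range N, w n - ∑ n ∈ range N, w n * w (n + 1) - w 0)) = 1 := by
      linarith
    omega

end two

theorem Num.false {A B : ZMod m → ℤ} {p : ℕ} {c : ℤ} (h : Num A B p c) (hp : p.Prime) (hpm : p ∣ m) : False := by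
  by_cases hp2 : p = 2
  · subst hp2
    rcases lt_trichotomy (∑ i, A i) (∑ i, B i) with hlt | heq | hgt
    · exact h.false_two hpm hlt
    · have hmc := h.mc
      have hc := h.c_eq
      rw [← heq] at hmc hc
      rw [hc] at hmc
      exact arith_eq hmc h.a1 h.a2
    · apply h.compl.false_two hpm
      have e1 : ∑ i, (1 - A i) = (m : ℤ) - ∑ i, A i := by
        rw [sum_sub_distrib]
        simp [ZMod.card]
      have e2 : ∑ i, (1 - B i) = (m : ℤ) - ∑ i, B i := by
        rw [sum_sub_distrib]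
        simp [ZMod.card]
      rw [e1, e2]
      linarith
  · have hp3 : (3 : ℤ) ≤ p := by
      have := hp.two_le
      have : 3 ≤ p := by omega
      exact_mod_cast this
    have hmc := h.mc
    have hc := h.c_eq
    have hcau := h.cauchy hp hpm
    obtain ⟨e₀, he₀, hpe₀⟩ := exists_ker (m := m) hp hpm
    have hEE := h.II_ker he₀ hpe₀
    have hb0 := h.II_nonneg e₀
    have hm0 : (0 : ℤ) < m := by exact_mod_cast Nat.pos_of_ne_zero (NeZero.ne m)
    have hK := arith_common hmc hcau h.a1 h.b1 hm0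
    have ha2 := h.a2
    have hb1 := h.b1
    have ha1 := h.a1
    set a := ∑ i, A i with ha
    set b := ∑ i, B i with hb
    have hba : (a - b) ^ 2 ≤ b := by
      rw [hc] at hEE
      linarith
    rcases lt_trichotomy a b with hlt | heq | hgt
    · obtain ⟨τ, hτ⟩ : ∃ τ, a = b - τ := ⟨b - a, by ring⟩
      rw [hτ] at hc hK hba ha1
      exact arith_lt hc hK hba ha1 (by omega) hp3
    · rw [← heq] at hmc hc
      rw [hc] at hmc
      exact arith_eq hmc ha1 ha2
    · obtain ⟨t, ht⟩ : ∃ t, a = b + t := ⟨a - b, by ring⟩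
      rw [ht] at hc hK hmc ha2
      exact arith_gt hmc hc hK ha2 hb1 (by omega) hp3

end Cfsg.Agent.Lib.Char.Dih
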