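import Cfsg.Agent.Lib.Char.DihE

/-!
Transitivity on nonidentity elements.
-/

set_option autoImplicit false
set_option linter.unusedSectionVars false
set_option linter.style.haveILetI false

namespace Cfsg.Agent.Lib.Char.Dih

open DihedralGroup MonoidAlgebra

variable {m : ℕ} [NeZero m] {D : Subgroup (Equiv.Perm (DihedralGroup m))}

open Classical in
/-- Rotation indicator. -/
noncomputable def Ai (U : Set (DihedralGroup m)) (i : ZMod m) : ℤ := if r i ∈ U then 1 else 0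

open Classical in
/-- Reflection indicator. -/
noncomputable def Bi (U : Set (DihedralGroup m)) (i : ZMod m) : ℤ := if sr i ∈ U then 1 else 0

theorem cnt_r (U : Set (DihedralGroup m)) (u : ZMod m) :
    ((cnt U U (r u) : ℕ) : ℤ) = JJ (Ai U) u + II (Bi U) u := by
  classical
  unfold cnt JJ II
  rw [Finset.card_filter]
  push_cast
  rw [sum_split]
  congr 1
  · refine Finset.sum_congr rfl fun i _ => ?_
    have e : (r i : DihedralGroup m)⁻¹ * r u = r (u - i) := by simp [sub_eq_neg_add]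
    rw [e]
    by_cases h1 : r i ∈ U <;> by_cases h2 : r (u - i) ∈ U <;> simp [Ai, h1, h2]
  · refine Finset.sum_congr rfl fun i _ => ?_
    have e : (sr i : DihedralGroup m)⁻¹ * r u = sr (i + u) := by simp
    rw [e]
    by_cases h1 : sr i ∈ U <;> by_cases h2 : sr (i + u) ∈ U <;> simp [Bi, h1, h2]

theorem cnt_sr (U : Set (DihedralGroup m)) (j : ZMod m) :
    ((cnt U U (sr j) : ℕ) : ℤ) = RS (Ai U) (Bi U) j := by
  classical
  unfold cnt RS
  rw [Finset.card_filter]
  push_cast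
  rw [sum_split]
  congr 1
  · refine Finset.sum_congr rfl fun i _ => ?_
    have e : (r i : DihedralGroup m)⁻¹ * sr j = sr (j + i) := by simp
    rw [e]
    by_cases h1 : r i ∈ U <;> by_cases h2 : sr (j + i) ∈ U <;> simp [Ai, Bi, h1, h2]
  · refine Finset.sum_congr rfl fun i _ => ?_
    have e : (sr i : DihedralGroup m)⁻¹ * sr j = r (j - i) := by simp
    rw [e]
    by_cases h1 : sr i ∈ U <;> by_cases h2 : r (j - i) ∈ U <;> simp [Ai, Bi, h1, h2]

theorem zs_le (F : ZMod m → ℤ) (hF : ∀ i, F i = 0 ∨ F i = 1) (i₀ : ZMod m) (h0 : F i₀ = 0) :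
    ∑ i, F i ≤ (m : ℤ) - 1 := by
  rw [← Finset.add_sum_erase Finset.univ F (Finset.mem_univ i₀), h0, zero_add]
  calc ∑ i ∈ Finset.univ.erase i₀, F i ≤ ∑ i ∈ Finset.univ.erase i₀, (1 : ℤ) :=
        Finset.sum_le_sum (fun i _ => by rcases hF i with x | x <;> rw [x] <;> norm_num)
    _ = (m : ℤ) - 1 := by
        rw [Finset.sum_const, Finset.card_erase_of_mem (Finset.mem_univ _), Finset.card_univ, ZMod.card,
          nsmul_eq_mul, mul_one, Nat.cast_sub (NeZero.one_le), Nat.cast_one]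

theorem zs_ge (F : ZMod m → ℤ) (hF : ∀ i, F i = 0 ∨ F i = 1) (i₀ : ZMod m) (h1 : F i₀ = 1) :
    1 ≤ ∑ i, F i := by
  have := Finset.single_le_sum (f := F) (s := Finset.univ)
    (fun i _ => by rcases hF i with x | x <;> rw [x] <;> norm_num) (Finset.mem_univ i₀)
  rwa [h1] at this

theorem Ai01 (U : Set (DihedralGroup m)) (i : ZMod m) : Ai U i = 0 ∨ Ai U i = 1 := by
  unfold Ai
  split_ifs <;> simp

theorem Bi01 (U : Set (DihedralGroup m)) (i : ZMod m) : Bi U i = 0 ∨ Bi U i = 1 := by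
  unfold Bi
  split_ifs <;> simp

theorem Ai_congr {U : Set (DihedralGroup m)} {i i' : ZMod m} (h : r i ∈ U ↔ r i' ∈ U) : Ai U i = Ai U i' := by
  by_cases h1 : r i ∈ U
  · have h2 := h.mp h1
    simp [Ai, h1, h2]
  · have h2 : r i' ∉ U := fun x => h1 (h.mpr x)
    simp [Ai, h1, h2]

section U

variable (hC : Ctx D)
include hC

theorem Ctx.U_false {p : ℕ} (hp : p.Prime) (hpm : p ∣ m) {U : Set (DihedralGroup m)} (hU : Adm D U)
    (hJ : ∀ i e : ZMod m, (p : ZMod m) * e = 0 → (r (i + e) ∈ U ↔ r i ∈ U))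
    {i₁ j₁ i₂ j₂ : ZMod m} (h1 : r i₁ ∈ U) (h2 : sr j₁ ∈ U) (h3 : r i₂ ∉ U) (h4 : sr j₂ ∉ U) : False := by
  haveI : Fact p.Prime := ⟨hp⟩
  have hperA : ∀ i e : ZMod m, (p : ZMod m) * e = 0 → Ai U (i + e) = Ai U i :=
    fun i e he => Ai_congr (hJ i e he)
  have hRS : ∀ j e : ZMod m, (p : ZMod m) * e = 0 → RS (Ai U) (Bi U) (j + e) = RS (Ai U) (Bi U) j := by
    intro j e he
    unfold RS
    congr 1
    · rw [← zs_add_right (fun i => Ai U i * Bi U (j + e + i)) (-e)]
      refine Finset.sum_congr rfl fun i _ => ?_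
      have e1 : j + e + (i + -e) = j + i := by ring
      have e2 : Ai U (i + -e) = Ai U i := by
        have := hperA (i + -e) e he
        rw [neg_add_cancel_right] at this
        exact this.symm
      simp only [e1, e2]
    · refine Finset.sum_congr rfl fun i _ => ?_
      have e1 : j + e - i = (j - i) + e := by ring
      rw [e1, hperA _ _ he]
  have hX1 : ∀ j e : ZMod m, (p : ZMod m) * e = 0 → cnt U U (sr (j + e)) = cnt U U (sr j) := by
    intro j e he
    have := hRS j e he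
    rw [← cnt_sr, ← cnt_sr] at this
    exact_mod_cast this
  have hconst := hC.level (p := p) hpm (cnt U U) (fun π hπ h => hC.toSS.cnt_inv hU hU hπ h) hX1
  have hne : (sr 0 : DihedralGroup m) ≠ 1 := by
    intro h
    cases h
  have hnum : Num (Ai U) (Bi U) p (cnt U U (sr 0)) := by
    refine ⟨Ai01 U, Bi01 U, ?_, hperA, ?_, ?_, ?_, ?_, ?_, ?_⟩
    · intro i
      apply Ai_congr
      constructor
      · intro h
        have := hC.inv_mem hU h
        simpa using this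
      · intro h
        have := hC.inv_mem hU h
        simpa using this
    · intro u hu
      rw [← cnt_r]
      have := hconst (r u) (sr 0) (fun h => hu (DihedralGroup.r.inj h)) hne
      exact_mod_cast this
    · intro j
      rw [← cnt_sr]
      have := hconst (sr j) (sr 0) (by intro h; cases h) hne
      exact_mod_cast this
    · exact zs_ge _ (Ai01 U) i₁ (by simp [Ai, h1])
    · exact zs_le _ (Ai01 U) i₂ (by simp [Ai, h3])
    · exact zs_ge _ (Bi01 U) j₁ (by simp [Bi, h2])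
    · exact zs_le _ (Bi01 U) j₂ (by simp [Bi, h4])
  exact hnum.false hp hpm

theorem Ctx.num_full {p : ℕ} [hp : Fact p.Prime] (hpm : p ∣ m) {V : Set (DihedralGroup m)} (hV : Adm D V)
    (h1 : (1 : DihedralGroup m) ∉ V) (hne : V.Nonempty)
    (hunits : ∀ (s : (ZMod m)ˣ) (i : ZMod m), r i ∈ V → r ((s : ZMod m) * i) ∈ V)
    (hper : ∀ i e : ZMod m, (p : ZMod m) * i ≠ 0 → (p : ZMod m) * e = 0 → (r (i + e) ∈ V ↔ r i ∈ V))
    (h : DihedralGroup m) (hh : h ≠ 1) : h ∈ V := by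
  classical
  by_contra hnot
  have hW : Adm D {y : DihedralGroup m | y ≠ 1 ∧ y ∉ V} := by
    rintro π hπ x ⟨h2, h3⟩
    refine ⟨?_, fun h4 => h3 ((hV.iff hπ x).mp h4)⟩
    intro h4
    apply h2
    exact π.injective (h4.trans (hC.fix1 π hπ).symm)
  obtain ⟨x, hx⟩ := hne
  have hx1 : x ≠ 1 := fun e => h1 (e ▸ hx)
  obtain ⟨i₁, _, hi₁⟩ := hC.exists_r_of hV hx hx1
  obtain ⟨j₁, hj₁⟩ := hC.exists_sr_of hV hx hx1
  obtain ⟨i₂, _, hi₂⟩ := hC.exists_r_of hW (x := h) ⟨hh, hnot⟩ hh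
  obtain ⟨j₂, hj₂⟩ := hC.exists_sr_of hW (x := h) ⟨hh, hnot⟩ hh
  by_cases hcase : ∃ e : ZMod m, e ≠ 0 ∧ (p : ZMod m) * e = 0 ∧ r e ∈ V
  · obtain ⟨e, he, hpe, hre⟩ := hcase
    have hall : ∀ e' : ZMod m, e' ≠ 0 → (p : ZMod m) * e' = 0 → r e' ∈ V := by
      intro e' he' hpe'
      obtain ⟨t, ht⟩ := ker_trans hpm he hpe he' hpe'
      rw [← ht]
      exact hunits t _ hre
    refine hC.U_false hp.out hpm (U := V ∪ {1}) (adm_union hV hC.toSS.adm_one) ?_
      (Or.inl hi₁) (Or.inl hj₁) (i₂ := i₂) (j₂ := j₂) ?_ ?_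
    · intro i e' he'
      by_cases hi : (p : ZMod m) * i = 0
      · have hmem : ∀ x : ZMod m, (p : ZMod m) * x = 0 → r x ∈ V ∪ {1} := by
          intro x hx
          by_cases hx0 : x = 0
          · subst hx0
            exact Or.inr rfl
          · exact Or.inl (hall x hx0 hx)
        exact ⟨fun _ => hmem i hi, fun _ => hmem (i + e') (by rw [mul_add, hi, he', add_zero])⟩
      · have h2 := hper i e' hi he'
        have hne1 : ∀ x : ZMod m, (p : ZMod m) * x ≠ 0 → (r x ∈ V ∪ {1} ↔ r x ∈ V) := by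
          intro x hx
          constructor
          · rintro (h2 | h2)
            · exact h2
            · exfalso
              apply hx
              have : x = 0 := DihedralGroup.r.inj h2
              rw [this, mul_zero]
          · exact Or.inl
        rw [hne1 i hi, hne1 (i + e') (by rw [mul_add, he', add_zero]; exact hi)]
        exact h2
    · rintro (h2 | h2)
      · exact hi₂.2 h2
      · exact hi₂.1 h2
    · rintro (h2 | h2)
      · exact hj₂.2 h2
      · exact hj₂.1 h2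
  · push Not at hcase
    refine hC.U_false hp.out hpm hV ?_ hi₁ hj₁ hi₂.2 hj₂.2
    intro i e' he'
    by_cases hi : (p : ZMod m) * i = 0
    · have hnot : ∀ x : ZMod m, (p : ZMod m) * x = 0 → r x ∉ V := by
        intro x hx
        by_cases hx0 : x = 0
        · subst hx0
          exact h1
        · exact hcase x hx0 hx
      exact ⟨fun h2 => absurd h2 (hnot _ (by rw [mul_add, hi, he', add_zero])),
        fun h2 => absurd h2 (hnot _ hi)⟩
    · exact hper i e' hi he'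

omit hC in
theorem cls_eq_of {a b y : DihedralGroup m} (h1 : y ∈ cls D a) (h2 : y ∈ cls D b) : cls D a = cls D b := by
  apply Set.Subset.antisymm
  · apply cls_sub (adm_cls b)
    exact cls_sub (adm_cls b) h2 (cls_symm h1)
  · apply cls_sub (adm_cls a)
    exact cls_sub (adm_cls a) h1 (cls_symm h2)

theorem Ctx.img_cls (t : (ZMod m)ˣ) {x₀ : DihedralGroup m} {i₀ : ZMod m} (hi₀ : r i₀ ∈ cls D x₀) :
    img D t (cls D x₀) = cls D (r ((t : ZMod m) * i₀)) := by
  apply Set.Subset.antisymm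
  · rintro h ⟨i, hi, hh⟩
    have h1 : r i ∈ cls D (r i₀) := cls_sub (adm_cls _) (cls_symm hi₀) hi
    have h2 := hC.preserve t i₀ i h1
    exact cls_sub (adm_cls _) h2 hh
  · intro h hh
    exact ⟨i₀, hi₀, hh⟩

theorem Ctx.full_of_per {p : ℕ} [hp : Fact p.Prime] (hpm : p ∣ m) (x₀ : DihedralGroup m) (hx₀ : x₀ ≠ 1)
    (hper : ∀ i e : ZMod m, (p : ZMod m) * i ≠ 0 → (p : ZMod m) * e = 0 →
      (r (i + e) ∈ orb D (cls D x₀) ↔ r i ∈ orb D (cls D x₀)))
    (h : DihedralGroup m) (hh : h ≠ 1) : h ∈ cls D x₀ := by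
  have hT := adm_cls (D := D) x₀
  have h1T : (1 : DihedralGroup m) ∉ cls D x₀ := by
    rintro ⟨π, hπ, he⟩
    apply hx₀
    exact π.injective (he.trans (hC.fix1 π hπ).symm)
  have hV : Adm D (orb D (cls D x₀)) := adm_orb _
  have h1V : (1 : DihedralGroup m) ∉ orb D (cls D x₀) := by
    rintro ⟨t, ht⟩
    exact hC.one_not_img t hT h1T ht
  have hneV : (orb D (cls D x₀)).Nonempty := ⟨x₀, 1, hC.sub_img_one hT h1T (self_mem_cls x₀)⟩
  have hfull := hC.num_full hpm hV h1V hneV (fun s i hi => hC.orb_units hT s hi) hper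
  obtain ⟨i₀, _, hi₀⟩ := hC.exists_r hx₀
  refine hC.atom_count hT h1T ?_ hfull h hh
  rintro s t ⟨y, hy1, hy2⟩
  rw [hC.img_cls s hi₀] at hy1 ⊢
  rw [hC.img_cls t hi₀] at hy2 ⊢
  exact cls_eq_of hy1 hy2

theorem Ctx.orb_per {p : ℕ} {T : Set (DihedralGroup m)} (hT : Adm D T)
    (hper : ∀ i e : ZMod m, (p : ZMod m) * i ≠ 0 → (p : ZMod m) * e = 0 → (r (i + e) ∈ T ↔ r i ∈ T))
    (i e : ZMod m) (hi : (p : ZMod m) * i ≠ 0) (he : (p : ZMod m) * e = 0) :
    r (i + e) ∈ orb D T ↔ r i ∈ orb D T := by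
  have key : ∀ t : (ZMod m)ˣ, r (i + e) ∈ img D t T ↔ r i ∈ img D t T := by
    intro t
    rw [hC.img_r t hT, hC.img_r t hT, mul_add]
    apply hper
    · intro h
      apply hi
      have e1 : (t : ZMod m) * ((t⁻¹ : (ZMod m)ˣ) : ZMod m) = 1 := Units.mul_inv t
      calc (p : ZMod m) * i = (p : ZMod m) * (((t : ZMod m) * ((t⁻¹ : (ZMod m)ˣ) : ZMod m)) * i) := by
            rw [e1, one_mul]
        _ = (t : ZMod m) * ((p : ZMod m) * (((t⁻¹ : (ZMod m)ˣ) : ZMod m) * i)) := by ring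
        _ = 0 := by rw [h, mul_zero]
    · rw [mul_left_comm, he, mul_zero]
  constructor
  · rintro ⟨t, ht⟩
    exact ⟨t, (key t).mp ht⟩
  · rintro ⟨t, ht⟩
    exact ⟨t, (key t).mpr ht⟩

end U

/-- The subgroup generated by the rotations in a class. -/
def Nn (D : Subgroup (Equiv.Perm (DihedralGroup m))) (x : DihedralGroup m) : AddSubgroup (ZMod m) :=
  AddSubgroup.closure {i | r i ∈ cls D x}

theorem card_map_lt {q : ℕ} [hq : Fact q.Prime] (N : AddSubgroup (ZMod m)) (hd : q ∣ Nat.card N) :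
    Nat.card (N.map (nsmulAddMonoidHom (α := ZMod m) q)) < Nat.card N := by
  by_contra hn
  push Not at hn
  obtain ⟨x, hx⟩ := exists_prime_addOrderOf_dvd_card' (G := N) q hd
  let g : N → N.map (nsmulAddMonoidHom (α := ZMod m) q) :=
    fun z => ⟨q • (z : ZMod m), AddSubgroup.mem_map_of_mem _ z.2⟩
  have hg : Function.Surjective g := by
    rintro ⟨y, z, hz, rfl⟩
    exact ⟨⟨z, hz⟩, rfl⟩
  have hb := hg.bijective_of_nat_card_le hn
  have hx0 : x = 0 := by
    apply hb.1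
    apply Subtype.ext
    show q • (x : ZMod m) = q • ((0 : N) : ZMod m)
    have h1 : q • x = 0 := by
      rw [← hx]
      exact addOrderOf_nsmul_eq_zero x
    have h2 := congrArg (fun z : N => (z : ZMod m)) h1
    simpa using h2
  rw [hx0, addOrderOf_zero] at hx
  exact hq.out.one_lt.ne hx

section main

variable (hC : Ctx D)
include hC

theorem Ctx.van_odd {q : ℕ} [hq : Fact q.Prime] (hq2 : q ≠ 2) (x₀ : DihedralGroup m)
    (hqd : q ∣ Nat.card (Nn D x₀)) (hmin : ∀ h : DihedralGroup m, h ≠ 1 → Nat.card (Nn D x₀) ≤ Nat.card (Nn D h))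
    (h : DihedralGroup m) (hh : h ≠ 1) : (Dih.mk (ind q (cls D x₀)) ^ q).coeff h = 0 := by
  classical
  by_contra hne
  have hT := adm_cls (D := D) x₀
  have hsub : Nn D h ≤ (Nn D x₀).map (nsmulAddMonoidHom (α := ZMod m) q) := by
    rw [Nn, AddSubgroup.closure_le]
    rintro u ⟨π, hπ, he⟩
    have h1 := hC.toSS.cc_pow (ind_cc (q := q) hT) q π hπ h
    rw [he] at h1
    have h2 : (Dih.mk (ind q (cls D x₀)) ^ q).coeff (r u) ≠ 0 := by
      rw [h1]
      exact hne
    rw [coeff_pow_r hq2 _ (hC.ind_sym q hT)] at h2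
    obtain ⟨i, _, hi⟩ := Finset.exists_ne_zero_of_sum_ne_zero h2
    by_cases hqi : (q : ZMod m) * i = u
    · rw [if_pos hqi] at hi
      have hiT : r i ∈ cls D x₀ := by
        by_contra hn
        exact hi (by simp [ind, hn])
      refine ⟨i, AddSubgroup.subset_closure hiT, ?_⟩
      simp [nsmul_eq_mul, hqi]
    · rw [if_neg hqi] at hi
      exact absurd rfl hi
  have h1 := AddSubgroup.card_le_of_le hsub
  have h2 := hmin h hh
  have h3 := card_map_lt (q := q) (Nn D x₀) hqd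
  omega

theorem Ctx.per_odd {q : ℕ} [hq : Fact q.Prime] (hq2 : q ≠ 2) (hqm : q ∣ m) (x₀ : DihedralGroup m)
    (hvan : ∀ h : DihedralGroup m, h ≠ 1 → (Dih.mk (ind q (cls D x₀)) ^ q).coeff h = 0)
    (i e : ZMod m) (hi : (q : ZMod m) * i ≠ 0) (he : (q : ZMod m) * e = 0) :
    r (i + e) ∈ cls D x₀ ↔ r i ∈ cls D x₀ := by
  classical
  have hT := adm_cls (D := D) x₀
  have h2 := hvan (r ((q : ZMod m) * i)) (by
    intro h
    exact hi (DihedralGroup.r.inj h))
  rw [coeff_pow_r hq2 _ (hC.ind_sym q hT)] at h2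
  apply fiber_all hqm (fun x => r x ∈ cls D x₀) i _ e he
  rw [← h2, Finset.card_filter]
  push_cast
  refine Finset.sum_congr rfl fun x _ => ?_
  by_cases h3 : r x ∈ cls D x₀ <;> by_cases h4 : (q : ZMod m) * x = q * i <;> simp [ind, h3, h4]

omit hC in
theorem two_unit (h2m : 2 ∣ m) (i e : ZMod m) (k : ℕ) (hk : (2 ^ k) • i = 0)
    (hi : ((2 : ℕ) : ZMod m) * i ≠ 0) (he0 : e ≠ 0) (he : ((2 : ℕ) : ZMod m) * e = 0) :
    ∃ s : (ZMod m)ˣ, (s : ZMod m) * i = i + e := by
  classical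
  have hex : ∃ l : ℕ, (2 ^ l) • i = 0 := ⟨k, hk⟩
  have hl := Nat.find_spec hex
  have hi2 : (2 : ℕ) • i ≠ 0 := by
    rw [nsmul_eq_mul]
    exact hi
  obtain ⟨n, hn⟩ : ∃ n, Nat.find hex = n + 1 := by
    cases h : Nat.find hex with
    | zero =>
      rw [h] at hl
      exfalso
      apply hi2
      simp only [pow_zero, one_smul] at hl
      rw [hl, smul_zero]
    | succ n => exact ⟨n, rfl⟩
  have hnot : ¬ (2 ^ n) • i = 0 := Nat.find_min hex (by omega)
  rw [hn] at hl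
  have hord : addOrderOf i = 2 ^ (n + 1) := addOrderOf_eq_prime_pow hnot hl
  have hdvd : 2 ^ (n + 1) ∣ m := by
    have := addOrderOf_dvd_natCard i
    rwa [hord, Nat.card_zmod] at this
  obtain ⟨n', rfl⟩ : ∃ n', n = n' + 1 := by
    cases n with
    | zero =>
      exfalso
      apply hi2
      simpa using hl
    | succ n' => exact ⟨n', rfl⟩
  set e' : ZMod m := (2 ^ (n' + 1)) • i with he'
  have hpe' : ((2 : ℕ) : ZMod m) * e' = 0 := by
    rw [he', ← nsmul_eq_mul, smul_smul, ← pow_succ']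
    exact hl
  have hee : e' = e := by
    by_contra hne
    have h1 : 2 < (Finset.univ.filter fun x : ZMod m => ((2 : ℕ) : ZMod m) * x = 0).card := by
      rw [Finset.two_lt_card]
      exact ⟨0, Finset.mem_filter.mpr ⟨Finset.mem_univ _, mul_zero _⟩, e, Finset.mem_filter.mpr ⟨Finset.mem_univ _, he⟩,
        e', Finset.mem_filter.mpr ⟨Finset.mem_univ _, hpe'⟩, he0.symm, fun h => hnot h.symm, fun h => hne h.symm⟩
    rw [card_ker Nat.prime_two h2m] at h1
    omega
  have hco : Nat.Coprime (1 + 2 ^ (n' + 1)) (2 ^ (n' + 1 + 1)) := by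
    apply Nat.Coprime.pow_right
    apply Nat.Coprime.symm
    rw [Nat.Prime.coprime_iff_not_dvd Nat.prime_two, pow_succ]
    omega
  obtain ⟨t, ht⟩ := unit_lift (2 ^ (n' + 1 + 1)) hdvd (1 + 2 ^ (n' + 1)) hco
  refine ⟨t, ?_⟩
  have hzero : ((2 ^ (n' + 1 + 1) : ℕ) : ZMod m) * i = 0 := by
    rw [← nsmul_eq_mul]
    exact hl
  rw [ht i hzero, ← hee, he']
  push_cast
  rw [nsmul_eq_mul]
  push_cast
  ring

theorem Ctx.per_two (h2m : 2 ∣ m) (x₀ : DihedralGroup m) (k : ℕ) (hk : Nat.card (Nn D x₀) = 2 ^ k)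
    (i e : ZMod m) (hi : ((2 : ℕ) : ZMod m) * i ≠ 0) (he : ((2 : ℕ) : ZMod m) * e = 0) :
    r (i + e) ∈ orb D (cls D x₀) ↔ r i ∈ orb D (cls D x₀) := by
  by_cases he0 : e = 0
  · rw [he0, add_zero]
  have hT := adm_cls (D := D) x₀
  have hF : ∀ z : ZMod m, r z ∈ orb D (cls D x₀) → (2 ^ k) • z = 0 := by
    rintro z ⟨t, ht⟩
    rw [hC.img_r t hT] at ht
    have hmem : ((t⁻¹ : (ZMod m)ˣ) : ZMod m) * z ∈ Nn D x₀ := AddSubgroup.subset_closure ht
    have h1 := card_nsmul_eq_zero' (x := (⟨_, hmem⟩ : Nn D x₀))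
    rw [hk] at h1
    have h2 := congrArg (fun w : Nn D x₀ => (w : ZMod m)) h1
    simp only [AddSubgroup.coe_nsmul, AddSubgroup.coe_zero] at h2
    rw [nsmul_eq_mul] at h2 ⊢
    have e1 : (t : ZMod m) * ((t⁻¹ : (ZMod m)ˣ) : ZMod m) = 1 := Units.mul_inv t
    calc ((2 ^ k : ℕ) : ZMod m) * z = ((2 ^ k : ℕ) : ZMod m) * (((t : ZMod m) * ((t⁻¹ : (ZMod m)ˣ) : ZMod m)) * z) := by
          rw [e1, one_mul]
      _ = (t : ZMod m) * (((2 ^ k : ℕ) : ZMod m) * (((t⁻¹ : (ZMod m)ˣ) : ZMod m) * z)) := by ring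
      _ = 0 := by rw [h2, mul_zero]
  have aux : ∀ z : ZMod m, ((2 : ℕ) : ZMod m) * z ≠ 0 → r z ∈ orb D (cls D x₀) → r (z + e) ∈ orb D (cls D x₀) := by
    intro z hz hzm
    obtain ⟨s, hs⟩ := two_unit h2m z e k (hF z hzm) hz he0 he
    rw [← hs]
    exact hC.orb_units hT s hzm
  constructor
  · intro h
    have h2 := aux (i + e) (by rw [mul_add, he, add_zero]; exact hi) h
    have e2 : i + e + e = i := by
      have : e + e = 0 := by
        have := he
        push_cast at this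
        rw [two_mul] at this
        exact this
      rw [add_assoc, this, add_zero]
    rwa [e2] at h2
  · exact aux i hi

theorem Ctx.full_of_min (x₀ : DihedralGroup m) (hx₀ : x₀ ≠ 1)
    (hmin : ∀ h : DihedralGroup m, h ≠ 1 → Nat.card (Nn D x₀) ≤ Nat.card (Nn D h))
    (h : DihedralGroup m) (hh : h ≠ 1) : h ∈ cls D x₀ := by
  have hdm : Nat.card (Nn D x₀) ∣ m := by
    have := AddSubgroup.card_addSubgroup_dvd_card (Nn D x₀)
    rwa [Nat.card_zmod] at this
  have hne1 : Nat.card (Nn D x₀) ≠ 1 := by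
    intro h1
    obtain ⟨i, hi0, hi⟩ := hC.exists_r hx₀
    have hs := (Nat.card_eq_one_iff_unique.mp h1).1
    have hmem : i ∈ Nn D x₀ := AddSubgroup.subset_closure hi
    have := Subsingleton.elim (⟨i, hmem⟩ : Nn D x₀) 0
    exact hi0 (congrArg Subtype.val this)
  rcases Nat.eq_two_pow_or_exists_odd_prime_and_dvd (Nat.card (Nn D x₀)) with ⟨k, hk⟩ | ⟨q, hq, hqd, hqodd⟩
  · have h2m : 2 ∣ m := by
      have hk0 : k ≠ 0 := by
        rintro rfl
        exact hne1 (by simpa using hk)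
      exact (dvd_pow_self 2 hk0).trans (hk ▸ hdm)
    exact hC.full_of_per (p := 2) h2m x₀ hx₀ (fun i e hi he => hC.per_two h2m x₀ k hk i e hi he) h hh
  · haveI : Fact q.Prime := ⟨hq⟩
    have hqm : q ∣ m := hqd.trans hdm
    have hq2 : q ≠ 2 := by
      rintro rfl
      exact absurd hqodd (by decide)
    have hvan := hC.van_odd hq2 x₀ hqd hmin
    exact hC.full_of_per (p := q) hqm x₀ hx₀
      (fun i e hi he => hC.orb_per (adm_cls x₀) (fun i e hi he => hC.per_odd hq2 hqm x₀ hvan i e hi he) i e hi he) h hh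

/-- The main theorem on the combinatorial side. -/
theorem Ctx.main (x y : DihedralGroup m) (hx : x ≠ 1) (hy : y ≠ 1) : y ∈ cls D x := by
  classical
  have hex : ∃ n, ∃ x : DihedralGroup m, x ≠ 1 ∧ Nat.card (Nn D x) = n :=
    ⟨_, sr 0, (by intro h; cases h), rfl⟩
  obtain ⟨x₀, hx₀, hdx₀⟩ := Nat.find_spec hex
  have hmin : ∀ h : DihedralGroup m, h ≠ 1 → Nat.card (Nn D x₀) ≤ Nat.card (Nn D h) := by
    intro h hh
    rw [hdx₀]
    exact Nat.find_min' hex ⟨h, hh, rfl⟩
  have h1 := hC.full_of_min x₀ hx₀ hmin x hx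
  have h2 := hC.full_of_min x₀ hx₀ hmin y hy
  exact cls_sub (adm_cls x) (cls_symm h1) h2

end main

end Cfsg.Agent.Lib.Char.Dih
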