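import Cfsg.Agent.Lib.Char.DihF

/-!
From regular dihedral subgroups of primitive groups to the combinatorial setting.
-/

set_option autoImplicit false
set_option linter.unusedSectionVars false
set_option linter.style.haveILetI false

namespace Cfsg.Agent.Lib.Char.Dih

open DihedralGroup

section br

variable {G Ω : Type*} [Group G] [MulAction G Ω] {m : ℕ} (τ : DihedralGroup m →* G) (ω : Ω)

/-- Permutations induced by the point stabilizer. -/
def stabPerm : Subgroup (Equiv.Perm (DihedralGroup m)) where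
  carrier := {π | ∃ g : G, g • ω = ω ∧ ∀ y, τ (π y) • ω = g • (τ y • ω)}
  one_mem' := ⟨1, one_smul _ _, fun y => by simp⟩
  mul_mem' := by
    rintro π₁ π₂ ⟨g₁, h₁, h₁'⟩ ⟨g₂, h₂, h₂'⟩
    refine ⟨g₁ * g₂, by rw [mul_smul, h₂, h₁], fun y => ?_⟩
    rw [Equiv.Perm.mul_apply, h₁', h₂', mul_smul]
  inv_mem' := by
    rintro π ⟨g, h, h'⟩
    refine ⟨g⁻¹, by rw [inv_smul_eq_iff, h], fun y => ?_⟩
    rw [eq_inv_smul_iff, ← h' (π⁻¹ y)]
    simp

variable {τ ω} (hbij : Function.Bijective (fun h : DihedralGroup m => τ h • ω))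
include hbij

theorem exists_perm (g : G) (hg : g • ω = ω) :
    ∃ π ∈ stabPerm τ ω, ∀ y, τ (π y) • ω = g • (τ y • ω) := by
  let β : DihedralGroup m ≃ Ω := Equiv.ofBijective _ hbij
  let π : Equiv.Perm (DihedralGroup m) := (β.trans (MulAction.toPerm g)).trans β.symm
  have key : ∀ y, τ (π y) • ω = g • (τ y • ω) := by
    intro y
    exact β.apply_symm_apply (g • (τ y • ω))
  exact ⟨π, ⟨g, hg, key⟩, key⟩

theorem ctx_of (h2 : 2 ≤ m) (hprim : MulAction.IsPreprimitive G Ω) : Ctx (stabPerm τ ω) := by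
  refine { fix1 := ?_, shift := ?_, two := h2, prim := ?_ }
  · rintro π ⟨g, hg, hπ⟩
    apply hbij.1
    show τ (π 1) • ω = τ 1 • ω
    rw [hπ, map_one, one_smul, hg]
  · rintro π ⟨g, hg, hπ⟩ t
    have hg₁ : ((τ (π t))⁻¹ * g * τ t) • ω = ω := by
      rw [mul_smul, mul_smul, ← hπ t, inv_smul_smul]
    obtain ⟨π', hπ'mem, hπ'⟩ := exists_perm hbij _ hg₁
    refine ⟨π', hπ'mem, fun y => hbij.1 ?_⟩
    show τ (π' y) • ω = τ ((π t)⁻¹ * π (t * y)) • ω
    rw [hπ', map_mul, map_inv, mul_smul (τ (π t))⁻¹, hπ (t * y), map_mul, mul_smul (τ t),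
      mul_smul, mul_smul]
  · intro K hK
    have hB : MulAction.IsBlock G {b : Ω | ∃ k ∈ K, τ k • ω = b} := by
      rw [MulAction.isBlock_iff_smul_eq_of_nonempty]
      intro g hne
      obtain ⟨_, ⟨b₁, ⟨k₁, hk₁, rfl⟩, rfl⟩, ⟨k₂, hk₂, hb₂⟩⟩ := hne
      obtain ⟨h₀, hh₀⟩ := hbij.2 (g • ω)
      have hh₀' : τ h₀ • ω = g • ω := hh₀
      have hg₀ : ((τ h₀)⁻¹ * g) • ω = ω := by
        rw [mul_smul, ← hh₀', inv_smul_smul]
      obtain ⟨π, hπmem, hπ⟩ := exists_perm hbij _ hg₀
      have hform : ∀ y, g • (τ y • ω) = τ (h₀ * π y) • ω := by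
        intro y
        rw [map_mul, mul_smul, hπ, mul_smul, smul_inv_smul]
      have hh₀K : h₀ ∈ K := by
        have h1 : τ k₂ • ω = τ (h₀ * π k₁) • ω := by
          rw [← hform]
          exact hb₂
        have h2 : k₂ = h₀ * π k₁ := hbij.1 h1
        have h3 : π k₁ ∈ K := hK π hπmem k₁ hk₁
        have h4 : h₀ = k₂ * (π k₁)⁻¹ := by
          rw [h2]
          group
        rw [h4]
        exact K.mul_mem hk₂ (K.inv_mem h3)
      ext x
      constructor
      · rintro ⟨_, ⟨k, hk, rfl⟩, rfl⟩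
        exact ⟨h₀ * π k, K.mul_mem hh₀K (hK π hπmem k hk), (hform k).symm⟩
      · rintro ⟨k, hk, rfl⟩
        have hk' : π⁻¹ (h₀⁻¹ * k) ∈ K :=
          hK π⁻¹ ((stabPerm τ ω).inv_mem hπmem) _ (K.mul_mem (K.inv_mem hh₀K) hk)
        refine ⟨_, ⟨_, hk', rfl⟩, ?_⟩
        show g • (τ (π⁻¹ (h₀⁻¹ * k)) • ω) = τ k • ω
        rw [hform]
        simp
    rcases hprim.isTrivialBlock_of_isBlock hB with h | h
    · left
      rw [eq_bot_iff]
      intro k hk
      have h1 : τ k • ω = τ 1 • ω := h ⟨k, hk, rfl⟩ ⟨1, K.one_mem, rfl⟩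
      exact Subgroup.mem_bot.mpr (hbij.1 h1)
    · right
      rw [eq_top_iff]
      intro x _
      have h1 : τ x • ω ∈ {b : Ω | ∃ k ∈ K, τ k • ω = b} := by
        rw [h]
        trivial
      obtain ⟨k, hk, he⟩ := h1
      have h2 : k = x := hbij.1 he
      exact h2 ▸ hk

end br

/-- A finite primitive permutation group containing a regular dihedral subgroup is doubly transitive. -/
theorem bridge {G Ω : Type*} [Group G] [Finite G] [MulAction G Ω] [FaithfulSMul G Ω] [Finite Ω]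
    (hprim : MulAction.IsPreprimitive G Ω) (C : Subgroup G) (m : ℕ) (hD : Nonempty (↥C ≃* DihedralGroup m))
    (hDreg : MulAction.IsPretransitive ↥C Ω ∧ ∀ a : Ω, MulAction.stabilizer ↥C a = ⊥) :
    MulAction.IsMultiplyPretransitive G Ω 2 := by
  classical
  obtain ⟨φ⟩ := hD
  obtain ⟨htr, hst⟩ := hDreg
  have hreg : ∀ a b : Ω, ∃! c : C, c • a = b := by
    intro a b
    obtain ⟨c, hc⟩ := MulAction.exists_smul_eq C a b
    refine ⟨c, hc, ?_⟩
    intro c' hc'
    have h1 : c⁻¹ * c' ∈ MulAction.stabilizer C a := by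
      rw [MulAction.mem_stabilizer_iff, mul_smul, hc', ← hc, inv_smul_smul]
    rw [hst a, Subgroup.mem_bot] at h1
    calc c' = c * (c⁻¹ * c') := by group
      _ = c := by rw [h1, mul_one]
  have hm0 : m ≠ 0 := by
    rintro rfl
    have h1 : Nat.card C = Nat.card (DihedralGroup 0) := Nat.card_congr φ.toEquiv
    rw [DihedralGroup.nat_card, mul_zero] at h1
    have h2 : Nat.card C ≠ 0 := Nat.card_pos.ne'
    exact h2 h1
  haveI : NeZero m := ⟨hm0⟩
  rw [MulAction.is_two_pretransitive_iff]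
  intro a₀ b₀ c₀ d₀ hab hcd
  by_cases hm1 : m = 1
  · have hcardΩ : Nat.card Ω = 2 := by
      have h1 : Nat.card C = Nat.card Ω := by
        apply Nat.card_congr
        refine Equiv.ofBijective (fun c : C => c • a₀) ⟨?_, ?_⟩
        · intro c c' e
          obtain ⟨d, -, hd⟩ := hreg a₀ (c' • a₀)
          exact (hd c e).trans (hd c' rfl).symm
        · intro b
          obtain ⟨c, hc, -⟩ := hreg a₀ b
          exact ⟨c, hc⟩
      have h2 : Nat.card C = Nat.card (DihedralGroup m) := Nat.card_congr φ.toEquiv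
      rw [DihedralGroup.nat_card, hm1] at h2
      omega
    obtain ⟨x, y, hxy, huniv⟩ := Nat.card_eq_two_iff.mp hcardΩ
    have hall : ∀ z : Ω, z = x ∨ z = y := by
      intro z
      have h1 : z ∈ ({x, y} : Set Ω) := by
        rw [huniv]
        trivial
      simpa using h1
    obtain ⟨c, hc, -⟩ := hreg a₀ c₀
    have hc' : (c : G) • a₀ = c₀ := hc
    refine ⟨(c : G), hc', ?_⟩
    have hz : (c : G) • b₀ ≠ c₀ := by
      intro h
      apply hab
      exact MulAction.injective (c : G) (hc'.trans h.symm)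
    rcases hall ((c : G) • b₀) with h1 | h1 <;> rcases hall c₀ with h2 | h2 <;> rcases hall d₀ with h3 | h3 <;>
      first
        | exact absurd (h1.trans h2.symm) hz
        | exact absurd (h2.trans h3.symm) hcd
        | exact h1.trans h3.symm
  · have h2m : 2 ≤ m := by omega
    let τ : DihedralGroup m →* G := C.subtype.comp φ.symm.toMonoidHom
    have hbij : Function.Bijective (fun h : DihedralGroup m => τ h • a₀) := by
      constructor
      · intro x y hxy
        obtain ⟨c, -, hc⟩ := hreg a₀ (τ y • a₀)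
        have h1 := hc (φ.symm x) hxy
        have h2 := hc (φ.symm y) rfl
        exact φ.symm.injective (h1.trans h2.symm)
      · intro b
        obtain ⟨c, hc, -⟩ := hreg a₀ b
        refine ⟨φ c, ?_⟩
        have h1 : φ.symm (φ c) = c := φ.symm_apply_apply c
        show ((φ.symm (φ c) : C) : G) • a₀ = b
        rw [h1]
        exact hc
    have hC := ctx_of hbij h2m hprim
    have hy₀ : (sr 0 : DihedralGroup m) ≠ 1 := by
      intro h
      cases h
    have hto : ∀ a b : Ω, a ≠ b → ∃ u : G, u • a = a₀ ∧ u • b = τ (sr 0) • a₀ := by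
      intro a b hab
      obtain ⟨c, hc, -⟩ := hreg a₀ a
      have hc₁ : (c : G) • a₀ = a := hc
      obtain ⟨x, hx⟩ := hbij.2 ((c : G)⁻¹ • b)
      have hx' : τ x • a₀ = (c : G)⁻¹ • b := hx
      have hx1 : x ≠ 1 := by
        rintro rfl
        rw [map_one, one_smul, eq_inv_smul_iff, hc₁] at hx'
        exact hab hx'
      obtain ⟨π, ⟨g, hg, hπ⟩, he⟩ := hC.main x (sr 0) hx1 hy₀
      refine ⟨g * (c : G)⁻¹, ?_, ?_⟩
      · rw [mul_smul, ← hc₁, inv_smul_smul, hg]
      · rw [mul_smul, ← hx', ← hπ, he]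
    obtain ⟨u, hu1, hu2⟩ := hto a₀ b₀ hab
    obtain ⟨v, hv1, hv2⟩ := hto c₀ d₀ hcd
    refine ⟨v⁻¹ * u, ?_, ?_⟩
    · rw [mul_smul, hu1, ← hv1, inv_smul_smul]
    · rw [mul_smul, hu2, ← hv2, inv_smul_smul]

end Cfsg.Agent.Lib.Char.Dih
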