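import Mathlib
import Cfsg.Agent.Lib.Char.FRamB

set_option autoImplicit false

/-!
Characters fully ramified over a normal subgroup: complements in the quotient by an intermediate
normal subgroup.
-/

namespace Cfsg.Agent.Lib.Char.FRam

open Cfsg Cfsg.Agent.Lib.Char ComplexConjugate
open scoped Pointwise

universe u

variable {H : Type u} [Group H]

/-- The stabilizer of a function under conjugation. -/
def stabFun (f : H → ℂ) : Subgroup H where
  carrier := {v | ∀ h, f (v * h * v⁻¹) = f h}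
  mul_mem' := by
    intro a b ha hb h
    have h1 : a * b * h * (a * b)⁻¹ = a * (b * h * b⁻¹) * a⁻¹ := by group
    rw [h1, ha, hb]
  one_mem' := by
    intro h
    simp
  inv_mem' := by
    intro a ha h
    have h1 := ha (a⁻¹ * h * a⁻¹⁻¹)
    have h2 : a * (a⁻¹ * h * a⁻¹⁻¹) * a⁻¹ = h := by group
    rw [h2] at h1
    exact h1.symm

@[simp] theorem mem_stabFun {f : H → ℂ} {v : H} : v ∈ stabFun f ↔ ∀ h, f (v * h * v⁻¹) = f h := Iff.rfl

theorem isPGroup_zpowers_of_pow {X : Type*} [Group X] {p : ℕ} [hp : Fact p.Prime] {y : X} {a : ℕ}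
    (h : y ^ p ^ a = 1) : IsPGroup p (Subgroup.zpowers y) := by
  intro g
  obtain ⟨j, hj⟩ := Subgroup.mem_zpowers_iff.mp g.2
  refine ⟨a, Subtype.ext ?_⟩
  simp only [Subgroup.coe_pow, Subgroup.coe_one]
  rw [← hj, ← zpow_natCast, ← zpow_mul, mul_comm, zpow_mul, zpow_natCast, h, one_zpow]

variable [Fintype H] {Z K : Subgroup H} [hZ : Z.Normal] [hK : K.Normal]

omit hK in
theorem over_transfer [Fintype Z] (hZK : Z ≤ K) {θ : Z → ℂ} {D R : Subgroup H} (hR : D ⊓ K = R) (hZD : Z ≤ D) (hZR : Z ≤ R)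
    [Fintype R] [Fintype (Z.subgroupOf D)] [Fintype (K.subgroupOf D)] {ξ₀ : R → ℂ}
    (h : classInner (fun z : Z => ξ₀ ⟨z, hZR z.2⟩) θ ≠ 0) :
    classInner (resTo (Z.subgroupOf D) (le_sub hZK D) (ξ₀ ∘ equivInf hR)) (thetaOf Z D θ) ≠ 0 := by
  have h1 := classInner_comp_mulEquiv (Subgroup.subgroupOfEquivOfLe hZD)
    (fun z : Z => ξ₀ ⟨z, hZR z.2⟩) θ
  rw [← h1] at h
  exact h

omit hK [Fintype H] in
theorem coprime_of_good [Finite H] {p : ℕ} [hp : Fact p.Prime] {D : Subgroup H} (hZD : Z ≤ D)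
    (h2 : IsPGroup p (D.map (QuotientGroup.mk' Z))) (h3 : ¬ p ∣ D.index) :
    Nat.Coprime (Z.relIndex D) D.index := by
  have h1 : Z.relIndex D = Nat.card (D.map (QuotientGroup.mk' Z)) := by
    have := Subgroup.relIndex_ker (K := D) (QuotientGroup.mk' Z)
    rwa [QuotientGroup.ker_mk'] at this
  obtain ⟨n, hn⟩ := IsPGroup.iff_card.mp h2
  rw [h1, hn]
  exact Nat.Coprime.pow_left _ ((hp.out.coprime_iff_not_dvd).mpr h3)

/-- The complement theorem. -/
theorem main_complement {p : ℕ} [hp : Fact p.Prime] [Fintype Z] (hZK : Z ≤ K) {χ : H → ℂ} {θ : Z → ℂ} {e : ℕ}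
    (hχ : IsIrrCharacter H χ) (hθ : IsIrrCharacter Z θ) (he : e ^ 2 = Z.index)
    (hres : ∀ z : Z, χ z = (e : ℂ) * θ z)
    (hStab : ∀ (D : Subgroup H) [Fintype D] [Fintype (Z.subgroupOf D)] [Fintype (K.subgroupOf D)],
      Z ≤ D → IsPGroup p (D.map (QuotientGroup.mk' Z)) → ¬ p ∣ D.index →
      ∀ ξ : K.subgroupOf D → ℂ, IsIrrCharacter _ ξ →
        classInner (resTo (Z.subgroupOf D) (le_sub hZK D) ξ) (thetaOf Z D θ) ≠ 0 →
        inertia (K.subgroupOf D) ξ ≤ K.subgroupOf D) :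
    ∃ M P' : Subgroup (H ⧸ K), (Nat.card M).Coprime p ∧ IsPGroup p P' ∧
      Nat.card P' * Nat.card M = Nat.card (H ⧸ K) := by
  classical
  let π : H →* H ⧸ Z := QuotientGroup.mk' Z
  have hπ : Function.Surjective π := QuotientGroup.mk'_surjective Z
  have hπker : ∀ y, π y = 1 ↔ y ∈ Z := fun y => QuotientGroup.eq_one_iff y
  letI : Fintype (H ⧸ Z) := Fintype.ofFinite _
  let D₀ : Sylow p (H ⧸ Z) := default
  let Kb : Subgroup (H ⧸ Z) := K.map π
  haveI hKb : Kb.Normal := Subgroup.Normal.map hK π hπ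
  let Rb : Subgroup (H ⧸ Z) := (D₀ : Subgroup (H ⧸ Z)) ⊓ Kb
  let R : Subgroup H := Rb.comap π
  have hRbp : IsPGroup p Rb := D₀.isPGroup'.to_le inf_le_left
  have hKbmem : ∀ y, π y ∈ Kb ↔ y ∈ K := by
    intro y
    constructor
    · rintro ⟨k, hk, hky⟩
      have h1 : k⁻¹ * y ∈ Z := by
        rw [← hπker, map_mul, map_inv, hky, inv_mul_cancel]
      have h2 := mul_mem hk (hZK h1)
      simpa using h2
    · intro hy
      exact ⟨y, hy, rfl⟩
  have hZR : Z ≤ R := by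
    intro z hz
    show π z ∈ Rb
    rw [(hπker z).mpr hz]
    exact one_mem _
  have hRK : R ≤ K := fun y hy => (hKbmem y).mp (Subgroup.mem_inf.mp hy).2
  have hinfR : ∀ D₁ : Sylow p (H ⧸ Z), Rb ≤ D₁ → ((D₁ : Subgroup (H ⧸ Z)).comap π) ⊓ K = R := by
    intro D₁ hD₁
    have h1 : (D₁ : Subgroup (H ⧸ Z)) ⊓ Kb = Rb :=
      inf_eq D₀ Kb (D₁.isPGroup'.to_le inf_le_left) inf_le_right (le_inf hD₁ inf_le_right)
    ext y
    constructor
    · intro hy
      have hy' := Subgroup.mem_inf.mp hy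
      show π y ∈ Rb
      rw [← h1]
      exact Subgroup.mem_inf.mpr ⟨hy'.1, (hKbmem y).mpr hy'.2⟩
    · intro hy
      exact Subgroup.mem_inf.mpr ⟨hD₁ hy, hRK hy⟩
  have hgood1 : ∀ D₁ : Sylow p (H ⧸ Z), Z ≤ (D₁ : Subgroup (H ⧸ Z)).comap π := by
    intro D₁ z hz
    show π z ∈ (D₁ : Subgroup (H ⧸ Z))
    rw [(hπker z).mpr hz]
    exact one_mem _
  have hgood2 : ∀ D₁ : Sylow p (H ⧸ Z), IsPGroup p (((D₁ : Subgroup (H ⧸ Z)).comap π).map (QuotientGroup.mk' Z)) := by
    intro D₁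
    have h1 : ((D₁ : Subgroup (H ⧸ Z)).comap π).map (QuotientGroup.mk' Z) = (D₁ : Subgroup (H ⧸ Z)) :=
      Subgroup.map_comap_eq_self_of_surjective hπ _
    rw [h1]
    exact D₁.isPGroup'
  have hgood3 : ∀ D₁ : Sylow p (H ⧸ Z), ¬ p ∣ ((D₁ : Subgroup (H ⧸ Z)).comap π).index := by
    intro D₁
    rw [Subgroup.index_comap_of_surjective _ hπ]
    exact D₁.not_dvd_index
  letI : Fintype R := Fintype.ofFinite _
  obtain ⟨ξ₀, hξ₀, hξ₀o⟩ := exists_under hχ R
  have hoverZ := over_of_under (e := e) (IsIrrCharacter.isCharacter hχ) hθ hres hZR hξ₀ hξ₀o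
  let f : H → ℂ := fun r => if h : r ∈ R then ξ₀ ⟨r, h⟩ else 0
  have hfR : ∀ r : R, f r = ξ₀ r := by
    intro r
    simp only [f]
    rw [dif_pos r.2]
  let E : Subgroup H := Subgroup.normalizer (R : Set H) ⊓ stabFun f
  -- no `p`-elements in `E` outside `K`
  have hA : ∀ v ∈ E, IsPGroup p (Subgroup.zpowers (π v)) → v ∈ K := by
    intro v hv hpv
    have hv1 : v ∈ Subgroup.normalizer (R : Set H) := (Subgroup.mem_inf.mp hv).1
    have hv2 : v ∈ stabFun f := (Subgroup.mem_inf.mp hv).2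
    have hn : π v ∈ Subgroup.normalizer (Rb : Set (H ⧸ Z)) := by
      rw [Subgroup.mem_normalizer_iff]
      intro y
      obtain ⟨r, rfl⟩ := hπ y
      have h1 : π v * π r * (π v)⁻¹ = π (v * r * v⁻¹) := by simp
      rw [h1]
      exact Subgroup.mem_normalizer_iff.mp hv1 r
    have hle : Subgroup.zpowers (π v) ≤ Subgroup.normalizer (Rb : Set (H ⧸ Z)) := by
      rw [Subgroup.zpowers_le]
      exact hn
    have hpY := IsPGroup.to_sup_of_normal_right' hpv hRbp hle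
    obtain ⟨D₁, hD₁⟩ := hpY.exists_le_sylow
    have hRD₁ : Rb ≤ D₁ := le_sup_right.trans hD₁
    have hvD₁ : π v ∈ (D₁ : Subgroup (H ⧸ Z)) := hD₁ ((le_sup_left : Subgroup.zpowers (π v) ≤ _) (Subgroup.mem_zpowers _))
    let D : Subgroup H := (D₁ : Subgroup (H ⧸ Z)).comap π
    have hR₁ : D ⊓ K = R := hinfR D₁ hRD₁
    letI : Fintype D := Fintype.ofFinite _
    letI : Fintype (Z.subgroupOf D) := Fintype.ofFinite _
    letI : Fintype (K.subgroupOf D) := Fintype.ofFinite _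
    have hξ₁ : IsIrrCharacter (K.subgroupOf D) (ξ₀ ∘ equivInf hR₁) :=
      isIrrCharacter_comp_mulEquiv _ hξ₀
    have hst := hStab D (hgood1 D₁) (hgood2 D₁) (hgood3 D₁) _ hξ₁
      (over_transfer hZK hR₁ (hgood1 D₁) hZR hoverZ)
    let v₁ : D := ⟨v, hvD₁⟩
    have hin : v₁ ∈ inertia (K.subgroupOf D) (ξ₀ ∘ equivInf hR₁) := by
      rw [mem_inertia]
      funext r
      simp only [conjFun_apply, Function.comp_apply]
      have hvi : v⁻¹ ∈ stabFun f := inv_mem hv2
      have h1 := hvi ((equivInf hR₁ r : R) : H)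
      rw [hfR] at h1
      rw [← h1]
      have h2 : (equivInf hR₁ ⟨v₁⁻¹ * ↑r * v₁, Subgroup.Normal.conj_mem' inferInstance (r : D) r.2 v₁⟩ : R).1 =
          v⁻¹ * ((equivInf hR₁ r : R) : H) * v⁻¹⁻¹ := by
        simp [v₁]
      rw [← hfR, h2]
    exact hst hin
  let πK : H →* H ⧸ K := QuotientGroup.mk' K
  have hπK : Function.Surjective πK := QuotientGroup.mk'_surjective K
  let M : Subgroup (H ⧸ K) := E.map πK
  let D : Subgroup H := (D₀ : Subgroup (H ⧸ Z)).comap π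
  let P' : Subgroup (H ⧸ K) := D.map πK
  -- `M` has order prime to `p`
  have hMc : (Nat.card M).Coprime p := by
    rw [Nat.coprime_comm, hp.out.coprime_iff_not_dvd]
    intro hd
    obtain ⟨m, hm⟩ := exists_prime_orderOf_dvd_card' p hd
    obtain ⟨v, hv, hvm⟩ := m.2
    have hmo : orderOf (πK v) = p := by
      rw [hvm, Subgroup.orderOf_coe]
      exact hm
    obtain ⟨a, c, hc, hac⟩ := Nat.exists_eq_pow_mul_and_not_dvd (n := orderOf (π v))
      (orderOf_pos _).ne' p hp.out.ne_one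
    have h1 : (π (v ^ c)) ^ p ^ a = 1 := by
      rw [map_pow, ← pow_mul, mul_comm, ← hac, pow_orderOf_eq_one]
    have h2 := hA (v ^ c) (pow_mem hv c) (isPGroup_zpowers_of_pow h1)
    have h3 : (πK v) ^ c = 1 := by
      rw [← map_pow]
      exact (QuotientGroup.eq_one_iff _).mpr h2
    have h4 : p ∣ c := by
      rw [← hmo]
      exact orderOf_dvd_of_pow_eq_one h3
    exact hc h4
  -- `P'` is a `p`-group
  have hPp : IsPGroup p P' := by
    rintro ⟨_, d, hd, rfl⟩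
    obtain ⟨k, hk⟩ := D₀.isPGroup' ⟨π d, hd⟩
    refine ⟨k, Subtype.ext ?_⟩
    have h1 : (π d) ^ p ^ k = 1 := by
      have := congrArg (fun z : (D₀ : Subgroup (H ⧸ Z)) => (z : H ⧸ Z)) hk
      simpa using this
    have h2 : d ^ p ^ k ∈ Z := by
      rw [← hπker, map_pow]
      exact h1
    have h3 : πK (d ^ p ^ k) = 1 := (QuotientGroup.eq_one_iff _).mpr (hZK h2)
    simpa using h3
  -- the product
  have hC : ∀ x : H ⧸ K, ∃ a ∈ P', ∃ b ∈ M, x = a * b := by
    intro x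
    obtain ⟨h, rfl⟩ := hπK x
    obtain ⟨kb, hkb, hfr⟩ := exists_frattini D₀ Kb (π h)
    obtain ⟨k, hk, rfl⟩ := hkb
    let v : H := k * h
    have hvR : v ∈ Subgroup.normalizer (R : Set H) := by
      rw [Subgroup.mem_normalizer_iff]
      intro r
      have h1 := Subgroup.mem_normalizer_iff.mp hfr (π r)
      have h2 : π k * π h * π r * (π k * π h)⁻¹ = π (v * r * v⁻¹) := by simp [v]
      rw [h2] at h1
      exact h1
    have hR₀ : D ⊓ K = R := hinfR D₀ inf_le_left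
    letI : Fintype D := Fintype.ofFinite _
    letI : Fintype (Z.subgroupOf D) := Fintype.ofFinite _
    letI : Fintype (K.subgroupOf D) := Fintype.ofFinite _
    let c : R ≃* R := conjR hvR
    let ξ' : R → ℂ := ξ₀ ∘ c
    have hξ' : IsIrrCharacter R ξ' := isIrrCharacter_comp_mulEquiv c hξ₀
    have hξ₁ : IsIrrCharacter (K.subgroupOf D) (ξ₀ ∘ equivInf hR₀) :=
      isIrrCharacter_comp_mulEquiv _ hξ₀
    have hξ₁' : IsIrrCharacter (K.subgroupOf D) (ξ' ∘ equivInf hR₀) :=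
      isIrrCharacter_comp_mulEquiv _ hξ'
    have ho₁ := over_transfer hZK hR₀ (hgood1 D₀) hZR hoverZ
    have hZn : v ∈ Subgroup.normalizer (Z : Set H) := by
      rw [Subgroup.normalizer_eq_top_iff.mpr hZ]
      trivial
    let c₀ : Z ≃* Z := conjR hZn
    have hoverZ' : classInner (fun z : Z => ξ' ⟨z, hZR z.2⟩) θ ≠ 0 := by
      have h1 := classInner_comp_mulEquiv c₀ (fun z : Z => ξ₀ ⟨z, hZR z.2⟩) θ
      have h2 : θ ∘ c₀ = θ := by
        funext z
        have h3 := theta_inv Z (IsCharacter.isClassFunction (IsIrrCharacter.isCharacter hχ))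
          (e_ne_zero Z he) hres v⁻¹ z
        simp only [Function.comp_apply]
        rw [← h3]
        congr 1
        ext
        simp [c₀]
      have h3 : (fun z : Z => ξ₀ ⟨z, hZR z.2⟩) ∘ c₀ = (fun z : Z => ξ' ⟨z, hZR z.2⟩) := by
        funext z
        simp only [Function.comp_apply, ξ']
        congr 1
      rw [h2, h3] at h1
      rw [h1]
      exact hoverZ
    have ho₂ := over_transfer hZK hR₀ (hgood1 D₀) hZR hoverZ'
    obtain ⟨ψ, b, -, huq, -, -⟩ := dlevel hχ hθ he hres (D := D) (hgood1 D₀)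
      (coprime_of_good (hgood1 D₀) (hgood2 D₀) (hgood3 D₀))
    have huniq : ∀ ψ₁ ψ₂ : D → ℂ, IsIrrCharacter D ψ₁ → IsIrrCharacter D ψ₂ →
        classInner (resFun (Z.subgroupOf D) ψ₁) (thetaOf Z D θ) ≠ 0 →
        classInner (resFun (Z.subgroupOf D) ψ₂) (thetaOf Z D θ) ≠ 0 → ψ₁ = ψ₂ := by
      intro ψ₁ ψ₂ h₁ h₂ h₃ h₄
      have h5 := huq ⟨ψ₁, h₁⟩ h₃
      have h6 := huq ⟨ψ₂, h₂⟩ h₄
      have h7 := congrArg (fun x : IrrCharacter D => (x : D → ℂ)) (h5.trans h6.symm)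
      exact h7
    obtain ⟨g, hg⟩ := conj_of_over (Z.subgroupOf D) (K.subgroupOf D) (le_sub hZK D)
      (isIrr_thetaOf (hgood1 D₀) hθ) huniq hξ₁ hξ₁' ho₁ ho₂
    have hgR : (g : H) ∈ Subgroup.normalizer (R : Set H) := by
      rw [Subgroup.mem_normalizer_iff]
      intro r
      rw [← hR₀]
      constructor
      · intro hr
        have hrr := Subgroup.mem_inf.mp hr
        refine Subgroup.mem_inf.mpr ⟨mul_mem (mul_mem g.2 hrr.1) (inv_mem g.2), hK.conj_mem _ hrr.2 _⟩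
      · intro hr
        have hrr := Subgroup.mem_inf.mp hr
        have h1 : r = (g : H)⁻¹ * (g * r * (g : H)⁻¹) * g := by group
        rw [h1]
        refine Subgroup.mem_inf.mpr ⟨mul_mem (mul_mem (inv_mem g.2) hrr.1) g.2, ?_⟩
        simpa using hK.conj_mem _ hrr.2 (g : H)⁻¹
    have hgc : ∀ r : R, (g : H)⁻¹ * r * g ∈ R := by
      intro r
      have h1 := (Subgroup.mem_normalizer_iff.mp (inv_mem hgR) r).mp r.2
      simpa using h1
    have hgm : ∀ r : R, ξ₀ ⟨(g : H)⁻¹ * r * g, hgc r⟩ = ξ₀ ⟨v⁻¹ * r * v, (conjR hvR r).2⟩ := by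
      intro r
      have hrr0 : (r : H) ∈ D ⊓ K := by
        rw [hR₀]
        exact r.2
      have hrr := Subgroup.mem_inf.mp hrr0
      have h1 := congrFun hg ⟨⟨r, hrr.1⟩, hrr.2⟩
      simp only [conjFun_apply, Function.comp_apply, ξ'] at h1
      exact h1.symm
    let u : H := (g : H)⁻¹ * v
    have huN : u ∈ Subgroup.normalizer (R : Set H) := mul_mem (inv_mem hgR) hvR
    have huE : u ∈ E := by
      refine Subgroup.mem_inf.mpr ⟨huN, ?_⟩
      intro y
      by_cases hy : y ∈ R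
      · have hy' : u * y * u⁻¹ ∈ R := (Subgroup.mem_normalizer_iff.mp huN y).mp hy
        have hr : v * y * v⁻¹ ∈ R := (Subgroup.mem_normalizer_iff.mp hvR y).mp hy
        have h1 := hgm ⟨v * y * v⁻¹, hr⟩
        simp only [f]
        rw [dif_pos hy', dif_pos hy]
        have h2 : (⟨u * y * u⁻¹, hy'⟩ : R) = ⟨(g : H)⁻¹ * (v * y * v⁻¹) * g, by
          simpa [u, mul_assoc] using hy'⟩ := by
          ext
          simp [u, mul_assoc]
        rw [h2]
        refine h1.trans ?_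
        congr 1
        ext
        simp [mul_assoc]
      · have hy' : u * y * u⁻¹ ∉ R := fun h => hy ((Subgroup.mem_normalizer_iff.mp huN y).mpr h)
        simp only [f]
        rw [dif_neg hy', dif_neg hy]
    refine ⟨πK g, ⟨g, g.2, rfl⟩, πK u, ⟨u, huE, rfl⟩, ?_⟩
    have h1 : h = k⁻¹ * g * u := by simp [u, v]
    have h2 : πK k⁻¹ = 1 := (QuotientGroup.eq_one_iff _).mpr (inv_mem hk)
    rw [h1, map_mul, map_mul, h2, one_mul]
  -- counting
  have hcop : (Nat.card P').Coprime (Nat.card M) := by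
    obtain ⟨n, hn⟩ := IsPGroup.iff_card.mp hPp
    rw [hn]
    exact Nat.Coprime.pow_left _ hMc.symm
  have hdvd : Nat.card P' * Nat.card M ∣ Nat.card (H ⧸ K) :=
    Nat.Coprime.mul_dvd_of_dvd_of_dvd hcop (Subgroup.card_subgroup_dvd_card _)
      (Subgroup.card_subgroup_dvd_card _)
  refine ⟨M, P', hMc, hPp, Nat.le_antisymm (Nat.le_of_dvd Nat.card_pos hdvd) ?_⟩
  have hsurj : Function.Surjective (fun x : P' × M => (x.1 : H ⧸ K) * x.2) := by
    intro x
    obtain ⟨a, ha, b, hb, hab⟩ := hC x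
    exact ⟨(⟨a, ha⟩, ⟨b, hb⟩), hab.symm⟩
  have := Nat.card_le_card_of_surjective _ hsurj
  rwa [Nat.card_prod] at this

end Cfsg.Agent.Lib.Char.FRam
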