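import Mathlib
import Cfsg.Agent.Lib.Char.FRamC

set_option autoImplicit false

/-!
Characters fully ramified over a normal subgroup: the cyclic Sylow case.
-/

namespace Cfsg.Agent.Lib.Char.FRam

open Cfsg Cfsg.Agent.Lib.Char ComplexConjugate

universe u

variable {H : Type u} [Group H]

theorem isPGroup_map_of_map {Z K : Subgroup H} [Z.Normal] [K.Normal] (hZK : Z ≤ K) {p : ℕ} {D : Subgroup H}
    (hD : IsPGroup p (D.map (QuotientGroup.mk' Z))) : IsPGroup p (D.map (QuotientGroup.mk' K)) := by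
  rintro ⟨_, d, hd, rfl⟩
  obtain ⟨k, hk⟩ := hD ⟨QuotientGroup.mk' Z d, d, hd, rfl⟩
  refine ⟨k, Subtype.ext ?_⟩
  have h1 : (QuotientGroup.mk' Z d) ^ p ^ k = 1 := by
    have := congrArg (fun z : D.map (QuotientGroup.mk' Z) => (z : H ⧸ Z)) hk
    simpa using this
  have h2 : d ^ p ^ k ∈ Z := by
    rw [← QuotientGroup.eq_one_iff, ← h1]
    simp
  have h3 : QuotientGroup.mk' K (d ^ p ^ k) = 1 := (QuotientGroup.eq_one_iff _).mpr (hZK h2)
  simpa using h3

theorem card_sylow_eq {X : Type*} [Group X] [Finite X] {p : ℕ} [hp : Fact p.Prime] (P : Sylow p X)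
    {n m : ℕ} (h : p ^ n * m = Nat.card X) (hm : m.Coprime p) : Nat.card P = p ^ n := by
  obtain ⟨a, ha⟩ := IsPGroup.iff_card.mp P.isPGroup'
  have h1 : Nat.card P * (P : Subgroup X).index = Nat.card X := Subgroup.card_mul_index _
  have h2 : Nat.Coprime (P : Subgroup X).index p :=
    ((hp.out.coprime_iff_not_dvd).mpr P.not_dvd_index).symm
  have h3 : p ^ n ∣ Nat.card P := by
    have h4 : p ^ n ∣ Nat.card P * (P : Subgroup X).index := by
      rw [h1, ← h]
      exact dvd_mul_right _ _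
    exact (Nat.Coprime.pow_left n h2.symm).dvd_of_dvd_mul_right h4
  have h5 : Nat.card P ∣ p ^ n := by
    have h4 : Nat.card P ∣ p ^ n * m := by
      rw [h, ← h1]
      exact dvd_mul_right _ _
    rw [ha] at h4 ⊢
    exact (Nat.Coprime.pow_left a hm.symm).dvd_of_dvd_mul_right h4
  exact Nat.dvd_antisymm h5 h3

theorem isCyclic_quot_of_sylow [Finite H] {Z K : Subgroup H} [Z.Normal] [K.Normal] (hZK : Z ≤ K) {p : ℕ}
    [hp : Fact p.Prime] (P : Sylow p (H ⧸ K)) (hcyc : IsCyclic P) {D : Subgroup H}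
    (hD : IsPGroup p (D.map (QuotientGroup.mk' Z))) : IsCyclic (D ⧸ K.subgroupOf D) := by
  let φ : D →* H ⧸ K := (QuotientGroup.mk' K).comp D.subtype
  have hker : φ.ker = K.subgroupOf D := by
    ext d
    simp [φ, MonoidHom.mem_ker, Subgroup.mem_subgroupOf]
  have hr : φ.range = D.map (QuotientGroup.mk' K) := by
    rw [MonoidHom.range_comp, Subgroup.range_subtype]
  have hrp : IsPGroup p φ.range := by
    rw [hr]
    exact isPGroup_map_of_map hZK hD
  obtain ⟨Q, hQ⟩ := hrp.exists_le_sylow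
  haveI hQc : IsCyclic Q := isCyclic_of_surjective (P.equiv Q).toMonoidHom (P.equiv Q).surjective
  haveI hrc : IsCyclic φ.range := isCyclic_of_injective (Subgroup.inclusion hQ) (Subgroup.inclusion_injective hQ)
  let e := QuotientGroup.quotientKerEquivRange φ
  haveI h1 : IsCyclic (D ⧸ φ.ker) := isCyclic_of_surjective e.symm.toMonoidHom e.symm.surjective
  exact isCyclic_of_surjective (QuotientGroup.quotientMulEquivOfEq hker).toMonoidHom
    (QuotientGroup.quotientMulEquivOfEq hker).surjective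

theorem complement_of_cyclic [Fintype H] {Z K : Subgroup H} [Z.Normal] [K.Normal] [Fintype Z] (hZK : Z ≤ K)
    {χ : H → ℂ} {θ : Z → ℂ} {e : ℕ}
    (hχ : IsIrrCharacter H χ) (hθ : IsIrrCharacter Z θ) (he : e ^ 2 = Z.index)
    (hres : ∀ z : Z, χ z = (e : ℂ) * θ z) {p : ℕ} [hp : Fact p.Prime] (P : Sylow p (H ⧸ K))
    (hcyc : IsCyclic P) : ∃ M : Subgroup (H ⧸ K), M.IsComplement' (P : Subgroup (H ⧸ K)) := by
  obtain ⟨M, P', hMc, hPp, hcard⟩ := main_complement (p := p) hZK hχ hθ he hres (by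
    intro D _ _ _ hZD h2 h3 ξ hξ hξo
    haveI : (Z.subgroupOf D).Normal := Subgroup.normal_subgroupOf
    haveI : (K.subgroupOf D).Normal := Subgroup.normal_subgroupOf
    obtain ⟨ψ, b, -, huq, -, -⟩ := dlevel hχ hθ he hres (D := D) hZD (coprime_of_good hZD h2 h3)
    have huniq : ∀ ψ₁ ψ₂ : D → ℂ, IsIrrCharacter D ψ₁ → IsIrrCharacter D ψ₂ →
        classInner (resFun (Z.subgroupOf D) ψ₁) (thetaOf Z D θ) ≠ 0 →
        classInner (resFun (Z.subgroupOf D) ψ₂) (thetaOf Z D θ) ≠ 0 → ψ₁ = ψ₂ := by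
      intro ψ₁ ψ₂ h₁ h₂ h₃ h₄
      have h5 := huq ⟨ψ₁, h₁⟩ h₃
      have h6 := huq ⟨ψ₂, h₂⟩ h₄
      have h7 := congrArg (fun x : IrrCharacter D => (x : D → ℂ)) (h5.trans h6.symm)
      exact h7
    exact stab_of_cyclic (Z.subgroupOf D) (K.subgroupOf D) (le_sub hZK D) (isIrr_thetaOf hZD hθ) huniq
      (isCyclic_quot_of_sylow hZK P hcyc h2) hξ hξo)
  obtain ⟨n, hn⟩ := IsPGroup.iff_card.mp hPp
  rw [hn] at hcard
  have hPc := card_sylow_eq P hcard hMc
  refine ⟨M, Subgroup.isComplement'_of_coprime ?_ ?_⟩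
  · rw [hPc, mul_comm, hcard]
  · rw [hPc]
    exact Nat.Coprime.pow_right _ hMc

end Cfsg.Agent.Lib.Char.FRam
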