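import Mathlib
import Cfsg.Agent.Lib.Char.FRamD
import Cfsg.Agent.Lib.Char.Ind
import Cfsg.Agent.Lib.Basic.HallConverse

set_option autoImplicit false

/-!
Characters fully ramified over a normal subgroup: characters induced from an intermediate
normal subgroup.
-/

namespace Cfsg.Agent.Lib.Char.FRam

open Cfsg Cfsg.Agent.Lib.Char ComplexConjugate

universe u

variable {H : Type u} [Group H] [Fintype H]

omit [Fintype H] in
theorem card_dvd_sum_of_left_inv [Fintype H] (U : Subgroup H) (F : H → ℕ) (hF : ∀ u ∈ U, ∀ h, F (u * h) = F h) :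
    Nat.card U ∣ ∑ h, F h := by
  classical
  letI : Fintype U := Fintype.ofFinite _
  letI : Fintype (H ⧸ U) := Fintype.ofFinite _
  have h1 : ∑ h, F h = ∑ h, F h⁻¹ := (Equiv.sum_comp (Equiv.inv H) F).symm
  let g : (H ⧸ U) × U → H := fun x => x.1.out * x.2
  have hg : Function.Bijective g := by
    constructor
    · rintro ⟨c, u⟩ ⟨c', u'⟩ h
      simp only [g] at h
      have h2 : c = c' := by
        have h3 : ((c.out * (u : H) : H) : H ⧸ U) = c := by
          rw [QuotientGroup.mk_mul_of_mem _ u.2, QuotientGroup.out_eq']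
        have h4 : ((c'.out * (u' : H) : H) : H ⧸ U) = c' := by
          rw [QuotientGroup.mk_mul_of_mem _ u'.2, QuotientGroup.out_eq']
        rw [← h3, ← h4, h]
      subst h2
      have h5 : (u : H) = u' := mul_left_cancel h
      rw [Subtype.ext h5]
    · intro h
      let c : H ⧸ U := h
      have h2 : (c.out)⁻¹ * h ∈ U := by
        rw [← QuotientGroup.eq]
        exact QuotientGroup.out_eq' c
      exact ⟨(c, ⟨_, h2⟩), by simp [g]⟩
  rw [h1, ← hg.sum_comp, Fintype.sum_prod_type]
  have h2 : ∀ (c : H ⧸ U) (u : U), F (g (c, u))⁻¹ = F (c.out)⁻¹ := by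
    intro c u
    simp only [g, mul_inv_rev]
    exact hF _ (inv_mem u.2) _
  simp only [h2, Finset.sum_const, Finset.card_univ, smul_eq_mul, ← Nat.card_eq_fintype_card]
  exact Finset.dvd_sum fun c _ => dvd_mul_right _ _

/-- The multiplicities in a character induced from a normal subgroup. -/
theorem relIndex_dvd_of_induced {K : Subgroup H} [hK : K.Normal] [Fintype K] {φ : K → ℂ}
    (hφ : IsCharacter K φ) {χ : H → ℂ} (hind : indFun K φ = χ) (D : Subgroup H) [Fintype D]
    [Fintype (K.subgroupOf D)] {ξ : K.subgroupOf D → ℂ} (hξ : IsIrrCharacter _ ξ) {g₁ : ℕ}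
    (hg₁ : classInner (resFun (K.subgroupOf D) (fun d : D => χ d)) ξ = g₁) :
    (K.subgroupOf D).relIndex (inertia (K.subgroupOf D) ξ) ∣ g₁ := by
  classical
  haveI hNn : (K.subgroupOf D).Normal := Subgroup.normal_subgroupOf
  have hconj : ∀ (h : H) (r : K.subgroupOf D), h⁻¹ * ((r : D) : H) * h ∈ K := by
    intro h r
    have := hK.conj_mem _ r.2 h⁻¹
    simpa using this
  let c : H → K.subgroupOf D → ℂ := fun h r => φ ⟨h⁻¹ * ((r : D) : H) * h, hconj h r⟩
  have hc : ∀ h, IsCharacter (K.subgroupOf D) (c h) := by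
    intro h
    let f : K.subgroupOf D →* K :=
      { toFun := fun r => ⟨h⁻¹ * ((r : D) : H) * h, hconj h r⟩
        map_one' := by
          ext
          simp
        map_mul' := by
          intro a b
          ext
          simp
          group }
    exact IsCharacter.comp hφ f
  let G : H → ℂ := fun h => classInner (c h) ξ
  have hGnat : ∀ h, ∃ n : ℕ, G h = n := fun h => IsCharacter.classInner_irr_eq_nat (hc h) hξ
  choose F hF using hGnat
  have hKc : (Nat.card K : ℂ) ≠ 0 := by exact_mod_cast Nat.card_pos.ne'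
  have hform : (Nat.card K : ℂ) * g₁ = ∑ h, G h := by
    have h1 : resFun (K.subgroupOf D) (fun d : D => χ d) =
        (Nat.card K : ℂ)⁻¹ • ∑ x : H, c x := by
      funext r
      simp only [resFun, Pi.smul_apply, Finset.sum_apply, smul_eq_mul]
      rw [← hind]
      simp only [indFun]
      congr 1
      refine Finset.sum_congr rfl fun x _ => ?_
      exact extendByZero_of_mem K φ (hconj x r) |>.trans rfl
    rw [← hg₁, h1, classInner_smul_left, classInner_sum_left, ← mul_assoc, mul_inv_cancel₀ hKc, one_mul]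
  let W : Subgroup H :=
    { carrier := {u | ∀ h, G (u * h) = G h}
      mul_mem' := by
        intro a b ha hb h
        rw [mul_assoc, ha, hb]
      one_mem' := by
        intro h
        rw [one_mul]
      inv_mem' := by
        intro a ha h
        have := ha (a⁻¹ * h)
        rw [mul_inv_cancel_left] at this
        exact this.symm }
  have hKW : K ≤ W := by
    intro k hk h
    have h1 : c (k * h) = c h := by
      funext r
      have hx : h⁻¹ * k⁻¹ * h ∈ K := by
        have := hK.conj_mem _ (inv_mem hk) h⁻¹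
        simpa using this
      have h2 := IsCharacter.isClassFunction hφ ⟨_, hconj h r⟩ ⟨_, hx⟩
      simp only [c]
      rw [← h2]
      congr 1
      ext
      simp
      group
    show classInner (c (k * h)) ξ = classInner (c h) ξ
    rw [h1]
  have hTW : (inertia (K.subgroupOf D) ξ).map D.subtype ≤ W := by
    rintro _ ⟨t, ht, rfl⟩ h
    have htn : t ∈ Subgroup.normalizer (K.subgroupOf D : Set D) := by
      rw [Subgroup.normalizer_eq_top_iff.mpr hNn]
      trivial
    let e : K.subgroupOf D ≃* K.subgroupOf D := conjR htn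
    have h1 : c ((D.subtype t) * h) = c h ∘ e := by
      funext r
      simp only [c, Function.comp_apply]
      congr 1
      ext
      simp [e]
      group
    have h2 : ξ ∘ e = ξ := by
      have : conjFun (K.subgroupOf D) t ξ = ξ := ht
      funext r
      have h3 := congrFun this r
      simp only [conjFun_apply] at h3
      exact h3
    show classInner (c ((D.subtype t) * h)) ξ = classInner (c h) ξ
    rw [h1]
    conv_lhs => rw [← h2]
    exact classInner_comp_mulEquiv e (c h) ξ
  set T' : Subgroup H := (inertia (K.subgroupOf D) ξ).map D.subtype with hT'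
  have hUW : K ⊔ T' ≤ W := sup_le hKW hTW
  have hd := card_dvd_sum_of_left_inv (K ⊔ T') F (by
    intro u hu h
    have h1 := hUW hu h
    rw [hF, hF] at h1
    exact_mod_cast h1)
  have hsum : Nat.card K * g₁ = ∑ h, F h := by
    have h1 : ((Nat.card K * g₁ : ℕ) : ℂ) = ((∑ h, F h : ℕ) : ℂ) := by
      push_cast
      rw [hform]
      exact Finset.sum_congr rfl fun h _ => hF h
    exact_mod_cast h1
  rw [← hsum] at hd
  have hcard : Nat.card (K ⊔ T' : Subgroup H) = Nat.card K * K.relIndex (K ⊔ T') := by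
    have := Subgroup.card_mul_index (K.subgroupOf (K ⊔ T'))
    rw [Nat.card_congr (Subgroup.subgroupOfEquivOfLe (le_sup_left : K ≤ K ⊔ T')).toEquiv] at this
    exact this.symm
  rw [hcard] at hd
  have h2 := Nat.dvd_of_mul_dvd_mul_left Nat.card_pos hd
  rw [Subgroup.relIndex_sup_left, ← Subgroup.relIndex_comap] at h2
  exact h2

/-- The solvability statement. -/
theorem solvable_of_induced {Z K : Subgroup H} [hZ : Z.Normal] [hK : K.Normal] [Fintype Z] [Fintype K] (hZK : Z ≤ K)
    {χ : H → ℂ} {θ : Z → ℂ} {e : ℕ}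
    (hχ : IsIrrCharacter H χ) (hθ : IsIrrCharacter Z θ) (he : e ^ 2 = Z.index)
    (hres : ∀ z : Z, χ z = (e : ℂ) * θ z) {φ : K → ℂ} (hφ : IsCharacter K φ) (hind : indFun K φ = χ) :
    Group.IsSolvable (H ⧸ K) := by
  refine Cfsg.Agent.Lib.Basic.isSolvable_of_hall_complements _ rfl ?_
  intro p hpp
  haveI hp : Fact p.Prime := ⟨hpp⟩
  obtain ⟨M, P', hMc, hPp, hcard⟩ := main_complement (p := p) hZK hχ hθ he hres (by
    intro D _ _ _ hZD h2 h3 ξ hξ hξo
    haveI : (Z.subgroupOf D).Normal := Subgroup.normal_subgroupOf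
    haveI : (K.subgroupOf D).Normal := Subgroup.normal_subgroupOf
    obtain ⟨ψ, b, -, huq, hb1, hb2⟩ := dlevel hχ hθ he hres (D := D) hZD (coprime_of_good hZD h2 h3)
    have huniq : ∀ ψ₁ : D → ℂ, IsIrrCharacter D ψ₁ →
        classInner (resFun (Z.subgroupOf D) ψ₁) (thetaOf Z D θ) ≠ 0 → ψ₁ = (ψ : D → ℂ) := by
      intro ψ₁ h₁ h₃
      have h5 := huq ⟨ψ₁, h₁⟩ h₃
      have h7 := congrArg (fun x : IrrCharacter D => (x : D → ℂ)) h5
      exact h7
    have hbc : Nat.Coprime b p := by
      rw [Nat.coprime_comm, hpp.coprime_iff_not_dvd]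
      intro hd
      apply h3
      rw [← hb2]
      exact hd.trans (dvd_pow_self b two_ne_zero)
    have hDN : IsPGroup p (D ⧸ K.subgroupOf D) := by
      intro x
      obtain ⟨d, rfl⟩ := QuotientGroup.mk_surjective x
      obtain ⟨k, hk⟩ := isPGroup_map_of_map hZK h2 ⟨QuotientGroup.mk' K (d : H), d, d.2, rfl⟩
      refine ⟨k, ?_⟩
      have h1 : QuotientGroup.mk' K (d : H) ^ p ^ k = 1 := by
        have := congrArg (fun z : D.map (QuotientGroup.mk' K) => (z : H ⧸ K)) hk
        simpa using this
      have h4 : (d : H) ^ p ^ k ∈ K := by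
        rw [← QuotientGroup.eq_one_iff, ← h1]
        simp
      rw [← QuotientGroup.mk_pow, QuotientGroup.eq_one_iff]
      exact h4
    obtain ⟨g₁, hg₁⟩ := exists_multiplicity (K.subgroupOf D) (χ := fun d : D => χ d)
      (IsCharacter.comp (IsIrrCharacter.isCharacter hχ) D.subtype) hξ
    exact stab_of_dvd (Z.subgroupOf D) (K.subgroupOf D) (le_sub hZK D) (isIrr_thetaOf hZD hθ) ψ.2 huniq hb1 hbc
      hDN hξ hξo hg₁ (relIndex_dvd_of_induced hφ hind D hξ hg₁))
  refine ⟨M, ?_⟩
  obtain ⟨n, hn⟩ := IsPGroup.iff_card.mp hPp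
  rw [hn] at hcard
  have h1 : Nat.card M * M.index = Nat.card (H ⧸ K) := Subgroup.card_mul_index M
  have h2 : M.index = p ^ n := by
    have : Nat.card M * M.index = Nat.card M * p ^ n := by
      rw [h1, ← hcard, mul_comm]
    exact Nat.eq_of_mul_eq_mul_left Nat.card_pos this
  rw [h2, ← hcard]
  congr 1
  have hc : Nat.Coprime (p ^ n) (Nat.card M) := Nat.Coprime.pow_left _ hMc.symm
  rw [Nat.factorization_mul (pow_ne_zero _ hpp.ne_zero) Nat.card_pos.ne']
  simp only [Finsupp.add_apply, Nat.Prime.factorization_self, hpp.factorization_pow]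
  have h5 : (Nat.card M).factorization p = 0 :=
    Nat.factorization_eq_zero_of_not_dvd ((hpp.coprime_iff_not_dvd).mp hMc.symm)
  simp [h5]

end Cfsg.Agent.Lib.Char.FRam
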