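import Cfsg.Agent.Lib.Char.FSCount
import Cfsg.Agent.Lib.Char.CliffordBij

/-!
# Frobenius–Schur indicators of Clifford correspondents

Schur orthogonality for matrix coefficients, and `ν(η^G) = ν(η)` when `η` extends a real
irreducible character `φ` of a normal subgroup `N` and `I` is the stabilizer of `φ`.
-/

set_option autoImplicit false

namespace Cfsg.Agent.Lib.Char

open Cfsg Module Matrix
open scoped ComplexConjugate

universe u

section Coeff

variable {N : Type u} [Group N] [Fintype N] {m : ℕ}

/-- The action `X ↦ A X Bᵀ` on square matrices. -/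
noncomputable def biRep (α β : Representation ℂ N (Fin m → ℂ)) :
    Representation ℂ N (Matrix (Fin m) (Fin m) ℂ) where
  toFun g :=
    { toFun := fun X => repMat α g * X * (repMat β g)ᵀ
      map_add' := fun X Y => by simp [mul_add, add_mul]
      map_smul' := fun c X => by simp }
  map_one' := by ext X; simp
  map_mul' g h := by
    ext X
    simp [repMat_mul, Matrix.transpose_mul, mul_assoc]

theorem biRep_apply (α β : Representation ℂ N (Fin m → ℂ)) (g : N) (X : Matrix (Fin m) (Fin m) ℂ) :
    biRep α β g X = repMat α g * X * (repMat β g)ᵀ := rfl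

theorem mul_single_mul_apply' (A B : Matrix (Fin m) (Fin m) ℂ) (i j a b : Fin m) :
    (A * (Matrix.single i j (1 : ℂ) : Matrix (Fin m) (Fin m) ℂ) * Bᵀ : Matrix (Fin m) (Fin m) ℂ) a b =
      A a i * B b j := by
  rw [Matrix.mul_apply, Finset.sum_eq_single j]
  · rw [Matrix.mul_single_apply_same, Matrix.transpose_apply, mul_one]
  · intro x _ hx
    rw [Matrix.mul_single_apply_of_ne _ _ _ _ _ hx, zero_mul]
  · simp

theorem trace_biRep (α β : Representation ℂ N (Fin m → ℂ)) (g : N) :
    LinearMap.trace ℂ _ (biRep α β g) = α.character g * β.character g := by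
  rw [trace_matrix_operator, ← trace_repMat, ← trace_repMat, Matrix.trace, Matrix.trace, Finset.sum_mul_sum]
  refine Finset.sum_congr rfl fun i _ => Finset.sum_congr rfl fun j _ => ?_
  rw [biRep_apply]
  exact mul_single_mul_apply' _ _ _ _ _ _

/-- Schur orthogonality for matrix coefficients. -/
theorem sum_coeff_eq_zero (α β : Representation ℂ N (Fin m → ℂ))
    (h : ∑ n : N, α.character n * β.character n = 0) (i k j l : Fin m) :
    ∑ n : N, repMat α n i k * repMat β n j l = 0 := by
  classical
  have hG : ((Nat.card N : ℕ) : ℂ) ≠ 0 := NeZero.ne _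
  set σ := biRep α β with hσ
  have htr : LinearMap.trace ℂ _ (repAvg σ) = 0 := by
    rw [repAvg, map_smul, map_sum]
    simp only [hσ, trace_biRep, h, smul_zero]
  rw [trace_repAvg] at htr
  have hfr : finrank ℂ σ.invariants = 0 := by exact_mod_cast htr
  have hbot : σ.invariants = ⊥ := by
    exact Submodule.finrank_eq_zero.mp hfr
  have h0 : repAvg σ (Matrix.single k l (1 : ℂ)) = 0 := by
    have := repAvg_mem σ (Matrix.single k l (1 : ℂ))
    rw [hbot] at this
    simpa using this
  have h1 : ∑ n : N, σ n (Matrix.single k l (1 : ℂ)) = 0 := by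
    simp only [repAvg, LinearMap.smul_apply, LinearMap.sum_apply] at h0
    exact (smul_eq_zero.mp h0).resolve_left (inv_ne_zero hG)
  have h2 := congrFun (congrFun h1 i) j
  rw [Matrix.sum_apply] at h2
  simp only [hσ, biRep_apply, mul_single_mul_apply'] at h2
  exact h2

end Coeff

section Ind

variable {G : Type u} [Group G] [Fintype G]

/-- The indicator of an induced function. -/
theorem fsInd_indFun (I : Subgroup G) [Fintype I] (η : I → ℂ) :
    fsInd (indFun I η) = (Nat.card I : ℂ)⁻¹ * ∑ g : G, extendByZero I η (g * g) := by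
  have hG : ((Nat.card G : ℕ) : ℂ) ≠ 0 := NeZero.ne _
  unfold fsInd
  simp only [indFun_apply]
  have h1 : ∀ x : G, ∑ g : G, extendByZero I η (x⁻¹ * (g * g) * x) = ∑ g : G, extendByZero I η (g * g) := by
    intro x
    refine Fintype.sum_equiv (MulAut.conj x⁻¹).toEquiv _ _ fun g => ?_
    have h2 : (MulAut.conj x⁻¹).toEquiv g = x⁻¹ * g * x := by simp
    rw [h2]
    congr 1
    group
  rw [← Finset.mul_sum, Finset.sum_comm]
  simp only [h1, Finset.sum_const, Finset.card_univ, nsmul_eq_mul]
  rw [← Nat.card_eq_fintype_card]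
  field_simp

variable (N : Subgroup G) [hN : N.Normal] [Fintype N]

/-- The key cancellation: `∑_{n∈N} η((gn)²) = 0` for `g` outside the stabilizer. -/
theorem sum_coset_square_eq_zero {I : Subgroup G} (hNI : N ≤ I) {η : I → ℂ}
    (hη : IsCharacter I η) {φ : N → ℂ} (hφ : IsIrrCharacter N φ)
    (hηφ : ∀ n : N, η ⟨n, hNI n.2⟩ = φ n) (hreal : ∀ n, (φ n).im = 0)
    {g : G} (hg : conjFun N g φ ≠ φ) :
    ∑ n : N, extendByZero I η ((g * n) * (g * n)) = 0 := by
  classical
  by_cases hg2 : g * g ∈ I
  · obtain ⟨m, R, rfl⟩ := hη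
    -- the two representations of `N`
    let f₁ : N →* I :=
      { toFun := fun n => ⟨g⁻¹ * n * g, hNI (hN.conj_mem' n n.2 g)⟩
        map_one' := by
          apply Subtype.ext
          simp
        map_mul' := fun a b => by
          apply Subtype.ext
          simp only [Subgroup.coe_mul]
          group }
    let f₂ : N →* I := Subgroup.inclusion hNI
    let α : Representation ℂ N (Fin m → ℂ) := R.comp f₁
    let β : Representation ℂ N (Fin m → ℂ) := R.comp f₂
    have hα : ∀ n, α.character n = conjFun N g φ n := by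
      intro n
      rw [conjFun_apply, ← hηφ]
      rfl
    have hβ : ∀ n, β.character n = φ n := by
      intro n
      rw [← hηφ]
      rfl
    have hφg := isIrrCharacter_conjFun N g hφ
    have hinner := classInner_irr_of_ne hφg hφ hg
    have hsum : ∑ n : N, α.character n * β.character n = 0 := by
      unfold Cfsg.classInner at hinner
      have hc : ((Nat.card N : ℕ) : ℂ)⁻¹ ≠ 0 := inv_ne_zero (NeZero.ne _)
      have h1 := (mul_eq_zero.mp hinner).resolve_left hc
      rw [← h1]
      refine Finset.sum_congr rfl fun n _ => ?_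
      rw [hα, hβ]
      congr 1
      exact (Complex.conj_eq_iff_im.mpr (hreal n)).symm
    have hco := sum_coeff_eq_zero α β hsum
    -- expand
    set t : I := ⟨g * g, hg2⟩ with ht
    have hterm : ∀ n : N, extendByZero I R.character ((g * n) * (g * n)) =
        ∑ i : Fin m, ∑ j : Fin m, ∑ k : Fin m, repMat R t i j * (repMat α n j k * repMat β n k i) := by
      intro n
      have h1 : (g * n) * (g * n) = ((t * f₁ n * f₂ n : I) : G) := by
        simp only [Subgroup.coe_mul, ht, f₁, f₂]
        show (g * n) * (g * n) = g * g * (g⁻¹ * n * g) * n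
        group
      rw [h1, extendByZero_coe, ← trace_repMat, repMat_mul, repMat_mul]
      simp only [Matrix.trace, Matrix.diag_apply, Matrix.mul_apply, Finset.sum_mul, mul_assoc]
      refine Finset.sum_congr rfl fun i _ => ?_
      simp only [Finset.mul_sum]
      rfl
    simp only [hterm]
    rw [Finset.sum_comm]
    refine Finset.sum_eq_zero fun i _ => ?_
    rw [Finset.sum_comm]
    refine Finset.sum_eq_zero fun j _ => ?_
    rw [Finset.sum_comm]
    refine Finset.sum_eq_zero fun k _ => ?_
    rw [← Finset.mul_sum, hco j k k i, mul_zero]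
  · refine Finset.sum_eq_zero fun n _ => ?_
    apply extendByZero_of_notMem
    intro hmem
    apply hg2
    have h1 : (g * n) * (g * n) = g * g * (g⁻¹ * n * g * n) := by group
    rw [h1] at hmem
    have h2 : g⁻¹ * n * g * n ∈ I := I.mul_mem (hNI (hN.conj_mem' n n.2 g)) (hNI n.2)
    exact (I.mul_mem_cancel_right h2).mp hmem

/-- `ν(η^G) = ν(η)` for `η` extending a real irreducible character of `N`, over its stabilizer. -/
theorem fsInd_indFun_of_stabilizer {I : Subgroup G} [Fintype I] (hNI : N ≤ I) {η : I → ℂ}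
    (hη : IsCharacter I η) {φ : N → ℂ} (hφ : IsIrrCharacter N φ)
    (hηφ : ∀ n : N, η ⟨n, hNI n.2⟩ = φ n) (hreal : ∀ n, (φ n).im = 0)
    (hstab : ∀ g : G, g ∉ I → conjFun N g φ ≠ φ) :
    fsInd (indFun I η) = fsInd η := by
  classical
  rw [fsInd_indFun]
  have h1 : ∑ g : G, extendByZero I η (g * g) = ∑ i : I, extendByZero I η ((i : G) * i) +
      ∑ g : {g : G // ¬ g ∈ I}, extendByZero I η ((g : G) * g) := by
    rw [← Fintype.sum_equiv (Equiv.sumCompl (fun g : G => g ∈ I))
      (fun x => extendByZero I η ((Equiv.sumCompl (fun g : G => g ∈ I) x) *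
        (Equiv.sumCompl (fun g : G => g ∈ I) x)))
      (fun g : G => extendByZero I η (g * g)) (fun _ => rfl), Fintype.sum_sum_type]
    rfl
  have h2 : ∑ i : I, extendByZero I η ((i : G) * i) = ∑ i : I, η (i * i) := by
    refine Finset.sum_congr rfl fun i _ => ?_
    have : ((i : G) * i) = ((i * i : I) : G) := rfl
    rw [this, extendByZero_coe]
  have h3 : ∑ g : {g : G // ¬ g ∈ I}, extendByZero I η ((g : G) * g) = 0 := by
    set S := ∑ g : {g : G // ¬ g ∈ I}, extendByZero I η ((g : G) * g) with hS
    have h4 : ∀ n : N, ∑ g : {g : G // ¬ g ∈ I}, extendByZero I η (((g : G) * n) * ((g : G) * n)) = S := by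
      intro n
      let e : {g : G // ¬ g ∈ I} ≃ {g : G // ¬ g ∈ I} :=
        { toFun := fun g => ⟨g * n, fun h => g.2 ((I.mul_mem_cancel_right (hNI n.2)).mp h)⟩
          invFun := fun g => ⟨g * (n : G)⁻¹, fun h => g.2 ((I.mul_mem_cancel_right (I.inv_mem (hNI n.2))).mp h)⟩
          left_inv := fun g => Subtype.ext (by simp)
          right_inv := fun g => Subtype.ext (by simp) }
      exact Fintype.sum_equiv e _ _ fun g => rfl
    have h5 : ∑ n : N, ∑ g : {g : G // ¬ g ∈ I}, extendByZero I η (((g : G) * n) * ((g : G) * n)) = 0 := by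
      rw [Finset.sum_comm]
      refine Finset.sum_eq_zero fun g _ => ?_
      exact sum_coset_square_eq_zero N hNI hη hφ hηφ hreal (hstab g g.2)
    simp only [h4, Finset.sum_const, Finset.card_univ, nsmul_eq_mul] at h5
    have hNc : ((Fintype.card N : ℕ) : ℂ) ≠ 0 := by
      exact_mod_cast Fintype.card_ne_zero
    exact (mul_eq_zero.mp h5).resolve_left hNc
  rw [h1, h2, h3, add_zero]
  rfl

end Ind

end Cfsg.Agent.Lib.Char
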