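import Cfsg.Agent.Lib.Char.Basic

/-! # Multiplicity of the principal character in a restriction = dimension of the fixed space. -/

set_option autoImplicit false

namespace Cfsg.Agent.Lib.Char

open Cfsg Module
open scoped ComplexConjugate

universe u v

variable {G : Type u} [Group G] {V : Type v} [AddCommGroup V] [Module ℂ V] [FiniteDimensional ℂ V]

/-- `⟨χ,1⟩ = dim V^G`. -/
theorem classInner_one_eq_finrank [Fintype G] (ρ : Representation ℂ G V) :
    classInner ρ.character (fun _ => 1) = (finrank ℂ ρ.invariants : ℂ) := by
  classical
  have : Invertible (Fintype.card G : ℂ) := invertibleOfNonzero (by exact_mod_cast Fintype.card_ne_zero)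
  have : Invertible (Nat.card G : ℂ) := by rwa [Nat.card_eq_fintype_card]
  rw [← (Representation.isProj_averageMap ρ).trace]
  simp [classInner, Representation.character, GroupAlgebra.average, _root_.map_sum, Representation.averageMap]

/-- `⟨χ|_H,1⟩ = dim V^H`. -/
theorem classInner_res_one_eq_finrank (ρ : Representation ℂ G V) (H : Subgroup G) [Fintype H] :
    classInner (fun x : H => ρ.character x) (fun _ => 1) =
      (finrank ℂ (Representation.invariants (ρ.comp H.subtype)) : ℂ) :=
  classInner_one_eq_finrank (ρ.comp H.subtype)

/-- A nonzero vector fixed by `G` in an irreducible representation forces the trivial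
character. -/
theorem character_eq_one_of_fixed (ρ : Representation ℂ G V) [hρ : ρ.IsIrreducible] {v : V} (hv : v ≠ 0)
    (hfix : ∀ g, ρ g v = v) : ρ.character = fun _ => 1 := by
  classical
  let S : Subrepresentation ρ :=
    { toSubmodule := Submodule.span ℂ {v}
      apply_mem_toSubmodule := by
        intro g w hw
        obtain ⟨c, rfl⟩ := Submodule.mem_span_singleton.mp hw
        rw [map_smul, hfix]
        exact Submodule.smul_mem _ _ (Submodule.mem_span_singleton_self v) }
  have hS : S ≠ ⊥ := by
    intro h
    have h1 : S.toSubmodule = ⊥ := congrArg Subrepresentation.toSubmodule h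
    apply hv
    have : v ∈ S.toSubmodule := Submodule.mem_span_singleton_self v
    rw [h1] at this
    simpa using this
  have hS' : S = ⊤ := (hρ.eq_bot_or_eq_top S).resolve_left hS
  have hspan : Submodule.span ℂ {v} = ⊤ := congrArg Subrepresentation.toSubmodule hS'
  have hfin : finrank ℂ V = 1 := by
    rw [← finrank_top ℂ V, ← hspan]
    exact finrank_span_singleton hv
  funext g
  have hid : ρ g = LinearMap.id := by
    ext w
    have hw : w ∈ Submodule.span ℂ {v} := by rw [hspan]; trivial
    obtain ⟨c, rfl⟩ := Submodule.mem_span_singleton.mp hw
    simp [hfix]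
  simp [Representation.character, hid, LinearMap.trace_id, hfin]

end Cfsg.Agent.Lib.Char
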