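import Cfsg.Agent.Lib.Char.FSInd
import Cfsg.Agent.Lib.Char.Invariants

/-!
# Frobenius–Schur indicator `-1` and fixed points of subgroups

If `χ` is irreducible with `ν(χ) = -1` then `⟨χ_H, 1_H⟩` is even, for every subgroup `H`.
-/

set_option autoImplicit false
set_option linter.unusedSectionVars false

namespace Cfsg.Agent.Lib.Char

open Cfsg Module
open scoped ComplexConjugate Matrix

universe u

section Model

variable {G : Type u} [Group G] [Fintype G] {m : ℕ} (ρ : Representation ℂ G (Fin m → ℂ))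

theorem rep_apply_eq_mulVec (g : G) (v : Fin m → ℂ) : ρ g v = repMat ρ g *ᵥ v := by
  rw [repMat, LinearMap.toMatrix'_mulVec]

theorem even_finrank_invariants_of_symplectic {X : Matrix (Fin m) (Fin m) ℂ} (hdet : X.det ≠ 0)
    (hinv : ∀ g, repMat ρ g * X * (repMat ρ g)ᵀ = X) (hT : Xᵀ = -X) (H : Subgroup G) [Fintype H] :
    Even (finrank ℂ (Representation.invariants (ρ.comp H.subtype))) := by
  classical
  have hunit : IsUnit X.det := isUnit_iff_ne_zero.mpr hdet
  set Z : Matrix (Fin m) (Fin m) ℂ := X⁻¹ with hZdef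
  have hXZ : X * Z = 1 := Matrix.mul_nonsing_inv X hunit
  have hZX : Z * X = 1 := Matrix.nonsing_inv_mul X hunit
  have hZT : Zᵀ = -Z := by
    have h1 : Zᵀ * X = -1 := by
      have h2 : Zᵀ * Xᵀ = 1 := by
        rw [← Matrix.transpose_mul, hXZ, Matrix.transpose_one]
      rw [hT, mul_neg] at h2
      rw [← neg_eq_iff_eq_neg]
      exact h2
    calc Zᵀ = Zᵀ * (X * Z) := by rw [hXZ, mul_one]
      _ = (Zᵀ * X) * Z := by rw [mul_assoc]
      _ = -Z := by rw [h1, neg_mul, one_mul]
  have hA1 : ∀ g, repMat ρ g * repMat ρ g⁻¹ = 1 := by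
    intro g
    rw [← repMat_mul]
    simp
  have hA2 : ∀ g, repMat ρ g⁻¹ * repMat ρ g = 1 := by
    intro g
    rw [← repMat_mul]
    simp
  have hZinv : ∀ g, (repMat ρ g)ᵀ * Z * repMat ρ g = Z := by
    intro g
    have h1 : X * (repMat ρ g)ᵀ = repMat ρ g⁻¹ * X := by
      calc X * (repMat ρ g)ᵀ = (repMat ρ g⁻¹ * repMat ρ g) * X * (repMat ρ g)ᵀ := by
            rw [hA2, one_mul]
        _ = repMat ρ g⁻¹ * (repMat ρ g * X * (repMat ρ g)ᵀ) := by simp only [mul_assoc]
        _ = repMat ρ g⁻¹ * X := by rw [hinv]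
    have h2 : (repMat ρ g)ᵀ * Z = Z * repMat ρ g⁻¹ := by
      calc (repMat ρ g)ᵀ * Z = (Z * X) * (repMat ρ g)ᵀ * Z := by rw [hZX, one_mul]
        _ = Z * (X * (repMat ρ g)ᵀ) * Z := by simp only [mul_assoc]
        _ = Z * (repMat ρ g⁻¹ * X) * Z := by rw [h1]
        _ = Z * repMat ρ g⁻¹ * (X * Z) := by simp only [mul_assoc]
        _ = Z * repMat ρ g⁻¹ := by rw [hXZ, mul_one]
    rw [h2, mul_assoc, hA2, mul_one]
  -- the alternating form
  let B : (Fin m → ℂ) → (Fin m → ℂ) → ℂ := fun u v => u ⬝ᵥ (Z *ᵥ v)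
  have hBinv : ∀ (g : G) (u v : Fin m → ℂ), B (ρ g u) (ρ g v) = B u v := by
    intro g u v
    simp only [B, rep_apply_eq_mulVec]
    rw [← Matrix.vecMul_transpose (repMat ρ g) u, ← Matrix.dotProduct_mulVec, Matrix.mulVec_mulVec,
      Matrix.mulVec_mulVec, hZinv]
  have hBskew : ∀ u v : Fin m → ℂ, B u v = - B v u := by
    intro u v
    simp only [B]
    rw [Matrix.dotProduct_mulVec, dotProduct_comm, ← Matrix.mulVec_transpose, hZT, Matrix.neg_mulVec,
      dotProduct_neg]
  let ρ' : Representation ℂ H (Fin m → ℂ) := ρ.comp H.subtype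
  let W := Representation.invariants ρ'
  let r := finrank ℂ W
  let b := finBasis ℂ W
  by_contra hr
  have hrodd : Odd (finrank ℂ W) := Nat.not_even_iff_odd.mp hr
  let M : Matrix (Fin (finrank ℂ W)) (Fin (finrank ℂ W)) ℂ := Matrix.of fun i j => B (b i : Fin m → ℂ) (b j : Fin m → ℂ)
  have hMT : Mᵀ = -M := by
    ext i j
    simp only [M, Matrix.transpose_apply, Matrix.of_apply, Matrix.neg_apply]
    exact hBskew _ _
  have hMdet : M.det = 0 := by
    have h1 : M.det = (-1 : ℂ) ^ (finrank ℂ W) * M.det := by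
      conv_lhs => rw [← Matrix.det_transpose, hMT]
      simp [Matrix.det_neg]
    rw [hrodd.neg_one_pow] at h1
    linear_combination (1 / 2 : ℂ) * h1
  obtain ⟨c, hc0, hc⟩ := Matrix.exists_mulVec_eq_zero_iff.mpr hMdet
  let v : Fin m → ℂ := ∑ j, c j • (b j : Fin m → ℂ)
  have hv0 : v ≠ 0 := by
    intro h
    apply hc0
    have h1 : ∑ j, c j • b j = 0 := by
      apply Subtype.ext
      simpa [v] using h
    have h2 := Fintype.linearIndependent_iff.mp b.linearIndependent c h1
    funext j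
    exact h2 j
  have hvW : ∀ h : H, ρ h v = v := by
    intro h
    have h1 : v ∈ W := by
      apply Submodule.sum_mem
      intro j _
      exact Submodule.smul_mem _ _ (b j).2
    exact h1 h
  have hBi : ∀ i, B (b i : Fin m → ℂ) v = 0 := by
    intro i
    have h1 := congrFun hc i
    simp only [Matrix.mulVec, dotProduct, M, Matrix.of_apply, Pi.zero_apply] at h1
    simp only [B, v, Matrix.mulVec_sum, Matrix.mulVec_smul, dotProduct_sum, dotProduct_smul, smul_eq_mul]
    rw [← h1]
    refine Finset.sum_congr rfl fun j _ => ?_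
    simp only [B]
    rw [mul_comm]
  have hBW : ∀ w ∈ W, B w v = 0 := by
    intro w hw
    have h2 : w = ∑ i, b.repr ⟨w, hw⟩ i • (b i : Fin m → ℂ) := by
      have h3 := congrArg Subtype.val (b.sum_repr ⟨w, hw⟩)
      simp only [Submodule.coe_sum, Submodule.coe_smul] at h3
      exact h3.symm
    rw [h2]
    simp only [B, sum_dotProduct, smul_dotProduct, smul_eq_mul]
    apply Finset.sum_eq_zero
    intro i _
    have := hBi i
    simp only [B] at this
    rw [this, mul_zero]
  have hBall : ∀ w, B w v = 0 := by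
    intro w
    have h1 := hBW (repAvg ρ' w) (repAvg_mem ρ' w)
    have h2 : B (repAvg ρ' w) v = B w v := by
      simp only [B, repAvg, LinearMap.smul_apply, LinearMap.sum_apply, smul_dotProduct, sum_dotProduct]
      have h3 : ∀ h : H, (ρ' h w) ⬝ᵥ (Z *ᵥ v) = w ⬝ᵥ (Z *ᵥ v) := by
        intro h
        have h4 := hBinv (h : G) w v
        rw [hvW h] at h4
        exact h4
      simp only [h3, Finset.sum_const, Finset.card_univ, nsmul_eq_mul, smul_eq_mul, Nat.card_eq_fintype_card]
      rw [← mul_assoc, inv_mul_cancel₀, one_mul]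
      exact_mod_cast Fintype.card_ne_zero
    rw [← h2, h1]
  have hZv : Z *ᵥ v = 0 := by
    funext i
    have := hBall (Pi.single i 1)
    simpa [B] using this
  apply hv0
  have : X *ᵥ (Z *ᵥ v) = v := by
    rw [Matrix.mulVec_mulVec, hXZ, Matrix.one_mulVec]
  rw [← this, hZv, Matrix.mulVec_zero]

/-- In a symplectic irreducible representation, the fixed points of every subgroup have
even dimension (model form). -/
theorem even_finrank_of_indicator_neg [ρ.IsIrreducible] (hreal : ∀ s, (ρ.character s).im = 0)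
    (hν : (Nat.card G : ℂ)⁻¹ * ∑ s : G, ρ.character (s * s) = -1) (H : Subgroup G) [Fintype H] :
    Even (finrank ℂ (Representation.invariants (ρ.comp H.subtype))) := by
  obtain ⟨X, ε, hX, hε, hinv, hT, hν'⟩ := (fs_main ρ).2 hreal
  have hdet := det_ne_zero_of_invariant ρ hX hinv
  have hε' : ε = -1 := by rw [← hν', hν]
  rw [hε'] at hT
  apply even_finrank_invariants_of_symplectic ρ hdet hinv
  rw [hT]
  ext i j
  simp

end Model

section Fun

variable {G : Type u} [Group G] [Fintype G]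

/-- **`ν(χ) = -1` implies `⟨χ_H, 1_H⟩` is even.** -/
theorem even_classInner_res_of_fsInd_eq_neg_one {χ : G → ℂ} (hχ : IsIrrCharacter G χ)
    (hν : fsInd χ = -1) (H : Subgroup G) [Fintype H] :
    ∃ k : ℕ, classInner (fun x : H => χ x) (fun _ => 1) = ((2 * k : ℕ) : ℂ) := by
  have hreal := im_eq_zero_of_fsInd_ne_zero hχ (by rw [hν]; norm_num)
  obtain ⟨n, ρ, hρ, rfl⟩ := hχ
  have h1 := classInner_res_one_eq_finrank ρ H
  obtain ⟨k, hk⟩ := even_finrank_of_indicator_neg ρ hreal hν H
  refine ⟨k, ?_⟩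
  rw [h1, hk]
  congr 1
  ring

end Fun

end Cfsg.Agent.Lib.Char
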