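import Cfsg.Agent.Lib.Char.FW5
import Cfsg.Agent.Lib.OddChar.ThompsonFpf

/-! # The Frobenius-Wielandt fixed point formula. -/

set_option autoImplicit false

namespace Cfsg.Agent.Lib.Char.FW

open Subgroup
open Cfsg.Agent.Lib.Coprime

variable {X : Type*} [Group X] [Finite X]

/-- Data of a Frobenius group inside `U ⊔ E`. -/
theorem frob_data (U E : Subgroup X) (hE1 : E ≠ ⊥) (hUn : ∀ e ∈ E, ∀ u ∈ U, e * u * e⁻¹ ∈ U)
    (hfpf : ∀ e ∈ E, e ≠ 1 → ∀ u ∈ U, e * u = u * e → u = 1) :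
    (∀ f : ↥(U ⊔ E), ∀ u ∈ U.subgroupOf (U ⊔ E), f * u * f⁻¹ ∈ U.subgroupOf (U ⊔ E)) ∧
    (∀ e ∈ E.subgroupOf (U ⊔ E), e ≠ 1 → ∀ u ∈ U.subgroupOf (U ⊔ E), e * u = u * e → u = 1) ∧
    Group.IsNilpotent ↥(U.subgroupOf (U ⊔ E)) ∧
    U.subgroupOf (U ⊔ E) ⊔ E.subgroupOf (U ⊔ E) = ⊤ ∧
    Nat.card ↥(E.subgroupOf (U ⊔ E)) = Nat.card E := by
  have hnorm : U ⊔ E ≤ normalizer (U : Set X) := by
    refine sup_le le_normalizer ?_
    intro e he
    rw [Subgroup.mem_normalizer_iff]
    intro u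
    constructor
    · exact hUn e he u
    · intro h
      have := hUn e⁻¹ (E.inv_mem he) _ h
      simpa [mul_assoc] using this
  have h1 : ∀ f : ↥(U ⊔ E), ∀ u ∈ U.subgroupOf (U ⊔ E), f * u * f⁻¹ ∈ U.subgroupOf (U ⊔ E) := by
    intro f u hu
    rw [Subgroup.mem_subgroupOf] at hu ⊢
    exact (Subgroup.mem_normalizer_iff.mp (hnorm f.2) u).mp hu
  have h2 : ∀ e ∈ E.subgroupOf (U ⊔ E), e ≠ 1 → ∀ u ∈ U.subgroupOf (U ⊔ E), e * u = u * e → u = 1 := by
    intro e he he1 u hu heu
    rw [Subgroup.mem_subgroupOf] at he hu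
    apply Subtype.ext
    exact hfpf e he (fun h => he1 (Subtype.ext h)) u hu (congrArg Subtype.val heu)
  have h3 : Nat.card ↥(E.subgroupOf (U ⊔ E)) = Nat.card E :=
    Nat.card_congr (Subgroup.subgroupOfEquivOfLe le_sup_right).toEquiv
  refine ⟨h1, h2, ?_, ?_, h3⟩
  · haveI : (U.subgroupOf (U ⊔ E)).Normal := ⟨fun u hu g => h1 g u hu⟩
    haveI : Nontrivial E := by
      rw [Subgroup.nontrivial_iff_ne_bot]
      exact hE1
    obtain ⟨r, hr, hdvd⟩ := Nat.exists_prime_and_dvd (Finite.one_lt_card (α := E)).ne'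
    haveI : Fact r.Prime := ⟨hr⟩
    obtain ⟨e, he⟩ := exists_prime_orderOf_dvd_card' (G := E) r hdvd
    let e' : ↥(U ⊔ E) := ⟨e, le_sup_right (a := U) e.2⟩
    refine Cfsg.Agent.Lib.OddChar.nilpotent_of_fpf_element (U.subgroupOf (U ⊔ E)) (k := e') hr ?_ ?_
    · apply Subtype.ext
      have h4 : (e : X) ^ r = 1 := by
        rw [← he]
        have : e ^ orderOf e = 1 := pow_orderOf_eq_one e
        exact congrArg Subtype.val this
      simpa [e'] using h4
    · intro h hh heh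
      apply h2 e' (by rw [Subgroup.mem_subgroupOf]; exact e.2) _ h hh heh
      intro h5
      have h6 : e = 1 := Subtype.ext (congrArg (fun z : ↥(U ⊔ E) => (z : X)) h5)
      rw [h6, orderOf_one] at he
      exact hr.one_lt.ne he
  · apply Subgroup.map_injective (U ⊔ E).subtype_injective
    rw [Subgroup.map_sup, Subgroup.map_subgroupOf_eq_of_le le_sup_left,
      Subgroup.map_subgroupOf_eq_of_le le_sup_right, ← MonoidHom.range_eq_map, Subgroup.range_subtype]

theorem main_formula (U E : Subgroup X) (hE1 : E ≠ ⊥) (hUn : ∀ e ∈ E, ∀ u ∈ U, e * u * e⁻¹ ∈ U)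
    (hfpf : ∀ e ∈ E, e ≠ 1 → ∀ u ∈ U, e * u = u * e → u = 1) :
    ∀ (n : ℕ) (K : Subgroup X), Nat.card K = n → (∀ x ∈ U ⊔ E, ∀ h ∈ K, x * h * x⁻¹ ∈ K) →
      Group.IsSolvable K → Nat.Coprime (Nat.card K) (Nat.card ↥(U ⊔ E)) →
      Nat.card ↥(K ⊓ centralizer ((U ⊔ E : Subgroup X) : Set X)) ^ Nat.card E * Nat.card K =
        Nat.card ↥(K ⊓ centralizer (E : Set X)) ^ Nat.card E *
          Nat.card ↥(K ⊓ centralizer (U : Set X)) := by
  obtain ⟨hU', hfree', hnil', htop', hcardE'⟩ := frob_data U E hE1 hUn hfpf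
  intro n
  induction n using Nat.strong_induction_on with
  | _ n ih =>
    intro K hKn hK hsolv hcop
    by_cases hK1 : K = ⊥
    · subst hK1
      simp
    haveI := hsolv
    haveI hnt : Nontrivial K := by
      rw [Subgroup.nontrivial_iff_ne_bot]
      exact hK1
    let B := Abelianization ↥K
    have hBcard : Nat.card B ≠ 1 := by
      have h1 := Group.IsSolvable.commutator_lt_top_of_nontrivial (G := ↥K)
      intro h2
      have h3 : (commutator ↥K).index = 1 := h2
      rw [Subgroup.index_eq_one] at h3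
      exact h1.ne h3
    obtain ⟨r, hr, hrB⟩ := Nat.exists_prime_and_dvd hBcard
    haveI : Fact r.Prime := ⟨hr⟩
    have hrK : r ∣ Nat.card K := hrB.trans (Subgroup.card_quotient_dvd_card _)
    let N₀ : Subgroup ↥K := ((powMonoidHom r : B →* B).range).comap Abelianization.of
    haveI hN₀n : N₀.Normal := Subgroup.Normal.comap inferInstance _
    have hmemN₀ : ∀ x : K, x ∈ N₀ ↔ ∃ b : B, b ^ r = Abelianization.of x := fun x => Iff.rfl
    have hN₀top : N₀ ≠ ⊤ := by
      intro htop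
      have hsurj : Function.Surjective (powMonoidHom r : B →* B) := by
        intro b
        obtain ⟨x, rfl⟩ := QuotientGroup.mk_surjective b
        have h1 : x ∈ N₀ := by rw [htop]; exact Subgroup.mem_top x
        exact h1
      have hinj := Finite.injective_iff_surjective.mpr hsurj
      obtain ⟨y, hy⟩ := exists_prime_orderOf_dvd_card' (G := B) r hrB
      have h2 : (powMonoidHom r : B →* B) y = (powMonoidHom r : B →* B) 1 := by
        show y ^ r = 1 ^ r
        rw [one_pow, ← hy, pow_orderOf_eq_one]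
      have h3 := hinj h2
      rw [h3, orderOf_one] at hy
      exact hr.one_lt.ne hy
    have hN₀inv : ∀ f : ↥(U ⊔ E), ∀ x ∈ N₀, psi (U ⊔ E) K hK f x ∈ N₀ := by
      intro f x hx
      obtain ⟨b, hb⟩ := (hmemN₀ x).mp hx
      rw [hmemN₀]
      refine ⟨Abelianization.map (psi (U ⊔ E) K hK f) b, ?_⟩
      rw [← map_pow, hb, Abelianization.map_of]
    have hcomm : ∀ x y : ↥K ⧸ N₀, x * y = y * x := by
      intro x y
      obtain ⟨x, rfl⟩ := QuotientGroup.mk_surjective x
      obtain ⟨y, rfl⟩ := QuotientGroup.mk_surjective y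
      rw [← QuotientGroup.mk_mul, ← QuotientGroup.mk_mul, QuotientGroup.eq, hmemN₀]
      refine ⟨1, ?_⟩
      simp only [one_pow, map_mul, map_inv]
      rw [mul_comm (Abelianization.of y) (Abelianization.of x)]
      simp
    have hexp : ∀ x : ↥K ⧸ N₀, x ^ r = 1 := by
      intro x
      obtain ⟨x, rfl⟩ := QuotientGroup.mk_surjective x
      rw [← QuotientGroup.mk_pow, QuotientGroup.eq_one_iff, hmemN₀]
      exact ⟨Abelianization.of x, by rw [map_pow]⟩
    let N : Subgroup X := N₀.map K.subtype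
    have hNcard : Nat.card N = Nat.card N₀ :=
      (Nat.card_congr (N₀.equivMapOfInjective _ K.subtype_injective).toEquiv).symm
    have hKQN : Nat.card K = Nat.card (↥K ⧸ N₀) * Nat.card N := by
      rw [hNcard, ← Subgroup.card_eq_card_quotient_mul_card_subgroup]
    have hQ2 : 1 < Nat.card (↥K ⧸ N₀) := by
      have h1 : N₀.index ≠ 1 := by
        rw [Ne, Subgroup.index_eq_one]
        exact hN₀top
      have h2 : N₀.index ≠ 0 := Subgroup.index_ne_zero_of_finite
      show 1 < N₀.index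
      omega
    have hNlt : Nat.card N < n := by
      rw [← hKn, hKQN]
      have h1 : 0 < Nat.card N := Nat.card_pos
      nlinarith
    have hNinv : ∀ x ∈ U ⊔ E, ∀ h ∈ N, x * h * x⁻¹ ∈ N := by
      rintro x hx _ ⟨n₀, hn₀, rfl⟩
      exact ⟨_, hN₀inv ⟨x, hx⟩ n₀ hn₀, rfl⟩
    haveI hsolvN : Group.IsSolvable N :=
      Group.isSolvable_of_surjective (f := (N₀.equivMapOfInjective _ K.subtype_injective).toMonoidHom)
        (N₀.equivMapOfInjective _ K.subtype_injective).surjective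
    have hNK : N ≤ K := Subgroup.map_subtype_le _
    have hcopN : Nat.Coprime (Nat.card N) (Nat.card ↥(U ⊔ E)) :=
      hcop.coprime_dvd_left (Subgroup.card_dvd_of_le hNK)
    have hIH := ih _ hNlt N rfl hNinv hsolvN hcopN
    have hQ := formula_abstract (r := r) hcomm hexp (phi (U ⊔ E) K hK N₀ hN₀inv)
      (fun h => by
        have := Nat.dvd_gcd hrK h
        rw [hcop] at this
        exact hr.one_lt.ne' (Nat.dvd_one.mp this))
      (U.subgroupOf (U ⊔ E)) (E.subgroupOf (U ⊔ E)) hfree' hU' hnil' htop'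
    have hact : ∀ A : Subgroup X, A ≤ U ⊔ E → CoprimeAction A K := by
      intro A hA
      refine ⟨?_, (hcop.symm.coprime_dvd_left (Subgroup.card_dvd_of_le hA)), Or.inr hsolv⟩
      intro a ha
      rw [Subgroup.mem_normalizer_iff]
      intro k
      constructor
      · exact hK a (hA ha) k
      · intro h
        have := hK a⁻¹ (hA (A.inv_mem ha)) _ h
        simpa [mul_assoc] using this
    have hF := section_card (U ⊔ E) K hK N₀ hN₀inv (U ⊔ E) le_rfl ⊤
      (fun a => by simp) (hact _ le_rfl)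
    have hUU := section_card (U ⊔ E) K hK N₀ hN₀inv U le_sup_left (U.subgroupOf (U ⊔ E))
      (fun a => Subgroup.mem_subgroupOf) (hact _ le_sup_left)
    have hEE := section_card (U ⊔ E) K hK N₀ hN₀inv E le_sup_right (E.subgroupOf (U ⊔ E))
      (fun a => Subgroup.mem_subgroupOf) (hact _ le_sup_right)
    rw [hcardE'] at hQ
    rw [hF, hUU, hEE, hKQN, mul_pow, mul_pow]
    calc _ = (Nat.card ↥(N₀.map K.subtype ⊓ centralizer ((U ⊔ E : Subgroup X) : Set X)) ^ Nat.card E * Nat.card N) *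
          (Nat.card {x : ↥K ⧸ N₀ // ∀ a ∈ (⊤ : Subgroup ↥(U ⊔ E)), phi (U ⊔ E) K hK N₀ hN₀inv a x = x} ^ Nat.card E
            * Nat.card (↥K ⧸ N₀)) := by ring
      _ = _ := by
        rw [hIH, hQ]
        ring

end Cfsg.Agent.Lib.Char.FW
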