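import Mathlib
import Cfsg.Agent.Lib.Char.WreathC
import Cfsg.Agent.Lib.Char.Basic
import Cfsg.Agent.Lib.Char.Degree

/-! # Fully ramified groups from regular affine permutation groups -/

set_option autoImplicit false
set_option linter.unusedSectionVars false

namespace Cfsg.Agent.Lib.Char.FR

open Cfsg Cfsg.Agent.Lib.Char ComplexConjugate

universe u

section Mono

variable {M : Type u}

/-- The monomial operator with coefficient function `a` and permutation `π`. -/
noncomputable def monoOp (a : M → ℂˣ) (π : Equiv.Perm M) : (M → ℂ) ≃ₗ[ℂ] (M → ℂ) where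
  toFun F := fun m => (a m : ℂ) * F (π⁻¹ m)
  invFun F := fun m => (((a (π m))⁻¹ : ℂˣ) : ℂ) * F (π m)
  map_add' F K := by ext m; simp [mul_add]
  map_smul' c F := by ext m; simp; ring
  left_inv F := by ext m; simp
  right_inv F := by ext m; simp

theorem monoOp_apply (a : M → ℂˣ) (π : Equiv.Perm M) (F : M → ℂ) (m : M) :
    monoOp a π F m = (a m : ℂ) * F (π⁻¹ m) := rfl

theorem monoOp_mul (a b : M → ℂˣ) (π σ : Equiv.Perm M) :
    monoOp a π * monoOp b σ = monoOp (fun m => a m * b (π⁻¹ m)) (π * σ) := by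
  ext F m
  simp [monoOp_apply, LinearEquiv.mul_apply, mul_assoc]

theorem monoOp_one : monoOp (fun _ => (1 : ℂˣ)) (1 : Equiv.Perm M) = 1 := by
  ext F m
  simp [monoOp_apply]

theorem monoOp_inv (a : M → ℂˣ) (π : Equiv.Perm M) :
    (monoOp a π)⁻¹ = monoOp (fun m => (a (π m))⁻¹) π⁻¹ := by
  rw [inv_eq_iff_mul_eq_one, monoOp_mul, ← monoOp_one]
  congr 1
  · ext m
    simp
  · simp

theorem monoOp_injective [DecidableEq M] {a b : M → ℂˣ} {π σ : Equiv.Perm M} (h : monoOp a π = monoOp b σ) :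
    π = σ ∧ a = b := by
  have h1 : ∀ n m : M, (a m : ℂ) * (Pi.single n 1 : M → ℂ) (π⁻¹ m) = (b m : ℂ) * (Pi.single n 1 : M → ℂ) (σ⁻¹ m) := by
    intro n m
    have := congrFun (congrArg (fun T : (M → ℂ) ≃ₗ[ℂ] (M → ℂ) => T (Pi.single n 1)) h) m
    simpa [monoOp_apply] using this
  have hπ : π = σ := by
    ext n
    have h2 := h1 n (π n)
    have h5 : π⁻¹ (π n) = n := by simp
    rw [h5, Pi.single_eq_same, mul_one] at h2
    by_contra hne
    have h3 : σ⁻¹ (π n) ≠ n := by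
      intro h4
      apply hne
      rw [Equiv.Perm.inv_eq_iff_eq] at h4
      exact h4
    rw [Pi.single_eq_of_ne h3, mul_zero] at h2
    exact (a (π n)).ne_zero h2
  subst hπ
  refine ⟨rfl, ?_⟩
  ext m
  have h2 := h1 (π⁻¹ m) m
  simpa using h2

theorem trace_monoOp [Fintype M] [DecidableEq M] (a : M → ℂˣ) (π : Equiv.Perm M) :
    LinearMap.trace ℂ (M → ℂ) (monoOp a π : (M → ℂ) ≃ₗ[ℂ] (M → ℂ)).toLinearMap =
      ∑ m, if π m = m then (a m : ℂ) else 0 := by
  rw [LinearMap.trace_eq_matrix_trace ℂ (Pi.basisFun ℂ M), Matrix.trace]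
  refine Finset.sum_congr rfl fun m _ => ?_
  rw [Matrix.diag_apply, LinearMap.toMatrix_apply]
  simp only [Pi.basisFun_repr, Pi.basisFun_apply, LinearEquiv.coe_coe]
  rw [monoOp_apply]
  by_cases h : π m = m
  · have h2 : π⁻¹ m = m := by
      rw [Equiv.Perm.inv_eq_iff_eq]
      exact h.symm
    rw [if_pos h, h2]
    simp
  · have h2 : π⁻¹ m ≠ m := by
      intro h3
      apply h
      rw [Equiv.Perm.inv_eq_iff_eq] at h3
      exact h3.symm
    rw [if_neg h, Pi.single_eq_of_ne h2, mul_zero]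

end Mono

section Aff

variable {M : Type u} [AddCommGroup M]

/-- A regular group of affine permutations. -/
structure RegAff (Γ : Subgroup (Equiv.Perm M)) : Prop where
  affine : ∀ g ∈ Γ, ∃ (α : M →+ M) (b : M), ∀ m, g m = α m + b
  trans : ∀ m n : M, ∃ g ∈ Γ, g m = n
  free : ∀ g ∈ Γ, ∀ m, g m = m → g = 1

/-- The values of a character, as units. -/
noncomputable def uv (ν : AddChar M ℂ) (m : M) : ℂˣ := (AddChar.val_isUnit ν m).unit

@[simp] theorem coe_uv (ν : AddChar M ℂ) (m : M) : (uv ν m : ℂ) = ν m := rfl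

theorem uv_zero (ν : AddChar M ℂ) : uv ν 0 = 1 := by
  ext
  simp

theorem uv_add (ν : AddChar M ℂ) (m n : M) : uv ν (m + n) = uv ν m * uv ν n := by
  ext
  simp [AddChar.map_add_eq_mul]

theorem uv_mul (ν μ : AddChar M ℂ) (m : M) : uv (ν * μ) m = uv ν m * uv μ m := by
  ext
  simp

theorem uv_inv (ν : AddChar M ℂ) (m : M) : uv ν⁻¹ m = (uv ν m)⁻¹ := by
  ext
  simp [AddChar.map_neg_eq_inv]

theorem uv_one (m : M) : uv (1 : AddChar M ℂ) m = 1 := by
  ext
  simp

theorem uv_comp {α : M →+ M} (ν : AddChar M ℂ) (m : M) : uv (ν.compAddMonoidHom α) m = uv ν (α m) := by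
  ext
  simp

theorem uv_pow {e : ℕ} (he : ∀ m : M, e • m = 0) (ν : AddChar M ℂ) (m : M) : uv ν m ^ e = 1 := by
  ext
  simp only [Units.val_pow_eq_pow_val, coe_uv, Units.val_one]
  rw [← AddChar.map_nsmul_eq_pow, he, AddChar.map_zero_eq_one]

/-- The operator attached to a scalar, a character and a permutation. -/
noncomputable def tOp (c : ℂˣ) (ν : AddChar M ℂ) (π : Equiv.Perm M) : (M → ℂ) ≃ₗ[ℂ] (M → ℂ) :=
  monoOp (fun m => c * uv ν m) π

theorem tOp_mul {c d : ℂˣ} {ν μ : AddChar M ℂ} {π σ : Equiv.Perm M} {α : M →+ M} {b : M}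
    (h : ∀ m, π⁻¹ m = α m + b) :
    tOp c ν π * tOp d μ σ = tOp (c * d * uv μ b) (ν * μ.compAddMonoidHom α) (π * σ) := by
  unfold tOp
  rw [monoOp_mul]
  congr 1
  ext m
  rw [h, uv_mul, uv_comp, uv_add]
  push_cast
  ring

theorem tOp_one : tOp (1 : ℂˣ) (1 : AddChar M ℂ) 1 = 1 := by
  unfold tOp
  rw [← monoOp_one]
  congr 1
  ext m
  simp [uv_one]

theorem tOp_inv {c : ℂˣ} {ν : AddChar M ℂ} {π : Equiv.Perm M} {α : M →+ M} {b : M}
    (h : ∀ m, π m = α m + b) :
    (tOp c ν π)⁻¹ = tOp (c⁻¹ * (uv ν b)⁻¹) (ν.compAddMonoidHom α)⁻¹ π⁻¹ := by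
  unfold tOp
  rw [monoOp_inv]
  congr 1
  ext m
  rw [h, uv_inv, uv_comp, uv_add]
  simp only [mul_inv_rev]
  push_cast
  ring

/-- The fully ramified group attached to a regular group of affine permutations. -/
noncomputable def H0 {Γ : Subgroup (Equiv.Perm M)} (hΓ : RegAff Γ) (e : ℕ) (he : ∀ m : M, e • m = 0) :
    Subgroup ((M → ℂ) ≃ₗ[ℂ] (M → ℂ)) where
  carrier := {x | ∃ c ∈ rootsOfUnity e ℂ, ∃ ν : AddChar M ℂ, ∃ π ∈ Γ, x = tOp c ν π}
  mul_mem' := by
    rintro x y ⟨c, hc, ν, π, hπ, rfl⟩ ⟨d, hd, μ, σ, hσ, rfl⟩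
    obtain ⟨α, b, hab⟩ := hΓ.affine _ (Γ.inv_mem hπ)
    refine ⟨c * d * uv μ b, ?_, _, _, Γ.mul_mem hπ hσ, tOp_mul hab⟩
    rw [mem_rootsOfUnity] at hc hd ⊢
    rw [mul_pow, mul_pow, hc, hd, uv_pow he]
    simp
  one_mem' := ⟨1, one_mem _, 1, 1, one_mem _, tOp_one.symm⟩
  inv_mem' := by
    rintro x ⟨c, hc, ν, π, hπ, rfl⟩
    obtain ⟨α, b, hab⟩ := hΓ.affine _ hπ
    refine ⟨c⁻¹ * (uv ν b)⁻¹, ?_, _, _, Γ.inv_mem hπ, tOp_inv hab⟩
    rw [mem_rootsOfUnity] at hc ⊢
    rw [mul_pow, inv_pow, inv_pow, hc, uv_pow he]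
    simp

theorem tOp_injective {c d : ℂˣ} {ν μ : AddChar M ℂ} {π σ : Equiv.Perm M} (h : tOp c ν π = tOp d μ σ) :
    c = d ∧ ν = μ ∧ π = σ := by
  classical
  obtain ⟨h1, h2⟩ := monoOp_injective h
  have h3 := congrFun h2 0
  simp only [uv_zero, mul_one] at h3
  refine ⟨h3, ?_, h1⟩
  ext m
  have h4 := congrFun h2 m
  simp only [h3, mul_right_inj] at h4
  have := congrArg Units.val h4
  simpa using this

end Aff

section Main

variable {M : Type u} [AddCommGroup M] [Fintype M] [DecidableEq M] {Γ : Subgroup (Equiv.Perm M)}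
  (hΓ : RegAff Γ) {e : ℕ} [NeZero e] (he : ∀ m : M, e • m = 0)

/-- The parametrization of the fully ramified group. -/
noncomputable def Phi (t : rootsOfUnity e ℂ × AddChar M ℂ × Γ) : H0 hΓ e he :=
  ⟨tOp t.1 t.2.1 t.2.2, t.1, t.1.2, t.2.1, t.2.2, t.2.2.2, rfl⟩

theorem Phi_coe (t : rootsOfUnity e ℂ × AddChar M ℂ × Γ) :
    (Phi hΓ he t : (M → ℂ) ≃ₗ[ℂ] (M → ℂ)) = tOp t.1 t.2.1 t.2.2 := rfl

theorem Phi_bijective : Function.Bijective (Phi hΓ he) := by
  constructor
  · rintro ⟨c, ν, π⟩ ⟨d, μ, σ⟩ h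
    have h1 := congrArg Subtype.val h
    rw [Phi_coe, Phi_coe] at h1
    obtain ⟨h2, h3, h4⟩ := tOp_injective h1
    have h5 : c = d := Subtype.ext h2
    have h6 : π = σ := Subtype.ext h4
    subst h5 h3 h6
    rfl
  · rintro ⟨x, c, hc, ν, π, hπ, rfl⟩
    exact ⟨(⟨c, hc⟩, ν, ⟨π, hπ⟩), rfl⟩

include hΓ in
theorem card_Γ_of_regAff : Nat.card Γ = Nat.card M := by
  apply Nat.card_eq_of_bijective (fun g : Γ => (g : Equiv.Perm M) 0)
  constructor
  · intro g h hgh
    apply Subtype.ext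
    have hgh' : (g : Equiv.Perm M) 0 = (h : Equiv.Perm M) 0 := hgh
    have h1 : (h : Equiv.Perm M)⁻¹ * g ∈ Γ := Γ.mul_mem (Γ.inv_mem h.2) g.2
    have h2 := hΓ.free _ h1 0 (by simp [hgh'])
    rw [inv_mul_eq_one] at h2
    exact h2.symm
  · intro n
    obtain ⟨g, hg, hn⟩ := hΓ.trans 0 n
    exact ⟨⟨g, hg⟩, hn⟩

instance : Finite (H0 hΓ e he) := Finite.of_surjective _ (Phi_bijective hΓ he).2

theorem card_H0 : Nat.card (H0 hΓ e he) = e * (Nat.card M * Nat.card M) := by
  rw [← Nat.card_congr (Equiv.ofBijective _ (Phi_bijective hΓ he)), Nat.card_prod, Nat.card_prod,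
    card_Γ_of_regAff hΓ, Complex.card_rootsOfUnity,
    Nat.card_eq_fintype_card (α := AddChar M ℂ), AddChar.card_eq, Nat.card_eq_fintype_card]

/-- The tautological representation. -/
noncomputable def rho : Representation ℂ (H0 hΓ e he) (M → ℂ) :=
  (LinearEquiv.automorphismGroup.toLinearMapMonoidHom).comp (H0 hΓ e he).subtype

theorem rho_character_Phi (t : rootsOfUnity e ℂ × AddChar M ℂ × Γ) :
    (rho hΓ he).character (Phi hΓ he t) =
      if t.2.2 = 1 ∧ t.2.1 = 1 then ((t.1 : ℂˣ) : ℂ) * (Nat.card M : ℂ) else 0 := by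
  obtain ⟨c, ν, π⟩ := t
  have h0 : (rho hΓ he).character (Phi hΓ he (c, ν, π)) =
      LinearMap.trace ℂ (M → ℂ) (tOp (c : ℂˣ) ν (π : Equiv.Perm M)).toLinearMap := rfl
  rw [h0]
  unfold tOp
  rw [trace_monoOp]
  dsimp only
  by_cases hπ : π = 1
  · subst hπ
    simp only [OneMemClass.coe_one, Equiv.Perm.coe_one, id_eq, if_true, Units.val_mul, coe_uv, true_and]
    rw [← Finset.mul_sum]
    by_cases hν : ν = 1
    · subst hν
      simp [Nat.card_eq_fintype_card]
    · rw [if_neg hν]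
      have h1 := AddChar.sum_eq_zero_iff_ne_zero (ψ := ν)
      rw [h1.mpr hν, mul_zero]
  · rw [if_neg (fun h => hπ h.1)]
    apply Finset.sum_eq_zero
    intro m _
    rw [if_neg]
    intro h
    exact hπ (Subtype.ext (hΓ.free _ π.2 m h))

theorem rho_classInner [Fintype (H0 hΓ e he)] :
    classInner (rho hΓ he).character (rho hΓ he).character = 1 := by
  classical
  letI : Fintype (rootsOfUnity e ℂ) := Fintype.ofFinite _
  letI : Fintype Γ := Fintype.ofFinite _
  unfold classInner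
  rw [card_H0 hΓ he]
  have hsum := Function.Bijective.sum_comp (Phi_bijective hΓ he)
    (fun h => (rho hΓ he).character h * conj ((rho hΓ he).character h))
  rw [← hsum]
  have h1 : ∀ t : rootsOfUnity e ℂ × AddChar M ℂ × Γ,
      (rho hΓ he).character (Phi hΓ he t) * conj ((rho hΓ he).character (Phi hΓ he t)) =
        if t.2.2 = 1 ∧ t.2.1 = 1 then ((Nat.card M : ℂ) * (Nat.card M : ℂ)) else 0 := by
    intro t
    rw [rho_character_Phi]
    by_cases h : t.2.2 = 1 ∧ t.2.1 = 1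
    · rw [if_pos h, if_pos h, map_mul, Complex.conj_natCast]
      have h2 : ((t.1 : ℂˣ) : ℂ) * conj ((t.1 : ℂˣ) : ℂ) = 1 := by
        rw [Complex.mul_conj, Complex.normSq_eq_norm_sq,
          Complex.norm_eq_one_of_mem_rootsOfUnity t.1.2]
        simp
      calc ((t.1 : ℂˣ) : ℂ) * (Nat.card M : ℂ) * (conj ((t.1 : ℂˣ) : ℂ) * (Nat.card M : ℂ))
          = (((t.1 : ℂˣ) : ℂ) * conj ((t.1 : ℂˣ) : ℂ)) * ((Nat.card M : ℂ) * (Nat.card M : ℂ)) := by ring
        _ = _ := by rw [h2, one_mul]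
    · rw [if_neg h, if_neg h, zero_mul]
  simp_rw [h1]
  have h2 : ∀ c : rootsOfUnity e ℂ, ∑ y : AddChar M ℂ × Γ, (if y.2 = 1 ∧ y.1 = 1 then ((Nat.card M : ℂ) * (Nat.card M : ℂ)) else 0) =
      (Nat.card M : ℂ) * (Nat.card M : ℂ) := by
    intro c
    rw [Fintype.sum_prod_type]
    rw [Finset.sum_eq_single (1 : AddChar M ℂ)]
    · rw [Finset.sum_eq_single (1 : Γ)]
      · simp
      · intro b _ hb
        simp [hb]
      · simp
    · intro b _ hb
      apply Finset.sum_eq_zero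
      intro x _
      simp [hb]
    · simp
  have hMne : (Nat.card M : ℂ) ≠ 0 := Nat.cast_ne_zero.mpr Nat.card_pos.ne'
  have hene : (e : ℂ) ≠ 0 := Nat.cast_ne_zero.mpr (NeZero.ne e)
  have h3 : Fintype.card (rootsOfUnity e ℂ) = e := by
    rw [← Nat.card_eq_fintype_card, Complex.card_rootsOfUnity]
  have h5 : ∑ t : rootsOfUnity e ℂ × AddChar M ℂ × Γ, (if t.2.2 = 1 ∧ t.2.1 = 1 then ((Nat.card M : ℂ) * (Nat.card M : ℂ)) else 0) =
      (e : ℂ) * ((Nat.card M : ℂ) * (Nat.card M : ℂ)) := by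
    rw [Fintype.sum_prod_type]
    trans (∑ _c : rootsOfUnity e ℂ, ((Nat.card M : ℂ) * (Nat.card M : ℂ)))
    · exact Finset.sum_congr rfl fun c _ => h2 c
    · rw [Finset.sum_const, Finset.card_univ, nsmul_eq_mul, h3]
  rw [h5]
  push_cast
  field_simp

theorem mem_center_H0 (x : H0 hΓ e he) :
    x ∈ Subgroup.center (H0 hΓ e he) ↔ ∃ c : rootsOfUnity e ℂ, x = Phi hΓ he (c, 1, 1) := by
  constructor
  · intro hx
    obtain ⟨⟨c, ν, π⟩, rfl⟩ := (Phi_bijective hΓ he).2 x
    rw [Subgroup.mem_center_iff] at hx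
    have hπ : π = 1 := by
      have h1 : ∀ (μ : AddChar M ℂ) (m : M), μ ((π : Equiv.Perm M)⁻¹ m) = μ m := by
        intro μ m
        have h2 := congrArg Subtype.val (hx (Phi hΓ he (1, μ, 1)))
        simp only [Subgroup.coe_mul, Phi_coe] at h2
        unfold tOp at h2
        rw [monoOp_mul, monoOp_mul] at h2
        obtain ⟨-, h3⟩ := monoOp_injective h2
        have h4 := congrFun h3 m
        have h5 := congrArg Units.val h4
        simp only [OneMemClass.coe_one, Units.val_mul, Units.val_one, one_mul, coe_uv, inv_one,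
          Equiv.Perm.coe_one, id_eq] at h5
        have h6 : ((c : ℂˣ) : ℂ) * ν m ≠ 0 :=
          mul_ne_zero (Units.ne_zero _) (AddChar.val_isUnit ν m).ne_zero
        have h7 : μ m * (((c : ℂˣ) : ℂ) * ν m) = μ ((π : Equiv.Perm M)⁻¹ m) * (((c : ℂˣ) : ℂ) * ν m) := by
          rw [h5]
          ring
        exact (mul_right_cancel₀ h6 h7).symm
      have h2 : (π : Equiv.Perm M)⁻¹ 0 = 0 := by
        rw [← AddChar.forall_apply_eq_zero]
        intro μ
        rw [h1 μ 0, AddChar.map_zero_eq_one]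
      have h3 := hΓ.free _ (Γ.inv_mem π.2) 0 h2
      apply Subtype.ext
      simpa using h3
    subst hπ
    have hν : ν = 1 := by
      ext m
      obtain ⟨σ, hσ, hσm⟩ := hΓ.trans 0 m
      have h2 := congrArg Subtype.val (hx (Phi hΓ he (1, 1, ⟨σ, hσ⟩)))
      simp only [Subgroup.coe_mul, Phi_coe] at h2
      unfold tOp at h2
      rw [monoOp_mul, monoOp_mul] at h2
      obtain ⟨-, h3⟩ := monoOp_injective h2
      have h4 := congrFun h3 m
      have h5 := congrArg Units.val h4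
      have hσi : σ⁻¹ m = 0 := by
        rw [Equiv.Perm.inv_eq_iff_eq]
        exact hσm.symm
      simp only [OneMemClass.coe_one, Units.val_mul, Units.val_one, one_mul, coe_uv, inv_one,
        Equiv.Perm.coe_one, id_eq, hσi, AddChar.map_zero_eq_one, mul_one, AddChar.one_apply] at h5
      have h6 : ((c : ℂˣ) : ℂ) ≠ 0 := Units.ne_zero _
      rw [AddChar.one_apply]
      exact (mul_left_cancel₀ h6 (by rw [mul_one]; exact h5.symm))
    subst hν
    exact ⟨c, rfl⟩
  · rintro ⟨c, rfl⟩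
    rw [Subgroup.mem_center_iff]
    intro y
    obtain ⟨⟨d, μ, π⟩, rfl⟩ := (Phi_bijective hΓ he).2 y
    apply Subtype.ext
    simp only [Subgroup.coe_mul, Phi_coe]
    unfold tOp
    rw [monoOp_mul, monoOp_mul]
    congr 1
    ext m
    simp [uv_one]
    ring

theorem card_center_H0 : Nat.card (Subgroup.center (H0 hΓ e he)) = e := by
  have h0 : Nat.card (rootsOfUnity e ℂ) = Nat.card (Subgroup.center (H0 hΓ e he)) := ?_
  · rw [← h0, Complex.card_rootsOfUnity]
  apply Nat.card_eq_of_bijective (fun c : rootsOfUnity e ℂ =>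
    (⟨Phi hΓ he (c, 1, 1), (mem_center_H0 hΓ he _).mpr ⟨c, rfl⟩⟩ : Subgroup.center (H0 hΓ e he)))
  constructor
  · intro c d h
    have h1 := congrArg Subtype.val h
    have h2 := (Phi_bijective hΓ he).1 h1
    exact (Prod.ext_iff.mp h2).1
  · rintro ⟨x, hx⟩
    obtain ⟨c, rfl⟩ := (mem_center_H0 hΓ he _).mp hx
    exact ⟨c, rfl⟩

theorem index_center_H0 : (Subgroup.center (H0 hΓ e he)).index = Nat.card M * Nat.card M := by
  have h1 := Subgroup.card_mul_index (Subgroup.center (H0 hΓ e he))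
  rw [card_center_H0, card_H0] at h1
  exact Nat.eq_of_mul_eq_mul_left (Nat.pos_of_ne_zero (NeZero.ne e)) h1

/-- The embedding of `Γ`. -/
noncomputable def TT : Γ →* H0 hΓ e he where
  toFun π := Phi hΓ he (1, 1, π)
  map_one' := by
    apply Subtype.ext
    rw [Phi_coe]
    exact tOp_one
  map_mul' π σ := by
    apply Subtype.ext
    simp only [Subgroup.coe_mul, Phi_coe]
    unfold tOp
    rw [monoOp_mul]
    congr 1
    ext m
    simp [uv_one]

theorem TT_quot_injective :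
    Function.Injective ((QuotientGroup.mk' (Subgroup.center (H0 hΓ e he))).comp (TT hΓ he)) := by
  rw [injective_iff_map_eq_one]
  intro π hπ
  have h1 : TT hΓ he π ∈ Subgroup.center (H0 hΓ e he) := (QuotientGroup.eq_one_iff _).mp hπ
  obtain ⟨c, hc⟩ := (mem_center_H0 hΓ he _).mp h1
  have h2 := (Phi_bijective hΓ he).1 hc
  exact (Prod.ext_iff.mp (Prod.ext_iff.mp h2).2).2

end Main

/-- The main construction. -/
theorem exists_fullyRamified {G : Type u} [Group G] [Finite G] {M : Type u} [AddCommGroup M] [Finite M]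
    {Γ : Subgroup (Equiv.Perm M)} (hΓ : RegAff Γ) {e : ℕ} (hes : Squarefree e) (he : ∀ m : M, e • m = 0)
    (hep : ∀ p : ℕ, p.Prime → (p ∣ e ↔ p ∣ Nat.card G))
    (hMp : ∀ p : ℕ, p.Prime → (p ∣ Nat.card M ↔ p ∣ Nat.card G)) {f : G →* Γ} (hf : Function.Injective f) :
    ∃ (H : Type u) (_ : Group H) (_ : Finite H) (χ : Cfsg.IrrCharacter H),
      (∀ h : H, (χ : H → ℂ) h = (χ : H → ℂ) 1 → h = 1) ∧
      (Cfsg.charDegree (χ : H → ℂ)) ^ 2 = (Subgroup.center H).index ∧
      (∃ f : G →* H ⧸ Subgroup.center H, Function.Injective f) ∧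
      (∀ p : ℕ, p.Prime → ((p ∣ Nat.card H ↔ p ∣ Nat.card G) ∧ (p ∣ Nat.card (Subgroup.center H) ↔ p ∣ Nat.card G))) ∧
      Squarefree (Nat.card (Subgroup.center H)) := by
  classical
  cases nonempty_fintype M
  haveI : NeZero e := ⟨hes.ne_zero⟩
  letI : Fintype (H0 hΓ e he) := Fintype.ofFinite _
  have hch := isCharacter_character (rho hΓ he)
  have hirr := isIrrCharacter_of_classInner_self hch (rho_classInner hΓ he)
  have hone : (1 : H0 hΓ e he) = Phi hΓ he (1, 1, 1) := by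
    apply Subtype.ext
    rw [Phi_coe]
    exact tOp_one.symm
  have hval1 : (rho hΓ he).character 1 = (Nat.card M : ℂ) := by
    rw [hone, rho_character_Phi]
    simp
  have hMne : (Nat.card M : ℂ) ≠ 0 := Nat.cast_ne_zero.mpr Nat.card_pos.ne'
  refine ⟨H0 hΓ e he, inferInstance, inferInstance, ⟨_, hirr⟩, ?_, ?_, ?_, ?_, ?_⟩
  · intro h hh
    obtain ⟨⟨c, ν, π⟩, rfl⟩ := (Phi_bijective hΓ he).2 h
    dsimp only at hh
    rw [hval1, rho_character_Phi] at hh
    by_cases hc : π = 1 ∧ ν = 1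
    · obtain ⟨rfl, rfl⟩ := hc
      simp only [true_and, if_true] at hh
      have h1 : ((c : ℂˣ) : ℂ) = 1 := mul_right_cancel₀ hMne (by rw [hh, one_mul])
      have h2 : c = 1 := Subtype.ext (Units.ext h1)
      rw [h2, ← hone]
    · rw [if_neg hc] at hh
      exact absurd hh.symm hMne
  · have hdeg : charDegree (rho hΓ he).character = Nat.card M := by
      unfold charDegree
      rw [hval1]
      simp
    show charDegree (rho hΓ he).character ^ 2 = _
    rw [hdeg, index_center_H0, sq]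
  · exact ⟨((QuotientGroup.mk' (Subgroup.center (H0 hΓ e he))).comp (TT hΓ he)).comp f,
      (TT_quot_injective hΓ he).comp hf⟩
  · intro p hp
    rw [card_H0, card_center_H0]
    refine ⟨?_, hep p hp⟩
    rw [hp.dvd_mul, hp.dvd_mul, or_self, hep p hp, hMp p hp, or_self]
  · rw [card_center_H0]
    exact hes

section Wreath

open RegularWreathProduct

variable {M : Type u} [AddCommGroup M] {Q : Type u} [Group Q] {A : Type u} [AddCommGroup A]

/-- The product action of the wreath product, together with translations on the last coordinate. -/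
def wrAct (τ : Q ≃ A) (hτ : ∀ x y, τ (x * y) = τ x + τ y) (Γ : Subgroup (Equiv.Perm M)) :
    MulAction (Γ ≀ᵣ Q) ((Q → M) × A) where
  smul w p := (fun i => (w.left i : Equiv.Perm M) (p.1 (w.right⁻¹ * i)), τ w.right + p.2)
  one_smul p := by
    have h1 : τ 1 = 0 := by
      have := hτ 1 1
      rw [one_mul] at this
      simpa using this
    show (fun i => (((1 : Γ ≀ᵣ Q).left i : Γ) : Equiv.Perm M) (p.1 ((1 : Γ ≀ᵣ Q).right⁻¹ * i)), τ (1 : Γ ≀ᵣ Q).right + p.2) = p
    simp [h1]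
  mul_smul w v p := by
    show (fun i => (((w * v).left i : Γ) : Equiv.Perm M) (p.1 ((w * v).right⁻¹ * i)), τ (w * v).right + p.2) =
      (fun i => ((w.left i : Γ) : Equiv.Perm M) (((v.left (w.right⁻¹ * i) : Γ) : Equiv.Perm M) (p.1 (v.right⁻¹ * (w.right⁻¹ * i)))),
        τ w.right + (τ v.right + p.2))
    ext i
    · simp [mul_assoc]
    · simp [hτ, add_assoc]

/-- The permutation representation of the wreath product. -/
def wrHom (τ : Q ≃ A) (hτ : ∀ x y, τ (x * y) = τ x + τ y) (Γ : Subgroup (Equiv.Perm M)) :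
    (Γ ≀ᵣ Q) →* Equiv.Perm ((Q → M) × A) :=
  letI := wrAct τ hτ Γ
  MulAction.toPermHom _ _

theorem wrHom_apply (τ : Q ≃ A) (hτ : ∀ x y, τ (x * y) = τ x + τ y) (Γ : Subgroup (Equiv.Perm M))
    (w : Γ ≀ᵣ Q) (p : (Q → M) × A) :
    wrHom τ hτ Γ w p = (fun i => ((w.left i : Γ) : Equiv.Perm M) (p.1 (w.right⁻¹ * i)), τ w.right + p.2) := rfl

variable (τ : Q ≃ A) (hτ : ∀ x y, τ (x * y) = τ x + τ y) {Γ : Subgroup (Equiv.Perm M)} (hΓ : RegAff Γ)

include hΓ in
theorem wr_eq_one_of_fixed {w : Γ ≀ᵣ Q} {p : (Q → M) × A} (h : wrHom τ hτ Γ w p = p) : w = 1 := by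
  have h1 : τ 1 = 0 := by
    have := hτ 1 1
    rw [one_mul] at this
    simpa using this
  rw [wrHom_apply] at h
  have h2 := congrArg Prod.snd h
  have h3 := congrArg Prod.fst h
  simp only [add_eq_right] at h2
  have hr : w.right = 1 := τ.injective (h2.trans h1.symm)
  refine RegularWreathProduct.ext ?_ hr
  funext i
  have h4 := congrFun h3 i
  simp only [hr, inv_one, one_mul] at h4
  apply Subtype.ext
  exact hΓ.free _ (w.left i).2 _ h4

include hΓ in
theorem wrHom_injective : Function.Injective (wrHom τ hτ Γ) := by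
  rw [injective_iff_map_eq_one]
  intro w hw
  apply wr_eq_one_of_fixed τ hτ hΓ (p := 0)
  rw [hw]
  rfl

include hΓ in
theorem regAff_wrHom_range : RegAff (wrHom τ hτ Γ).range := by
  classical
  refine ⟨?_, ?_, ?_⟩
  · rintro _ ⟨w, rfl⟩
    choose α b hab using fun i => hΓ.affine _ (w.left i).2
    refine ⟨{ toFun := fun p => (fun i => α i (p.1 (w.right⁻¹ * i)), p.2), map_zero' := ?_, map_add' := ?_ },
      (b, τ w.right), ?_⟩
    · ext i <;> simp
    · intro p q
      ext i <;> simp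
    · intro p
      rw [wrHom_apply]
      ext i
      · simp [hab]
      · simp [add_comm]
  · intro p q
    set r := τ.symm (q.2 - p.2) with hr
    have hrτ : τ r = q.2 - p.2 := by simp [hr]
    choose g hg hgq using fun i => hΓ.trans (p.1 (r⁻¹ * i)) (q.1 i)
    refine ⟨_, ⟨⟨fun i => ⟨g i, hg i⟩, r⟩, rfl⟩, ?_⟩
    rw [wrHom_apply]
    ext i
    · exact hgq i
    · simp [hrτ]
  · rintro _ ⟨w, rfl⟩ p hp
    rw [wr_eq_one_of_fixed τ hτ hΓ hp, map_one]

end Wreath

theorem exists_squarefree_join {e p : ℕ} (he : Squarefree e) (hp : p.Prime) :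
    ∃ e₂ : ℕ, Squarefree e₂ ∧ e ∣ e₂ ∧ p ∣ e₂ ∧ ∀ q : ℕ, q.Prime → (q ∣ e₂ ↔ q ∣ e ∨ q = p) := by
  by_cases h : p ∣ e
  · refine ⟨e, he, dvd_rfl, h, fun q _ => ⟨Or.inl, ?_⟩⟩
    rintro (h1 | rfl)
    · exact h1
    · exact h
  · refine ⟨e * p, ?_, dvd_mul_right _ _, dvd_mul_left _ _, fun q hq => ?_⟩
    · rw [Nat.squarefree_mul ((Nat.Prime.coprime_iff_not_dvd hp).mpr h).symm]
      exact ⟨he, hp.prime.irreducible.squarefree⟩
    · rw [hq.dvd_mul, Nat.prime_dvd_prime_iff_eq hq hp]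

/-- Every finite solvable group embeds in a regular group of affine permutations. -/
theorem exists_regAff : ∀ (n : ℕ) (G : Type u) [Group G] [Finite G], Nat.card G = n → Group.IsSolvable G →
    ∃ (M : Type u) (_ : AddCommGroup M) (_ : Finite M) (Γ : Subgroup (Equiv.Perm M)) (e : ℕ),
      RegAff Γ ∧ Squarefree e ∧ (∀ m : M, e • m = 0) ∧ (∀ p : ℕ, p.Prime → (p ∣ e ↔ p ∣ Nat.card G)) ∧
        (∀ p : ℕ, p.Prime → (p ∣ Nat.card M ↔ p ∣ Nat.card G)) ∧ ∃ f : G →* Γ, Function.Injective f := by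
  intro n
  induction n using Nat.strong_induction_on with
  | _ n ih =>
  intro G _ _ hn hsolv
  classical
  by_cases hG : Nontrivial G
  · obtain ⟨N, hNn, hprime⟩ := Wreath.exists_normal_prime_index (G := G)
    have hcard : Nat.card G = Nat.card (G ⧸ N) * Nat.card N :=
      Subgroup.card_eq_card_quotient_mul_card_subgroup N
    have hlt : Nat.card N < n := by
      have h2 : 0 < Nat.card N := Nat.card_pos
      have h3 := hprime.two_le
      rw [← hn, hcard]
      nlinarith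
    haveI hNs : Group.IsSolvable N := inferInstance
    obtain ⟨M₀, iM₀, fM₀, Γ₀, e₀, hΓ₀, hsq₀, he₀, hep₀, hMp₀, f₀, hf₀⟩ := ih _ hlt N rfl hNs
    obtain ⟨f₁, hf₁⟩ := Wreath.exists_embedding N f₀ hf₀
    set Q := G ⧸ N with hQ
    set p := Nat.card Q with hp
    haveI : Fact p.Prime := ⟨hprime⟩
    haveI hQcy : IsCyclic Q := isCyclic_of_prime_card (p := p) rfl
    letI cQ : CommGroup Q := IsCyclic.commGroup
    let τ : Q ≃ Additive Q := Additive.ofMul
    have hτ : ∀ x y : Q, τ (x * y) = τ x + τ y := fun _ _ => rfl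
    obtain ⟨e₂, hsq₂, he₂, hp₂, hq₂⟩ := exists_squarefree_join hsq₀ hprime
    have hnp : ∀ q : ℕ, q.Prime → (q ∣ Nat.card G ↔ q ∣ Nat.card N ∨ q = p) := by
      intro q hq
      rw [hcard, hq.dvd_mul, Nat.prime_dvd_prime_iff_eq hq hprime, or_comm]
    refine ⟨(Q → M₀) × Additive Q, inferInstance, inferInstance, (wrHom τ hτ Γ₀).range, e₂,
      regAff_wrHom_range τ hτ hΓ₀, hsq₂, ?_, ?_, ?_, ?_⟩
    · rintro ⟨x, a⟩
      obtain ⟨k₁, rfl⟩ := he₂
      obtain ⟨k₂, hk₂⟩ := hp₂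
      ext i
      · simp only [Prod.smul_fst, Pi.smul_apply, Prod.fst_zero, Pi.zero_apply]
        rw [mul_nsmul, he₀, smul_zero]
      · simp only [Prod.smul_snd, Prod.snd_zero]
        have h1 : p • a = 0 := by
          show Additive.ofMul ((Additive.toMul a) ^ p) = 0
          rw [hp, pow_card_eq_one']
          rfl
        rw [hk₂, mul_nsmul, h1, smul_zero]
    · intro q hq
      rw [hq₂ q hq, hep₀ q hq, hnp q hq]
    · intro q hq
      have h1 : Nat.card ((Q → M₀) × Additive Q) = Nat.card M₀ ^ p * p := by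
        rw [Nat.card_prod, Nat.card_fun]
        rfl
      rw [h1, hq.dvd_mul, Nat.prime_dvd_prime_iff_eq hq hprime, hnp q hq]
      constructor
      · rintro (h | h)
        · exact Or.inl ((hMp₀ q hq).mp (hq.dvd_of_dvd_pow h) |> id)
        · exact Or.inr h
      · rintro (h | h)
        · exact Or.inl (dvd_pow ((hMp₀ q hq).mpr h) hprime.ne_zero)
        · exact Or.inr h
    · exact ⟨(wrHom τ hτ Γ₀).rangeRestrict.comp f₁, fun a b hab => hf₁ (wrHom_injective τ hτ hΓ₀
        (congrArg Subtype.val hab))⟩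
  · rw [not_nontrivial_iff_subsingleton] at hG
    refine ⟨PUnit, inferInstance, inferInstance, ⊤, 1, ⟨?_, ?_, ?_⟩, squarefree_one, ?_, ?_, ?_, 1, ?_⟩
    · intro g _
      exact ⟨0, 0, fun m => Subsingleton.elim _ _⟩
    · intro m n
      exact ⟨1, Subgroup.mem_top _, Subsingleton.elim _ _⟩
    · intro g _ _ _
      exact Subsingleton.elim _ _
    · intro m
      exact Subsingleton.elim _ _
    · intro p hp
      rw [Nat.card_of_subsingleton (1 : G)]
    · intro p hp
      rw [Nat.card_of_subsingleton (1 : G), Nat.card_of_subsingleton (PUnit.unit : PUnit)]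
    · intro a b _
      exact Subsingleton.elim a b

/-- Every finite solvable group embeds in the central quotient of a group with a faithful fully ramified
irreducible character. -/
theorem solvable_embeds_fullyRamified {G : Type u} [Group G] [Finite G] (hsolv : Group.IsSolvable G) :
    ∃ (H : Type u) (_ : Group H) (_ : Finite H) (χ : Cfsg.IrrCharacter H),
      (∀ h : H, (χ : H → ℂ) h = (χ : H → ℂ) 1 → h = 1) ∧
      (Cfsg.charDegree (χ : H → ℂ)) ^ 2 = (Subgroup.center H).index ∧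
      (∃ f : G →* H ⧸ Subgroup.center H, Function.Injective f) ∧
      (∀ p : ℕ, p.Prime → ((p ∣ Nat.card H ↔ p ∣ Nat.card G) ∧ (p ∣ Nat.card (Subgroup.center H) ↔ p ∣ Nat.card G))) ∧
      Squarefree (Nat.card (Subgroup.center H)) := by
  obtain ⟨M, iM, fM, Γ, e, hΓ, hsq, he, hep, hMp, f, hf⟩ := exists_regAff _ G rfl hsolv
  exact exists_fullyRamified hΓ hsq he hep hMp hf

end Cfsg.Agent.Lib.Char.FR
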