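import Cfsg.Agent.Lib.Char.Schur
import Cfsg.Agent.Lib.Char.Equiv
import Cfsg.Agent.Lib.Char.Degree
import Cfsg.Agent.Lib.Char.Clifford

/-! # Fully ramified characters. -/

set_option autoImplicit false
set_option linter.unusedSectionVars false

namespace Cfsg.Agent.Lib.Char.FullyRam

open Cfsg Subgroup Cfsg.Agent.Lib.Char Module
open scoped ComplexConjugate

universe u

section Schur

variable {Z : Type u} [Group Z] [Fintype Z] {n : ℕ} (ρ : Representation ℂ Z (Fin n → ℂ)) [ρ.IsIrreducible]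

/-- The averaging operator. -/
theorem sum_rep_conj (A : (Fin n → ℂ) →ₗ[ℂ] (Fin n → ℂ)) :
    ∑ z : Z, ρ z * A * ρ z⁻¹ = (((Nat.card Z : ℂ) * LinearMap.trace ℂ _ A) / n) • LinearMap.id := by
  obtain ⟨c, hc⟩ := schur_scalar ρ (∑ z : Z, ρ z * A * ρ z⁻¹) (fun y => by
    refine LinearMap.ext fun v => ?_
    simp only [LinearMap.comp_apply, LinearMap.sum_apply, map_sum]
    symm
    refine Fintype.sum_equiv (Equiv.mulLeft y) _ _ fun a => ?_
    simp only [Equiv.coe_mulLeft, Module.End.mul_apply]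
    have e1 : ρ (y * a)⁻¹ (ρ y v) = ρ a⁻¹ v := by
      rw [← Module.End.mul_apply, ← map_mul]
      simp
    rw [e1, map_mul, Module.End.mul_apply])
  have hn : (n : ℂ) ≠ 0 := by
    have := finrank_pos_of_irr ρ
    simp at this
    exact_mod_cast this.ne'
  have ht := congrArg (LinearMap.trace ℂ _) hc
  rw [map_sum] at ht
  simp only [map_smul, LinearMap.trace_id, smul_eq_mul, finrank_fin_fun] at ht
  have h2 : ∀ z : Z, LinearMap.trace ℂ (Fin n → ℂ) (ρ z * A * ρ z⁻¹) = LinearMap.trace ℂ _ A := by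
    intro z
    rw [LinearMap.trace_mul_comm, ← mul_assoc, ← map_mul, inv_mul_cancel, map_one, one_mul]
  simp only [h2, Finset.sum_const, Finset.card_univ, nsmul_eq_mul] at ht
  rw [hc]
  congr 1
  rw [← Nat.card_eq_fintype_card] at ht
  rw [ht]
  field_simp

/-- Matrix coefficient orthogonality. -/
theorem sum_coeff (i j k l : Fin n) :
    ∑ z : Z, LinearMap.toMatrix' (ρ z) i j * LinearMap.toMatrix' (ρ z⁻¹) k l =
      ((Nat.card Z : ℂ) / n) * (if j = k then 1 else 0) * (if i = l then 1 else 0) := by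
  have h := sum_rep_conj ρ (Matrix.toLin' (Matrix.single j k (1 : ℂ)))
  have h2 := congrArg LinearMap.toMatrix' h
  have h3 := congrFun (congrFun h2 i) l
  rw [map_sum, Matrix.sum_apply] at h3
  simp only [Module.End.mul_eq_comp, LinearMap.toMatrix'_comp, LinearMap.toMatrix'_toLin'] at h3
  have h4 : ∀ z : Z, (LinearMap.toMatrix' (ρ z) * Matrix.single j k (1 : ℂ) * LinearMap.toMatrix' (ρ z⁻¹)) i l =
      LinearMap.toMatrix' (ρ z) i j * LinearMap.toMatrix' (ρ z⁻¹) k l := by
    intro z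
    rw [Matrix.mul_apply, Finset.sum_eq_single k]
    · rw [Matrix.mul_single_apply_same, mul_one]
    · intro x _ hx
      rw [Matrix.mul_single_apply_of_ne _ _ _ _ _ hx, zero_mul]
    · simp
  simp only [h4] at h3
  rw [h3]
  simp only [map_smul, LinearMap.toMatrix'_id, Matrix.smul_apply, Matrix.one_apply, smul_eq_mul]
  rw [LinearMap.trace_eq_matrix_trace ℂ (Pi.basisFun ℂ (Fin n))]
  have h5 : LinearMap.toMatrix (Pi.basisFun ℂ (Fin n)) (Pi.basisFun ℂ (Fin n)) (Matrix.toLin' (Matrix.single j k (1 : ℂ))) =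
      Matrix.single j k (1 : ℂ) := by
    rw [LinearMap.toMatrix_eq_toMatrix', LinearMap.toMatrix'_toLin']
  rw [h5]
  by_cases hjk : j = k
  · subst hjk
    simp
  · rw [Matrix.trace_single_eq_of_ne _ _ _ hjk, if_neg hjk]
    simp

/-- The bilinear form of the coefficients. -/
theorem sum_trace_mul (A B : Matrix (Fin n) (Fin n) ℂ) :
    ∑ z : Z, (LinearMap.toMatrix' (ρ z) * A).trace * (LinearMap.toMatrix' (ρ z⁻¹) * B).trace =
      ((Nat.card Z : ℂ) / n) * (A * B).trace := by
  have h1 : ∀ z : Z, (LinearMap.toMatrix' (ρ z) * A).trace * (LinearMap.toMatrix' (ρ z⁻¹) * B).trace =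
      ∑ i, ∑ j, ∑ k, ∑ l, (A l k * B j i) *
        (LinearMap.toMatrix' (ρ z) k l * LinearMap.toMatrix' (ρ z⁻¹) i j) := by
    intro z
    simp only [Matrix.trace, Matrix.diag, Matrix.mul_apply, Finset.sum_mul, Finset.mul_sum]
    refine Finset.sum_congr rfl fun i _ => Finset.sum_congr rfl fun j _ => Finset.sum_congr rfl fun k _ =>
      Finset.sum_congr rfl fun l _ => ?_
    ring
  simp only [h1]
  have h2 : ∑ z : Z, ∑ i, ∑ j, ∑ k, ∑ l, (A l k * B j i) *
        (LinearMap.toMatrix' (ρ z) k l * LinearMap.toMatrix' (ρ z⁻¹) i j) =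
      ∑ i, ∑ j, ∑ k, ∑ l, (A l k * B j i) *
        ∑ z : Z, (LinearMap.toMatrix' (ρ z) k l * LinearMap.toMatrix' (ρ z⁻¹) i j) := by
    rw [Finset.sum_comm]
    refine Finset.sum_congr rfl fun i _ => ?_
    rw [Finset.sum_comm]
    refine Finset.sum_congr rfl fun j _ => ?_
    rw [Finset.sum_comm]
    refine Finset.sum_congr rfl fun k _ => ?_
    rw [Finset.sum_comm]
    refine Finset.sum_congr rfl fun l _ => ?_
    rw [Finset.mul_sum]
  rw [h2]
  simp only [sum_coeff]
  simp only [Matrix.trace, Matrix.diag, Matrix.mul_apply, Finset.mul_sum]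
  refine Finset.sum_congr rfl fun i _ => Finset.sum_congr rfl fun j _ => ?_
  rw [Finset.sum_eq_single j, Finset.sum_eq_single i]
  · simp
    ring
  · intro l _ hl
    simp [hl]
  · simp
  · intro k _ hk
    simp [hk]
  · simp

theorem character_eq_trace (z : Z) : ρ.character z = (LinearMap.toMatrix' (ρ z)).trace := by
  show LinearMap.trace ℂ _ (ρ z) = _
  rw [LinearMap.trace_eq_matrix_trace ℂ (Pi.basisFun ℂ (Fin n)), LinearMap.toMatrix_eq_toMatrix']

theorem toMatrix_mul (x y : Z) : LinearMap.toMatrix' (ρ (x * y)) = LinearMap.toMatrix' (ρ x) * LinearMap.toMatrix' (ρ y) := by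
  rw [map_mul, Module.End.mul_eq_comp, LinearMap.toMatrix'_comp]

/-- Schur's lemma in matrix form. -/
theorem sum_mat_conj (A : Matrix (Fin n) (Fin n) ℂ) :
    ∑ z : Z, LinearMap.toMatrix' (ρ z) * A * LinearMap.toMatrix' (ρ z⁻¹) =
      (((Nat.card Z : ℂ) * A.trace) / n) • (1 : Matrix (Fin n) (Fin n) ℂ) := by
  have h := sum_rep_conj ρ (Matrix.toLin' A)
  have h2 := congrArg LinearMap.toMatrix' h
  rw [map_sum] at h2
  simp only [Module.End.mul_eq_comp, LinearMap.toMatrix'_comp, LinearMap.toMatrix'_toLin', map_smul,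
    LinearMap.toMatrix'_id] at h2
  rw [h2, Matrix.trace_toLin'_eq]

/-- The key twisted sum cannot vanish identically. -/
theorem not_forall_twisted_sum_eq_zero (α : Z ≃* Z) (hα : ∀ z, ρ.character (α z) = ρ.character z) :
    ¬ ∀ w : Z, ∑ z : Z, ρ.character (z * w * α z⁻¹ * w⁻¹) = 0 := by
  classical
  intro hall
  let σ : Representation ℂ Z (Fin n → ℂ) := ρ.comp α.toMonoidHom
  have hσ : σ.character = ρ.character := by
    funext z
    exact hα z
  obtain ⟨φ⟩ := equiv_of_character_eq σ ρ hσ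
  let R : (Fin n → ℂ) ≃ₗ[ℂ] (Fin n → ℂ) := φ.toLinearEquiv
  have hR : ∀ z : Z, (R : (Fin n → ℂ) →ₗ[ℂ] (Fin n → ℂ)) ∘ₗ ρ (α z) = ρ z ∘ₗ (R : (Fin n → ℂ) →ₗ[ℂ] (Fin n → ℂ)) :=
    fun z => φ.isIntertwining' z
  let r := LinearMap.toMatrix' (R : (Fin n → ℂ) →ₗ[ℂ] (Fin n → ℂ))
  let r' := LinearMap.toMatrix' (R.symm : (Fin n → ℂ) →ₗ[ℂ] (Fin n → ℂ))
  have hrr' : r * r' = 1 := by
    simp only [r, r']
    rw [← LinearMap.toMatrix'_comp]
    simp
  have hr'r : r' * r = 1 := by
    simp only [r, r']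
    rw [← LinearMap.toMatrix'_comp]
    simp
  let M : Z → Matrix (Fin n) (Fin n) ℂ := fun z => LinearMap.toMatrix' (ρ z)
  have hM : ∀ z : Z, M (α z) = r' * M z * r := by
    intro z
    have h1 : r * M (α z) = M z * r := by
      simp only [r, M]
      rw [← LinearMap.toMatrix'_comp, ← LinearMap.toMatrix'_comp, hR]
    calc M (α z) = (r' * r) * M (α z) := by rw [hr'r, one_mul]
      _ = r' * (r * M (α z)) := by rw [Matrix.mul_assoc]
      _ = r' * M z * r := by rw [h1, Matrix.mul_assoc]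
  have hn : (n : ℂ) ≠ 0 := by
    have := finrank_pos_of_irr ρ
    simp at this
    exact_mod_cast this.ne'
  have hZ : (Nat.card Z : ℂ) ≠ 0 := by exact_mod_cast Nat.card_pos.ne'
  have hterm : ∀ w : Z, (M w * r').trace * (M w⁻¹ * r).trace = 0 := by
    intro w
    have h1 := hall w
    have h2 : ∀ z : Z, ρ.character (z * w * α z⁻¹ * w⁻¹) =
        (M z * (M w * r') * M z⁻¹ * (r * M w⁻¹)).trace := by
      intro z
      rw [character_eq_trace, toMatrix_mul, toMatrix_mul, toMatrix_mul]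
      change (M z * M w * M (α z⁻¹) * M w⁻¹).trace = _
      rw [hM]
      congr 1
      simp only [Matrix.mul_assoc]
    simp only [h2] at h1
    rw [← Matrix.trace_sum, ← Finset.sum_mul] at h1
    have h3 := sum_mat_conj ρ (M w * r')
    change ∑ z : Z, M z * (M w * r') * M z⁻¹ = _ at h3
    rw [h3, Matrix.smul_mul, Matrix.trace_smul, Matrix.one_mul, smul_eq_mul] at h1
    have h4 : (r * M w⁻¹).trace = (M w⁻¹ * r).trace := Matrix.trace_mul_comm _ _
    rw [h4] at h1
    have h5 : ((Nat.card Z : ℂ) / n) ≠ 0 := div_ne_zero hZ hn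
    have h6 : ((Nat.card Z : ℂ) / n) * ((M w * r').trace * (M w⁻¹ * r).trace) = 0 := by
      rw [← h1]
      ring
    exact (mul_eq_zero.mp h6).resolve_left h5
  have hs := sum_trace_mul ρ r' r
  change ∑ z : Z, (M z * r').trace * (M z⁻¹ * r).trace = _ at hs
  simp only [hterm, Finset.sum_const_zero] at hs
  rw [hr'r, Matrix.trace_one, Fintype.card_fin, div_mul_cancel₀ _ hn] at hs
  exact hZ hs.symm

end Schur

section Main

variable {H : Type u} [Group H] [Fintype H] (Z : Subgroup H) [hZn : Z.Normal]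

/-- A sum over a coset of a normal subgroup. -/
theorem sum_coset [Fintype Z] [DecidableEq (H ⧸ Z)] (f : H → ℂ) (y : H) :
    ∑ h ∈ Finset.univ.filter (fun h : H => (h : H ⧸ Z) = (y : H ⧸ Z)), f h = ∑ z : Z, f (z * y) := by
  classical
  symm
  refine Finset.sum_bij (fun z _ => (z : H) * y) ?_ ?_ ?_ ?_
  · intro z _
    simp only [Finset.mem_filter, Finset.mem_univ, true_and]
    rw [QuotientGroup.mk_mul]
    have : ((z : H) : H ⧸ Z) = 1 := (QuotientGroup.eq_one_iff _).mpr z.2
    rw [this, one_mul]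
  · intro a _ b _ h
    exact Subtype.ext (mul_right_cancel h)
  · intro h hh
    simp only [Finset.mem_filter, Finset.mem_univ, true_and] at hh
    have h1 : h * y⁻¹ ∈ Z := by
      rw [← QuotientGroup.eq_one_iff, QuotientGroup.mk_mul, QuotientGroup.mk_inv, hh, mul_inv_cancel]
    exact ⟨⟨_, h1⟩, Finset.mem_univ _, by simp⟩
  · intro _ _
    rfl

/-- The main theorem. -/
theorem centralizer_ne (χ : IrrCharacter H) (θ : IrrCharacter Z) (e : ℕ) (he : e ^ 2 = Z.index)
    (hχ : ∀ z : Z, (χ : H → ℂ) z = (e : ℂ) * (θ : Z → ℂ) z) (hZ : Z ≠ ⊤) (C : Subgroup (H ⧸ Z)) (hC : IsCyclic C) :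
    centralizer (C : Set (H ⧸ Z)) ≠ C := by
  classical
  letI : Fintype Z := Fintype.ofFinite _
  letI : Fintype (H ⧸ Z) := Fintype.ofFinite _
  intro hcent
  have hcard : Nat.card Z * Z.index = Nat.card H := Subgroup.card_mul_index Z
  have he0 : (e : ℂ) ≠ 0 := by
    intro h
    have h1 : e = 0 := by exact_mod_cast h
    rw [h1] at he
    have : Z.index ≠ 0 := Subgroup.index_ne_zero_of_finite
    simp at he
    exact this he.symm
  have hχc := IsCharacter.isClassFunction (IsIrrCharacter.isCharacter χ.2)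
  -- `χ` vanishes off `Z`
  have hvan : ∀ g : H, g ∉ Z → (χ : H → ℂ) g = 0 := by
    have h1 : ∑ g : H, Complex.normSq ((χ : H → ℂ) g) = Nat.card H := by
      have h2 := classInner_irr_self χ.2
      simp only [classInner] at h2
      have hG : ((Nat.card H : ℕ) : ℂ) ≠ 0 := by exact_mod_cast Nat.card_pos.ne'
      have h3 : ∑ g : H, (χ : H → ℂ) g * conj ((χ : H → ℂ) g) = (Nat.card H : ℂ) := by
        field_simp at h2
        exact h2
      have h4 : ((∑ g : H, Complex.normSq ((χ : H → ℂ) g) : ℝ) : ℂ) = ((Nat.card H : ℝ) : ℂ) := by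
        push_cast
        rw [← h3]
        refine Finset.sum_congr rfl fun g _ => ?_
        rw [Complex.mul_conj]
      exact_mod_cast h4
    have h2 : ∑ z : Z, Complex.normSq ((θ : Z → ℂ) z) = Nat.card Z := by
      have h3 := classInner_irr_self θ.2
      simp only [classInner] at h3
      have hG : ((Nat.card Z : ℕ) : ℂ) ≠ 0 := by exact_mod_cast Nat.card_pos.ne'
      have h4 : ∑ g : Z, (θ : Z → ℂ) g * conj ((θ : Z → ℂ) g) = (Nat.card Z : ℂ) := by
        field_simp at h3
        exact h3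
      have h5 : ((∑ g : Z, Complex.normSq ((θ : Z → ℂ) g) : ℝ) : ℂ) = ((Nat.card Z : ℝ) : ℂ) := by
        push_cast
        rw [← h4]
        refine Finset.sum_congr rfl fun g _ => ?_
        rw [Complex.mul_conj]
      exact_mod_cast h5
    have h3 : ∑ g ∈ Finset.univ.filter (· ∈ Z), Complex.normSq ((χ : H → ℂ) g) = Nat.card H := by
      rw [Finset.sum_subtype (p := (· ∈ Z)) (Finset.univ.filter (· ∈ Z)) (by simp)
        (fun g => Complex.normSq ((χ : H → ℂ) g))]
      simp only [hχ, map_mul, Complex.normSq_natCast]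
      rw [← Finset.mul_sum, h2]
      have : ((e : ℝ) * e) = (Z.index : ℝ) := by
        rw [← he]
        push_cast
        ring
      rw [this, ← hcard]
      push_cast
      ring
    have h4 : ∑ g ∈ Finset.univ.filter (fun g : H => g ∉ Z), Complex.normSq ((χ : H → ℂ) g) = 0 := by
      have h5 := Finset.sum_filter_add_sum_filter_not Finset.univ (· ∈ Z) (fun g => Complex.normSq ((χ : H → ℂ) g))
      rw [h1, h3] at h5
      linarith
    intro g hg
    have h5 := (Finset.sum_eq_zero_iff_of_nonneg (fun g _ => Complex.normSq_nonneg _)).mp h4 g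
      (by simp [hg])
    exact Complex.normSq_eq_zero.mp h5
  -- a generator of `C`
  obtain ⟨c, hc⟩ := hC.exists_generator
  obtain ⟨x, hx⟩ := QuotientGroup.mk_surjective (c : H ⧸ Z)
  have hC1 : (c : H ⧸ Z) ≠ 1 := by
    intro h1
    have hCbot : C = ⊥ := by
      rw [eq_bot_iff]
      intro y hy
      obtain ⟨k, hk⟩ := mem_zpowers_iff.mp (hc ⟨y, hy⟩)
      have h2' : y = (c : H ⧸ Z) ^ k := by simpa using (congrArg Subtype.val hk).symm
      rw [Subgroup.mem_bot, h2', h1, one_zpow]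
    apply hZ
    have h3 : centralizer (C : Set (H ⧸ Z)) = ⊤ := by
      rw [hCbot]
      ext y
      simp [mem_centralizer_iff]
    rw [hcent, hCbot] at h3
    rw [eq_top_iff]
    intro g _
    have h4 : ((g : H) : H ⧸ Z) ∈ (⊥ : Subgroup (H ⧸ Z)) := by rw [h3]; trivial
    exact (QuotientGroup.eq_one_iff _).mp (Subgroup.mem_bot.mp h4)
  -- the elements of `C`
  have hmemC : ∀ q : H ⧸ Z, q ∈ C ↔ q ∈ zpowers (c : H ⧸ Z) := by
    intro q
    constructor
    · intro hq
      obtain ⟨k, hk⟩ := mem_zpowers_iff.mp (hc ⟨q, hq⟩)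
      exact mem_zpowers_iff.mpr ⟨k, by simpa using congrArg Subtype.val hk⟩
    · intro hq
      obtain ⟨k, rfl⟩ := mem_zpowers_iff.mp hq
      exact zpow_mem c.2 k
  -- the key vanishing
  have hT : ∀ w : Z, ∑ z : Z, (χ : H → ℂ) ((z : H) * ((w : H) * x) * (z : H)⁻¹ * ((w : H) * x)⁻¹) = 0 := by
    intro w
    set y : H := (w : H) * x with hy
    have hyq : (y : H ⧸ Z) = c := by
      rw [hy, QuotientGroup.mk_mul, hx]
      have : ((w : H) : H ⧸ Z) = 1 := (QuotientGroup.eq_one_iff _).mpr w.2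
      rw [this, one_mul]
    have hyZ : y ∉ Z := by
      intro h
      apply hC1
      rw [← hyq]
      exact (QuotientGroup.eq_one_iff _).mpr h
    let F : H → ℂ := fun h => (χ : H → ℂ) (h * y * h⁻¹ * y⁻¹)
    have h1 : ∑ h : H, F h = 0 := by
      have h2 := IsIrrCharacter.sum_conj_mul χ.2 y y⁻¹
      rw [hvan y hyZ] at h2
      have h3 := IsIrrCharacter.apply_one_ne_zero χ.2
      simp only [mul_zero, zero_mul] at h2
      exact (mul_eq_zero.mp h2).resolve_left h3
    rw [← Finset.sum_fiberwise (s := Finset.univ) (g := fun h : H => (h : H ⧸ Z)) (f := F)] at h1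
    set T : ℂ := ∑ z : Z, F z with hTdef
    have h2 : ∀ q : H ⧸ Z, ∑ h ∈ Finset.univ.filter (fun h : H => (h : H ⧸ Z) = q), F h =
        if q ∈ C then T else 0 := by
      intro q
      by_cases hq : q ∈ C
      · rw [if_pos hq]
        obtain ⟨k, rfl⟩ := mem_zpowers_iff.mp ((hmemC q).mp hq)
        have hyk : ((y ^ k : H) : H ⧸ Z) = (c : H ⧸ Z) ^ k := by
          rw [QuotientGroup.mk_zpow, hyq]
        rw [← hyk, sum_coset]
        refine Finset.sum_congr rfl fun z _ => ?_
        simp only [F]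
        have hcomm : y ^ k * y * (y ^ k)⁻¹ = y := by
          rw [(Commute.zpow_self y k).eq, mul_inv_cancel_right]
        refine congrArg _ ?_
        calc (z : H) * y ^ k * y * ((z : H) * y ^ k)⁻¹ * y⁻¹
            = (z : H) * (y ^ k * y * (y ^ k)⁻¹) * (z : H)⁻¹ * y⁻¹ := by group
          _ = (z : H) * y * (z : H)⁻¹ * y⁻¹ := by rw [hcomm]
      · rw [if_neg hq]
        apply Finset.sum_eq_zero
        intro h hh
        have hh' : (h : H ⧸ Z) = q := (Finset.mem_filter.mp hh).2
        apply hvan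
        intro hmem
        apply hq
        rw [← hh', ← hcent, mem_centralizer_iff]
        intro u hu
        rw [SetLike.mem_coe, hmemC] at hu
        have hcomm : ((h : H) : H ⧸ Z) * (c : H ⧸ Z) = (c : H ⧸ Z) * (h : H ⧸ Z) := by
          have h5 := (QuotientGroup.eq_one_iff _).mpr hmem
          rw [QuotientGroup.mk_mul, QuotientGroup.mk_mul, QuotientGroup.mk_mul, QuotientGroup.mk_inv,
            QuotientGroup.mk_inv, hyq, mul_inv_eq_one, mul_inv_eq_iff_eq_mul] at h5
          exact h5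
        obtain ⟨k, rfl⟩ := mem_zpowers_iff.mp hu
        exact (((show Commute ((h : H) : H ⧸ Z) (c : H ⧸ Z) from hcomm).zpow_right k).symm).eq
    simp only [h2] at h1
    rw [Finset.sum_ite, Finset.sum_const_zero, add_zero, Finset.sum_const, nsmul_eq_mul] at h1
    have h3 : ((Finset.univ.filter (· ∈ C)).card : ℂ) ≠ 0 := by
      have : (1 : H ⧸ Z) ∈ Finset.univ.filter (· ∈ C) := by simp [C.one_mem]
      exact_mod_cast (Finset.card_pos.mpr ⟨_, this⟩).ne'
    exact (mul_eq_zero.mp h1).resolve_left h3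
  -- transport to `Z`
  obtain ⟨n, ρ, hρ, hθ⟩ := θ.2
  let α : Z ≃* Z := MulAut.conjNormal x
  have hα : ∀ z : Z, ρ.character (α z) = ρ.character z := by
    intro z
    have h1 := hχ (α z)
    have h2 := hχ z
    have h3 : (χ : H → ℂ) ((α z : Z) : H) = (χ : H → ℂ) z := by
      have : ((α z : Z) : H) = x * z * x⁻¹ := rfl
      rw [this]
      exact hχc _ _
    rw [h3, h2] at h1
    have h4 := mul_left_cancel₀ he0 h1
    have e1 : (θ : Z → ℂ) = ρ.character := hθ.symm
    rw [e1] at h4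
    exact h4.symm
  apply not_forall_twisted_sum_eq_zero ρ α hα
  intro w
  have h1 := hT w
  have h2 : ∀ z : Z, (χ : H → ℂ) ((z : H) * ((w : H) * x) * (z : H)⁻¹ * ((w : H) * x)⁻¹) =
      (e : ℂ) * ρ.character (z * w * α z⁻¹ * w⁻¹) := by
    intro z
    have e1 : (θ : Z → ℂ) = ρ.character := hθ.symm
    rw [← e1, ← hχ]
    congr 1
    have : ((α z⁻¹ : Z) : H) = x * (z : H)⁻¹ * x⁻¹ := rfl
    push_cast
    rw [this]
    group
  simp only [h2] at h1
  rw [← Finset.mul_sum] at h1
  exact (mul_eq_zero.mp h1).resolve_left he0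

end Main

end Cfsg.Agent.Lib.Char.FullyRam
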