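import Mathlib
import Cfsg.Agent.Lib.Char.CdPD
import Cfsg.Agent.Lib.Char.FRamB
import Cfsg.Agent.Lib.Char.FTBound
import Cfsg.Agent.Lib.Char.Kernel
import Cfsg.Agent.Lib.Char.Ito
import Cfsg.Agent.S0184

set_option autoImplicit false

/-!
Groups in which irreducible characters of equal degree greater than one are related by power maps.
-/

namespace Cfsg.Agent.Lib.Char.GalConj

open Cfsg Cfsg.Agent.Lib.Char Cfsg.Agent.Lib.Char.E3 Cfsg.Agent.Lib.Char.CdP ComplexConjugate
open scoped commutatorElement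

universe u

/-- The hypothesis on characters. -/
def Hyp (R : Type u) [Group R] : Prop :=
  ∀ χ ψ : IrrCharacter R, charDegree (χ : R → ℂ) ≠ 1 → charDegree (χ : R → ℂ) = charDegree (ψ : R → ℂ) →
    ∃ k : ℕ, Nat.Coprime k (Nat.card R) ∧ ∀ g : R, (ψ : R → ℂ) g = (χ : R → ℂ) (g ^ k)

section Basic

variable {R : Type u} [Group R] [Fintype R]

theorem Hyp.ker_eq (h : Hyp R) (χ ψ : IrrCharacter R) (h1 : charDegree (χ : R → ℂ) ≠ 1)
    (h2 : charDegree (χ : R → ℂ) = charDegree (ψ : R → ℂ)) :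
    charKer (χ : R → ℂ) = charKer (ψ : R → ℂ) := by
  obtain ⟨k, hk, hg⟩ := h χ ψ h1 h2
  have hχc := IsIrrCharacter.isCharacter χ.2
  have hψc := IsIrrCharacter.isCharacter ψ.2
  have h11 : (ψ : R → ℂ) 1 = (χ : R → ℂ) 1 := by
    have := hg 1
    simpa using this
  ext g
  rw [mem_charKer hχc, mem_charKer hψc, h11, hg g]
  constructor
  · intro hh
    have h3 : g ∈ charKer (χ : R → ℂ) := (mem_charKer hχc).mpr hh
    exact (mem_charKer hχc).mp (pow_mem h3 k)
  · intro hh
    have h3 : g ^ k ∈ charKer (χ : R → ℂ) := (mem_charKer hχc).mpr hh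
    have h4 : g ^ Nat.card R ∈ charKer (χ : R → ℂ) := by
      rw [pow_card_eq_one']
      exact one_mem _
    exact (mem_charKer hχc).mp (mem_of_pow_mem hk h3 h4)

theorem charDegree_inflate (N : Subgroup R) [N.Normal] [Fintype (R ⧸ N)] {β : R ⧸ N → ℂ}
    (hβ : IsCharacter (R ⧸ N) β) : charDegree (inflate N β) = charDegree β := by
  apply charDegree_eq
  show β ((1 : R) : R ⧸ N) = _
  exact apply_one_eq_charDegree hβ

theorem Hyp.quot (h : Hyp R) (N : Subgroup R) [N.Normal] : Hyp (R ⧸ N) := by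
  classical
  intro χ ψ h1 h2
  letI : Fintype (R ⧸ N) := Fintype.ofFinite _
  letI : Fintype N := Fintype.ofFinite _
  have hχ := isIrrCharacter_inflate N χ.2
  have hψ := isIrrCharacter_inflate N ψ.2
  have hdχ := charDegree_inflate N (IsIrrCharacter.isCharacter χ.2)
  have hdψ := charDegree_inflate N (IsIrrCharacter.isCharacter ψ.2)
  obtain ⟨k, hk, hg⟩ := h ⟨_, hχ⟩ ⟨_, hψ⟩ (by simpa [hdχ] using h1) (by simpa [hdχ, hdψ] using h2)
  refine ⟨k, ?_, ?_⟩
  · have h3 : Nat.card (R ⧸ N) ∣ Nat.card R := by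
      rw [← Subgroup.index_eq_card]
      exact Subgroup.index_dvd_card N
    exact Nat.Coprime.coprime_dvd_right h3 hk
  · intro g
    obtain ⟨r, rfl⟩ := QuotientGroup.mk_surjective g
    have := hg r
    rw [← QuotientGroup.mk_pow]
    exact this

theorem isIrr_mul_hom {χ : R → ℂ} (hχ : IsIrrCharacter R χ) (lam : R →* ℂˣ) :
    IsIrrCharacter R (χ * ev lam) := by
  apply isIrrCharacter_of_classInner_self
    (IsCharacter.mul (IsIrrCharacter.isCharacter hχ) (isCharacter_ev lam))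
  rw [← classInner_irr_self hχ]
  simp only [classInner]
  congr 1
  refine Finset.sum_congr rfl fun g _ => ?_
  simp only [Pi.mul_apply, map_mul, conj_ev, ev_inv_right]
  have h1 : ev lam g ≠ 0 := ev_ne_zero lam g
  field_simp

theorem exists_hom_of_notMem_commutator {g : R} (hg : g ∉ commutator R) : ∃ lam : R →* ℂˣ, lam g ≠ 1 := by
  obtain ⟨μ, h1, h2⟩ : ∃ μ : R ⧸ commutator R →* ℂˣ, True ∧ μ (g : R ⧸ commutator R) ≠ 1 := by
    have h3 : (g : R ⧸ commutator R) ≠ 1 := fun h => hg ((QuotientGroup.eq_one_iff g).mp h)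
    obtain ⟨μ, hμ⟩ := dual_separate (A := R ⧸ commutator R) (fun x y => @mul_comm (Abelianization R) _ x y) h3
    exact ⟨μ, trivial, hμ⟩
  exact ⟨μ.comp (QuotientGroup.mk' _), h2⟩

/-- Kernels of nonlinear characters lie in the derived group. -/
theorem Hyp.ker_le (h : Hyp R) (χ : IrrCharacter R) (h1 : charDegree (χ : R → ℂ) ≠ 1) :
    charKer (χ : R → ℂ) ≤ commutator R := by
  intro g hg
  by_contra hgc
  obtain ⟨lam, hlam⟩ := exists_hom_of_notMem_commutator hgc
  have hχc := IsIrrCharacter.isCharacter χ.2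
  have hirr := isIrr_mul_hom χ.2 lam
  have hd : charDegree ((χ : R → ℂ) * ev lam) = charDegree (χ : R → ℂ) := by
    apply charDegree_eq
    simp only [Pi.mul_apply, ev_one, mul_one]
    exact apply_one_eq_charDegree hχc
  have hk := h.ker_eq χ ⟨_, hirr⟩ h1 hd.symm
  have h2 : g ∈ charKer ((χ : R → ℂ) * ev lam) := hk ▸ hg
  have h3 := (mem_charKer (IsIrrCharacter.isCharacter hirr)).mp h2
  have h4 := (mem_charKer hχc).mp hg
  simp only [Pi.mul_apply, ev_one, mul_one, h4] at h3
  have h5 := IsIrrCharacter.apply_one_ne_zero χ.2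
  have h6 : ev lam g = 1 := by
    have : (χ : R → ℂ) 1 * ev lam g = (χ : R → ℂ) 1 * 1 := by rw [h3, mul_one]
    exact mul_left_cancel₀ h5 this
  exact hlam (ev_eq_one_iff.mp h6)

theorem degree_one_of_commutator_le {χ : R → ℂ} (hχ : IsIrrCharacter R χ) (h : commutator R ≤ charKer χ) :
    charDegree χ = 1 := by
  classical
  letI : Fintype (R ⧸ commutator R) := Fintype.ofFinite _
  letI : Fintype (commutator R) := Fintype.ofFinite _
  obtain ⟨β, hβ, rfl⟩ := exists_deflate (commutator R) hχ h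
  rw [charDegree_inflate _ (IsIrrCharacter.isCharacter hβ)]
  have h1 := comm_iff_irr_degree_one.mp (fun x y : R ⧸ commutator R => @mul_comm (Abelianization R) _ x y) ⟨β, hβ⟩
  apply charDegree_eq
  simpa using h1

theorem commutator_le_of_degree_one {χ : R → ℂ} (hχ : IsIrrCharacter R χ) (h : charDegree χ = 1) :
    commutator R ≤ charKer χ := by
  have hχc := IsIrrCharacter.isCharacter hχ
  have h1 : χ 1 = 1 := by
    rw [apply_one_eq_charDegree hχc, h]
    simp
  obtain ⟨lam, rfl⟩ := IsCharacter.exists_monoidHom hχc h1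
  rw [commutator_def, Subgroup.commutator_le]
  intro x _ y _
  rw [mem_charKer hχc]
  simp only [map_commutatorElement, map_one]
  rw [commutatorElement_eq_one_iff_mul_comm.mpr (mul_comm _ _)]

theorem exists_nonlinear (hna : ∃ a b : R, a * b ≠ b * a) :
    ∃ χ : IrrCharacter R, charDegree (χ : R → ℂ) ≠ 1 := by
  by_contra hcon
  push Not at hcon
  obtain ⟨a, b, hab⟩ := hna
  apply hab
  refine comm_iff_irr_degree_one.mpr (fun χ => ?_) a b
  rw [apply_one_eq_charDegree (IsIrrCharacter.isCharacter χ.2), hcon χ]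
  simp

theorem exists_irr_ne {w : R} (hw : w ≠ 1) : ∃ χ : IrrCharacter R, (χ : R → ℂ) w ≠ (χ : R → ℂ) 1 := by
  classical
  by_contra hcon
  push Not at hcon
  have h1 := sum_irr_degree_mul_apply (G := R) w
  rw [if_neg hw] at h1
  simp only [hcon] at h1
  have h2 := sum_irr_degree_sq (G := R)
  simp only [sq] at h2
  rw [h2] at h1
  exact (Nat.cast_ne_zero.mpr Nat.card_pos.ne') h1

theorem le_center_of_card_prime {p : ℕ} [hp : Fact p.Prime] (hG : IsPGroup p R) (N : Subgroup R) [N.Normal]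
    (hN : Nat.card N = p) : N ≤ Subgroup.center R := by
  haveI := hG.isNilpotent
  have hne : N ≠ ⊥ := by
    intro h
    rw [h] at hN
    simp at hN
    exact hp.out.one_lt.ne hN
  have h1 := Cfsg.Agent.Lib.Basic.normal_inf_center_ne_bot N hne
  obtain ⟨t₀, ht₀⟩ := Subgroup.ne_bot_iff_exists_ne_one.mp h1
  have ht := Subgroup.mem_inf.mp t₀.2
  have ht1 : (t₀ : R) ≠ 1 := fun h => ht₀ (Subtype.ext h)
  refine (le_zpowers_of_prime_card hN ht.1 ht1).trans ?_
  rw [Subgroup.zpowers_le]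
  exact ht.2

theorem vanish {χ : R → ℂ} (hχ : IsIrrCharacter R χ) (hf : charKer χ = ⊥)
    (hcent : commutator R ≤ Subgroup.center R) {g : R} (hg : g ∉ Subgroup.center R) : χ g = 0 := by
  have hχc := IsIrrCharacter.isCharacter hχ
  rw [Subgroup.mem_center_iff] at hg
  push Not at hg
  obtain ⟨h, hh⟩ := hg
  set c : R := ⁅g, h⁆ with hc
  have hcD : c ∈ commutator R := by
    rw [commutator_def]
    exact Subgroup.commutator_mem_commutator trivial trivial
  have hcZ := hcent hcD
  have hc1 : c ≠ 1 := by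
    rw [hc, Ne, commutatorElement_eq_one_iff_mul_comm]
    exact fun h' => hh h'.symm
  have hne : χ c ≠ χ 1 := by
    intro h'
    have h1 : c ∈ charKer χ := (mem_charKer hχc).mpr h'
    rw [hf, Subgroup.mem_bot] at h1
    exact hc1 h1
  have h1 := apply_mul_of_mem_center hχ hcZ (h * g * h⁻¹)
  have h2 : h * g * h⁻¹ * c = g := by
    have h3 := Subgroup.mem_center_iff.mp hcZ (h * g * h⁻¹)
    rw [h3, hc, commutatorElement_def]
    group
  rw [h2] at h1
  have h4 := IsCharacter.isClassFunction hχc g h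
  rw [h4] at h1
  have h5 : χ g * (χ 1 - χ c) = 0 := by
    rw [mul_sub, mul_comm (χ g), h1]
    ring
  rcases mul_eq_zero.mp h5 with h6 | h6
  · exact h6
  · exact absurd (sub_eq_zero.mp h6).symm hne

theorem deg_sq {χ : R → ℂ} (hχ : IsIrrCharacter R χ) (hv : ∀ g, g ∉ Subgroup.center R → χ g = 0) :
    (charDegree χ) ^ 2 = (Subgroup.center R).index := by
  classical
  have h1 := Cfsg.Agent.Lib.Char.FRam.norm_sum_eq hχ
  have h2 : ∑ g : R, Complex.normSq (χ g) =
      ∑ z ∈ Finset.univ.filter (· ∈ Subgroup.center R), Complex.normSq (χ z) := by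
    symm
    apply Finset.sum_subset (Finset.filter_subset _ _)
    intro g _ hg
    have : g ∉ Subgroup.center R := by simpa using hg
    rw [hv g this]
    simp
  have h3 : ∀ z ∈ Finset.univ.filter (· ∈ Subgroup.center R), Complex.normSq (χ z) =
      ((charDegree χ : ℝ)) ^ 2 := by
    intro z hz
    have h4 := Cfsg.Agent.Lib.Char.FT.norm_of_mem_center hχ (Finset.mem_filter.mp hz).2
    rw [Complex.normSq_eq_norm_sq, h4, apply_one_eq_charDegree (IsIrrCharacter.isCharacter hχ)]
    simp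
  rw [h2, Finset.sum_congr rfl h3, Finset.sum_const] at h1
  have h5 : (Finset.univ.filter (· ∈ Subgroup.center R)).card = Nat.card (Subgroup.center R) := by
    rw [Nat.card_eq_fintype_card, Fintype.card_subtype]
  rw [h5, nsmul_eq_mul] at h1
  have h6 := Subgroup.card_mul_index (Subgroup.center R)
  have h7 : (Nat.card (Subgroup.center R) * (charDegree χ) ^ 2 : ℕ) =
      Nat.card (Subgroup.center R) * (Subgroup.center R).index := by
    rw [h6]
    exact_mod_cast h1
  exact Nat.eq_of_mul_eq_mul_left Nat.card_pos h7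

theorem isCyclic_center_of_faithful {p : ℕ} [hp : Fact p.Prime] (hG : IsPGroup p R) {χ : R → ℂ}
    (hχ : IsIrrCharacter R χ) (hf : charKer χ = ⊥) : IsCyclic (Subgroup.center R) := by
  obtain ⟨n, ρ, hρ, rfl⟩ := id hχ
  refine (Cfsg.Agent.S0184.result p hG).mp ⟨n, ρ, hρ, ?_⟩
  rw [charKer_character] at hf
  exact (MonoidHom.ker_eq_bot_iff ρ).mp hf

/-- Comparability of elements in a cyclic `p`-group. -/
theorem mem_zpowers_or {X : Type*} [Group X] [Finite X] [IsCyclic X] {p : ℕ} [hp : Fact p.Prime] (hX : IsPGroup p X)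
    (a b : X) : a ∈ Subgroup.zpowers b ∨ b ∈ Subgroup.zpowers a := by
  classical
  letI : Fintype X := Fintype.ofFinite X
  have key : ∀ a b : X, orderOf a ∣ orderOf b → a ∈ Subgroup.zpowers b := by
    intro a b h
    have h0 : 0 < orderOf b := orderOf_pos b
    have h1 := IsCyclic.card_pow_eq_one_le (α := X) h0
    letI : Fintype (Subgroup.zpowers b) := Fintype.ofFinite _
    have h2 : (Finset.univ.filter (· ∈ Subgroup.zpowers b)) ⊆ Finset.univ.filter (fun x : X => x ^ orderOf b = 1) := by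
      intro x hx
      have h3 := (Finset.mem_filter.mp hx).2
      obtain ⟨k, rfl⟩ := Subgroup.mem_zpowers_iff.mp h3
      simp only [Finset.mem_filter, Finset.mem_univ, true_and]
      rw [← zpow_natCast, ← zpow_mul, mul_comm, zpow_mul, zpow_natCast, pow_orderOf_eq_one, one_zpow]
    have h4 : (Finset.univ.filter (· ∈ Subgroup.zpowers b)).card = orderOf b := by
      rw [← Nat.card_zpowers, Nat.card_eq_fintype_card, Fintype.card_subtype]
    have h5 := Finset.eq_of_subset_of_card_le h2 (by rw [h4]; exact h1)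
    have h6 : a ∈ Finset.univ.filter (fun x : X => x ^ orderOf b = 1) := by
      simp only [Finset.mem_filter, Finset.mem_univ, true_and]
      exact orderOf_dvd_iff_pow_eq_one.mp h
    rw [← h5] at h6
    exact (Finset.mem_filter.mp h6).2
  obtain ⟨s, hs⟩ := (IsPGroup.iff_orderOf.mp hX) a
  obtain ⟨t, ht⟩ := (IsPGroup.iff_orderOf.mp hX) b
  rcases le_total s t with h | h
  · left
    apply key
    rw [hs, ht]
    exact pow_dvd_pow p h
  · right
    apply key
    rw [hs, ht]
    exact pow_dvd_pow p h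

/-- The local bilinearity of commutators. -/
theorem comm_mul_left' {g₁ g₂ h : R} (h0 : ⁅g₂, h⁆ ∈ Subgroup.center R) : ⁅g₁ * g₂, h⁆ = ⁅g₁, h⁆ * ⁅g₂, h⁆ := by
  have h1 := Subgroup.mem_center_iff.mp h0 g₁
  have h2 := Subgroup.mem_center_iff.mp h0 (g₁ * h * g₁⁻¹ * h⁻¹)
  simp only [commutatorElement_def] at h1 h2 ⊢
  calc g₁ * g₂ * h * (g₁ * g₂)⁻¹ * h⁻¹ = (g₁ * (g₂ * h * g₂⁻¹ * h⁻¹)) * h * g₁⁻¹ * h⁻¹ := by group
    _ = ((g₂ * h * g₂⁻¹ * h⁻¹) * g₁) * h * g₁⁻¹ * h⁻¹ := by rw [h1]
    _ = (g₂ * h * g₂⁻¹ * h⁻¹) * (g₁ * h * g₁⁻¹ * h⁻¹) := by group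
    _ = (g₁ * h * g₁⁻¹ * h⁻¹) * (g₂ * h * g₂⁻¹ * h⁻¹) := h2.symm

theorem comm_pow_left' {t g : R} (h0 : ⁅t, g⁆ ∈ Subgroup.center R) (n : ℕ) : ⁅t ^ n, g⁆ = ⁅t, g⁆ ^ n := by
  induction n with
  | zero => simp
  | succ n ih => rw [pow_succ, comm_mul_left' h0, ih, pow_succ]

end Basic

end Cfsg.Agent.Lib.Char.GalConj
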