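import Mathlib
import Cfsg.Agent.Lib.Char.GalA
import Cfsg.Agent.Lib.Char.BrauerInd2

set_option autoImplicit false

/-!
Groups in which irreducible characters of equal degree greater than one are related by power maps:
the derived subgroup has prime order.
-/

namespace Cfsg.Agent.Lib.Char.GalConj

open Cfsg Cfsg.Agent.Lib.Char Cfsg.Agent.Lib.Char.E3 Cfsg.Agent.Lib.Char.CdP ComplexConjugate
open scoped commutatorElement

universe u

section Type1

variable {R : Type u} [Group R] [Fintype R] {p : ℕ} [hp : Fact p.Prime]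

/-- The preimage of the centre of a quotient. -/
def preZ (W : Subgroup R) [W.Normal] : Subgroup R :=
  (Subgroup.center (R ⧸ W)).comap (QuotientGroup.mk' W)

omit [Fintype R] in
theorem mem_preZ {W : Subgroup R} [W.Normal] {t : R} : t ∈ preZ W ↔ ∀ g, ⁅t, g⁆ ∈ W := by
  rw [preZ, Subgroup.mem_comap, Subgroup.mem_center_iff]
  have key : ∀ g : R, ((⁅t, g⁆ : R) : R ⧸ W) = ⁅(t : R ⧸ W), (g : R ⧸ W)⁆ :=
    fun g => map_commutatorElement (QuotientGroup.mk' W) t g
  constructor
  · intro h g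
    rw [← QuotientGroup.eq_one_iff, key, commutatorElement_eq_one_iff_mul_comm]
    exact (h (g : R ⧸ W)).symm
  · intro h g
    obtain ⟨r, rfl⟩ := QuotientGroup.mk_surjective g
    have h1 := (QuotientGroup.eq_one_iff _).mpr (h r)
    rw [key, commutatorElement_eq_one_iff_mul_comm] at h1
    exact h1.symm

omit [Fintype R] in
theorem index_preZ (W : Subgroup R) [W.Normal] : (preZ W).index = (Subgroup.center (R ⧸ W)).index :=
  Subgroup.index_comap_of_surjective _ (QuotientGroup.mk'_surjective W)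

omit [Fintype R] in
theorem center_le_preZ (W : Subgroup R) [W.Normal] : Subgroup.center R ≤ preZ W := by
  intro z hz
  rw [mem_preZ]
  intro g
  have h1 : ⁅z, g⁆ = 1 := by
    rw [commutatorElement_eq_one_iff_mul_comm]
    exact (Subgroup.mem_center_iff.mp hz g).symm
  rw [h1]
  exact one_mem _

omit [Fintype R] in
theorem card_comm_quot [Finite R] {W : Subgroup R} [W.Normal] (hW : W ≤ commutator R) :
    Nat.card (commutator (R ⧸ W)) * Nat.card W = Nat.card (commutator R) := by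
  have h1 : commutator (R ⧸ W) = (commutator R).map (QuotientGroup.mk' W) := by
    rw [map_commutator_eq, MonoidHom.range_eq_top.mpr (QuotientGroup.mk'_surjective W)]
    rfl
  have h2 := Subgroup.relIndex_ker (K := commutator R) (QuotientGroup.mk' W)
  rw [QuotientGroup.ker_mk'] at h2
  rw [h1, ← h2, mul_comm]
  have h3 := Subgroup.card_mul_index (W.subgroupOf (commutator R))
  rw [Nat.card_congr (Subgroup.subgroupOfEquivOfLe hW).toEquiv] at h3
  exact h3

theorem exists_type (hG : IsPGroup p R) (hyp : Hyp R) (W : Subgroup R) [hWn : W.Normal]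
    (hQ : Nat.card (commutator (R ⧸ W)) = p) :
    ∃ χ : IrrCharacter R, charDegree (χ : R → ℂ) ≠ 1 ∧ charKer (χ : R → ℂ) = W ∧
      (charDegree (χ : R → ℂ)) ^ 2 = (preZ W).index ∧ IsCyclic (Subgroup.center (R ⧸ W)) := by
  classical
  letI : Fintype (R ⧸ W) := Fintype.ofFinite _
  letI : Fintype W := Fintype.ofFinite _
  have hQp : IsPGroup p (R ⧸ W) := hG.to_quotient W
  have hypQ := hyp.quot W
  have hna : ∃ a b : R ⧸ W, a * b ≠ b * a := by
    by_contra hcon
    push Not at hcon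
    have h1 : commutator (R ⧸ W) = ⊥ := by
      rw [commutator_def, Subgroup.commutator_eq_bot_iff_le_centralizer]
      intro a _
      rw [Subgroup.mem_centralizer_iff]
      intro b _
      exact hcon b a
    rw [h1] at hQ
    simp at hQ
    exact hp.out.one_lt.ne hQ
  obtain ⟨χb, hχb⟩ := exists_nonlinear hna
  have hχc := IsIrrCharacter.isCharacter χb.2
  have hfaith : charKer (χb : R ⧸ W → ℂ) = ⊥ := by
    by_contra hne
    obtain ⟨u, hu⟩ := Subgroup.ne_bot_iff_exists_ne_one.mp hne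
    have h1 : (u : R ⧸ W) ≠ 1 := fun h => hu (Subtype.ext h)
    apply hχb
    apply degree_one_of_commutator_le χb.2
    refine (le_zpowers_of_prime_card hQ (hypQ.ker_le χb hχb u.2) h1).trans ?_
    rw [Subgroup.zpowers_le]
    exact u.2
  have hcent := le_center_of_card_prime hQp (commutator (R ⧸ W)) hQ
  have hv := fun g hg => vanish χb.2 hfaith hcent (g := g) hg
  have hd := deg_sq χb.2 hv
  have hdi := charDegree_inflate W hχc
  refine ⟨⟨_, isIrrCharacter_inflate W χb.2⟩, ?_, ?_, ?_, isCyclic_center_of_faithful hQp χb.2 hfaith⟩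
  · show charDegree (inflate W (χb : R ⧸ W → ℂ)) ≠ 1
    rw [hdi]
    exact hχb
  · show charKer (inflate W (χb : R ⧸ W → ℂ)) = W
    ext g
    rw [mem_charKer (IsIrrCharacter.isCharacter (isIrrCharacter_inflate W χb.2))]
    have h1 : (g : R ⧸ W) ∈ charKer (χb : R ⧸ W → ℂ) ↔ (χb : R ⧸ W → ℂ) g = (χb : R ⧸ W → ℂ) 1 :=
      mem_charKer hχc
    rw [hfaith, Subgroup.mem_bot, QuotientGroup.eq_one_iff] at h1
    exact h1.symm
  · show (charDegree (inflate W (χb : R ⧸ W → ℂ))) ^ 2 = _
    rw [hdi, index_preZ]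
    exact hd

omit [Fintype R] hp in
theorem exists_gen {W : Subgroup R} [W.Normal] (hc : IsCyclic (Subgroup.center (R ⧸ W))) :
    ∃ t₀ ∈ preZ W, ∀ t ∈ preZ W, ∃ i : ℤ, ∃ w ∈ W, t = t₀ ^ i * w := by
  obtain ⟨c, hc'⟩ := IsCyclic.exists_generator (α := Subgroup.center (R ⧸ W))
  obtain ⟨t₀, ht₀⟩ := QuotientGroup.mk_surjective (c : R ⧸ W)
  refine ⟨t₀, ?_, ?_⟩
  · show (t₀ : R ⧸ W) ∈ Subgroup.center (R ⧸ W)
    rw [ht₀]
    exact c.2
  · intro t ht
    obtain ⟨i, hi⟩ := Subgroup.mem_zpowers_iff.mp (hc' ⟨(t : R ⧸ W), ht⟩)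
    refine ⟨i, (t₀ ^ i)⁻¹ * t, ?_, by group⟩
    rw [← QuotientGroup.eq_one_iff]
    have h1 : ((c ^ i : Subgroup.center (R ⧸ W)) : R ⧸ W) = (t : R ⧸ W) := congrArg Subtype.val hi
    rw [Subgroup.coe_zpow, ← ht₀] at h1
    rw [QuotientGroup.mk_mul, QuotientGroup.mk_inv, QuotientGroup.mk_zpow, h1, inv_mul_cancel]

omit [Fintype R] in
theorem pow_card_mem [Finite R] {W : Subgroup R} (hWp : Nat.card W = p) {w : R} (hw : w ∈ W) : w ^ p = 1 := by
  have := pow_card_eq_one' (x := (⟨w, hw⟩ : W))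
  rw [hWp] at this
  exact congrArg Subtype.val this

theorem pow_mem_center_of_preZ {W : Subgroup R} [W.Normal] (hWc : W ≤ Subgroup.center R)
    (hWp : Nat.card W = p) {t : R} (ht : t ∈ preZ W) : t ^ p ∈ Subgroup.center R := by
  rw [Subgroup.mem_center_iff]
  intro g
  have h1 := mem_preZ.mp ht g
  have h2 := comm_pow_left' (hWc h1) p
  rw [pow_card_mem hWp h1, commutatorElement_eq_one_iff_mul_comm] at h2
  exact h2.symm

theorem relIndex_center_preZ_dvd {W : Subgroup R} [W.Normal] (hWc : W ≤ Subgroup.center R)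
    (hWp : Nat.card W = p) (hcyc : IsCyclic (Subgroup.center (R ⧸ W))) :
    (Subgroup.center R).relIndex (preZ W) ∣ p := by
  obtain ⟨t₀, ht₀, hgen⟩ := exists_gen hcyc
  let N : Subgroup (preZ W) := (Subgroup.center R).subgroupOf (preZ W)
  haveI hNn : N.Normal := Subgroup.normal_subgroupOf
  let τ : preZ W ⧸ N := ((⟨t₀, ht₀⟩ : preZ W) : preZ W ⧸ N)
  have htop : Subgroup.zpowers τ = ⊤ := by
    rw [eq_top_iff]
    intro x _
    obtain ⟨t, rfl⟩ := QuotientGroup.mk_surjective x
    obtain ⟨i, w, hw, hti⟩ := hgen t t.2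
    have hwT : w ∈ preZ W := center_le_preZ W (hWc hw)
    have h1 : t = (⟨t₀, ht₀⟩ : preZ W) ^ i * ⟨w, hwT⟩ := Subtype.ext hti
    have h2 : ((⟨w, hwT⟩ : preZ W) : preZ W ⧸ N) = 1 :=
      (QuotientGroup.eq_one_iff _).mpr (Subgroup.mem_subgroupOf.mpr (hWc hw))
    rw [h1, QuotientGroup.mk_mul, QuotientGroup.mk_zpow, h2, mul_one]
    exact zpow_mem (Subgroup.mem_zpowers τ) i
  have hτ : τ ^ p = 1 := by
    rw [← QuotientGroup.mk_pow, QuotientGroup.eq_one_iff]
    exact Subgroup.mem_subgroupOf.mpr (pow_mem_center_of_preZ hWc hWp ht₀)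
  have h3 : Nat.card (preZ W ⧸ N) = orderOf τ := by
    rw [← Subgroup.card_top (G := preZ W ⧸ N), ← htop, Nat.card_zpowers]
  rw [Subgroup.relIndex, Subgroup.index_eq_card, h3]
  exact orderOf_dvd_of_pow_eq_one hτ

/-- The case of a central noncyclic derived subgroup. -/
theorem caseIa (hG : IsPGroup p R) (hyp : Hyp R) (hD : Nat.card (commutator R) = p ^ 2)
    (hcen : commutator R ≤ Subgroup.center R) (hnc : ¬ IsCyclic (commutator R)) : False := by
  classical
  have hp1 := hp.out.one_lt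
  have hpp : p < p ^ 2 := by nlinarith
  have hpow : ∀ x ∈ commutator R, x ^ p = 1 := by
    intro x hx
    have h1 : orderOf x ∣ p ^ 2 := by
      rw [← hD, ← Subgroup.orderOf_mk x hx]
      exact orderOf_dvd_natCard _
    obtain ⟨k, hk, hk'⟩ := (Nat.dvd_prime_pow hp.out).mp h1
    have hk2 : k ≠ 2 := by
      rintro rfl
      apply hnc
      apply isCyclic_of_orderOf_eq_card (⟨x, hx⟩ : commutator R)
      rw [Subgroup.orderOf_mk, hk', hD]
    have h2 : orderOf x ∣ p := by
      rw [hk']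
      exact pow_dvd_pow p (by omega : k ≤ 1) |>.trans (by simp)
    exact orderOf_dvd_iff_pow_eq_one.mp h2
  have hsub : ∀ w ∈ commutator R, w ≠ 1 → Nat.card (Subgroup.zpowers w) = p := by
    intro w hw hw1
    rw [Nat.card_zpowers]
    exact orderOf_eq_prime (hpow w hw) hw1
  -- two different subgroups
  obtain ⟨w₁, hw₁, hw₁1⟩ : ∃ w ∈ commutator R, w ≠ 1 := by
    by_contra hcon
    push Not at hcon
    have h1 : commutator R = ⊥ := (Subgroup.eq_bot_iff_forall _).mpr hcon
    rw [h1] at hD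
    simp at hD
    omega
  have hW₁ := hsub w₁ hw₁ hw₁1
  obtain ⟨u, hu, huW⟩ : ∃ u ∈ commutator R, u ∉ Subgroup.zpowers w₁ := by
    by_contra hcon
    push Not at hcon
    have h1 := Subgroup.card_le_of_le (show commutator R ≤ Subgroup.zpowers w₁ from hcon)
    rw [hD, hW₁] at h1
    omega
  have hu1 : u ≠ 1 := fun h => huW (h ▸ one_mem _)
  have hW₂ := hsub u hu hu1
  haveI h1n : (Subgroup.zpowers w₁).Normal := zpowers_normal_of_center (hcen hw₁)
  haveI h2n : (Subgroup.zpowers u).Normal := zpowers_normal_of_center (hcen hu)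
  have hle₁ : Subgroup.zpowers w₁ ≤ commutator R := by
    rw [Subgroup.zpowers_le]
    exact hw₁
  have hle₂ : Subgroup.zpowers u ≤ commutator R := by
    rw [Subgroup.zpowers_le]
    exact hu
  have hq : ∀ x, x * p = p ^ 2 → x = p := by
    intro x hx
    have : x * p = p * p := by rw [hx]; ring
    exact Nat.eq_of_mul_eq_mul_right hp.out.pos this
  have hQ₁ := hq _ (by
    have := card_comm_quot hle₁
    rw [hW₁, hD] at this
    exact this)
  have hQ₂ := hq _ (by
    have := card_comm_quot hle₂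
    rw [hW₂, hD] at this
    exact this)
  obtain ⟨χ₁, hχ₁, hk₁, hd₁, hc₁⟩ := exists_type hG hyp _ hQ₁
  obtain ⟨χ₂, hχ₂, hk₂, hd₂, hc₂⟩ := exists_type hG hyp _ hQ₂
  have hr₁ := relIndex_center_preZ_dvd (hle₁.trans hcen) hW₁ hc₁
  have hr₂ := relIndex_center_preZ_dvd (hle₂.trans hcen) hW₂ hc₂
  have he₁ := Subgroup.relIndex_mul_index (center_le_preZ (Subgroup.zpowers w₁))
  have he₂ := Subgroup.relIndex_mul_index (center_le_preZ (Subgroup.zpowers u))
  rw [← hd₁] at he₁
  rw [← hd₂] at he₂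
  obtain ⟨n, hn⟩ := IsPGroup.iff_card.mp hG
  -- the degrees are powers of `p`
  have hdeg : ∀ f : ℕ, f ^ 2 ∣ p ^ n → ∃ s, f = p ^ s := by
    intro f hf
    have h1 : f ∣ p ^ n := (dvd_pow_self f two_ne_zero).trans hf
    obtain ⟨s, -, hs⟩ := (Nat.dvd_prime_pow hp.out).mp h1
    exact ⟨s, hs⟩
  have hidx : ∀ T : Subgroup R, T.index ∣ p ^ n := fun T => hn ▸ Subgroup.index_dvd_card T
  obtain ⟨s₁, hs₁⟩ := hdeg _ (hd₁ ▸ hidx _)
  obtain ⟨s₂, hs₂⟩ := hdeg _ (hd₂ ▸ hidx _)
  have hinj := Nat.pow_right_injective hp.out.two_le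
  have hsame : s₁ = s₂ := by
    have h3 := he₁.trans he₂.symm
    rw [hs₁, hs₂, ← pow_mul, ← pow_mul] at h3
    rcases (Nat.dvd_prime hp.out).mp hr₁ with e₁ | e₁ <;>
      rcases (Nat.dvd_prime hp.out).mp hr₂ with e₂ | e₂ <;>
      rw [e₁, e₂] at h3
    · have := hinj (by simpa using h3)
      omega
    · have : p ^ (s₁ * 2) = p ^ (s₂ * 2 + 1) := by
        rw [pow_succ, mul_comm (p ^ (s₂ * 2))]
        simpa using h3
      have := hinj this
      omega
    · have : p ^ (s₁ * 2 + 1) = p ^ (s₂ * 2) := by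
        rw [pow_succ, mul_comm (p ^ (s₁ * 2))]
        simpa using h3
      have := hinj this
      omega
    · have := Nat.eq_of_mul_eq_mul_left hp.out.pos h3
      have := hinj this
      omega
  have hk := hyp.ker_eq χ₁ χ₂ hχ₁ (by rw [hs₁, hs₂, hsame])
  rw [hk₁, hk₂] at hk
  apply huW
  rw [hk]
  exact Subgroup.mem_zpowers u

/-- The case of a central cyclic derived subgroup. -/
theorem caseIb (hG : IsPGroup p R) (hyp : Hyp R) (hD : Nat.card (commutator R) = p ^ 2)
    (hcen : commutator R ≤ Subgroup.center R) (hc : IsCyclic (commutator R)) : False := by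
  classical
  have hp1 := hp.out.one_lt
  have hpp : p < p ^ 2 := by nlinarith
  have hcent : ∀ g h : R, ⁅g, h⁆ ∈ Subgroup.center R := fun g h =>
    hcen (Subgroup.commutator_mem_commutator (Subgroup.mem_top g) (Subgroup.mem_top h))
  obtain ⟨z₀, hz₀⟩ := IsCyclic.exists_generator (α := commutator R)
  let z : R := z₀
  have hzD : z ∈ commutator R := z₀.2
  have hord : orderOf z = p ^ 2 := by
    have h0 : orderOf z = orderOf z₀ := Subgroup.orderOf_coe z₀
    rw [h0, orderOf_eq_card_of_forall_mem_zpowers hz₀, hD]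
  have hform : ∀ d ∈ commutator R, ∃ i : ℤ, d = z ^ i := by
    intro d hd
    obtain ⟨i, hi⟩ := Subgroup.mem_zpowers_iff.mp (hz₀ ⟨d, hd⟩)
    exact ⟨i, (congrArg Subtype.val hi).symm⟩
  let W : Subgroup R := Subgroup.zpowers (z ^ p)
  have hWc : Nat.card W = p := by
    rw [Nat.card_zpowers, orderOf_pow_of_dvd (hp.out.ne_zero) (by rw [hord]; exact dvd_pow_self p two_ne_zero), hord]
    rw [sq]
    exact Nat.mul_div_cancel _ hp.out.pos
  have hWD : W ≤ commutator R := by
    rw [Subgroup.zpowers_le]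
    exact pow_mem hzD p
  have hWZ : W ≤ Subgroup.center R := hWD.trans hcen
  haveI hWn : W.Normal := zpowers_normal_of_center (hWZ (Subgroup.mem_zpowers _))
  have hpW : ∀ d ∈ commutator R, d ^ p ∈ W := by
    intro d hd
    obtain ⟨i, rfl⟩ := hform d hd
    have h1 : (z ^ i) ^ p = (z ^ p) ^ i := by
      rw [← zpow_natCast, ← zpow_mul, mul_comm, zpow_mul, zpow_natCast]
    rw [h1]
    exact zpow_mem (Subgroup.mem_zpowers _) i
  have hne : ∀ d ∈ commutator R, d ∉ W → d ^ p ≠ 1 := by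
    intro d hd hdW h1
    obtain ⟨i, rfl⟩ := hform d hd
    apply hdW
    have h2 : z ^ (i * (p : ℤ)) = 1 := by
      rw [zpow_mul, zpow_natCast]
      exact h1
    have h3 := orderOf_dvd_iff_zpow_eq_one.mpr h2
    rw [hord] at h3
    have h4 : (p : ℤ) ∣ i := by
      have hp0 : (p : ℤ) ≠ 0 := by exact_mod_cast hp.out.ne_zero
      obtain ⟨c, hc⟩ := h3
      refine ⟨c, ?_⟩
      have : i * p = (p * c) * p := by
        rw [hc]
        push_cast
        ring
      exact mul_right_cancel₀ hp0 this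
    obtain ⟨c, rfl⟩ := h4
    have h5 : z ^ ((p : ℤ) * c) = (z ^ p) ^ c := by
      rw [zpow_mul, zpow_natCast]
    rw [h5]
    exact zpow_mem (Subgroup.mem_zpowers _) c
  obtain ⟨x, y, hxy⟩ : ∃ x y : R, ⁅x, y⁆ ∉ W := by
    by_contra hcon
    push Not at hcon
    have h1 : commutator R ≤ W := by
      rw [commutator_def, Subgroup.commutator_le]
      intro a _ b _
      exact hcon a b
    have h2 := Subgroup.card_le_of_le h1
    rw [hD, hWc] at h2
    omega
  have hQ : Nat.card (commutator (R ⧸ W)) = p := by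
    have := card_comm_quot hWD
    rw [hWc, hD] at this
    have h5 : Nat.card (commutator (R ⧸ W)) * p = p * p := by rw [this]; ring
    exact Nat.eq_of_mul_eq_mul_right hp.out.pos h5
  obtain ⟨-, -, -, -, hcyc⟩ := exists_type hG hyp W hQ
  have hc1 : ⁅x, y⁆ ∈ commutator R :=
    Subgroup.commutator_mem_commutator (Subgroup.mem_top x) (Subgroup.mem_top y)
  have hc2 : ⁅y, x⁆ ∈ commutator R :=
    Subgroup.commutator_mem_commutator (Subgroup.mem_top y) (Subgroup.mem_top x)
  have hcp := hne _ hc1 hxy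
  have hpZ : ∀ t : R, t ^ p ∈ preZ W := by
    intro t
    rw [mem_preZ]
    intro g
    rw [comm_pow_left' (hcent t g)]
    exact hpW _ (Subgroup.commutator_mem_commutator (Subgroup.mem_top t) (Subgroup.mem_top g))
  have hQp : IsPGroup p (Subgroup.center (R ⧸ W)) := (hG.to_quotient W).to_subgroup _
  -- a contradiction from a relation between `x ^ p` and `y ^ p`
  have key : ∀ a b : R, ((a ^ p : R) : R ⧸ W) ∈ Subgroup.zpowers ((b ^ p : R) : R ⧸ W) → ⁅a, b⁆ ^ p = 1 := by
    intro a b h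
    obtain ⟨i, hi⟩ := Subgroup.mem_zpowers_iff.mp h
    have h1 : ((b ^ p) ^ i)⁻¹ * a ^ p ∈ W := by
      rw [← QuotientGroup.eq_one_iff, QuotientGroup.mk_mul, QuotientGroup.mk_inv, QuotientGroup.mk_zpow, hi,
        inv_mul_cancel]
    set u := ((b ^ p) ^ i)⁻¹ * a ^ p with hu
    have h2 : a ^ p = (b ^ p) ^ i * u := by
      rw [hu]
      group
    rw [← comm_pow_left' (hcent a b), h2, commutatorElement_eq_one_iff_commute]
    have h3 : Commute ((b ^ p) ^ i) b := ((Commute.refl b).pow_left p).zpow_left i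
    have h4 : Commute u b := (Subgroup.mem_center_iff.mp (hWZ h1) b).symm
    exact h3.mul_left h4
  rcases mem_zpowers_or hQp (⟨((x ^ p : R) : R ⧸ W), hpZ x⟩ : Subgroup.center (R ⧸ W))
      ⟨((y ^ p : R) : R ⧸ W), hpZ y⟩ with h | h
  · apply hcp
    apply key
    have := Subgroup.mem_zpowers_iff.mp h
    obtain ⟨i, hi⟩ := this
    exact Subgroup.mem_zpowers_iff.mpr ⟨i, congrArg Subtype.val hi⟩
  · have h3 : ⁅y, x⁆ ^ p = 1 := by
      apply key
      obtain ⟨i, hi⟩ := Subgroup.mem_zpowers_iff.mp h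
      exact Subgroup.mem_zpowers_iff.mpr ⟨i, congrArg Subtype.val hi⟩
    apply hcp
    rw [← commutatorElement_inv, inv_pow, h3, inv_one]

end Type1

end Cfsg.Agent.Lib.Char.GalConj
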