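import Mathlib
import Cfsg.Agent.Lib.Char.GalB

set_option autoImplicit false

/-!
Groups in which irreducible characters of equal degree greater than one are related by power maps:
the noncentral case and the main induction.
-/

namespace Cfsg.Agent.Lib.Char.GalConj

open Cfsg Cfsg.Agent.Lib.Char Cfsg.Agent.Lib.Char.E3 Cfsg.Agent.Lib.Char.CdP ComplexConjugate
open scoped commutatorElement

universe u

section Case2

variable {R : Type u} [Group R] [Fintype R] {p : ℕ} [hp : Fact p.Prime]

omit [Fintype R] hp in
theorem comm_quot_eq {W : Subgroup R} [W.Normal] :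
    commutator (R ⧸ W) = (commutator R).map (QuotientGroup.mk' W) := by
  rw [map_commutator_eq, MonoidHom.range_eq_top.mpr (QuotientGroup.mk'_surjective W)]
  rfl

/-- The case of a noncentral derived subgroup. -/
theorem caseII (hG : IsPGroup p R) (hyp : Hyp R) (hD : Nat.card (commutator R) = p ^ 2)
    (hnc : ¬ commutator R ≤ Subgroup.center R) : False := by
  classical
  have hp1 := hp.out.one_lt
  have hpp : p < p ^ 2 := by nlinarith
  haveI hnil : Group.IsNilpotent R := hG.isNilpotent
  haveI hDn : (commutator R).Normal := inferInstance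
  have hDne : commutator R ≠ ⊥ := by
    intro h
    rw [h] at hD
    simp at hD
    omega
  let W : Subgroup R := commutator R ⊓ Subgroup.center R
  haveI hWn : W.Normal := Subgroup.normal_inf_normal _ _
  have hWne : W ≠ ⊥ := Cfsg.Agent.Lib.Basic.normal_inf_center_ne_bot (commutator R) hDne
  have hWD : W ≤ commutator R := inf_le_left
  have hWZ : W ≤ Subgroup.center R := inf_le_right
  have hWcard : Nat.card W = p := by
    have h1 : Nat.card W ∣ p ^ 2 := by
      rw [← hD]
      exact Subgroup.card_dvd_of_le hWD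
    obtain ⟨k, hk, hk'⟩ := (Nat.dvd_prime_pow hp.out).mp h1
    interval_cases k
    · exfalso
      apply hWne
      apply Subgroup.eq_bot_of_card_eq
      simpa using hk'
    · simpa using hk'
    · exfalso
      apply hnc
      have h2 : W = commutator R := Subgroup.eq_of_le_of_card_ge hWD (by rw [hD, hk'])
      rw [← h2]
      exact hWZ
  have hQ : Nat.card (commutator (R ⧸ W)) = p := by
    have := card_comm_quot hWD
    rw [hWcard, hD] at this
    have h5 : Nat.card (commutator (R ⧸ W)) * p = p * p := by rw [this]; ring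
    exact Nat.eq_of_mul_eq_mul_right hp.out.pos h5
  obtain ⟨χW, hχ₁, hk, hd, hcyc⟩ := exists_type hG hyp W hQ
  obtain ⟨a, haD, haZ⟩ : ∃ a ∈ commutator R, a ∉ Subgroup.center R := by
    by_contra hcon
    push Not at hcon
    exact hnc hcon
  have haW : a ∉ W := fun h => haZ (hWZ h)
  have hDT : commutator R ≤ preZ W := by
    intro r hr
    have h1 : QuotientGroup.mk' W r ∈ commutator (R ⧸ W) := by
      rw [comm_quot_eq]
      exact Subgroup.mem_map_of_mem _ hr
    exact le_center_of_card_prime (hG.to_quotient W) _ hQ h1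
  have hcentW : ∀ g, ⁅a, g⁆ ∈ W := mem_preZ.mp (hDT haD)
  have hcentW' : ∀ g, ⁅g, a⁆ ∈ W := fun g => by
    rw [← commutatorElement_inv]
    exact inv_mem (hcentW g)
  -- the homomorphism
  let φ : R →* R := MonoidHom.mk' (fun g => ⁅g, a⁆) (fun x y => comm_mul_left' (hWZ (hcentW' y)))
  have hφ : ∀ g, φ g = ⁅g, a⁆ := fun g => rfl
  have hφker : ∀ g, g ∈ φ.ker ↔ g * a = a * g := by
    intro g
    rw [MonoidHom.mem_ker, hφ, commutatorElement_eq_one_iff_mul_comm]
  have hrange : Nat.card φ.range = p := by
    have h1 : φ.range ≤ W := by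
      rintro _ ⟨g, rfl⟩
      exact hcentW' g
    have h2 : Nat.card φ.range ∣ p := hWcard ▸ Subgroup.card_dvd_of_le h1
    rcases (Nat.dvd_prime hp.out).mp h2 with h3 | h3
    · exfalso
      have h4 : φ.range = ⊥ := Subgroup.eq_bot_of_card_eq _ h3
      apply haZ
      rw [Subgroup.mem_center_iff]
      intro g
      have h5 : φ g = 1 := by
        have h6 : φ g ∈ φ.range := ⟨g, rfl⟩
        rw [h4] at h6
        exact h6
      exact (hφker g).mp h5
    · exact h3
  have hkerIdx : φ.ker.index = p := by
    rw [Subgroup.index_ker, hrange]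
  -- elements of the derived group
  have hrelWD : (W.subgroupOf (commutator R)).index = p := by
    have h3 := Subgroup.card_mul_index (W.subgroupOf (commutator R))
    rw [Nat.card_congr (Subgroup.subgroupOfEquivOfLe hWD).toEquiv, hWcard, hD] at h3
    have h5 : p * (W.subgroupOf (commutator R)).index = p * p := by rw [h3]; ring
    exact Nat.eq_of_mul_eq_mul_left hp.out.pos h5
  have hgenD : ∀ r ∈ commutator R, ∃ k : ℕ, a ^ k * r⁻¹ ∈ W := by
    intro r hr
    have ha' : (⟨a, haD⟩ : commutator R) ∉ W.subgroupOf (commutator R) := haW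
    obtain ⟨k, -, hk'⟩ := exists_pow_mul_mem (hG.to_subgroup (commutator R)) hrelWD ha' (⟨r, hr⟩ : commutator R)⁻¹
    refine ⟨k, ?_⟩
    have := Subgroup.mem_subgroupOf.mp hk'
    simpa using this
  -- the centralizer
  let C : Subgroup R := φ.ker
  have hCmem : ∀ g, g ∈ C ↔ ∀ r ∈ commutator R, g * r = r * g := by
    intro g
    constructor
    · intro h r hr
      have h1 : g * a = a * g := (hφker g).mp h
      obtain ⟨k, hk'⟩ := hgenD r hr
      have h2 : r = (a ^ k * r⁻¹)⁻¹ * a ^ k := by group
      have hz := Subgroup.mem_center_iff.mp (hWZ (inv_mem hk')) g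
      have h3 : Commute g (a ^ k) := (show Commute g a from h1).pow_right k
      set z := (a ^ k * r⁻¹)⁻¹ with hzdef
      rw [h2]
      calc g * (z * a ^ k) = (g * z) * a ^ k := by rw [mul_assoc]
        _ = (z * g) * a ^ k := by rw [hz]
        _ = z * (g * a ^ k) := by rw [mul_assoc]
        _ = z * (a ^ k * g) := by rw [h3.eq]
        _ = z * a ^ k * g := by rw [mul_assoc]
    · intro h
      exact (hφker g).mpr (h a haD)
  have hCcent : C = Subgroup.centralizer (commutator R : Set R) := by
    ext g
    rw [hCmem, Subgroup.mem_centralizer_iff]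
    constructor
    · intro h r hr
      exact (h r hr).symm
    · intro h r hr
      exact (h r hr).symm
  haveI hCn : C.Normal := MonoidHom.normal_ker φ
  have hCidx : C.index = p := hkerIdx
  -- the derived subgroup of `C`
  have hDcC : commutator R ≤ Subgroup.centralizer (C : Set R) := by
    intro r hr
    rw [Subgroup.mem_centralizer_iff]
    intro c hc
    exact (hCmem c).mp hc r hr
  have hCC : ⁅C, C⁆ ≤ Subgroup.center R := by
    rw [← Subgroup.commutator_top_right_eq_bot_iff_le_center]
    apply Subgroup.commutator_commutator_eq_bot_of_rotate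
    · rw [Subgroup.commutator_eq_bot_iff_le_centralizer]
      refine le_trans ?_ hDcC
      rw [commutator_def]
      exact Subgroup.commutator_mono le_top le_rfl
    · rw [Subgroup.commutator_eq_bot_iff_le_centralizer]
      refine le_trans ?_ hDcC
      rw [commutator_def]
      exact Subgroup.commutator_mono le_rfl le_top
  have hCW : ∀ x ∈ C, ∀ y ∈ C, ⁅x, y⁆ ∈ W := by
    intro x hx y hy
    refine Subgroup.mem_inf.mpr ⟨?_, hCC (Subgroup.commutator_mem_commutator hx hy)⟩
    exact Subgroup.commutator_mem_commutator (Subgroup.mem_top x) (Subgroup.mem_top y)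
  have hWC : W ≤ C := by
    intro w hw
    rw [hCmem]
    intro r _
    exact (Subgroup.mem_center_iff.mp (hWZ hw) r).symm
  -- the degree of `χW` is `p`
  have hdeg : charDegree (χW : R → ℂ) = p := by
    letI : Fintype (R ⧸ W) := Fintype.ofFinite _
    letI : Fintype W := Fintype.ofFinite _
    obtain ⟨β, hβ, hβeq⟩ := exists_deflate W χW.2 (by rw [hk])
    have h1 : charDegree (χW : R → ℂ) = charDegree β := by
      rw [hβeq]
      exact charDegree_inflate W (IsIrrCharacter.isCharacter hβ)
    have hπ := QuotientGroup.mk'_surjective W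
    haveI hCb : (C.map (QuotientGroup.mk' W)).Normal := hCn.map _ hπ
    have h2 := charDegree_dvd_index_of_abelian hβ (C.map (QuotientGroup.mk' W)) (by
      rintro _ ⟨x, hx, rfl⟩ _ ⟨y, hy, rfl⟩
      rw [← commutatorElement_eq_one_iff_mul_comm]
      show _ = (1 : R ⧸ W)
      rw [← map_commutatorElement]
      exact (QuotientGroup.eq_one_iff _).mpr (hCW x hx y hy))
    have h3 : (C.map (QuotientGroup.mk' W)).index = p := by
      have h4 : (C.map (QuotientGroup.mk' W)).comap (QuotientGroup.mk' W) = C := by
        apply Subgroup.comap_map_eq_self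
        rw [QuotientGroup.ker_mk']
        exact hWC
      rw [← Subgroup.index_comap_of_surjective _ hπ, h4, hCidx]
    rw [h3] at h2
    rw [h1]
    rcases (Nat.dvd_prime hp.out).mp h2 with h5 | h5
    · exfalso
      apply hχ₁
      rw [h1, h5]
    · exact h5
  have hTidx : (preZ W).index = p ^ 2 := by
    rw [← hd, hdeg]
  -- the preimage of the centre is the derived group
  obtain ⟨t₀, ht₀, hgen'⟩ := exists_gen hcyc
  obtain ⟨i, w, hw, hai⟩ := hgen' a (hDT haD)
  have hpi : ¬ (p : ℤ) ∣ i := by
    rintro ⟨c, rfl⟩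
    apply haZ
    rw [hai, zpow_mul, zpow_natCast]
    exact mul_mem (zpow_mem (pow_mem_center_of_preZ hWZ hWcard ht₀) c) (hWZ hw)
  have ht₀i : t₀ ^ i ∈ commutator R := by
    have h1 : t₀ ^ i = a * w⁻¹ := by
      rw [hai]
      group
    rw [h1]
    exact mul_mem haD (inv_mem (hWD hw))
  obtain ⟨n, hn⟩ := IsPGroup.iff_card.mp hG
  have ht₀D : t₀ ∈ commutator R := by
    have hcop : i.natAbs.Coprime (Nat.card R) := by
      rw [hn]
      apply Nat.Coprime.pow_right
      rw [Nat.coprime_comm, hp.out.coprime_iff_not_dvd]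
      intro h
      exact hpi (Int.natCast_dvd.mpr h)
    have h1 : t₀ ^ i.natAbs ∈ commutator R := by
      rcases Int.natAbs_eq i with h | h
      · rw [h, zpow_natCast] at ht₀i
        simpa using ht₀i
      · rw [h, zpow_neg, zpow_natCast] at ht₀i
        simpa using inv_mem ht₀i
    exact mem_of_pow_mem hcop h1 (by rw [pow_card_eq_one']; exact one_mem _)
  have hTD : preZ W ≤ commutator R := by
    intro t ht
    obtain ⟨j, w', hw', rfl⟩ := hgen' t ht
    exact mul_mem (zpow_mem ht₀D j) (hWD hw')
  have hDidx : (commutator R).index = p ^ 2 := by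
    have h1 : preZ W = commutator R := le_antisymm hTD hDT
    rw [← h1, hTidx]
  -- `C` is abelian
  have hDab : ∀ x ∈ commutator R, ∀ y ∈ commutator R, x * y = y * x := by
    intro x hx y hy
    have h1 := (IsPGroup.isMulCommutative_of_card_eq_prime_sq hD).is_comm.comm
      (⟨x, hx⟩ : commutator R) ⟨y, hy⟩
    exact congrArg Subtype.val h1
  have hDC : commutator R ≤ C := by
    intro r hr
    rw [hCmem]
    intro s hs
    exact hDab r hr s hs
  have hrel : ((commutator R).subgroupOf C).index = p := by
    have h1 := Subgroup.relIndex_mul_index hDC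
    rw [hCidx, hDidx] at h1
    have h2 : (commutator R).relIndex C * p = p * p := by rw [h1]; ring
    exact Nat.eq_of_mul_eq_mul_right hp.out.pos h2
  have hCab : ∀ x ∈ C, ∀ y ∈ C, x * y = y * x := by
    let N : Subgroup C := (commutator R).subgroupOf C
    haveI hNn : N.Normal := Subgroup.normal_subgroupOf
    haveI : Fact (Nat.card (C ⧸ N)).Prime := ⟨by
      rw [← Subgroup.index_eq_card, hrel]
      exact hp.out⟩
    haveI hcy : IsCyclic (C ⧸ N) := isCyclic_of_prime_card (p := Nat.card (C ⧸ N)) rfl
    have hker : (QuotientGroup.mk' N).ker ≤ Subgroup.center C := by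
      rw [QuotientGroup.ker_mk']
      intro r hr
      rw [Subgroup.mem_center_iff]
      intro g
      have h1 : (g : R) * r = r * g := (hCmem g).mp g.2 r (Subgroup.mem_subgroupOf.mp hr)
      exact Subtype.ext h1
    intro x hx y hy
    have h1 := commutative_of_cyclic_center_quotient (QuotientGroup.mk' N) hker ⟨x, hx⟩ ⟨y, hy⟩
    exact congrArg Subtype.val h1
  -- a contradiction
  have hallDeg : ∀ χ : IrrCharacter R, charDegree (χ : R → ℂ) ∣ p := by
    intro χ
    have h1 := charDegree_dvd_index_of_abelian χ.2 C hCab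
    rwa [hCidx] at h1
  obtain ⟨w₀, hw₀⟩ := Subgroup.ne_bot_iff_exists_ne_one.mp hWne
  have hw₀1 : (w₀ : R) ≠ 1 := fun h => hw₀ (Subtype.ext h)
  obtain ⟨χ, hχ⟩ := exists_irr_ne hw₀1
  have hχc := IsIrrCharacter.isCharacter χ.2
  have hχ1 : charDegree (χ : R → ℂ) ≠ 1 := by
    intro h
    have h1 := commutator_le_of_degree_one χ.2 h (hWD w₀.2)
    exact hχ ((mem_charKer hχc).mp h1)
  have hχp : charDegree (χ : R → ℂ) = p :=
    ((Nat.dvd_prime hp.out).mp (hallDeg χ)).resolve_left hχ1
  have hkk := hyp.ker_eq χW χ hχ₁ (by rw [hdeg, hχp])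
  rw [hk] at hkk
  apply hχ
  exact (mem_charKer hχc).mp (hkk ▸ w₀.2)

end Case2

/-- The forward direction. -/
theorem forward {p : ℕ} [hp : Fact p.Prime] : ∀ (n : ℕ) (R : Type u) [Group R] [Fintype R], Nat.card R = n →
    IsPGroup p R → Hyp R → (∃ a b : R, a * b ≠ b * a) → Nat.card (commutator R) = p := by
  classical
  intro n
  induction n using Nat.strong_induction_on with
  | _ n ih =>
  intro R _ _ hn hG hyp hna
  haveI hnil : Group.IsNilpotent R := hG.isNilpotent
  have hDne : commutator R ≠ ⊥ := by
    intro h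
    obtain ⟨a, b, hab⟩ := hna
    apply hab
    have h1 : ⁅a, b⁆ ∈ commutator R :=
      Subgroup.commutator_mem_commutator (Subgroup.mem_top a) (Subgroup.mem_top b)
    rw [h, Subgroup.mem_bot, commutatorElement_eq_one_iff_mul_comm] at h1
    exact h1
  have h1 := Cfsg.Agent.Lib.Basic.normal_inf_center_ne_bot (commutator R) hDne
  obtain ⟨t₀, ht₀⟩ := Subgroup.ne_bot_iff_exists_ne_one.mp h1
  have ht := Subgroup.mem_inf.mp t₀.2
  have ht1 : (t₀ : R) ≠ 1 := fun h => ht₀ (Subtype.ext h)
  -- an element of order `p`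
  obtain ⟨w, hwD, hwZ, hwo⟩ : ∃ w ∈ commutator R, w ∈ Subgroup.center R ∧ orderOf w = p := by
    obtain ⟨k, hk⟩ := (IsPGroup.iff_orderOf.mp hG) (t₀ : R)
    rcases k with _ | k
    · exfalso
      apply ht1
      simpa using hk
    · refine ⟨(t₀ : R) ^ p ^ k, pow_mem ht.1 _, pow_mem ht.2 _, ?_⟩
      rw [orderOf_pow_of_dvd (pow_ne_zero _ hp.out.ne_zero) (by rw [hk]; exact pow_dvd_pow p (Nat.le_succ k)), hk,
        pow_succ]
      exact Nat.mul_div_cancel_left _ (pow_pos hp.out.pos k)
  let W : Subgroup R := Subgroup.zpowers w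
  haveI hWn : W.Normal := zpowers_normal_of_center hwZ
  have hWc : Nat.card W = p := by
    rw [Nat.card_zpowers, hwo]
  have hWD : W ≤ commutator R := by
    rw [Subgroup.zpowers_le]
    exact hwD
  have hcq := card_comm_quot hWD
  rw [hWc] at hcq
  letI : Fintype (R ⧸ W) := Fintype.ofFinite _
  have hlt : Nat.card (R ⧸ W) < n := by
    have h2 := Subgroup.card_mul_index W
    rw [hWc, Subgroup.index_eq_card, hn] at h2
    have h3 : 0 < Nat.card (R ⧸ W) := Nat.card_pos
    have := hp.out.two_le
    nlinarith
  by_cases hQna : ∃ a b : R ⧸ W, a * b ≠ b * a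
  · have h2 := ih _ hlt (R ⧸ W) rfl (hG.to_quotient W) (hyp.quot W) hQna
    rw [h2] at hcq
    have hD : Nat.card (commutator R) = p ^ 2 := by
      rw [← hcq]
      ring
    exfalso
    by_cases hcen : commutator R ≤ Subgroup.center R
    · by_cases hc : IsCyclic (commutator R)
      · exact caseIb hG hyp hD hcen hc
      · exact caseIa hG hyp hD hcen hc
    · exact caseII hG hyp hD hcen
  · push Not at hQna
    have h1 : commutator (R ⧸ W) = ⊥ := by
      rw [commutator_def, Subgroup.commutator_eq_bot_iff_le_centralizer]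
      intro a _
      rw [Subgroup.mem_centralizer_iff]
      intro b _
      exact hQna b a
    rw [h1] at hcq
    simp only [Nat.card_unique, Subgroup.card_bot, one_mul] at hcq
    exact hcq.symm

end Cfsg.Agent.Lib.Char.GalConj
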