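import Mathlib
import Cfsg.Agent.Lib.Char.GalC

set_option autoImplicit false

/-!
Groups in which irreducible characters of equal degree greater than one are related by power maps:
the characterization.
-/

namespace Cfsg.Agent.Lib.Char.GalConj

open Cfsg Cfsg.Agent.Lib.Char Cfsg.Agent.Lib.Char.E3 Cfsg.Agent.Lib.Char.CdP ComplexConjugate
open scoped commutatorElement

universe u

variable {P : Type u} [Group P] [Fintype P] {p : ℕ} [hp : Fact p.Prime]

/-- The central character. -/
theorem exists_central_char {χ : P → ℂ} (hχ : IsIrrCharacter P χ) :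
    ∃ lam : Subgroup.center P →* ℂˣ, ∀ z : Subgroup.center P, χ z = χ 1 * (lam z : ℂ) := by
  have h1 := IsIrrCharacter.apply_one_ne_zero hχ
  let f : Subgroup.center P →* ℂ :=
    { toFun := fun z => χ z / χ 1
      map_one' := by
        simp [h1]
      map_mul' := by
        intro a b
        have h2 := apply_mul_of_mem_center hχ b.2 (a : P)
        simp only [Subgroup.coe_mul]
        field_simp
        linear_combination h2 }
  refine ⟨f.toHomUnits, fun z => ?_⟩
  rw [MonoidHom.coe_toHomUnits]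
  show χ z = χ 1 * (χ z / χ 1)
  field_simp

theorem faithful_of_cyclic (hG : IsPGroup p P) (hcyc : IsCyclic (Subgroup.center P))
    (hcard : Nat.card (commutator P) = p) {χ : P → ℂ} (hχ : IsIrrCharacter P χ) (h1 : charDegree χ ≠ 1) :
    charKer χ = ⊥ := by
  haveI hnil : Group.IsNilpotent P := hG.isNilpotent
  by_contra hne
  haveI hKn : (charKer χ).Normal := charKer_normal (IsIrrCharacter.isCharacter hχ)
  have h2 := Cfsg.Agent.Lib.Basic.normal_inf_center_ne_bot (charKer χ) hne
  obtain ⟨t₀, ht₀⟩ := Subgroup.ne_bot_iff_exists_ne_one.mp h2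
  have ht := Subgroup.mem_inf.mp t₀.2
  have ht1 : (t₀ : P) ≠ 1 := fun h => ht₀ (Subtype.ext h)
  have hDZ := le_center_of_card_prime hG (commutator P) hcard
  obtain ⟨d, hd⟩ : ∃ d ∈ commutator P, d ≠ 1 := by
    by_contra hcon
    push Not at hcon
    have h3 : commutator P = ⊥ := (Subgroup.eq_bot_iff_forall _).mpr hcon
    rw [h3] at hcard
    simp at hcard
    exact hp.out.one_lt.ne hcard
  apply h1
  apply degree_one_of_commutator_le hχ
  have hQp : IsPGroup p (Subgroup.center P) := hG.to_subgroup _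
  rcases mem_zpowers_or hQp (⟨d, hDZ hd.1⟩ : Subgroup.center P) ⟨t₀, ht.2⟩ with h | h
  · obtain ⟨i, hi⟩ := Subgroup.mem_zpowers_iff.mp h
    have h3 : d ∈ charKer χ := by
      have h4 : ((t₀ : P)) ^ i = d := congrArg Subtype.val hi
      rw [← h4]
      exact zpow_mem ht.1 i
    refine (le_zpowers_of_prime_card hcard hd.1 hd.2).trans ?_
    rw [Subgroup.zpowers_le]
    exact h3
  · obtain ⟨i, hi⟩ := Subgroup.mem_zpowers_iff.mp h
    have h3 : (t₀ : P) ∈ commutator P := by
      have h4 : d ^ i = (t₀ : P) := congrArg Subtype.val hi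
      rw [← h4]
      exact zpow_mem hd.1 i
    refine (le_zpowers_of_prime_card hcard h3 ht1).trans ?_
    rw [Subgroup.zpowers_le]
    exact ht.1

theorem backward (hG : IsPGroup p P) (hcyc : IsCyclic (Subgroup.center P))
    (hcard : Nat.card (commutator P) = p) : Hyp P := by
  classical
  intro χ ψ h1 h2
  have hDZ := le_center_of_card_prime hG (commutator P) hcard
  have hψ1 : charDegree (ψ : P → ℂ) ≠ 1 := h2 ▸ h1
  have hχf := faithful_of_cyclic hG hcyc hcard χ.2 h1
  have hψf := faithful_of_cyclic hG hcyc hcard ψ.2 hψ1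
  have hχv := fun g (hg : g ∉ Subgroup.center P) => vanish χ.2 hχf hDZ hg
  have hψv := fun g (hg : g ∉ Subgroup.center P) => vanish ψ.2 hψf hDZ hg
  obtain ⟨lam, hlam⟩ := exists_central_char χ.2
  obtain ⟨lam', hlam'⟩ := exists_central_char ψ.2
  have hχc := IsIrrCharacter.isCharacter χ.2
  have hψc := IsIrrCharacter.isCharacter ψ.2
  have h11 : (ψ : P → ℂ) 1 = (χ : P → ℂ) 1 := by
    rw [apply_one_eq_charDegree hχc, apply_one_eq_charDegree hψc, h2]
  have h0 := IsIrrCharacter.apply_one_ne_zero χ.2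
  have hinj : ∀ {θ : IrrCharacter P} {μ : Subgroup.center P →* ℂˣ}, charKer (θ : P → ℂ) = ⊥ →
      (∀ z : Subgroup.center P, (θ : P → ℂ) z = (θ : P → ℂ) 1 * (μ z : ℂ)) → Function.Injective μ := by
    intro θ μ hf hμ
    rw [injective_iff_map_eq_one]
    intro z hz
    have h3 := hμ z
    rw [hz] at h3
    simp only [Units.val_one, mul_one] at h3
    have h4 : (z : P) ∈ charKer (θ : P → ℂ) := (mem_charKer (IsIrrCharacter.isCharacter θ.2)).mpr h3
    rw [hf, Subgroup.mem_bot] at h4
    exact Subtype.ext h4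
  have hlami := hinj hχf hlam
  have hlami' := hinj hψf hlam'
  obtain ⟨c, hc⟩ := IsCyclic.exists_generator (α := Subgroup.center P)
  have hordc : orderOf c = Nat.card (Subgroup.center P) := orderOf_eq_card_of_forall_mem_zpowers hc
  set n := Nat.card (Subgroup.center P) with hn
  have hn0 : 0 < n := Nat.card_pos
  haveI : NeZero n := ⟨hn0.ne'⟩
  have hprim : IsPrimitiveRoot (lam c) n := by
    rw [← hordc, ← orderOf_injective lam hlami]
    exact IsPrimitiveRoot.orderOf _
  have hprim' : IsPrimitiveRoot (lam' c) n := by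
    rw [← hordc, ← orderOf_injective lam' hlami']
    exact IsPrimitiveRoot.orderOf _
  have hP1 : IsPrimitiveRoot ((lam c : ℂˣ) : ℂ) n := IsPrimitiveRoot.coe_units_iff.mpr hprim
  have hP2 : IsPrimitiveRoot ((lam' c : ℂˣ) : ℂ) n := IsPrimitiveRoot.coe_units_iff.mpr hprim'
  obtain ⟨k, -, hk⟩ := hP1.eq_pow_of_pow_eq_one hP2.pow_eq_one
  have hkc : k.Coprime n := by
    rw [← hP1.pow_iff_coprime hn0, hk]
    exact hP2
  -- the power map
  have hpn : p ∣ n := by
    rw [hn, ← hcard]
    exact (Subgroup.card_dvd_of_le hDZ)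
  obtain ⟨m, hm⟩ := IsPGroup.iff_card.mp hG
  have hcop : k.Coprime (Nat.card P) := by
    rw [hm]
    apply Nat.Coprime.pow_right
    rw [Nat.coprime_comm, hp.out.coprime_iff_not_dvd]
    intro hd
    have h3 := Nat.dvd_gcd hd hpn
    rw [hkc] at h3
    exact hp.out.one_lt.ne' (Nat.dvd_one.mp h3)
  refine ⟨k, hcop, ?_⟩
  intro g
  by_cases hg : g ∈ Subgroup.center P
  · obtain ⟨j, hj⟩ := Subgroup.mem_zpowers_iff.mp (hc ⟨g, hg⟩)
    have h3 := hlam' ⟨g, hg⟩
    have h4 := hlam ⟨g ^ k, pow_mem hg k⟩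
    have h5 : (⟨g ^ k, pow_mem hg k⟩ : Subgroup.center P) = (⟨g, hg⟩ : Subgroup.center P) ^ k := rfl
    show (ψ : P → ℂ) g = (χ : P → ℂ) (g ^ k)
    have h3' : (ψ : P → ℂ) g = (ψ : P → ℂ) 1 * ((lam' ⟨g, hg⟩ : ℂˣ) : ℂ) := h3
    have h4' : (χ : P → ℂ) (g ^ k) = (χ : P → ℂ) 1 * ((lam ⟨g ^ k, pow_mem hg k⟩ : ℂˣ) : ℂ) := h4
    rw [h3', h4', h11, h5, ← hj]
    congr 1
    simp only [map_zpow, map_pow]
    have h6 : ((lam c : ℂˣ) : ℂ) ^ k = ((lam' c : ℂˣ) : ℂ) := hk
    have h7 : lam' c = (lam c) ^ k := by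
      apply Units.ext
      rw [Units.val_pow_eq_pow_val, h6]
    rw [h7, ← zpow_natCast, ← zpow_natCast, ← zpow_mul, ← zpow_mul, mul_comm]
  · have h3 : g ^ k ∉ Subgroup.center P := by
      intro h4
      exact hg (mem_of_pow_mem hcop h4 (by rw [pow_card_eq_one']; exact one_mem _))
    rw [hψv g hg, hχv _ h3]

/-- The characterization. -/
theorem main_iff {P : Type u} [Group P] [Finite P] (p : ℕ) [hp : Fact p.Prime] (hP : IsPGroup p P)
    (hna : ¬ IsMulCommutative P) :
    (∀ χ ψ : IrrCharacter P, charDegree (χ : P → ℂ) ≠ 1 → charDegree (χ : P → ℂ) = charDegree (ψ : P → ℂ) →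
      ∃ k : ℕ, Nat.Coprime k (Nat.card P) ∧ ∀ g : P, (ψ : P → ℂ) g = (χ : P → ℂ) (g ^ k)) ↔
      (IsCyclic (Subgroup.center P) ∧ Nat.card (commutator P) = p) := by
  classical
  letI : Fintype P := Fintype.ofFinite P
  have hna' : ∃ a b : P, a * b ≠ b * a := by
    by_contra hcon
    push Not at hcon
    exact hna ⟨⟨hcon⟩⟩
  constructor
  · intro hyp
    have hc := forward (p := p) _ P rfl hP hyp hna'
    refine ⟨?_, hc⟩
    obtain ⟨χ, hχ⟩ := exists_nonlinear hna'
    apply isCyclic_center_of_faithful hP χ.2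
    by_contra hne
    obtain ⟨u, hu⟩ := Subgroup.ne_bot_iff_exists_ne_one.mp hne
    have h1 : (u : P) ≠ 1 := fun h => hu (Subtype.ext h)
    apply hχ
    apply degree_one_of_commutator_le χ.2
    refine (le_zpowers_of_prime_card hc (Hyp.ker_le hyp χ hχ u.2) h1).trans ?_
    rw [Subgroup.zpowers_le]
    exact u.2
  · rintro ⟨h1, h2⟩
    exact backward hP h1 h2

end Cfsg.Agent.Lib.Char.GalConj
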