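import Cfsg.Agent.Lib.H8Group.MaxPairs
import Cfsg.Agent.Lib.H8Group.DefectPairs
import Cfsg.Agent.Lib.H8Group.Subsection
import Cfsg.Agent.Lib.Blocks.DefectZero
import Cfsg.Agent.Lib.Char.Kernel

/-!
# Maximal Brauer pairs: a characterization
-/

set_option autoImplicit false
set_option linter.unusedSectionVars false

namespace Cfsg.Agent.Lib.Char.MP

open Cfsg Cfsg.Agent.Lib.Blocks Cfsg.Agent.Lib.H8Group
open scoped ComplexConjugate

universe u

section Stab

variable {G : Type u} [Group G] {K : Subgroup G} {e : Set (IrrCharacter K)} {x y : G}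

theorem stab_mul (hx : StabilizesBlock K e x) (hy : StabilizesBlock K e y) : StabilizesBlock K e (x * y) := by
  refine ⟨Subgroup.mul_mem _ hx.1 hy.1, fun χ hχ => ?_⟩
  obtain ⟨χ₁, hχ₁, h₁⟩ := hy.2 χ hχ
  obtain ⟨χ₂, hχ₂, h₂⟩ := hx.2 χ₁ hχ₁
  refine ⟨χ₂, hχ₂, fun k k' hk => ?_⟩
  have hmem : y * (k : G) * y⁻¹ ∈ K := (Subgroup.mem_normalizer_iff.mp hy.1 k).mp k.2
  rw [← h₁ k ⟨_, hmem⟩ rfl]
  refine h₂ ⟨_, hmem⟩ k' ?_
  rw [hk]
  group

theorem stab_one : StabilizesBlock K e (1 : G) := by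
  refine ⟨Subgroup.one_mem _, fun χ hχ => ⟨χ, hχ, fun k k' hk => ?_⟩⟩
  have : k' = k := Subtype.ext (by rw [hk]; simp)
  rw [this]

theorem stab_pow (hx : StabilizesBlock K e x) (n : ℕ) : StabilizesBlock K e (x ^ n) := by
  induction n with
  | zero => simpa using stab_one
  | succ n ih => rw [pow_succ]; exact stab_mul ih hx

/-- The stabilizer of a set of irreducible characters of a subgroup. -/
def stabG [Finite G] (K : Subgroup G) (e : Set (IrrCharacter K)) : Subgroup G where
  carrier := {x | StabilizesBlock K e x}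
  mul_mem' := stab_mul
  one_mem' := stab_one
  inv_mem' := by
    intro x hx
    have h : x⁻¹ ∈ Subgroup.zpowers x := Subgroup.inv_mem _ (Subgroup.mem_zpowers x)
    obtain ⟨n, hn⟩ := (mem_powers_iff_mem_zpowers).mpr h
    show StabilizesBlock K e x⁻¹
    rw [← hn]
    exact stab_pow hx n

theorem mem_stabG [Finite G] : x ∈ stabG K e ↔ StabilizesBlock K e x := Iff.rfl

end Stab

section ClassFix

variable {C : Type u} [Group C] [Fintype C] {Γ : Type u} [Group Γ] {M : Ideal AlgInt} {p : ℕ} [hp : Fact p.Prime]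

theorem cls_comp_equiv (σ : C ≃* C) (t : C) : cls (σ t) ∘ σ = cls t := by
  classical
  funext x
  simp only [Function.comp_apply, cls]
  have : IsConj (σ t) (σ x) ↔ IsConj t x := by
    constructor
    · intro h
      obtain ⟨c, hc⟩ := isConj_iff.mp h
      refine isConj_iff.mpr ⟨σ.symm c, σ.injective ?_⟩
      simpa using hc
    · intro h
      exact σ.toMonoidHom.map_isConj h
  simp only [this]

theorem centralChar_irrComp (σ : C ≃* C) (χ : IrrCharacter C) (t : C) :
    centralChar ((Blocks.irrComp σ χ : IrrCharacter C) : C → ℂ) t = centralChar (χ : C → ℂ) (σ t) := by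
  rw [← spec_cls, ← spec_cls, ← cls_comp_equiv σ t, spec_irrComp]

/-- The permutation action on conjugacy classes. -/
noncomputable def classAct (ρ : Γ →* MulAut C) : Γ →* Equiv.Perm (ConjClasses C) :=
  MonoidHom.mk' (fun γ =>
    { toFun := ConjClasses.map (ρ γ).toMonoidHom
      invFun := ConjClasses.map (ρ γ⁻¹).toMonoidHom
      left_inv := fun K => by
        obtain ⟨a, rfl⟩ := ConjClasses.mk_surjective K
        show ConjClasses.mk (ρ γ⁻¹ (ρ γ a)) = ConjClasses.mk a
        rw [map_inv]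
        simp
      right_inv := fun K => by
        obtain ⟨a, rfl⟩ := ConjClasses.mk_surjective K
        show ConjClasses.mk (ρ γ (ρ γ⁻¹ a)) = ConjClasses.mk a
        rw [map_inv]
        simp })
    (fun a b => by
      ext K
      obtain ⟨t, rfl⟩ := ConjClasses.mk_surjective K
      show ConjClasses.mk (ρ (a * b) t) = ConjClasses.mk (ρ a (ρ b t))
      rw [map_mul]
      rfl)

theorem classAct_mk (ρ : Γ →* MulAut C) (γ : Γ) (t : C) :
    classAct ρ γ (ConjClasses.mk t) = ConjClasses.mk (ρ γ t) := rfl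

/-- **A `p`-group acting on a stable block fixes a class in its support.** -/
theorem exists_fixed_class (hM : IsPModular p M) (hΓ : IsPGroup p Γ) (ρ : Γ →* MulAut C)
    {e : Set (IrrCharacter C)} (he : IsPBlock M e) (hst : IsStable ρ e) :
    ∃ t : C, ¬ MemLocalIdeal M (coef (indic e) t) ∧ ∀ γ, IsConj (ρ γ t) t := by
  classical
  have := isPrime_of_modular hM
  obtain ⟨χ, hχ⟩ := IsPBlock.nonempty he
  have hL : ∀ t : C, MemLocalRing M (coef (indic e) t * centralChar (χ : C → ℂ) t) := fun t =>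
    MemLocalRing.mul (indic_mem_zS he t) (memLocalRing_of_isIntegral (isIntegral_centralChar χ t))
  let F : ConjClasses C → ResF M := fun K => resC M (coef (indic e) (clsRep K) * centralChar (χ : C → ℂ) (clsRep K))
  have hrep : ∀ s : C, IsConj (clsRep (ConjClasses.mk s)) s := fun s =>
    (mk_eq_iff_isConj_clsRep _ s).mp rfl
  have hcl : ∀ s : C, coef (indic e) (clsRep (ConjClasses.mk s)) * centralChar (χ : C → ℂ) (clsRep (ConjClasses.mk s)) =
      coef (indic e) s * centralChar (χ : C → ℂ) s := by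
    intro s
    rw [centralChar_eq_of_isConj χ (hrep s), IsClassFunction.congr_isConj (coef_isClassFunction _) (hrep s)]
  have hF : ∀ γ K, F (classAct ρ γ K) = F K := by
    intro γ K
    obtain ⟨t, rfl⟩ := ConjClasses.mk_surjective K
    simp only [F]
    rw [classAct_mk, hcl, hcl]
    have h1 : coef (indic e) (ρ γ t) = coef (indic e) t := invF_of_isStable hst γ t
    have hχ' : Blocks.irrComp (ρ γ) χ ∈ e := by
      have h2 : χ ∈ Blocks.transBlock (ρ γ⁻¹) e := by rw [hst γ⁻¹]; exact hχ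
      have h3 : Blocks.irrComp (ρ γ⁻¹).symm χ ∈ e := h2
      have h4 : Blocks.irrComp (ρ γ⁻¹).symm χ = Blocks.irrComp (ρ γ) χ := by
        apply Subtype.ext
        funext x
        simp only [Blocks.irrComp_coe, Function.comp_apply, map_inv]
        rfl
      rwa [h4] at h3
    have h5 := sameBlock_of_mem he hχ' hχ t
    rw [centralChar_irrComp] at h5
    rw [h1]
    have h6 := MemLocalIdeal.mul_left (indic_mem_zS he t) h5
    rw [mul_sub] at h6
    have hL' : MemLocalRing M (coef (indic e) t * centralChar (χ : C → ℂ) (ρ γ t)) :=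
      MemLocalRing.mul (indic_mem_zS he t) (memLocalRing_of_isIntegral (isIntegral_centralChar χ _))
    rw [resC_of_mem hL', resC_of_mem (hL t), Ideal.Quotient.eq, mem_locMax]
    exact h6
  obtain ⟨r, hr⟩ := exists_sum_sub_fixed hΓ (classAct ρ) F hF
  have hp0 : p • r = 0 := by
    rw [nsmul_eq_mul, natCast_resF_eq_zero hM, zero_mul]
  rw [hp0, add_zero] at hr
  have hsum : ∑ K, F K = resC M 1 := by
    have h1 : indic e χ = 1 := indic_apply_of_mem hχ
    rw [zS_apply_eq (indic e) χ] at h1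
    rw [← h1, resC_sum _ _ (fun K _ => hL _)]
  have h1ne : resC M 1 ≠ 0 := by
    intro h
    exact not_memLocalIdeal_one ((resC_eq_zero_iff memLocalRing_one).mp h)
  have : ∃ K ∈ Finset.univ.filter (fun K => ∀ γ, classAct ρ γ K = K), F K ≠ 0 := by
    by_contra hcon
    push Not at hcon
    apply h1ne
    rw [← hsum, hr]
    exact Finset.sum_eq_zero hcon
  obtain ⟨K, hK, hKF⟩ := this
  simp only [Finset.mem_filter, Finset.mem_univ, true_and] at hK
  refine ⟨clsRep K, fun h => hKF ?_, fun γ => ?_⟩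
  · rw [resC_eq_zero_iff (hL _)]
    exact MemLocalIdeal.mul_right h (memLocalRing_of_isIntegral (isIntegral_centralChar χ _))
  · have h2 := hK γ
    conv_lhs at h2 => rw [← mk_clsRep K]
    rw [classAct_mk] at h2
    have h3 : ConjClasses.mk (ρ γ (clsRep K)) = ConjClasses.mk (clsRep K) := by
      rw [h2, mk_clsRep]
    exact ConjClasses.mk_eq_mk_iff_isConj.mp h3

end ClassFix

section Central

variable {X : Type u} [Group X] [Fintype X] {M : Ideal AlgInt} {p : ℕ} [hp : Fact p.Prime]

/-- A block has a character trivial on a central `p`-subgroup with small degree. -/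
theorem exists_irr_trivial_on_central (hM : IsPModular p M) {B : Set (IrrCharacter X)} (hB : IsPBlock M B)
    {y : X} (hy : ¬ MemLocalIdeal M (blockCoeff B y)) {Z : Subgroup X} (hZ : IsPGroup p Z)
    (hZc : ∀ z ∈ Z, ∀ w : X, Commute w z) :
    ∃ χ ∈ B, (∀ z ∈ Z, (χ : X → ℂ) z = (χ : X → ℂ) 1) ∧
      (charDegree (χ : X → ℂ)).factorization p + (Nat.card Z).factorization p ≤ (Nat.card X).factorization p := by
  classical
  have := isPrime_of_modular hM
  have hpp : p.Prime := hp.out
  by_contra hcon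
  push Not at hcon
  apply hy
  obtain ⟨α, hα⟩ := exists_isPExp X p
  have hyreg : ¬ p ∣ orderOf y := by
    intro h
    apply hy
    rw [blockCoeff_eq_zero_of_singular hM hB h]
    exact memLocalIdeal_zero
  letI : Fintype Z := Fintype.ofFinite Z
  have hZy : Z ≤ Subgroup.centralizer ({y} : Set X) := fun z hz =>
    mem_centralizer_singleton_of_commute (hZc z hz y).symm
  have h1 : ∑ d : Z, blockCoeff B (y * d) = blockCoeff B y := by
    rw [Finset.sum_eq_single 1]
    · simp
    · intro d _ hd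
      apply blockCoeff_eq_zero_of_singular hM hB
      by_contra hsing
      have h2 := hα.pow_of_regular hsing
      have hc : Commute y (d : X) := (hZc d d.2 y)
      obtain ⟨k, hk⟩ := IsPGroup.iff_orderOf.mp hZ d
      have hk' : orderOf (d : X) = p ^ k := by rwa [Subgroup.orderOf_coe]
      rw [hc.mul_pow, hα.pow_of_regular hyreg, hα.pow_of_pPow hk', one_mul] at h2
      exact hd (Subtype.ext h2)
    · intro h
      exact absurd (Finset.mem_univ _) h
  have hG : (Nat.card X : ℂ) ≠ 0 := by exact_mod_cast Nat.card_pos.ne'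
  have hDc : (Nat.card Z : ℂ) ≠ 0 := by exact_mod_cast Nat.card_pos.ne'
  have h3 : ∑ d : Z, blockCoeff B (y * d) = ∑ χ : IrrCharacter X, indic B χ *
      ((((Nat.card Z * charDegree (χ : X → ℂ) : ℕ) : ℂ) / (Nat.card X : ℕ)) *
        conj ((Nat.card Z : ℂ)⁻¹ * ∑ d : Z, (χ : X → ℂ) (y * d))) := by
    simp only [blockCoeff_eq_coef, coef, ← Finset.mul_sum]
    rw [Finset.sum_comm, Finset.mul_sum]
    refine Finset.sum_congr rfl fun χ _ => ?_
    rw [map_mul, map_inv₀, map_natCast, map_sum, apply_one_eq_charDegree (IsIrrCharacter.isCharacter χ.2),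
      ← Finset.mul_sum, ← Finset.mul_sum]
    push_cast
    field_simp
  rw [← h1, h3]
  refine MemLocalIdeal.sum _ fun χ _ => ?_
  by_cases hχ : χ ∈ B
  · rw [indic_apply_of_mem hχ, one_mul]
    by_cases htriv : ∀ z ∈ Z, (χ : X → ℂ) z = (χ : X → ℂ) 1
    · refine MemLocalIdeal.mul_right (natCast_div_memLocalIdeal hM Nat.card_pos.ne' ?_) ?_
      · have h4 := hcon χ hχ htriv
        have h6 : Nat.card Z ≠ 0 := Nat.card_pos.ne'
        have h7 : charDegree (χ : X → ℂ) ≠ 0 := (charDegree_pos χ.2).ne'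
        rw [Nat.factorization_mul h6 h7]
        simp only [Finsupp.add_apply]
        omega
      · apply memLocalRing_of_isIntegral
        exact IsIntegral.map (starRingEnd ℂ).toIntAlgHom (irr_avg_isIntegral χ y hZy)
    · push Not at htriv
      obtain ⟨z₀, hz₀, hne⟩ := htriv
      have hχ1 := irr_apply_one_ne_zero χ
      have h8 : ∑ d : Z, (χ : X → ℂ) (y * d) = 0 := by
        have h9 : ((χ : X → ℂ) z₀ / (χ : X → ℂ) 1) * ∑ d : Z, (χ : X → ℂ) (y * d) = ∑ d : Z, (χ : X → ℂ) (y * d) := by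
          rw [Finset.mul_sum]
          refine Fintype.sum_equiv (Equiv.mulLeft (⟨z₀, hz₀⟩ : Z)) _ _ fun d => ?_
          have h10 := irr_central_mul χ (hZc z₀ hz₀) (y * d)
          rw [← h10]
          have h14 : z₀ * (y * (d : X)) = y * (z₀ * d) := by
            have := (hZc z₀ hz₀ y).eq
            rw [← mul_assoc, ← mul_assoc, this]
          rw [h14]
          rfl
        have h11 : ((χ : X → ℂ) z₀ / (χ : X → ℂ) 1 - 1) * ∑ d : Z, (χ : X → ℂ) (y * d) = 0 := by
          rw [sub_mul, h9, one_mul, sub_self]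
        refine (mul_eq_zero.mp h11).resolve_left ?_
        intro h12
        apply hne
        have h13 := sub_eq_zero.mp h12
        field_simp at h13
        exact h13
      rw [h8, mul_zero, map_zero, mul_zero]
      exact memLocalIdeal_zero
  · rw [indic_apply_of_notMem hχ, zero_mul]
    exact memLocalIdeal_zero

/-- A character of defect zero modulo a central `p`-subgroup gives a class of full defect. -/
theorem exists_central_of_defect_zero (hM : IsPModular p M) {Z : Subgroup X} (hZ : IsPGroup p Z)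
    (hZc : ∀ z ∈ Z, ∀ w : X, Commute w z) (θ : IrrCharacter X) (hθ : ∀ z ∈ Z, (θ : X → ℂ) z = (θ : X → ℂ) 1)
    (hv : (charDegree (θ : X → ℂ)).factorization p + (Nat.card Z).factorization p = (Nat.card X).factorization p) :
    ∃ g : X, ¬ MemLocalIdeal M (centralChar (θ : X → ℂ) g) ∧
      ∀ s : X, Commute s g → (∃ k, orderOf s = p ^ k) → s ∈ Z := by
  classical
  have := isPrime_of_modular hM
  have hpp : p.Prime := hp.out
  haveI hZn : Z.Normal := ⟨fun z hz w => by
    have := (hZc z hz w).eq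
    rw [this]
    simpa using hz⟩
  letI : Fintype Z := Fintype.ofFinite Z
  letI : Fintype (X ⧸ Z) := Fintype.ofFinite _
  have hker : Z ≤ Cfsg.Agent.Lib.Char.charKer (θ : X → ℂ) := fun z hz =>
    (Cfsg.Agent.Lib.Char.mem_charKer (IsIrrCharacter.isCharacter θ.2)).mpr (hθ z hz)
  obtain ⟨β, hβ, hθβ⟩ := Cfsg.Agent.Lib.Char.exists_deflate Z θ.2 hker
  let θ' : IrrCharacter (X ⧸ Z) := ⟨β, hβ⟩
  have hval : ∀ x : X, (θ : X → ℂ) x = (θ' : X ⧸ Z → ℂ) (x : X ⧸ Z) := fun x => congrFun hθβ x
  have hdeg : charDegree (θ' : X ⧸ Z → ℂ) = charDegree (θ : X → ℂ) := by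
    rw [charDegree, charDegree]
    rw [hval 1]
    rfl
  have hcard : Nat.card X = Nat.card (X ⧸ Z) * Nat.card Z := by
    rw [mul_comm]
    exact Subgroup.card_eq_card_quotient_mul_card_subgroup Z |>.trans (mul_comm _ _)
  have hX' : Nat.card (X ⧸ Z) ≠ 0 := Nat.card_pos.ne'
  have hZ' : Nat.card Z ≠ 0 := Nat.card_pos.ne'
  have hv' : (charDegree (θ' : X ⧸ Z → ℂ)).factorization p = (Nat.card (X ⧸ Z)).factorization p := by
    rw [hdeg]
    rw [hcard, Nat.factorization_mul hX' hZ'] at hv
    simp only [Finsupp.add_apply] at hv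
    omega
  have hsing : ¬ p ∣ Nat.card (X ⧸ Z) / charDegree (θ' : X ⧸ Z → ℂ) := by
    intro h
    obtain ⟨t, ht⟩ := charDegree_dvd_card θ'.2
    have hd0 : 0 < charDegree (θ' : X ⧸ Z → ℂ) := charDegree_pos θ'.2
    rw [ht, Nat.mul_div_cancel_left _ hd0] at h
    have h3 : p ^ ((charDegree (θ' : X ⧸ Z → ℂ)).factorization p + 1) ∣ Nat.card (X ⧸ Z) := by
      rw [pow_succ]
      conv_rhs => rw [ht]
      exact mul_dvd_mul (Nat.ordProj_dvd _ _) h
    have h4 := (hpp.pow_dvd_iff_le_factorization hX').mp h3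
    omega
  have hsingle := (not_dvd_iff_blockOf_singleton hM θ').mp hsing
  have hB : IsPBlock M ({θ'} : Set (IrrCharacter (X ⧸ Z))) := hsingle ▸ isPBlock_blockOf θ'
  obtain ⟨g', hg'⟩ := exists_defectClass hB
  have hinf := sInf_degree_eq_of_defectClass hM hB hg'
  rw [Set.image_singleton, csInf_singleton] at hinf
  have hcen := factorization_index_add_card (p := p) (Subgroup.centralizer ({g'} : Set (X ⧸ Z)))
  have hnd : ¬ p ∣ Nat.card (Subgroup.centralizer ({g'} : Set (X ⧸ Z))) := by
    intro h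
    have h1 := (hpp.dvd_iff_one_le_factorization Nat.card_pos.ne').mp h
    omega
  obtain ⟨g, rfl⟩ := QuotientGroup.mk_surjective g'
  -- commutators vanish
  have hcomm : ∀ u : X, ((u : X ⧸ Z) ∈ Subgroup.centralizer ({(g : X ⧸ Z)} : Set (X ⧸ Z))) → Commute u g := by
    intro u hu
    have hcu : Commute (u : X ⧸ Z) (g : X ⧸ Z) := commute_of_mem_centralizer_singleton hu
    have hw' : u * g * u⁻¹ * g⁻¹ ∈ Z := by
      rw [← QuotientGroup.eq_one_iff]
      have : ((u * g * u⁻¹ * g⁻¹ : X) : X ⧸ Z) = (u : X ⧸ Z) * g * (u : X ⧸ Z)⁻¹ * (g : X ⧸ Z)⁻¹ := rfl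
      rw [this, hcu.eq]
      group
    obtain ⟨w, hwdef⟩ : ∃ w, w = u * g * u⁻¹ * g⁻¹ := ⟨_, rfl⟩
    have hw : w ∈ Z := by rw [hwdef]; exact hw'
    have hug : u * g * u⁻¹ = w * g := by rw [hwdef]; group
    have hpow : ∀ n : ℕ, u ^ n * g * (u ^ n)⁻¹ = w ^ n * g := by
      intro n
      induction n with
      | zero => simp
      | succ n ih =>
        have h1 : u ^ (n + 1) * g * (u ^ (n + 1))⁻¹ = u * (u ^ n * g * (u ^ n)⁻¹) * u⁻¹ := by
          rw [pow_succ']
          group
        rw [h1, ih]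
        have h2 : u * (w ^ n * g) * u⁻¹ = (u * w ^ n * u⁻¹) * (u * g * u⁻¹) := by group
        have h3 : Commute u (w ^ n) := by
          have := hZc (w ^ n) (Subgroup.pow_mem _ hw n) u
          exact this
        have h4 : u * w ^ n * u⁻¹ = w ^ n := by rw [h3.eq]; group
        rw [h2, h4, hug, pow_succ, mul_assoc]
    set n := orderOf ((u : X ⧸ Z)) with hn
    have hnp : ¬ p ∣ n := by
      intro h
      apply hnd
      have h1 : n ∣ Nat.card (Subgroup.centralizer ({(g : X ⧸ Z)} : Set (X ⧸ Z))) := by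
        have h2 := orderOf_dvd_natCard (⟨(u : X ⧸ Z), hu⟩ : Subgroup.centralizer ({(g : X ⧸ Z)} : Set (X ⧸ Z)))
        rwa [Subgroup.orderOf_mk] at h2
      exact h.trans h1
    have hun : u ^ n ∈ Z := by
      rw [← QuotientGroup.eq_one_iff]
      have : ((u ^ n : X) : X ⧸ Z) = (u : X ⧸ Z) ^ n := rfl
      rw [this, hn, pow_orderOf_eq_one]
    have h5 := hpow n
    have h6 : u ^ n * g * (u ^ n)⁻¹ = g := by
      have := (hZc _ hun g).eq
      rw [← this]
      group
    rw [h6] at h5
    have h7 : w ^ n = 1 := by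
      have := congrArg (· * g⁻¹) h5
      simpa using this.symm
    obtain ⟨k, hk⟩ := IsPGroup.iff_orderOf.mp hZ (⟨w, hw⟩ : Z)
    have hk' : orderOf w = p ^ k := by rwa [Subgroup.orderOf_mk] at hk
    have h8 := orderOf_dvd_of_pow_eq_one h7
    rw [hk'] at h8
    have hw1 : w = 1 := by
      rcases k with _ | k
      · simpa using hk'
      · exact absurd ((dvd_pow_self p (Nat.succ_ne_zero k)).trans h8) hnp
    have h9 : u * g * u⁻¹ = g := by rw [hug, hw1, one_mul]
    exact (mul_inv_eq_iff_eq_mul.mp h9)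
  have hcomap : (Subgroup.centralizer ({(g : X ⧸ Z)} : Set (X ⧸ Z))).comap (QuotientGroup.mk' Z) =
      Subgroup.centralizer ({g} : Set X) := by
    ext u
    rw [Subgroup.mem_comap, Subgroup.mem_centralizer_singleton_iff, QuotientGroup.mk'_apply, Subgroup.mem_centralizer_singleton_iff]
    constructor
    · intro h
      have := hcomm u (by rw [Subgroup.mem_centralizer_singleton_iff]; exact h)
      exact this
    · intro h
      have : ((u * g : X) : X ⧸ Z) = ((g * u : X) : X ⧸ Z) := by rw [h]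
      exact this
  have hindex : (Subgroup.centralizer ({g} : Set X)).index = (Subgroup.centralizer ({(g : X ⧸ Z)} : Set (X ⧸ Z))).index := by
    rw [← hcomap]
    exact Subgroup.index_comap_of_surjective _ (QuotientGroup.mk'_surjective Z)
  refine ⟨g, ?_, ?_⟩
  · have h1 := hg'.2.2 θ' (Set.mem_singleton _)
    have h2 : centralChar (θ : X → ℂ) g = centralChar (θ' : X ⧸ Z → ℂ) (g : X ⧸ Z) := by
      rw [centralChar, centralChar, hindex, hval g, hval 1]
      rfl
    rw [h2]
    exact h1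
  · intro s hs hk
    have hs' : s ∈ (Subgroup.centralizer ({(g : X ⧸ Z)} : Set (X ⧸ Z))).comap (QuotientGroup.mk' Z) := by
      rw [hcomap]
      exact mem_centralizer_singleton_of_commute hs
    have hs'' : (s : X ⧸ Z) ∈ Subgroup.centralizer ({(g : X ⧸ Z)} : Set (X ⧸ Z)) := hs'
    obtain ⟨k, hk⟩ := hk
    have h1 : orderOf (s : X ⧸ Z) ∣ Nat.card (Subgroup.centralizer ({(g : X ⧸ Z)} : Set (X ⧸ Z))) := by
      have h2 := orderOf_dvd_natCard (⟨(s : X ⧸ Z), hs''⟩ : Subgroup.centralizer ({(g : X ⧸ Z)} : Set (X ⧸ Z)))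
      rwa [Subgroup.orderOf_mk] at h2
    have h2 : orderOf (s : X ⧸ Z) ∣ p ^ k := by
      rw [← hk]
      exact orderOf_map_dvd (QuotientGroup.mk' Z) s
    obtain ⟨j, -, hj⟩ := (Nat.dvd_prime_pow hpp).mp h2
    rw [← QuotientGroup.eq_one_iff, ← orderOf_eq_one_iff, hj]
    rcases j with _ | j
    · simp
    · exfalso
      rw [hj] at h1
      exact hnd ((dvd_pow_self p (Nat.succ_ne_zero j)).trans h1)

end Central

section Main

variable {G : Type u} [Group G] [Fintype G] {M : Ideal AlgInt} {p : ℕ} [hp : Fact p.Prime] {Q : Subgroup G}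

/-- A `p`-element in a coset. -/
theorem exists_pElement_coset {C : Subgroup G} {x c : G} (hx : x ∈ Subgroup.normalizer (C : Set G)) (hc : c ∈ C)
    {k : ℕ} (hk : orderOf x = p ^ k) :
    ∃ z d, z ∈ Subgroup.zpowers (c * x) ∧ d ∈ C ∧ z = d * x ∧ ∃ j, orderOf z = p ^ j := by
  have hpp : p.Prime := hp.out
  set y := c * x with hy
  have hform : ∀ i : ℕ, ∃ d ∈ C, y ^ i = d * x ^ i := by
    intro i
    induction i with
    | zero => exact ⟨1, C.one_mem, by simp⟩
    | succ i ih =>
      obtain ⟨d, hd, hdi⟩ := ih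
      refine ⟨c * (x * d * x⁻¹), C.mul_mem hc ((Subgroup.mem_normalizer_iff.mp hx d).mp hd), ?_⟩
      rw [pow_succ', hdi, hy, pow_succ']
      group
  have hy0 : orderOf y ≠ 0 := (orderOf_pos y).ne'
  obtain ⟨a, m, hm, hn⟩ := Nat.exists_eq_pow_mul_and_not_dvd hy0 p hpp.ne_one
  have hcop : Nat.Coprime m (p ^ (a + k)) :=
    Nat.Coprime.pow_right _ ((Nat.Prime.coprime_iff_not_dvd hpp).mpr hm).symm
  obtain ⟨u, hu⟩ : ∃ u, (m * u) % (p ^ (a + k) * p) = 1 % (p ^ (a + k) * p) := by
    have hcop' : Nat.Coprime m (p ^ (a + k) * p) := by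
      rw [← pow_succ]
      exact Nat.Coprime.pow_right _ ((Nat.Prime.coprime_iff_not_dvd hpp).mpr hm).symm
    have h1 : 1 < p ^ (a + k) * p := by
      have h2 : 0 < p ^ (a + k) := pow_pos hpp.pos _
      nlinarith [hpp.two_le]
    obtain ⟨u, -, hu⟩ := Nat.exists_mul_mod_eq_one_of_coprime hcop' h1
    exact ⟨u, by rw [hu, Nat.mod_eq_of_lt h1]⟩
  have hmod : m * u ≡ 1 [MOD p ^ k] := by
    have h1 : m * u ≡ 1 [MOD p ^ (a + k) * p] := hu
    refine h1.of_dvd ?_
    rw [← pow_succ]
    exact pow_dvd_pow p (by omega)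
  obtain ⟨d, hd, hdi⟩ := hform (m * u)
  have hxi : x ^ (m * u) = x := by
    have h1 : x ^ (m * u) = x ^ 1 := by
      rw [← pow_mod_orderOf x (m * u), ← pow_mod_orderOf x 1, hk]
      congr 1
    rwa [pow_one] at h1
  refine ⟨y ^ (m * u), d, ?_, hd, by rw [hdi, hxi], ?_⟩
  · exact Subgroup.npow_mem_zpowers y _
  · have h1 : (y ^ (m * u)) ^ (p ^ a) = 1 := by
      rw [← pow_mul]
      have h2 : m * u * p ^ a = orderOf y * u := by rw [hn]; ring
      rw [h2, pow_mul, pow_orderOf_eq_one, one_pow]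
    have h2 := orderOf_dvd_of_pow_eq_one h1
    obtain ⟨j, -, hj⟩ := (Nat.dvd_prime_pow hpp).mp h2
    exact ⟨j, hj⟩

/-- Maximal pairs admit no larger `p`-group stabilizing the block with a coefficient. -/
theorem eq_of_maximal (hM : IsPModular p M) {B : Set (IrrCharacter G)}
    {e : Set (IrrCharacter (Subgroup.centralizer (Q : Set G)))} (hmax : IsMaximalBrauerPair p M B Q e)
    {R : Subgroup G} (hR : IsPGroup p R) (hQR : Q ≤ R) (hRN : R ≤ Subgroup.normalizer (Q : Set G))
    (hst : ∀ x ∈ R, StabilizesBlock (Subgroup.centralizer (Q : Set G)) e x)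
    {y : G} (hyR : y ∈ Subgroup.centralizer (R : Set G))
    (hy : ¬ MemLocalIdeal M (subgroupBlockCoeff (Subgroup.centralizer (Q : Set G)) e y)) : R = Q := by
  obtain ⟨g₁, h⟩ := exists_isNormalSubpair_of_coeff hM hR hQR hRN hmax.1.1.2 hst hyR hy
  have h2 : IsBrauerPairOf p M B R g₁ := (isBrauerPairOf_iff_normal hM h hmax.1.2.1).mpr hmax.1
  exact hmax.2 R g₁ h2 (Relation.ReflTransGen.single h)

theorem coeff_of_coe {C : Subgroup G} {e : Set (IrrCharacter C)} {t : C} :
    subgroupBlockCoeff C e (t : G) = blockCoeff e t := by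
  classical
  simp only [subgroupBlockCoeff, dif_pos t.2]

/-- The third condition. -/
theorem mem_sup_of_maximal (hM : IsPModular p M) {B : Set (IrrCharacter G)}
    {e : Set (IrrCharacter (Subgroup.centralizer (Q : Set G)))} (hmax : IsMaximalBrauerPair p M B Q e)
    {x : G} (hxN : x ∈ Subgroup.normalizer (Q : Set G))
    (hst : StabilizesBlock (Subgroup.centralizer (Q : Set G)) e x) (hxp : ∃ k : ℕ, orderOf x = p ^ k) :
    x ∈ Q ⊔ Subgroup.centralizer (Q : Set G) := by
  classical
  have := isPrime_of_modular hM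
  have hpp : p.Prime := hp.out
  letI : Fintype (Subgroup.centralizer (Q : Set G)) := Fintype.ofFinite _
  have hPN : Subgroup.zpowers x ≤ Subgroup.normalizer (Q : Set G) := Subgroup.zpowers_le.mpr hxN
  have hPp : IsPGroup p (Subgroup.zpowers x) := isPGroup_zpowers hxp
  have hstP : ∀ y ∈ Subgroup.zpowers x, StabilizesBlock (Subgroup.centralizer (Q : Set G)) e y := by
    intro y hy
    obtain ⟨n, rfl⟩ := (mem_powers_iff_mem_zpowers).mpr hy
    exact stab_pow hst n
  have hs := (isStable_iff_stabilizes hPN e).mpr hstP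
  obtain ⟨t, ht, hfix⟩ := exists_fixed_class hM hPp (cenAct Q (Subgroup.zpowers x) hPN) hmax.1.1.2 hs
  obtain ⟨c, hc⟩ := isConj_iff.mp (hfix ⟨x, Subgroup.mem_zpowers x⟩)
  have hc' : ((c : Subgroup.centralizer (Q : Set G)) : G) * (x * (t : G) * x⁻¹) * (c : G)⁻¹ = t := by
    have := congrArg (fun z : Subgroup.centralizer (Q : Set G) => (z : G)) hc
    simpa [cenAct_coe] using this
  obtain ⟨k, hk⟩ := hxp
  have hxNC := normalizer_le_normalizer_centralizer hxN
  obtain ⟨z, d, hz, hd, hzd, hzp⟩ := exists_pElement_coset hxNC c.2 hk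
  have hcomm : Commute ((c : G) * x) (t : G) := by
    have h1 : ((c : G) * x) * (t : G) * ((c : G) * x)⁻¹ = t := by
      refine Eq.trans ?_ hc'
      group
    exact mul_inv_eq_iff_eq_mul.mp h1
  have hzt : Commute z (t : G) := by
    obtain ⟨i, rfl⟩ := Subgroup.mem_zpowers_iff.mp hz
    exact hcomm.zpow_left i
  have hdNQ : d ∈ Subgroup.normalizer (Q : Set G) := Subgroup.centralizer_le_normalizer _ hd
  have hzN : z ∈ Subgroup.normalizer (Q : Set G) := by
    rw [hzd]
    exact Subgroup.mul_mem _ hdNQ hxN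
  have hzst : StabilizesBlock (Subgroup.centralizer (Q : Set G)) e z := by
    rw [hzd]
    exact stab_mul (stabilizesBlock_of_mem_sup (Subgroup.mem_sup_right hd) e) hst
  have hzpg : IsPGroup p (Subgroup.zpowers z) := isPGroup_zpowers hzp
  have hRp : IsPGroup p (Q ⊔ Subgroup.zpowers z : Subgroup G) :=
    IsPGroup.to_sup_of_normal_left' hmax.1.1.1 hzpg (Subgroup.zpowers_le.mpr hzN)
  have hRN : (Q ⊔ Subgroup.zpowers z : Subgroup G) ≤ Subgroup.normalizer (Q : Set G) :=
    sup_le Subgroup.le_normalizer (Subgroup.zpowers_le.mpr hzN)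
  have hRst : ∀ r ∈ (Q ⊔ Subgroup.zpowers z : Subgroup G), StabilizesBlock (Subgroup.centralizer (Q : Set G)) e r := by
    have hle : (Q ⊔ Subgroup.zpowers z : Subgroup G) ≤ stabG (Subgroup.centralizer (Q : Set G)) e :=
      sup_le (fun q hq => stabilizesBlock_of_mem_sup (Subgroup.mem_sup_left hq) e)
        (Subgroup.zpowers_le.mpr hzst)
    exact fun r hr => hle hr
  have htR : (t : G) ∈ Subgroup.centralizer ((Q ⊔ Subgroup.zpowers z : Subgroup G) : Set G) := by
    have hle : (Q ⊔ Subgroup.zpowers z : Subgroup G) ≤ Subgroup.centralizer ({(t : G)} : Set G) := by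
      refine sup_le (fun q hq => ?_) (Subgroup.zpowers_le.mpr ?_)
      · exact mem_centralizer_singleton_of_commute (Subgroup.mem_centralizer_iff.mp t.2 q hq)
      · exact mem_centralizer_singleton_of_commute hzt
    rw [Subgroup.mem_centralizer_iff]
    intro r hr
    exact (commute_of_mem_centralizer_singleton (hle hr)).eq.symm ▸ rfl
  have htc : ¬ MemLocalIdeal M (subgroupBlockCoeff (Subgroup.centralizer (Q : Set G)) e (t : G)) := by
    rw [coeff_of_coe, blockCoeff_eq_coef]
    exact ht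
  have hRQ := eq_of_maximal hM hmax hRp le_sup_left hRN hRst htR htc
  have hzQ : z ∈ Q := by
    rw [← hRQ]
    exact Subgroup.mem_sup_right (Subgroup.mem_zpowers z)
  have hx : x = d⁻¹ * z := by rw [hzd]; group
  rw [hx]
  exact Subgroup.mul_mem _ (Subgroup.mem_sup_right (Subgroup.inv_mem _ hd)) (Subgroup.mem_sup_left hzQ)

/-- The defect group of the block of a maximal pair lies in `Q`. -/
theorem defect_le_of_maximal (hM : IsPModular p M) {B : Set (IrrCharacter G)}
    {e : Set (IrrCharacter (Subgroup.centralizer (Q : Set G)))} (hmax : IsMaximalBrauerPair p M B Q e)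
    {D : Subgroup (Subgroup.centralizer (Q : Set G))} [Fintype (Subgroup.centralizer (Q : Set G))] (hD : IsDefectGroup p M e D) :
    D ≤ Q.subgroupOf (Subgroup.centralizer (Q : Set G)) := by
  classical
  have := isPrime_of_modular hM
  obtain ⟨y, hy, hS⟩ := isDefectGroup_iff.mp hD
  have hDp : IsPGroup p (D.map (Subgroup.centralizer (Q : Set G)).subtype) := hS.isPGroup.map _
  have hDN : D.map (Subgroup.centralizer (Q : Set G)).subtype ≤ Subgroup.normalizer (Q : Set G) := by
    rintro _ ⟨d, -, rfl⟩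
    exact Subgroup.centralizer_le_normalizer _ d.2
  have hRp : IsPGroup p (Q ⊔ D.map (Subgroup.centralizer (Q : Set G)).subtype : Subgroup G) :=
    IsPGroup.to_sup_of_normal_left' hmax.1.1.1 hDp hDN
  have hRN : (Q ⊔ D.map (Subgroup.centralizer (Q : Set G)).subtype : Subgroup G) ≤ Subgroup.normalizer (Q : Set G) :=
    sup_le Subgroup.le_normalizer hDN
  have hRC : (Q ⊔ D.map (Subgroup.centralizer (Q : Set G)).subtype : Subgroup G) ≤ Q ⊔ Subgroup.centralizer (Q : Set G) := by
    refine sup_le le_sup_left ?_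
    rintro _ ⟨d, -, rfl⟩
    exact Subgroup.mem_sup_right d.2
  have hyR : (y : G) ∈ Subgroup.centralizer ((Q ⊔ D.map (Subgroup.centralizer (Q : Set G)).subtype : Subgroup G) : Set G) := by
    have hle : (Q ⊔ D.map (Subgroup.centralizer (Q : Set G)).subtype : Subgroup G) ≤ Subgroup.centralizer ({(y : G)} : Set G) := by
      refine sup_le (fun q hq => ?_) ?_
      · exact mem_centralizer_singleton_of_commute (Subgroup.mem_centralizer_iff.mp y.2 q hq)
      · rintro _ ⟨d, hd, rfl⟩
        have h1 := commute_of_mem_centralizer_singleton (hS.le hd)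
        exact mem_centralizer_singleton_of_commute (congrArg Subtype.val h1)
    rw [Subgroup.mem_centralizer_iff]
    intro r hr
    exact (commute_of_mem_centralizer_singleton (hle hr)).eq.symm ▸ rfl
  have hyc : ¬ MemLocalIdeal M (subgroupBlockCoeff (Subgroup.centralizer (Q : Set G)) e (y : G)) := by
    rw [coeff_of_coe]
    exact hy.2.1
  have hRQ := eq_of_maximal hM hmax hRp le_sup_left hRN
    (fun r hr => stabilizesBlock_of_mem_sup (hRC hr) e) hyR hyc
  intro d hd
  rw [Subgroup.mem_subgroupOf]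
  have h1 : (d : G) ∈ (Q ⊔ D.map (Subgroup.centralizer (Q : Set G)).subtype : Subgroup G) :=
    Subgroup.mem_sup_right ⟨d, hd, rfl⟩
  rwa [hRQ] at h1

theorem exists_mul_of_mem_sup_centralizer {x : G} (hx : x ∈ Q ⊔ Subgroup.centralizer (Q : Set G)) :
    ∃ q ∈ Q, ∃ c ∈ Subgroup.centralizer (Q : Set G), q * c = x := by
  let T : Subgroup G :=
    { carrier := {x | ∃ q ∈ Q, ∃ c ∈ Subgroup.centralizer (Q : Set G), q * c = x}
      mul_mem' := by
        rintro _ _ ⟨q, hq, c, hc, rfl⟩ ⟨q', hq', c', hc', rfl⟩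
        refine ⟨q * q', Q.mul_mem hq hq', c * c', Subgroup.mul_mem _ hc hc', ?_⟩
        have h1 : q' * c = c * q' := Subgroup.mem_centralizer_iff.mp hc q' hq'
        rw [mul_assoc, mul_assoc, ← mul_assoc q' c c', h1]
        group
      one_mem' := ⟨1, Q.one_mem, 1, Subgroup.one_mem _, by simp⟩
      inv_mem' := by
        rintro _ ⟨q, hq, c, hc, rfl⟩
        refine ⟨q⁻¹, Q.inv_mem hq, c⁻¹, Subgroup.inv_mem _ hc, ?_⟩
        have h1 : q * c = c * q := Subgroup.mem_centralizer_iff.mp hc q hq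
        rw [h1, mul_inv_rev] }
  have hle : Q ⊔ Subgroup.centralizer (Q : Set G) ≤ T :=
    sup_le (fun q hq => ⟨q, hq, 1, Subgroup.one_mem _, mul_one q⟩)
      (fun c hc => ⟨1, Q.one_mem, c, hc, one_mul c⟩)
  exact hle hx

theorem card_inf_eq (Q C : Subgroup G) : Nat.card ↥(Q ⊓ C) = Nat.card (Q.subgroupOf C) := by
  rw [← Subgroup.inf_subgroupOf_right Q C]
  exact (Nat.card_congr (Subgroup.subgroupOfEquivOfLe inf_le_right).toEquiv).symm

theorem central_subgroupOf {w z : Subgroup.centralizer (Q : Set G)} (hz : z ∈ Q.subgroupOf (Subgroup.centralizer (Q : Set G))) :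
    Commute w z := by
  apply Subtype.ext
  exact (Subgroup.mem_centralizer_iff.mp w.2 z (Subgroup.mem_subgroupOf.mp hz)).symm

/-- The forward direction. -/
theorem forward_maximal (hM : IsPModular p M) {B : Set (IrrCharacter G)}
    {e : Set (IrrCharacter (Subgroup.centralizer (Q : Set G)))} (hmax : IsMaximalBrauerPair p M B Q e) :
    ∃ θ ∈ e, (∀ z : Subgroup.centralizer (Q : Set G), (z : G) ∈ Q → (θ : Subgroup.centralizer (Q : Set G) → ℂ) z = (θ : Subgroup.centralizer (Q : Set G) → ℂ) 1) ∧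
        (Cfsg.charDegree (θ : Subgroup.centralizer (Q : Set G) → ℂ)).factorization p + (Nat.card ↥(Q ⊓ Subgroup.centralizer (Q : Set G))).factorization p = (Nat.card (Subgroup.centralizer (Q : Set G))).factorization p ∧
        (∀ g : G, g ∈ Subgroup.normalizer (Q : Set G) → Cfsg.StabilizesBlock (Subgroup.centralizer (Q : Set G)) e g → (∃ k : ℕ, orderOf g = p ^ k) → g ∈ Q ⊔ Subgroup.centralizer (Q : Set G)) := by
  classical
  have := isPrime_of_modular hM
  have hpp : p.Prime := hp.out
  letI : Fintype (Subgroup.centralizer (Q : Set G)) := Fintype.ofFinite _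
  have he := hmax.1.1.2
  obtain ⟨D, hD⟩ := IsPBlock.exists_isDefectGroup hM he
  have hDZ := defect_le_of_maximal hM hmax hD
  obtain ⟨y, hy, hS⟩ := isDefectGroup_iff.mp hD
  have hZp : IsPGroup p (Q.subgroupOf (Subgroup.centralizer (Q : Set G))) := isPGroup_subgroupOf hmax.1.1.1 _
  obtain ⟨θ, hθ, htriv, hle⟩ := exists_irr_trivial_on_central hM he hy.2.1 hZp
    (fun z hz w => central_subgroupOf hz)
  refine ⟨θ, hθ, fun z hz => htriv z (Subgroup.mem_subgroupOf.mpr hz), ?_, fun g hg hst hk => mem_sup_of_maximal hM hmax hg hst hk⟩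
  rw [card_inf_eq]
  apply le_antisymm hle
  have h1 := val_index_le_of_centralChar hM θ (hy.2.2 θ hθ)
  have h2 := factorization_index_add_card (p := p) (Subgroup.centralizer ({y} : Set (Subgroup.centralizer (Q : Set G))))
  have h3 : Nat.card D = p ^ (Nat.card (Subgroup.centralizer ({y} : Set (Subgroup.centralizer (Q : Set G))))).factorization p := hS.card_eq_pow
  have h4 : Nat.card D ∣ Nat.card (Q.subgroupOf (Subgroup.centralizer (Q : Set G))) := Subgroup.card_dvd_of_le hDZ
  have h5 : (Nat.card D).factorization p ≤ (Nat.card (Q.subgroupOf (Subgroup.centralizer (Q : Set G)))).factorization p :=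
    (Nat.factorization_le_iff_dvd Nat.card_pos.ne' Nat.card_pos.ne').mpr h4 p
  rw [h3, Nat.factorization_pow] at h5
  simp only [Finsupp.smul_apply, smul_eq_mul, hpp.factorization_self, mul_one] at h5
  omega

/-- The backward direction. -/
theorem backward_maximal (hM : IsPModular p M)
    {e : Set (IrrCharacter (Subgroup.centralizer (Q : Set G)))} (he : IsBrauerPair p M Q e)
    {θ : IrrCharacter (Subgroup.centralizer (Q : Set G))} (hθ : θ ∈ e)
    (htriv : ∀ z : Subgroup.centralizer (Q : Set G), (z : G) ∈ Q → (θ : Subgroup.centralizer (Q : Set G) → ℂ) z = (θ : Subgroup.centralizer (Q : Set G) → ℂ) 1)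
    (hv : (Cfsg.charDegree (θ : Subgroup.centralizer (Q : Set G) → ℂ)).factorization p + (Nat.card ↥(Q ⊓ Subgroup.centralizer (Q : Set G))).factorization p = (Nat.card (Subgroup.centralizer (Q : Set G))).factorization p)
    (h3 : ∀ g : G, g ∈ Subgroup.normalizer (Q : Set G) → Cfsg.StabilizesBlock (Subgroup.centralizer (Q : Set G)) e g → (∃ k : ℕ, orderOf g = p ^ k) → g ∈ Q ⊔ Subgroup.centralizer (Q : Set G)) :
    ∃ B : Set (IrrCharacter G), IsMaximalBrauerPair p M B Q e := by
  classical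
  have := isPrime_of_modular hM
  have hpp : p.Prime := hp.out
  letI : Fintype (Subgroup.centralizer (Q : Set G)) := Fintype.ofFinite _
  have hZp : IsPGroup p (Q.subgroupOf (Subgroup.centralizer (Q : Set G))) := isPGroup_subgroupOf he.1 _
  rw [card_inf_eq] at hv
  obtain ⟨g₀, hg₀, hg₀s⟩ := exists_central_of_defect_zero hM hZp (fun z hz w => central_subgroupOf hz) θ
    (fun z hz => htriv z (Subgroup.mem_subgroupOf.mp hz)) hv
  obtain ⟨D, hD⟩ := IsPBlock.exists_isDefectGroup hM he.2
  -- the defect group is central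
  haveI hZn : (Q.subgroupOf (Subgroup.centralizer (Q : Set G))).Normal := ⟨fun z hz w => by
    have := (central_subgroupOf (w := w) hz).eq
    rw [this]
    simpa using hz⟩
  have hDZ : D ≤ Q.subgroupOf (Subgroup.centralizer (Q : Set G)) := by
    obtain ⟨u, hu⟩ := IsDefectGroup.conj_le_of_central hM he.2 hD hθ hg₀
    have hup : IsPGroup p (conjS u D) := isPGroup_conjS (IsDefectGroup.isPGroup hD)
    have h1 : conjS u D ≤ Q.subgroupOf (Subgroup.centralizer (Q : Set G)) := by
      intro s hs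
      obtain ⟨k, hk⟩ := IsPGroup.iff_orderOf.mp hup ⟨s, hs⟩
      refine hg₀s s (commute_of_mem_centralizer_singleton (hu hs)) ⟨k, ?_⟩
      rwa [Subgroup.orderOf_mk] at hk
    have h2 := conjS_le_iff.mp h1
    rwa [conjS_of_normal] at h2
  obtain ⟨B, hB⟩ := exists_isInducedBlock_cent hM he.1 he.2
  have hpair : IsBrauerPairOf p M B Q e := (isBrauerPairOf_iff hM he.1 he.2).mpr hB
  refine ⟨B, hpair, fun R g hRg hle => ?_⟩
  by_contra hne
  obtain ⟨⟨R₁, g₁⟩, hstep, hlt, -⟩ := exists_step_of_chain hM hle (Ne.symm hne)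
  have hstep' : IsNormalSubpair p M Q e R₁ g₁ := hstep
  have hlt' : Q < R₁ := hlt
  obtain ⟨r, hr, hrQ⟩ := SetLike.exists_of_lt hlt'
  have hR₁p : IsPGroup p R₁ := hstep'.2.1.1
  obtain ⟨k, hk⟩ := IsPGroup.iff_orderOf.mp hR₁p ⟨r, hr⟩
  have hk' : orderOf r = p ^ k := by rwa [Subgroup.orderOf_mk] at hk
  have hrs := h3 r (hstep'.2.2.2.1 hr) (hstep'.2.2.2.2.1 r hr) ⟨k, hk'⟩
  obtain ⟨q, hq, c, hc, hqc⟩ := exists_mul_of_mem_sup_centralizer hrs
  have hcR : c ∈ R₁ := by
    have : c = q⁻¹ * r := by rw [← hqc]; group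
    rw [this]
    exact R₁.mul_mem (R₁.inv_mem (hlt'.le hq)) hr
  have hcQ : c ∉ Q := fun h => hrQ (by rw [← hqc]; exact Q.mul_mem hq h)
  obtain ⟨y, hy, hyc⟩ := exists_coeff_of_isNormalSubpair hM hstep'
  have hyQ : y ∈ Subgroup.centralizer (Q : Set G) := Subgroup.centralizer_le hlt'.le hy
  simp only [subgroupBlockCoeff, dif_pos hyQ] at hyc
  obtain ⟨j, hj⟩ := IsPGroup.iff_orderOf.mp hR₁p ⟨c, hcR⟩
  have hj' : orderOf c = p ^ j := by rwa [Subgroup.orderOf_mk] at hj
  have hAp : IsPGroup p (Subgroup.zpowers (⟨c, hc⟩ : Subgroup.centralizer (Q : Set G))) :=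
    isPGroup_zpowers ⟨j, by rw [← hj', Subgroup.orderOf_mk]⟩
  have hAc : Subgroup.zpowers (⟨c, hc⟩ : Subgroup.centralizer (Q : Set G)) ≤
      Subgroup.centralizer ({(⟨y, hyQ⟩ : Subgroup.centralizer (Q : Set G))} : Set (Subgroup.centralizer (Q : Set G))) := by
    rw [Subgroup.zpowers_le]
    apply mem_centralizer_singleton_of_commute
    apply Subtype.ext
    exact (Subgroup.mem_centralizer_iff.mp hy c hcR)
  obtain ⟨w, hw⟩ := IsDefectGroup.le_conj_of_coeff hM he.2 hD hyc hAp hAc
  have h5 : conjS w D ≤ Q.subgroupOf (Subgroup.centralizer (Q : Set G)) := by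
    have := conjS_mono w hDZ
    rwa [conjS_of_normal w (Q.subgroupOf (Subgroup.centralizer (Q : Set G)))] at this
  have h6 := h5 (hw (Subgroup.mem_zpowers _))
  exact hcQ (Subgroup.mem_subgroupOf.mp h6)

end Main

end Cfsg.Agent.Lib.Char.MP
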