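import Cfsg.Agent.Lib.Char.SingGraph
import Cfsg.Agent.Lib.PGroups.TwoClass
import Cfsg.Agent.Lib.Basic.Nilpotent

/-!
# A normal subgroup all of whose elements have class size `1` or `m`

If it contains a Sylow `r`-subgroup which is not central, it is nilpotent.
-/

set_option autoImplicit false

namespace Cfsg.Agent.Lib.Char.NormTwo

open Subgroup Cfsg.Agent.Lib.Char.TwoLargest Cfsg.Agent.Lib.Char.SingGraph
  Cfsg.Agent.Lib.PGroups Cfsg.Agent.Lib.PGroups.TwoClass Cfsg.Agent.Lib.OddLocal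

variable {G : Type*} [Group G] [Finite G]

/-- The product formula as an inequality. -/
theorem card_mul_le {B D S : Subgroup G} (hB : B ≤ S) (hD : D ≤ S) :
    Nat.card B * Nat.card D ≤ Nat.card S * Nat.card ↥(B ⊓ D) := by
  have h1 : Nat.card ↥(B ⊓ D) * (B ⊓ D).relIndex B = Nat.card B := card_mul_relIndex inf_le_left
  have h2 : Nat.card D * D.relIndex S = Nat.card S := card_mul_relIndex hD
  have h3 : (B ⊓ D).relIndex B = D.relIndex B := by
    rw [inf_comm]
    exact Subgroup.inf_relIndex_right D B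
  have h4 : D.relIndex B ≤ D.relIndex S :=
    Subgroup.relIndex_le_of_le_right hB (fun h0 => by
      rw [h0, mul_zero] at h2
      exact Nat.card_pos.ne' h2.symm)
  rw [h3] at h1
  rw [← h1, ← h2]
  calc Nat.card ↥(B ⊓ D) * D.relIndex B * Nat.card D
      ≤ Nat.card ↥(B ⊓ D) * D.relIndex S * Nat.card D := by gcongr
    _ = Nat.card D * D.relIndex S * Nat.card ↥(B ⊓ D) := by ring

/-- A `p`-group acting on a `q`-group: an orbit of a noncentral element modulo the centre. -/
theorem count_orbit {p q : ℕ} [hp : Fact p.Prime] [hq : Fact q.Prime] (hpq : p ≠ q) (P Y : Subgroup G)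
    (hP : IsPGroup p P) (hY : IsPGroup q Y) (hPY : ∀ u ∈ P, ∀ a ∈ Y, u * a * u⁻¹ ∈ Y) {w : G}
    (hw : w ∈ Y) (hwz : w ∉ center G) :
    ((cent w).relIndex P + 1) * Nat.card ↥(Y ⊓ center G) ≤ Nat.card Y := by
  classical
  let A₀ : Subgroup P := (cent w).subgroupOf P
  let φ : Option (↥P ⧸ A₀) → G :=
    fun o => o.elim 1 (fun t => ((t.out : P) : G) * w * ((t.out : P) : G)⁻¹)
  have hφ : ∀ o, φ o ∈ Y := by
    rintro (_ | t)
    · exact one_mem _
    · exact hPY _ t.out.2 _ hw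
  have hcz : ∀ (z : ↥(Y ⊓ center G)) (g : G), g * (z : G) = (z : G) * g :=
    fun z => Subgroup.mem_center_iff.mp (Subgroup.mem_inf.mp z.2).2
  have hnot : ∀ (y ζ : G), (∀ g : G, g * ζ = ζ * g) → y * w * y⁻¹ ≠ ζ := by
    intro y ζ hζ he
    have h1 : w = ζ := by
      calc w = y⁻¹ * (y * w * y⁻¹) * y := by group
        _ = y⁻¹ * ζ * y := by rw [he]
        _ = ζ * (y⁻¹ * y) := by rw [hζ y⁻¹]; group
        _ = ζ := by group
    apply hwz
    rw [h1]
    exact Subgroup.mem_center_iff.mpr hζ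
  let F : Option (↥P ⧸ A₀) × ↥(Y ⊓ center G) → Y :=
    fun t => ⟨φ t.1 * (t.2 : G), mul_mem (hφ t.1) (Subgroup.mem_inf.mp t.2.2).1⟩
  have hinj : Function.Injective F := by
    rintro ⟨o, z⟩ ⟨o', z'⟩ heq
    have e : φ o * (z : G) = φ o' * (z' : G) := congrArg Subtype.val heq
    have hcz' : ∀ g : G, g * ((z' : G) * (z : G)⁻¹) = ((z' : G) * (z : G)⁻¹) * g := by
      intro g
      have h1 : Commute g (z' : G) := hcz z' g
      have h2 : Commute g (z : G) := hcz z g
      exact h1.mul_right h2.inv_right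
    have hcz'' : ∀ g : G, g * ((z : G) * (z' : G)⁻¹) = ((z : G) * (z' : G)⁻¹) * g := by
      intro g
      have h1 : Commute g (z' : G) := hcz z' g
      have h2 : Commute g (z : G) := hcz z g
      exact h2.mul_right h1.inv_right
    rcases o with _ | t <;> rcases o' with _ | t'
    · have e' : (z : G) = z' := by simpa [φ] using e
      rw [Subtype.ext e']
    · exfalso
      have e' : (z : G) = φ (some t') * (z' : G) := by simpa [φ] using e
      apply hnot ((t'.out : P) : G) _ hcz''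
      have : φ (some t') = (z : G) * (z' : G)⁻¹ := by rw [e']; group
      exact this
    · exfalso
      have e' : φ (some t) * (z : G) = (z' : G) := by simpa [φ] using e
      apply hnot ((t.out : P) : G) _ hcz'
      have : φ (some t) = (z' : G) * (z : G)⁻¹ := by rw [← e']; group
      exact this
    · set a : G := ((t.out : P) : G) with ha
      set b : G := ((t'.out : P) : G) with hb
      have e1 : a * w * a⁻¹ * (z : G) = b * w * b⁻¹ * (z' : G) := e
      have hyP : b⁻¹ * a ∈ P := mul_mem (inv_mem t'.out.2) t.out.2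
      have e2 : (b⁻¹ * a) * w * (b⁻¹ * a)⁻¹ = w * ((z' : G) * (z : G)⁻¹) := by
        have e3 : a * w * a⁻¹ = b * w * b⁻¹ * ((z' : G) * (z : G)⁻¹) := by
          calc a * w * a⁻¹ = (a * w * a⁻¹ * (z : G)) * (z : G)⁻¹ := by group
            _ = b * w * b⁻¹ * (z' : G) * (z : G)⁻¹ := by rw [e1]
            _ = _ := by group
        calc (b⁻¹ * a) * w * (b⁻¹ * a)⁻¹ = b⁻¹ * (a * w * a⁻¹) * b := by group
          _ = b⁻¹ * (b * w * b⁻¹ * ((z' : G) * (z : G)⁻¹)) * b := by rw [e3]
          _ = w * (b⁻¹ * ((z' : G) * (z : G)⁻¹) * b) := by group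
          _ = w * ((z' : G) * (z : G)⁻¹) := by rw [hcz' b⁻¹]; group
      obtain ⟨a', ha'⟩ := hP ⟨_, hyP⟩
      have ha'' : (b⁻¹ * a) ^ p ^ a' = 1 := by
        simpa using congrArg (fun x : P => (x : G)) ha'
      have hzz : ((z' : ↥(Y ⊓ center G)) * z⁻¹ : ↥(Y ⊓ center G)).1 ∈ Y :=
        (Subgroup.mem_inf.mp (z' * z⁻¹).2).1
      obtain ⟨m, hm⟩ := hY ⟨_, hzz⟩
      have hm' : ((z' : G) * (z : G)⁻¹) ^ q ^ m = 1 := by
        simpa using congrArg (fun x : Y => (x : G)) hm
      have hcomm := commute_of_conj_eq_mul_central hp.out hq.out hpq ha'' hm' hcz' e2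
      have hyC : b⁻¹ * a ∈ cent w := mem_cent_iff.mpr hcomm
      have htt : t' = t := by
        have h1 : (t'.out)⁻¹ * t.out ∈ A₀ := mem_subgroupOf.mpr hyC
        have h2 := QuotientGroup.eq.mpr h1
        rw [QuotientGroup.out_eq', QuotientGroup.out_eq'] at h2
        exact h2
      subst htt
      have e4 : (z : G) = z' := by
        have : φ (some t') * (z : G) = φ (some t') * (z' : G) := e
        exact mul_left_cancel this
      rw [Subtype.ext e4]
  have hcard := Nat.card_le_card_of_injective F hinj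
  rw [Nat.card_prod, Finite.card_option] at hcard
  exact hcard

/-- A conjugate of a `p`-subgroup lies in a subgroup of index prime to `p`. -/
theorem exists_conj_le (K : Subgroup G) {p : ℕ} [hp : Fact p.Prime] {U : Subgroup G} (hU : IsPGroup p U)
    (hK : ¬ p ∣ K.index) : ∃ t, ∀ x ∈ U, t * x * t⁻¹ ∈ K := by
  obtain ⟨q, hq⟩ := hU.nonempty_fixed_point_of_prime_not_dvd_card (G ⧸ K)
    (by rwa [← Subgroup.index_eq_card])
  obtain ⟨g, rfl⟩ := QuotientGroup.mk_surjective q
  refine ⟨g⁻¹, fun x hx => ?_⟩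
  have h1 := hq ⟨x, hx⟩
  have h2 : ((x * g : G) : G ⧸ K) = (g : G ⧸ K) := h1
  have h3 := QuotientGroup.eq.mp h2
  have h5 : (x * g)⁻¹ * g ∈ K := h3
  have h6 : g⁻¹ * x * g⁻¹⁻¹ = ((x * g)⁻¹ * g)⁻¹ := by group
  rw [h6]
  exact inv_mem h5

section
variable {N : Subgroup G} {m : ℕ} (h : ∀ x ∈ N, cc x = 1 ∨ cc x = m)

include h in
theorem cc_eq {x : G} (hx : x ∈ N) (hz : x ∉ center G) : cc x = m :=
  (h x hx).resolve_left (fun h1 => hz (cc_eq_one_iff.mp h1))

include h in
theorem card_cent_eq {x y : G} (hx : x ∈ N) (hxz : x ∉ center G) (hy : y ∈ N) (hyz : y ∉ center G) :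
    Nat.card (cent x) = Nat.card (cent y) := by
  have h1 := Subgroup.card_mul_index (cent x)
  have h2 := Subgroup.card_mul_index (cent y)
  have h3 : (cent x).index = m := cc_eq h hx hxz
  have h4 : (cent y).index = m := cc_eq h hy hyz
  rw [h3] at h1
  rw [h4] at h2
  have hm : 0 < m := by
    rw [← h3]
    exact Nat.pos_of_ne_zero Subgroup.index_ne_zero_of_finite
  exact Nat.eq_of_mul_eq_mul_right hm (h1.trans h2.symm)

include h in
theorem cent_eq_of_le {x y : G} (hx : x ∈ N) (hxz : x ∉ center G) (hy : y ∈ N) (hyz : y ∉ center G)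
    (hle : cent x ≤ cent y) : cent x = cent y :=
  Subgroup.eq_of_le_of_card_ge hle (card_cent_eq h hy hyz hx hxz).le

include h in
theorem cent_eq_of_coprime {x w : G} (hx : x ∈ N) (hxz : x ∉ center G) (hw : w ∈ N) (hwz : w ∉ center G)
    (hc : Commute x w) (hcop : (orderOf x).Coprime (orderOf w)) : cent x = cent w := by
  have h1 : cent (x * w) = cent x ⊓ cent w := centralizer_mul_of_coprime hc hcop
  have hxw : x * w ∉ center G := by
    intro hz
    have h2 : cent (x * w) = ⊤ := by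
      have := cc_eq_one_iff.mpr hz
      exact Subgroup.index_eq_one.mp this
    apply hxz
    apply cc_eq_one_iff.mp
    have h3 : cent x = ⊤ := top_le_iff.mp (h2 ▸ (h1 ▸ inf_le_left))
    show (cent x).index = 1
    rw [h3, Subgroup.index_top]
  have h2 := cent_eq_of_le h (mul_mem hx hw) hxw hx hxz (h1 ▸ inf_le_left)
  have h3 := cent_eq_of_le h (mul_mem hx hw) hxw hw hwz (h1 ▸ inf_le_right)
  rw [← h2, h3]

include h in
/-- A noncentral element of `N` centralises a noncentral `r`-element. -/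
theorem exists_nc {r : ℕ} [hr : Fact r.Prime] (hrN : ∀ v : G, PE r v → v ∈ N) {x₀ : G} (hx₀ : PE r x₀)
    (hx₀z : x₀ ∉ center G) {u : G} (hu : u ∈ N) (huz : u ∉ center G) :
    ∃ y ∈ cent u, PE r y ∧ y ∉ center G := by
  by_contra hno
  push Not at hno
  obtain ⟨T, -, hTK, hT, hTi⟩ := exists_sylow_le (s := r) (K := cent u) (U := ⊥) bot_le IsPGroup.of_bot
  have hTc : ∀ t ∈ T, t ∈ center G := fun t ht => hno t (hTK ht) (PE.of_mem hT ht)
  obtain ⟨S, hS⟩ := hT.exists_le_sylow
  obtain ⟨k, hk⟩ := hx₀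
  obtain ⟨t, ht⟩ := exists_conj_mem_of_not_dvd (S : Subgroup G) hk S.not_dvd_index
  set y := t * x₀ * t⁻¹ with hy
  have hyP : PE r y := PE.conj ⟨k, hk⟩ t
  have hyz : y ∉ center G := conj_not_mem_center hx₀z
  have hcard := card_le_of_sylow hTK hTi (inf_le_right : (S : Subgroup G) ⊓ cent y ≤ cent y)
    (S.isPGroup'.to_le inf_le_left) (card_cent_eq h (hrN y hyP) hyz hu huz)
  have hle : T ≤ (S : Subgroup G) ⊓ cent y := fun a ha =>
    Subgroup.mem_inf.mpr ⟨hS ha, center_le_cent y (hTc a ha)⟩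
  have heq := Subgroup.eq_of_le_of_card_ge hle hcard
  have hyT : y ∈ T := by
    rw [heq]
    exact Subgroup.mem_inf.mpr ⟨ht, mem_cent_iff.mpr rfl⟩
  exact hyz (hTc y hyT)

include h in
/-- If `s` does not divide `m`, Sylow `s`-subgroups of `N` are central in `N`. -/
theorem central_of_not_dvd_N [hNn : N.Normal] {s : ℕ} [hs : Fact s.Prime] (hsm : ¬ s ∣ m) (S₁ : Sylow s N) :
    ∀ x ∈ (S₁ : Subgroup N), ∀ u : N, x * u = u * x := by
  classical
  have htop : centralizer ((S₁ : Subgroup N) : Set N) = ⊤ := by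
    by_contra hne
    have h1 := ncard_conjUnion_lt _ hne
    have h2 : conjUnion (centralizer ((S₁ : Subgroup N) : Set N)) = Set.univ := by
      ext u
      simp only [Set.mem_univ, iff_true]
      have hdv : ¬ s ∣ (cent (u : G)).index := by
        rcases h u u.2 with h3 | h3
        · have h4 : (cent (u : G)).index = 1 := h3
          rw [h4]
          exact hs.out.one_lt.ne' ∘ Nat.dvd_one.mp
        · have h4 : (cent (u : G)).index = m := h3
          rw [h4]
          exact hsm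
      have hU : IsPGroup s ((S₁ : Subgroup N).map N.subtype) := S₁.isPGroup'.map _
      obtain ⟨t, ht⟩ := exists_conj_le (cent (u : G)) hU hdv
      have hsup := Sylow.normalizer_sup_eq_top S₁
      have htm : t ∈ N ⊔ normalizer (S₁.map N.subtype : Set G) := by
        rw [sup_comm]
        have : normalizer (S₁.map N.subtype : Set G) ⊔ N = ⊤ := hsup
        rw [this]
        trivial
      rw [← SetLike.mem_coe, Subgroup.normal_mul, Set.mem_mul] at htm
      obtain ⟨n, hn, k, hk, rfl⟩ := htm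
      refine ⟨⟨n, hn⟩, ?_⟩
      rw [Subgroup.mem_centralizer_iff]
      intro x hx
      apply Subtype.ext
      have hx' : (x : G) ∈ (S₁ : Subgroup N).map N.subtype := ⟨x, hx, rfl⟩
      have hk' : k⁻¹ * (x : G) * k ∈ (S₁ : Subgroup N).map N.subtype := by
        have := (Subgroup.mem_normalizer_iff.mp (inv_mem hk) (x : G)).mp hx'
        simpa using this
      have h5 := ht _ hk'
      have h6 : n * k * (k⁻¹ * (x : G) * k) * (n * k)⁻¹ = n * x * n⁻¹ := by group
      rw [h6] at h5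
      have h7 := mem_cent_iff.mp h5
      show (x : G) * ((n : G)⁻¹ * u * n) = (n : G)⁻¹ * u * n * x
      have h8 : (n * x * n⁻¹) * (u : G) = u * (n * x * n⁻¹) := h7
      calc (x : G) * ((n : G)⁻¹ * u * n) = n⁻¹ * ((n * x * n⁻¹) * u) * n := by group
        _ = n⁻¹ * (u * (n * x * n⁻¹)) * n := by rw [h8]
        _ = _ := by group
    rw [h2, Set.ncard_univ] at h1
    exact lt_irrefl _ h1
  intro x hx u
  have h3 : u ∈ centralizer ((S₁ : Subgroup N) : Set N) := by rw [htop]; trivial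
  exact (mem_centralizer_iff.mp h3 x hx)

end

/-- The situation: commuting noncentral `k`, `y` of coprime prime power orders, all `r`-elements in `N`. -/
structure Cx (N : Subgroup G) (m r q : ℕ) (k y : G) : Prop where
  h : ∀ x ∈ N, cc x = 1 ∨ cc x = m
  hr : r.Prime
  hq : q.Prime
  hrq : r ≠ q
  hrN : ∀ v : G, PE r v → v ∈ N
  hrm : r ∣ m
  hk : k ∈ N
  hkz : k ∉ center G
  hkq : PE q k
  hyz : y ∉ center G
  hyr : PE r y
  hyk : y ∈ cent k

variable {N : Subgroup G} {m r q : ℕ} {k y : G}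

theorem Cx.hyN (D : Cx N m r q k y) : y ∈ N := D.hrN y D.hyr

theorem coprime_of_PE {r q : ℕ} (hr : r.Prime) (hq : q.Prime) (hrq : r ≠ q) {a b : G} (ha : PE r a) (hb : PE q b) :
    (orderOf a).Coprime (orderOf b) := by
  obtain ⟨i, hi⟩ := ha
  obtain ⟨j, hj⟩ := hb
  rw [hi, hj]
  exact Nat.coprime_pow_primes _ _ hr hq hrq

theorem Cx.cent_y (D : Cx N m r q k y) : cent y = cent k :=
  cent_eq_of_coprime D.h D.hyN D.hyz D.hk D.hkz (mem_cent_iff.mp D.hyk)
    (coprime_of_PE D.hr D.hq D.hrq D.hyr D.hkq)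

/-- The elements of `N` in `C(k)` are central in `C(k)`. -/
theorem Cx.central (D : Cx N m r q k y) {a : G} (ha : a ∈ N) (hc : a ∈ cent k) : cent k ≤ cent a := by
  have hmem : a ∈ centralizer ((cent k : Subgroup G) : Set G) := by
    apply mem_of_primary_powers
    intro a₀ ha₀ hpp
    obtain ⟨t, j, ht, hj, hoa⟩ := hpp
    have ht' : t.Prime := Nat.prime_iff.mpr ht
    have ha₀N : a₀ ∈ N := (zpowers_le.mpr ha) ha₀
    have ha₀C : a₀ ∈ cent k := (zpowers_le.mpr hc) ha₀
    rw [mem_centralizer_iff]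
    intro c hcc
    by_cases hz : a₀ ∈ center G
    · exact (mem_center_iff.mp hz c)
    have hPE : PE t a₀ := ⟨j, hoa.symm⟩
    have hle : cent a₀ = cent k := by
      by_cases htq : t = q
      · subst htq
        have h1 := cent_eq_of_coprime D.h ha₀N hz D.hyN D.hyz
          (by
            rw [← D.cent_y] at ha₀C
            exact mem_cent_iff.mp ha₀C)
          (coprime_of_PE D.hq D.hr (Ne.symm D.hrq) hPE D.hyr)
        rw [h1, D.cent_y]
      · exact cent_eq_of_coprime D.h ha₀N hz D.hk D.hkz (mem_cent_iff.mp ha₀C)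
          (coprime_of_PE ht' D.hq htq hPE D.hkq)
    have h2 : c ∈ cent a₀ := by
      rw [hle]
      exact hcc
    exact mem_cent_iff.mp h2
  intro c hcc
  exact mem_cent_iff.mpr (mem_centralizer_iff.mp hmem c hcc)

theorem Cx.cent_eq (D : Cx N m r q k y) {a : G} (ha : a ∈ N) (hc : a ∈ cent k) (hz : a ∉ center G) :
    cent a = cent k :=
  (cent_eq_of_le D.h D.hk D.hkz ha hz (D.central ha hc)).symm

theorem Cx.comm_A (D : Cx N m r q k y) {a b : G} (ha : a ∈ N) (hac : a ∈ cent k) (hb : b ∈ cent k) :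
    a * b = b * a :=
  (mem_cent_iff.mp (D.central ha hac hb)).symm

/-- Every noncentral element of `N` has the centraliser of an `r`-element. -/
theorem exists_r_cent {N : Subgroup G} {m r : ℕ} (h : ∀ x ∈ N, cc x = 1 ∨ cc x = m) [hr : Fact r.Prime]
    (hrN : ∀ v : G, PE r v → v ∈ N) {x₀ : G} (hx₀ : PE r x₀)
    (hx₀z : x₀ ∉ center G) {u : G} (hu : u ∈ N) (huz : u ∉ center G) :
    ∃ v : G, PE r v ∧ v ∉ center G ∧ cent u = cent v := by
  -- a noncentral primary power
  have hprim : ∃ a ∈ zpowers u, IsPrimePow (orderOf a) ∧ a ∉ center G := by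
    by_contra hno
    push Not at hno
    exact huz (mem_of_primary_powers _ _ hno)
  obtain ⟨a, haz, hpp, hanz⟩ := hprim
  obtain ⟨t, j, ht, hj, hoa⟩ := hpp
  have ht' : t.Prime := Nat.prime_iff.mpr ht
  have haN : a ∈ N := (zpowers_le.mpr hu) haz
  have hua : cent u = cent a := cent_eq_of_le h hu huz haN hanz (cent_le_of_mem_zpowers haz)
  have hPE : PE t a := ⟨j, hoa.symm⟩
  by_cases htr : t = r
  · subst htr
    exact ⟨a, hPE, hanz, hua⟩
  · obtain ⟨v, hv, hvP, hvz⟩ := exists_nc h hrN hx₀ hx₀z haN hanz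
    refine ⟨v, hvP, hvz, ?_⟩
    rw [hua]
    exact cent_eq_of_coprime h haN hanz (hrN v hvP) hvz (mem_cent_iff.mp hv).symm
      (coprime_of_PE ht' hr.out htr hPE hvP)

/-- The key inequality. -/
theorem Cx.lemB [hNn : N.Normal] (D : Cx N m r q k y) {s : ℕ} [hs : Fact s.Prime] (S : Sylow s G) :
    Nat.card ↥((S : Subgroup G) ⊓ cent k ⊓ N) * Nat.card ↥((S : Subgroup G) ⊓ cent k) ≤
      Nat.card S * Nat.card ↥((S : Subgroup G) ⊓ cent k ⊓ N ⊓ center G) := by
  classical
  haveI : Fact r.Prime := ⟨D.hr⟩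
  by_contra hlt
  push Not at hlt
  set W := (S : Subgroup G) ⊓ cent k with hW
  set B := W ⊓ N with hB
  set A := cent k ⊓ N with hA
  have hBS : B ≤ S := inf_le_left.trans inf_le_left
  have hWS : W ≤ S := inf_le_left
  have hBA : B ≤ A := le_inf (inf_le_left.trans inf_le_right) inf_le_right
  have hex : ∀ L : Subgroup G, Nat.card ↥(B ⊓ center G) < Nat.card ↥(B ⊓ L) →
      ∃ t ∈ B, t ∈ L ∧ t ∉ center G := by
    intro L hL
    by_contra hno
    push Not at hno
    have hle : B ⊓ L ≤ B ⊓ center G := fun t ht => Subgroup.mem_inf.mpr ⟨ht.1, hno t ht.1 ht.2⟩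
    exact absurd (Subgroup.card_le_of_le hle) (not_le.mpr hL)
  have hcov : ∀ u ∈ N, ∃ g : G, g⁻¹ * u * g ∈ A := by
    intro u hu
    by_cases huz : u ∈ center G
    · refine ⟨1, ?_⟩
      simp only [inv_one, one_mul, mul_one]
      exact Subgroup.mem_inf.mpr ⟨center_le_cent k huz, hu⟩
    obtain ⟨v, hvP, hvz, hcv⟩ := exists_r_cent D.h D.hrN D.hyr D.hyz hu huz
    obtain ⟨T, -, hTK, hT, hTi⟩ := exists_sylow_le (s := s) (K := cent v) (U := ⊥) bot_le IsPGroup.of_bot
    obtain ⟨t, ht⟩ := exists_conj_le (S : Subgroup G) hT S.not_dvd_index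
    set v' := t * v * t⁻¹ with hv'
    have hv'P : PE r v' := hvP.conj t
    have hv'z : v' ∉ center G := conj_not_mem_center hvz
    set D' := (S : Subgroup G) ⊓ cent v' with hD'
    let T' : Subgroup G := T.map (MulAut.conj t).toMonoidHom
    have hT'D : T' ≤ D' := by
      rintro _ ⟨a, ha, rfl⟩
      refine Subgroup.mem_inf.mpr ⟨ht a ha, ?_⟩
      have h1 : a * v = v * a := mem_cent_iff.mp (hTK ha)
      rw [mem_cent_iff]
      show t * a * t⁻¹ * v' = v' * (t * a * t⁻¹)
      calc t * a * t⁻¹ * v' = t * (a * v) * t⁻¹ := by rw [hv']; group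
        _ = t * (v * a) * t⁻¹ := by rw [h1]
        _ = _ := by rw [hv']; group
    have hcT' : Nat.card T' = Nat.card T :=
      Subgroup.card_map_of_injective (MulAut.conj t).injective
    have hWT : Nat.card W ≤ Nat.card T :=
      card_le_of_sylow hTK hTi (inf_le_right : W ≤ cent k) (S.isPGroup'.to_le inf_le_left)
        (card_cent_eq D.h D.hk D.hkz (D.hrN v hvP) hvz)
    have hWD : Nat.card W ≤ Nat.card D' := by
      calc Nat.card W ≤ Nat.card T := hWT
        _ = Nat.card T' := hcT'.symm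
        _ ≤ Nat.card D' := Subgroup.card_le_of_le hT'D
    have h1 := card_mul_le hBS (inf_le_left : D' ≤ S)
    have h2 : Nat.card (S : Subgroup G) * Nat.card ↥(B ⊓ center G) <
        Nat.card (S : Subgroup G) * Nat.card ↥(B ⊓ D') :=
      calc _ < Nat.card B * Nat.card W := hlt
        _ ≤ Nat.card B * Nat.card D' := Nat.mul_le_mul_left _ hWD
        _ ≤ _ := h1
    obtain ⟨x, hxB, hxD, hxz⟩ := hex D' (Nat.lt_of_mul_lt_mul_left h2)
    have hxA := hBA hxB
    have hcx : cent x = cent k := D.cent_eq hxA.2 hxA.1 hxz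
    have hv'k : v' ∈ cent k := by
      rw [← hcx, mem_cent_iff]
      exact (mem_cent_iff.mp hxD.2).symm
    have hcv' : cent v' = cent k := D.cent_eq (D.hrN v' hv'P) hv'k hv'z
    refine ⟨t⁻¹, ?_⟩
    rw [inv_inv]
    refine Subgroup.mem_inf.mpr ⟨?_, hNn.conj_mem u hu t⟩
    rw [← hcv', mem_cent_iff]
    have h3 : u ∈ cent v := by
      rw [← hcv]
      exact mem_cent_iff.mpr rfl
    have h4 := mem_cent_iff.mp h3
    calc t * u * t⁻¹ * v' = t * (u * v) * t⁻¹ := by rw [hv']; group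
      _ = t * (v * u) * t⁻¹ := by rw [h4]
      _ = _ := by rw [hv']; group
  have hSNW : (((S : Subgroup G) ⊓ N) ⊓ W : Subgroup G) = B := by
    ext x
    simp only [Subgroup.mem_inf, hB, hW]
    tauto
  have hfus : ∀ h ∈ normalizer ((((S : Subgroup G) ⊓ N : Subgroup G)) : Set G), ∀ a ∈ A, h * a * h⁻¹ ∈ A := by
    intro h hh a ha
    let B' : Subgroup G := B.map (MulAut.conj h).toMonoidHom
    have hBle : B ≤ (S : Subgroup G) ⊓ N := fun b hb => Subgroup.mem_inf.mpr ⟨hBS hb, hb.2⟩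
    have hB'le : B' ≤ (S : Subgroup G) ⊓ N := by
      rintro _ ⟨b, hb, rfl⟩
      exact (Subgroup.mem_normalizer_iff.mp hh b).mp (hBle hb)
    have h1 := card_mul_le hBle hB'le
    have h2 := card_mul_le (inf_le_left : (S : Subgroup G) ⊓ N ≤ S) hWS
    rw [hSNW] at h2
    have hcB' : Nat.card B' = Nat.card B := Subgroup.card_map_of_injective (MulAut.conj h).injective
    rw [hcB'] at h1
    have h3 : Nat.card ↥(B ⊓ center G) < Nat.card ↥(B ⊓ B') := by
      by_contra hge
      push Not at hge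
      have hBpos : 0 < Nat.card B := Nat.card_pos
      have h4 : Nat.card B * (Nat.card B * Nat.card W) ≤
          Nat.card B * (Nat.card (S : Subgroup G) * Nat.card ↥(B ⊓ center G)) := by
        calc Nat.card B * (Nat.card B * Nat.card W) = (Nat.card B * Nat.card B) * Nat.card W := by ring
          _ ≤ (Nat.card ↥((S : Subgroup G) ⊓ N) * Nat.card ↥(B ⊓ B')) * Nat.card W :=
              Nat.mul_le_mul_right _ h1
          _ ≤ (Nat.card ↥((S : Subgroup G) ⊓ N) * Nat.card ↥(B ⊓ center G)) * Nat.card W := by gcongr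
          _ = (Nat.card ↥((S : Subgroup G) ⊓ N) * Nat.card W) * Nat.card ↥(B ⊓ center G) := by ring
          _ ≤ (Nat.card (S : Subgroup G) * Nat.card B) * Nat.card ↥(B ⊓ center G) :=
              Nat.mul_le_mul_right _ h2
          _ = _ := by ring
      exact absurd (Nat.le_of_mul_le_mul_left h4 hBpos) (not_le.mpr hlt)
    obtain ⟨x, hxB, ⟨x₀, hx₀, rfl⟩, hxz⟩ := hex B' h3
    have hxA := hBA hxB
    have hx₀A := hBA hx₀
    have hx₀z : x₀ ∉ center G := by
      intro hc
      apply hxz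
      have h5 : (MulAut.conj h).toMonoidHom x₀ = x₀ := by
        show h * x₀ * h⁻¹ = x₀
        rw [(mem_center_iff.mp hc h)]
        group
      rw [h5]
      exact hc
    have h5 := D.cent_eq hxA.2 hxA.1 hxz
    have h6 := D.cent_eq hx₀A.2 hx₀A.1 hx₀z
    refine Subgroup.mem_inf.mpr ⟨?_, hNn.conj_mem a ha.2 h⟩
    rw [← h5, mem_cent_iff]
    have h7 : a ∈ cent x₀ := by
      rw [h6]
      exact ha.1
    have h8 := mem_cent_iff.mp h7
    show h * a * h⁻¹ * (h * x₀ * h⁻¹) = (h * x₀ * h⁻¹) * (h * a * h⁻¹)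
    calc h * a * h⁻¹ * (h * x₀ * h⁻¹) = h * (a * x₀) * h⁻¹ := by group
      _ = h * (x₀ * a) * h⁻¹ := by rw [h8]
      _ = _ := by group
  -- Frattini
  have hSNp : IsPGroup s ((S : Subgroup G).subgroupOf N) := by
    intro x
    obtain ⟨j, hj⟩ := S.isPGroup' ⟨(x : G), mem_subgroupOf.mp x.2⟩
    refine ⟨j, ?_⟩
    apply Subtype.ext
    apply Subtype.ext
    simpa using congrArg (fun z : (S : Subgroup G) => (z : G)) hj
  have hSNi : ¬ s ∣ ((S : Subgroup G).subgroupOf N).index := fun hd =>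
    S.not_dvd_index (hd.trans (Cfsg.Agent.Lib.Char.ClassGraph.relIndex_dvd_index_normal N (S : Subgroup G)))
  let S₁ : Sylow s N := hSNp.toSylow hSNi
  have hsup : N ⊔ normalizer ((((S : Subgroup G) ⊓ N : Subgroup G)) : Set G) = ⊤ := by
    have h1 := Sylow.normalizer_sup_eq_top S₁
    have h2 : ((S₁ : Subgroup N).map N.subtype) = (S : Subgroup G) ⊓ N :=
      Subgroup.subgroupOf_map_subtype _ _
    rw [sup_comm, ← h2]
    exact h1
  -- Jordan
  have htop : (cent k).subgroupOf N = ⊤ := by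
    by_contra hne
    have h1 := ncard_conjUnion_lt _ hne
    have h2 : conjUnion ((cent k).subgroupOf N) = Set.univ := by
      ext u
      simp only [Set.mem_univ, iff_true]
      obtain ⟨g, hg⟩ := hcov u u.2
      have hgm : g ∈ N ⊔ normalizer ((((S : Subgroup G) ⊓ N : Subgroup G)) : Set G) := by
        rw [hsup]
        trivial
      rw [← SetLike.mem_coe, Subgroup.normal_mul, Set.mem_mul] at hgm
      obtain ⟨n, hn, h', hh', rfl⟩ := hgm
      refine ⟨⟨n, hn⟩, ?_⟩
      rw [Subgroup.mem_subgroupOf]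
      have h3 := hfus h' hh' _ hg
      have h4 : h' * ((n * h')⁻¹ * (u : G) * (n * h')) * h'⁻¹ = n⁻¹ * u * n := by group
      rw [h4] at h3
      exact h3.1
    rw [h2, Set.ncard_univ] at h1
    exact lt_irrefl _ h1
  have hNC : N ≤ cent k := by
    intro u hu
    have : (⟨u, hu⟩ : N) ∈ (cent k).subgroupOf N := by rw [htop]; trivial
    exact Subgroup.mem_subgroupOf.mp this
  obtain ⟨R'⟩ : Nonempty (Sylow r G) := inferInstance
  have hR'N : (R' : Subgroup G) ≤ cent y := by
    intro u hu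
    rw [D.cent_y]
    apply hNC
    apply D.hrN
    exact PE.of_mem R'.isPGroup' hu
  have hd : (cent y).index ∣ (R' : Subgroup G).index := Subgroup.index_dvd_of_le hR'N
  have hcy : (cent y).index = m := cc_eq D.h D.hyN D.hyz
  rw [hcy] at hd
  exact R'.not_dvd_index (D.hrm.trans hd)

/-- The final chain of inequalities. -/
theorem Cx.false [hNn : N.Normal] (D : Cx N m r q k y) [hrF : Fact r.Prime] [hqF : Fact q.Prime]
    (Q : Sylow q G) (hkQ : k ∈ (Q : Subgroup G))
    (hs : ∀ u ∈ (Q : Subgroup G), u * k * u⁻¹ * k⁻¹ ∈ center G) : False := by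
  classical
  set C := cent k with hC
  -- `Q` normalises `C`
  have hQC : ∀ u ∈ (Q : Subgroup G), ∀ c ∈ C, u * c * u⁻¹ ∈ C := by
    intro u hu c hc
    have hz := hs u⁻¹ (inv_mem hu)
    rw [inv_inv] at hz
    set z₁ := u⁻¹ * k * u * k⁻¹ with hz₁
    have h1 : u⁻¹ * k * u = z₁ * k := by rw [hz₁]; group
    have h2 : c * z₁ = z₁ * c := (Subgroup.mem_center_iff.mp hz c)
    have h3 : c * k = k * c := mem_cent_iff.mp hc
    apply mem_cent_iff.mpr
    calc u * c * u⁻¹ * k = u * c * (u⁻¹ * k * u) * u⁻¹ := by group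
      _ = u * c * (z₁ * k) * u⁻¹ := by rw [h1]
      _ = u * (c * z₁) * k * u⁻¹ := by group
      _ = u * (z₁ * c) * k * u⁻¹ := by rw [h2]
      _ = u * z₁ * (c * k) * u⁻¹ := by group
      _ = u * z₁ * (k * c) * u⁻¹ := by rw [h3]
      _ = u * (z₁ * k) * c * u⁻¹ := by group
      _ = u * (u⁻¹ * k * u) * c * u⁻¹ := by rw [h1]
      _ = k * (u * c * u⁻¹) := by group
  -- groups of primary elements
  have hclos : ∀ (s : ℕ), IsPGroup s (closure {a : G | a ∈ C ∧ a ∈ N ∧ PE s a}) := by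
    intro s
    apply isPGroup_closure_of_commute
    · rintro a ⟨ha1, ha2, -⟩ b ⟨hb1, -, -⟩
      exact D.comm_A ha2 ha1 hb1
    · rintro a ⟨-, -, i, hi⟩
      exact ⟨i, by rw [← hi, pow_orderOf_eq_one]⟩
  -- `q`-elements of `A` lie in `Q`
  have hqA : ∀ a ∈ C, a ∈ N → PE q a → a ∈ (Q : Subgroup G) := by
    intro a ha1 ha2 ha3
    set K := closure {a : G | a ∈ C ∧ a ∈ N ∧ PE q a} with hK
    have hQK : (Q : Subgroup G) ≤ normalizer (K : Set G) := by
      intro u hu
      apply mem_normalizer_of_conj_le'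
      intro w hw
      induction hw using closure_induction with
      | mem x hx =>
        exact subset_closure ⟨hQC u hu x hx.1, hNn.conj_mem x hx.2.1 u, hx.2.2.conj u⟩
      | one => simp [one_mem]
      | mul x y _ _ hx hy =>
        have : u * (x * y) * u⁻¹ = (u * x * u⁻¹) * (u * y * u⁻¹) := by group
        rw [this]
        exact mul_mem hx hy
      | inv x _ hx =>
        have : u * x⁻¹ * u⁻¹ = (u * x * u⁻¹)⁻¹ := by group
        rw [this]
        exact inv_mem hx
    have h1 := Q.is_maximal' (Q.isPGroup'.to_sup_of_normal_right' (hclos q) hQK) le_sup_left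
    have h2 : K ≤ (Q : Subgroup G) := by
      have h3 : K ≤ (Q : Subgroup G) ⊔ K := le_sup_right
      rwa [h1] at h3
    exact h2 (subset_closure ⟨ha1, ha2, ha3⟩)
  obtain ⟨R₁, hR₁⟩ := (hclos r).exists_le_sylow
  have hrA : ∀ a ∈ C, PE r a → a ∈ (R₁ : Subgroup G) := fun a ha1 ha3 =>
    hR₁ (subset_closure ⟨ha1, D.hrN a ha3, ha3⟩)
  have hR₁N : (R₁ : Subgroup G) ≤ N := fun u hu => D.hrN u (PE.of_mem R₁.isPGroup' hu)
  set T := (R₁ : Subgroup G) ⊓ C ⊓ N with hT
  have hTeq : (R₁ : Subgroup G) ⊓ C = T := by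
    rw [hT]
    exact (inf_eq_left.mpr (inf_le_left.trans hR₁N)).symm
  have hTp : IsPGroup r T := R₁.isPGroup'.to_le (inf_le_left.trans inf_le_left)
  have hTm : ∀ v ∈ C, PE r v → v ∈ T := fun v hv hP =>
    Subgroup.mem_inf.mpr ⟨Subgroup.mem_inf.mpr ⟨hrA v hv hP, hv⟩, D.hrN v hP⟩
  have hyC : y ∈ C := D.hyk
  have hyT : y ∈ T := hTm y hyC D.hyr
  set Aq := (Q : Subgroup G) ⊓ C ⊓ N with hAq
  have hAqp : IsPGroup q Aq := Q.isPGroup'.to_le (inf_le_left.trans inf_le_left)
  have hAqm : ∀ a ∈ C, a ∈ N → PE q a → a ∈ Aq := fun a h1 h2 h3 =>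
    Subgroup.mem_inf.mpr ⟨Subgroup.mem_inf.mpr ⟨hqA a h1 h2 h3, h1⟩, h2⟩
  have hkC : k ∈ C := mem_cent_iff.mpr rfl
  have hkAq : k ∈ Aq := hAqm k hkC D.hk D.hkq
  set E := (R₁ : Subgroup G) ⊓ normalizer (T : Set G) with hE
  have hEp : IsPGroup r E := R₁.isPGroup'.to_le inf_le_left
  have hEC : ∀ u ∈ E, ∀ c ∈ C, u * c * u⁻¹ ∈ C := by
    intro u hu c hc
    have h1 : u * y * u⁻¹ ∈ T := (Subgroup.mem_normalizer_iff.mp hu.2 y).mp hyT
    have h2 := D.cent_eq (h1.2) (h1.1.2) (conj_not_mem_center D.hyz)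
    show u * c * u⁻¹ ∈ cent k
    rw [← h2, mem_cent_iff]
    have h3 : c ∈ cent y := by
      rw [D.cent_y]
      exact hc
    have h4 := mem_cent_iff.mp h3
    calc u * c * u⁻¹ * (u * y * u⁻¹) = u * (c * y) * u⁻¹ := by group
      _ = u * (y * c) * u⁻¹ := by rw [h4]
      _ = _ := by group
  have hEAq : ∀ u ∈ E, ∀ a ∈ Aq, u * a * u⁻¹ ∈ Aq := fun u hu a ha =>
    hAqm _ (hEC u hu a ha.1.2) (hNn.conj_mem a ha.2 u) ((PE.of_mem hAqp ha).conj u)
  have hQT : ∀ u ∈ (Q : Subgroup G), ∀ a ∈ T, u * a * u⁻¹ ∈ T := fun u hu a ha =>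
    hTm _ (hQC u hu a ha.1.2) ((PE.of_mem hTp ha).conj u)
  have hrq := D.hrq
  -- the four inequalities
  have ha := count_orbit hrq E Aq hEp hAqp hEAq hkAq D.hkz
  have hc := count_orbit hrq.symm (Q : Subgroup G) T Q.isPGroup' hTp hQT hyT D.hyz
  rw [D.cent_y] at hc
  have hb := D.lemB Q
  -- `T = C ⊓ E`
  have hTE : cent k ⊓ E = T := by
    apply le_antisymm
    · intro x hx
      rw [← hTeq]
      exact Subgroup.mem_inf.mpr ⟨hx.2.1, hx.1⟩
    · intro x hx
      refine Subgroup.mem_inf.mpr ⟨hx.1.2, Subgroup.mem_inf.mpr ⟨hx.1.1, Subgroup.le_normalizer hx⟩⟩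
  have hcE : Nat.card T * (cent k).relIndex E = Nat.card E := by
    rw [← hTE, ← Subgroup.inf_relIndex_right (cent k) E]
    exact card_mul_relIndex inf_le_right
  have hcQ : Nat.card ↥((Q : Subgroup G) ⊓ C) * (cent k).relIndex (Q : Subgroup G) = Nat.card (Q : Subgroup G) := by
    rw [← Subgroup.inf_relIndex_right (cent k) (Q : Subgroup G), inf_comm (cent k)]
    have h1 := card_mul_relIndex (inf_le_left : (Q : Subgroup G) ⊓ cent k ≤ (Q : Subgroup G))
    exact h1
  have hd : Nat.card T * Nat.card T ≤ Nat.card E * Nat.card ↥(T ⊓ center G) := by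
    by_cases hER : (R₁ : Subgroup G) ≤ normalizer (T : Set G)
    · have h1 := D.lemB R₁
      have hE1 : E = (R₁ : Subgroup G) := inf_eq_left.mpr hER
      rw [hE1]
      have h2 := hTeq
      rw [hC] at h2
      rw [h2] at h1
      have h3 : (T ⊓ N : Subgroup G) = T := inf_eq_left.mpr inf_le_right
      rw [h3] at h1
      exact h1
    · -- a conjugate of `T` inside `E`
      let E' : Subgroup (R₁ : Subgroup G) := E.subgroupOf (R₁ : Subgroup G)
      haveI hnil : Group.IsNilpotent (R₁ : Subgroup G) := R₁.isPGroup'.isNilpotent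
      have hE'ne : E' ≠ ⊤ := by
        intro htop
        apply hER
        intro u hu
        have : (⟨u, hu⟩ : (R₁ : Subgroup G)) ∈ E' := by rw [htop]; trivial
        exact (Subgroup.mem_subgroupOf.mp this).2
      have hlt : E' < normalizer (E' : Set (R₁ : Subgroup G)) :=
        normalizerCondition_of_isNilpotent E' (lt_top_iff_ne_top.mpr hE'ne)
      obtain ⟨u', hu'N, hu'E⟩ := SetLike.exists_of_lt hlt
      set u : G := (u' : G) with hu
      have hconjE : ∀ a ∈ E, u * a * u⁻¹ ∈ E := by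
        intro a ha
        have haR : a ∈ (R₁ : Subgroup G) := ha.1
        have h1 : (⟨a, haR⟩ : (R₁ : Subgroup G)) ∈ E' := Subgroup.mem_subgroupOf.mpr ha
        have h2 := (Subgroup.mem_normalizer_iff.mp hu'N _).mp h1
        exact Subgroup.mem_subgroupOf.mp h2
      let T' : Subgroup G := T.map (MulAut.conj u).toMonoidHom
      have hTE' : T ≤ E := by
        intro x hx
        exact Subgroup.mem_inf.mpr ⟨hx.1.1, Subgroup.le_normalizer hx⟩
      have hT'E : T' ≤ E := by
        rintro _ ⟨a, ha, rfl⟩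
        exact hconjE a (hTE' ha)
      have hcT' : Nat.card T' = Nat.card T :=
        Subgroup.card_map_of_injective (MulAut.conj u).injective
      have h1 := card_mul_le hTE' hT'E
      rw [hcT'] at h1
      have hint : T ⊓ T' ≤ T ⊓ center G := by
        intro t₀ ht₀
        refine Subgroup.mem_inf.mpr ⟨ht₀.1, ?_⟩
        by_contra hz
        obtain ⟨a, ha, hat⟩ := ht₀.2
        have hat' : u * a * u⁻¹ = t₀ := hat
        have haz : a ∉ center G := fun hc => hz (by
          rw [← hat']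
          rw [(mem_center_iff.mp hc u)]
          simpa using hc)
        have h2 := D.cent_eq ht₀.1.2 ht₀.1.1.2 hz
        have h3 := D.cent_eq ha.2 ha.1.2 haz
        apply hu'E
        rw [Subgroup.mem_subgroupOf]
        refine Subgroup.mem_inf.mpr ⟨u'.2, ?_⟩
        apply mem_normalizer_of_conj_le'
        intro v hv
        apply hTm _ _ ((PE.of_mem hTp hv).conj u)
        show u * v * u⁻¹ ∈ cent k
        rw [← h2, ← hat', mem_cent_iff]
        have h4 : v ∈ cent a := by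
          rw [h3]
          exact hv.1.2
        have h5 := mem_cent_iff.mp h4
        calc u * v * u⁻¹ * (u * a * u⁻¹) = u * (v * a) * u⁻¹ := by group
          _ = u * (a * v) * u⁻¹ := by rw [h5]
          _ = _ := by group
      exact h1.trans (Nat.mul_le_mul_left _ (Subgroup.card_le_of_le hint))
  -- arithmetic
  set e := (cent k).relIndex E with he
  set μ := (cent k).relIndex (Q : Subgroup G) with hμ
  have hz'pos : 0 < Nat.card ↥(Aq ⊓ center G) := Nat.card_pos
  have hzpos : 0 < Nat.card ↥(T ⊓ center G) := Nat.card_pos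
  have htpos : 0 < Nat.card T := Nat.card_pos
  have hwpos : 0 < Nat.card ↥((Q : Subgroup G) ⊓ C) := Nat.card_pos
  have h1 : Nat.card Aq ≤ μ * Nat.card ↥(Aq ⊓ center G) := by
    rw [← hcQ] at hb
    have h2 : Nat.card ↥((Q : Subgroup G) ⊓ C) * Nat.card Aq ≤
        Nat.card ↥((Q : Subgroup G) ⊓ C) * (μ * Nat.card ↥(Aq ⊓ center G)) := by
      calc _ = Nat.card Aq * Nat.card ↥((Q : Subgroup G) ⊓ C) := by ring
        _ ≤ _ := hb
        _ = _ := by ring
    exact Nat.le_of_mul_le_mul_left h2 hwpos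
  have h2 : e + 1 ≤ μ := by
    have h3 : (e + 1) * Nat.card ↥(Aq ⊓ center G) ≤ μ * Nat.card ↥(Aq ⊓ center G) := ha.trans h1
    exact Nat.le_of_mul_le_mul_right h3 hz'pos
  have h3 : Nat.card T ≤ e * Nat.card ↥(T ⊓ center G) := by
    rw [← hcE] at hd
    have h4 : Nat.card T * Nat.card T ≤ Nat.card T * (e * Nat.card ↥(T ⊓ center G)) := by
      calc _ ≤ _ := hd
        _ = _ := by ring
    exact Nat.le_of_mul_le_mul_left h4 htpos
  have h4 : μ + 1 ≤ e := by
    have h5 : (μ + 1) * Nat.card ↥(T ⊓ center G) ≤ e * Nat.card ↥(T ⊓ center G) := hc.trans h3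
    exact Nat.le_of_mul_le_mul_right h5 hzpos
  omega

/-- An element of a normal subgroup of a Sylow subgroup, noncentral in `G`, central modulo `Z(G)`. -/
theorem exists_special_N {q : ℕ} [hq : Fact q.Prime] (Q : Sylow q G) (N : Subgroup G) [hN : N.Normal]
    {k₀ : G} (hk₀Q : k₀ ∈ (Q : Subgroup G)) (hk₀N : k₀ ∈ N) (hk₀z : k₀ ∉ center G) :
    ∃ k ∈ (Q : Subgroup G), k ∈ N ∧ k ∉ center G ∧ ∀ u ∈ (Q : Subgroup G), u * k * u⁻¹ * k⁻¹ ∈ center G := by
  let M : Subgroup (Q : Subgroup G) := (center G).subgroupOf (Q : Subgroup G)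
  haveI hMn : M.Normal := Subgroup.normal_subgroupOf
  haveI hnil : Group.IsNilpotent ((Q : Subgroup G) ⧸ M) := (Q.isPGroup'.to_quotient M).isNilpotent
  let f := QuotientGroup.mk' M
  have hf : Function.Surjective f := QuotientGroup.mk'_surjective M
  let Nb : Subgroup ((Q : Subgroup G) ⧸ M) := (N.subgroupOf (Q : Subgroup G)).map f
  haveI hNb : Nb.Normal := (Subgroup.normal_subgroupOf (H := (Q : Subgroup G)) (N := N)).map f hf
  have hne : Nb ≠ ⊥ := by
    intro hbot
    have h1 : f ⟨k₀, hk₀Q⟩ ∈ Nb := ⟨⟨k₀, hk₀Q⟩, Subgroup.mem_subgroupOf.mpr hk₀N, rfl⟩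
    rw [hbot, Subgroup.mem_bot] at h1
    have h2 := (QuotientGroup.eq_one_iff _).mp h1
    exact hk₀z (Subgroup.mem_subgroupOf.mp h2)
  have h1 := Cfsg.Agent.Lib.Basic.normal_inf_center_ne_bot Nb hne
  rcases Subgroup.bot_or_exists_ne_one (Nb ⊓ center ((Q : Subgroup G) ⧸ M)) with h2 | ⟨ξ, hξ, hξ1⟩
  · exact absurd h2 h1
  obtain ⟨⟨k₁, hk₁N, rfl⟩, hξc⟩ := hξ
  refine ⟨(k₁ : G), k₁.2, Subgroup.mem_subgroupOf.mp hk₁N, ?_, ?_⟩
  · intro hc
    apply hξ1
    exact (QuotientGroup.eq_one_iff _).mpr (Subgroup.mem_subgroupOf.mpr hc)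
  · intro u hu
    have h2 := Subgroup.mem_center_iff.mp hξc (f ⟨u, hu⟩)
    rw [← map_mul, ← map_mul] at h2
    have h3 : (k₁ * ⟨u, hu⟩)⁻¹ * (⟨u, hu⟩ * k₁) ∈ M := QuotientGroup.eq.mp h2.symm
    have h4 : ((k₁ : G) * u)⁻¹ * (u * k₁) ∈ center G := Subgroup.mem_subgroupOf.mp h3
    set z := ((k₁ : G) * u)⁻¹ * (u * k₁) with hz
    have h5 : u * k₁ = (k₁ : G) * u * z := by rw [hz]; group
    have h6 : u * (k₁ : G) * u⁻¹ * (k₁ : G)⁻¹ = z := by
      rw [h5]
      have h7 := mem_center_iff.mp h4 (u⁻¹ * (k₁ : G)⁻¹)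
      calc (k₁ : G) * u * z * u⁻¹ * (k₁ : G)⁻¹ = (k₁ : G) * u * (z * (u⁻¹ * (k₁ : G)⁻¹)) := by group
        _ = (k₁ : G) * u * ((u⁻¹ * (k₁ : G)⁻¹) * z) := by rw [h7]
        _ = z := by group
    rw [h6]
    exact h4

/-- If `r` divides `m`, the `q`-elements of `N` are central. -/
theorem central_of_ne {N : Subgroup G} [hNn : N.Normal] {m r : ℕ} [hrF : Fact r.Prime]
    (h : ∀ x ∈ N, cc x = 1 ∨ cc x = m) (hrN : ∀ v : G, PE r v → v ∈ N) (hrm : r ∣ m) {x₀ : G}
    (hx₀ : PE r x₀) (hx₀z : x₀ ∉ center G) {q : ℕ} [hqF : Fact q.Prime] (hrq : r ≠ q) {k₀ : G}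
    (hk₀N : k₀ ∈ N) (hk₀q : PE q k₀) : k₀ ∈ center G := by
  by_contra hk₀z
  have hz : IsPGroup q (zpowers k₀) := Cfsg.Agent.Lib.PGroups.isPGroup_zpowers_iff.mpr hk₀q
  obtain ⟨Q, hQ⟩ := hz.exists_le_sylow
  obtain ⟨k, hkQ, hkN, hkz, hs⟩ := exists_special_N Q N (hQ (mem_zpowers k₀)) hk₀N hk₀z
  obtain ⟨y, hyk, hyP, hyz⟩ := exists_nc h hrN hx₀ hx₀z hkN hkz
  have D : Cx N m r q k y :=
    { h := h
      hr := hrF.out
      hq := hqF.out
      hrq := hrq
      hrN := hrN
      hrm := hrm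
      hk := hkN
      hkz := hkz
      hkq := PE.of_mem Q.isPGroup' hkQ
      hyz := hyz
      hyr := hyP
      hyk := hyk }
  exact D.false Q hkQ hs

/-- A normal subgroup containing a noncentral Sylow `r`-subgroup, with class sizes `1` or `m`. -/
theorem nilpotent_main {N : Subgroup G} [hNn : N.Normal] {m r : ℕ} [hrF : Fact r.Prime]
    (R : Sylow r G) (hR : ¬ (R : Subgroup G) ≤ center G) (hRN : (R : Subgroup G) ≤ N)
    (h : ∀ x ∈ N, cc x = 1 ∨ cc x = m) : Group.IsNilpotent N := by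
  classical
  have hrN : ∀ v : G, PE r v → v ∈ N := by
    rintro v ⟨i, hi⟩
    obtain ⟨t, ht⟩ := exists_conj_mem_of_not_dvd (R : Subgroup G) hi R.not_dvd_index
    have h1 := hNn.conj_mem _ (hRN ht) t⁻¹
    have h2 : t⁻¹ * (t * v * t⁻¹) * t⁻¹⁻¹ = v := by group
    rwa [h2] at h1
  obtain ⟨x₀, hx₀R, hx₀z⟩ : ∃ x ∈ (R : Subgroup G), x ∉ center G := by
    by_contra hno
    push Not at hno
    exact hR hno
  have hx₀P : PE r x₀ := PE.of_mem R.isPGroup' hx₀R
  have hq : IsPGroup r (N ⧸ center N) := by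
    intro ξ
    obtain ⟨g, rfl⟩ := QuotientGroup.mk_surjective ξ
    by_cases hrm : r ∣ m
    · obtain ⟨u, v, huv, -, hv, hup, hvc, hc⟩ :=
        Cfsg.Agent.Lib.LocalEven.exists_p_decomp (p := r) (g : G) (isOfFinOrder_of_finite _)
      have hvN : v ∈ N := (zpowers_le.mpr g.2) hv
      have hvZ : v ∈ center G := by
        apply mem_of_primary_powers
        intro a ha hpp
        obtain ⟨t, j, ht, hj, hoa⟩ := hpp
        have ht' : t.Prime := Nat.prime_iff.mpr ht
        haveI : Fact t.Prime := ⟨ht'⟩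
        have haN : a ∈ N := (zpowers_le.mpr hvN) ha
        have hrt : r ≠ t := by
          rintro rfl
          have h1 : orderOf a ∣ orderOf v := orderOf_dvd_of_mem_zpowers ha
          have h2 : r ∣ orderOf a := by
            rw [← hoa]
            exact dvd_pow_self r hj.ne'
          exact hrF.out.one_lt.ne' (Nat.eq_one_of_dvd_coprimes hvc (h2.trans h1) (dvd_refl r))
        exact central_of_ne h hrN hrm hx₀P hx₀z hrt haN ⟨j, hoa.symm⟩
      obtain ⟨i, hi⟩ := hup
      refine ⟨i, ?_⟩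
      rw [← QuotientGroup.mk_pow, QuotientGroup.eq_one_iff, Subgroup.mem_center_iff]
      intro n
      apply Subtype.ext
      have h1 : ((g ^ r ^ i : N) : G) = v ^ r ^ i := by
        rw [Subgroup.coe_pow, huv, hc.mul_pow, ← hi, pow_orderOf_eq_one, one_mul]
      show (n : G) * ((g ^ r ^ i : N) : G) = ((g ^ r ^ i : N) : G) * n
      rw [h1]
      exact (mem_center_iff.mp (pow_mem hvZ _) n)
    · -- `N` is abelian
      have hrelt : ∀ v : G, PE r v → ∀ u ∈ N, u * v = v * u := by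
        rintro v ⟨i, hi⟩ u hu
        have hz : IsPGroup r (zpowers v) := Cfsg.Agent.Lib.PGroups.isPGroup_zpowers_iff.mpr ⟨i, hi⟩
        obtain ⟨R', hR'⟩ := hz.exists_le_sylow
        have hR'N : (R' : Subgroup G) ≤ N := fun w hw => hrN w (PE.of_mem R'.isPGroup' hw)
        have h1 := central_of_not_dvd_N h hrm (R'.subtype hR'N) ⟨v, hrN v ⟨i, hi⟩⟩
          (by
            rw [Sylow.coe_subtype, Subgroup.mem_subgroupOf]
            exact hR' (mem_zpowers v)) ⟨u, hu⟩
        have h2 := congrArg Subtype.val h1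
        exact h2.symm
      have hcomm : ∀ a ∈ N, a ∈ centralizer (N : Set G) := by
        intro a ha
        apply mem_of_primary_powers
        intro a₀ ha₀ hpp
        obtain ⟨t, j, ht, hj, hoa⟩ := hpp
        have ht' : t.Prime := Nat.prime_iff.mpr ht
        have ha₀N : a₀ ∈ N := (zpowers_le.mpr ha) ha₀
        rw [mem_centralizer_iff]
        intro u hu
        by_cases htr : t = r
        · subst htr
          exact hrelt a₀ ⟨j, hoa.symm⟩ u hu
        by_cases hz : a₀ ∈ center G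
        · exact mem_center_iff.mp hz u
        have h1 : cent a₀ = cent x₀ := cent_eq_of_coprime h ha₀N hz (hrN x₀ hx₀P) hx₀z
          (hrelt x₀ hx₀P a₀ ha₀N) (coprime_of_PE ht' hrF.out htr ⟨j, hoa.symm⟩ hx₀P)
        have h2 : u ∈ cent x₀ := mem_cent_iff.mpr (hrelt x₀ hx₀P u hu)
        rw [← h1] at h2
        exact mem_cent_iff.mp h2
      refine ⟨0, ?_⟩
      rw [pow_zero, pow_one, QuotientGroup.eq_one_iff, Subgroup.mem_center_iff]
      intro n
      apply Subtype.ext
      exact (mem_centralizer_iff.mp (hcomm g g.2) n n.2)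
  exact of_quotient_center_nilpotent hq.isNilpotent

end Cfsg.Agent.Lib.Char.NormTwo
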