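import Mathlib
import Cfsg.Prelude.Def_Characters
import Cfsg.Agent.Lib.Char.Gallagher
import Cfsg.Agent.Lib.Char.CliffordBij
import Cfsg.Agent.Lib.Char.Galois
import Cfsg.Agent.Lib.Char.Triple
import Cfsg.Agent.Lib.Char.IndNormal

/-!
# Characters fixed by a Galois automorphism inverting odd roots of unity (odd index)

`N ⊴ G` of odd index, `g ^ k = g⁻¹` for all elements of odd order.  Then every `k`-fixed
irreducible character of `N` lies under a unique `k`-fixed irreducible character of `G`.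
-/

set_option autoImplicit false

namespace Cfsg.Agent.Lib.Char.OddExt

open Cfsg Cfsg.Agent.Lib.Char
open scoped ComplexConjugate

universe u

/-- The hypotheses on the exponent `k`. -/
def GalOK (G : Type u) [Group G] (k : ℕ) : Prop :=
  Nat.Coprime k (Nat.card G) ∧ ∀ g : G, Odd (orderOf g) → g ^ k = g⁻¹

theorem GalOK.sub {G : Type u} [Group G] [Finite G] {k : ℕ} (h : GalOK G k) (H : Subgroup G) :
    GalOK H k := by
  refine ⟨Nat.Coprime.coprime_dvd_right (Subgroup.card_subgroup_dvd_card H) h.1, fun g hg => ?_⟩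
  apply Subtype.ext
  have h2 : orderOf (g : G) = orderOf g := Subgroup.orderOf_coe g
  have := h.2 (g : G) (by rwa [h2])
  simpa using this

section Quot

variable {G : Type u} [Group G] [Finite G]

theorem quot_pow (N : Subgroup G) [N.Normal] (hodd : Odd N.index) {k : ℕ} (h : GalOK G k)
    (x : G ⧸ N) : x ^ k = x⁻¹ := by
  obtain ⟨g, rfl⟩ := QuotientGroup.mk_surjective x
  set d := orderOf (g : G ⧸ N) with hd
  have hdodd : Odd d := by
    have h1 : d ∣ Nat.card (G ⧸ N) := orderOf_dvd_natCard _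
    rw [← Subgroup.index_eq_card] at h1
    exact Odd.of_dvd_nat hodd h1
  by_cases hd1 : d = 1
  · rw [hd, orderOf_eq_one_iff] at hd1
    rw [hd1]
    simp
  have hd2 : 1 < d := by
    have := hdodd.pos
    omega
  have ho : orderOf g ≠ 0 := (orderOf_pos g).ne'
  obtain ⟨a, m, hm, hnm⟩ := Nat.exists_eq_pow_mul_and_not_dvd ho 2 (by norm_num)
  have hcop : Nat.Coprime (2 ^ a) d :=
    Nat.Coprime.pow_left a ((Nat.coprime_two_left).2 hdodd)
  obtain ⟨u, -, hu⟩ := Nat.exists_mul_mod_eq_one_of_coprime hcop hd2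
  have hy : (g ^ (2 ^ a * u)) ^ m = 1 := by
    rw [← pow_mul, show 2 ^ a * u * m = orderOf g * u by rw [hnm]; ring, pow_mul, pow_orderOf_eq_one,
      one_pow]
  have hdm : orderOf (g ^ (2 ^ a * u)) ∣ m := orderOf_dvd_of_pow_eq_one hy
  have hmodd : Odd m := by
    rcases Nat.even_or_odd m with he | ho'
    · exact absurd he.two_dvd hm
    · exact ho'
  have hodd2 : Odd (orderOf (g ^ (2 ^ a * u))) := Odd.of_dvd_nat hmodd hdm
  have h3 := h.2 _ hodd2
  have h4 : ((g ^ (2 ^ a * u) : G) : G ⧸ N) = (g : G ⧸ N) := by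
    rw [QuotientGroup.mk_pow, ← pow_mod_orderOf, ← hd, hu, pow_one]
  have h5 := congrArg (fun z : G => (z : G ⧸ N)) h3
  simp only [QuotientGroup.mk_pow, QuotientGroup.mk_inv] at h5
  rw [← QuotientGroup.mk_pow, h4] at h5
  exact h5

end Quot

section Main

variable {G : Type u} [Group G] [Fintype G]

/-- Fixing an extension by a linear twist. -/
theorem exists_fixed_ext (N : Subgroup G) [N.Normal] [Fintype N] (hodd : Odd N.index) {k : ℕ}
    (hgal : GalOK G k) {χ₁ : G → ℂ} (hχ₁ : IsIrrCharacter G χ₁)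
    (hθ : IsIrrCharacter N (resFun N χ₁)) (hfix : ∀ n : N, χ₁ ((n : G) ^ k) = χ₁ n) :
    ∃ χ : G → ℂ, IsIrrCharacter G χ ∧ (∀ n : N, χ n = χ₁ n) ∧ ∀ g, χ (g ^ k) = χ g := by
  classical
  letI : Fintype (G ⧸ N) := Fintype.ofFinite _
  have hχ₂ : IsIrrCharacter G (fun g => χ₁ (g ^ k)) := isIrrCharacter_pow hχ₁ hgal.1
  have hres : resFun N (fun g => χ₁ (g ^ k)) = resFun N χ₁ := by
    funext n
    exact hfix n
  have hover : classInner (resFun N (fun g => χ₁ (g ^ k))) (resFun N χ₁) ≠ 0 := by
    rw [hres, classInner_irr_self hθ]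
    exact one_ne_zero
  obtain ⟨β₀, hβ₀, heq⟩ := exists_gallagher N (IsIrrCharacter.isCharacter hχ₁) hθ hχ₂ hover
  have hone : β₀ 1 = 1 := by
    have h1 := congrFun heq 1
    simp only [one_pow] at h1
    have h2 : χ₁ 1 ≠ 0 := IsIrrCharacter.apply_one_ne_zero hχ₁
    have h3 : inflate N β₀ 1 = β₀ 1 := rfl
    rw [h3] at h1
    have h4 : (β₀ 1 - 1) * χ₁ 1 = 0 := by
      rw [sub_mul, ← h1]
      ring
    rcases mul_eq_zero.1 h4 with h5 | h5
    · exact sub_eq_zero.1 h5
    · exact absurd h5 h2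
  obtain ⟨lam, hlam⟩ := IsCharacter.exists_monoidHom (IsIrrCharacter.isCharacter hβ₀) hone
  have hlamv : ∀ x, β₀ x = (lam x : ℂ) := fun x => congrFun hlam x
  obtain ⟨c, hc⟩ := hodd
  let lam' : G ⧸ N →* ℂˣ := lam ^ (c + 1)
  have hsq : ∀ x, (lam' x)⁻¹ * lam x = lam' x := by
    intro x
    have h1 : lam x ^ (2 * c + 1) = 1 := by
      rw [← map_pow, ← hc, Subgroup.index_eq_card, pow_card_eq_one', map_one]
    have h2 : lam' x = lam x ^ (c + 1) := rfl
    rw [inv_mul_eq_iff_eq_mul, h2, ← pow_add]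
    rw [show c + 1 + (c + 1) = (2 * c + 1) + 1 by ring, pow_succ, h1, one_mul]
  refine ⟨fun g => inflate N (fun x => (lam' x : ℂ)) g * χ₁ g, ?_, ?_, ?_⟩
  · exact isIrrCharacter_gallagher N (IsIrrCharacter.isCharacter hχ₁) hθ
      (isIrrCharacter_of_monoidHom lam')
  · intro n
    have h1 : ((n : G) : G ⧸ N) = 1 := (QuotientGroup.eq_one_iff (n : G)).mpr n.2
    simp only [inflate, h1, map_one, Units.val_one, one_mul]
  · intro g
    have h1 : χ₁ (g ^ k) = inflate N β₀ g * χ₁ g := congrFun heq g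
    change inflate N (fun x => (lam' x : ℂ)) (g ^ k) * χ₁ (g ^ k) =
      inflate N (fun x => (lam' x : ℂ)) g * χ₁ g
    rw [h1]
    simp only [inflate, hlamv]
    rw [QuotientGroup.mk_pow, quot_pow N ⟨c, hc⟩ hgal, map_inv, ← mul_assoc]
    congr 1
    rw [← Units.val_mul, hsq]

/-- Uniqueness of the fixed character over an extendible character. -/
theorem eq_of_fixed (N : Subgroup G) [N.Normal] [Fintype N] (hodd : Odd N.index) {k : ℕ}
    (hgal : GalOK G k) {χ₀ : G → ℂ} (hχ₀ : IsCharacter G χ₀)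
    (hθ : IsIrrCharacter N (resFun N χ₀)) (hfix₀ : ∀ g, χ₀ (g ^ k) = χ₀ g) {χ' : G → ℂ}
    (hχ' : IsIrrCharacter G χ') (hover : classInner (resFun N χ') (resFun N χ₀) ≠ 0)
    (hfix' : ∀ g, χ' (g ^ k) = χ' g) : χ' = χ₀ := by
  classical
  letI : Fintype (G ⧸ N) := Fintype.ofFinite _
  obtain ⟨β, hβ, heq⟩ := exists_gallagher N hχ₀ hθ hχ' hover
  have hβc := IsIrrCharacter.isCharacter hβ
  have h1 : (fun g => inflate N (fun x => conj (β x)) g * χ₀ g) = χ' := by
    funext g
    rw [← hfix' g, heq]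
    simp only [inflate]
    rw [QuotientGroup.mk_pow, quot_pow N hodd hgal, hfix₀, IsCharacter.apply_inv hβc]
  have h3 := classInner_gallagher N hχ₀ hθ (fun x => conj (β x)) β
  rw [h1, ← heq, classInner_irr_self hχ'] at h3
  have hconj : IsIrrCharacter (G ⧸ N) (fun x => conj (β x)) := IsIrrCharacter.conj hβ
  have h5 : (fun x => conj (β x)) = β := by
    by_contra hne
    rw [classInner_irr_of_ne hconj hβ hne] at h3
    exact one_ne_zero h3
  have hcard : Odd (Nat.card (G ⧸ N)) := by
    rw [← Subgroup.index_eq_card]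
    exact hodd
  have h6 : β = fun _ => 1 := by
    apply eq_one_of_real_of_odd hcard hβ
    intro x
    exact Complex.conj_eq_iff_im.mp (congrFun h5 x)
  rw [heq, h6]
  funext g
  simp [inflate]


/-- Extension along a `p`-group quotient. -/
theorem ext_pgroup (p : ℕ) [hp : Fact p.Prime] (k : ℕ) : ∀ (n : ℕ) (G : Type u) [Group G] [Fintype G]
    (N : Subgroup G) [hN : N.Normal] (θ : N → ℂ), N.index = p ^ n → Odd N.index → GalOK G k →
    IsIrrCharacter N θ →
    (∀ (g : G) (x : N), θ ⟨g * x * g⁻¹, hN.conj_mem (x : G) x.2 g⟩ = θ x) →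
    (∀ x : N, θ (x ^ k) = θ x) →
    ∃ χ : G → ℂ, IsIrrCharacter G χ ∧ (∀ x : N, χ x = θ x) ∧ ∀ g, χ (g ^ k) = χ g := by
  intro n
  induction n with
  | zero =>
    intro G _ _ N hN θ hi _ _ hθ _ hσ
    classical
    letI : Fintype N := Fintype.ofFinite N
    have htop : N = ⊤ := Subgroup.index_eq_one.1 (by simpa using hi)
    have hsurj : Function.Surjective N.subtype := by
      intro g
      exact ⟨⟨g, by rw [htop]; trivial⟩, rfl⟩
    let e : G ≃* N := (MulEquiv.ofBijective N.subtype ⟨Subtype.val_injective, hsurj⟩).symm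
    have he : ∀ x : N, e (x : G) = x := fun x =>
      (MulEquiv.ofBijective N.subtype ⟨Subtype.val_injective, hsurj⟩).symm_apply_apply x
    refine ⟨θ ∘ e, isIrrCharacter_comp_mulEquiv e hθ, ?_, ?_⟩
    · intro x
      simp only [Function.comp_apply]
      rw [he]
    · intro g
      simp only [Function.comp_apply]
      rw [map_pow, hσ]
  | succ n ih =>
    intro G _ _ N hN θ hi hodd hgal hθ hinv hσ
    classical
    letI : Fintype N := Fintype.ofFinite N
    letI : Fintype (G ⧸ N) := Fintype.ofFinite _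
    -- a normal subgroup of index `p` above `N`
    have hcard : Nat.card (G ⧸ N) = p ^ (n + 1) := by
      rw [← Subgroup.index_eq_card, hi]
    obtain ⟨K, hK⟩ := Sylow.exists_subgroup_card_pow_prime (G := G ⧸ N) p (n := n)
      (by rw [hcard]; exact pow_dvd_pow p (Nat.le_succ n))
    have hKi : K.index = p := by
      have h1 := Subgroup.card_mul_index K
      rw [hK, hcard, pow_succ] at h1
      exact Nat.eq_of_mul_eq_mul_left (pow_pos hp.out.pos n) h1.symm |>.symm
    have hmin : (Nat.card (G ⧸ N)).minFac = p := by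
      rw [hcard]
      exact hp.out.pow_minFac (Nat.succ_ne_zero n)
    have hKn : K.Normal := Subgroup.normal_of_index_eq_minFac_card (by rw [hKi, hmin])
    let π : G →* G ⧸ N := QuotientGroup.mk' N
    have hπ : Function.Surjective π := QuotientGroup.mk'_surjective N
    let M : Subgroup G := K.comap π
    have hMn : M.Normal := hKn.comap π
    have hNM : N ≤ M := by
      intro x hx
      have h1 : π x = 1 := (QuotientGroup.eq_one_iff x).mpr hx
      change π x ∈ K
      rw [h1]
      exact K.one_mem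
    have hMi : M.index = p := by
      rw [Subgroup.index_comap_of_surjective K hπ, hKi]
    have hrel : N.relIndex M = p ^ n := by
      have h1 := Subgroup.relIndex_mul_index hNM
      rw [hMi, hi, pow_succ] at h1
      exact Nat.eq_of_mul_eq_mul_right hp.out.pos h1
    letI : Fintype M := Fintype.ofFinite M
    let N' : Subgroup M := N.subgroupOf M
    haveI hN' : N'.Normal := inferInstance
    letI : Fintype N' := Fintype.ofFinite N'
    let e : N' ≃* N := Subgroup.subgroupOfEquivOfLe hNM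
    have he : ∀ x : N', ((e x : N) : G) = ((x : M) : G) := fun _ => rfl
    let θ' : N' → ℂ := θ ∘ e
    have hθ' : IsIrrCharacter N' θ' := isIrrCharacter_comp_mulEquiv e hθ
    have hi' : N'.index = p ^ n := hrel
    have hoddrel : Odd N'.index := by
      apply Odd.of_dvd_nat hodd
      exact Subgroup.relIndex_dvd_index_of_normal N M
    have hinv' : ∀ (g : M) (x : N'), θ' ⟨g * x * g⁻¹, hN'.conj_mem (x : M) x.2 g⟩ = θ' x := by
      intro g x
      have h1 := hinv (g : G) (e x)
      simp only [θ', Function.comp_apply]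
      rw [← h1]
      rfl
    have hσ' : ∀ x : N', θ' (x ^ k) = θ' x := by
      intro x
      simp only [θ', Function.comp_apply, map_pow]
      exact hσ _
    obtain ⟨ψ, hψ, hψ1, hψ2⟩ := ih M N' θ' hi' hoddrel (hgal.sub M) hθ' hinv' hσ'
    have hresψ : resFun N' ψ = θ' := by
      funext x
      exact hψ1 x
    -- `ψ` is `G`-invariant
    have hψinv : ∀ (g : G) (m : M), ψ ⟨g * m * g⁻¹, hMn.conj_mem (m : G) m.2 g⟩ = ψ m := by
      intro g m
      let α : M ≃* M := MulAut.conjNormal g
      have hα : ∀ m : M, ((α m : M) : G) = g * m * g⁻¹ := fun m => MulAut.conjNormal_apply g m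
      have hirr : IsIrrCharacter M (ψ ∘ α) := isIrrCharacter_comp_mulEquiv α hψ
      have hres2 : resFun N' (ψ ∘ α) = θ' := by
        funext x
        have h1 : (α (x : M)) ∈ N' := by
          change ((α (x : M) : M) : G) ∈ N
          rw [hα]
          exact hN.conj_mem _ x.2 g
        have h2 := hψ1 ⟨α (x : M), h1⟩
        have h3 := hinv g (e x)
        simp only [resFun, Function.comp_apply]
        refine h2.trans ?_
        simp only [θ', Function.comp_apply]
        rw [← h3]
        congr 1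
      have hfix2 : ∀ m : M, (ψ ∘ α) (m ^ k) = (ψ ∘ α) m := by
        intro m
        simp only [Function.comp_apply, map_pow]
        exact hψ2 _
      have hover : classInner (resFun N' (ψ ∘ α)) (resFun N' ψ) ≠ 0 := by
        rw [hres2, hresψ, classInner_irr_self hθ']
        exact one_ne_zero
      have := eq_of_fixed N' hoddrel (hgal.sub M) (IsIrrCharacter.isCharacter hψ)
        (by rw [hresψ]; exact hθ') hψ2 hirr hover hfix2
      have h5 := congrFun this m
      simp only [Function.comp_apply] at h5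
      rw [← h5]
      congr 1
    have hcyc : IsCyclic (G ⧸ M) := by
      have h1 : Nat.card (G ⧸ M) = p := by rw [← Subgroup.index_eq_card, hMi]
      haveI : Fact (Nat.card (G ⧸ M)).Prime := ⟨by rw [h1]; exact hp.out⟩
      exact isCyclic_of_prime_card rfl
    obtain ⟨χ₁, hχ₁, hres₁⟩ : ∃ χ : G → ℂ, IsIrrCharacter G χ ∧ ∀ m : M, χ m = ψ m := by
      obtain ⟨d, ρ, hirr, rfl⟩ := hψ
      haveI := hirr
      exact Cfsg.Agent.Lib.Char.Triple.exists_irr_of_cyclic M ρ (fun g m => hψinv g m) hcyc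
    have hres₂ : ∀ x : N, χ₁ x = θ x := by
      intro x
      have h1 := hres₁ ⟨x, hNM x.2⟩
      rw [h1]
      have h2 := hψ1 ⟨⟨x, hNM x.2⟩, x.2⟩
      rw [h2]
      simp only [θ', Function.comp_apply]
      rfl
    have hresθ : resFun N χ₁ = θ := by
      funext x
      exact hres₂ x
    obtain ⟨χ, hχ, h1, h2⟩ := exists_fixed_ext N hodd hgal hχ₁ (by rw [hresθ]; exact hθ) (by
      intro x
      rw [hres₂]
      have h3 : ((x : G) ^ k) = ((x ^ k : N) : G) := by simp
      rw [h3, hres₂, hσ])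
    exact ⟨χ, hχ, fun x => (h1 x).trans (hres₂ x), h2⟩

/-- Extension along an odd index quotient. -/
theorem ext_general {G : Type u} [Group G] [Fintype G] (N : Subgroup G) [hN : N.Normal] [Fintype N]
    (hodd : Odd N.index) {k : ℕ} (hgal : GalOK G k) {θ : N → ℂ} (hθ : IsIrrCharacter N θ)
    (hinv : ∀ (g : G) (x : N), θ ⟨g * x * g⁻¹, hN.conj_mem (x : G) x.2 g⟩ = θ x)
    (hσ : ∀ x : N, θ (x ^ k) = θ x) :
    ∃ χ : G → ℂ, IsIrrCharacter G χ ∧ (∀ x : N, χ x = θ x) ∧ ∀ g, χ (g ^ k) = χ g := by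
  classical
  have hχ₁ : ∃ χ : G → ℂ, IsIrrCharacter G χ ∧ ∀ x : N, χ x = θ x := by
    obtain ⟨d, ρ, hirr, rfl⟩ := id hθ
    haveI := hirr
    refine Cfsg.Agent.Lib.Char.Triple.exists_irr_of_local N ρ (fun g m => hinv g m) ?_
    intro p hp
    haveI : Fact p.Prime := ⟨hp⟩
    let π : G →* G ⧸ N := QuotientGroup.mk' N
    have hπ : Function.Surjective π := QuotientGroup.mk'_surjective N
    let S : Sylow p (G ⧸ N) := default
    let P : Subgroup G := (S : Subgroup (G ⧸ N)).comap π
    have hNP : N ≤ P := by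
      intro x hx
      have h1 : π x = 1 := (QuotientGroup.eq_one_iff x).mpr hx
      change π x ∈ (S : Subgroup (G ⧸ N))
      rw [h1]
      exact Subgroup.one_mem _
    have hPi : P.index = (S : Subgroup (G ⧸ N)).index :=
      Subgroup.index_comap_of_surjective _ hπ
    obtain ⟨a, ha⟩ := IsPGroup.iff_card.1 S.2
    have hrel : N.relIndex P = p ^ a := by
      have h1 := Subgroup.relIndex_mul_index hNP
      have h2 := Subgroup.card_mul_index (S : Subgroup (G ⧸ N))
      rw [← Subgroup.index_eq_card, ← hPi, ← h1, ha] at h2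
      exact (Nat.eq_of_mul_eq_mul_right (Nat.pos_of_ne_zero Subgroup.index_ne_zero_of_finite) h2).symm
    letI : Fintype P := Fintype.ofFinite P
    let N' : Subgroup P := N.subgroupOf P
    haveI hN' : N'.Normal := inferInstance
    letI : Fintype N' := Fintype.ofFinite N'
    let e : N' ≃* N := Subgroup.subgroupOfEquivOfLe hNP
    let θ' : N' → ℂ := ρ.character ∘ e
    have hθ' : IsIrrCharacter N' θ' := isIrrCharacter_comp_mulEquiv e hθ
    have hoddrel : Odd N'.index := by
      apply Odd.of_dvd_nat hodd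
      exact Subgroup.relIndex_dvd_index_of_normal N P
    obtain ⟨ψ, hψ, hψ1, -⟩ := ext_pgroup p k a P N' θ' hrel hoddrel (hgal.sub P) hθ'
      (by
        intro g x
        have h1 := hinv (g : G) (e x)
        simp only [θ', Function.comp_apply]
        rw [← h1]
        rfl)
      (by
        intro x
        simp only [θ', Function.comp_apply, map_pow]
        exact hσ _)
    refine ⟨P, hNP, ψ, IsIrrCharacter.isCharacter hψ, ?_, ?_⟩
    · rw [hPi]
      exact (Nat.Prime.coprime_iff_not_dvd hp).2 S.not_dvd_index |>.symm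
    · intro x
      have h2 := hψ1 ⟨⟨x, hNP x.2⟩, x.2⟩
      rw [show (⟨x, hNP x.2⟩ : P) = ((⟨⟨x, hNP x.2⟩, x.2⟩ : N') : P) from rfl, h2]
      simp only [θ', Function.comp_apply]
      rfl
  obtain ⟨χ₁, hχ₁, hres₂⟩ := hχ₁
  have hresθ : resFun N χ₁ = θ := by
    funext x
    exact hres₂ x
  obtain ⟨χ, hχ, h1, h2⟩ := exists_fixed_ext N hodd hgal hχ₁ (by rw [hresθ]; exact hθ) (by
    intro x
    rw [hres₂]
    have h3 : ((x : G) ^ k) = ((x ^ k : N) : G) := by simp
    rw [h3, hres₂, hσ])
  exact ⟨χ, hχ, fun x => (h1 x).trans (hres₂ x), h2⟩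

/-- Induction commutes with the power map. -/
theorem indFun_pow {G : Type u} [Group G] [Fintype G] (T : Subgroup G) [Fintype T] {k : ℕ}
    (hk : Nat.Coprime k (Nat.card G)) (ψ : T → ℂ) (g : G) :
    indFun T ψ (g ^ k) = indFun T (fun t => ψ (t ^ k)) g := by
  classical
  simp only [indFun]
  congr 1
  refine Finset.sum_congr rfl fun x _ => ?_
  have h1 : x⁻¹ * g ^ k * x = (x⁻¹ * g * x) ^ k := by
    have := conj_pow (a := x⁻¹) (b := g) (i := k)
    simpa using this.symm
  rw [h1]
  set h := x⁻¹ * g * x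
  have hiff : h ^ k ∈ T ↔ h ∈ T := by
    constructor
    · intro hh
      have hc : k.Coprime (orderOf h) := Nat.Coprime.coprime_dvd_right (orderOf_dvd_natCard h) hk
      by_cases h1' : orderOf h = 1
      · rw [orderOf_eq_one_iff] at h1'
        rw [h1']
        exact T.one_mem
      have hlt : 1 < orderOf h := by
        have := orderOf_pos h
        omega
      obtain ⟨u, -, hu⟩ := Nat.exists_mul_mod_eq_one_of_coprime hc hlt
      have : h = (h ^ k) ^ u := by
        rw [← pow_mul, ← pow_mod_orderOf, hu, pow_one]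
      rw [this]
      exact T.pow_mem hh u
    · exact fun hh => T.pow_mem hh k
  by_cases hT : h ∈ T
  · rw [extendByZero_of_mem T ψ (hiff.2 hT), extendByZero_of_mem T _ hT]
    rfl
  · rw [extendByZero_of_notMem T ψ (fun hh => hT (hiff.1 hh)), extendByZero_of_notMem T _ hT]

/-- The main theorem. -/
theorem main {G : Type u} [Group G] [Fintype G] (N : Subgroup G) [hN : N.Normal] [Fintype N]
    (hodd : Odd N.index) {k : ℕ} (hgal : GalOK G k) {θ : N → ℂ} (hθ : IsIrrCharacter N θ)
    (hσ : ∀ x : N, θ (x ^ k) = θ x) :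
    ∃ χ : G → ℂ, IsIrrCharacter G χ ∧ classInner (resFun N χ) θ ≠ 0 ∧ (∀ g, χ (g ^ k) = χ g) ∧
      ((∀ (g : G) (x : N), θ ⟨g * x * g⁻¹, hN.conj_mem (x : G) x.2 g⟩ = θ x) →
        ∀ x : N, χ x = θ x) ∧
      ∀ χ' : G → ℂ, IsIrrCharacter G χ' → classInner (resFun N χ') θ ≠ 0 →
        (∀ g, χ' (g ^ k) = χ' g) → χ' = χ := by
  classical
  set T : Subgroup G := inertia N θ with hT
  letI : Fintype T := Fintype.ofFinite T
  have hle : N ≤ T := le_inertia_of_irr hθ
  let N' : Subgroup T := N.subgroupOf T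
  haveI hN' : N'.Normal := inferInstance
  letI : Fintype N' := Fintype.ofFinite N'
  let e : N' ≃* N := Subgroup.subgroupOfEquivOfLe hle
  let θ' : N' → ℂ := θ ∘ e
  have hθ' : IsIrrCharacter N' θ' := isIrrCharacter_comp_mulEquiv e hθ
  have hoddrel : Odd N'.index := by
    apply Odd.of_dvd_nat hodd
    exact Subgroup.relIndex_dvd_index_of_normal N T
  have hinv' : ∀ (g : T) (x : N'), θ' ⟨g * x * g⁻¹, hN'.conj_mem (x : T) x.2 g⟩ = θ' x := by
    intro g x
    have hg : conjFun N (g : G)⁻¹ θ = θ := (inertia N θ).inv_mem g.2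
    have h1 := congrFun hg (e x)
    simp only [conjFun_apply] at h1
    simp only [θ', Function.comp_apply]
    rw [← h1]
    congr 1
    apply Subtype.ext
    simp [e]
    rfl
  have hσ' : ∀ x : N', θ' (x ^ k) = θ' x := by
    intro x
    simp only [θ', Function.comp_apply, map_pow]
    exact hσ _
  have hgalT := hgal.sub T
  obtain ⟨ψ, hψ, hψ1, hψ2⟩ := ext_general N' hoddrel hgalT hθ' hinv' hσ'
  have hresTo : resTo N hle ψ = θ := by
    funext x
    have h2 := hψ1 ⟨⟨x, hle x.2⟩, x.2⟩
    refine h2.trans ?_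
    simp only [θ', Function.comp_apply]
    rfl
  have hresψ : resFun N' ψ = θ' := by
    funext x
    exact hψ1 x
  have hover : classInner (resTo N (le_inertia_of_irr hθ) ψ) θ ≠ 0 := by
    have : resTo N (le_inertia_of_irr hθ) ψ = θ := hresTo
    rw [this, classInner_irr_self hθ]
    exact one_ne_zero
  have hχ : IsIrrCharacter G (indFun T ψ) := isIrrCharacter_indFun_over hθ hψ hover
  have hχover : classInner (resFun N (indFun T ψ)) θ ≠ 0 := by
    have := classInner_res_indFun_over hθ hψ hover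
    rw [show classInner (resFun N (indFun T ψ)) θ = _ from this]
    exact hover
  have hχfix : ∀ g, indFun T ψ (g ^ k) = indFun T ψ g := by
    intro g
    rw [indFun_pow T hgal.1]
    congr 1
    funext t
    exact hψ2 t
  have huniq : ∀ χ' : G → ℂ, IsIrrCharacter G χ' → classInner (resFun N χ') θ ≠ 0 →
      (∀ g, χ' (g ^ k) = χ' g) → χ' = indFun T ψ := by
    intro χ' hχ' hover' hfix'
    obtain ⟨ψ', hψ', hoverψ', rfl⟩ := exists_indFun_over hθ hχ' hover'
    have hψ'σ : IsIrrCharacter T (fun t => ψ' (t ^ k)) := isIrrCharacter_pow hψ' hgalT.1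
    have hres3 : classInner (resTo N (le_inertia_of_irr hθ) (fun t => ψ' (t ^ k))) θ =
        classInner (resTo N (le_inertia_of_irr hθ) ψ') θ := by
      have hkN : k.Coprime (Nat.card N) :=
        Nat.Coprime.coprime_dvd_right (Subgroup.card_subgroup_dvd_card N) hgal.1
      simp only [classInner]
      congr 1
      rw [← sum_pow_eq hkN (fun x : N => resTo N (le_inertia_of_irr hθ) ψ' x * conj (θ x))]
      refine Finset.sum_congr rfl fun x _ => ?_
      simp only [resTo, hσ]
      rfl
    have hoverσ : classInner (resTo N (le_inertia_of_irr hθ) (fun t => ψ' (t ^ k))) θ ≠ 0 := by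
      rw [hres3]
      exact hoverψ'
    have heq : indFun (inertia N θ) (fun t => ψ' (t ^ k)) = indFun (inertia N θ) ψ' := by
      funext g
      rw [← indFun_pow (inertia N θ) hgal.1]
      exact hfix' g
    have hfixψ' : (fun t => ψ' (t ^ k)) = ψ' := eq_of_indFun_eq_over hθ hψ'σ hψ' hoverσ hoverψ' heq
    have hres4 : resFun N' ψ' = (resTo N hle ψ') ∘ e := by
      funext x
      rfl
    have hover4 : classInner (resFun N' ψ') (resFun N' ψ) ≠ 0 := by
      rw [hres4, hresψ]
      simp only [θ']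
      rw [classInner_comp_mulEquiv]
      exact hoverψ'
    have := eq_of_fixed N' hoddrel hgalT (IsIrrCharacter.isCharacter hψ)
      (by rw [hresψ]; exact hθ') hψ2 hψ' hover4 (fun t => congrFun hfixψ' t)
    rw [this]
  refine ⟨indFun T ψ, hχ, hχover, hχfix, ?_, huniq⟩
  intro hinv x
  obtain ⟨χ₀, hχ₀, h1, h2⟩ := ext_general N hodd hgal hθ hinv hσ
  have hres : resFun N χ₀ = θ := by
    funext x
    exact h1 x
  have := huniq χ₀ hχ₀ (by
    rw [hres, classInner_irr_self hθ]
    exact one_ne_zero) h2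
  rw [← this]
  exact h1 x

end Main

end Cfsg.Agent.Lib.Char.OddExt
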