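import Cfsg.Agent.Lib.Char.Orbit4b

/-! # Four automorphism orbits: the Sylow 2-subgroups and the two-point stabilizer. -/

set_option autoImplicit false

namespace Cfsg.Agent.Lib.Char.Orbit4

open Subgroup
open scoped Pointwise

universe u

variable {G : Type u} [Group G]

theorem mem_smul_sylow {ℓ : ℕ} {g y : G} {P : Sylow ℓ G} :
    y ∈ (g • P : Sylow ℓ G) ↔ g⁻¹ * y * g ∈ P := by
  change y ∈ MulAut.conj g • (P : Subgroup G) ↔ _
  rw [Subgroup.mem_pointwise_smul_iff_inv_smul_mem]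
  change (MulAut.conj g)⁻¹ y ∈ _ ↔ _
  simp
  rfl

theorem conj_mem_smul_sylow {ℓ : ℕ} {g y : G} {P : Sylow ℓ G} (hy : y ∈ P) :
    g * y * g⁻¹ ∈ (g • P : Sylow ℓ G) := by
  rw [mem_smul_sylow]
  have : g⁻¹ * (g * y * g⁻¹) * g = y := by group
  rw [this]
  exact hy

/-- An involution swapping two Sylow subgroups is its own inverse. -/
theorem inv_eq_of_sq {t : G} (ht : t ^ 2 = 1) : t⁻¹ = t := by
  rw [inv_eq_iff_mul_eq_one, ← pow_two, ht]

theorem exists_swap {u v : G} (hu : u ^ 2 = 1) (hv : v ^ 2 = 1) (hord : (orderOf (u * v)).Prime)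
    (hnc : u * v ≠ v * u) : ∃ t : G, t ^ 2 = 1 ∧ t ≠ 1 ∧ t * u * t⁻¹ = v := by
  have huinv := inv_eq_of_sq hu
  have hvinv := inv_eq_of_sq hv
  set x := u * v with hx
  have hxinv : x⁻¹ = v * u := by rw [hx, mul_inv_rev, huinv, hvinv]
  have hconj : u * x * u⁻¹ = x⁻¹ := by
    rw [hxinv, hx, huinv]
    have : u * u = 1 := by rw [← pow_two, hu]
    rw [← mul_assoc, this, one_mul]
  have hm2 : orderOf x ≠ 2 := by
    intro h
    have h2 : x ^ 2 = 1 := by rw [← h]; exact pow_orderOf_eq_one x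
    have : x⁻¹ = x := inv_eq_of_sq h2
    rw [hxinv] at this
    exact hnc this.symm
  obtain ⟨k, hk⟩ := hord.odd_of_ne_two hm2
  have hxm : x ^ (2 * k + 1) = 1 := by rw [← hk]; exact pow_orderOf_eq_one x
  have huu : u * u = 1 := by rw [← pow_two, hu]
  set y := x ^ (k + 1) with hy
  have hconjk : u * y * u = y⁻¹ := by
    have h1 : u * x ^ (k + 1) * u⁻¹ = (x⁻¹) ^ (k + 1) := by
      rw [← hconj, conj_pow]
    rw [huinv, inv_pow] at h1
    exact h1
  have hyy : y * y = x := by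
    have : y * y = x ^ (2 * k + 1) * x := by
      rw [hy, ← pow_add, ← pow_succ]
      congr 1
      ring
    rw [this, hxm, one_mul]
  have hsq : (u * y) ^ 2 = 1 := by
    rw [pow_two]
    calc u * y * (u * y) = (u * y * u) * y := by group
      _ = 1 := by rw [hconjk]; group
  refine ⟨u * y, hsq, ?_, ?_⟩
  · intro h1
    have hyu : y = u := by
      have : y = u⁻¹ := eq_inv_of_mul_eq_one_right h1
      rw [this, huinv]
    have h2 : y⁻¹ = y := by
      rw [← hconjk, hyu, huu, one_mul]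
    have h3 : y * y = 1 := by
      nth_rewrite 2 [← h2]
      exact mul_inv_cancel y
    rw [hyy] at h3
    rw [h3, orderOf_one] at hord
    exact Nat.not_prime_one hord
  · rw [inv_eq_of_sq hsq]
    calc u * y * u * (u * y) = (u * y * u) * u * y := by group
      _ = u * (y * (u * u)) * y := by group
      _ = u * (y * y) := by rw [huu]; group
      _ = v := by rw [hyy, hx, ← mul_assoc, huu, one_mul]

theorem ncard_nonid [Finite G] (S : Subgroup G) : Nat.card (((S : Set G) \ {1} : Set G)) + 1 = Nat.card S := by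
  rw [Nat.card_coe_set_eq, Set.ncard_sdiff_singleton_of_mem (S.one_mem), ← Nat.card_coe_set_eq]
  have h : 0 < Nat.card (S : Set G) := Nat.card_pos (α := ↥S)
  have h2 : Nat.card ((S : Set G)) = Nat.card S := rfl
  omega

namespace Hyp

variable (H : Hyp G)
include H

/-- Elements of a Sylow 2-subgroup square to one. -/
theorem sq_eq_one (E : Sylow 2 G) {x : G} (hx : x ∈ E) : x ^ 2 = 1 := by
  by_cases h : x = 1
  · simp [h]
  · have := H.orderOf_of_mem E.2 hx h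
    rw [← this]
    exact pow_orderOf_eq_one x

theorem comm_two (E : Sylow 2 G) {x y : G} (hx : x ∈ E) (hy : y ∈ E) : x * y = y * x := by
  have h1 := H.sq_eq_one E (E.1.mul_mem hx hy)
  have h2 := inv_eq_of_sq h1
  rw [mul_inv_rev, inv_eq_of_sq (H.sq_eq_one E hx), inv_eq_of_sq (H.sq_eq_one E hy)] at h2
  exact h2.symm

theorem cen_eq_two (E : Sylow 2 G) {u : G} (hu : u ∈ E) (hu1 : u ≠ 1) : cen u = (E : Subgroup G) :=
  H.cen_eq_of_central E hu1 hu fun _ hy => H.comm_two E hy hu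

theorem ti_two {E₁ E₂ : Sylow 2 G} (hne : E₁ ≠ E₂) {x : G} (h₁ : x ∈ E₁) (h₂ : x ∈ E₂) : x = 1 := by
  by_contra h
  apply hne
  exact Sylow.ext ((H.cen_eq_two E₁ h₁ h).symm.trans (H.cen_eq_two E₂ h₂ h))

omit H in
theorem mem_of_sq_of_smul_eq [Finite G] (E : Sylow 2 G) {t : G} (ht : t ^ 2 = 1) (hn : t • E = E) : t ∈ E := by
  have hQ : IsPGroup 2 (Subgroup.zpowers t) := by
    rintro ⟨g, hg⟩
    obtain ⟨n, rfl⟩ := Subgroup.mem_zpowers_iff.1 hg
    refine ⟨1, Subtype.ext ?_⟩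
    simp only [pow_one, Subgroup.coe_pow, Subgroup.coe_one]
    rw [← zpow_natCast, ← zpow_mul, mul_comm, zpow_mul]
    simp [ht]
  have hle : Subgroup.zpowers t ≤ normalizer (E : Set G) := by
    rw [Subgroup.zpowers_le]
    exact Sylow.smul_eq_iff_mem_normalizer.1 hn
  have := (hQ.sylow_mem_fixedPoints_iff (Q := E)).1 ((Subgroup.sylow_mem_fixedPoints_iff _).2 hle)
  exact this (Subgroup.mem_zpowers t)

variable [Finite G]

/-- The key structure of the two-point stabilizer. -/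
theorem two_point {E₁ E₂ : Sylow 2 G} (hne : E₁ ≠ E₂) (heven : 2 ∣ Nat.card G) :
    ∃ t₀ : G, t₀ ^ 2 = 1 ∧ t₀ ≠ 1 ∧ t₀ • E₁ = E₂ ∧
      Nat.card (normalizer (E₁ : Set G) ⊓ normalizer (E₂ : Set G) : Subgroup G) + 1 = Nat.card E₁ ∧
      (∀ d ∈ (normalizer (E₁ : Set G) ⊓ normalizer (E₂ : Set G) : Subgroup G),
        t₀ * d * t₀⁻¹ = d⁻¹) := by
  classical
  set D : Subgroup G := normalizer (E₁ : Set G) ⊓ normalizer (E₂ : Set G) with hD
  have hne₁ : (E₁ : Subgroup G) ≠ ⊥ := E₁.ne_bot_of_dvd_card heven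
  have hne₂ : (E₂ : Subgroup G) ≠ ⊥ := E₂.ne_bot_of_dvd_card heven
  obtain ⟨u₀, hu₀, hu₀1⟩ := (Subgroup.bot_or_exists_ne_one _).resolve_left hne₁
  obtain ⟨v₀, hv₀, hv₀1⟩ := (Subgroup.bot_or_exists_ne_one _).resolve_left hne₂
  let A : Set G := ((E₁ : Subgroup G) : Set G) \ {1}
  let B : Set G := ((E₂ : Subgroup G) : Set G) \ {1}
  have hcardE : Nat.card E₂ = Nat.card E₁ := Nat.card_congr (Sylow.equiv E₂ E₁).toEquiv
  have hAcard : Nat.card A + 1 = Nat.card E₁ := ncard_nonid _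
  have hBcard : Nat.card B + 1 = Nat.card E₁ := by rw [← hcardE]; exact ncard_nonid _
  -- existence of the swapping involutions
  have hswap : ∀ v : B, ∃ t : G, t ^ 2 = 1 ∧ t ≠ 1 ∧ t * u₀ * t⁻¹ = v := by
    rintro ⟨v, hv, hv1⟩
    have hv1' : v ≠ 1 := hv1
    have hu2 := H.sq_eq_one E₁ hu₀
    have hv2 := H.sq_eq_one E₂ hv
    have hnc : u₀ * v ≠ v * u₀ := by
      intro hc
      have h1 : v ∈ cen u₀ := mem_cen.2 hc.symm
      rw [H.cen_eq_two E₁ hu₀ hu₀1] at h1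
      exact hv1' (H.ti_two hne h1 hv)
    have hx1 : u₀ * v ≠ 1 := by
      intro h
      have h1 : v = u₀⁻¹ := eq_inv_of_mul_eq_one_right h
      rw [h1, inv_eq_of_sq hu2] at hnc
      exact hnc rfl
    exact exists_swap hu2 hv2 (H.ord _ hx1) hnc
  choose tv htv2 htv1 htvc using hswap
  have hsmul : ∀ v : B, tv v • E₁ = E₂ := by
    intro v
    by_contra hcon
    have h1 : (v : G) ∈ (tv v • E₁ : Sylow 2 G) := by
      rw [← htvc v]
      exact conj_mem_smul_sylow hu₀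
    exact v.2.2 (H.ti_two hcon h1 v.2.1)
  have hsmul' : ∀ t : G, t ^ 2 = 1 → t • E₁ = E₂ → t • E₂ = E₁ := by
    intro t ht h
    rw [← h, smul_smul, ← pow_two, ht, one_smul]
  let v₀' : B := ⟨v₀, hv₀, hv₀1⟩
  let t₀ : G := tv v₀'
  have ht₀ : t₀ ^ 2 = 1 := htv2 v₀'
  have ht₀E : t₀ • E₁ = E₂ := hsmul v₀'
  have ht₀E' : t₀ • E₂ = E₁ := hsmul' t₀ ht₀ ht₀E
  have hmemD : ∀ v : B, t₀ * tv v ∈ D := by
    intro v
    refine ⟨Sylow.smul_eq_iff_mem_normalizer.1 ?_, Sylow.smul_eq_iff_mem_normalizer.1 ?_⟩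
    · rw [mul_smul, hsmul v, ht₀E']
    · rw [mul_smul, hsmul' _ (htv2 v) (hsmul v), ht₀E]
  let g : B → D := fun v => ⟨t₀ * tv v, hmemD v⟩
  have hg : Function.Injective g := by
    intro v w hvw
    have h1 : t₀ * tv v = t₀ * tv w := congrArg Subtype.val hvw
    have h2 : tv v = tv w := mul_left_cancel h1
    apply Subtype.ext
    rw [← htvc v, ← htvc w, h2]
  have hmemA : ∀ d : D, (d : G) * u₀ * (d : G)⁻¹ ∈ A := by
    intro d
    refine ⟨?_, ?_⟩
    · exact (Subgroup.mem_normalizer_iff.1 d.2.1 u₀).1 hu₀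
    · intro h
      apply hu₀1
      have h' : (d : G) * u₀ * (d : G)⁻¹ = 1 := h
      have : u₀ = (d : G)⁻¹ * ((d : G) * u₀ * (d : G)⁻¹) * (d : G) := by group
      rw [this, h']
      group
  let f : D → A := fun d => ⟨_, hmemA d⟩
  have hf : Function.Injective f := by
    intro d d' hdd
    have h1 : (d : G) * u₀ * (d : G)⁻¹ = (d' : G) * u₀ * (d' : G)⁻¹ := congrArg Subtype.val hdd
    set c : G := (d' : G)⁻¹ * d with hc
    have hcD : c ∈ D := D.mul_mem (D.inv_mem d'.2) d.2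
    have hcc : c * u₀ = u₀ * c := by
      have : c * u₀ * c⁻¹ = u₀ := by
        rw [hc]
        calc (d' : G)⁻¹ * d * u₀ * ((d' : G)⁻¹ * d)⁻¹ = (d' : G)⁻¹ * ((d : G) * u₀ * (d : G)⁻¹) * d' := by group
          _ = u₀ := by rw [h1]; group
      calc c * u₀ = c * u₀ * c⁻¹ * c := by group
        _ = u₀ * c := by rw [this]
    have hcE₁ : c ∈ (E₁ : Subgroup G) := by
      rw [← H.cen_eq_two E₁ hu₀ hu₀1]
      exact mem_cen.2 hcc
    have hcE₂ : c ∈ E₂ :=
      mem_of_sq_of_smul_eq E₂ (H.sq_eq_one E₁ hcE₁) (Sylow.smul_eq_iff_mem_normalizer.2 hcD.2)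
    have hc1 : c = 1 := H.ti_two hne hcE₁ hcE₂
    apply Subtype.ext
    rw [hc, inv_mul_eq_one] at hc1
    exact hc1.symm
  have hle1 : Nat.card D ≤ Nat.card A := Nat.card_le_card_of_injective f hf
  have hle2 : Nat.card B ≤ Nat.card D := Nat.card_le_card_of_injective g hg
  have hDcard : Nat.card D + 1 = Nat.card E₁ := by omega
  have hgb : Function.Bijective g := hg.bijective_of_nat_card_le (by omega)
  refine ⟨t₀, ht₀, htv1 v₀', ht₀E, hDcard, ?_⟩
  intro d hd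
  obtain ⟨v, hv⟩ := hgb.2 ⟨d, hd⟩
  have h1 : t₀ * tv v = d := congrArg Subtype.val hv
  have h2 : t₀ * d = tv v := by
    rw [← h1, ← mul_assoc, ← pow_two, ht₀, one_mul]
  have h3 : (t₀ * d) ^ 2 = 1 := by rw [h2]; exact htv2 v
  rw [inv_eq_of_sq ht₀]
  rw [pow_two] at h3
  rw [eq_inv_iff_mul_eq_one]
  rw [← h3]
  group

end Hyp

end Cfsg.Agent.Lib.Char.Orbit4
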