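import Cfsg.Agent.Lib.Char.Orbit4c

/-! # Four automorphism orbits: Sylow subgroups inverted by an involution. -/

set_option autoImplicit false

namespace Cfsg.Agent.Lib.Char.Orbit4

open Subgroup
open scoped Pointwise

universe u

variable {G : Type u} [Group G]

/-- A fixed point free involution inverts. -/
theorem inverts_of_fpf [Finite G] {t : G} {Q : Subgroup G} (ht : t ^ 2 = 1)
    (hnorm : ∀ y ∈ Q, t * y * t⁻¹ ∈ Q) (hfpf : ∀ y ∈ Q, t * y * t⁻¹ = y → y = 1) :
    ∀ y ∈ Q, t * y * t⁻¹ = y⁻¹ := by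
  have htt : t⁻¹ = t := inv_eq_of_sq ht
  let σ : Q → Q := fun y => ⟨t * y * t⁻¹, hnorm y y.2⟩
  let φ : Q → Q := fun y => y⁻¹ * σ y
  have hφ : Function.Injective φ := by
    intro y z hyz
    have h1 : (y : G)⁻¹ * (t * y * t⁻¹) = (z : G)⁻¹ * (t * z * t⁻¹) := congrArg Subtype.val hyz
    have h2 : t * ((z : G) * (y : G)⁻¹) * t⁻¹ = (z : G) * (y : G)⁻¹ := by
      calc t * ((z : G) * (y : G)⁻¹) * t⁻¹ = (t * z * t⁻¹) * (t * y * t⁻¹)⁻¹ := by group
        _ = z * ((z : G)⁻¹ * (t * z * t⁻¹)) * (t * y * t⁻¹)⁻¹ := by group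
        _ = z * ((y : G)⁻¹ * (t * y * t⁻¹)) * (t * y * t⁻¹)⁻¹ := by rw [h1]
        _ = (z : G) * (y : G)⁻¹ := by group
    have h3 := hfpf _ (Q.mul_mem z.2 (Q.inv_mem y.2)) h2
    apply Subtype.ext
    exact (mul_inv_eq_one.1 h3).symm
  have hφs : Function.Surjective φ := Finite.surjective_of_injective hφ
  intro y hy
  obtain ⟨w, hw⟩ := hφs ⟨y, hy⟩
  have hw' : (w : G)⁻¹ * (t * w * t⁻¹) = y := congrArg Subtype.val hw
  have htt1 : t * t = 1 := by rw [← pow_two, ht]
  rw [← hw']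
  have e1 : t * ((w : G)⁻¹ * (t * w * t⁻¹)) * t⁻¹ = t * (w : G)⁻¹ * t * w * (t⁻¹ * t⁻¹) := by group
  have e2 : ((w : G)⁻¹ * (t * w * t⁻¹))⁻¹ = t * (w : G)⁻¹ * t⁻¹ * w := by group
  rw [e1, e2, htt, htt1, mul_one]

namespace Hyp

variable (H : Hyp G)
include H

theorem orderOf_two {t : G} (ht : t ^ 2 = 1) (ht1 : t ≠ 1) : orderOf t = 2 :=
  orderOf_eq_prime ht ht1

/-- If `s` is an involution normalizing `cen x` with `x` of odd prime order then `s` inverts. -/
theorem inverts_cen [Finite G] {x s : G} (hx : x ≠ 1) (hx2 : orderOf x ≠ 2) (hs : s ^ 2 = 1)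
    (hs1 : s ≠ 1) (hnorm : ∀ y ∈ cen x, s * y * s⁻¹ ∈ cen x) :
    ∀ y ∈ cen x, s * y * s⁻¹ = y⁻¹ := by
  refine inverts_of_fpf hs hnorm ?_
  intro y hy hfix
  by_contra hy1
  have h1 : orderOf x = orderOf y := H.order_eq_of_commute hx hy1 (mem_cen.1 hy).symm
  have h2 : orderOf s = orderOf y := by
    refine H.order_eq_of_commute hs1 hy1 ?_
    calc s * y = s * y * s⁻¹ * s := by group
      _ = y * s := by rw [hfix]
  rw [H.orderOf_two hs hs1] at h2
  exact hx2 (h1.trans h2.symm)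

omit H in
/-- An involution inverting `x` normalizes `cen x`. -/
theorem norm_cen_of_inv {x t : G} (hinv : t * x * t⁻¹ = x⁻¹) : ∀ y ∈ cen x, t * y * t⁻¹ ∈ cen x := by
  intro y hy
  have hy' := mem_cen.1 hy
  have h1 : t * y * t⁻¹ * x⁻¹ = x⁻¹ * (t * y * t⁻¹) := by
    rw [← hinv]
    calc t * y * t⁻¹ * (t * x * t⁻¹) = t * (y * x) * t⁻¹ := by group
      _ = t * (x * y) * t⁻¹ := by rw [hy']
      _ = _ := by group
  rw [mem_cen]
  calc t * y * t⁻¹ * x = x * (x⁻¹ * (t * y * t⁻¹)) * x := by group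
    _ = x * (t * y * t⁻¹ * x⁻¹) * x := by rw [h1]
    _ = x * (t * y * t⁻¹) := by group

theorem inverts_of_inv [Finite G] {x t : G} (hx : x ≠ 1) (hx2 : orderOf x ≠ 2) (ht : t ^ 2 = 1)
    (ht1 : t ≠ 1) (hinv : t * x * t⁻¹ = x⁻¹) : ∀ y ∈ cen x, t * y * t⁻¹ = y⁻¹ :=
  H.inverts_cen hx hx2 ht ht1 (norm_cen_of_inv hinv)

theorem comm_of_inv [Finite G] {x t : G} (hx : x ≠ 1) (hx2 : orderOf x ≠ 2) (ht : t ^ 2 = 1)
    (ht1 : t ≠ 1) (hinv : t * x * t⁻¹ = x⁻¹) {y z : G} (hy : y ∈ cen x) (hz : z ∈ cen x) :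
    y * z = z * y := by
  have h := H.inverts_of_inv hx hx2 ht ht1 hinv
  have h1 := h _ ((cen x).mul_mem hy hz)
  rw [mul_inv_rev] at h1
  have h2 : t * (y * z) * t⁻¹ = (t * y * t⁻¹) * (t * z * t⁻¹) := by group
  rw [h2, h y hy, h z hz] at h1
  have h3 : z * y = y * z := by
    have := congrArg (fun w => w⁻¹) h1
    simpa using this
  exact h3.symm

/-- Transport of an inverting involution by automorphisms. -/
theorem inv_all {x t₀ : G} (ht₀ : t₀ ^ 2 = 1) (ht₀1 : t₀ ≠ 1) (hinv : t₀ * x * t₀⁻¹ = x⁻¹) {y : G}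
    (hy : orderOf y = orderOf x) : ∃ t : G, t ^ 2 = 1 ∧ t ≠ 1 ∧ t * y * t⁻¹ = y⁻¹ := by
  obtain ⟨α, hα⟩ := H.aut x y hy.symm
  refine ⟨α t₀, ?_, ?_, ?_⟩
  · rw [← map_pow, ht₀, map_one]
  · intro h
    exact ht₀1 ((map_eq_one_iff α α.injective).1 h)
  · rw [← hα]
    have h := congrArg α hinv
    simp only [map_mul, map_inv] at h
    exact h

variable [Finite G]

/-- A Sylow subgroup of an inverted prime is abelian. -/
theorem comm_sylow {ℓ : ℕ} [hℓ : Fact ℓ.Prime] (hℓ2 : ℓ ≠ 2)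
    (hall : ∀ y : G, orderOf y = ℓ → ∃ t : G, t ^ 2 = 1 ∧ t ≠ 1 ∧ t * y * t⁻¹ = y⁻¹)
    (Q : Sylow ℓ G) {a b : G} (ha : a ∈ Q) (hb : b ∈ Q) : a * b = b * a := by
  classical
  by_cases hQ : (Q : Subgroup G) = ⊥
  · have ha' : a ∈ (Q : Subgroup G) := ha
    rw [hQ, Subgroup.mem_bot] at ha'
    simp [ha']
  haveI : Nontrivial (Q : Subgroup G) := (Subgroup.nontrivial_iff_ne_bot _).2 hQ
  haveI : Nontrivial (Subgroup.center (Q : Subgroup G)) := Q.2.center_nontrivial
  obtain ⟨z, hz⟩ := exists_ne (1 : Subgroup.center (Q : Subgroup G))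
  have hz1 : ((z : (Q : Subgroup G)) : G) ≠ 1 := by
    intro h
    apply hz
    ext
    simpa using h
  set z0 : G := ((z : (Q : Subgroup G)) : G) with hz0
  have hz0Q : z0 ∈ (Q : Subgroup G) := (z : (Q : Subgroup G)).2
  have hcent : ∀ y ∈ (Q : Subgroup G), y * z0 = z0 * y := by
    intro y hy
    exact congrArg Subtype.val ((Subgroup.mem_center_iff.1 z.2) ⟨y, hy⟩)
  have hcz : cen z0 = (Q : Subgroup G) := H.cen_eq_of_central Q hz1 hz0Q hcent
  have hoz : orderOf z0 = ℓ := H.orderOf_of_mem Q.2 hz0Q hz1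
  obtain ⟨t, ht, ht1, htinv⟩ := hall z0 hoz
  refine H.comm_of_inv hz1 (hoz ▸ hℓ2) ht ht1 htinv ?_ ?_
  · rw [hcz]; exact ha
  · rw [hcz]; exact hb

omit H in
theorem card_center_of_comm {ℓ : ℕ} (Q : Sylow ℓ G)
    (hc : ∀ a b : G, a ∈ Q → b ∈ Q → a * b = b * a) :
    Nat.card (Subgroup.center (Q : Subgroup G)) = Nat.card Q := by
  have : Subgroup.center (Q : Subgroup G) = ⊤ := by
    rw [eq_top_iff]
    intro a _
    rw [Subgroup.mem_center_iff]
    intro b
    exact Subtype.ext (hc _ _ b.2 a.2)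
  rw [this]
  exact Subgroup.card_top

theorem ncard_order_comm {ℓ : ℕ} [hℓ : Fact ℓ.Prime] (Q : Sylow ℓ G)
    (hc : ∀ a b : G, a ∈ Q → b ∈ Q → a * b = b * a) :
    Set.ncard {g : G | orderOf g = ℓ} = Nat.card (Sylow ℓ G) * (Nat.card Q - 1) := by
  rw [H.ncard_order Q, card_center_of_comm Q hc]

/-- The involutions normalizing an inverted Sylow subgroup. -/
theorem ncard_inverting {ℓ : ℕ} [hℓ : Fact ℓ.Prime] (hℓ2 : ℓ ≠ 2)
    (hall : ∀ y : G, orderOf y = ℓ → ∃ t : G, t ^ 2 = 1 ∧ t ≠ 1 ∧ t * y * t⁻¹ = y⁻¹)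
    (Q : Sylow ℓ G) {y : G} (hy : orderOf y = ℓ) :
    Set.ncard {s : G | s ^ 2 = 1 ∧ s * y * s⁻¹ = y⁻¹} = Nat.card Q := by
  classical
  have hy1 : y ≠ 1 := by
    rintro rfl
    rw [orderOf_one] at hy
    exact hℓ.out.ne_one hy.symm
  obtain ⟨Q', hQ'⟩ := H.exists_sylow_cen hy1 hy
  have hcard : Nat.card Q = Nat.card Q' := Nat.card_congr (Sylow.equiv Q Q').toEquiv
  rw [hcard]
  obtain ⟨t, ht, ht1, htinv⟩ := hall y hy
  have htt := inv_eq_of_sq ht
  have hy2 : orderOf y ≠ 2 := hy ▸ hℓ2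
  have hinv := H.inverts_of_inv hy1 hy2 ht ht1 htinv
  have hcomm : ∀ a ∈ cen y, ∀ b ∈ cen y, a * b = b * a := fun a ha b hb =>
    H.comm_of_inv hy1 hy2 ht ht1 htinv ha hb
  have hset : {s : G | s ^ 2 = 1 ∧ s * y * s⁻¹ = y⁻¹} =
      (fun c : G => c * t) '' ((cen y : Subgroup G) : Set G) := by
    ext s
    simp only [Set.mem_ofPred_eq, Set.mem_image, SetLike.mem_coe]
    constructor
    · rintro ⟨hs, hsy⟩
      refine ⟨s * t, ?_, ?_⟩
      · rw [mem_cen]
        have hsinv := inv_eq_of_sq hs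
        have h1 : s * t * y * (s * t)⁻¹ = y := by
          calc s * t * y * (s * t)⁻¹ = s * (t * y * t⁻¹) * s⁻¹ := by group
            _ = s * y⁻¹ * s⁻¹ := by rw [htinv]
            _ = (s * y * s⁻¹)⁻¹ := by group
            _ = y := by rw [hsy, inv_inv]
        calc s * t * y = s * t * y * (s * t)⁻¹ * (s * t) := by group
          _ = y * (s * t) := by rw [h1]
      · have : t * t = 1 := by rw [← pow_two, ht]
        rw [mul_assoc, this, mul_one]
    · rintro ⟨c, hc, rfl⟩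
      constructor
      · rw [pow_two]
        have h1 := hinv c hc
        calc c * t * (c * t) = c * (t * c * t⁻¹) * (t * t) := by group
          _ = 1 := by rw [h1, ← pow_two t, ht]; group
      · have hcy : c * y⁻¹ * c⁻¹ = y⁻¹ := by
          have h1 := mem_cen.1 ((cen y).inv_mem hc)
          have := hcomm c hc y⁻¹ ((cen y).inv_mem (self_mem_cen y))
          rw [this]
          group
        calc c * t * y * (c * t)⁻¹ = c * (t * y * t⁻¹) * c⁻¹ := by group
          _ = y⁻¹ := by rw [htinv, hcy]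
  rw [hset, Set.ncard_image_of_injective _ (mul_left_injective t), ← hQ']
  rfl

/-- The normalizer of an inverted Sylow subgroup has twice its order. -/
theorem card_normalizer {ℓ : ℕ} [hℓ : Fact ℓ.Prime] (hℓ2 : ℓ ≠ 2)
    (hall : ∀ y : G, orderOf y = ℓ → ∃ t : G, t ^ 2 = 1 ∧ t ≠ 1 ∧ t * y * t⁻¹ = y⁻¹)
    (hdvd : ℓ ∣ Nat.card G) (Q : Sylow ℓ G) :
    Nat.card (normalizer ((Q : Subgroup G) : Set G)) = 2 * Nat.card Q := by
  classical
  have hne : (Q : Subgroup G) ≠ ⊥ := Q.ne_bot_of_dvd_card hdvd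
  obtain ⟨y, hyQ, hy1⟩ := (Subgroup.bot_or_exists_ne_one _).resolve_left hne
  have hy : orderOf y = ℓ := H.orderOf_of_mem Q.2 hyQ hy1
  have hy2 : orderOf y ≠ 2 := hy ▸ hℓ2
  have hcy : cen y = (Q : Subgroup G) :=
    H.cen_eq_of_central Q hy1 hyQ fun b hb => H.comm_sylow hℓ2 hall Q hb hyQ
  obtain ⟨t, ht, ht1, htinv⟩ := hall y hy
  have htt := inv_eq_of_sq ht
  have htt1 : t * t = 1 := by rw [← pow_two, ht]
  -- involutions normalizing `Q` invert it
  have hinvN : ∀ s ∈ normalizer ((Q : Subgroup G) : Set G), s ^ 2 = 1 → s ≠ 1 →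
      ∀ c ∈ (Q : Subgroup G), s * c * s⁻¹ = c⁻¹ := by
    intro s hs hs2 hs1 c hc
    refine H.inverts_cen hy1 hy2 hs2 hs1 ?_ c (hcy ▸ hc)
    intro w hw
    rw [hcy] at hw ⊢
    exact (Subgroup.mem_normalizer_iff.1 hs w).1 hw
  have htN : t ∈ normalizer ((Q : Subgroup G) : Set G) := by
    rw [Subgroup.mem_normalizer_iff]
    intro w
    have h1 := norm_cen_of_inv htinv
    constructor
    · intro hw
      rw [← hcy] at hw ⊢
      exact h1 w hw
    · intro hw
      rw [← hcy] at hw ⊢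
      have := h1 _ hw
      have e : t * (t * w * t⁻¹) * t⁻¹ = w := by
        rw [htt]
        calc t * (t * w * t) * t = (t * t) * w * (t * t) := by group
          _ = w := by rw [htt1]; group
      rwa [e] at this
  have htQ : t ∉ (Q : Subgroup G) := by
    intro h
    have := H.orderOf_of_mem Q.2 h ht1
    rw [H.orderOf_two ht ht1] at this
    exact hℓ2 this.symm
  -- odd order of `Q`: square roots exist
  have hcop : Nat.Coprime (Nat.card Q) 2 := by
    obtain ⟨k, hk⟩ := IsPGroup.iff_card.1 Q.2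
    rw [hk]
    exact Nat.Coprime.pow_left _ ((Nat.coprime_primes hℓ.out Nat.prime_two).2 hℓ2)
  have hsqrt : ∀ c ∈ (Q : Subgroup G), ∃ e ∈ (Q : Subgroup G), e ^ 2 = c := by
    intro c hc
    obtain ⟨e, he⟩ := (powCoprime hcop).surjective ⟨c, hc⟩
    exact ⟨e, e.2, congrArg Subtype.val he⟩
  -- the description of the normalizer
  have hmem : ∀ n ∈ normalizer ((Q : Subgroup G) : Set G), n ∈ (Q : Subgroup G) ∨
      n * t ∈ (Q : Subgroup G) := by
    intro n hn
    set s : G := n * t * n⁻¹ with hs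
    have hsN : s ∈ normalizer ((Q : Subgroup G) : Set G) :=
      (normalizer _).mul_mem ((normalizer _).mul_mem hn htN) ((normalizer _).inv_mem hn)
    have hs2 : s ^ 2 = 1 := by
      rw [pow_two, hs]
      calc n * t * n⁻¹ * (n * t * n⁻¹) = n * (t * t) * n⁻¹ := by group
        _ = 1 := by rw [htt1]; group
    have hs1 : s ≠ 1 := by
      intro h
      apply ht1
      have : t = n⁻¹ * s * n := by rw [hs]; group
      rw [this, h]; group
    have hsinv := hinvN s hsN hs2 hs1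
    have hc : s * t ∈ (Q : Subgroup G) := by
      rw [← hcy, mem_cen]
      have h1 := hsinv y hyQ
      have h2 : s * t * y * (s * t)⁻¹ = y := by
        calc s * t * y * (s * t)⁻¹ = s * (t * y * t⁻¹) * s⁻¹ := by group
          _ = s * y⁻¹ * s⁻¹ := by rw [htinv]
          _ = (s * y * s⁻¹)⁻¹ := by group
          _ = y := by rw [h1, inv_inv]
      calc s * t * y = s * t * y * (s * t)⁻¹ * (s * t) := by group
        _ = y * (s * t) := by rw [h2]
    obtain ⟨e, heQ, he⟩ := hsqrt _ hc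
    have htinvQ := hinvN t htN ht ht1
    have hconj : e * t * e⁻¹ = s := by
      have h1 := htinvQ e⁻¹ (Q.1.inv_mem heQ)
      have h2 : t * e⁻¹ = e * t := by
        calc t * e⁻¹ = t * e⁻¹ * t⁻¹ * t := by group
          _ = e * t := by rw [h1, inv_inv]
      calc e * t * e⁻¹ = e * (t * e⁻¹) := by group
        _ = e * (e * t) := by rw [h2]
        _ = e ^ 2 * t := by rw [pow_two]; group
        _ = s * t * t := by rw [he]
        _ = s := by rw [mul_assoc, htt1, mul_one]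
    set m : G := e⁻¹ * n with hm
    have hmc : m * t = t * m := by
      have h1 : m * t * m⁻¹ = t := by
        calc m * t * m⁻¹ = e⁻¹ * (n * t * n⁻¹) * e := by rw [hm]; group
          _ = e⁻¹ * (e * t * e⁻¹) * e := by rw [hconj]
          _ = t := by group
      calc m * t = m * t * m⁻¹ * m := by group
        _ = t * m := by rw [h1]
    have hmN : m ∈ normalizer ((Q : Subgroup G) : Set G) :=
      (normalizer _).mul_mem ((normalizer _).inv_mem (le_normalizer heQ)) hn
    have hnem : n = e * m := by rw [hm]; group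
    by_cases hm1 : m = 1
    · left
      rw [hnem, hm1, mul_one]
      exact heQ
    · right
      -- `m` is an involution commuting with `t`
      have hmo : orderOf m = 2 := (H.order_eq_of_commute hm1 ht1 hmc).trans (H.orderOf_two ht ht1)
      have hm2 : m ^ 2 = 1 := by rw [← hmo]; exact pow_orderOf_eq_one m
      have hminv := hinvN m hmN hm2 hm1
      have hmt : m * t ∈ (Q : Subgroup G) := by
        rw [← hcy, mem_cen]
        have h1 := hminv y hyQ
        have h2 : m * t * y * (m * t)⁻¹ = y := by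
          calc m * t * y * (m * t)⁻¹ = m * (t * y * t⁻¹) * m⁻¹ := by group
            _ = m * y⁻¹ * m⁻¹ := by rw [htinv]
            _ = (m * y * m⁻¹)⁻¹ := by group
            _ = y := by rw [h1, inv_inv]
        calc m * t * y = m * t * y * (m * t)⁻¹ * (m * t) := by group
          _ = y * (m * t) := by rw [h2]
      have hmt2 : (m * t) ^ 2 = 1 := by
        rw [(show Commute m t from hmc).mul_pow, hm2, ht, one_mul]
      have hmt1 : m * t = 1 := by
        by_contra hne1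
        have h1 := H.orderOf_of_mem Q.2 hmt hne1
        have h2 := H.orderOf_two hmt2 hne1
        exact hℓ2 (h1.symm.trans h2)
      rw [hnem, mul_assoc, hmt1, mul_one]
      exact heQ
  -- counting
  have hset : ((normalizer ((Q : Subgroup G) : Set G) : Subgroup G) : Set G) =
      ((Q : Subgroup G) : Set G) ∪ (fun c : G => c * t) '' ((Q : Subgroup G) : Set G) := by
    ext n
    simp only [SetLike.mem_coe, Set.mem_union, Set.mem_image]
    constructor
    · intro hn
      rcases hmem n hn with h | h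
      · exact Or.inl h
      · refine Or.inr ⟨n * t, h, ?_⟩
        rw [mul_assoc, htt1, mul_one]
    · rintro (h | ⟨c, hc, rfl⟩)
      · exact le_normalizer h
      · exact (normalizer _).mul_mem (le_normalizer hc) htN
  have hdisj : Disjoint ((Q : Subgroup G) : Set G) ((fun c : G => c * t) '' ((Q : Subgroup G) : Set G)) := by
    rw [Set.disjoint_left]
    rintro x hx ⟨c, hc, rfl⟩
    apply htQ
    have : t = c⁻¹ * (c * t) := by group
    rw [this]
    exact Q.1.mul_mem (Q.1.inv_mem hc) hx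
  have h1 : Nat.card (normalizer ((Q : Subgroup G) : Set G)) =
      Set.ncard (((normalizer ((Q : Subgroup G) : Set G)) : Subgroup G) : Set G) :=
    Nat.card_coe_set_eq _
  have h2 : Nat.card Q = Set.ncard (((Q : Subgroup G)) : Set G) := Nat.card_coe_set_eq _
  rw [h1, h2, hset]
  rw [Set.ncard_union_eq hdisj, Set.ncard_image_of_injective _ (mul_left_injective t), two_mul]

end Hyp

end Cfsg.Agent.Lib.Char.Orbit4
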