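import Cfsg.Agent.Lib.Char.Orbit4d

/-! # Four automorphism orbits: numerology of the even case. -/

set_option autoImplicit false

namespace Cfsg.Agent.Lib.Char.Orbit4

open Subgroup
open scoped Pointwise

universe u

/-- An elementary fact on Mersenne prime powers. -/
theorem pow_add_one_eq_two_pow {p c k : ℕ} (hp : p.Prime) (hp2 : p ≠ 2) (hc : c ≠ 0) (hk : 2 ≤ k)
    (h : p ^ c + 1 = 2 ^ k) : c = 1 := by
  have hodd : Odd p := hp.odd_of_ne_two hp2
  rcases Nat.even_or_odd c with he | ho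
  · exfalso
    obtain ⟨e, rfl⟩ := he
    have h4 : 4 ∣ 2 ^ k := by
      have : (2 : ℕ) ^ 2 ∣ 2 ^ k := pow_dvd_pow 2 hk
      simpa using this
    have hpe : Odd (p ^ e) := hodd.pow
    obtain ⟨w, hw⟩ := hpe
    rw [pow_add, hw] at h
    rw [← h] at h4
    have : (2 * w + 1) * (2 * w + 1) + 1 = 4 * (w * w + w) + 2 := by ring
    rw [this] at h4
    omega
  · obtain ⟨m, hm, hm2⟩ := (Nat.dvd_prime_pow Nat.prime_two).1
      (h ▸ (by simpa using ho.nat_add_dvd_pow_add_pow p 1 : p + 1 ∣ p ^ c + 1))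
    obtain ⟨w, hw⟩ := hodd
    obtain ⟨e, rfl⟩ := ho
    have hsq : p ^ 2 ≡ 1 [MOD 2 ^ (m + 1)] := by
      have h1 : p ^ 2 = 1 + (p - 1) * (p + 1) := by
        obtain ⟨w', rfl⟩ : ∃ w', p = w' + 1 := ⟨p - 1, by have := hp.pos; omega⟩
        simp only [Nat.add_sub_cancel]
        ring
      rw [h1, hm2, hw]
      have h2 : 2 * w + 1 - 1 = w * 2 := by omega
      rw [h2, Nat.ModEq, pow_succ 2 m]
      have : 1 + w * 2 * 2 ^ m = 1 + (2 ^ m * 2) * w := by ring
      rw [this, Nat.add_mul_mod_self_left]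
    have hpow : p ^ (2 * e + 1) ≡ p [MOD 2 ^ (m + 1)] := by
      have h1 : p ^ (2 * e + 1) = (p ^ 2) ^ e * p := by rw [pow_succ, pow_mul]
      rw [h1]
      simpa using (hsq.pow e).mul_right p
    have hmodeq : 2 ^ k ≡ 2 ^ m [MOD 2 ^ (m + 1)] := by
      rw [← h, ← hm2]
      exact hpow.add_right 1
    have hkm : k ≤ m := by
      by_contra hlt
      have h1 : 2 ^ (m + 1) ∣ 2 ^ k := pow_dvd_pow 2 (by omega)
      have h2 : 2 ^ (m + 1) ∣ 2 ^ m := (Nat.modEq_zero_iff_dvd.1 (hmodeq.symm.trans (Nat.modEq_zero_iff_dvd.2 h1)))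
      have := Nat.le_of_dvd (by positivity) h2
      have h3 : 2 ^ m < 2 ^ (m + 1) := Nat.pow_lt_pow_right (by norm_num) (by omega)
      omega
    have hmk : k = m := le_antisymm hkm hm
    rw [hmk, ← hm2] at h
    have h5 : p ^ (2 * e + 1) = p ^ 1 := by simpa using h
    exact Nat.pow_right_injective hp.two_le h5

/-- Solving the equation `2ab + 2 = q(a+b)` under the constraint on `a`. -/
theorem solve_eq {q a b : ℤ} (hq : 4 ≤ q) (ha : q - 1 ≤ a) (h : 2 * a * b + 2 = q * (a + b))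
    (hcase : a = q - 1 ∨ (q - 1) ^ 2 ≤ a) : a = q - 1 ∧ b = q + 1 := by
  have hfac : (2 * a - q) * (2 * b - q) = q ^ 2 - 4 := by linear_combination 2 * h
  have hA : 0 < 2 * a - q := by linarith
  have hB : 0 < 2 * b - q := by
    by_contra hn
    push Not at hn
    nlinarith
  rcases hcase with hc | hc
  · refine ⟨hc, ?_⟩
    subst hc
    have hq2 : q - 2 ≠ 0 := by intro h0; linarith
    apply mul_left_cancel₀ hq2
    linear_combination h
  · exfalso
    have hB1 : 1 ≤ 2 * b - q := by linarith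
    have h1 : 2 * a - q ≤ q ^ 2 - 4 := by
      rw [← hfac]
      nlinarith
    nlinarith

theorem three_dvd_two_pow (k : ℕ) : 3 ∣ 2 ^ k - 1 ∨ 3 ∣ 2 ^ k + 1 := by
  induction k with
  | zero => left; simp
  | succ n ih =>
    have hpos : 1 ≤ 2 ^ n := Nat.one_le_two_pow
    rcases ih with h | h
    · right
      obtain ⟨w, hw⟩ := h
      refine ⟨2 * w + 1, ?_⟩
      rw [pow_succ]
      omega
    · left
      obtain ⟨w, hw⟩ := h
      refine ⟨2 * w - 1, ?_⟩
      have : 1 ≤ w := by omega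
      rw [pow_succ]
      omega

end Cfsg.Agent.Lib.Char.Orbit4
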