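import Cfsg.Agent.Lib.Char.Orbit4e

/-! # Four automorphism orbits: counting in the even case. -/

set_option autoImplicit false

namespace Cfsg.Agent.Lib.Char.Orbit4

open Subgroup
open scoped Pointwise

universe u

variable {G : Type u} [Group G]

namespace Hyp

variable (H : Hyp G) [Finite G]
include H

/-- An element of the two point stabilizer fixing a non-identity element of `E₁` is trivial. -/
theorem D_fix {E₁ E₂ : Sylow 2 G} (hne : E₁ ≠ E₂) {u d : G} (hu : u ∈ E₁) (hu1 : u ≠ 1)
    (hd : d ∈ (normalizer (E₁ : Set G) ⊓ normalizer (E₂ : Set G) : Subgroup G))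
    (hc : d * u = u * d) : d = 1 := by
  have h1 : d ∈ (E₁ : Subgroup G) := by
    rw [← H.cen_eq_two E₁ hu hu1]
    exact mem_cen.2 hc
  exact H.ti_two hne h1 (mem_of_sq_of_smul_eq E₂ (H.sq_eq_one E₁ h1)
    (Sylow.smul_eq_iff_mem_normalizer.2 hd.2))

theorem card_normalizer_two {E₁ E₂ : Sylow 2 G} (hne : E₁ ≠ E₂) (heven : 2 ∣ Nat.card G)
    (hD : Nat.card (normalizer (E₁ : Set G) ⊓ normalizer (E₂ : Set G) : Subgroup G) + 1 = Nat.card E₁) :
    Nat.card (normalizer (E₁ : Set G)) =
      Nat.card (normalizer (E₁ : Set G) ⊓ normalizer (E₂ : Set G) : Subgroup G) * Nat.card E₁ := by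
  classical
  set D : Subgroup G := normalizer (E₁ : Set G) ⊓ normalizer (E₂ : Set G) with hDdef
  have hne₁ : (E₁ : Subgroup G) ≠ ⊥ := E₁.ne_bot_of_dvd_card heven
  obtain ⟨u₀, hu₀, hu₀1⟩ := (Subgroup.bot_or_exists_ne_one _).resolve_left hne₁
  let A : Set G := ((E₁ : Subgroup G) : Set G) \ {1}
  have hAcard : Nat.card A + 1 = Nat.card E₁ := ncard_nonid _
  have hmemA : ∀ n ∈ normalizer (E₁ : Set G), n * u₀ * n⁻¹ ∈ A := by
    intro n hn
    refine ⟨(Subgroup.mem_normalizer_iff.1 hn u₀).1 hu₀, ?_⟩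
    intro h
    apply hu₀1
    have h' : n * u₀ * n⁻¹ = 1 := h
    have : u₀ = n⁻¹ * (n * u₀ * n⁻¹) * n := by group
    rw [this, h']
    group
  let f : D → A := fun d => ⟨_, hmemA d d.2.1⟩
  have hf : Function.Injective f := by
    intro d d' hdd
    have h1 : (d : G) * u₀ * (d : G)⁻¹ = (d' : G) * u₀ * (d' : G)⁻¹ := congrArg Subtype.val hdd
    have hcD : (d' : G)⁻¹ * d ∈ D := D.mul_mem (D.inv_mem d'.2) d.2
    have hc1 : (d' : G)⁻¹ * d = 1 := by
      refine H.D_fix hne hu₀ hu₀1 hcD ?_
      calc (d' : G)⁻¹ * d * u₀ = (d' : G)⁻¹ * ((d : G) * u₀ * (d : G)⁻¹) * d := by group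
        _ = (d' : G)⁻¹ * ((d' : G) * u₀ * (d' : G)⁻¹) * d := by rw [h1]
        _ = u₀ * ((d' : G)⁻¹ * d) := by group
    apply Subtype.ext
    rw [inv_mul_eq_one] at hc1
    exact hc1.symm
  have hfb : Function.Bijective f := hf.bijective_of_nat_card_le (by omega)
  let Φ : D × (E₁ : Subgroup G) → normalizer (E₁ : Set G) := fun x =>
    ⟨(x.1 : G) * (x.2 : G), (normalizer _).mul_mem x.1.2.1 (le_normalizer x.2.2)⟩
  have hΦ : Function.Bijective Φ := by
    constructor
    · rintro ⟨d, e⟩ ⟨d', e'⟩ h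
      have h1 : (d : G) * e = (d' : G) * e' := congrArg Subtype.val h
      have h2 : (d' : G)⁻¹ * d = e' * (e : G)⁻¹ := by
        calc (d' : G)⁻¹ * d = (d' : G)⁻¹ * ((d : G) * e) * (e : G)⁻¹ := by group
          _ = (d' : G)⁻¹ * ((d' : G) * e') * (e : G)⁻¹ := by rw [h1]
          _ = _ := by group
      have hcE : (d' : G)⁻¹ * d ∈ (E₁ : Subgroup G) := by
        rw [h2]
        exact E₁.1.mul_mem e'.2 (E₁.1.inv_mem e.2)
      have hcD : (d' : G)⁻¹ * d ∈ D := D.mul_mem (D.inv_mem d'.2) d.2
      have hc1 : (d' : G)⁻¹ * d = 1 := H.ti_two hne hcE (mem_of_sq_of_smul_eq E₂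
        (H.sq_eq_one E₁ hcE) (Sylow.smul_eq_iff_mem_normalizer.2 hcD.2))
      have hdd : (d : G) = d' := by
        rw [inv_mul_eq_one] at hc1
        exact hc1.symm
      have hee : (e : G) = e' := by
        rw [hdd] at h1
        exact mul_left_cancel h1
      exact Prod.ext (Subtype.ext hdd) (Subtype.ext hee)
    · rintro ⟨n, hn⟩
      obtain ⟨d, hd⟩ := hfb.2 ⟨_, hmemA n hn⟩
      have h1 : (d : G) * u₀ * (d : G)⁻¹ = n * u₀ * n⁻¹ := congrArg Subtype.val hd
      have h2 : (d : G)⁻¹ * n ∈ (E₁ : Subgroup G) := by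
        rw [← H.cen_eq_two E₁ hu₀ hu₀1, mem_cen]
        calc (d : G)⁻¹ * n * u₀ = (d : G)⁻¹ * (n * u₀ * n⁻¹) * n := by group
          _ = (d : G)⁻¹ * ((d : G) * u₀ * (d : G)⁻¹) * n := by rw [h1]
          _ = u₀ * ((d : G)⁻¹ * n) := by group
      refine ⟨(d, ⟨_, h2⟩), Subtype.ext ?_⟩
      change (d : G) * ((d : G)⁻¹ * n) = n
      group
  rw [← Nat.card_congr (Equiv.ofBijective Φ hΦ), Nat.card_prod]

/-- The key count of involutions inverting elements. -/
theorem sum_count {p r : ℕ} [hp : Fact p.Prime] (hp2 : p ≠ 2) (hpr : p ≠ r)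
    (hall : ∀ g : G, g ≠ 1 → orderOf g = 2 ∨ orderOf g = p ∨ orderOf g = r)
    (hallp : ∀ y : G, orderOf y = p → ∃ t : G, t ^ 2 = 1 ∧ t ≠ 1 ∧ t * y * t⁻¹ = y⁻¹)
    (hnor : ∀ g t : G, orderOf g = r → t ^ 2 = 1 → t ≠ 1 → t * g * t⁻¹ ≠ g⁻¹)
    (E : Sylow 2 G) (P : Sylow p G) :
    Set.ncard {g : G | orderOf g = 2} * (Set.ncard {g : G | orderOf g = 2} + 1) =
      Set.ncard {g : G | orderOf g = 2} * Nat.card E +
        Set.ncard {g : G | orderOf g = p} * Nat.card P := by
  classical
  letI : Fintype G := Fintype.ofFinite G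
  let Tf : Finset G := Finset.univ.filter fun g => orderOf g = 2
  let Sf : Finset G := Finset.univ.filter fun g => orderOf g = p
  have hT : {g : G | orderOf g = 2} = (Tf : Set G) := by
    ext g; simp [Tf]
  have hS : {g : G | orderOf g = p} = (Sf : Set G) := by
    ext g; simp [Sf]
  rw [hT, hS, Set.ncard_coe_finset, Set.ncard_coe_finset]
  let R : G → G → Prop := fun t g => t * g * t⁻¹ = g⁻¹
  have hkey : ∀ t ∈ Tf, (Sf.filter (R t)).card + Nat.card E = Tf.card + 1 := by
    intro t ht
    have hto : orderOf t = 2 := by simpa [Tf] using ht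
    have ht2 : t ^ 2 = 1 := by rw [← hto]; exact pow_orderOf_eq_one t
    have ht1 : t ≠ 1 := by
      rintro rfl
      rw [orderOf_one] at hto
      exact absurd hto (by norm_num)
    have htt := inv_eq_of_sq ht2
    have htt1 : t * t = 1 := by rw [← pow_two, ht2]
    let X : Set G := {g | t * g * t⁻¹ = g⁻¹}
    let Y : Set G := {s | s ^ 2 = 1}
    have hXY : X = (fun s => s * t) '' Y := by
      ext g
      simp only [X, Y, Set.mem_ofPred_eq, Set.mem_image]
      constructor
      · intro hg
        refine ⟨g * t, ?_, ?_⟩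
        · rw [pow_two]
          calc g * t * (g * t) = g * (t * g * t⁻¹) * (t * t) := by group
            _ = 1 := by rw [hg, htt1]; group
        · rw [mul_assoc, htt1, mul_one]
      · rintro ⟨s, hs, rfl⟩
        rw [mul_inv_rev, htt, inv_eq_of_sq hs]
        calc t * (s * t) * t = (t * s) * (t * t) := by group
          _ = t * s := by rw [htt1, mul_one]
    have hYcard : Y.ncard = Tf.card + 1 := by
      have : Y = insert (1 : G) (Tf : Set G) := by
        ext s
        simp only [Y, Set.mem_ofPred_eq, Set.mem_insert_iff, Finset.mem_coe, Tf, Finset.mem_filter,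
          Finset.mem_univ, true_and]
        constructor
        · intro hs
          by_cases hs1 : s = 1
          · exact Or.inl hs1
          · exact Or.inr (H.orderOf_two hs hs1)
        · rintro (rfl | hs)
          · simp
          · rw [← hs]; exact pow_orderOf_eq_one s
      rw [this, Set.ncard_insert_of_notMem (by simp [Tf]), Set.ncard_coe_finset]
    have hXcard : X.ncard = Tf.card + 1 := by
      rw [hXY, Set.ncard_image_of_injective _ (mul_left_injective t), hYcard]
    obtain ⟨Et, hEt⟩ := H.exists_sylow_cen ht1 hto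
    have hEtcard : Nat.card (cen t) = Nat.card E := by
      rw [← hEt]
      exact Nat.card_congr (Sylow.equiv Et E).toEquiv
    have hXsplit : X = ((cen t : Subgroup G) : Set G) ∪ ((Sf.filter (R t) : Finset G) : Set G) := by
      ext g
      simp only [X, Set.mem_ofPred_eq, Set.mem_union, SetLike.mem_coe, Finset.mem_coe,
        Finset.mem_filter, Sf, Finset.mem_univ, true_and, R]
      constructor
      · intro hg
        by_cases hg1 : g = 1
        · left
          rw [hg1]
          exact (cen t).one_mem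
        rcases hall g hg1 with ho | ho | ho
        · left
          have hg2 : g ^ 2 = 1 := by rw [← ho]; exact pow_orderOf_eq_one g
          rw [inv_eq_of_sq hg2] at hg
          rw [mem_cen]
          calc g * t = t * g * t⁻¹ * t := by rw [hg]
            _ = t * g := by group
        · exact Or.inr ⟨ho, hg⟩
        · exact absurd hg (hnor g t ho ht2 ht1)
      · rintro (hg | ⟨_, hg⟩)
        · have hgE : g ∈ (Et : Subgroup G) := hEt ▸ hg
          rw [inv_eq_of_sq (H.sq_eq_one Et hgE)]
          have hc := mem_cen.1 hg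
          calc t * g * t⁻¹ = g * t * t⁻¹ := by rw [hc]
            _ = g := by group
        · exact hg
    have hdisj : Disjoint ((cen t : Subgroup G) : Set G) ((Sf.filter (R t) : Finset G) : Set G) := by
      rw [Set.disjoint_left]
      intro g hg hg'
      simp only [Finset.mem_coe, Finset.mem_filter, Sf, Finset.mem_univ, true_and] at hg'
      have hg1 : g ≠ 1 := by
        rintro rfl
        rw [orderOf_one] at hg'
        exact hp.out.ne_one hg'.1.symm
      have hgE : g ∈ (Et : Subgroup G) := hEt ▸ hg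
      have := H.orderOf_of_mem Et.2 hgE hg1
      exact hp2 (hg'.1.symm.trans this)
    rw [hXsplit, Set.ncard_union_eq hdisj, Set.ncard_coe_finset] at hXcard
    have h3 : Set.ncard ((cen t : Subgroup G) : Set G) = Nat.card E := by
      rw [← hEtcard]
      exact (Nat.card_coe_set_eq _).symm
    omega
  have hsum : ∑ t ∈ Tf, ((Sf.filter (R t)).card + Nat.card E) = ∑ _t ∈ Tf, (Tf.card + 1) :=
    Finset.sum_congr rfl hkey
  rw [Finset.sum_add_distrib, Finset.sum_const, Finset.sum_const, smul_eq_mul, smul_eq_mul] at hsum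
  have hdouble : ∑ t ∈ Tf, (Sf.filter (R t)).card = Sf.card * Nat.card P := by
    have h1 := Finset.sum_card_bipartiteAbove_eq_sum_card_bipartiteBelow (s := Tf) (t := Sf) R
    have h2 : ∑ t ∈ Tf, (Finset.bipartiteAbove R Sf t).card = ∑ t ∈ Tf, (Sf.filter (R t)).card := rfl
    rw [h2] at h1
    rw [h1, Finset.sum_congr rfl (g := fun _ => Nat.card P), Finset.sum_const, smul_eq_mul]
    intro g hg
    have hgo : orderOf g = p := by simpa [Sf] using hg
    have h3 := H.ncard_inverting hp2 hallp P hgo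
    have hgset : {s : G | s ^ 2 = 1 ∧ s * g * s⁻¹ = g⁻¹} = ((Finset.bipartiteBelow R Tf g : Finset G) : Set G) := by
      ext s
      simp only [Set.mem_ofPred_eq, Finset.mem_coe, Finset.mem_bipartiteBelow, Tf, Finset.mem_filter,
        Finset.mem_univ, true_and, R]
      constructor
      · rintro ⟨hs, hsg⟩
        refine ⟨H.orderOf_two hs ?_, hsg⟩
        rintro rfl
        simp only [one_mul, inv_one, mul_one] at hsg
        have hg2 : g ^ 2 = 1 := by
          rw [pow_two]
          nth_rewrite 1 [hsg]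
          exact inv_mul_cancel g
        have h4 := orderOf_dvd_of_pow_eq_one hg2
        rw [hgo] at h4
        exact hp2 ((Nat.prime_dvd_prime_iff_eq hp.out Nat.prime_two).1 h4)
      · rintro ⟨hs, hsg⟩
        refine ⟨?_, hsg⟩
        rw [← hs]
        exact pow_orderOf_eq_one s
    rw [hgset, Set.ncard_coe_finset] at h3
    exact h3
  rw [hdouble] at hsum
  linarith

end Hyp

end Cfsg.Agent.Lib.Char.Orbit4
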