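import Cfsg.Agent.Lib.Char.Orbit4f

/-! # Four automorphism orbits: the numerology of the even case, assembled. -/

set_option autoImplicit false

namespace Cfsg.Agent.Lib.Char.Orbit4

open Subgroup
open scoped Pointwise

universe u

variable {G : Type u} [Group G]

theorem card_eq_mul_sylow [Finite G] {p₁ p₂ p₃ : ℕ} [Fact p₁.Prime] [Fact p₂.Prime] [Fact p₃.Prime]
    (h12 : p₁ ≠ p₂) (h13 : p₁ ≠ p₃) (h23 : p₂ ≠ p₃)
    (hprimes : ∀ d : ℕ, d.Prime → d ∣ Nat.card G → d = p₁ ∨ d = p₂ ∨ d = p₃)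
    (P₁ : Sylow p₁ G) (P₂ : Sylow p₂ G) (P₃ : Sylow p₃ G) :
    Nat.card G = Nat.card P₁ * Nat.card P₂ * Nat.card P₃ := by
  classical
  have h := Nat.prod_factorization_pow_eq_self (Nat.card_pos (α := G)).ne'
  have hsub : (Nat.card G).factorization.support ⊆ {p₁, p₂, p₃} := by
    intro d hd
    rw [Nat.support_factorization, Nat.mem_primeFactors] at hd
    simpa using hprimes d hd.1 hd.2.1
  rw [Finsupp.prod_of_support_subset _ hsub _ (by simp)] at h
  rw [Finset.prod_insert (by simp [h12, h13]), Finset.prod_insert (by simp [h23]),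
    Finset.prod_singleton] at h
  rw [Sylow.card_eq_multiplicity P₁, Sylow.card_eq_multiplicity P₂, Sylow.card_eq_multiplicity P₃]
  rw [mul_assoc]
  exact h.symm

namespace Hyp

variable (H : Hyp G) [Finite G]
include H

/-- The numerology. -/
theorem numerics {p r : ℕ} [hp : Fact p.Prime] [hr : Fact r.Prime] (hp2 : p ≠ 2) (hr2 : r ≠ 2)
    (hpr : p ≠ r) (hdp : p ∣ Nat.card G) (hdr : r ∣ Nat.card G)
    (hall : ∀ g : G, g ≠ 1 → orderOf g = 2 ∨ orderOf g = p ∨ orderOf g = r)
    (hallp : ∀ y : G, orderOf y = p → ∃ t : G, t ^ 2 = 1 ∧ t ≠ 1 ∧ t * y * t⁻¹ = y⁻¹)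
    (E : Sylow 2 G) (P : Sylow p G) (Q : Sylow r G)
    (hq : Nat.card E = p + 1) (hq4 : 4 ≤ Nat.card E)
    (hNE : Nat.card (normalizer (E : Set G)) = p * Nat.card E) :
    Nat.card P = p ∧ Nat.card Q = p + 2 ∧ Nat.card (Sylow 2 G) = p + 2 ∧
      (∀ y : G, orderOf y = r → ∃ t : G, t ^ 2 = 1 ∧ t ≠ 1 ∧ t * y * t⁻¹ = y⁻¹) ∧
      2 * Set.ncard {g : G | orderOf g = r} = (p + 1) * p * (p + 1) := by
  classical
  have hprimes : ∀ d : ℕ, d.Prime → d ∣ Nat.card G → d = 2 ∨ d = p ∨ d = r := by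
    intro d hd hdvd
    haveI := Fact.mk hd
    obtain ⟨x, hx⟩ := exists_prime_orderOf_dvd_card' d hdvd
    have hx1 : x ≠ 1 := by
      rintro rfl
      rw [orderOf_one] at hx
      exact hd.ne_one hx.symm
    rw [← hx]
    exact hall x hx1
  set q := Nat.card E with hqdef
  set a := Nat.card P with hadef
  set b := Nat.card Q with hbdef
  have hG : Nat.card G = q * a * b :=
    card_eq_mul_sylow (Ne.symm hp2) (Ne.symm hr2) hpr hprimes E P Q
  have hapos : 0 < a := Nat.card_pos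
  have hbpos : 0 < b := Nat.card_pos
  have hqpos : 0 < q := Nat.card_pos
  -- `p` divides `a`
  obtain ⟨i, hi⟩ := IsPGroup.iff_card.1 P.2
  have hi0 : i ≠ 0 := by
    rintro rfl
    have hne : (P : Subgroup G) ≠ ⊥ := P.ne_bot_of_dvd_card hdp
    have : (P : Subgroup G) = ⊥ := by
      rw [← Subgroup.card_eq_one]
      simpa using hi
    exact hne this
  have hi' : a = p ^ i := hi
  have hale : p ≤ a := by
    rw [hi']
    calc p = p ^ 1 := (pow_one p).symm
      _ ≤ p ^ i := Nat.pow_le_pow_right hp.out.pos (by omega)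
  have hacase : a = p ∨ p ^ 2 ≤ a := by
    by_cases h1 : i = 1
    · left; rw [hi', h1, pow_one]
    · right
      rw [hi']
      exact Nat.pow_le_pow_right hp.out.pos (by omega)
  -- involutions
  have hT0 := H.ncard_order_comm E (fun a b ha hb => H.comm_two E ha hb)
  rw [← hqdef, hq] at hT0
  simp only [Nat.add_sub_cancel] at hT0
  have hn2 : Nat.card (Sylow 2 G) * (p * q) = Nat.card G := by
    rw [← hNE, Sylow.card_eq_index_normalizer E]
    exact Subgroup.index_mul_card _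
  have hT : Set.ncard {g : G | orderOf g = 2} = a * b := by
    have h1 : Set.ncard {g : G | orderOf g = 2} * q = q * (a * b) := by
      rw [hT0, ← mul_assoc q a b, ← hG, ← hn2]
      ring
    rw [mul_comm] at h1
    exact Nat.eq_of_mul_eq_mul_left hqpos h1
  -- `p`-elements
  have hS0 := H.ncard_order_comm P (fun a b ha hb => H.comm_sylow hp2 hallp P ha hb)
  have hnP : Nat.card (Sylow p G) * (2 * a) = Nat.card G := by
    rw [← H.card_normalizer hp2 hallp hdp P, Sylow.card_eq_index_normalizer P]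
    exact Subgroup.index_mul_card _
  have hnP2 : 2 * Nat.card (Sylow p G) = q * b := by
    have h1 : a * (2 * Nat.card (Sylow p G)) = a * (q * b) := by
      calc a * (2 * Nat.card (Sylow p G)) = Nat.card (Sylow p G) * (2 * a) := by ring
        _ = q * a * b := by rw [hnP, hG]
        _ = a * (q * b) := by ring
    exact Nat.eq_of_mul_eq_mul_left hapos h1
  -- the existence of an inverted `r`-element
  have hexr : ∃ g t : G, orderOf g = r ∧ t ^ 2 = 1 ∧ t ≠ 1 ∧ t * g * t⁻¹ = g⁻¹ := by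
    by_contra hcon
    push Not at hcon
    have hc := H.sum_count hp2 hpr hall hallp hcon E P
    rw [← hqdef, ← hadef, hT, hS0, ← hadef] at hc
    generalize Nat.card (Sylow p G) = nP at hc hnP2
    obtain ⟨a', ha'⟩ : ∃ a', a = a' + 1 := ⟨a - 1, by omega⟩
    rw [ha'] at hc hale
    simp only [Nat.add_sub_cancel] at hc
    -- `2(ab + 1) = q(a + 1)`
    have h1 : 2 * ((a' + 1) * b + 1) = q * (a' + 1 + 1) := by
      have h2 : (a' + 1) * b * (2 * ((a' + 1) * b + 1)) = (a' + 1) * b * (q * (a' + 1 + 1)) := by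
        have h3 : 2 * ((a' + 1) * b * ((a' + 1) * b + 1)) = 2 * ((a' + 1) * b * q + nP * a' * (a' + 1)) := by
          rw [hc]
        have h4 : 2 * (nP * a' * (a' + 1)) = (2 * nP) * a' * (a' + 1) := by ring
        rw [hnP2] at h4
        nlinarith
      exact Nat.eq_of_mul_eq_mul_left (Nat.mul_pos (Nat.succ_pos a') hbpos) h2
    -- hence `a ∣ q - 2`
    have h5 : (q : ℤ) - 2 = ((a' : ℤ) + 1) * (2 * (b : ℤ) - q) := by
      have : ((2 * ((a' + 1) * b + 1) : ℕ) : ℤ) = ((q * (a' + 1 + 1) : ℕ) : ℤ) := by rw [h1]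
      push_cast at this
      linarith
    have h6 : ((a' : ℤ) + 1) ∣ (q : ℤ) - 2 := ⟨_, h5⟩
    have h7 : (0 : ℤ) < (q : ℤ) - 2 := by
      have : (4 : ℤ) ≤ q := by exact_mod_cast hq4
      linarith
    have h8 := Int.le_of_dvd h7 h6
    have h9 : (q : ℤ) = p + 1 := by exact_mod_cast hq
    have h10 : (p : ℤ) ≤ a' + 1 := by exact_mod_cast hale
    linarith
  obtain ⟨g₀, t₀, hg₀, ht₀, ht₀1, hinv₀⟩ := hexr
  have hallr : ∀ y : G, orderOf y = r → ∃ t : G, t ^ 2 = 1 ∧ t ≠ 1 ∧ t * y * t⁻¹ = y⁻¹ :=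
    fun y hy => H.inv_all ht₀ ht₀1 hinv₀ (hy.trans hg₀.symm)
  -- `r`-elements
  have hR0 := H.ncard_order_comm Q (fun a b ha hb => H.comm_sylow hr2 hallr Q ha hb)
  have hnR : Nat.card (Sylow r G) * (2 * b) = Nat.card G := by
    rw [← H.card_normalizer hr2 hallr hdr Q, Sylow.card_eq_index_normalizer Q]
    exact Subgroup.index_mul_card _
  have hnR2 : 2 * Nat.card (Sylow r G) = q * a := by
    have h1 : b * (2 * Nat.card (Sylow r G)) = b * (q * a) := by
      calc b * (2 * Nat.card (Sylow r G)) = Nat.card (Sylow r G) * (2 * b) := by ring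
        _ = q * a * b := by rw [hnR, hG]
        _ = b * (q * a) := by ring
    exact Nat.eq_of_mul_eq_mul_left hbpos h1
  -- class equation
  have hce := card_eq_sum (G := G) (Ne.symm hp2) (Ne.symm hr2) hpr (by norm_num) hp.out.ne_one
    hr.out.ne_one hall
  rw [hT, hS0, hR0, hG, ← hadef, ← hbdef] at hce
  generalize hnPdef : Nat.card (Sylow p G) = nP at hce hnP2
  generalize hnRdef : Nat.card (Sylow r G) = nR at hce hnR2 hnR
  have hmain : 2 * (a : ℤ) * b + 2 = q * (a + b) := by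
    have e1 : ((a - 1 : ℕ) : ℤ) = (a : ℤ) - 1 := by
      rw [Nat.cast_sub hapos]; simp
    have e2 : ((b - 1 : ℕ) : ℤ) = (b : ℤ) - 1 := by
      rw [Nat.cast_sub hbpos]; simp
    have h1 : ((q * a * b : ℕ) : ℤ) = ((1 + a * b + nP * (a - 1) + nR * (b - 1) : ℕ) : ℤ) := by
      rw [← hce]
    push_cast at h1
    rw [e1, e2] at h1
    have h2 : (2 : ℤ) * nP = q * b := by exact_mod_cast hnP2
    have h3 : (2 : ℤ) * nR = q * a := by exact_mod_cast hnR2
    have h4 : (2 : ℤ) * (nP * ((a : ℤ) - 1)) = q * b * ((a : ℤ) - 1) := by rw [← h2]; ring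
    have h5 : (2 : ℤ) * (nR * ((b : ℤ) - 1)) = q * a * ((b : ℤ) - 1) := by rw [← h3]; ring
    linear_combination (-2 : ℤ) * h1 - h4 - h5
  have hq4' : (4 : ℤ) ≤ q := by exact_mod_cast hq4
  have hqp : (q : ℤ) - 1 = p := by
    have : (q : ℤ) = p + 1 := by exact_mod_cast hq
    linarith
  have hsol := solve_eq hq4' (by rw [hqp]; exact_mod_cast hale) hmain (by
    rw [hqp]
    rcases hacase with h | h
    · left; exact_mod_cast h
    · right; exact_mod_cast h)
  rw [hqp] at hsol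
  have hap : a = p := by exact_mod_cast hsol.1
  have hbp : b = p + 2 := by
    have h := hsol.2
    have : (q : ℤ) = p + 1 := by exact_mod_cast hq
    rw [this] at h
    have h' : (b : ℤ) = ((p + 2 : ℕ) : ℤ) := by
      rw [h]; push_cast; ring
    exact_mod_cast h'
  refine ⟨hap, hbp, ?_, hallr, ?_⟩
  · -- number of Sylow `2`-subgroups
    have h1 : Nat.card (Sylow 2 G) * (p * q) = (p + 2) * (p * q) := by
      rw [hn2, hG, hap, hbp, hq]
      ring
    exact Nat.eq_of_mul_eq_mul_right (Nat.mul_pos hp.out.pos hqpos) h1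
  · rw [hR0, ← hbdef, hbp]
    have h6 : p + 2 - 1 = p + 1 := by omega
    rw [h6]
    have h2 : 2 * Nat.card (Sylow r G) = q * a := by rw [hnRdef]; exact hnR2
    calc 2 * (Nat.card (Sylow r G) * (p + 1)) = (2 * Nat.card (Sylow r G)) * (p + 1) := by ring
      _ = (p + 1) * p * (p + 1) := by rw [h2, hq, hap]

end Hyp

end Cfsg.Agent.Lib.Char.Orbit4
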