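import Cfsg.Agent.Lib.Char.Orbit4g

/-! # Four automorphism orbits: the final assembly. -/

set_option autoImplicit false

namespace Cfsg.Agent.Lib.Char.Orbit4

open Subgroup
open scoped Pointwise

universe u

variable {G : Type u} [Group G]

namespace Hyp

variable (H : Hyp G) [Finite G]
include H

/-- Three point stabilizers are trivial once there are `q + 1` Sylow 2-subgroups. -/
theorem three_pt {E₁ E₂ E₃ : Sylow 2 G} (hn : Nat.card (Sylow 2 G) = Nat.card E₁ + 1)
    (h12 : E₁ ≠ E₂) (h13 : E₁ ≠ E₃) (h23 : E₂ ≠ E₃) {g : G} (h1 : g • E₁ = E₁) (h2 : g • E₂ = E₂)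
    (h3 : g • E₃ = E₃) : g = 1 := by
  classical
  have hsmulE₁ : ∀ e ∈ (E₁ : Subgroup G), e • E₁ = E₁ := fun e he =>
    Sylow.smul_eq_iff_mem_normalizer.2 (le_normalizer he)
  -- `E₁` is transitive on the other points
  let T : Set (Sylow 2 G) := {E₁}ᶜ
  have hTcard : Nat.card T = Nat.card E₁ := by
    have h := Set.ncard_add_ncard_compl ({E₁} : Set (Sylow 2 G))
    rw [Set.ncard_singleton, hn] at h
    rw [Nat.card_coe_set_eq]
    change ({E₁}ᶜ : Set (Sylow 2 G)).ncard = _
    omega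
  have hmemT : ∀ e : (E₁ : Subgroup G), (e : G) • E₂ ∈ T := by
    intro e he
    apply h12
    have he' : (e : G) • E₂ = E₁ := he
    have h5 : ((e : G)⁻¹) • E₁ = E₂ := inv_smul_eq_iff.2 he'.symm
    exact (hsmulE₁ _ (E₁.1.inv_mem e.2)).symm.trans h5
  have hcE₂ : ∀ c ∈ (E₁ : Subgroup G), c • E₂ = E₂ → c = 1 := fun c hc hcs =>
    H.ti_two h12 hc (mem_of_sq_of_smul_eq E₂ (H.sq_eq_one E₁ hc) hcs)
  let φ : ↥(E₁ : Subgroup G) → T := fun e => ⟨_, hmemT e⟩
  have hφ : Function.Injective φ := by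
    intro e e' hee
    have h4 : (e : G) • E₂ = (e' : G) • E₂ := congrArg Subtype.val hee
    have h5 : ((e' : G)⁻¹ * e) • E₂ = E₂ := by
      rw [mul_smul, h4, inv_smul_smul]
    have h6 := hcE₂ _ (E₁.1.mul_mem (E₁.1.inv_mem e'.2) e.2) h5
    apply Subtype.ext
    rw [inv_mul_eq_one] at h6
    exact h6.symm
  have hφb : Function.Bijective φ := hφ.bijective_of_nat_card_le (by rw [hTcard])
  obtain ⟨e, he⟩ := hφb.2 ⟨E₃, fun h => h13 (Set.mem_singleton_iff.1 h).symm⟩
  have he' : (e : G) • E₂ = E₃ := congrArg Subtype.val he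
  have he1 : (e : G) ≠ 1 := by
    intro h
    rw [h, one_smul] at he'
    exact h23 he'
  have hgN : g ∈ normalizer (E₁ : Set G) := Sylow.smul_eq_iff_mem_normalizer.1 h1
  have hee : g * e * g⁻¹ ∈ (E₁ : Subgroup G) := (Subgroup.mem_normalizer_iff.1 hgN _).1 e.2
  have h7 : (g * e * g⁻¹) • E₂ = (e : G) • E₂ := by
    have h8 : g⁻¹ • E₂ = E₂ := by
      nth_rewrite 1 [← h2]
      rw [inv_smul_smul]
    rw [mul_smul, h8, mul_smul, he', h3]
  have h9 : ((e : G)⁻¹ * (g * e * g⁻¹)) • E₂ = E₂ := by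
    rw [mul_smul, h7, inv_smul_smul]
  have h10 := hcE₂ _ (E₁.1.mul_mem (E₁.1.inv_mem e.2) hee) h9
  have h11 : g * e * g⁻¹ = e := by
    rw [inv_mul_eq_one] at h10
    exact h10.symm
  have hgE : g ∈ (E₁ : Subgroup G) := by
    rw [← H.cen_eq_two E₁ e.2 he1, mem_cen]
    calc g * e = g * e * g⁻¹ * g := by group
      _ = e * g := by rw [h11]
  exact hcE₂ g hgE h2

omit H in
/-- The identification with `A₅`. -/
theorem final_iso (hG : Nat.card G = 60) (hn : Nat.card (Sylow 2 G) = 5)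
    (h3 : ∀ {E₁ E₂ E₃ : Sylow 2 G}, E₁ ≠ E₂ → E₁ ≠ E₃ → E₂ ≠ E₃ → ∀ {g : G}, g • E₁ = E₁ →
      g • E₂ = E₂ → g • E₃ = E₃ → g = 1) : Nonempty (G ≃* alternatingGroup (Fin 5)) := by
  classical
  letI : Fintype (Sylow 2 G) := Fintype.ofFinite _
  have hcard : Fintype.card (Sylow 2 G) = 5 := by rw [← Nat.card_eq_fintype_card, hn]
  obtain ⟨E₁, E₂, E₃, h12, h13, h23⟩ := Fintype.two_lt_card_iff.1 (by omega : 2 < Fintype.card (Sylow 2 G))
  let e : Sylow 2 G ≃ Fin 5 := Fintype.equivFinOfCardEq hcard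
  let φ : G →* Equiv.Perm (Sylow 2 G) := MulAction.toPermHom G (Sylow 2 G)
  let ψ : G →* Equiv.Perm (Fin 5) := (Equiv.permCongrHom e).toMonoidHom.comp φ
  have hψ : Function.Injective ψ := by
    rw [injective_iff_map_eq_one]
    intro g hg
    have hφ : φ g = 1 := by
      have h1 : (Equiv.permCongrHom e) (φ g) = 1 := hg
      exact (map_eq_one_iff _ (Equiv.permCongrHom e).injective).1 h1
    have hfix : ∀ E : Sylow 2 G, g • E = E := fun E => by
      have := congrArg (fun f : Equiv.Perm (Sylow 2 G) => f E) hφ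
      simpa [φ] using this
    exact h3 h12 h13 h23 (hfix _) (hfix _) (hfix _)
  have hrange : ψ.range = alternatingGroup (Fin 5) := by
    apply Equiv.Perm.eq_alternatingGroup_of_index_eq_two
    have h1 : Nat.card ψ.range = 60 := by
      rw [← hG]
      exact Nat.card_congr (MonoidHom.ofInjective hψ).toEquiv.symm
    have h2 := Subgroup.index_mul_card ψ.range
    rw [h1, Nat.card_perm] at h2
    simp [Nat.card_eq_fintype_card, Nat.factorial] at h2
    omega
  exact ⟨(MonoidHom.ofInjective hψ).trans (MulEquiv.subgroupCongr hrange)⟩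

/-- The core of the even order case. -/
theorem core {p r : ℕ} [hp : Fact p.Prime] [hr : Fact r.Prime] (hp2 : p ≠ 2) (hr2 : r ≠ 2)
    (hpr : p ≠ r) (hdp : p ∣ Nat.card G) (hdr : r ∣ Nat.card G)
    (hall : ∀ g : G, g ≠ 1 → orderOf g = 2 ∨ orderOf g = p ∨ orderOf g = r)
    (hallp : ∀ y : G, orderOf y = p → ∃ t : G, t ^ 2 = 1 ∧ t ≠ 1 ∧ t * y * t⁻¹ = y⁻¹)
    (E : Sylow 2 G) (hq : Nat.card E = p + 1) (hq4 : 4 ≤ Nat.card E)
    (hNE : Nat.card (normalizer (E : Set G)) = p * Nat.card E) :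
    Nonempty (G ≃* alternatingGroup (Fin 5)) := by
  classical
  let P : Sylow p G := default
  let Q : Sylow r G := default
  obtain ⟨hap, hbp, hn, hallr, hSr⟩ := H.numerics hp2 hr2 hpr hdp hdr hall hallp E P Q hq hq4 hNE
  have hprimes : ∀ d : ℕ, d.Prime → d ∣ Nat.card G → d = 2 ∨ d = p ∨ d = r := by
    intro d hd hdvd
    haveI := Fact.mk hd
    obtain ⟨x, hx⟩ := exists_prime_orderOf_dvd_card' d hdvd
    have hx1 : x ≠ 1 := by
      rintro rfl
      rw [orderOf_one] at hx
      exact hd.ne_one hx.symm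
    rw [← hx]
    exact hall x hx1
  have hG : Nat.card G = Nat.card E * Nat.card P * Nat.card Q :=
    card_eq_mul_sylow (Ne.symm hp2) (Ne.symm hr2) hpr hprimes E P Q
  have hcardE : ∀ E' : Sylow 2 G, Nat.card E' = p + 1 := fun E' => by
    rw [← hq]
    exact Nat.card_congr (Sylow.equiv E' E).toEquiv
  have hn' : ∀ E' : Sylow 2 G, Nat.card (Sylow 2 G) = Nat.card E' + 1 := fun E' => by
    rw [hcardE, hn]
  have h3 : ∀ {E₁ E₂ E₃ : Sylow 2 G}, E₁ ≠ E₂ → E₁ ≠ E₃ → E₂ ≠ E₃ → ∀ {g : G}, g • E₁ = E₁ →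
      g • E₂ = E₂ → g • E₃ = E₃ → g = 1 := fun {E₁ _ _} h12 h13 h23 _ h1 h2 h3 =>
    H.three_pt (hn' E₁) h12 h13 h23 h1 h2 h3
  obtain ⟨k, hk⟩ := IsPGroup.iff_card.1 E.2
  have hk' : p + 1 = 2 ^ k := hq.symm.trans hk
  have hk3 := three_dvd_two_pow k
  have hp1 : 2 ^ k - 1 = p := by omega
  have hp3 : 2 ^ k + 1 = p + 2 := by omega
  rw [hp1, hp3] at hk3
  rcases hk3 with h | h
  · -- `p = 3`
    have hp33 : p = 3 := ((Nat.prime_dvd_prime_iff_eq Nat.prime_three hp.out).1 h).symm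
    subst hp33
    refine final_iso ?_ ?_ h3
    · rw [hG, hq, hap, hbp]
    · rw [hn]
  · -- `r = 3`
    exfalso
    obtain ⟨j, hj⟩ := IsPGroup.iff_card.1 Q.2
    rw [hbp] at hj
    rw [hj] at h
    have hr3 : r = 3 := ((Nat.prime_dvd_prime_iff_eq Nat.prime_three hr.out).1
      (Nat.Prime.dvd_of_dvd_pow Nat.prime_three h)).symm
    subst hr3
    letI : Fintype G := Fintype.ofFinite G
    letI : Fintype (Sylow 2 G) := Fintype.ofFinite _
    let Sf : Finset G := Finset.univ.filter fun g => orderOf g = 3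
    have hSf : Set.ncard {g : G | orderOf g = 3} = Sf.card := by
      rw [← Set.ncard_coe_finset]
      congr 1
      ext g
      simp [Sf]
    rw [hSf] at hSr
    have hp3' : 3 ≠ p := fun h => hpr h.symm
    -- elements of order 3 fix no point
    have hnofix : ∀ g : G, orderOf g = 3 → g • E ≠ E := by
      intro g hg hfix
      have h1 : g ∈ normalizer (E : Set G) := Sylow.smul_eq_iff_mem_normalizer.1 hfix
      have h2 : 3 ∣ Nat.card (normalizer (E : Set G)) := by
        rw [← hg]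
        have := orderOf_dvd_natCard (⟨g, h1⟩ : normalizer (E : Set G))
        rwa [Subgroup.orderOf_mk] at this
      rw [hNE, hq] at h2
      rcases (Nat.prime_three.dvd_mul).1 h2 with h4 | h4
      · exact hp3' ((Nat.prime_dvd_prime_iff_eq Nat.prime_three hp.out).1 h4)
      · have h5 : 3 ∣ p + 2 := by
          have := Nat.prime_three.dvd_of_dvd_pow h
          have h6 : (3 : ℕ) ∣ 3 ^ j := by
            rcases j with _ | j
            · simp only [pow_zero] at hj
              omega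
            · exact Dvd.intro_left _ (pow_succ 3 j).symm
          rw [hj]
          exact h6
        omega
    let U : Finset (Sylow 2 G) := Finset.univ.erase E
    have hUcard : U.card = p + 1 := by
      rw [Finset.card_erase_of_mem (Finset.mem_univ _), Finset.card_univ, ← Nat.card_eq_fintype_card, hn]
      omega
    let f : G → Sylow 2 G × Sylow 2 G := fun g => (g • E, (g ^ 2) • E)
    have hmapsto : ∀ g ∈ Sf, f g ∈ U.offDiag := by
      intro g hg
      have hgo : orderOf g = 3 := by simpa [Sf] using hg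
      have hg3 : g ^ 3 = 1 := by rw [← hgo]; exact pow_orderOf_eq_one g
      have h1 := hnofix g hgo
      have hg2 : g ^ 2 = g⁻¹ := by
        rw [eq_inv_iff_mul_eq_one, ← pow_succ, hg3]
      have h2 : (g ^ 2) • E ≠ E := by
        intro hh
        apply h1
        rw [hg2] at hh
        nth_rewrite 1 [← hh]
        rw [smul_inv_smul]
      simp only [Finset.mem_offDiag, U, Finset.mem_erase, Finset.mem_univ, and_true, f]
      refine ⟨h1, h2, ?_⟩
      intro hh
      apply h1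
      have : g⁻¹ • (g • E) = g⁻¹ • ((g ^ 2) • E) := by rw [hh]
      rw [inv_smul_smul, smul_smul] at this
      have h5 : g⁻¹ * g ^ 2 = g := by
        rw [pow_two]; group
      rw [h5] at this
      exact this.symm
    have hinj : Set.InjOn f (Sf : Set G) := by
      intro g hg g' hg' hff
      have hgo : orderOf g = 3 := by simpa [Sf] using hg
      have hgo' : orderOf g' = 3 := by simpa [Sf] using hg'
      have hg3 : g ^ 3 = 1 := by rw [← hgo]; exact pow_orderOf_eq_one g
      have hg3' : g' ^ 3 = 1 := by rw [← hgo']; exact pow_orderOf_eq_one g'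
      have h1 : g • E = g' • E := congrArg Prod.fst hff
      have h2 : (g ^ 2) • E = (g' ^ 2) • E := congrArg Prod.snd hff
      have hm := hmapsto g hg
      simp only [Finset.mem_offDiag, U, Finset.mem_erase, Finset.mem_univ, and_true, f] at hm
      have hc : g⁻¹ * g' = 1 := by
        refine H.three_pt (hn' E) (E₁ := E) (E₂ := g • E) (E₃ := (g ^ 2) • E)
          (Ne.symm hm.1) (Ne.symm hm.2.1) hm.2.2 ?_ ?_ ?_
        · rw [mul_smul, ← h1, inv_smul_smul]
        · -- `g' • (g • E) = g' • (g' • E) = g'^2 • E = g^2 • E`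
          rw [mul_smul]
          have h3' : g' • g • E = (g ^ 2) • E := by
            rw [h1, smul_smul, ← pow_two, h2]
          rw [h3', pow_two, mul_smul, inv_smul_smul]
        · rw [mul_smul]
          have h3' : g' • (g ^ 2) • E = E := by
            rw [h2, smul_smul, ← pow_succ', hg3', one_smul]
          rw [h3']
          have h4 : g⁻¹ • E = (g ^ 2) • E := by
            have : g ^ 2 = g⁻¹ := by
              rw [eq_inv_iff_mul_eq_one, ← pow_succ, hg3]
            rw [this]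
          exact h4
      rw [inv_mul_eq_one] at hc
      exact hc
    have hle := Finset.card_le_card_of_injOn f hmapsto hinj
    rw [Finset.offDiag_card, hUcard] at hle
    have hp3ge : 2 ≤ p := hp.out.two_le
    have h4 : 2 * Sf.card ≤ 2 * ((p + 1) * (p + 1) - (p + 1)) := Nat.mul_le_mul_left 2 hle
    rw [hSr] at h4
    have h5 : (p + 1) * (p + 1) - (p + 1) = (p + 1) * p := by
      have : (p + 1) * (p + 1) = (p + 1) * p + (p + 1) := by ring
      omega
    rw [h5] at h4
    have h6 : (p + 1) * p * (p + 1) ≤ (p + 1) * p * 2 := by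
      calc (p + 1) * p * (p + 1) ≤ 2 * ((p + 1) * p) := h4
        _ = (p + 1) * p * 2 := by ring
    have h7 := Nat.le_of_mul_le_mul_left h6 (by positivity)
    omega

end Hyp

/-- The even order case. -/
theorem main_even [Finite G] (H : Hyp G) {ℓ₂ ℓ₃ : ℕ} (h₂ : ℓ₂.Prime) (h₃ : ℓ₃.Prime) (h22 : ℓ₂ ≠ 2)
    (h32 : ℓ₃ ≠ 2) (h23 : ℓ₂ ≠ ℓ₃) (heven : 2 ∣ Nat.card G) (d₂ : ℓ₂ ∣ Nat.card G)
    (d₃ : ℓ₃ ∣ Nat.card G)
    (hall : ∀ g : G, g ≠ 1 → orderOf g = 2 ∨ orderOf g = ℓ₂ ∨ orderOf g = ℓ₃)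
    (hns : ¬ Group.IsSolvable G) : Nonempty (G ≃* alternatingGroup (Fin 5)) := by
  classical
  haveI := Fact.mk h₂
  haveI := Fact.mk h₃
  have hprimes : ∀ d : ℕ, d.Prime → d ∣ Nat.card G → d = 2 ∨ d = ℓ₂ ∨ d = ℓ₃ := by
    intro d hd hdvd
    haveI := Fact.mk hd
    obtain ⟨x, hx⟩ := exists_prime_orderOf_dvd_card' d hdvd
    have hx1 : x ≠ 1 := by
      rintro rfl
      rw [orderOf_one] at hx
      exact hd.ne_one hx.symm
    rw [← hx]
    exact hall x hx1
  let E : Sylow 2 G := default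
  have hEne : (E : Subgroup G) ≠ ⊥ := E.ne_bot_of_dvd_card heven
  obtain ⟨k, hk⟩ := IsPGroup.iff_card.1 E.2
  have hq2 : Nat.card E ≠ 2 := by
    intro hc
    apply hns
    refine solvable_of_normalizer_le h₂ h₃ hprimes E ?_
    obtain ⟨u, hu, hu1⟩ := (Subgroup.bot_or_exists_ne_one _).resolve_left hEne
    obtain ⟨y, -, hy⟩ := (Nat.card_eq_two_iff' (1 : (E : Subgroup G))).1 hc
    intro n hn
    have hun : n * u * n⁻¹ ∈ (E : Subgroup G) := (Subgroup.mem_normalizer_iff.1 hn u).1 hu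
    have hne1 : (⟨u, hu⟩ : (E : Subgroup G)) ≠ 1 := fun h => hu1 (congrArg Subtype.val h)
    have hne2 : (⟨n * u * n⁻¹, hun⟩ : (E : Subgroup G)) ≠ 1 := by
      intro h
      apply hu1
      have h' : n * u * n⁻¹ = 1 := congrArg Subtype.val h
      have : u = n⁻¹ * (n * u * n⁻¹) * n := by group
      rw [this, h']
      group
    have h1 := (hy _ hne1).trans (hy _ hne2).symm
    have h2 : u = n * u * n⁻¹ := congrArg Subtype.val h1
    have hnE : n ∈ (E : Subgroup G) := by
      rw [← H.cen_eq_two E hu hu1, mem_cen]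
      calc n * u = n * u * n⁻¹ * n := by group
        _ = u * n := by rw [← h2]
    rw [Subgroup.mem_centralizer_iff]
    intro h hh
    exact H.comm_two E hh hnE
  have hk2 : 2 ≤ k := by
    by_contra hlt
    have : k = 0 ∨ k = 1 := by omega
    rcases this with rfl | rfl
    · apply hEne
      rw [← Subgroup.card_eq_one]
      simpa using hk
    · exact hq2 (by simpa using hk)
  have hq4 : 4 ≤ Nat.card E := by
    rw [hk]
    calc 4 = 2 ^ 2 := by norm_num
      _ ≤ 2 ^ k := Nat.pow_le_pow_right (by norm_num) hk2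
  -- a second Sylow subgroup
  obtain ⟨E₂, hne⟩ : ∃ E₂ : Sylow 2 G, E ≠ E₂ := by
    by_contra hcon
    push Not at hcon
    apply hns
    have hN : (E : Subgroup G).Normal := by
      rw [← Subgroup.normalizer_eq_top_iff, eq_top_iff]
      intro g _
      exact Sylow.smul_eq_iff_mem_normalizer.1 (hcon _).symm
    haveI := hN
    haveI : Group.IsSolvable (E : Subgroup G) := by
      haveI := E.2.isNilpotent
      infer_instance
    haveI : Group.IsSolvable (G ⧸ (E : Subgroup G)) := by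
      refine solvable_of_primes h₂ h₃ fun d hd hdv => ?_
      have h1 : Nat.card (G ⧸ (E : Subgroup G)) = (E : Subgroup G).index := rfl
      have hdG : d ∣ Nat.card G := by
        rw [← Subgroup.index_mul_card (E : Subgroup G)]
        exact Dvd.dvd.mul_right (h1 ▸ hdv) _
      rcases hprimes d hd hdG with rfl | h | h
      · exact absurd (h1 ▸ hdv) E.not_dvd_index
      · exact Or.inl h
      · exact Or.inr h
    exact Group.isSolvable_of_ker_le_range (E : Subgroup G).subtype (QuotientGroup.mk' (E : Subgroup G))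
      (by simp)
  obtain ⟨t₀, ht₀, ht₀1, -, hD, hinv⟩ := H.two_point hne heven
  set D : Subgroup G := normalizer (E : Set G) ⊓ normalizer (E₂ : Set G) with hDdef
  have hDne : D ≠ ⊥ := by
    intro h
    rw [h] at hD
    simp at hD
    omega
  obtain ⟨d, hd, hd1⟩ := (Subgroup.bot_or_exists_ne_one _).resolve_left hDne
  have hDcomm : ∀ a ∈ D, ∀ b ∈ D, a * b = b * a := by
    intro a ha b hb
    have h1 := hinv _ (D.mul_mem ha hb)
    have h2 : t₀ * (a * b) * t₀⁻¹ = (t₀ * a * t₀⁻¹) * (t₀ * b * t₀⁻¹) := by group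
    rw [h2, hinv a ha, hinv b hb, mul_inv_rev] at h1
    have := congrArg (fun w => w⁻¹) h1
    simpa using this.symm
  have hinD : ∀ c ∈ D, c ^ 2 = 1 → c = 1 := by
    intro c hc hc2
    have h1 : c ∈ E := Hyp.mem_of_sq_of_smul_eq E hc2 (Sylow.smul_eq_iff_mem_normalizer.2 hc.1)
    have h2 : c ∈ E₂ := Hyp.mem_of_sq_of_smul_eq E₂ hc2 (Sylow.smul_eq_iff_mem_normalizer.2 hc.2)
    exact H.ti_two hne h1 h2
  have hpp : (orderOf d).Prime := H.ord d hd1
  have hp2 : orderOf d ≠ 2 := by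
    intro h
    apply hd1
    apply hinD d hd
    rw [← h]
    exact pow_orderOf_eq_one d
  haveI := Fact.mk hpp
  have hDp : IsPGroup (orderOf d) D := by
    rw [IsPGroup.iff_orderOf]
    rintro ⟨c, hc⟩
    by_cases hc1 : c = 1
    · exact ⟨0, by simp [hc1]⟩
    · refine ⟨1, ?_⟩
      rw [pow_one, Subgroup.orderOf_mk]
      exact H.order_eq_of_commute hc1 hd1 (hDcomm c hc d hd)
  obtain ⟨c, hc⟩ := IsPGroup.iff_card.1 hDp
  have hc0 : c ≠ 0 := by
    rintro rfl
    apply hDne
    rw [← Subgroup.card_eq_one]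
    simpa using hc
  have hc1 : c = 1 := by
    refine pow_add_one_eq_two_pow hpp hp2 hc0 hk2 ?_
    rw [← hc, ← hk]
    exact hD
  rw [hc1, pow_one] at hc
  have hq : Nat.card E = orderOf d + 1 := by rw [← hD, hc]
  have hallp : ∀ y : G, orderOf y = orderOf d → ∃ t : G, t ^ 2 = 1 ∧ t ≠ 1 ∧ t * y * t⁻¹ = y⁻¹ :=
    fun y hy => H.inv_all ht₀ ht₀1 (hinv d hd) hy
  have hNE : Nat.card (normalizer (E : Set G)) = orderOf d * Nat.card E := by
    rw [H.card_normalizer_two hne heven hD, hc]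
  have hdvdd : orderOf d ∣ Nat.card G := orderOf_dvd_natCard d
  rcases hall d hd1 with h | h | h
  · exact absurd h hp2
  · rw [h] at hq hallp hNE
    have hall' : ∀ g : G, g ≠ 1 → orderOf g = 2 ∨ orderOf g = ℓ₂ ∨ orderOf g = ℓ₃ := hall
    exact H.core h22 h32 h23 d₂ d₃ hall' hallp E hq hq4 hNE
  · rw [h] at hq hallp hNE
    have hall' : ∀ g : G, g ≠ 1 → orderOf g = 2 ∨ orderOf g = ℓ₃ ∨ orderOf g = ℓ₂ := fun g hg => by
      rcases hall g hg with h | h | h
      · exact Or.inl h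
      · exact Or.inr (Or.inr h)
      · exact Or.inr (Or.inl h)
    exact H.core h32 h22 (Ne.symm h23) d₃ d₂ hall' hallp E hq hq4 hNE

/-- The theorem. -/
theorem orbits_four [Finite G] (hns : ¬ Group.IsSolvable G)
    (h4 : Nat.card (MulAction.orbitRel.Quotient (MulAut G) G) = 4) :
    Nonempty (G ≃* alternatingGroup (Fin 5)) := by
  obtain ⟨ℓ₁, ℓ₂, ℓ₃, h₁, h₂, h₃, h12, h13, h23, d₁, d₂, d₃, H, hall⟩ := hyp_of_orbits hns h4
  by_cases heven : Even (Nat.card G)
  · have h2 : 2 ∣ Nat.card G := heven.two_dvd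
    by_cases h2ℓ₁ : ℓ₁ = 2
    · subst h2ℓ₁
      exact main_even H h₂ h₃ (Ne.symm h12) (Ne.symm h13) h23 h2 d₂ d₃ hall hns
    by_cases h2ℓ₂ : ℓ₂ = 2
    · subst h2ℓ₂
      refine main_even H h₁ h₃ h2ℓ₁ (Ne.symm h23) h13 h2 d₁ d₃ (fun g hg => ?_) hns
      rcases hall g hg with h | h | h
      · exact Or.inr (Or.inl h)
      · exact Or.inl h
      · exact Or.inr (Or.inr h)
    by_cases h2ℓ₃ : ℓ₃ = 2
    · subst h2ℓ₃
      refine main_even H h₁ h₂ h2ℓ₁ h2ℓ₂ h12 h2 d₁ d₂ (fun g hg => ?_) hns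
      rcases hall g hg with h | h | h
      · exact Or.inr (Or.inl h)
      · exact Or.inr (Or.inr h)
      · exact Or.inl h
    · exfalso
      haveI := Fact.mk (Nat.prime_two)
      obtain ⟨x, hx⟩ := exists_prime_orderOf_dvd_card' 2 h2
      have hx1 : x ≠ 1 := by
        rintro rfl
        rw [orderOf_one] at hx
        omega
      rcases hall x hx1 with h | h | h
      · exact h2ℓ₁ (h.symm.trans hx)
      · exact h2ℓ₂ (h.symm.trans hx)
      · exact h2ℓ₃ (h.symm.trans hx)
  · exact (false_of_odd H h₁ h₂ h₃ h12 h13 h23 hall hns (Nat.not_even_iff_odd.1 heven)).elim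

end Cfsg.Agent.Lib.Char.Orbit4
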