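import Mathlib

/-!
# Transferring "every orbit contains a `P`-fixed point" between `G`-sets

If two finite `G`-sets have the same numbers of fixed points of every `g ∈ G`, and their sets of
`P`-fixed points (`P` a Sylow subgroup) have the same numbers of fixed points of every
`e ∈ N_G(P)`, then every `G`-orbit on the first one contains a `P`-fixed point if and only if the
same holds for the second one.
-/

set_option autoImplicit false
set_option linter.unusedSectionVars false

namespace Cfsg.Agent.Lib.Char.OrbitTransfer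

open MulAction
open scoped Pointwise

universe u v

/-- Burnside's lemma: the number of orbits is determined by the numbers of fixed points. -/
theorem card_orbits_eq {A : Type*} {X Y : Type*} [Group A] [Finite A] [MulAction A X] [MulAction A Y]
    [Finite X] [Finite Y] (h : ∀ g : A, Nat.card {x : X // g • x = x} = Nat.card {y : Y // g • y = y}) :
    Nat.card (orbitRel.Quotient A X) = Nat.card (orbitRel.Quotient A Y) := by
  classical
  cases nonempty_fintype A
  cases nonempty_fintype X
  cases nonempty_fintype Y
  letI : Fintype (orbitRel.Quotient A X) := Fintype.ofFinite _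
  letI : Fintype (orbitRel.Quotient A Y) := Fintype.ofFinite _
  letI : ∀ g : A, Fintype (fixedBy X g) := fun g => Fintype.ofFinite _
  letI : ∀ g : A, Fintype (fixedBy Y g) := fun g => Fintype.ofFinite _
  have h1 := sum_card_fixedBy_eq_card_orbits_mul_card_group A X
  have h2 := sum_card_fixedBy_eq_card_orbits_mul_card_group A Y
  have h3 : (∑ g : A, Fintype.card (fixedBy X g)) = ∑ g : A, Fintype.card (fixedBy Y g) := by
    refine Finset.sum_congr rfl fun g _ => ?_
    rw [← Nat.card_eq_fintype_card, ← Nat.card_eq_fintype_card]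
    exact h g
  rw [h3, h2] at h1
  rw [Nat.card_eq_fintype_card, Nat.card_eq_fintype_card]
  exact (Nat.eq_of_mul_eq_mul_right Fintype.card_pos h1).symm

section Fix

variable {G : Type*} [Group G] [Finite G] {p : ℕ} [Fact p.Prime] (P : Sylow p G)
  (Z : Type*) [MulAction G Z]

/-- The fixed points of a Sylow subgroup. -/
def FixP : Type _ := {z : Z // ∀ u ∈ (P : Subgroup G), u • z = z}

instance fixPAction : MulAction (Subgroup.normalizer ((P : Subgroup G) : Set G)) (FixP P Z) where
  smul e z := ⟨(e : G) • z.1, by
    intro u hu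
    have h1 : (e : G)⁻¹ * u * (e : G) ∈ (P : Subgroup G) := by
      have h2 := (Subgroup.mem_normalizer_iff.mp ((Subgroup.normalizer _).inv_mem e.2) u).1 hu
      simpa using h2
    have h3 := z.2 _ h1
    calc u • (e : G) • z.1 = (e : G) • ((e : G)⁻¹ * u * (e : G)) • z.1 := by
          simp only [smul_smul]
          congr 1
          group
      _ = (e : G) • z.1 := by rw [h3]⟩
  one_smul z := Subtype.ext (one_smul G z.1)
  mul_smul a b z := Subtype.ext (mul_smul (a : G) (b : G) z.1)

variable {P Z}

theorem fixP_smul_coe (e : Subgroup.normalizer ((P : Subgroup G) : Set G)) (z : FixP P Z) :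
    (e • z).1 = (e : G) • z.1 := rfl

/-- Two `P`-fixed points which are `G`-conjugate are `N_G(P)`-conjugate. -/
theorem exists_normalizer_smul (g : G) (z z' : FixP P Z) (h : g • z.1 = z'.1) :
    ∃ e : Subgroup.normalizer ((P : Subgroup G) : Set G), e • z = z' := by
  let S : Subgroup G := stabilizer G z'.1
  have hPS : (P : Subgroup G) ≤ S := fun u hu => z'.2 u hu
  let Q : Sylow p G := g • P
  have hQS : (Q : Subgroup G) ≤ S := by
    rintro u ⟨v, hv, rfl⟩
    show (MulAut.conj g v) • z'.1 = z'.1
    rw [← h, MulAut.conj_apply, smul_smul]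
    have : g * v * g⁻¹ * g = g * v := by group
    rw [this, mul_smul, z.2 v hv]
  obtain ⟨s, hs⟩ := MulAction.exists_smul_eq S (Q.subtype hQS) (P.subtype hPS)
  have h1 : (s : G) • Q = P := by
    rw [Sylow.smul_subtype] at hs
    exact Sylow.subtype_injective hs
  have h2 : ((s : G) * g) • P = P := by
    rw [mul_smul]
    exact h1
  have h3 : ((s : G) * g) ∈ Subgroup.normalizer ((P : Subgroup G) : Set G) :=
    Sylow.smul_eq_iff_mem_normalizer.mp h2
  refine ⟨⟨_, h3⟩, Subtype.ext ?_⟩
  rw [fixP_smul_coe]
  show ((s : G) * g) • z.1 = z'.1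
  rw [mul_smul, h]
  exact s.2

variable (P Z)

/-- The fixed points of an element on the `P`-fixed points. -/
def fixP_equiv (e : Subgroup.normalizer ((P : Subgroup G) : Set G)) : {z : FixP P Z // e • z = z} ≃
    {z : Z // (∀ u ∈ (P : Subgroup G), u • z = z) ∧ (e : G) • z = z} where
  toFun z := ⟨z.1.1, z.1.2, congrArg Subtype.val z.2⟩
  invFun z := ⟨⟨z.1, z.2.1⟩, Subtype.ext z.2.2⟩
  left_inv _ := rfl
  right_inv _ := rfl

/-- The natural map on orbits. -/
def orbitMap : orbitRel.Quotient (Subgroup.normalizer ((P : Subgroup G) : Set G)) (FixP P Z) →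
    orbitRel.Quotient G Z :=
  Quotient.map' (fun z => z.1) (by
    rintro z _ ⟨e, rfl⟩
    exact ⟨(e : G), rfl⟩)

theorem orbitMap_injective : Function.Injective (orbitMap P Z) := by
  intro a b
  induction a using Quotient.inductionOn' with
  | _ a =>
  induction b using Quotient.inductionOn' with
  | _ b =>
  intro h
  have h1 : a.1 ∈ orbit G b.1 := Quotient.exact' h
  obtain ⟨g, hg⟩ := h1
  obtain ⟨e, he⟩ := exists_normalizer_smul g b a hg
  exact Quotient.sound' ⟨e, he⟩

end Fix

/-- **The orbit lemma.** -/
theorem orbit_transfer {G : Type*} [Group G] [Finite G] {p : ℕ} [Fact p.Prime] (P : Sylow p G)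
    {X Y : Type*} [MulAction G X] [MulAction G Y] [Finite X] [Finite Y]
    (h1 : ∀ g : G, Nat.card {x : X // g • x = x} = Nat.card {y : Y // g • y = y})
    (h2 : ∀ e ∈ Subgroup.normalizer ((P : Subgroup G) : Set G),
      Nat.card {x : X // (∀ u ∈ (P : Subgroup G), u • x = x) ∧ e • x = x} =
      Nat.card {y : Y // (∀ u ∈ (P : Subgroup G), u • y = y) ∧ e • y = y})
    (h3 : ∀ x : X, ∃ g : G, ∀ u ∈ (P : Subgroup G), u • g • x = g • x) (y : Y) :
    ∃ g : G, ∀ u ∈ (P : Subgroup G), u • g • y = g • y := by
  classical
  haveI : Finite (FixP P X) := Subtype.finite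
  haveI : Finite (FixP P Y) := Subtype.finite
  haveI : Finite (orbitRel.Quotient G X) := Quotient.finite _
  haveI : Finite (orbitRel.Quotient G Y) := Quotient.finite _
  have hE : Nat.card (orbitRel.Quotient (Subgroup.normalizer ((P : Subgroup G) : Set G)) (FixP P X)) =
      Nat.card (orbitRel.Quotient (Subgroup.normalizer ((P : Subgroup G) : Set G)) (FixP P Y)) := by
    apply card_orbits_eq
    intro e
    rw [Nat.card_congr (fixP_equiv P X e), Nat.card_congr (fixP_equiv P Y e)]
    exact h2 e.1 e.2
  have hG : Nat.card (orbitRel.Quotient G X) = Nat.card (orbitRel.Quotient G Y) := card_orbits_eq h1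
  have hXsurj : Function.Surjective (orbitMap P X) := by
    intro a
    induction a using Quotient.inductionOn' with
    | _ x =>
    obtain ⟨g, hg⟩ := h3 x
    refine ⟨Quotient.mk'' ⟨g • x, hg⟩, ?_⟩
    exact Quotient.sound' ⟨g, rfl⟩
  have hXbij : Function.Bijective (orbitMap P X) := ⟨orbitMap_injective P X, hXsurj⟩
  have hcard := Nat.card_congr (Equiv.ofBijective _ hXbij)
  have hYbij : Function.Bijective (orbitMap P Y) := by
    rw [Nat.bijective_iff_injective_and_card]
    exact ⟨orbitMap_injective P Y, by omega⟩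
  obtain ⟨a, ha⟩ := hYbij.2 (Quotient.mk'' y)
  induction a using Quotient.inductionOn' with
  | _ z =>
  have h4 : z.1 ∈ orbit G y := Quotient.exact' ha
  obtain ⟨g, hg⟩ := h4
  refine ⟨g, ?_⟩
  have hg' : g • y = z.1 := hg
  rw [hg']
  exact z.2

end Cfsg.Agent.Lib.Char.OrbitTransfer
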