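import Mathlib
import Cfsg.Agent.Lib.Small.PrimeDegree
import Cfsg.Agent.Lib.Small.BrauerKill2
import Cfsg.Agent.Lib.Small.BrauerPerf
import Cfsg.Agent.Lib.Blocks.PrincipalFinal
import Cfsg.Agent.Lib.Char.E3Columns
import Cfsg.Agent.Lib.Char.Burnside
import Cfsg.Agent.Lib.Char.FTBound
import Cfsg.Agent.Lib.Char.Clifford
import Cfsg.Agent.Lib.Char.Linear
import Cfsg.Agent.Lib.Char.Kernel
import Cfsg.Agent.Lib.Char.Degree
import Cfsg.Agent.Lib.Char.RelGraph

/-! Groups all of whose character degrees are `1` or primes are solvable. -/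

set_option autoImplicit false
set_option linter.unusedSectionVars false

namespace Cfsg.Agent.Lib.Char.PrimeDeg

open Cfsg Cfsg.Agent.Lib.Char Cfsg.Agent.Lib.Blocks Cfsg.Agent.Lib.Small.BD Subgroup
open scoped commutatorElement

universe u

variable {G : Type u} [Group G] [Fintype G]

theorem ne_one'_of_degree {χ : IrrCharacter G} (h : charDegree (χ : G → ℂ) ≠ 1) : χ ≠ one' G := by
  rintro rfl
  apply h
  apply charDegree_eq
  show (1 : ℂ) = _
  simp

theorem no_degree_two [IsSimpleGroup G] (hnc : ¬ IsMulCommutative G) (χ : IrrCharacter G) :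
    charDegree (χ : G → ℂ) ≠ 2 := by
  classical
  intro h2
  have hχ1 : χ ≠ one' G := ne_one'_of_degree (by rw [h2]; norm_num)
  obtain ⟨n, ρ, hirr, hρ⟩ := χ.2
  have hn : n = 2 := by
    have h1 := apply_one_eq_charDegree (IsIrrCharacter.isCharacter χ.2)
    rw [h2, ← hρ, Representation.char_one] at h1
    have h3 : Module.finrank ℂ (Fin n → ℂ) = n := by simp
    rw [h3] at h1
    exact_mod_cast h1
  subst hn
  have hdvd : 2 ∣ Fintype.card G := by
    rw [← Nat.card_eq_fintype_card, ← h2]
    exact charDegree_dvd_card χ.2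
  obtain ⟨t, ht⟩ := exists_prime_orderOf_dvd_card 2 hdvd
  have ht1 : t ≠ 1 := by
    rintro rfl
    simp at ht
  have ht2 : t * t = 1 := by rw [← pow_two, ← ht, pow_orderOf_eq_one]
  let f : G →* ℂ := (LinearMap.det : ((Fin 2 → ℂ) →ₗ[ℂ] (Fin 2 → ℂ)) →* ℂ).comp ρ
  have hdet : LinearMap.det (ρ t) = 1 := by
    have h3 := map_eq_one_of_comm hnc (fun x y : ℂˣ => mul_comm x y) f.toHomUnits t
    have h4 := congrArg Units.val h3
    simpa [f] using h4
  set A := LinearMap.toMatrix' (ρ t) with hA
  have hA2 : A * A = 1 := by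
    rw [hA, ← LinearMap.toMatrix'_comp]
    have : (ρ t).comp (ρ t) = LinearMap.id := by
      have h5 : ρ t * ρ t = 1 := by rw [← map_mul, ht2, map_one]
      exact h5
    rw [this, LinearMap.toMatrix'_id]
  have hAdet : A.det = 1 := by
    rw [hA, LinearMap.det_toMatrix']
    exact hdet
  have htr : (χ : G → ℂ) t = A.trace := by
    rw [← hρ]
    show LinearMap.trace ℂ _ (ρ t) = _
    rw [hA, LinearMap.toMatrix']
    rw [LinearMap.trace_eq_matrix_trace ℂ (Pi.basisFun ℂ (Fin 2))]
    rfl
  have h00 := congrFun (congrFun hA2 0) 0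
  have h11 := congrFun (congrFun hA2 1) 1
  simp only [Matrix.mul_apply, Fin.sum_univ_two, Matrix.one_apply_eq] at h00 h11
  rw [Matrix.det_fin_two] at hAdet
  have h4 : ((χ : G → ℂ) t) ^ 2 = 4 := by
    rw [htr, Matrix.trace_fin_two]
    linear_combination h00 + h11 + 2 * hAdet
  have h5 : ‖(χ : G → ℂ) t‖ = (charDegree (χ : G → ℂ) : ℝ) := by
    rw [h2]
    have h6 : ‖(χ : G → ℂ) t‖ ^ 2 = 2 ^ 2 := by
      rw [← norm_pow, h4]
      norm_num
    have h7 := (pow_left_inj₀ (norm_nonneg _) (by norm_num) two_ne_zero).mp h6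
    rw [h7]
    norm_num
  exact ht1 (eq_one_of_norm_eq hnc hχ1 h5)

/-- A Sylow subgroup for a prime degree of a simple group has prime order. -/
theorem card_sylow_of_degree [IsSimpleGroup G] (hnc : ¬ IsMulCommutative G) {q : ℕ} [hq : Fact q.Prime]
    (χ : IrrCharacter G) (hχ : charDegree (χ : G → ℂ) = q) (P : Sylow q G) :
    Nat.card (P : Subgroup G) = q := by
  classical
  have hqp : q.Prime := hq.out
  have hχ1 : χ ≠ one' G := ne_one'_of_degree (by rw [hχ]; exact hqp.ne_one)
  have hd1 : (χ : G → ℂ) 1 = (q : ℂ) := by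
    rw [apply_one_eq_charDegree (IsIrrCharacter.isCharacter χ.2), hχ]
  have hqG : q ∣ Nat.card G := hχ ▸ charDegree_dvd_card χ.2
  have hqP : q ∣ Nat.card (P : Subgroup G) := by
    have h1 := P.pow_dvd_card_of_pow_dvd_card (n := 1) (by simpa using hqG)
    simpa using h1
  -- vanishing on the centre
  have hvan : ∀ y ∈ (P : Subgroup G), (∀ x ∈ (P : Subgroup G), x * y = y * x) → y ≠ 1 → (χ : G → ℂ) y = 0 := by
    intro y hy hc hy1
    have hle : (P : Subgroup G) ≤ centralizer ({y} : Set G) := by
      intro x hx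
      rw [mem_centralizer_iff]
      intro w hw
      rw [Set.mem_singleton_iff.mp hw]
      exact (hc x hx).symm
    have hnd : ¬ q ∣ (centralizer ({y} : Set G)).index := fun h =>
      P.not_dvd_index (h.trans (Subgroup.index_dvd_of_le hle))
    have hcop : Nat.Coprime q (centralizer ({y} : Set G)).index :=
      (Nat.Prime.coprime_iff_not_dvd hqp).2 hnd
    rcases apply_eq_zero_or_norm_eq_of_coprime χ.2 hd1 y hcop with h | h
    · exact h
    · exact absurd (eq_one_of_norm_eq hnc hχ1 (by rw [hχ]; exact h)) hy1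
  -- the centre of `P` is nontrivial
  letI : Fintype (P : Subgroup G) := Fintype.ofFinite _
  haveI hnt : Nontrivial (P : Subgroup G) := by
    apply Finite.one_lt_card_iff_nontrivial.mp
    have := Nat.le_of_dvd Nat.card_pos hqP
    have := hqp.one_lt
    omega
  haveI hnz : Nontrivial (center (P : Subgroup G)) := IsPGroup.center_nontrivial P.isPGroup'
  obtain ⟨z, hz⟩ := exists_ne (1 : center (P : Subgroup G))
  have hz1 : (((z : center (P : Subgroup G)) : (P : Subgroup G)) : G) ≠ 1 := by
    intro e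
    apply hz
    apply Subtype.ext
    apply Subtype.ext
    exact e
  have hzval : (χ : G → ℂ) (((z : center (P : Subgroup G)) : (P : Subgroup G)) : G) = 0 := by
    refine hvan _ ((z : (P : Subgroup G)).2) ?_ hz1
    intro x hx
    have := mem_center_iff.mp z.2 ⟨x, hx⟩
    exact congrArg Subtype.val this
  -- decomposition of the restriction
  have hres : IsCharacter (P : Subgroup G) (resFun (P : Subgroup G) (χ : G → ℂ)) :=
    isCharacter_resFun _ (IsIrrCharacter.isCharacter χ.2)
  obtain ⟨m, -, hsum⟩ := IsCharacter.exists_eq_sum hres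
  have hval : ∀ x : (P : Subgroup G), (χ : G → ℂ) x = ∑ ψ : IrrCharacter (P : Subgroup G), (m ψ : ℂ) * (ψ : ↥(P : Subgroup G) → ℂ) x := by
    intro x
    have h1 := congrFun hsum x
    simp only [Finset.sum_apply, Pi.smul_apply, nsmul_eq_mul] at h1
    exact h1
  have hdeg : ∑ ψ : IrrCharacter (P : Subgroup G), m ψ * charDegree (ψ : ↥(P : Subgroup G) → ℂ) = q := by
    have h1 := hval 1
    have h2 : ((1 : (P : Subgroup G)) : G) = 1 := rfl
    rw [h2, hd1] at h1
    simp only [fun ψ : IrrCharacter (P : Subgroup G) => apply_one_eq_charDegree (IsIrrCharacter.isCharacter ψ.2)] at h1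
    exact_mod_cast h1.symm
  -- all constituents are linear
  have hlin : ∀ ψ : IrrCharacter (P : Subgroup G), m ψ ≠ 0 → charDegree (ψ : ↥(P : Subgroup G) → ℂ) = 1 := by
    intro ψ hψ
    by_contra hne
    have hdv : charDegree (ψ : ↥(P : Subgroup G) → ℂ) ∣ Nat.card (P : Subgroup G) := charDegree_dvd_card ψ.2
    obtain ⟨k, hk⟩ := IsPGroup.iff_card.mp P.isPGroup'
    rw [hk] at hdv
    obtain ⟨j, -, hj⟩ := (Nat.dvd_prime_pow hqp).mp hdv
    have hj0 : j ≠ 0 := by
      rintro rfl
      exact hne (by simpa using hj)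
    have hqψ : q ≤ charDegree (ψ : ↥(P : Subgroup G) → ℂ) := by
      rw [hj]
      calc q = q ^ 1 := (pow_one q).symm
        _ ≤ q ^ j := Nat.pow_le_pow_right hqp.pos (by omega)
    have hpos : ∀ φ : IrrCharacter (P : Subgroup G), 0 < charDegree (φ : ↥(P : Subgroup G) → ℂ) := fun φ => charDegree_pos φ.2
    have hsplit := Finset.add_sum_erase (Finset.univ : Finset (IrrCharacter (P : Subgroup G)))
      (fun φ => m φ * charDegree (φ : ↥(P : Subgroup G) → ℂ)) (Finset.mem_univ ψ)
    rw [hdeg] at hsplit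
    have hm1 : m ψ * charDegree (ψ : ↥(P : Subgroup G) → ℂ) ≥ q := by
      calc q ≤ charDegree (ψ : ↥(P : Subgroup G) → ℂ) := hqψ
        _ ≤ m ψ * charDegree (ψ : ↥(P : Subgroup G) → ℂ) := Nat.le_mul_of_pos_left _ (Nat.pos_of_ne_zero hψ)
    have hrest : ∑ φ ∈ (Finset.univ : Finset (IrrCharacter (P : Subgroup G))).erase ψ, m φ * charDegree (φ : ↥(P : Subgroup G) → ℂ) = 0 := by
      omega
    have hother : ∀ φ, φ ≠ ψ → m φ = 0 := by
      intro φ hφ
      have h1 := (Finset.sum_eq_zero_iff.mp hrest) φ (Finset.mem_erase.mpr ⟨hφ, Finset.mem_univ _⟩)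
      rcases Nat.mul_eq_zero.mp h1 with h2 | h2
      · exact h2
      · exact absurd h2 (hpos φ).ne'
    have hmψ : m ψ = 1 := by
      have h1 : m ψ * charDegree (ψ : ↥(P : Subgroup G) → ℂ) = q := by omega
      have h2 : charDegree (ψ : ↥(P : Subgroup G) → ℂ) ≥ q := hqψ
      by_contra h3
      have h4 : 2 ≤ m ψ := by omega
      have := hqp.pos
      nlinarith
    have hz2 := hval (z : (P : Subgroup G))
    rw [Finset.sum_eq_single ψ (fun φ _ hφ => by rw [hother φ hφ]; simp) (by simp), hmψ, hzval] at hz2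
    have hz3 : (ψ : ↥(P : Subgroup G) → ℂ) (z : (P : Subgroup G)) = 0 := by simpa using hz2.symm
    have hn := Cfsg.Agent.Lib.Char.FT.norm_of_mem_center ψ.2 z.2
    rw [hz3, norm_zero, eq_comm, norm_eq_zero] at hn
    exact IsIrrCharacter.apply_one_ne_zero ψ.2 hn
  -- so `P` is abelian
  have hcomm : ∀ a b : (P : Subgroup G), a * b = b * a := by
    intro a b
    have h1 : (χ : G → ℂ) (((a * b * a⁻¹ * b⁻¹ : (P : Subgroup G))) : G) = (χ : G → ℂ) 1 := by
      rw [hval]
      have h2 := hval 1
      have h3 : ((1 : (P : Subgroup G)) : G) = 1 := rfl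
      rw [h3] at h2
      rw [h2]
      refine Finset.sum_congr rfl fun ψ _ => ?_
      by_cases hψ : m ψ = 0
      · simp [hψ]
      · congr 1
        have hdψ : (ψ : ↥(P : Subgroup G) → ℂ) 1 = 1 := by
          rw [apply_one_eq_charDegree (IsIrrCharacter.isCharacter ψ.2), hlin ψ hψ]
          simp
        obtain ⟨lam, hlam⟩ := IsCharacter.exists_monoidHom (IsIrrCharacter.isCharacter ψ.2) hdψ
        rw [hlam]
        simp only
        have h4 : lam (a * b * a⁻¹ * b⁻¹) = 1 := by
          simp only [map_mul, map_inv]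
          rw [mul_comm (lam a) (lam b)]
          group
        rw [h4, map_one]
    have h2 := faithful_irr hχ1 h1
    have h3 : a * b * a⁻¹ * b⁻¹ = 1 := Subtype.ext h2
    have h4 : a * b * a⁻¹ = b := mul_inv_eq_one.mp h3
    have h5 : a * b = b * a := mul_inv_eq_iff_eq_mul.mp h4
    exact h5
  -- `χ` vanishes on `P#`
  have hvan2 : ∀ y : (P : Subgroup G), y ≠ 1 → (χ : G → ℂ) y = 0 := by
    intro y hy
    refine hvan y y.2 ?_ (fun e => hy (Subtype.ext e))
    intro x hx
    have := hcomm ⟨x, hx⟩ y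
    exact congrArg Subtype.val this
  have hmul := E3.mult_spec (P : Subgroup G) (1 : ↥(P : Subgroup G) →* ℂˣ) χ
  have hs : ∑ y : (P : Subgroup G), (χ : G → ℂ) y * (starRingEnd ℂ) (E3.ev (1 : ↥(P : Subgroup G) →* ℂˣ) y) = (q : ℂ) := by
    rw [Finset.sum_eq_single (1 : (P : Subgroup G))]
    · have : ((1 : (P : Subgroup G)) : G) = 1 := rfl
      rw [this, hd1]
      simp [E3.ev]
    · intro y _ hy
      rw [hvan2 y hy, zero_mul]
    · simp
  rw [hs] at hmul
  have hc0 : (Nat.card (P : Subgroup G) : ℂ) ≠ 0 := by exact_mod_cast Nat.card_pos.ne'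
  have hdv : Nat.card (P : Subgroup G) * E3.mult (P : Subgroup G) (1 : ↥(P : Subgroup G) →* ℂˣ) χ = q := by
    have h1 : (Nat.card (P : Subgroup G) : ℂ) * (E3.mult (P : Subgroup G) (1 : ↥(P : Subgroup G) →* ℂˣ) χ : ℂ) = (q : ℂ) := by
      rw [hmul]
      field_simp
    exact_mod_cast h1
  exact Nat.dvd_antisymm ⟨_, hdv.symm⟩ hqP

theorem commutator_eq_top_of_simple [IsSimpleGroup G] (hnc : ¬ IsMulCommutative G) : commutator G = ⊤ := by
  rcases IsSimpleGroup.eq_bot_or_eq_top_of_normal (commutator G) inferInstance with h | h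
  · exfalso
    apply hnc
    refine ⟨⟨fun a b => ?_⟩⟩
    have h1 : ⁅a, b⁆ ∈ commutator G := Subgroup.commutator_mem_commutator (Subgroup.mem_top a) (Subgroup.mem_top b)
    rw [h, Subgroup.mem_bot] at h1
    exact commutatorElement_eq_one_iff_mul_comm.mp h1
  · exact h

/-- A nonabelian simple group has a character degree which is neither `1` nor a prime. -/
theorem simple_false [IsSimpleGroup G] (hnc : ¬ IsMulCommutative G)
    (hprime : ∀ χ : IrrCharacter G, charDegree (χ : G → ℂ) = 1 ∨ (charDegree (χ : G → ℂ)).Prime) : False := by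
  classical
  obtain ⟨χ₀, -, hmax⟩ := Finset.exists_max_image (Finset.univ : Finset (IrrCharacter G))
    (fun χ => charDegree (χ : G → ℂ)) ⟨one' G, Finset.mem_univ _⟩
  have hone : ∀ χ : IrrCharacter G, charDegree (χ : G → ℂ) = 1 → χ = one' G := by
    intro χ h1
    have hd : (χ : G → ℂ) 1 = 1 := by
      rw [apply_one_eq_charDegree (IsIrrCharacter.isCharacter χ.2), h1]
      simp
    obtain ⟨lam, hlam⟩ := IsCharacter.exists_monoidHom (IsIrrCharacter.isCharacter χ.2) hd
    apply Subtype.ext
    rw [hlam]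
    funext g
    rw [map_eq_one_of_comm hnc (fun x y : ℂˣ => mul_comm x y) lam g]
    rfl
  have hq1 : charDegree (χ₀ : G → ℂ) ≠ 1 := by
    intro h1
    apply hnc
    refine ⟨⟨(comm_iff_irr_degree_one (G := G)).2 ?_⟩⟩
    intro χ
    have h2 := hmax χ (Finset.mem_univ _)
    rw [h1] at h2
    have h3 := charDegree_pos χ.2
    have h4 : charDegree (χ : G → ℂ) = 1 := by omega
    rw [apply_one_eq_charDegree (IsIrrCharacter.isCharacter χ.2), h4]
    simp
  have hqp : (charDegree (χ₀ : G → ℂ)).Prime := (hprime χ₀).resolve_left hq1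
  set q := charDegree (χ₀ : G → ℂ) with hq
  have hq2 : q ≠ 2 := no_degree_two hnc χ₀
  haveI : Fact q.Prime := ⟨hqp⟩
  obtain ⟨P⟩ : Nonempty (Sylow q G) := inferInstance
  have hP := card_sylow_of_degree hnc χ₀ rfl P
  obtain ⟨M, hM⟩ := exists_isPModular hqp
  have hC := principalConclusion hM hq2 P hP rfl
  obtain ⟨X, Y, hB, hdis, hXc, hYc, εX, ε, hδ, hε, hdegY, hagree, hrel⟩ := hC
  -- the index
  have he : 2 ≤ (centralizer ((P : Subgroup G) : Set G)).relIndex (normalizer ((P : Subgroup G) : Set G)) := by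
    by_contra hlt
    have hpos : (centralizer ((P : Subgroup G) : Set G)).relIndex (normalizer ((P : Subgroup G) : Set G)) ≠ 0 := by
      show ((centralizer ((P : Subgroup G) : Set G)).subgroupOf (normalizer ((P : Subgroup G) : Set G))).index ≠ 0
      exact Subgroup.index_ne_zero_of_finite
    have h1 : (centralizer ((P : Subgroup G) : Set G)).relIndex (normalizer ((P : Subgroup G) : Set G)) = 1 := by omega
    have h2 : normalizer ((P : Subgroup G) : Set G) ≤ centralizer ((P : Subgroup G) : Set G) :=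
      Subgroup.relIndex_eq_one.mp h1
    exact false_of_normalizer_le (commutator_eq_top_of_simple hnc) P h2 (by rw [hP]; exact hqp.ne_one)
  rw [← hXc] at he
  -- a nontrivial member of `X`
  have hne : ∃ χ ∈ X, χ ≠ one' G := by
    rw [Nat.card_coe_set_eq] at he
    exact Set.exists_ne_of_one_lt_ncard (by omega) (one' G)
  obtain ⟨χ, hχX, hχ1⟩ := hne
  have hs1 : charDegree (χ : G → ℂ) ≠ 1 := fun h => hχ1 (hone χ h)
  have hsp : (charDegree (χ : G → ℂ)).Prime := (hprime χ).resolve_left hs1
  have hle : charDegree (χ : G → ℂ) ≤ q := hmax χ (Finset.mem_univ _)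
  have hs2 : charDegree (χ : G → ℂ) ≠ 2 := no_degree_two hnc χ
  obtain ⟨hsign, hmod, -⟩ := hδ χ hχX
  set s := charDegree (χ : G → ℂ) with hs
  have hodd : Odd q := hqp.odd_of_ne_two hq2
  have hs3 : 3 ≤ s := by
    have := hsp.two_le
    omega
  have hoddS : Odd s := hsp.odd_of_ne_two hs2
  rcases hsign with h | h <;> rw [h] at hmod
  · -- `s ≡ 1`
    have h1 : (q : ℤ) ∣ (1 : ℤ) - (s : ℤ) := Int.ModEq.dvd hmod
    have h2 : (q : ℤ) ∣ (s : ℤ) - 1 := by
      have := dvd_neg.mpr h1
      simpa using this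
    have h3 : q ∣ s - 1 := by
      have h4 : ((s - 1 : ℕ) : ℤ) = (s : ℤ) - 1 := by
        push_cast [Nat.cast_sub (by omega : 1 ≤ s)]
        ring
      rw [← h4] at h2
      exact_mod_cast h2
    have h5 := Nat.le_of_dvd (by omega) h3
    omega
  · -- `s ≡ -1`
    have h1 : (q : ℤ) ∣ (-1 : ℤ) - (s : ℤ) := Int.ModEq.dvd hmod
    have h2 : (q : ℤ) ∣ (s : ℤ) + 1 := by
      have := dvd_neg.mpr h1
      simpa [add_comm] using this
    have h3 : q ∣ s + 1 := by exact_mod_cast h2
    have hsq : s + 1 = q ∨ s = q := by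
      by_cases h4 : s = q
      · exact Or.inr h4
      · left
        have h5 := Nat.le_of_dvd (by omega) h3
        omega
    rcases hsq with h4 | h4
    · -- parity
      rw [← h4] at hodd
      exact (Nat.not_even_iff_odd.mpr hodd) (hoddS.add_one)
    · rw [h4] at h3
      have h5 : q ∣ 1 := (Nat.dvd_add_right (dvd_refl q)).mp h3
      exact hqp.one_lt.ne' (Nat.dvd_one.mp h5)

omit [Fintype G] in
/-- The quotient by a maximal normal subgroup is simple. -/
theorem isSimple_quotient_of_max (R : Subgroup G) [hR : R.Normal] (hlt : R < ⊤)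
    (hmax : ∀ N : Subgroup G, N.Normal → R ≤ N → N = R ∨ N = ⊤) : IsSimpleGroup (G ⧸ R) := by
  classical
  haveI : Nontrivial (G ⧸ R) := by
    apply QuotientGroup.nontrivial_iff.mpr
    exact lt_top_iff_ne_top.mp hlt
  refine ⟨fun K hK => ?_⟩
  have hsurj : Function.Surjective (QuotientGroup.mk' R) := QuotientGroup.mk'_surjective R
  have hKn : (K.comap (QuotientGroup.mk' R)).Normal := hK.comap _
  have hle : R ≤ K.comap (QuotientGroup.mk' R) := by
    intro x hx
    rw [mem_comap]
    have : QuotientGroup.mk' R x = 1 := (QuotientGroup.eq_one_iff x).mpr hx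
    rw [this]
    exact K.one_mem
  rcases hmax _ hKn hle with h | h
  · left
    rw [eq_bot_iff]
    intro y hy
    obtain ⟨x, rfl⟩ := hsurj y
    have hx : x ∈ K.comap (QuotientGroup.mk' R) := hy
    rw [h] at hx
    exact (Subgroup.mem_bot).mpr ((QuotientGroup.eq_one_iff x).mpr hx)
  · right
    rw [eq_top_iff]
    intro y _
    obtain ⟨x, rfl⟩ := hsurj y
    have hx : x ∈ K.comap (QuotientGroup.mk' R) := by
      rw [h]
      trivial
    exact hx

/-- **All character degrees `1` or primes implies solvable.** -/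
theorem isSolvable_aux : ∀ (n : ℕ) (G : Type u) [Group G] [Finite G], Nat.card G = n →
    (∀ d ∈ charDegrees G, d = 1 ∨ d.Prime) → Group.IsSolvable G := by
  intro n
  induction n using Nat.strong_induction_on with
  | _ n ih =>
    intro G _ _ hn hdeg
    classical
    letI : Fintype G := Fintype.ofFinite G
    by_cases hc : commutator G = ⊤
    · -- perfect
      by_cases hsub : Subsingleton G
      · exact isSolvable_of_comm (fun a b => Subsingleton.elim _ _)
      · exfalso
        haveI hnt : Nontrivial G := not_subsingleton_iff_nontrivial.mp hsub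
        have htop : (⊤ : Subgroup G) ≠ ⊥ := top_ne_bot
        let S : Set (Subgroup G) := {R | R.Normal ∧ R < ⊤}
        have hS : S.Nonempty := ⟨⊥, inferInstance, bot_lt_iff_ne_bot.2 htop⟩
        obtain ⟨R, hR⟩ := (Set.toFinite S).exists_maximal hS
        obtain ⟨⟨hRn, hRU⟩, hRmax⟩ := hR
        haveI := hRn
        have hmax : ∀ N : Subgroup G, N.Normal → R ≤ N → N = R ∨ N = ⊤ := by
          intro N hNn hRN
          by_cases hNe : N = ⊤
          · exact Or.inr hNe
          · left
            have h1 : N ∈ S := ⟨hNn, lt_top_iff_ne_top.mpr hNe⟩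
            exact le_antisymm (hRmax h1 hRN) hRN
        haveI hsimple : IsSimpleGroup (G ⧸ R) := isSimple_quotient_of_max R hRU hmax
        letI : Fintype (G ⧸ R) := Fintype.ofFinite _
        have hnc : ¬ IsMulCommutative (G ⧸ R) := by
          intro hcomm
          have h1 := commutator_quotient_eq_top hc R
          have h2 : commutator (G ⧸ R) = ⊥ := by
            rw [eq_bot_iff, commutator_eq_closure, Subgroup.closure_le]
            rintro _ ⟨a, b, rfl⟩
            have : a * b = b * a := hcomm.is_comm.comm a b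
            exact commutatorElement_eq_one_iff_mul_comm.mpr this
          rw [h2] at h1
          have h3 : (⊥ : Subgroup (G ⧸ R)) ≠ ⊤ := bot_ne_top
          exact h3 h1
        refine simple_false (G := G ⧸ R) hnc ?_
        intro χ
        have hχ := isIrrCharacter_inflate R χ.2
        have h1 : charDegree (inflate R (χ : (G ⧸ R) → ℂ)) = charDegree (χ : (G ⧸ R) → ℂ) := by
          apply charDegree_eq
          show (χ : (G ⧸ R) → ℂ) ((1 : G) : G ⧸ R) = _
          exact apply_one_eq_charDegree (IsIrrCharacter.isCharacter χ.2)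
        rw [← h1]
        exact hdeg _ ⟨⟨_, hχ⟩, rfl⟩
    · -- not perfect
      set N := commutator G with hN
      haveI hNn : N.Normal := inferInstance
      letI : Fintype N := Fintype.ofFinite _
      have hlt : Nat.card N < n := by
        rw [← hn]
        have h1 : Nat.card N * N.index = Nat.card G := Subgroup.card_mul_index N
        have h2 : N.index ≠ 1 := fun h => hc (Subgroup.index_eq_one.mp h)
        have h3 : N.index ≠ 0 := Subgroup.index_ne_zero_of_finite
        have h4 : 2 ≤ N.index := by omega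
        have h5 : 0 < Nat.card N := Nat.card_pos
        nlinarith
      have hdegN : ∀ d ∈ charDegrees N, d = 1 ∨ d.Prime := by
        rintro d ⟨θ, rfl⟩
        obtain ⟨χ, hχ, hne⟩ := exists_over N θ.2
        have h1 := RelGraph.degree_dvd_degree N hχ θ.2 hne
        rcases hdeg (charDegree χ) ⟨⟨χ, hχ⟩, rfl⟩ with h2 | h2
        · left
          rw [h2] at h1
          exact Nat.dvd_one.mp h1
        · rcases (Nat.dvd_prime h2).mp h1 with h3 | h3
          · exact Or.inl h3
          · right
            rw [h3]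
            exact h2
      haveI hNs : Group.IsSolvable N := ih _ hlt N rfl hdegN
      haveI : Group.IsSolvable (G ⧸ N) := by
        apply isSolvable_of_comm
        intro a b
        obtain ⟨a, rfl⟩ := QuotientGroup.mk_surjective a
        obtain ⟨b, rfl⟩ := QuotientGroup.mk_surjective b
        rw [← QuotientGroup.mk_mul, ← QuotientGroup.mk_mul, QuotientGroup.eq]
        have : (a * b)⁻¹ * (b * a) = ⁅b⁻¹, a⁻¹⁆ := by
          simp only [commutatorElement_def]
          group
        rw [this]
        exact Subgroup.commutator_mem_commutator (Subgroup.mem_top _) (Subgroup.mem_top _)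
      refine solvable_of_ker_le_range N.subtype (QuotientGroup.mk' N) ?_
      intro x hx
      have h1 : x ∈ N := (QuotientGroup.eq_one_iff x).mp hx
      exact ⟨⟨x, h1⟩, rfl⟩

theorem isSolvable_of_prime_degrees {G : Type u} [Group G] [Finite G]
    (hdeg : ∀ d ∈ charDegrees G, d = 1 ∨ d.Prime) : Group.IsSolvable G :=
  isSolvable_aux _ G rfl hdeg

end Cfsg.Agent.Lib.Char.PrimeDeg
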