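import Cfsg.Agent.Lib.Char.Galois
import Cfsg.Agent.Lib.Char.Ind
import Cfsg.Agent.Lib.Char.SylowNorm
import Cfsg.Agent.Lib.PGroups.Parts

/-!
# Fields of character values at elements of 2-power order

`g` an element of order `m` such that the conjugates of `g` in `⟨g⟩` are `g` and `g^j`, with
`ζ^j = κ ζ⁻¹`, `κ = ±1` on a primitive `m`-th root of unity `ζ`: the field of values of `g` is
`ℚ(ζ + κ ζ⁻¹)`.
-/

set_option autoImplicit false
set_option linter.unusedSectionVars false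

namespace Cfsg.Agent.Lib.Char.Q2Val

open Cfsg Cfsg.Agent.Lib.Char
open scoped ComplexConjugate Pointwise

universe u

variable {G : Type u} [Group G] [Fintype G]

/-- The field of values at an element. -/
noncomputable abbrev valField (g : G) : IntermediateField ℚ ℂ :=
  IntermediateField.adjoin ℚ {z : ℂ | ∃ χ : IrrCharacter G, (χ : G → ℂ) g = z}

theorem fixes_adjoin (σ : ℂ →+* ℂ) (S : Set ℂ) (h : ∀ z ∈ S, σ z = z) {u : ℂ}
    (hu : u ∈ IntermediateField.adjoin ℚ S) : σ u = u := by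
  induction hu using IntermediateField.adjoin_induction with
  | mem x hx => exact h x hx
  | algebraMap x => simp
  | add x y _ _ hx hy => rw [map_add, hx, hy]
  | inv x _ hx => rw [map_inv₀, hx]
  | mul x y _ _ hx hy => rw [map_mul, hx, hy]

theorem char_mem_valField {ψ : G → ℂ} (hψ : IsCharacter G ψ) (g : G) : ψ g ∈ valField g := by
  obtain ⟨m, -, hm⟩ := IsCharacter.exists_eq_sum hψ
  rw [hm]
  simp only [Finset.sum_apply, Pi.smul_apply]
  apply sum_mem
  intro χ _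
  exact nsmul_mem (IntermediateField.subset_adjoin ℚ _ (show (χ : G → ℂ) g ∈ {z : ℂ | ∃ χ : IrrCharacter G, (χ : G → ℂ) g = z} from ⟨χ, rfl⟩)) _

/-- A coprime lift of an odd residue modulo a power of two. -/
theorem exists_coprime_lift (N a j : ℕ) (ha : a ≠ 0) (hj : Odd j) (hN : N ≠ 0) :
    ∃ J : ℕ, J.Coprime N ∧ J ≡ j [MOD 2 ^ a] := by
  obtain ⟨b, q, hq, hNq⟩ := Nat.exists_eq_pow_mul_and_not_dvd hN 2 (by norm_num)
  have hqodd : Nat.Coprime (2 ^ a) q :=
    Nat.Coprime.pow_left a ((Nat.Prime.coprime_iff_not_dvd Nat.prime_two).mpr hq)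
  let J := Nat.chineseRemainder hqodd j 1
  have h1 : (J : ℕ) ≡ j [MOD 2 ^ a] := J.2.1
  have h2 : (J : ℕ) ≡ 1 [MOD q] := J.2.2
  refine ⟨J, ?_, h1⟩
  rw [hNq]
  apply Nat.Coprime.mul_right
  · apply Nat.Coprime.pow_right
    have h3 : (J : ℕ) ≡ j [MOD 2] := h1.of_dvd (dvd_pow_self 2 ha)
    have h5 : Odd (J : ℕ) := by
      rw [Nat.odd_iff] at hj ⊢
      have h6 : (J : ℕ) % 2 = j % 2 := h3
      omega
    exact Nat.Coprime.symm (Nat.coprime_two_left.mpr h5)
  · have h4 := h2.gcd_eq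
    show Nat.gcd J q = 1
    rw [h4]
    simp

section Value

variable {ζ : ℂ} {m : ℕ}

theorem mem_sum_of_powers (hζ0 : ζ ≠ 0) {κ : ℂ} (hκ : κ = 1 ∨ κ = -1)
    (E : IntermediateField ℚ ℂ) (hs : ζ + κ * ζ⁻¹ ∈ E) (e : ℕ) :
    ∃ u ∈ E, ∃ v ∈ E, ζ ^ e = u + v * ζ := by
  have hκE : κ ∈ E := by
    rcases hκ with rfl | rfl
    · exact one_mem _
    · exact neg_mem (one_mem _)
  induction e with
  | zero => exact ⟨1, one_mem _, 0, zero_mem _, by simp⟩
  | succ e ih =>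
    obtain ⟨u, hu, v, hv, h⟩ := ih
    refine ⟨-(v * κ), neg_mem (mul_mem hv hκE), u + v * (ζ + κ * ζ⁻¹), add_mem hu (mul_mem hv hs), ?_⟩
    rw [pow_succ, h]
    field_simp
    ring

/-- The value field is contained in `ℚ(ζ + κ ζ⁻¹)` if a field automorphism inducing `ζ ↦ κ ζ⁻¹`
fixes the values. -/
theorem value_mem {z : ℂ} (hζ0 : ζ ≠ 0) {κ : ℂ} (hκ : κ = 1 ∨ κ = -1)
    (hne : ζ ≠ κ * ζ⁻¹) (σ : ℂ →+* ℂ) (hσ : σ ζ = κ * ζ⁻¹) (hz : σ z = z) {ι : Type*} [Fintype ι]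
    (c : ι → ℕ) (hT : z = ∑ i, ζ ^ c i) :
    z ∈ IntermediateField.adjoin ℚ ({ζ + κ * ζ⁻¹} : Set ℂ) := by
  set E := IntermediateField.adjoin ℚ ({ζ + κ * ζ⁻¹} : Set ℂ) with hE
  have hs : ζ + κ * ζ⁻¹ ∈ E := IntermediateField.mem_adjoin_simple_self ℚ _
  have hκκ : κ * κ = 1 := by rcases hκ with rfl | rfl <;> norm_num
  have hσκ : σ κ = κ := by rcases hκ with rfl | rfl <;> simp
  have hfix : ∀ u ∈ E, σ u = u := by
    intro u hu
    apply fixes_adjoin σ _ _ hu
    rintro w rfl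
    have hκi : κ⁻¹ = κ := by rcases hκ with rfl | rfl <;> norm_num
    rw [map_add, map_mul, map_inv₀, hσ, hσκ, mul_inv, inv_inv, hκi, ← mul_assoc, hκκ, one_mul, add_comm]
  have hsum : ∀ S : Finset ι, ∃ u ∈ E, ∃ v ∈ E, ∑ i ∈ S, ζ ^ c i = u + v * ζ := by
    intro S
    classical
    induction S using Finset.induction_on with
    | empty => exact ⟨0, zero_mem _, 0, zero_mem _, by simp⟩
    | insert a S ha ih =>
      obtain ⟨u, hu, v, hv, h⟩ := ih
      obtain ⟨u', hu', v', hv', h'⟩ := mem_sum_of_powers hζ0 hκ E hs (c a)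
      refine ⟨u' + u, add_mem hu' hu, v' + v, add_mem hv' hv, ?_⟩
      rw [Finset.sum_insert ha, h, h']
      ring
  obtain ⟨u, hu, v, hv, huv⟩ := hsum Finset.univ
  rw [← hT] at huv
  have h1 : σ z = u + v * (κ * ζ⁻¹) := by
    rw [huv, map_add, map_mul, hfix u hu, hfix v hv, hσ]
  rw [hz, huv] at h1
  have h2 : v * (ζ - κ * ζ⁻¹) = 0 := by linear_combination h1
  have h3 : v = 0 := by
    rcases mul_eq_zero.mp h2 with h | h
    · exact h
    · exact absurd (sub_eq_zero.mp h) hne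
  rw [huv, h3]
  simpa using hu

end Value

section Main

variable {ζ : ℂ} {m : ℕ}

theorem pow_eq_pow_of_primitive (hζ : IsPrimitiveRoot ζ m) {J j : ℕ} (h : J ≡ j [MOD m]) :
    ζ ^ J = ζ ^ j := by
  rw [← pow_mod_orderOf ζ J, ← pow_mod_orderOf ζ j, ← hζ.eq_orderOf]
  rw [show J % m = j % m from h]

theorem pow_eq_pow_of_order {L : Type*} [Group L] {g : L} {J j : ℕ} (h : J ≡ j [MOD orderOf g]) :
    g ^ J = g ^ j := by
  rw [← pow_mod_orderOf g J, ← pow_mod_orderOf g j]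
  rw [show J % orderOf g = j % orderOf g from h]

/-- `ℚ(χ(g))` is contained in `ℚ(ζ + κ ζ⁻¹)` when `g` is conjugate to `g^j` with `ζ^j = κ ζ⁻¹`. -/
theorem valField_le {a : ℕ} (ha : a ≠ 0) (hζ : IsPrimitiveRoot ζ (2 ^ a)) {g y : G}
    (hg : orderOf g = 2 ^ a) {j : ℕ} (hjodd : Odd j) (hy : y * g * y⁻¹ = g ^ j) {κ : ℂ}
    (hκ : κ = 1 ∨ κ = -1) (hζj : ζ ^ j = κ * ζ⁻¹) (hne : ζ ≠ κ * ζ⁻¹) :
    valField g ≤ IntermediateField.adjoin ℚ ({ζ + κ * ζ⁻¹} : Set ℂ) := by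
  have hζ0 : ζ ≠ 0 := hζ.ne_zero (pow_ne_zero _ two_ne_zero)
  obtain ⟨J, hJc, hJm⟩ := exists_coprime_lift (Nat.card G) a j ha hjodd Nat.card_pos.ne'
  obtain ⟨σ, hσ⟩ := exists_sigma (Nat.card G) J hJc
  have hdvd : 2 ^ a ∣ Nat.card G := hg ▸ orderOf_dvd_natCard g
  have hσζ : σ ζ = κ * ζ⁻¹ := by
    rw [hσ ζ, pow_eq_pow_of_primitive hζ hJm, hζj]
    obtain ⟨d, hd⟩ := hdvd
    rw [hd, pow_mul, hζ.pow_eq_one, one_pow]
  rw [IntermediateField.adjoin_le_iff]
  rintro z ⟨χ, rfl⟩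
  have hχ := IsIrrCharacter.isCharacter χ.2
  have hz : σ ((χ : G → ℂ) g) = (χ : G → ℂ) g := by
    have hgJ : g ^ J = g ^ j := pow_eq_pow_of_order (by rw [hg]; exact hJm)
    rw [sigma_character hχ σ J hσ g, hgJ, ← hy]
    exact (IsClassFunction.congr_isConj (IsCharacter.isClassFunction hχ)
      (isConj_iff.mpr ⟨y, rfl⟩)).symm
  obtain ⟨n, ρ, hρ⟩ := hχ
  obtain ⟨μ, h1, h2⟩ := character_pow_eq_sum_eigen ρ g
  have h3 := h2 1
  simp only [pow_one] at h3
  have h4 : ∀ i, ∃ e : ℕ, ζ ^ e = μ i := by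
    intro i
    obtain ⟨e, -, he⟩ := hζ.eq_pow_of_pow_eq_one (by rw [← hg]; exact h1 i)
    exact ⟨e, he⟩
  choose c hc using h4
  apply value_mem hζ0 hκ hne σ hσζ hz c
  rw [← hρ, h3]
  exact Finset.sum_congr rfl fun i _ => (hc i).symm

/-- `ζ + κ ζ⁻¹` is in the field of values: the value of the induced character from `⟨g⟩`. -/
theorem mem_valField {a : ℕ} (hζ : IsPrimitiveRoot ζ (2 ^ a)) {g y : G}
    (hg : orderOf g = 2 ^ a) {j : ℕ} (hy : y * g * y⁻¹ = g ^ j) {κ : ℂ}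
    (hζj : ζ ^ j = κ * ζ⁻¹) (hne : ζ ≠ κ * ζ⁻¹)
    (hconj : ∀ x : G, x⁻¹ * g * x ∈ Subgroup.zpowers g → x⁻¹ * g * x = g ∨ x⁻¹ * g * x = g ^ j) :
    ζ + κ * ζ⁻¹ ∈ valField g := by
  classical
  have hζ0 : ζ ≠ 0 := hζ.ne_zero (pow_ne_zero _ two_ne_zero)
  have hgj : g ^ j ≠ g := by
    intro h
    apply hne
    have h1 : j ≡ 1 [MOD orderOf g] := by
      have h2 : g ^ j = g ^ 1 := by rw [h, pow_one]
      exact pow_eq_pow_iff_modEq.mp h2
    rw [hg] at h1
    rw [← hζj, pow_eq_pow_of_primitive hζ h1, pow_one]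
  let A : Subgroup G := Subgroup.zpowers g
  letI : Fintype A := Fintype.ofFinite _
  let gh : A := ⟨g, Subgroup.mem_zpowers g⟩
  have hgen : ∀ u : A, u ∈ Subgroup.zpowers gh := by
    rintro ⟨u, i, hi⟩
    exact ⟨i, Subtype.ext (by simpa using hi)⟩
  have hgho : orderOf gh = 2 ^ a := by
    rw [← hg]
    exact Subgroup.orderOf_mk g _
  let ε : ℂˣ := Units.mk0 ζ hζ0
  have hεo : orderOf ε = 2 ^ a := by
    rw [← orderOf_units]
    exact hζ.eq_orderOf.symm
  let ν : A →* ℂˣ := monoidHomOfForallMemZpowers hgen (g' := ε) (by rw [hεo, hgho])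
  have hνg : ν gh = ε := monoidHomOfForallMemZpowers_apply_gen hgen _
  let lam : A → ℂ := fun u => (ν u : ℂ)
  have hlam : IsCharacter A lam := IsIrrCharacter.isCharacter (isIrrCharacter_of_monoidHom ν)
  have hψ := isCharacter_indFun A hlam
  have hmem := char_mem_valField hψ g
  rw [indFun_apply] at hmem
  let c : ℕ := (Finset.univ.filter (fun x : G => x⁻¹ * g * x = g)).card
  have hc0 : (c : ℂ) ≠ 0 := by
    have : 0 < c := Finset.card_pos.mpr ⟨1, by simp⟩
    exact_mod_cast this.ne'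
  have hterm : ∀ x : G, extendByZero A lam (x⁻¹ * g * x) =
      (if x⁻¹ * g * x = g then ζ else 0) + (if x⁻¹ * g * x = g ^ j then κ * ζ⁻¹ else 0) := by
    intro x
    by_cases h1 : x⁻¹ * g * x = g
    · have h2 : ¬ x⁻¹ * g * x = g ^ j := fun h => hgj (h.symm.trans h1)
      rw [if_pos h1, if_neg h2, add_zero, h1, extendByZero_of_mem A lam (Subgroup.mem_zpowers g)]
      show ((ν gh : ℂˣ) : ℂ) = ζ
      rw [hνg]
      rfl
    · by_cases h2 : x⁻¹ * g * x = g ^ j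
      · rw [if_neg h1, if_pos h2, zero_add, h2,
          extendByZero_of_mem A lam (Subgroup.pow_mem _ (Subgroup.mem_zpowers g) j)]
        show ((ν (gh ^ j) : ℂˣ) : ℂ) = _
        rw [map_pow, hνg, ← hζj]
        simp [ε]
      · rw [if_neg h1, if_neg h2, add_zero]
        apply extendByZero_of_notMem
        intro hmem'
        rcases hconj x hmem' with h | h
        · exact h1 h
        · exact h2 h
  have hsum1 : ∑ x : G, (if x⁻¹ * g * x = g then ζ else 0) = (c : ℂ) * ζ := by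
    rw [Finset.sum_ite, Finset.sum_const_zero, add_zero, Finset.sum_const, nsmul_eq_mul]
  have hsum2 : ∑ x : G, (if x⁻¹ * g * x = g ^ j then κ * ζ⁻¹ else 0) = (c : ℂ) * (κ * ζ⁻¹) := by
    have h1 : ∑ x : G, (if x⁻¹ * g * x = g then κ * ζ⁻¹ else 0) = (c : ℂ) * (κ * ζ⁻¹) := by
      rw [Finset.sum_ite, Finset.sum_const_zero, add_zero, Finset.sum_const, nsmul_eq_mul]
    rw [← h1]
    refine Fintype.sum_equiv (Equiv.mulRight y) _ _ fun x => ?_
    have h2 : x⁻¹ * g * x = g ^ j ↔ (x * y)⁻¹ * g * (x * y) = g := by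
      rw [← hy]
      constructor
      · intro h
        calc (x * y)⁻¹ * g * (x * y) = y⁻¹ * (x⁻¹ * g * x) * y := by group
          _ = g := by rw [h]; group
      · intro h
        calc x⁻¹ * g * x = y * ((x * y)⁻¹ * g * (x * y)) * y⁻¹ := by group
          _ = y * g * y⁻¹ := by rw [h]
    exact if_congr h2 rfl rfl
  simp only [hterm, Finset.sum_add_distrib, hsum1, hsum2] at hmem
  have hA0 : (Nat.card A : ℂ) ≠ 0 := by exact_mod_cast Nat.card_pos.ne'
  have hfinal : ζ + κ * ζ⁻¹ = (Nat.card A : ℂ) * (c : ℂ)⁻¹ *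
      ((Nat.card A : ℂ)⁻¹ * ((c : ℂ) * ζ + (c : ℂ) * (κ * ζ⁻¹))) := by
    field_simp
  rw [hfinal]
  exact mul_mem (mul_mem (natCast_mem _ _) (inv_mem (natCast_mem _ _))) hmem

end Main

section Sylow

theorem conj_cases (P : Sylow 2 G) {g y : G} {a : ℕ} (hg : orderOf g = 2 ^ a)
    (hPN : (P : Subgroup G) ≤ Subgroup.normalizer ((Subgroup.zpowers g : Subgroup G) : Set G))
    (hcases : ∀ u ∈ (P : Subgroup G), u * g * u⁻¹ = g ∨ u * g * u⁻¹ = y * g * y⁻¹)
    (x : G) (hx : x⁻¹ * g * x ∈ Subgroup.zpowers g) :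
    x⁻¹ * g * x = g ∨ x⁻¹ * g * x = y * g * y⁻¹ := by
  classical
  haveI : Fact (Nat.Prime 2) := ⟨Nat.prime_two⟩
  let H : Subgroup G := Subgroup.zpowers g
  have hxN : x⁻¹ ∈ Subgroup.normalizer ((H : Subgroup G) : Set G) := by
    apply Cfsg.Agent.Lib.PGroups.mem_normalizer_of_conj_le'
    rintro w ⟨k, rfl⟩
    have h1 : x⁻¹ * g ^ k * x⁻¹⁻¹ = (x⁻¹ * g * x⁻¹⁻¹) ^ k := conj_zpow.symm
    show x⁻¹ * g ^ k * x⁻¹⁻¹ ∈ H
    rw [h1, inv_inv]
    exact Subgroup.zpow_mem _ hx k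
  have hcardH : Nat.card H = 2 ^ a := by
    rw [← hg]
    exact Nat.card_zpowers g
  have hcardA : Nat.card (MulAut H) = Nat.totient (2 ^ a) := by
    rw [← hcardH]
    exact IsCyclic.card_mulAut H
  have h2 : IsPGroup 2 (MulAut H) := by
    rcases Nat.eq_zero_or_pos a with rfl | ha
    · apply IsPGroup.of_card (n := 0)
      rw [hcardA]
      simp
    · apply IsPGroup.of_card (n := a - 1)
      rw [hcardA, Nat.totient_prime_pow Nat.prime_two ha]
      simp
  let φ := H.normalizerMonoidHom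
  let f := φ.rangeRestrict
  let K : Subgroup (Subgroup.normalizer ((H : Subgroup G) : Set G)) :=
    (P : Subgroup G).subgroupOf (Subgroup.normalizer ((H : Subgroup G) : Set G))
  have hKidx : ¬ 2 ∣ K.index := by
    intro hd
    apply P.not_dvd_index
    have h3 := Subgroup.relIndex_mul_index hPN
    rw [← h3]
    exact hd.trans (dvd_mul_right _ _)
  have hf : Function.Surjective f := φ.rangeRestrict_surjective
  have h4 : (K.map f).index ∣ K.index := Subgroup.index_map_dvd K hf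
  have h5 : IsPGroup 2 φ.range := h2.to_subgroup _
  have h6 : (K.map f).index ∣ Nat.card φ.range := Subgroup.index_dvd_card _
  obtain ⟨b, hb⟩ := IsPGroup.iff_card.mp h5
  rw [hb] at h6
  obtain ⟨c, -, hc⟩ := (Nat.dvd_prime_pow Nat.prime_two).mp h6
  have h7 : (K.map f).index = 1 := by
    rcases c with _ | c
    · simpa using hc
    · exfalso
      apply hKidx
      rw [hc] at h4
      exact (dvd_pow_self 2 (Nat.succ_ne_zero c)).trans h4
  rw [Subgroup.index_eq_one] at h7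
  have h8 : f ⟨x⁻¹, hxN⟩ ∈ K.map f := by
    rw [h7]
    exact Subgroup.mem_top _
  obtain ⟨u, hu, huf⟩ := h8
  have h9 : φ u = φ ⟨x⁻¹, hxN⟩ := congrArg Subtype.val huf
  have h10 : ((φ u ⟨g, Subgroup.mem_zpowers g⟩ : H) : G) =
      ((φ ⟨x⁻¹, hxN⟩ ⟨g, Subgroup.mem_zpowers g⟩ : H) : G) := by
    rw [h9]
  have h11 : (u : G) * g * (u : G)⁻¹ = x⁻¹ * g * x⁻¹⁻¹ := h10
  rw [inv_inv] at h11
  rw [← h11]
  exact hcases u hu

/-- An element of order `|P|/2` in a nonabelian Sylow 2-subgroup `P` has a class of even size. -/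
theorem two_dvd_index_centralizer (P : Sylow 2 G) {n : ℕ} (hn : 1 ≤ n) (hP : Nat.card P = 2 ^ n)
    {g : G} (hgP : g ∈ (P : Subgroup G)) (hg : orderOf g = 2 ^ (n - 1))
    (hna : ∃ a ∈ (P : Subgroup G), ∃ b ∈ (P : Subgroup G), a * b ≠ b * a) :
    2 ∣ (Subgroup.centralizer ({g} : Set G)).index := by
  classical
  haveI : Fact (Nat.Prime 2) := ⟨Nat.prime_two⟩
  by_contra hcon
  obtain ⟨R, hR⟩ := SylowNorm.exists_sylow_le (p := 2) _ hcon
  obtain ⟨t, ht⟩ := MulAction.exists_smul_eq G R P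
  let g' : G := t * g * t⁻¹
  have hcomm : ∀ u ∈ (P : Subgroup G), u * g' = g' * u := by
    intro u hu
    rw [← ht, Sylow.coe_subgroup_smul, Subgroup.mem_pointwise_smul_iff_inv_smul_mem] at hu
    have h1 : t⁻¹ * u * t ∈ (R : Subgroup G) := by
      simpa [MulAut.smul_def, MulAut.conj_inv_apply] using hu
    have h2 := hR h1
    rw [Subgroup.mem_centralizer_singleton_iff] at h2
    show u * (t * g * t⁻¹) = (t * g * t⁻¹) * u
    have h3 : u = t * (t⁻¹ * u * t) * t⁻¹ := by group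
    calc u * (t * g * t⁻¹) = t * ((t⁻¹ * u * t) * g) * t⁻¹ := by group
      _ = t * (g * (t⁻¹ * u * t)) * t⁻¹ := by rw [h2]
      _ = (t * g * t⁻¹) * u := by group
  have hg'o : orderOf g' = 2 ^ (n - 1) := by
    rw [← hg]
    exact Cfsg.Agent.Lib.PGroups.orderOf_conj_eq t g
  have hg'p : IsPGroup 2 (Subgroup.zpowers g') := by
    apply IsPGroup.of_card (n := n - 1)
    rw [Nat.card_zpowers, hg'o]
  have hle : Subgroup.zpowers g' ≤ Subgroup.normalizer ((P : Subgroup G) : Set G) := by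
    rintro w ⟨k, rfl⟩
    apply Cfsg.Agent.Lib.PGroups.mem_normalizer_of_conj_le'
    intro u hu
    have h1 : Commute g' u := (hcomm u hu).symm
    have h2 : Commute ((fun k : ℤ => g' ^ k) k) u := h1.zpow_left k
    have h3 : (fun k : ℤ => g' ^ k) k * u * ((fun k : ℤ => g' ^ k) k)⁻¹ = u := by
      rw [h2.eq]
      group
    rw [h3]
    exact hu
  have hsup := hg'p.to_sup_of_normal_right' P.2 hle
  have hg'P : g' ∈ (P : Subgroup G) := by
    have h1 := P.is_maximal' hsup le_sup_right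
    rw [← h1]
    exact Subgroup.mem_sup_left (Subgroup.mem_zpowers g')
  let gh : (P : Subgroup G) := ⟨g', hg'P⟩
  let A : Subgroup (P : Subgroup G) := Subgroup.zpowers gh
  have hAcard : Nat.card A = 2 ^ (n - 1) := by
    rw [Nat.card_zpowers, ← hg'o]
    exact Subgroup.orderOf_mk g' hg'P
  have hAidx : A.index = 2 := by
    have h1 := A.card_mul_index
    rw [hAcard, hP] at h1
    have h2 : 2 ^ (n - 1) * 2 = 2 ^ n := by
      rw [← pow_succ]
      congr 1
      omega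
    exact Nat.eq_of_mul_eq_mul_left (by positivity) (h1.trans h2.symm)
  haveI hAn : A.Normal := Subgroup.normal_of_index_eq_two hAidx
  have hAc : A ≤ Subgroup.center (P : Subgroup G) := by
    rintro w ⟨k, rfl⟩
    rw [Subgroup.mem_center_iff]
    intro u
    have h1 : Commute gh u := Subtype.ext (hcomm u u.2).symm
    exact (h1.zpow_left k).eq.symm
  haveI : Fact (Nat.Prime (Nat.card ((P : Subgroup G) ⧸ A))) := by
    rw [← Subgroup.index_eq_card, hAidx]
    exact ⟨Nat.prime_two⟩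
  haveI : IsCyclic ((P : Subgroup G) ⧸ A) := isCyclic_of_prime_card rfl
  obtain ⟨a, ha, b, hb, hab⟩ := hna
  apply hab
  have h3 := commutative_of_cyclic_center_quotient (QuotientGroup.mk' A)
    (by rw [QuotientGroup.ker_mk']; exact hAc) (⟨a, ha⟩ : (P : Subgroup G)) ⟨b, hb⟩
  exact congrArg Subtype.val h3

end Sylow

end Cfsg.Agent.Lib.Char.Q2Val
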