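import Cfsg.Agent.Lib.Char.ASylow
import Cfsg.Agent.Lib.Char.CliffordCorr
import Cfsg.Agent.Lib.Char.SylowNorm
import Cfsg.Agent.Lib.Basic.MinNormal
import Cfsg.Agent.Lib.PGroups.Parts
import Cfsg.Agent.Lib.Char.Linear
import Cfsg.Agent.Lib.Char.Degree

/-!
# Real characters of `p′`-degree

Dolfi–Navarro–Tiep: if all real-valued irreducible characters of `G` have `p′`-degree and
`O^{p′}(G)` is solvable, then `O^{2′}(G)` has a normal Sylow `p`-subgroup, and so does the preimage
of `O_p(G/O^{2′}(G))`.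
-/

set_option autoImplicit false
set_option linter.unusedSectionVars false

namespace Cfsg.Agent.Lib.Char.RealDeg

open Cfsg Cfsg.Agent.Lib.Char
open scoped ComplexConjugate Pointwise commutatorElement

universe u

section Complement

variable {G : Type u} [Group G] [Fintype G] (M : Subgroup G) [hM : M.Normal] [Fintype M]

theorem real_char_of_complement (hcomm : ∀ a ∈ M, ∀ b ∈ M, a * b = b * a) (N : Subgroup G)
    (hMN : M ⊓ N = ⊥) (hNM : M ⊔ N = ⊤) (μ : M →* ℂˣ) (t : G) (htN : t ∈ N)
    (hμt : ∀ m : M, μ (MulAut.conjNormal t m) = (μ m)⁻¹) :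
    ∃ χ : IrrCharacter G, (∀ g, ((χ : G → ℂ) g).im = 0) ∧
      charDegree (χ : G → ℂ) = (inertia M (fun m => ((μ m : ℂˣ) : ℂ))).index := by
  classical
  set θ : M → ℂ := fun m => ((μ m : ℂˣ) : ℂ) with hθdef
  have hθ : IsIrrCharacter M θ := isIrrCharacter_of_monoidHom μ
  have hθc := IsIrrCharacter.isCharacter hθ
  let T : Subgroup G := inertia M θ
  letI : Fintype T := Fintype.ofFinite _
  have hMT : M ≤ T := le_inertia M (IsCharacter.isClassFunction hθc)
  have hconjmk : ∀ (y : G) (m : M) (h : y * (m : G) * y⁻¹ ∈ M),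
      (⟨y * (m : G) * y⁻¹, h⟩ : M) = MulAut.conjNormal y m := fun y m h =>
    Subtype.ext (MulAut.conjNormal_apply y m).symm
  -- invariance on `T`
  have hTinv : ∀ y ∈ T, ∀ m : M, μ (MulAut.conjNormal y m) = μ m := by
    intro y hy m
    have h1 : conjFun M y⁻¹ θ = θ := T.inv_mem hy
    have h2 := congrFun h1 m
    simp only [conjFun_apply, inv_inv] at h2
    apply Units.ext
    rw [hconjmk] at h2
    exact h2
  have hTmem : ∀ y : G, (∀ m : M, μ (MulAut.conjNormal y m) = μ m) → y ∈ T := by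
    intro y hy
    have h1 : conjFun M y⁻¹ θ = θ := by
      funext m
      simp only [conjFun_apply, inv_inv]
      rw [hconjmk]
      simp only [hθdef]
      rw [hy m]
    have h2 := T.inv_mem (show y⁻¹ ∈ T from h1)
    simpa using h2
  -- the decomposition
  have hdec : ∀ g : G, ∃ m : M, (m : G)⁻¹ * g ∈ N := by
    intro g
    have h1 : g ∈ ((M ⊔ N : Subgroup G) : Set G) := by
      rw [hNM]
      trivial
    rw [Subgroup.normal_mul] at h1
    obtain ⟨m, hm, n, hn, rfl⟩ := Set.mem_mul.1 h1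
    refine ⟨⟨m, hm⟩, ?_⟩
    simpa using hn
  choose pr hpr using hdec
  have hpru : ∀ (g : G) (m : M), (m : G)⁻¹ * g ∈ N → pr g = m := by
    intro g m hm
    have h1 : (pr g : G)⁻¹ * m ∈ N := by
      have := N.mul_mem (hpr g) (N.inv_mem hm)
      have h2 : (pr g : G)⁻¹ * g * ((m : G)⁻¹ * g)⁻¹ = (pr g : G)⁻¹ * m := by group
      rwa [h2] at this
    have h3 : (pr g : G)⁻¹ * m ∈ M := M.mul_mem (M.inv_mem (pr g).2) m.2
    have h4 : (pr g : G)⁻¹ * m ∈ M ⊓ N := ⟨h3, h1⟩
    rw [hMN, Subgroup.mem_bot] at h4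
    apply Subtype.ext
    exact (inv_mul_eq_one.1 h4)
  have hpr1 : pr 1 = 1 := by
    apply hpru
    simp
  have hprM : ∀ m : M, pr m = m := by
    intro m
    apply hpru
    simp
  have hprmul : ∀ g g' : G, pr (g * g') = pr g * MulAut.conjNormal ((pr g : G)⁻¹ * g) (pr g') := by
    intro g g'
    apply hpru
    set n : G := (pr g : G)⁻¹ * g with hn
    have hnN : n ∈ N := hpr g
    have h1 : ((pr g * MulAut.conjNormal n (pr g') : M) : G) = (pr g : G) * (n * (pr g' : G) * n⁻¹) := by
      rw [Subgroup.coe_mul, MulAut.conjNormal_apply]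
    rw [h1]
    have h2 : ((pr g : G) * (n * (pr g' : G) * n⁻¹))⁻¹ * (g * g') = n * ((pr g' : G)⁻¹ * g') := by
      have hgn : (pr g : G) * n = g := by rw [hn]; group
      have key : ∀ a n b g' : G, (a * (n * b * n⁻¹))⁻¹ * ((a * n) * g') = n * (b⁻¹ * g') := by
        intro a n b g'
        group
      have h3 := key (pr g) n (pr g') g'
      rw [hgn] at h3
      exact h3
    rw [h2]
    exact N.mul_mem hnN (hpr g')
  let Λ : T →* ℂˣ :=
    { toFun := fun y => μ (pr y)
      map_one' := by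
        simp [hpr1]
      map_mul' := by
        intro y y'
        simp only [Subgroup.coe_mul]
        rw [hprmul, map_mul]
        congr 1
        apply hTinv
        exact T.mul_mem (T.inv_mem (hMT (pr y).2)) y.2 }
  let ψ : T → ℂ := fun y => ((Λ y : ℂˣ) : ℂ)
  have hψ : IsIrrCharacter T ψ := isIrrCharacter_of_monoidHom Λ
  have hres : resTN M hMT ψ = θ := by
    funext n
    simp only [resTN, ψ, Λ, MonoidHom.mk'_apply]
    show ((μ (pr n) : ℂˣ) : ℂ) = _
    rw [hprM]
  have he : classInner (resTN M hMT ψ) θ ≠ 0 := by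
    rw [hres, classInner_irr_self hθ]
    exact one_ne_zero
  have hχ : IsIrrCharacter G (indFun T ψ) :=
    isIrrCharacter_indFun_of_over M hMT hψ hθ (fun t ht => ht) (fun g hg => hg) he
  refine ⟨⟨indFun T ψ, hχ⟩, ?_, ?_⟩
  · -- reality
    -- conjugation normalizes `T`
    have hsT : ∀ s : G, (∀ m : M, μ (MulAut.conjNormal s m) = (μ m)⁻¹) → ∀ y ∈ T, s * y * s⁻¹ ∈ T := by
      intro s hs y hy
      apply hTmem
      intro m
      have h1 : MulAut.conjNormal (s * y * s⁻¹) m = MulAut.conjNormal s (MulAut.conjNormal y (MulAut.conjNormal s⁻¹ m)) := by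
        apply Subtype.ext
        simp only [MulAut.conjNormal_apply]
        group
      rw [h1, hs, hTinv y hy]
      have h2 := hs (MulAut.conjNormal s⁻¹ m)
      have h3 : MulAut.conjNormal s (MulAut.conjNormal s⁻¹ m) = m := by
        apply Subtype.ext
        simp only [MulAut.conjNormal_apply]
        group
      rw [h3] at h2
      rw [h2]
    have htinv : ∀ m : M, μ (MulAut.conjNormal t⁻¹ m) = (μ m)⁻¹ := by
      intro m
      have h2 := hμt (MulAut.conjNormal t⁻¹ m)
      have h3 : MulAut.conjNormal t (MulAut.conjNormal t⁻¹ m) = m := by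
        apply Subtype.ext
        simp only [MulAut.conjNormal_apply]
        group
      rw [h3] at h2
      rw [h2, inv_inv]
    have hmemT : ∀ y, t * y * t⁻¹ ∈ T ↔ y ∈ T := by
      intro y
      constructor
      · intro h
        have := hsT t⁻¹ htinv _ h
        simpa [mul_assoc] using this
      · exact hsT t hμt y
    have hprt : ∀ y, pr (t * y * t⁻¹) = MulAut.conjNormal t (pr y) := by
      intro y
      apply hpru
      have h1 : ((MulAut.conjNormal t (pr y) : M) : G)⁻¹ * (t * y * t⁻¹) = t * ((pr y : G)⁻¹ * y) * t⁻¹ := by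
        rw [MulAut.conjNormal_apply]
        group
      rw [h1]
      exact N.mul_mem (N.mul_mem htN (hpr y)) (N.inv_mem htN)
    have hconjθ : ∀ m : M, conj (((μ m : ℂˣ) : ℂ)) = (((μ m)⁻¹ : ℂˣ) : ℂ) := by
      intro m
      have h1 := IsCharacter.apply_inv hθc m
      simp only [hθdef] at h1
      rw [← h1, map_inv]
    have hext : ∀ y : G, conj (extendByZero T ψ y) = extendByZero T ψ (t * y * t⁻¹) := by
      intro y
      by_cases hy : y ∈ T
      · rw [extendByZero_of_mem T ψ hy, extendByZero_of_mem T ψ ((hmemT y).2 hy)]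
        show conj (((μ (pr y) : ℂˣ) : ℂ)) = ((μ (pr (t * y * t⁻¹)) : ℂˣ) : ℂ)
        rw [hconjθ, hprt, hμt]
      · rw [extendByZero_of_notMem T ψ hy, extendByZero_of_notMem T ψ (fun h => hy ((hmemT y).1 h)), map_zero]
    intro g
    apply Complex.conj_eq_iff_im.1
    show conj (indFun T ψ g) = indFun T ψ g
    rw [indFun_apply, map_mul, map_inv₀, map_natCast, map_sum]
    congr 1
    simp only [hext]
    rw [← Equiv.sum_comp (Equiv.mulRight t)]
    refine Finset.sum_congr rfl fun x _ => ?_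
    simp only [Equiv.coe_mulRight]
    congr 1
    group
  · -- the degree
    apply charDegree_eq
    show indFun T ψ 1 = _
    rw [indFun_one]
    have : ψ 1 = 1 := by
      show ((Λ 1 : ℂˣ) : ℂ) = 1
      simp
    rw [this, mul_one]

end Complement

section Dvd

variable {G : Type u} [Group G] [Fintype G] (M : Subgroup G) [hM : M.Normal] [Fintype M]

theorem dvd_index_inertia {p q : ℕ} [hp : Fact p.Prime] (hq : q.Prime) (hpq : q ≠ p)
    (hcomm : ∀ a ∈ M, ∀ b ∈ M, a * b = b * a)
    (hexp : ∀ m ∈ M, m ^ q = 1) (P : Subgroup G) (hP : IsPGroup p P)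
    (hfix : ∀ m ∈ M, (∀ a ∈ P, a * m = m * a) → m = 1) (μ : M →* ℂˣ) (hμ : μ ≠ 1) :
    p ∣ (inertia M (fun m => ((μ m : ℂˣ) : ℂ))).index := by
  classical
  by_contra hnd
  set θ : M → ℂ := fun m => ((μ m : ℂˣ) : ℂ) with hθdef
  let T : Subgroup G := inertia M θ
  obtain ⟨S, hST⟩ := SylowNorm.exists_sylow_le T hnd
  obtain ⟨S₁, hS₁⟩ := hP.exists_le_sylow
  obtain ⟨g, hg⟩ := MulAction.exists_smul_eq G S₁ S
  have hgT : ∀ a ∈ P, g * a * g⁻¹ ∈ T := by
    intro a ha
    apply hST
    rw [← hg]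
    have h1 : (MulAut.conj g) • a ∈ (MulAut.conj g) • (S₁ : Subgroup G) :=
      Subgroup.smul_mem_pointwise_smul a (MulAut.conj g) _ (hS₁ ha)
    exact h1
  have hconjmk : ∀ (y : G) (m : M) (h : y * (m : G) * y⁻¹ ∈ M),
      (⟨y * (m : G) * y⁻¹, h⟩ : M) = MulAut.conjNormal y m := fun y m h =>
    Subtype.ext (MulAut.conjNormal_apply y m).symm
  have hTinv : ∀ y ∈ T, ∀ m : M, μ (MulAut.conjNormal y m) = μ m := by
    intro y hy m
    have h1 : conjFun M y⁻¹ θ = θ := T.inv_mem hy
    have h2 := congrFun h1 m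
    simp only [conjFun_apply, inv_inv] at h2
    apply Units.ext
    rw [hconjmk] at h2
    exact h2
  letI cg : CommGroup M := { (inferInstance : Group M) with mul_comm := fun a b => Subtype.ext (hcomm a a.2 b b.2) }
  letI : Fintype P := Fintype.ofFinite _
  let ν : M →* ℂˣ := μ.comp (MulAut.conjNormal g).toMonoidHom
  have hνinv : ∀ a ∈ P, ∀ m : M, ν (MulAut.conjNormal a m) = ν m := by
    intro a ha m
    simp only [ν, MonoidHom.comp_apply, MulEquiv.coe_toMonoidHom]
    have h1 : MulAut.conjNormal g (MulAut.conjNormal a m) = MulAut.conjNormal (g * a * g⁻¹) (MulAut.conjNormal g m) := by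
      apply Subtype.ext
      simp only [MulAut.conjNormal_apply]
      group
    rw [h1, hTinv _ (hgT a ha)]
  let c : M → M := fun m => ∏ a : P, MulAut.conjNormal (a : G) m
  have hc1 : ∀ m, c m = 1 := by
    intro m
    have h1 : ((c m : M) : G) = 1 := by
      apply hfix _ (c m).2
      intro b hb
      have h2 : MulAut.conjNormal b (c m) = c m := by
        simp only [c]
        rw [map_prod]
        apply Fintype.prod_equiv (Equiv.mulLeft (⟨b, hb⟩ : P))
        intro a
        apply Subtype.ext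
        simp only [MulAut.conjNormal_apply, Equiv.coe_mulLeft, Subgroup.coe_mul]
        group
      have h3 := congrArg Subtype.val h2
      rw [MulAut.conjNormal_apply] at h3
      calc b * ((c m : M) : G) = b * ((c m : M) : G) * b⁻¹ * b := by group
        _ = ((c m : M) : G) * b := by rw [h3]
    exact Subtype.ext h1
  have hνtriv : ∀ m, ν m = 1 := by
    intro m
    have h1 : ν (c m) = ν m ^ Fintype.card P := by
      simp only [c]
      rw [map_prod]
      rw [Finset.prod_congr rfl (fun (a : P) _ => hνinv (a : G) a.2 m)]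
      simp
    rw [hc1, map_one] at h1
    have h2 : ν m ^ q = 1 := by
      rw [← map_pow]
      have : m ^ q = 1 := Subtype.ext (by simpa using hexp m m.2)
      rw [this, map_one]
    obtain ⟨k, hk⟩ := (IsPGroup.iff_card).1 hP
    rw [Nat.card_eq_fintype_card] at hk
    rw [hk] at h1
    have h3 := pow_gcd_eq_one.2 ⟨h1.symm, h2⟩
    have hcop : Nat.gcd (p ^ k) q = 1 := by
      apply Nat.Coprime.pow_left
      exact (Nat.coprime_primes hp.out hq).2 (Ne.symm hpq)
    rwa [hcop, pow_one] at h3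
  apply hμ
  ext m
  have h1 := hνtriv (MulAut.conjNormal g⁻¹ m)
  have h2 : MulAut.conjNormal g (MulAut.conjNormal g⁻¹ m) = m := by
    apply Subtype.ext
    simp only [MulAut.conjNormal_apply]
    group
  simp only [ν, MonoidHom.comp_apply, MulEquiv.coe_toMonoidHom] at h1
  rw [h2] at h1
  rw [h1]
  rfl

end Dvd

section Elem

variable {G : Type u} [Group G]

/-- The subgroup generated by the `r`-elements. -/
abbrev elemClosure (G : Type u) [Group G] (r : ℕ) : Subgroup G :=
  Subgroup.closure {g : G | ∃ k : ℕ, orderOf g = r ^ k}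

theorem elemClosure_normal (r : ℕ) : (elemClosure G r).Normal := by
  refine ⟨fun x hx g => ?_⟩
  induction hx using Subgroup.closure_induction with
  | mem x hx =>
    apply Subgroup.subset_closure
    obtain ⟨k, hk⟩ := hx
    refine ⟨k, ?_⟩
    rw [PGroups.orderOf_conj_eq, hk]
  | one => simp [Subgroup.one_mem]
  | mul x y _ _ hx hy =>
    have : g * (x * y) * g⁻¹ = (g * x * g⁻¹) * (g * y * g⁻¹) := by group
    rw [this]
    exact Subgroup.mul_mem _ hx hy
  | inv x _ hx =>
    have : g * x⁻¹ * g⁻¹ = (g * x * g⁻¹)⁻¹ := by group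
    rw [this]
    exact Subgroup.inv_mem _ hx

theorem exists_lift_elem {H : Type*} [Group H] [Finite G] (f : G →* H) (hf : Function.Surjective f)
    {r : ℕ} [hr : Fact r.Prime] {y : H} (hy : ∃ k : ℕ, orderOf y = r ^ k) :
    ∃ x : G, f x = y ∧ ∃ k : ℕ, orderOf x = r ^ k := by
  obtain ⟨g, rfl⟩ := hf y
  obtain ⟨a, b, hab, -, ha, hb, -, hbz⟩ := PGroups.exists_pPart r g
  refine ⟨a, ?_, ha⟩
  obtain ⟨k, hk⟩ := hy
  have h1 : f b = 1 := by
    obtain ⟨i, rfl⟩ := Subgroup.mem_zpowers_iff.1 hbz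
    have h2 : orderOf (f (g ^ i)) ∣ r ^ k := by
      apply orderOf_dvd_of_pow_eq_one
      rw [map_zpow, ← zpow_natCast, ← zpow_mul, mul_comm, zpow_mul, zpow_natCast, ← hk, pow_orderOf_eq_one, one_zpow]
    have h3 : orderOf (f (g ^ i)) ∣ orderOf (g ^ i) := orderOf_map_dvd f _
    have h4 : Nat.Coprime (r ^ k) (orderOf (g ^ i)) :=
      Nat.Coprime.pow_left k ((Nat.Prime.coprime_iff_not_dvd hr.out).2 hb)
    have h5 : orderOf (f (g ^ i)) = 1 := Nat.eq_one_of_dvd_coprimes h4 h2 h3
    exact orderOf_eq_one_iff.1 h5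
  rw [hab, map_mul, h1, mul_one]

theorem elemClosure_le_map {H : Type*} [Group H] [Finite G] (f : G →* H) (hf : Function.Surjective f)
    (r : ℕ) [Fact r.Prime] : elemClosure H r ≤ (elemClosure G r).map f := by
  rw [Subgroup.closure_le]
  intro y hy
  obtain ⟨x, rfl, hx⟩ := exists_lift_elem f hf hy
  exact Subgroup.mem_map_of_mem f (Subgroup.subset_closure hx)

end Elem

section Main

/-- A minimal normal subgroup which is solvable is elementary abelian. -/
theorem elementary_of_solvable {G : Type u} [Group G] [Finite G] {N : Subgroup G}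
    (hmin : Basic.IsMinNormal N) [Group.IsSolvable N] :
    IsMulCommutative N ∧ ∃ p : ℕ, p.Prime ∧ ∀ x ∈ N, x ^ p = 1 := by
  obtain ⟨hN, hne, hM⟩ := hmin
  have hnt : Nontrivial N := (Subgroup.nontrivial_iff_ne_bot N).mpr hne
  have hcomm : IsMulCommutative N := by
    have hlt := Group.IsSolvable.commutator_lt_top_of_nontrivial N
    have hDn : ((commutator N).map N.subtype).Normal := inferInstance
    rcases hM _ hDn (Subgroup.map_subtype_le _) with h | h
    · have h2 : commutator N = ⊥ := by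
        rw [Subgroup.map_eq_bot_iff_of_injective _ Subtype.coe_injective] at h
        exact h
      refine ⟨⟨fun x y => ?_⟩⟩
      have h3 : ⁅x, y⁆ = 1 := by
        have : ⁅x, y⁆ ∈ commutator N := Subgroup.commutator_mem_commutator (Subgroup.mem_top x) (Subgroup.mem_top y)
        rw [h2] at this
        exact this
      exact commutatorElement_eq_one_iff_commute.mp h3
    · exfalso
      have h2 : commutator N = ⊤ := by
        have h3 : (commutator N).map N.subtype = (⊤ : Subgroup N).map N.subtype := by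
          rw [h]
          ext x
          simp
        exact Subgroup.map_injective Subtype.coe_injective h3
      exact hlt.ne h2
  refine ⟨hcomm, ?_⟩
  have hcard : Nat.card N ≠ 1 := Finite.one_lt_card_iff_nontrivial.mpr hnt |>.ne'
  obtain ⟨p, hp, hdvd⟩ := Nat.exists_prime_and_dvd hcard
  refine ⟨p, hp, ?_⟩
  have : Fact p.Prime := ⟨hp⟩
  obtain ⟨x, hx⟩ := exists_prime_orderOf_dvd_card' (G := N) p hdvd
  have hE : Basic.torsionSubgroupOf N p ≠ ⊥ := by
    intro hbot
    have hxmem : (x : G) ∈ Basic.torsionSubgroupOf N p := by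
      refine ⟨x.2, ?_⟩
      have := pow_orderOf_eq_one x
      rw [hx] at this
      exact congrArg Subtype.val this
    rw [hbot, Subgroup.mem_bot] at hxmem
    have h1 : x = 1 := Subtype.ext hxmem
    rw [h1, orderOf_one] at hx
    exact hp.one_lt.ne hx
  have hEn : (Basic.torsionSubgroupOf N p).Normal := Basic.torsionSubgroupOf_normal p
  rcases hM _ hEn (fun y hy => hy.1) with h | h
  · exact absurd h hE
  · intro y hy
    rw [← h] at hy
    exact hy.2

/-- Existence of a separating linear character of a commutative normal subgroup. -/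
theorem exists_hom_ne_one {M : Type*} [Group M] [Finite M] (hcomm : ∀ a b : M, a * b = b * a) {a : M}
    (ha : a ≠ 1) : ∃ μ : M →* ℂˣ, μ a ≠ 1 := by
  classical
  let _ := Fintype.ofFinite M
  by_contra hcon
  push Not at hcon
  have h1 := sum_irr_degree_mul_apply a
  rw [if_neg ha] at h1
  have hdeg := (comm_iff_irr_degree_one (G := M)).1 hcomm
  have h2 : ∀ χ : IrrCharacter M, (χ : M → ℂ) a = 1 := by
    intro χ
    obtain ⟨μ, hμ⟩ := IsCharacter.exists_monoidHom (IsIrrCharacter.isCharacter χ.2) (hdeg χ)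
    rw [hμ]
    simp [hcon μ]
  simp only [hdeg, h2, mul_one, Finset.sum_const, Finset.card_univ, nsmul_eq_mul] at h1
  have h3 : (Fintype.card (IrrCharacter M) : ℂ) ≠ 0 := by
    have : Nonempty (IrrCharacter M) := ⟨⟨fun _ => 1, isIrrCharacter_one⟩⟩
    exact_mod_cast Fintype.card_ne_zero
  exact h3 h1

/-- The central step: if `P` does not centralize the minimal normal `M`, a real character of degree
divisible by `p` exists. -/
theorem main_step {G : Type u} [Group G] [Fintype G] {p : ℕ} [hp : Fact p.Prime]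
    (hreal : ∀ χ : IrrCharacter G, (∀ g, ((χ : G → ℂ) g).im = 0) → ¬ p ∣ charDegree (χ : G → ℂ))
    (U : Subgroup G) (hU : U.Normal) (h2 : ∀ g : G, (∃ k, orderOf g = 2 ^ k) → g ∈ U)
    (hpU : ∀ u ∈ U, ∃ j, u ^ (p ^ j) ∈ elemClosure G 2)
    (M : Subgroup G) (hM : Basic.IsMinNormal M) (hMU : M ≤ U)
    (hcomm : ∀ a ∈ M, ∀ b ∈ M, a * b = b * a) {q : ℕ} (hq : q.Prime) (hpq : q ≠ p)
    (hexp : ∀ m ∈ M, m ^ q = 1)
    (P : Subgroup G) (hPU : P ≤ U) (hP : IsPGroup p P) (hidx : ¬ p ∣ P.relIndex U)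
    (hx : ∀ x ∈ U, (∃ k, x ^ (p ^ k) = 1) → x ∈ P ⊔ M) :
    ∀ a ∈ P, ∀ m ∈ M, a * m = m * a := by
  classical
  by_contra hPc
  haveI hMn : M.Normal := hM.1
  haveI : Fact q.Prime := ⟨hq⟩
  letI : Fintype M := Fintype.ofFinite _
  set R : Subgroup G := P ⊔ M with hRdef
  have hRU : R ≤ U := sup_le hPU hMU
  have hconjU : ∀ (g : G) (a : G), a ∈ U → g * a * g⁻¹ ∈ U := fun g a ha => hU.conj_mem a ha g
  haveI hRn : R.Normal := by
    refine ⟨fun r hr g => ?_⟩
    have h1 : R.map (MulAut.conj g).toMonoidHom ≤ R := by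
      rw [hRdef, Subgroup.map_sup, sup_le_iff]
      constructor
      · rintro _ ⟨a, ha, rfl⟩
        simp only [MulEquiv.coe_toMonoidHom, MulAut.conj_apply]
        apply hx _ (hconjU g a (hPU ha))
        obtain ⟨k, hk⟩ := (IsPGroup.iff_orderOf).1 hP ⟨a, ha⟩ 
        refine ⟨k, ?_⟩
        rw [conj_pow]
        have : a ^ p ^ k = 1 := by
          have := pow_orderOf_eq_one (⟨a, ha⟩ : P)
          rw [hk] at this
          exact congrArg Subtype.val this
        rw [this]
        simp
      · rintro _ ⟨m, hm, rfl⟩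
        simp only [MulEquiv.coe_toMonoidHom, MulAut.conj_apply]
        exact le_sup_right (a := P) (hMn.conj_mem m hm g)
    exact h1 (Subgroup.mem_map_of_mem _ hr)
  -- the normalizer
  let N : Subgroup G := Subgroup.normalizer (P : Set G)
  have hPN : P ≤ N := Subgroup.le_normalizer
  have hPR : P ≤ R := le_sup_left
  have hPidxR : ¬ p ∣ (P.subgroupOf R).index := by
    intro h
    rw [← Subgroup.relIndex] at h
    apply hidx
    rw [← Subgroup.relIndex_mul_relIndex P R U hPR hRU]
    exact h.mul_right _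
  have hPpR : IsPGroup p (P.subgroupOf R) := hP.comap_of_injective R.subtype Subtype.val_injective
  let S : Sylow p R := hPpR.toSylow hPidxR
  have hSmap : ((S : Subgroup R).map R.subtype : Subgroup G) = P := by
    have h1 : (S : Subgroup R) = P.subgroupOf R := IsPGroup.toSylow_coe hPpR hPidxR
    rw [h1, Subgroup.subgroupOf_map_subtype]
    exact inf_eq_left.2 hPR
  have hfrat : Subgroup.normalizer (P : Set G) ⊔ R = ⊤ := by
    have h1 := Sylow.normalizer_sup_eq_top S
    rwa [hSmap] at h1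
  have hNM : N ⊔ M = ⊤ := by
    rw [← hfrat]
    show N ⊔ M = N ⊔ (P ⊔ M)
    rw [← sup_assoc, sup_of_le_left hPN]
  have hdec : ∀ g : G, ∃ n ∈ N, ∃ m ∈ M, n * m = g := by
    intro g
    have h1 : g ∈ ((N ⊔ M : Subgroup G) : Set G) := by
      rw [hNM]
      trivial
    rw [Subgroup.mul_normal] at h1
    obtain ⟨n, hn, m, hm, h3⟩ := Set.mem_mul.1 h1
    exact ⟨n, hn, m, hm, h3⟩
  -- fixed points
  have hfix : ∀ m ∈ M, (∀ a ∈ P, a * m = m * a) → m = 1 := by
    let C₀ : Subgroup G := M ⊓ Subgroup.centralizer (P : Set G)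
    have hmem : ∀ c, c ∈ C₀ ↔ c ∈ M ∧ ∀ a ∈ P, a * c = c * a := by
      intro c
      simp [C₀, Subgroup.mem_inf, Subgroup.mem_centralizer_iff]
    have hC₀n : C₀.Normal := by
      refine ⟨fun c hc g => ?_⟩
      obtain ⟨n, hn, m', hm', rfl⟩ := hdec g
      obtain ⟨hc1, hc2⟩ := (hmem c).1 hc
      have h1 : n * m' * c * (n * m')⁻¹ = n * c * n⁻¹ := by
        have h3 := hcomm m' hm' c hc1
        calc n * m' * c * (n * m')⁻¹ = n * (m' * c) * m'⁻¹ * n⁻¹ := by group
          _ = n * (c * m') * m'⁻¹ * n⁻¹ := by rw [h3]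
          _ = n * c * n⁻¹ := by group
      rw [h1, hmem]
      refine ⟨hMn.conj_mem c hc1 n, fun a ha => ?_⟩
      have h4 : n⁻¹ * a * n ∈ P := (Subgroup.mem_normalizer_iff''.1 hn a).1 ha
      have h5 := hc2 _ h4
      calc a * (n * c * n⁻¹) = n * ((n⁻¹ * a * n) * c) * n⁻¹ := by group
        _ = n * (c * (n⁻¹ * a * n)) * n⁻¹ := by rw [h5]
        _ = n * c * n⁻¹ * a := by group
    rcases hM.2.2 C₀ hC₀n inf_le_left with h | h
    · intro m hm hm2
      have : m ∈ C₀ := (hmem m).2 ⟨hm, hm2⟩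
      rw [h, Subgroup.mem_bot] at this
      exact this
    · exfalso
      apply hPc
      intro a ha m hm
      rw [← h] at hm
      exact ((hmem m).1 hm).2 a ha
  have hcopq : ∀ z : G, z ^ q = 1 → ∀ k, z ^ (p ^ k) = 1 → z = 1 := by
    intro z h1 k h3
    have h4 := pow_gcd_eq_one.2 ⟨h3, h1⟩
    have hcop : Nat.gcd (p ^ k) q = 1 := by
      apply Nat.Coprime.pow_left
      exact (Nat.coprime_primes hp.out hq).2 (Ne.symm hpq)
    rwa [hcop, pow_one] at h4
  have hPpow : ∀ a ∈ P, ∃ k, a ^ (p ^ k) = 1 := by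
    intro a ha
    obtain ⟨k, hk⟩ := (IsPGroup.iff_orderOf).1 hP ⟨a, ha⟩
    refine ⟨k, ?_⟩
    have := pow_orderOf_eq_one (⟨a, ha⟩ : P)
    rw [hk] at this
    exact congrArg Subtype.val this
  have hMN : M ⊓ N = ⊥ := by
    rw [eq_bot_iff]
    rintro m ⟨hm, hmN⟩
    rw [Subgroup.mem_bot]
    apply hfix m hm
    intro a ha
    have h1 : m * a * m⁻¹ ∈ P := (Subgroup.mem_normalizer_iff.1 hmN a).1 ha
    set z := m * a * m⁻¹ * a⁻¹ with hz
    have h3 : z ∈ P := P.mul_mem h1 (P.inv_mem ha)
    have h4 : z ∈ M := by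
      have : z = m * (a * m⁻¹ * a⁻¹) := by rw [hz]; group
      rw [this]
      exact M.mul_mem hm (hMn.conj_mem _ (M.inv_mem hm) a)
    obtain ⟨k, hk⟩ := hPpow z h3
    have h5 := hcopq z (hexp z h4) k hk
    have h6 : m * a * m⁻¹ = a := by
      rw [hz] at h5
      exact mul_inv_eq_one.1 h5
    calc a * m = (m * a * m⁻¹) * m := by rw [h6]
      _ = m * a := by group
  have hcommM : ∀ a b : M, a * b = b * a := fun a b => Subtype.ext (hcomm a a.2 b b.2)
  letI cg : CommGroup M := { (inferInstance : Group M) with mul_comm := hcommM }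
  -- existence of the inverted character
  have hμex : ∃ (μ : M →* ℂˣ) (t : G), μ ≠ 1 ∧ t ∈ N ∧ ∀ m : M, μ (MulAut.conjNormal t m) = (μ m)⁻¹ := by
    by_cases hs : ∃ s : G, (∃ k, orderOf s = 2 ^ k) ∧ ∃ m ∈ M, s * m ≠ m * s
    · obtain ⟨s, ⟨k, hk⟩, m₂, hm₂, hne⟩ := hs
      have hex : ∃ j, ∀ m ∈ M, s ^ (2 ^ j) * m = m * s ^ (2 ^ j) := by
        refine ⟨k, fun m _ => ?_⟩
        rw [← hk, pow_orderOf_eq_one]
        simp
      have hj0 : Nat.find hex ≠ 0 := by
        intro h0
        have h1 := Nat.find_spec hex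
        rw [h0] at h1
        simp only [pow_zero, pow_one] at h1
        exact hne (h1 m₂ hm₂)
      obtain ⟨j', hj'⟩ := Nat.exists_eq_succ_of_ne_zero hj0
      have hmin' := Nat.find_min hex (m := j') (by omega)
      push Not at hmin'
      obtain ⟨m₁, hm₁, hne₁⟩ := hmin'
      have hspec := Nat.find_spec hex
      rw [hj'] at hspec
      set s' := s ^ (2 ^ j') with hs'
      have hss : ∀ m ∈ M, (s' * s') * m = m * (s' * s') := by
        intro m hm
        have h1 : s' * s' = s ^ (2 ^ (j' + 1)) := by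
          rw [hs', ← pow_add]
          congr 1
          ring
        rw [h1]
        exact hspec m hm
      obtain ⟨t, htN, m₀, hm₀, hs'dec⟩ := hdec s'
      have htconj : ∀ m ∈ M, t * m * t⁻¹ = s' * m * s'⁻¹ := by
        intro m hm
        rw [← hs'dec]
        have h3 := hcomm m₀ hm₀ m hm
        calc t * m * t⁻¹ = t * (m * m₀) * m₀⁻¹ * t⁻¹ := by group
          _ = t * (m₀ * m) * m₀⁻¹ * t⁻¹ := by rw [h3]
          _ = t * m₀ * m * (t * m₀)⁻¹ := by group
      have htt : ∀ m ∈ M, t * (t * m * t⁻¹) * t⁻¹ = m := by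
        intro m hm
        rw [htconj m hm, htconj _ (hMn.conj_mem m hm s')]
        have h3 := hss m hm
        calc s' * (s' * m * s'⁻¹) * s'⁻¹ = ((s' * s') * m) * (s' * s')⁻¹ := by group
          _ = (m * (s' * s')) * (s' * s')⁻¹ := by rw [h3]
          _ = m := by group
      let φ : M →* M := MonoidHom.mk' (fun m => m * (MulAut.conjNormal t m)⁻¹) (by
        intro a b
        simp only [map_mul, mul_inv]
        exact mul_mul_mul_comm _ _ _ _)
      have hφ1 : φ ⟨m₁, hm₁⟩ ≠ 1 := by
        intro h0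
        apply hne₁
        have h3 : (⟨m₁, hm₁⟩ : M) * (MulAut.conjNormal t ⟨m₁, hm₁⟩)⁻¹ = 1 := h0
        have h4 := congrArg Subtype.val h3
        simp only [Subgroup.coe_mul, Subgroup.coe_inv, MulAut.conjNormal_apply, Subgroup.coe_one] at h4
        have h5 : m₁ = t * m₁ * t⁻¹ := mul_inv_eq_one.1 h4
        rw [htconj m₁ hm₁] at h5
        calc s' * m₁ = (s' * m₁ * s'⁻¹) * s' := by group
          _ = m₁ * s' := by rw [← h5]
      obtain ⟨μ₀, hμ₀⟩ := exists_hom_ne_one hcommM hφ1
      refine ⟨μ₀.comp φ, t, ?_, htN, ?_⟩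
      · intro h0
        apply hμ₀
        have := congrArg (fun f : M →* ℂˣ => f ⟨m₁, hm₁⟩) h0
        simpa using this
      · intro m
        simp only [MonoidHom.comp_apply]
        rw [← map_inv]
        congr 1
        have h3 : MulAut.conjNormal t (MulAut.conjNormal t m) = m := by
          apply Subtype.ext
          simp only [MulAut.conjNormal_apply]
          exact htt m m.2
        show (MulAut.conjNormal t m) * (MulAut.conjNormal t (MulAut.conjNormal t m))⁻¹ = (m * (MulAut.conjNormal t m)⁻¹)⁻¹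
        rw [h3, mul_inv, inv_inv, mul_comm]
    · push Not at hs
      by_cases hq2 : q = 2
      · obtain ⟨a, ha⟩ : ∃ a : M, a ≠ 1 := by
          have : Nontrivial M := (Subgroup.nontrivial_iff_ne_bot M).2 hM.2.1
          exact exists_ne 1
        obtain ⟨μ, hμ⟩ := exists_hom_ne_one hcommM ha
        refine ⟨μ, 1, ?_, N.one_mem, ?_⟩
        · intro h0
          apply hμ
          rw [h0]
          rfl
        · intro m
          have h3 : MulAut.conjNormal (1 : G) m = m := by
            apply Subtype.ext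
            simp [MulAut.conjNormal_apply]
          rw [h3, eq_inv_iff_mul_eq_one, ← map_mul]
          have h4 : m * m = 1 := by
            apply Subtype.ext
            have := hexp m m.2
            rw [hq2, pow_two] at this
            simpa using this
          rw [h4, map_one]
      · exfalso
        have hall : ∀ y : G, (∃ k, orderOf y = 2 ^ k) → y ∈ N := by
          intro y hy
          obtain ⟨k, hk⟩ := hy
          obtain ⟨n, hn, m₀, hm₀, rfl⟩ := hdec y
          have hcy := hs _ ⟨k, hk⟩ m₀ hm₀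
          have hc : Commute n m₀ := by
            have h3 : n * m₀ * m₀ = m₀ * (n * m₀) := hcy
            have h3' : n * m₀ * m₀ = (m₀ * n) * m₀ := by rw [h3, mul_assoc]
            exact mul_right_cancel h3'
          have h4 : (n * m₀) ^ (2 ^ k) = 1 := by rw [← hk, pow_orderOf_eq_one]
          rw [hc.mul_pow] at h4
          have h5 : m₀ ^ (2 ^ k) = (n ^ (2 ^ k))⁻¹ := eq_inv_of_mul_eq_one_right h4
          have h6 : m₀ ^ (2 ^ k) ∈ M ⊓ N := by
            refine ⟨M.pow_mem hm₀ _, ?_⟩
            rw [h5]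
            exact N.inv_mem (N.pow_mem hn _)
          rw [hMN, Subgroup.mem_bot] at h6
          have h7 := pow_gcd_eq_one.2 ⟨h6, hexp m₀ hm₀⟩
          have hcop : Nat.gcd (2 ^ k) q = 1 := by
            apply Nat.Coprime.pow_left
            exact (Nat.coprime_primes Nat.prime_two hq).2 (Ne.symm hq2)
          rw [hcop, pow_one] at h7
          rw [h7, mul_one]
          exact hn
        have hKN : elemClosure G 2 ≤ N := by
          rw [Subgroup.closure_le]
          exact fun y hy => hall y hy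
        have hMK : M ≤ elemClosure G 2 := by
          intro m hm
          obtain ⟨j, hj⟩ := hpU m (hMU hm)
          have hcop : Nat.Coprime (p ^ j) q := by
            apply Nat.Coprime.pow_left
            exact (Nat.coprime_primes hp.out hq).2 (Ne.symm hpq)
          obtain ⟨e, -, he⟩ := Nat.exists_mul_mod_eq_one_of_coprime hcop hq.one_lt
          have h3 : m = (m ^ (p ^ j)) ^ e := by
            rw [← pow_mul, pow_eq_pow_mod _ (hexp m hm), he, pow_one]
          rw [h3]
          exact Subgroup.pow_mem _ hj _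
        apply hM.2.1
        rw [eq_bot_iff, ← hMN]
        exact fun m hm => ⟨hm, hKN (hMK hm)⟩
  obtain ⟨μ, t, hμ1, htN, hμt⟩ := hμex
  have hsup : M ⊔ N = ⊤ := by rw [sup_comm]; exact hNM
  obtain ⟨χ, hχreal, hχdeg⟩ := real_char_of_complement M hcomm N hMN hsup μ t htN hμt
  have hd := dvd_index_inertia M hq hpq hcomm hexp P hP hfix μ hμ1
  apply hreal χ hχreal
  rw [hχdeg]
  exact hd

theorem map_elemClosure_le {G H : Type*} [Group G] [Group H] (f : G →* H) (r : ℕ) (hr : r.Prime) :
    (elemClosure G r).map f ≤ elemClosure H r := by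
  rw [Subgroup.map_le_iff_le_comap, Subgroup.closure_le]
  intro x hx
  obtain ⟨k, hk⟩ := hx
  apply Subgroup.subset_closure
  have h1 : orderOf (f x) ∣ r ^ k := hk ▸ orderOf_map_dvd f x
  obtain ⟨j, -, hj⟩ := (Nat.dvd_prime_pow hr).1 h1
  exact ⟨j, hj⟩

/-- If `P` centralizes `M` and `M` has no nontrivial `p`-elements, every `p`-element of `P M` is in `P`. -/
theorem mem_of_centralize {G : Type*} [Group G] {p : ℕ} {P M : Subgroup G} [hMn : M.Normal]
    (hP : IsPGroup p P) (hc : ∀ a ∈ P, ∀ m ∈ M, a * m = m * a)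
    (hMp : ∀ m ∈ M, (∃ k, m ^ (p ^ k) = 1) → m = 1) {x : G} (hx : x ∈ P ⊔ M)
    (hxp : ∃ k, x ^ (p ^ k) = 1) : x ∈ P := by
  have h1 : x ∈ ((P ⊔ M : Subgroup G) : Set G) := hx
  rw [Subgroup.mul_normal] at h1
  obtain ⟨a, ha, m, hm, rfl⟩ := Set.mem_mul.1 h1
  obtain ⟨k, hk⟩ := hxp
  obtain ⟨i, hi⟩ := hP ⟨a, ha⟩
  have hi' : a ^ (p ^ i) = 1 := congrArg Subtype.val hi
  have hcm : Commute a m := hc a ha m hm
  rw [hcm.mul_pow] at hk
  have h2 : m ^ (p ^ (i + k)) = 1 := by
    have h3 : (a ^ (p ^ k) * m ^ (p ^ k)) ^ (p ^ i) = 1 := by rw [hk, one_pow]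
    rw [(hcm.pow_pow _ _).mul_pow, ← pow_mul, ← pow_mul, mul_comm (p ^ k), pow_mul a, hi', one_pow, one_mul,
      ← pow_add] at h3
    exact h3
  have h4 := hMp m hm ⟨_, h2⟩
  rw [h4, mul_one]
  exact ha

/-- **Main theorem**: all `p`-elements of `U` lie in a given Sylow `p`-subgroup of `U`. -/
theorem thmY {p : ℕ} [hp : Fact p.Prime] : ∀ (n : ℕ) (G : Type u) [Group G] [Finite G], Nat.card G = n →
    Group.IsSolvable (elemClosure G p) →
    (∀ χ : IrrCharacter G, (∀ g, ((χ : G → ℂ) g).im = 0) → ¬ p ∣ charDegree (χ : G → ℂ)) →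
    ∀ U : Subgroup G, U.Normal → (∀ g : G, (∃ k, orderOf g = 2 ^ k) → g ∈ U) →
    (∀ u ∈ U, ∃ j, u ^ (p ^ j) ∈ elemClosure G 2) →
    ∀ P : Subgroup G, P ≤ U → IsPGroup p P → ¬ p ∣ P.relIndex U →
    ∀ x ∈ U, (∃ k, x ^ (p ^ k) = 1) → x ∈ P := by
  intro n
  induction n using Nat.strong_induction_on with
  | _ n ih =>
  intro G _ _ hcard hsol hreal U hU h2 hpU P hPU hP hidx x hxU hxp
  classical
  cases nonempty_fintype G
  haveI : Fact (Nat.Prime 2) := ⟨Nat.prime_two⟩
  by_cases hU0 : U = ⊥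
  · rw [hU0, Subgroup.mem_bot] at hxU
    rw [hxU]
    exact P.one_mem
  obtain ⟨M, hM, hMU⟩ := Basic.exists_isMinNormal_le hU hU0
  haveI hMn : M.Normal := hM.1
  let π : G →* G ⧸ M := QuotientGroup.mk' M
  have hπ : Function.Surjective π := QuotientGroup.mk'_surjective M
  have hcardlt : Nat.card (G ⧸ M) < n := by
    have h1 : Nat.card G = Nat.card M * Nat.card (G ⧸ M) := (Subgroup.card_mul_index M).symm
    have h3 : 1 < Nat.card M := by
      have : Nontrivial M := (Subgroup.nontrivial_iff_ne_bot M).2 hM.2.1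
      exact Finite.one_lt_card
    have h4 : 0 < Nat.card (G ⧸ M) := Nat.card_pos
    rw [← hcard, h1]
    nlinarith
  have hsol' : Group.IsSolvable (elemClosure (G ⧸ M) p) := by
    have h1 := elemClosure_le_map π hπ p
    haveI := hsol
    haveI : Group.IsSolvable ((elemClosure G p).map π) :=
      Group.isSolvable_of_surjective (f := π.subgroupMap (elemClosure G p)) (π.subgroupMap_surjective _)
    exact Group.isSolvable_of_isSolvable_injective (f := Subgroup.inclusion h1) (Subgroup.inclusion_injective h1)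
  have hreal' : ∀ χ : IrrCharacter (G ⧸ M), (∀ g, ((χ : G ⧸ M → ℂ) g).im = 0) →
      ¬ p ∣ charDegree (χ : G ⧸ M → ℂ) := by
    intro χ hχ
    have h1 := hreal ⟨(χ : G ⧸ M → ℂ) ∘ π, isIrrCharacter_comp_surj π hπ χ.2⟩ (fun g => hχ (π g))
    have h3 : charDegree ((χ : G ⧸ M → ℂ) ∘ π) = charDegree (χ : G ⧸ M → ℂ) := by
      simp [charDegree]
    change ¬ p ∣ charDegree ((χ : G ⧸ M → ℂ) ∘ π) at h1
    rwa [h3] at h1
  have hIH := ih _ hcardlt (G ⧸ M) rfl hsol' hreal' (U.map π) (hU.map π hπ)
    (by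
      intro y hy
      obtain ⟨x, rfl, hx⟩ := exists_lift_elem π hπ hy
      exact Subgroup.mem_map_of_mem π (h2 x hx))
    (by
      rintro _ ⟨u, hu, rfl⟩
      obtain ⟨j, hj⟩ := hpU u hu
      refine ⟨j, ?_⟩
      rw [← map_pow]
      exact map_elemClosure_le π 2 Nat.prime_two (Subgroup.mem_map_of_mem π hj))
    (P.map π) (Subgroup.map_mono hPU) (hP.map π)
    (by
      intro hd
      apply hidx
      rw [← Subgroup.relIndex_comap, Subgroup.comap_map_eq] at hd
      exact hd.trans (Subgroup.relIndex_dvd_of_le_left U le_sup_left))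
  have hx' : ∀ x ∈ U, (∃ k, x ^ (p ^ k) = 1) → x ∈ P ⊔ M := by
    intro x hxU hxp
    have h1 := hIH (π x) (Subgroup.mem_map_of_mem π hxU) (by
      obtain ⟨k, hk⟩ := hxp
      exact ⟨k, by rw [← map_pow, hk, map_one]⟩)
    obtain ⟨a, ha, hax⟩ := h1
    have h3 : a⁻¹ * x ∈ M := QuotientGroup.eq.1 hax
    have h4 : x = a * (a⁻¹ * x) := by group
    rw [h4]
    exact Subgroup.mul_mem _ (le_sup_left (a := P) ha) (le_sup_right (a := P) h3)
  -- cases
  let L := elemClosure G p
  haveI hLn : L.Normal := elemClosure_normal p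
  have hLmem : ∀ y : G, (∃ k, y ^ (p ^ k) = 1) → y ∈ L := by
    rintro y ⟨k, hk⟩
    apply Subgroup.subset_closure
    obtain ⟨j, -, hj⟩ := (Nat.dvd_prime_pow hp.out).1 (orderOf_dvd_of_pow_eq_one hk)
    exact ⟨j, hj⟩
  have hPL : P ≤ L := by
    intro a ha
    obtain ⟨i, hi⟩ := hP ⟨a, ha⟩
    exact hLmem a ⟨i, congrArg Subtype.val hi⟩
  rcases hM.2.2 (L ⊓ M) inferInstance inf_le_right with h | h
  · -- `M` meets `L` trivially
    have hLM : ∀ y, y ∈ L → y ∈ M → y = 1 := by
      intro y h1 h3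
      have : y ∈ L ⊓ M := ⟨h1, h3⟩
      rwa [h, Subgroup.mem_bot] at this
    apply mem_of_centralize hP _ _ (hx' x hxU hxp) hxp
    · intro a ha m hm
      have h3 : a * m * a⁻¹ * m⁻¹ = 1 := by
        apply hLM
        · have : a * m * a⁻¹ * m⁻¹ = a * (m * a⁻¹ * m⁻¹) := by group
          rw [this]
          exact L.mul_mem (hPL ha) (hLn.conj_mem _ (L.inv_mem (hPL ha)) m)
        · exact M.mul_mem (hMn.conj_mem m hm a) (M.inv_mem hm)
      have h4 : a * m * a⁻¹ = m := mul_inv_eq_one.1 h3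
      calc a * m = (a * m * a⁻¹) * a := by group
        _ = m * a := by rw [h4]
    · intro m hm hk
      exact hLM m (hLmem m hk) hm
  · -- `M` is solvable
    have hML : M ≤ L := by
      rw [← h]
      exact inf_le_left
    haveI := hsol
    haveI : Group.IsSolvable M :=
      Group.isSolvable_of_isSolvable_injective (f := Subgroup.inclusion hML) (Subgroup.inclusion_injective hML)
    obtain ⟨hcomm', q, hq, hexp⟩ := elementary_of_solvable hM
    have hcomm : ∀ a ∈ M, ∀ b ∈ M, a * b = b * a := by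
      intro a ha b hb
      exact congrArg Subtype.val (hcomm'.is_comm.comm (⟨a, ha⟩ : M) ⟨b, hb⟩)
    by_cases hqp : q = p
    · have hMp : IsPGroup p M := by
        intro m
        refine ⟨1, ?_⟩
        apply Subtype.ext
        simpa [hqp] using hexp m m.2
      have hR := hP.to_sup_of_normal_right hMp
      have hle : P ⊔ M ≤ P := by
        rw [← Subgroup.relIndex_eq_one]
        obtain ⟨m, hm⟩ := (IsPGroup.iff_card).1 hR
        have h3 : P.relIndex (P ⊔ M) ∣ p ^ m := by
          rw [← hm]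
          exact Subgroup.index_dvd_card _
        obtain ⟨i, -, hi⟩ := (Nat.dvd_prime_pow hp.out).1 h3
        rcases i with _ | i
        · simpa using hi
        · exfalso
          apply hidx
          rw [← Subgroup.relIndex_mul_relIndex P (P ⊔ M) U le_sup_left (sup_le hPU hMU), hi, pow_succ]
          exact (Dvd.intro_left (p ^ i) rfl).mul_right _
      exact hle (hx' x hxU hxp)
    · have hMp : ∀ m ∈ M, (∃ k, m ^ (p ^ k) = 1) → m = 1 := by
        rintro m hm ⟨k, hk⟩
        have h4 := pow_gcd_eq_one.2 ⟨hk, hexp m hm⟩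
        have hcop : Nat.gcd (p ^ k) q = 1 := by
          apply Nat.Coprime.pow_left
          exact (Nat.coprime_primes hp.out hq).2 (Ne.symm hqp)
        rwa [hcop, pow_one] at h4
      have hc := main_step hreal U hU h2 hpU M hM hMU hcomm hq hqp hexp P hPU hP hidx hx'
      exact mem_of_centralize hP hc hMp (hx' x hxU hxp) hxp

end Main

end Cfsg.Agent.Lib.Char.RealDeg
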