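import Cfsg.Agent.Lib.Char.RealDeg
import Cfsg.Agent.Lib.Char.BrauerPerm
import Cfsg.Agent.Lib.Char.Kernel

/-!
# Real elements, real characters and normal subgroups of odd order

If `A ⊴ G` has odd order and contains a nontrivial real element, some real-valued irreducible
character of `G` does not contain `A` in its kernel.
-/

set_option autoImplicit false
set_option linter.unusedSectionVars false

namespace Cfsg.Agent.Lib.Char.RealDeg

open Cfsg Cfsg.Agent.Lib.Char
open scoped ComplexConjugate Pointwise commutatorElement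

universe u

theorem isConj_inv_of_isConj {G : Type*} [Group G] {a b : G} (h : IsConj a b) : IsConj a⁻¹ b⁻¹ := by
  obtain ⟨c, rfl⟩ := isConj_iff.1 h
  exact isConj_iff.2 ⟨c, by group⟩

/-- Real cosets of a normal subgroup of odd order contain real elements. -/
theorem exists_real_lift {G : Type u} [Group G] [Finite G] (A : Subgroup G) [hA : A.Normal]
    (hodd : Odd (Nat.card A)) {g₀ : G ⧸ A} (hg₀ : IsConj g₀ g₀⁻¹) :
    ∃ y : G, (y : G ⧸ A) = g₀ ∧ IsConj y y⁻¹ := by
  classical
  let _ := Fintype.ofFinite G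
  let π : G →* G ⧸ A := QuotientGroup.mk' A
  obtain ⟨g, rfl⟩ := QuotientGroup.mk_surjective g₀
  obtain ⟨c₀, hc₀⟩ := isConj_iff.1 hg₀
  obtain ⟨x, rfl⟩ := QuotientGroup.mk_surjective c₀
  have hx : π x * π g * (π x)⁻¹ = (π g)⁻¹ := hc₀
  obtain ⟨a, b, hb, hab⟩ := Nat.exists_eq_two_pow_mul_odd (orderOf_pos x).ne'
  set z := x ^ b with hz
  have hz2 : z ^ (2 ^ a) = 1 := by
    rw [hz, ← pow_mul, mul_comm, ← hab, pow_orderOf_eq_one]
  have hzinv : π z * π g * (π z)⁻¹ = (π g)⁻¹ := by
    obtain ⟨i, hi⟩ := hb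
    have hX2 : Commute (π x * π x) (π g) := by
      show π x * π x * π g = π g * (π x * π x)
      have h1 : π x * π x * π g * (π x * π x)⁻¹ = π g := by
        calc π x * π x * π g * (π x * π x)⁻¹ = π x * (π x * π g * (π x)⁻¹) * (π x)⁻¹ := by group
          _ = π x * (π g)⁻¹ * (π x)⁻¹ := by rw [hx]
          _ = (π x * π g * (π x)⁻¹)⁻¹ := by group
          _ = π g := by rw [hx, inv_inv]
      calc π x * π x * π g = (π x * π x * π g * (π x * π x)⁻¹) * (π x * π x) := by group
        _ = π g * (π x * π x) := by rw [h1]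
    have hXi : Commute ((π x * π x) ^ i) (π g) := hX2.pow_left i
    have hπz : π z = (π x * π x) ^ i * π x := by
      rw [hz, map_pow, hi, pow_succ, pow_mul, sq]
    rw [hπz]
    calc (π x * π x) ^ i * π x * π g * ((π x * π x) ^ i * π x)⁻¹
        = (π x * π x) ^ i * (π x * π g * (π x)⁻¹) * ((π x * π x) ^ i)⁻¹ := by group
      _ = (π x * π x) ^ i * (π g)⁻¹ * ((π x * π x) ^ i)⁻¹ := by rw [hx]
      _ = (π g)⁻¹ := by
          rw [(hXi.inv_right).eq]
          group
  let C := {y : G // π y = π g}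
  letI : Fintype C := Fintype.ofFinite _
  have hfmem : ∀ y : C, π ((z * y.1 * z⁻¹)⁻¹) = π g := by
    intro y
    rw [map_inv, map_mul, map_mul, map_inv, y.2, hzinv, inv_inv]
  let f : C → C := fun y => ⟨(z * y.1 * z⁻¹)⁻¹, hfmem y⟩
  let F : Function.End C := f
  have hFF : ∀ (i : ℕ) (y : C), (((F * F) ^ i) y).1 = (z * z) ^ i * y.1 * ((z * z) ^ i)⁻¹ := by
    intro i
    induction i with
    | zero => intro y; simp; rfl
    | succ i ih =>
      intro y
      rw [pow_succ]
      show (((F * F) ^ i) (F (F y))).1 = _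
      rw [ih]
      show (z * z) ^ i * (z * (z * y.1 * z⁻¹)⁻¹ * z⁻¹)⁻¹ * ((z * z) ^ i)⁻¹ = _
      rw [pow_succ]
      generalize (z * z) ^ i = w
      simp only [mul_inv_rev, inv_inv, mul_assoc]
  have hF : F ^ (2 ^ (a + 1)) = 1 := by
    rw [pow_succ', pow_mul, sq]
    funext y
    apply Subtype.ext
    rw [hFF]
    have h1 : (z * z) ^ (2 ^ a) = 1 := by
      rw [← sq, ← pow_mul, mul_comm, pow_mul, hz2, one_pow]
    rw [h1]
    simp
    rfl
  have hmod := Equiv.Perm.card_fixedPoints_modEq (p := 2) hF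
  have hcardC : Fintype.card C = Nat.card A := by
    rw [← Nat.card_eq_fintype_card]
    apply Nat.card_congr
    exact
      { toFun := fun y => ⟨g⁻¹ * y.1, QuotientGroup.eq.1 y.2.symm⟩
        invFun := fun a => ⟨g * a, by
          show ((g * a : G) : G ⧸ A) = (g : G ⧸ A)
          rw [QuotientGroup.eq]
          have h3 : (g * (a : G))⁻¹ * g = (a : G)⁻¹ := by group
          rw [h3]
          exact A.inv_mem a.2⟩
        left_inv := fun y => by
          apply Subtype.ext
          simp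
        right_inv := fun a => by
          apply Subtype.ext
          simp }
  have hpos : 0 < Fintype.card (Function.fixedPoints F) := by
    rw [Nat.ModEq, hcardC] at hmod
    by_contra h0
    have h1 : Fintype.card (Function.fixedPoints F) = 0 := by omega
    rw [h1] at hmod
    have := Nat.odd_iff.1 hodd
    omega
  obtain ⟨⟨y, hy⟩⟩ := Fintype.card_pos_iff.1 hpos
  refine ⟨y.1, y.2, ?_⟩
  have h1 : (z * y.1 * z⁻¹)⁻¹ = y.1 := congrArg Subtype.val hy
  exact isConj_iff.2 ⟨z, inv_eq_iff_eq_inv.1 h1⟩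

/-- A nontrivial real element in a normal subgroup of odd order is detected by a real character. -/
theorem exists_real_not_ker {G : Type u} [Group G] [Finite G] (A : Subgroup G) [hA : A.Normal]
    (hodd : Odd (Nat.card A)) {a : G} (haA : a ∈ A) (ha1 : a ≠ 1) (ha : IsConj a a⁻¹) :
    ∃ χ : IrrCharacter G, (∀ g, ((χ : G → ℂ) g).im = 0) ∧ ¬ A ≤ charKer (χ : G → ℂ) := by
  classical
  let _ := Fintype.ofFinite G
  letI : Fintype A := Fintype.ofFinite _
  letI : Fintype (G ⧸ A) := Fintype.ofFinite _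
  by_contra hcon
  push Not at hcon
  -- real characters
  have hR : Nat.card {χ : IrrCharacter G // ∀ g, ((χ : G → ℂ) g).im = 0} ≤
      Nat.card {χ : IrrCharacter (G ⧸ A) // ∀ g, ((χ : G ⧸ A → ℂ) g).im = 0} := by
    have hex : ∀ χ : {χ : IrrCharacter G // ∀ g, ((χ : G → ℂ) g).im = 0},
        ∃ β : IrrCharacter (G ⧸ A), (∀ g, ((β : G ⧸ A → ℂ) g).im = 0) ∧ (χ.1 : G → ℂ) = inflate A (β : G ⧸ A → ℂ) := by
      intro χ
      obtain ⟨β, hβ, h1⟩ := exists_deflate A χ.1.2 (hcon χ.1 χ.2)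
      refine ⟨⟨β, hβ⟩, ?_, h1⟩
      intro x
      obtain ⟨g, rfl⟩ := QuotientGroup.mk_surjective x
      have h3 := χ.2 g
      rw [h1] at h3
      exact h3
    choose Φ hΦ1 hΦ2 using hex
    apply Nat.card_le_card_of_injective (fun χ => (⟨Φ χ, hΦ1 χ⟩ : {χ : IrrCharacter (G ⧸ A) // ∀ g, ((χ : G ⧸ A → ℂ) g).im = 0}))
    intro χ χ' h
    have h1 : Φ χ = Φ χ' := congrArg Subtype.val h
    apply Subtype.ext
    apply Subtype.ext
    rw [hΦ2, hΦ2, h1]
  have hC : Nat.card {C : ConjClasses (G ⧸ A) // ∀ g : G ⧸ A, ConjClasses.mk g = C → IsConj g g⁻¹} <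
      Nat.card {C : ConjClasses G // ∀ g : G, ConjClasses.mk g = C → IsConj g g⁻¹} := by
    let π : G →* G ⧸ A := QuotientGroup.mk' A
    have hmem : ∀ C : {C : ConjClasses G // ∀ g : G, ConjClasses.mk g = C → IsConj g g⁻¹},
        ∀ g : G ⧸ A, ConjClasses.mk g = ConjClasses.map π C.1 → IsConj g g⁻¹ := by
      rintro ⟨C, hC⟩ g hg
      obtain ⟨h, rfl⟩ := ConjClasses.mk_surjective C
      have h1 : IsConj g (π h) := ConjClasses.mk_eq_mk_iff_isConj.1 hg
      have h2 : IsConj h h⁻¹ := hC h rfl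
      have h3 : IsConj (π h) (π h)⁻¹ := by
        obtain ⟨c, hc⟩ := isConj_iff.1 h2
        exact isConj_iff.2 ⟨π c, by rw [← map_inv, ← map_mul, ← map_mul, ← map_inv, hc]⟩
      exact (h1.trans h3).trans (isConj_inv_of_isConj h1).symm
    let Ψ : {C : ConjClasses G // ∀ g : G, ConjClasses.mk g = C → IsConj g g⁻¹} →
        {C : ConjClasses (G ⧸ A) // ∀ g : G ⧸ A, ConjClasses.mk g = C → IsConj g g⁻¹} :=
      fun C => ⟨ConjClasses.map π C.1, hmem C⟩
    have hΨs : Function.Surjective Ψ := by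
      rintro ⟨C, hC⟩
      obtain ⟨g, rfl⟩ := ConjClasses.mk_surjective C
      obtain ⟨y, hy, hyr⟩ := exists_real_lift A hodd (hC g rfl)
      refine ⟨⟨ConjClasses.mk y, ?_⟩, ?_⟩
      · intro h hh
        have h1 : IsConj h y := ConjClasses.mk_eq_mk_iff_isConj.1 hh
        exact (h1.trans hyr).trans (isConj_inv_of_isConj h1).symm
      · apply Subtype.ext
        show ConjClasses.mk (π y) = ConjClasses.mk g
        rw [show π y = g from hy]
    have hΨi : ¬ Function.Injective Ψ := by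
      intro hinj
      have h1r : ∀ g : G, ConjClasses.mk g = ConjClasses.mk (1 : G) → IsConj g g⁻¹ := by
        intro g hg
        have h3 : IsConj g 1 := ConjClasses.mk_eq_mk_iff_isConj.1 hg
        rw [isConj_one_left] at h3
        rw [h3]
        simp
      have h2r : ∀ g : G, ConjClasses.mk g = ConjClasses.mk a → IsConj g g⁻¹ := by
        intro g hg
        have h1 : IsConj g a := ConjClasses.mk_eq_mk_iff_isConj.1 hg
        exact (h1.trans ha).trans (isConj_inv_of_isConj h1).symm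
      have h3 : Ψ ⟨ConjClasses.mk 1, h1r⟩ = Ψ ⟨ConjClasses.mk a, h2r⟩ := by
        apply Subtype.ext
        show ConjClasses.mk (π 1) = ConjClasses.mk (π a)
        have : π a = 1 := (QuotientGroup.eq_one_iff a).2 haA
        rw [this, map_one]
      have h4 := congrArg Subtype.val (hinj h3)
      have h5 : IsConj (1 : G) a := ConjClasses.mk_eq_mk_iff_isConj.1 h4
      rw [isConj_one_right] at h5
      exact ha1 h5
    rw [Nat.card_eq_fintype_card, Nat.card_eq_fintype_card]
    exact Fintype.card_lt_of_surjective_not_injective Ψ hΨs hΨi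
  rw [card_real_irr_eq_card_real_classes, card_real_irr_eq_card_real_classes] at hR
  omega

theorem commutator_self_le {G : Type*} [Group G] (P : Subgroup G) : ⁅P, P⁆ ≤ P :=
  Subgroup.commutator_le.2 fun a ha b hb =>
    P.mul_mem (P.mul_mem (P.mul_mem ha hb) (P.inv_mem ha)) (P.inv_mem hb)

/-- A character with `A ≤ P′` not in its kernel has degree divisible by `p`. -/
theorem dvd_degree_of_not_ker {G : Type u} [Group G] [Fintype G] {p : ℕ} [hp : Fact p.Prime]
    (P : Subgroup G) (hP : IsPGroup p P) (A : Subgroup G) [hA : A.Normal] (hAP : A ≤ ⁅P, P⁆)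
    {χ : G → ℂ} (hχ : IsIrrCharacter G χ) (hk : ¬ A ≤ charKer χ) : p ∣ charDegree χ := by
  classical
  by_contra hnd
  letI : Fintype P := Fintype.ofFinite _
  letI : Fintype A := Fintype.ofFinite _
  have hχc := IsIrrCharacter.isCharacter hχ
  have hAleP : A ≤ P := hAP.trans (commutator_self_le P)
  obtain ⟨m, hm, hsum⟩ := IsCharacter.exists_eq_sum (isCharacter_resFun P hχc)
  have hdeg : charDegree χ = ∑ μ : IrrCharacter P, m μ * charDegree (μ : P → ℂ) := by
    have h1 : χ 1 = ∑ μ : IrrCharacter P, (m μ : ℂ) * (μ : P → ℂ) 1 := by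
      have h := congrFun hsum 1
      rw [Finset.sum_apply] at h
      simp only [Pi.smul_apply, nsmul_eq_mul] at h
      have h2 : resFun P χ 1 = χ 1 := by simp only [resFun, OneMemClass.coe_one]
      rw [h2] at h
      exact h
    rw [apply_one_eq_charDegree hχc] at h1
    have h3 : ∀ μ : IrrCharacter P, (μ : P → ℂ) 1 = (charDegree (μ : P → ℂ) : ℂ) := fun μ =>
      apply_one_eq_charDegree (IsIrrCharacter.isCharacter μ.2)
    simp only [h3] at h1
    exact_mod_cast h1
  obtain ⟨μ, hμ0, hμ1⟩ : ∃ μ : IrrCharacter P, m μ ≠ 0 ∧ charDegree (μ : P → ℂ) = 1 := by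
    by_contra hcon
    push Not at hcon
    apply hnd
    rw [hdeg]
    apply Finset.dvd_sum
    intro μ _
    by_cases h0 : m μ = 0
    · rw [h0, zero_mul]
      exact dvd_zero _
    · apply Dvd.dvd.mul_left
      have h1 := charDegree_dvd_card μ.2
      obtain ⟨k, hk'⟩ := (IsPGroup.iff_card).1 hP
      rw [hk'] at h1
      obtain ⟨j, -, hj⟩ := (Nat.dvd_prime_pow hp.out).1 h1
      rcases j with _ | j
      · exact absurd (by simpa using hj) (hcon μ h0)
      · rw [hj, pow_succ]
        exact Nat.dvd_mul_left _ _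
  have hμc := IsIrrCharacter.isCharacter μ.2
  have hμone : (μ : P → ℂ) 1 = 1 := by
    rw [apply_one_eq_charDegree hμc, hμ1]
    simp
  obtain ⟨lam, hlam⟩ := IsCharacter.exists_monoidHom hμc hμone
  have hlam1 : ∀ b (hb : b ∈ A), (μ : P → ℂ) ⟨b, hAleP hb⟩ = 1 := by
    intro b hb
    have h1 : b ∈ (commutator P).map P.subtype := by
      rw [Subgroup.map_subtype_commutator]
      exact hAP hb
    obtain ⟨c, hc, hcb⟩ := h1
    have h3 : lam c = 1 := Abelianization.commutator_subset_ker lam hc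
    have h4 : (⟨b, hAleP hb⟩ : P) = c := Subtype.ext hcb.symm
    rw [h4, hlam]
    simp [h3]
  -- the multiplicity of the trivial character of `A`
  have hne : classInner (resFun A χ) (fun _ => 1) ≠ 0 := by
    have he : ∀ ν : IrrCharacter P, ∃ e : ℕ, classInner (fun b : A => (ν : P → ℂ) ⟨b, hAleP b.2⟩) (fun _ => 1) = e := by
      intro ν
      apply IsCharacter.classInner_irr_eq_nat _ isIrrCharacter_one
      exact IsCharacter.comp (IsIrrCharacter.isCharacter ν.2) (Subgroup.inclusion hAleP)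
    choose e he using he
    have hres : resFun A χ = ∑ ν : IrrCharacter P, ((m ν : ℕ) : ℂ) • (fun b : A => (ν : P → ℂ) ⟨b, hAleP b.2⟩) := by
      funext b
      have h1 := congrFun hsum ⟨b, hAleP b.2⟩
      simpa [Finset.sum_apply] using h1
    rw [hres, classInner_sum_left]
    have h3 : ∀ ν : IrrCharacter P, classInner (((m ν : ℕ) : ℂ) • (fun b : A => (ν : P → ℂ) ⟨b, hAleP b.2⟩)) (fun _ => 1) = ((m ν * e ν : ℕ) : ℂ) := by
      intro ν
      rw [classInner_smul_left, he]
      push_cast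
      rfl
    simp only [h3]
    rw [← Nat.cast_sum]
    have h4 : e μ = 1 := by
      have h5 := he μ
      have h6 : (fun b : A => (μ : P → ℂ) ⟨b, hAleP b.2⟩) = fun _ => 1 := by
        funext b
        exact hlam1 b b.2
      rw [h6, classInner_irr_self isIrrCharacter_one] at h5
      exact_mod_cast h5.symm
    have h5 : 0 < ∑ ν : IrrCharacter P, m ν * e ν := by
      apply lt_of_lt_of_le _ (Finset.single_le_sum (fun _ _ => Nat.zero_le _) (Finset.mem_univ μ))
      rw [h4, mul_one]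
      exact Nat.pos_of_ne_zero hμ0
    exact_mod_cast h5.ne'
  exact hk (le_charKer_of_classInner_one_ne_zero A hχ hne)

/-- Dolfi–Navarro–Tiep: `2`-elements centralize normal subgroups inside `P′`. -/
theorem centralize_of_le_commutator {p : ℕ} [hp : Fact p.Prime] (hp2 : p ≠ 2) :
    ∀ (n : ℕ) (G : Type u) [Group G] [Finite G], Nat.card G = n →
    (∀ χ : IrrCharacter G, (∀ g, ((χ : G → ℂ) g).im = 0) → ¬ p ∣ charDegree (χ : G → ℂ)) →
    ∀ P : Subgroup G, IsPGroup p P → ∀ M : Subgroup G, M.Normal → M ≤ ⁅P, P⁆ →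
    ∀ s : G, (∃ k, orderOf s = 2 ^ k) → ∀ m ∈ M, s * m = m * s := by
  intro n
  induction n using Nat.strong_induction_on with
  | _ n ih =>
  intro G _ _ hcard hreal P hP M hM hMP s hs m hm
  classical
  let _ := Fintype.ofFinite G
  haveI : Fact (Nat.Prime 2) := ⟨Nat.prime_two⟩
  by_cases hM0 : M = ⊥
  · rw [hM0, Subgroup.mem_bot] at hm
    rw [hm, mul_one, one_mul]
  obtain ⟨A, hA, hAM⟩ := Basic.exists_isMinNormal_le hM hM0
  haveI hAn : A.Normal := hA.1
  have hAP : A ≤ ⁅P, P⁆ := hAM.trans hMP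
  have hAleP : A ≤ P := hAP.trans (commutator_self_le P)
  have hAp : IsPGroup p A := hP.to_le hAleP
  have hodd : Odd (Nat.card A) := by
    obtain ⟨k, hk⟩ := (IsPGroup.iff_card).1 hAp
    rw [hk]
    exact ((Fact.out : p.Prime).odd_of_ne_two hp2).pow
  have hcentA : ∀ s : G, (∃ k, orderOf s = 2 ^ k) → ∀ a ∈ A, s * a = a * s := by
    by_contra hcon
    push Not at hcon
    obtain ⟨s, ⟨k, hk⟩, m₂, hm₂, hne⟩ := hcon
    have hex : ∃ j, ∀ m ∈ A, s ^ (2 ^ j) * m = m * s ^ (2 ^ j) := by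
      refine ⟨k, fun m _ => ?_⟩
      rw [← hk, pow_orderOf_eq_one]
      simp
    have hj0 : Nat.find hex ≠ 0 := by
      intro h0
      have h1 := Nat.find_spec hex
      rw [h0] at h1
      simp only [pow_zero, pow_one] at h1
      exact hne (h1 m₂ hm₂)
    obtain ⟨j', hj'⟩ := Nat.exists_eq_succ_of_ne_zero hj0
    have hmin' := Nat.find_min hex (m := j') (by omega)
    push Not at hmin'
    obtain ⟨m₁, hm₁, hne₁⟩ := hmin'
    have hspec := Nat.find_spec hex
    rw [hj'] at hspec
    set s' := s ^ (2 ^ j') with hs'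
    have hss : (s' * s') * m₁ = m₁ * (s' * s') := by
      have h1 : s' * s' = s ^ (2 ^ (j' + 1)) := by
        rw [hs', ← pow_add]
        congr 1
        ring
      rw [h1]
      exact hspec m₁ hm₁
    set k₁ := s' * m₁ * s'⁻¹ with hk₁
    have hk₁A : k₁ ∈ A := hAn.conj_mem m₁ hm₁ s'
    let a := m₁ * k₁⁻¹
    have haA : a ∈ A := A.mul_mem hm₁ (A.inv_mem hk₁A)
    have ha1 : a ≠ 1 := by
      intro h0
      have h1 : m₁ = k₁ := mul_inv_eq_one.1 h0
      apply hne₁
      calc s' * m₁ = k₁ * s' := by rw [hk₁]; group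
        _ = m₁ * s' := by rw [← h1]
    have ha : IsConj a a⁻¹ := by
      refine isConj_iff.2 ⟨s', ?_⟩
      have h1 : s' * k₁ * s'⁻¹ = m₁ := by
        calc s' * k₁ * s'⁻¹ = ((s' * s') * m₁) * (s' * s')⁻¹ := by rw [hk₁]; group
          _ = (m₁ * (s' * s')) * (s' * s')⁻¹ := by rw [hss]
          _ = m₁ := by group
      have h3 : s' * a * s'⁻¹ = k₁ * (s' * k₁ * s'⁻¹)⁻¹ := by
        simp only [a]
        rw [hk₁]
        group
      rw [h3, h1]
      simp [a]
    obtain ⟨χ, hχr, hχk⟩ := exists_real_not_ker A hodd haA ha1 ha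
    exact hreal χ hχr (dvd_degree_of_not_ker P hP A hAP χ.2 hχk)
  -- the quotient
  let π : G →* G ⧸ A := QuotientGroup.mk' A
  have hπ : Function.Surjective π := QuotientGroup.mk'_surjective A
  have hcardlt : Nat.card (G ⧸ A) < n := by
    have h1 : Nat.card G = Nat.card A * Nat.card (G ⧸ A) := (Subgroup.card_mul_index A).symm
    have h3 : 1 < Nat.card A := by
      have : Nontrivial A := (Subgroup.nontrivial_iff_ne_bot A).2 hA.2.1
      exact Finite.one_lt_card
    have h4 : 0 < Nat.card (G ⧸ A) := Nat.card_pos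
    rw [← hcard, h1]
    nlinarith
  have hreal' : ∀ χ : IrrCharacter (G ⧸ A), (∀ g, ((χ : G ⧸ A → ℂ) g).im = 0) →
      ¬ p ∣ charDegree (χ : G ⧸ A → ℂ) := by
    intro χ hχ
    have h1 := hreal ⟨(χ : G ⧸ A → ℂ) ∘ π, isIrrCharacter_comp_surj π hπ χ.2⟩ (fun g => hχ (π g))
    have h3 : charDegree ((χ : G ⧸ A → ℂ) ∘ π) = charDegree (χ : G ⧸ A → ℂ) := by
      simp [charDegree]
    change ¬ p ∣ charDegree ((χ : G ⧸ A → ℂ) ∘ π) at h1
    rwa [h3] at h1
  have hIH := ih _ hcardlt (G ⧸ A) rfl hreal' (P.map π) (hP.map π) (M.map π) (hM.map π hπ)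
    (by
      rw [← Subgroup.map_commutator]
      exact Subgroup.map_mono hMP)
    (π s)
    (by
      obtain ⟨k, hk⟩ := hs
      have h1 : orderOf (π s) ∣ 2 ^ k := hk ▸ orderOf_map_dvd π s
      obtain ⟨j, -, hj⟩ := (Nat.dvd_prime_pow Nat.prime_two).1 h1
      exact ⟨j, hj⟩)
    (π m) (Subgroup.mem_map_of_mem π hm)
  set c := s * m * s⁻¹ * m⁻¹ with hc
  have hcA : c ∈ A := by
    rw [← QuotientGroup.eq_one_iff]
    show π c = 1
    rw [hc]
    simp only [map_mul, map_inv]
    rw [hIH]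
    group
  have hsc : Commute s c := hcentA s hs c hcA
  have hiter : ∀ i : ℕ, s ^ i * m * (s ^ i)⁻¹ = c ^ i * m := by
    intro i
    induction i with
    | zero => simp
    | succ i ih2 =>
      have h1 : s * m * s⁻¹ = c * m := by rw [hc]; group
      calc s ^ (i + 1) * m * (s ^ (i + 1))⁻¹ = s * (s ^ i * m * (s ^ i)⁻¹) * s⁻¹ := by
            rw [pow_succ']
            group
        _ = s * (c ^ i * m) * s⁻¹ := by rw [ih2]
        _ = (c ^ i) * (s * m * s⁻¹) := by
            have h3 : s * c ^ i = c ^ i * s := (hsc.pow_right i).eq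
            calc s * (c ^ i * m) * s⁻¹ = (s * c ^ i) * m * s⁻¹ := by group
              _ = c ^ i * s * m * s⁻¹ := by rw [h3]
              _ = _ := by group
        _ = c ^ (i + 1) * m := by rw [h1, pow_succ]; group
  obtain ⟨k, hk⟩ := hs
  have h1 := hiter (2 ^ k)
  rw [← hk, pow_orderOf_eq_one, one_mul, inv_one, mul_one] at h1
  have h2k : c ^ (2 ^ k) = 1 := by
    rw [hk] at h1
    exact (mul_eq_right.1 h1.symm)
  obtain ⟨j, hj⟩ := hAp ⟨c, hcA⟩
  have hj' : c ^ (p ^ j) = 1 := congrArg Subtype.val hj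
  have h3 := pow_gcd_eq_one.2 ⟨h2k, hj'⟩
  have hcop : Nat.gcd (2 ^ k) (p ^ j) = 1 := by
    apply Nat.Coprime.pow
    exact (Nat.coprime_primes Nat.prime_two hp.out).2 (Ne.symm hp2)
  rw [hcop, pow_one] at h3
  have h5 : s * m * s⁻¹ = m := by
    rw [h3] at hc
    exact (mul_inv_eq_one.1 hc.symm)
  calc s * m = (s * m * s⁻¹) * s := by group
    _ = m * s := by rw [h5]

end Cfsg.Agent.Lib.Char.RealDeg
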