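import Cfsg.Agent.Lib.Char.TabFix
import Cfsg.Agent.Lib.Char.OrbitTransfer
import Cfsg.Agent.Lib.Char.BrauerPerm

/-!
# The action of `G` on the character table of a normal `p′`-subgroup

`G` acts on `Irr(K)` and on the classes of `K`.  When `K` has `p′`-order and odd index, for a
`p`-subgroup `P₁` and an element `e` normalizing it, equally many real characters and real classes
are fixed by `P₁` and by `e`.
-/

set_option autoImplicit false
set_option linter.unusedSectionVars false

namespace Cfsg.Agent.Lib.Char.RealTab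

open Cfsg Cfsg.Agent.Lib.Blocks Cfsg.Agent.Lib.Char Matrix
open scoped ComplexConjugate

universe u

section Invol

/-- An involution commuting with the action of a group in which `K` acts trivially with odd
index. -/
theorem fixed_iff_of_invol {G Z : Type*} [Group G] [MulAction G Z] (K : Subgroup G) (hKn : K.Normal)
    (ν : Z → Z) (hν : ∀ (g : G) (z : Z), ν (g • z) = g • ν z) (hνν : ∀ z, ν (ν z) = z)
    (hK : ∀ k ∈ K, ∀ z : Z, k • z = z) (hodd : Odd K.index) (e : G) (z : Z) :
    ν (e • z) = z ↔ ν z = z ∧ e • z = z := by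
  constructor
  · intro h
    have h2 : (e * e) • z = z := by
      have h3 : ν (e • e • z) = e • z := by rw [hν, h]
      have h4 := congrArg ν h3
      rw [hνν, h] at h4
      rw [mul_smul]
      exact h4
    obtain ⟨m, hm⟩ := hodd
    have h4 : ∀ n : ℕ, (e ^ (2 * n)) • z = z := by
      intro n
      induction n with
      | zero => simp
      | succ n ih =>
        rw [show 2 * (n + 1) = 2 * n + 2 by ring, pow_add, mul_smul, pow_two, h2, ih]
    have h5 : e • z = z := by
      have h6 : e ^ (2 * m + 1) ∈ K := by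
        rw [← hm]
        exact Subgroup.pow_index_mem K e
      have h7 := hK _ h6 z
      rw [pow_succ', mul_smul, h4 m] at h7
      exact h7
    refine ⟨?_, h5⟩
    rw [h5] at h
    exact h
  · rintro ⟨h1, h2⟩
    rw [h2, h1]

end Invol

section Act

variable {G : Type u} [Group G] [Fintype G] (K : Subgroup G) [hK : K.Normal] [Fintype K]

noncomputable local instance fintypeClassesAux : Fintype (ConjClasses K) := Fintype.ofFinite _

theorem isIrr_conjFun (g : G) {θ : K → ℂ} (hθ : IsIrrCharacter K θ) :
    IsIrrCharacter K (conjFun K g θ) := by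
  rw [conjFun_eq_comp]
  exact isIrrCharacter_comp_mulEquiv (conjEquiv K g) hθ

/-- The action of `G` on the irreducible characters of a normal subgroup. -/
@[reducible] noncomputable def irrAction : MulAction G (IrrCharacter K) where
  smul g χ := ⟨conjFun K g χ.1, isIrr_conjFun K g χ.2⟩
  one_smul χ := Subtype.ext (conjFun_one K χ.1)
  mul_smul a b χ := Subtype.ext (conjFun_mul K a b χ.1)

/-- The action of `G` on the classes of a normal subgroup. -/
@[reducible] def classAction : MulAction G (ConjClasses K) where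
  smul g C := ConjClasses.map (MulAut.conjNormal g : K ≃* K).toMonoidHom C
  one_smul C := by
    obtain ⟨n, rfl⟩ := ConjClasses.mk_surjective C
    show ConjClasses.mk (MulAut.conjNormal (1 : G) n) = _
    rw [map_one]
    rfl
  mul_smul a b C := by
    obtain ⟨n, rfl⟩ := ConjClasses.mk_surjective C
    show ConjClasses.mk (MulAut.conjNormal (a * b) n) = ConjClasses.mk (MulAut.conjNormal a (MulAut.conjNormal b n))
    rw [map_mul]
    rfl

attribute [local instance] irrAction classAction

theorem smul_irr_apply (g : G) (χ : IrrCharacter K) (n : K) :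
    ((g • χ : IrrCharacter K) : K → ℂ) n = (χ : K → ℂ) ⟨g⁻¹ * n * g, hK.conj_mem' n n.2 g⟩ := rfl

theorem smul_mk (g : G) (n : K) :
    g • ConjClasses.mk n = ConjClasses.mk (MulAut.conjNormal g n) := rfl

/-- Complex conjugation of characters. -/
noncomputable def conjI (χ : IrrCharacter K) : IrrCharacter K :=
  ⟨fun n => conj ((χ : K → ℂ) n), IsIrrCharacter.conj χ.2⟩

/-- Inverting conjugacy classes. -/
def invC : ConjClasses K → ConjClasses K :=
  Quotient.map (fun g => g⁻¹) (by
    intro a b hab
    exact (isConj_iff.mp hab).elim fun c hc => isConj_iff.mpr ⟨c, by rw [← hc]; group⟩)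

@[simp] theorem invC_mk (n : K) : invC K (ConjClasses.mk n) = ConjClasses.mk n⁻¹ := rfl

@[simp] theorem conjI_apply (χ : IrrCharacter K) (n : K) :
    ((conjI K χ : IrrCharacter K) : K → ℂ) n = conj ((χ : K → ℂ) n) := rfl

theorem conjI_conjI (χ : IrrCharacter K) : conjI K (conjI K χ) = χ :=
  Subtype.ext (funext fun n => by simp)

theorem invC_invC (C : ConjClasses K) : invC K (invC K C) = C := by
  obtain ⟨n, rfl⟩ := ConjClasses.mk_surjective C
  simp

theorem conjI_smul (g : G) (χ : IrrCharacter K) : conjI K (g • χ) = g • conjI K χ := rfl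

theorem invC_smul (g : G) (C : ConjClasses K) : invC K (g • C) = g • invC K C := by
  obtain ⟨n, rfl⟩ := ConjClasses.mk_surjective C
  rw [smul_mk, invC_mk, invC_mk, smul_mk, map_inv]

theorem smul_irr_of_mem {k : G} (hk : k ∈ K) (χ : IrrCharacter K) : k • χ = χ := by
  apply Subtype.ext
  have h1 : k ∈ inertia K (χ : K → ℂ) :=
    le_inertia K (IsCharacter.isClassFunction (IsIrrCharacter.isCharacter χ.2)) hk
  exact h1

theorem smul_class_of_mem {k : G} (hk : k ∈ K) (C : ConjClasses K) : k • C = C := by
  obtain ⟨n, rfl⟩ := ConjClasses.mk_surjective C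
  rw [smul_mk, ConjClasses.mk_eq_mk_iff_isConj, isConj_comm, isConj_iff]
  refine ⟨⟨k, hk⟩, ?_⟩
  apply Subtype.ext
  simp

/-- The value of a character on a class. -/
noncomputable def tab (χ : IrrCharacter K) (C : ConjClasses K) : ℂ := (χ : K → ℂ) (Quotient.out C)

theorem tab_mk (χ : IrrCharacter K) (n : K) : tab K χ (ConjClasses.mk n) = (χ : K → ℂ) n := by
  apply IsClassFunction.congr_isConj (IsCharacter.isClassFunction (IsIrrCharacter.isCharacter χ.2))
  rw [← ConjClasses.mk_eq_mk_iff_isConj]
  exact Quotient.out_eq _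

theorem tab_smul (g : G) (χ : IrrCharacter K) (C : ConjClasses K) :
    tab K (g • χ) (g • C) = tab K χ C := by
  obtain ⟨n, rfl⟩ := ConjClasses.mk_surjective C
  rw [smul_mk, tab_mk, tab_mk, smul_irr_apply]
  refine congrArg (χ : K → ℂ) (Subtype.ext ?_)
  simp
  group

/-- The size of the centralizer of an element of a class. -/
noncomputable def centC (C : ConjClasses K) : ℕ :=
  Nat.card (Subgroup.centralizer ({Quotient.out C} : Set K))

theorem card_centralizer_aut {L : Type*} [Group L] (σ : L ≃* L) (n : L) :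
    Nat.card (Subgroup.centralizer ({σ n} : Set L)) = Nat.card (Subgroup.centralizer ({n} : Set L)) := by
  apply Nat.card_congr
  symm
  refine σ.toEquiv.subtypeEquiv fun x => ?_
  simp only [Subgroup.mem_centralizer_singleton_iff]
  show x * n = n * x ↔ σ x * σ n = σ n * σ x
  rw [← map_mul, ← map_mul, σ.injective.eq_iff]

theorem card_centralizer_conj {L : Type*} [Group L] {m n : L} (h : IsConj m n) :
    Nat.card (Subgroup.centralizer ({m} : Set L)) = Nat.card (Subgroup.centralizer ({n} : Set L)) := by
  obtain ⟨c, rfl⟩ := isConj_iff.mp h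
  exact (card_centralizer_aut (MulAut.conj c) m).symm

theorem centC_mk (n : K) : centC K (ConjClasses.mk n) = Nat.card (Subgroup.centralizer ({n} : Set K)) := by
  apply card_centralizer_conj
  rw [← ConjClasses.mk_eq_mk_iff_isConj]
  exact Quotient.out_eq _

theorem centC_smul (g : G) (C : ConjClasses K) : centC K (g • C) = centC K C := by
  obtain ⟨n, rfl⟩ := ConjClasses.mk_surjective C
  rw [smul_mk, centC_mk, centC_mk]
  exact card_centralizer_aut (MulAut.conjNormal g) n

/-- The inverse of the table. -/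
noncomputable def tabInv (C : ConjClasses K) (χ : IrrCharacter K) : ℂ :=
  (centC K C : ℂ)⁻¹ * conj (tab K χ C)

theorem tabInv_mul_tab [DecidableEq (ConjClasses K)] :
    (Matrix.of (tabInv K)) * (Matrix.of (tab K)) = 1 := by
  classical
  ext C D
  rw [Matrix.mul_apply]
  simp only [Matrix.of_apply, tabInv, tab, mul_assoc]
  rw [← Finset.mul_sum]
  have h1 : ∑ χ : IrrCharacter K, conj ((χ : K → ℂ) (Quotient.out C)) * (χ : K → ℂ) (Quotient.out D) =
      conj (∑ χ : IrrCharacter K, (χ : K → ℂ) (Quotient.out C) * conj ((χ : K → ℂ) (Quotient.out D))) := by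
    simp
  rw [h1, sum_irr_mul_conj]
  have hc : (centC K C : ℂ) ≠ 0 := by
    have : 0 < centC K C := Nat.card_pos
    exact_mod_cast this.ne'
  by_cases hCD : C = D
  · subst hCD
    rw [if_pos (IsConj.refl _), Matrix.one_apply_eq, map_natCast]
    exact inv_mul_cancel₀ hc
  · have h2 : ¬ IsConj (Quotient.out C) (Quotient.out D) := by
      intro h
      apply hCD
      have h3 := ConjClasses.mk_eq_mk_iff_isConj.mpr h
      have h4 : ∀ E : ConjClasses K, ConjClasses.mk (Quotient.out E) = E := fun E => Quotient.out_eq _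
      rwa [h4, h4] at h3
    rw [if_neg h2, Matrix.one_apply_ne hCD]
    simp

theorem tab_mul_tabInv [DecidableEq (IrrCharacter K)] [DecidableEq (ConjClasses K)] :
    (Matrix.of (tab K)) * (Matrix.of (tabInv K)) = 1 := by
  have e : ConjClasses K ≃ IrrCharacter K := Fintype.equivOfCardEq (by
    rw [← Nat.card_eq_fintype_card, ← Nat.card_eq_fintype_card]
    exact card_irr_eq_card_conjClasses.symm)
  exact (Matrix.mul_eq_one_comm_of_equiv e).mp (tabInv_mul_tab K)

variable {p : ℕ}

/-- The counting statement. -/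
theorem card_real_fixed (hp : p.Prime) (hcop : ¬ p ∣ Nat.card K) (hodd : Odd K.index)
    (P₁ : Subgroup G) (hP₁ : IsPGroup p P₁) (e : G)
    (he : e ∈ Subgroup.normalizer (P₁ : Set G)) :
    Nat.card {χ : IrrCharacter K // conjI K χ = χ ∧ (∀ u ∈ P₁, u • χ = χ) ∧ e • χ = χ} =
      Nat.card {C : ConjClasses K // invC K C = C ∧ (∀ u ∈ P₁, u • C = C) ∧ e • C = C} := by
  classical
  obtain ⟨M, hM⟩ := exists_isPModular hp
  haveI := isPrime_of_modular hM
  haveI : Fact p.Prime := ⟨hp⟩
  have hne : e⁻¹ ∈ Subgroup.normalizer (P₁ : Set G) := Subgroup.inv_mem _ he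
  have hconj : ∀ u ∈ P₁, e⁻¹ * u * e ∈ P₁ := by
    intro u hu
    have := (Subgroup.mem_normalizer_iff.mp hne u).1 hu
    simpa using this
  have hconj' : ∀ u ∈ P₁, e * u * e⁻¹ ∈ P₁ := fun u hu => (Subgroup.mem_normalizer_iff.mp he u).1 hu
  have key := TabFix.card_fixed_eq_of_table (M := M) hM (Q := P₁) hP₁
    (Matrix.of (tab K)) (Matrix.of (tabInv K))
    (fun χ C => memLocalRing_of_isIntegral (IsCharacter.isIntegral (IsIrrCharacter.isCharacter χ.2) _))
    (fun C χ => MemLocalRing.mul (inv_natCast_memLocalRing hM (fun h => hcop (h.trans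
      (Subgroup.card_subgroup_dvd_card _))))
      (by
        have h2 : IsIntegral ℤ (conj ((χ : K → ℂ) (Quotient.out C))) :=
          map_isIntegral_int (starRingEnd ℂ) (IsCharacter.isIntegral (IsIrrCharacter.isCharacter χ.2) _)
        exact memLocalRing_of_isIntegral h2))
    (fun u χ C => tab_smul K (u : G) χ C)
    (fun u χ C => by
      show (centC K ((u : G) • C) : ℂ)⁻¹ * conj (tab K ((u : G) • χ) ((u : G) • C)) = _
      rw [centC_smul, tab_smul]
      rfl)
    (tab_mul_tabInv K) (tabInv_mul_tab K)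
    (fun χ => conjI K (e • χ)) (fun C => invC K (e⁻¹ • C))
    (by
      intro χ hχ u
      show (u : G) • conjI K (e • χ) = conjI K (e • χ)
      rw [← conjI_smul, ← mul_smul]
      have h1 : (u : G) * e = e * (e⁻¹ * u * e) := by group
      rw [h1, mul_smul]
      congr 2
      exact hχ ⟨_, hconj u u.2⟩)
    (by
      intro C hC u
      show (u : G) • invC K (e⁻¹ • C) = invC K (e⁻¹ • C)
      rw [← invC_smul, ← mul_smul]
      have h1 : (u : G) * e⁻¹ = e⁻¹ * (e * u * e⁻¹) := by group
      rw [h1, mul_smul]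
      congr 2
      exact hC ⟨_, hconj' u u.2⟩)
    (by
      intro χ C _ _
      obtain ⟨n, rfl⟩ := ConjClasses.mk_surjective C
      change tab K (conjI K (e • χ)) (ConjClasses.mk n) = tab K χ (invC K (e⁻¹ • ConjClasses.mk n))
      rw [smul_mk, invC_mk, tab_mk, tab_mk, conjI_apply, smul_irr_apply]
      have hchar := IsIrrCharacter.isCharacter χ.2
      rw [← IsCharacter.apply_inv hchar]
      refine congrArg (χ : K → ℂ) (Subtype.ext ?_)
      simp)
  have hG1 := fixed_iff_of_invol K hK (conjI K) (fun g χ => conjI_smul K g χ) (conjI_conjI K)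
    (fun k hk χ => smul_irr_of_mem K hk χ) hodd
  have hG2 := fixed_iff_of_invol K hK (invC K) (fun g C => invC_smul K g C) (invC_invC K)
    (fun k hk C => smul_class_of_mem K hk C) hodd
  have e1 : {χ : IrrCharacter K // conjI K χ = χ ∧ (∀ u ∈ P₁, u • χ = χ) ∧ e • χ = χ} ≃
      {χ : IrrCharacter K // (∀ u : P₁, u • χ = χ) ∧ conjI K (e • χ) = χ} := by
    refine Equiv.subtypeEquivRight fun χ => ?_
    rw [hG1]
    constructor
    · rintro ⟨h1, h2, h3⟩
      exact ⟨fun u => h2 u u.2, h1, h3⟩
    · rintro ⟨h1, h2, h3⟩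
      exact ⟨h2, fun u hu => h1 ⟨u, hu⟩, h3⟩
  have e2 : {C : ConjClasses K // invC K C = C ∧ (∀ u ∈ P₁, u • C = C) ∧ e • C = C} ≃
      {C : ConjClasses K // (∀ u : P₁, u • C = C) ∧ invC K (e⁻¹ • C) = C} := by
    refine Equiv.subtypeEquivRight fun C => ?_
    rw [hG2]
    have h5 : e⁻¹ • C = C ↔ e • C = C := by
      constructor
      · intro h
        conv_lhs => rw [← h]
        exact smul_inv_smul e C
      · intro h
        conv_lhs => rw [← h]
        exact inv_smul_smul e C
    rw [h5]
    constructor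
    · rintro ⟨h1, h2, h3⟩
      exact ⟨fun u => h2 u u.2, h1, h3⟩
    · rintro ⟨h1, h2, h3⟩
      exact ⟨h2, fun u hu => h1 ⟨u, hu⟩, h3⟩
  rw [Nat.card_congr e1, Nat.card_congr e2]
  exact key

end Act

end Cfsg.Agent.Lib.Char.RealTab
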