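import Cfsg.Agent.Lib.Char.RealTab
import Cfsg.Agent.Lib.Char.IndNormal
import Cfsg.Agent.Lib.Char.SylowNorm
import Cfsg.Agent.Lib.Char.Degree
import Cfsg.Agent.Lib.Char.Ind
import Cfsg.Agent.Lib.Char.OrbitTransfer

/-!
# Real elements and normal `p′`-subgroups of odd index

If `K` is a normal `p′`-subgroup of odd index and real irreducible characters of `G` have `p′`-degree,
then every real element of `G` has a conjugate centralizing a given Sylow `p`-subgroup.
-/

set_option autoImplicit false
set_option linter.unusedSectionVars false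

namespace Cfsg.Agent.Lib.Char.RealTab

open Cfsg Cfsg.Agent.Lib.Blocks Cfsg.Agent.Lib.Char Matrix
open scoped ComplexConjugate Pointwise

universe u

section Over

variable {G : Type u} [Group G] [Fintype G] (K : Subgroup G) [hK : K.Normal] [Fintype K]

attribute [local instance] irrAction classAction

/-- Complex conjugate of an irreducible character of the whole group. -/
noncomputable def conjG (φ : IrrCharacter G) : IrrCharacter G :=
  ⟨fun g => conj ((φ : G → ℂ) g), IsIrrCharacter.conj φ.2⟩

/-- A real irreducible character of a normal subgroup of odd index lies under a real irreducible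
character of the group. -/
theorem exists_real_over (hodd : Odd K.index) (θ : IrrCharacter K) (hθ : conjI K θ = θ) :
    ∃ χ : IrrCharacter G, (∀ g, ((χ : G → ℂ) g).im = 0) ∧
      classInner (resFun K (χ : G → ℂ)) (θ : K → ℂ) ≠ 0 := by
  classical
  set f : G → ℂ := indFun K (θ : K → ℂ) with hf
  have hfc : IsCharacter G f := isCharacter_indFun K (IsIrrCharacter.isCharacter θ.2)
  obtain ⟨m, hm1, hm2⟩ := IsCharacter.exists_eq_sum hfc
  have hθr : ∀ n : K, conj ((θ : K → ℂ) n) = (θ : K → ℂ) n := fun n =>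
    congrFun (congrArg Subtype.val hθ) n
  have hfreal : ∀ g, conj (f g) = f g := by
    intro g
    simp only [hf, indFun_apply, map_mul, map_sum, map_inv₀, map_natCast]
    congr 1
    refine Finset.sum_congr rfl fun x _ => ?_
    by_cases hx : x⁻¹ * g * x ∈ K
    · rw [extendByZero_of_mem K _ hx, hθr]
    · rw [extendByZero_of_notMem K _ hx, map_zero]
  -- the norm of the induced character
  let T := inertia K (θ : K → ℂ)
  have hKT : K ≤ T := le_inertia K (IsCharacter.isClassFunction (IsIrrCharacter.isCharacter θ.2))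
  let r := K.relIndex T
  have hr : Odd r := by
    have h1 := Subgroup.relIndex_mul_index hKT
    rw [← h1] at hodd
    exact (Nat.odd_mul.mp hodd).1
  have hcardT : Nat.card T = Nat.card K * r := by
    have h1 := Subgroup.relIndex_mul_index hKT
    have h2 := Subgroup.card_mul_index K
    have h3 := Subgroup.card_mul_index T
    have h4 : 0 < T.index := Nat.pos_of_ne_zero Subgroup.index_ne_zero_of_finite
    rw [← h1] at h2
    rw [← h3] at h2
    have h5 : Nat.card T * T.index = (Nat.card K * r) * T.index := by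
      rw [← h2]
      ring
    exact Nat.eq_of_mul_eq_mul_right h4 h5
  have hnorm : classInner f f = (r : ℂ) := by
    rw [hf, classInner_indFun_normal]
    have h1 : ∀ x : G, classInner (θ : K → ℂ) (conjFun K x (θ : K → ℂ)) =
        if x ∈ T then 1 else 0 := by
      intro x
      rw [classInner_irr θ.2 (isIrr_conjFun K x θ.2)]
      refine if_congr ?_ rfl rfl
      exact eq_comm
    simp only [h1]
    rw [Finset.sum_boole]
    have h2 : ((Finset.univ.filter (fun x : G => x ∈ T)).card : ℂ) = (Nat.card T : ℂ) := by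
      rw [Nat.card_eq_fintype_card, ← Fintype.card_subtype]
    rw [h2, hcardT]
    push_cast
    have h3 : (Nat.card K : ℂ) ≠ 0 := by exact_mod_cast Nat.card_pos.ne'
    field_simp
  have hsum : (r : ℂ) = ∑ φ : IrrCharacter G, ((m φ : ℂ)) ^ 2 := by
    have h0 : classInner f f = classInner (∑ ψ : IrrCharacter G, m ψ • (ψ : G → ℂ)) f := by rw [← hm2]
    rw [← hnorm, h0, classInner_sum_left]
    refine Finset.sum_congr rfl fun φ _ => ?_
    rw [← Nat.cast_smul_eq_nsmul ℂ, classInner_smul_left, classInner_conj_symm, hm1, map_natCast]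
    ring
  have hsumN : r = ∑ φ : IrrCharacter G, (m φ) ^ 2 := by
    exact_mod_cast hsum
  have hmconj : ∀ φ, m (conjG φ) = m φ := by
    intro φ
    have h1 : classInner f ((conjG φ : IrrCharacter G) : G → ℂ) = conj (classInner f (φ : G → ℂ)) := by
      simp only [classInner, map_mul, map_sum, map_inv₀, map_natCast, conjG, Complex.conj_conj, hfreal]
    rw [hm1, hm1, map_natCast] at h1
    exact_mod_cast h1
  have hconjconj : ∀ φ : IrrCharacter G, conjG (conjG φ) = φ := fun φ =>
    Subtype.ext (funext fun g => by simp [conjG])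
  by_contra hcon
  push Not at hcon
  have hreal0 : ∀ φ : IrrCharacter G, conjG φ = φ → m φ = 0 := by
    intro φ hφ
    have h1 := hcon φ (fun g => by
      have := congrFun (congrArg Subtype.val hφ) g
      exact Complex.conj_eq_iff_im.mp this)
    have h2 : classInner f (φ : G → ℂ) = 0 := by
      rw [hf, classInner_indFun_left K _ _ (IsCharacter.isClassFunction (IsIrrCharacter.isCharacter φ.2)),
        classInner_conj_symm, show (fun h : K => (φ : G → ℂ) h) = resFun K (φ : G → ℂ) from rfl, h1, map_zero]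
    rw [hm1] at h2
    exact_mod_cast h2
  have hzero : ∑ φ : IrrCharacter G, (((m φ) ^ 2 : ℕ) : ZMod 2) = 0 := by
    apply Finset.sum_involution (fun φ _ => conjG φ)
    · intro φ _
      rw [hmconj]
      exact CharTwo.add_self_eq_zero _
    · intro φ _ hne heq
      apply hne
      rw [hreal0 φ heq]
      simp
    · intro φ _
      exact hconjconj φ
    · intro φ _
      exact Finset.mem_univ _
  have h5 : ((r : ℕ) : ZMod 2) = 0 := by
    rw [hsumN]
    push_cast
    push_cast at hzero
    exact hzero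
  rw [ZMod.natCast_eq_zero_iff] at h5
  exact (Nat.not_even_iff_odd.mpr hr) (even_iff_two_dvd.mpr h5)

variable {p : ℕ}

theorem not_dvd_index_inertia (hodd : Odd K.index)
    (hreal : ∀ χ : IrrCharacter G, (∀ g, ((χ : G → ℂ) g).im = 0) → ¬ p ∣ charDegree (χ : G → ℂ))
    (θ : IrrCharacter K) (hθ : conjI K θ = θ) : ¬ p ∣ (inertia K (θ : K → ℂ)).index := by
  obtain ⟨χ, h1, h2⟩ := exists_real_over K hodd θ hθ
  intro hd
  apply hreal χ h1
  have hχc := IsIrrCharacter.isCharacter χ.2
  have hθc := IsIrrCharacter.isCharacter θ.2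
  obtain ⟨e, he⟩ := IsCharacter.classInner_irr_eq_nat (isCharacter_resFun K hχc) θ.2
  have h3 := clifford_degree_nat K χ.2 θ.2 h2 (apply_one_eq_charDegree hχc) (apply_one_eq_charDegree hθc) he
  rw [h3]
  exact Dvd.dvd.mul_right (hd.trans (dvd_mul_left _ _)) _

/-- Every orbit of real characters contains a `P`-fixed point. -/
theorem exists_smul_fixed_irr [Fact p.Prime] (hodd : Odd K.index)
    (hreal : ∀ χ : IrrCharacter G, (∀ g, ((χ : G → ℂ) g).im = 0) → ¬ p ∣ charDegree (χ : G → ℂ))
    (P : Sylow p G) (θ : IrrCharacter K) (hθ : conjI K θ = θ) :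
    ∃ g : G, ∀ u ∈ (P : Subgroup G), u • g • θ = g • θ := by
  obtain ⟨P', hP'⟩ := SylowNorm.exists_sylow_le (p := p) _ (not_dvd_index_inertia K hodd hreal θ hθ)
  obtain ⟨c, hc⟩ := MulAction.exists_smul_eq G P' P
  refine ⟨c, ?_⟩
  intro u hu
  have hu' : c⁻¹ * u * c ∈ (P' : Subgroup G) := by
    rw [← hc, Sylow.coe_subgroup_smul, Subgroup.mem_pointwise_smul_iff_inv_smul_mem] at hu
    simpa [MulAut.smul_def, MulAut.conj_inv_apply] using hu
  have h1 : (c⁻¹ * u * c) • θ = θ := Subtype.ext (hP' hu')
  calc u • c • θ = (c * (c⁻¹ * u * c)) • θ := by rw [← mul_smul]; congr 1; group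
    _ = c • θ := by rw [mul_smul, h1]

end Over

section Main

variable {G : Type u} [Group G]

/-- The action on the fixed points of an involution commuting with the action. -/
@[reducible] def nuAction {Z : Type*} [MulAction G Z] (ν : Z → Z)
    (h : ∀ (g : G) (z : Z), ν (g • z) = g • ν z) : MulAction G {z : Z // ν z = z} where
  smul g z := ⟨g • z.1, by rw [h, z.2]⟩
  one_smul z := Subtype.ext (one_smul G z.1)
  mul_smul a b z := Subtype.ext (mul_smul a b z.1)

/-- Fixed points in the fixed points of an involution. -/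
def nuFixEquiv {Z : Type*} [MulAction G Z] (ν : Z → Z)
    (h : ∀ (g : G) (z : Z), ν (g • z) = g • ν z) (P₁ : Subgroup G) (e : G) :
    letI := nuAction ν h
    {x : {z : Z // ν z = z} // (∀ u ∈ P₁, u • x = x) ∧ e • x = x} ≃
      {z : Z // ν z = z ∧ (∀ u ∈ P₁, u • z = z) ∧ e • z = z} where
  toFun x := ⟨x.1.1, x.1.2, fun u hu => congrArg Subtype.val (x.2.1 u hu), congrArg Subtype.val x.2.2⟩
  invFun z := ⟨⟨z.1, z.2.1⟩, fun u hu => Subtype.ext (z.2.2.1 u hu), Subtype.ext z.2.2.2⟩
  left_inv _ := rfl
  right_inv _ := rfl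

variable [Fintype G] (K : Subgroup G) [hK : K.Normal] [Fintype K]

attribute [local instance] irrAction classAction

/-- **Theorem.** If `K` is a normal `p′`-subgroup of odd index and real irreducible characters of `G`
have `p′`-degree, then every real element of `G` has a conjugate centralizing a Sylow
`p`-subgroup. -/
theorem exists_conj_centralize {p : ℕ} [hp : Fact p.Prime] (hcop : ¬ p ∣ Nat.card K)
    (hodd : Odd K.index)
    (hreal : ∀ χ : IrrCharacter G, (∀ g, ((χ : G → ℂ) g).im = 0) → ¬ p ∣ charDegree (χ : G → ℂ))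
    (P : Sylow p G) (x : G) (hx : IsConj x x⁻¹) :
    ∃ g : G, ∀ u ∈ (P : Subgroup G), u * (g * x * g⁻¹) = (g * x * g⁻¹) * u := by
  classical
  letI aX := nuAction (conjI K) (conjI_smul K)
  letI aY := nuAction (invC K) (invC_smul K)
  have h2 : ∀ e ∈ Subgroup.normalizer ((P : Subgroup G) : Set G),
      Nat.card {x : {χ : IrrCharacter K // conjI K χ = χ} // (∀ u ∈ (P : Subgroup G), u • x = x) ∧ e • x = x} =
      Nat.card {y : {C : ConjClasses K // invC K C = C} // (∀ u ∈ (P : Subgroup G), u • y = y) ∧ e • y = y} := by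
    intro e he
    rw [Nat.card_congr (nuFixEquiv (conjI K) (conjI_smul K) _ e),
      Nat.card_congr (nuFixEquiv (invC K) (invC_smul K) _ e)]
    exact card_real_fixed K hp.out hcop hodd P P.2 e he
  have h1 : ∀ g : G, Nat.card {x : {χ : IrrCharacter K // conjI K χ = χ} // g • x = x} =
      Nat.card {y : {C : ConjClasses K // invC K C = C} // g • y = y} := by
    intro g
    have e1 : ∀ (A : Type u) [MulAction G A], {x : A // g • x = x} ≃
        {x : A // (∀ u ∈ (⊥ : Subgroup G), u • x = x) ∧ g • x = x} := by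
      intro A _
      refine Equiv.subtypeEquivRight fun x => ?_
      constructor
      · intro h
        refine ⟨fun u hu => ?_, h⟩
        rw [Subgroup.mem_bot.mp hu, one_smul]
      · exact fun h => h.2
    rw [Nat.card_congr (e1 _), Nat.card_congr (e1 _),
      Nat.card_congr (nuFixEquiv (conjI K) (conjI_smul K) _ g),
      Nat.card_congr (nuFixEquiv (invC K) (invC_smul K) _ g)]
    exact card_real_fixed K hp.out hcop hodd ⊥ IsPGroup.of_bot g (by
      rw [Subgroup.mem_normalizer_iff]
      intro h
      simp only [SetLike.mem_coe, Subgroup.mem_bot]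
      constructor
      · rintro rfl
        simp
      · intro h1
        simpa using h1)
  have h3 : ∀ θ : {χ : IrrCharacter K // conjI K χ = χ}, ∃ g : G,
      ∀ u ∈ (P : Subgroup G), u • g • θ = g • θ := by
    intro θ
    obtain ⟨g, hg⟩ := exists_smul_fixed_irr K hodd hreal P θ.1 θ.2
    exact ⟨g, fun u hu => Subtype.ext (hg u hu)⟩
  -- `x` lies in `K`
  have hxK : x ∈ K := by
    have h4 : IsConj (QuotientGroup.mk' K x) (QuotientGroup.mk' K x)⁻¹ := by
      rw [← map_inv]
      exact (QuotientGroup.mk' K).map_isConj hx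
    have h5 : Odd (Nat.card (G ⧸ K)) := by
      rwa [← Subgroup.index_eq_card]
    exact (QuotientGroup.eq_one_iff x).mp (eq_one_of_isConj_inv_of_odd h5 h4)
  -- `x` is real in `K`
  have hxr : IsConj (⟨x, hxK⟩ : K) (⟨x, hxK⟩ : K)⁻¹ := by
    obtain ⟨c, hc⟩ := isConj_iff.mp hx
    have hc2 : c * c * x * (c * c)⁻¹ = x := by
      calc c * c * x * (c * c)⁻¹ = c * (c * x * c⁻¹) * c⁻¹ := by group
        _ = c * x⁻¹ * c⁻¹ := by rw [hc]
        _ = (c * x * c⁻¹)⁻¹ := by group
        _ = x := by rw [hc, inv_inv]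
    have hc3 : ∀ n : ℕ, (c ^ (2 * n)) * x * (c ^ (2 * n))⁻¹ = x := by
      intro n
      induction n with
      | zero => simp
      | succ n ih =>
        have : c ^ (2 * (n + 1)) = c ^ (2 * n) * (c * c) := by
          rw [show 2 * (n + 1) = 2 * n + 2 by ring, pow_add, pow_two]
        rw [this]
        calc c ^ (2 * n) * (c * c) * x * (c ^ (2 * n) * (c * c))⁻¹
            = c ^ (2 * n) * (c * c * x * (c * c)⁻¹) * (c ^ (2 * n))⁻¹ := by group
          _ = x := by rw [hc2, ih]
    obtain ⟨m, hm⟩ := hodd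
    have hk : c ^ (2 * m + 1) ∈ K := by
      rw [← hm]
      exact Subgroup.pow_index_mem K c
    rw [isConj_iff]
    refine ⟨⟨_, hk⟩, Subtype.ext ?_⟩
    show c ^ (2 * m + 1) * x * (c ^ (2 * m + 1))⁻¹ = x⁻¹
    have : c ^ (2 * m + 1) = c * c ^ (2 * m) := pow_succ' c (2 * m)
    rw [this, ← hc]
    calc c * c ^ (2 * m) * x * (c * c ^ (2 * m))⁻¹ = c * (c ^ (2 * m) * x * (c ^ (2 * m))⁻¹) * c⁻¹ := by group
      _ = c * x * c⁻¹ := by rw [hc3]
  have hC : invC K (ConjClasses.mk (⟨x, hxK⟩ : K)) = ConjClasses.mk (⟨x, hxK⟩ : K) := by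
    rw [invC_mk]
    exact (ConjClasses.mk_eq_mk_iff_isConj.mpr hxr).symm
  obtain ⟨g, hg⟩ := OrbitTransfer.orbit_transfer P h1 h2 h3 ⟨_, hC⟩
  -- pass to the class of the conjugate
  set y : K := MulAut.conjNormal g (⟨x, hxK⟩ : K) with hy
  have hg' : ∀ u ∈ (P : Subgroup G), IsConj (MulAut.conjNormal u y) y := by
    intro u hu
    have h4 : u • (ConjClasses.mk y) = ConjClasses.mk y := congrArg Subtype.val (hg u hu)
    rw [smul_mk] at h4
    exact ConjClasses.mk_eq_mk_iff_isConj.mp h4
  letI aD : MulAction (P : Subgroup G) {n : K // IsConj y n} :=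
    { smul := fun u n => ⟨MulAut.conjNormal (u : G) n.1,
        ((hg' u u.2).symm.trans (show IsConj (MulAut.conjNormal (u : G) y) (MulAut.conjNormal (u : G) n.1) from
          MonoidHom.map_isConj (MulAut.conjNormal (u : G) : K ≃* K).toMonoidHom n.2))⟩
      one_smul := fun n => Subtype.ext (by
        show MulAut.conjNormal (((1 : (P : Subgroup G)) : G)) n.1 = n.1
        simp)
      mul_smul := fun a b n => Subtype.ext (by
        show MulAut.conjNormal (((a * b : (P : Subgroup G)) : G)) n.1 =
          MulAut.conjNormal (a : G) (MulAut.conjNormal (b : G) n.1)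
        simp [map_mul]) }
  have hnd : ¬ p ∣ Nat.card {n : K // IsConj y n} := by
    intro hd
    apply hcop
    rw [← card_conj_mul_card_centralizer y]
    exact hd.trans (dvd_mul_right _ _)
  obtain ⟨n, hn⟩ := IsPGroup.nonempty_fixed_point_of_prime_not_dvd_card P.2 {n : K // IsConj y n} hnd
  obtain ⟨k, hk⟩ := isConj_iff.mp n.2
  refine ⟨(k : G) * g, fun u hu => ?_⟩
  have hn1 : (u * (n.1 : G) * u⁻¹) = (n.1 : G) := by
    have h5 := congrArg (fun w : {n : K // IsConj y n} => (w.1 : G)) (hn ⟨u, hu⟩)
    exact h5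
  have hn2 : (n.1 : G) = (k : G) * g * x * ((k : G) * g)⁻¹ := by
    rw [← hk]
    simp only [Subgroup.coe_mul, InvMemClass.coe_inv, hy, MulAut.conjNormal_apply]
    group
  rw [← hn2]
  calc u * (n.1 : G) = (u * (n.1 : G) * u⁻¹) * u := by group
    _ = (n.1 : G) * u := by rw [hn1]

end Main

end Cfsg.Agent.Lib.Char.RealTab
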