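import Mathlib
import Cfsg.Agent.Lib.Basic.Index
import Cfsg.Agent.Lib.PGroups.Parts
import Cfsg.Agent.Lib.OddLocal.Fitting
import Cfsg.Agent.Lib.Known.Conj
import Cfsg.Agent.Lib.Struct.Basic

/-!
# A group with the class sizes of a nilpotent group is nilpotent (Cossey–Hawkes–Mann)

Counting elements by class sizes: the elements of class size prime to `p` number
`|Z(G)|_p * |G|_{p'}`, which forces `Z(Q) ≤ Z(G)` for every Sylow `Q`; the elements of `p`-power
class size number `|G|_p * |Z(G)|_{p'}`, which forces the Sylow subgroups to be normal.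
-/

set_option autoImplicit false

namespace Cfsg.Agent.Lib.Char.SameClass

open Subgroup
open scoped Pointwise

section Basic

variable {G : Type*} [Group G] [Finite G]

/-- The centralizer of an element. -/
abbrev cent {G : Type*} [Group G] (g : G) : Subgroup G := centralizer ({g} : Set G)

/-- The class size. -/
noncomputable abbrev cs {G : Type*} [Group G] (g : G) : ℕ := (cent g).index

theorem mem_cent_iff {g k : G} : k ∈ cent g ↔ k * g = g * k := mem_centralizer_singleton_iff

theorem card_carrier_eq (g : G) : Nat.card (ConjClasses.mk g).carrier = cs g := by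
  have h1 := Cfsg.Agent.Lib.Known.card_carrier_mul_card_centralizer g
  have h2 := Subgroup.index_mul_card (cent g)
  have hp : 0 < Nat.card (cent g) := Nat.card_pos
  exact Nat.eq_of_mul_eq_mul_right hp (h1.trans h2.symm)

theorem cs_conj (t a : G) : cs (t * a * t⁻¹) = cs a := by
  have h : ConjClasses.mk (t * a * t⁻¹) = ConjClasses.mk a := by
    rw [ConjClasses.mk_eq_mk_iff_isConj, isConj_comm, isConj_iff]
    exact ⟨t, rfl⟩
  rw [← card_carrier_eq, ← card_carrier_eq, h]

theorem cs_mul_central {x z : G} (hz : z ∈ center G) : cs (x * z) = cs x := by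
  have : cent (x * z) = cent x := by
    ext k
    rw [mem_cent_iff, mem_cent_iff]
    have hk : k * z = z * k := (mem_center_iff.mp hz k)
    constructor
    · intro h
      have h2 : k * x * z = x * k * z := by
        calc k * x * z = k * (x * z) := by group
          _ = x * z * k := h
          _ = x * (z * k) := by group
          _ = x * (k * z) := by rw [hk]
          _ = x * k * z := by group
      exact mul_right_cancel h2
    · intro h
      calc k * (x * z) = k * x * z := by group
        _ = x * k * z := by rw [h]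
        _ = x * (k * z) := by group
        _ = x * (z * k) := by rw [hk]
        _ = x * z * k := by group
  rw [cs, cs, this]

theorem cs_dvd_of_mem_zpowers {a b : G} (h : a ∈ zpowers b) : cs a ∣ cs b := by
  apply Subgroup.index_dvd_of_le
  intro k hk
  rw [mem_cent_iff] at hk ⊢
  obtain ⟨j, rfl⟩ := h
  have : Commute k b := hk
  exact (this.zpow_right j)

theorem cs_eq_one_iff {a : G} : cs a = 1 ↔ a ∈ center G := by
  rw [cs, Subgroup.index_eq_one, mem_center_iff]
  constructor
  · intro h g
    have : g ∈ cent a := by rw [h]; trivial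
    exact mem_cent_iff.mp this
  · intro h
    rw [eq_top_iff]
    intro g _
    exact mem_cent_iff.mpr (h g)

/-- `N` normal of order coprime to the index of `C` lies in `C`. -/
theorem le_of_coprime_index (N C : Subgroup G) [N.Normal]
    (h : (Nat.card N).Coprime C.index) : N ≤ C := by
  have h1 : C.relIndex (C ⊔ N) = C.relIndex N := Cfsg.Agent.Lib.Basic.relIndex_sup_of_normal C N
  have h2 : C.relIndex N ∣ Nat.card N := Subgroup.relIndex_dvd_card C N
  have h3 : C.relIndex (C ⊔ N) * (C ⊔ N).index = C.index :=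
    Subgroup.relIndex_mul_index le_sup_left
  have h4 : C.relIndex N ∣ C.index := by
    rw [← h3, h1]; exact dvd_mul_right _ _
  have h5 : C.relIndex N = 1 := Nat.dvd_one.mp (h ▸ Nat.dvd_gcd h2 h4)
  exact Subgroup.relIndex_eq_one.mp h5

end Basic

section Count

/-- Count of elements with a class-size predicate, as a sum over classes. -/
theorem card_pred_eq_sum {X : Type*} [Group X] [Finite X] [Fintype (ConjClasses X)]
    (S : ℕ → Prop) [DecidablePred S] :
    Nat.card {x : X // S (cs x)} =
      ∑ C : ConjClasses X, if S (Nat.card C.carrier) then Nat.card C.carrier else 0 := by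
  classical
  letI : Fintype X := Fintype.ofFinite X
  rw [Nat.card_eq_fintype_card, Fintype.card_subtype]
  rw [Finset.card_eq_sum_card_fiberwise (f := ConjClasses.mk) (t := Finset.univ)
    (fun _ _ => Finset.mem_coe.mpr (Finset.mem_univ _))]
  refine Finset.sum_congr rfl fun C _ => ?_
  have hsz : ∀ x : X, ConjClasses.mk x = C → cs x = Nat.card C.carrier := by
    rintro x rfl
    exact (card_carrier_eq x).symm
  split_ifs with hS
  · have hc : Nat.card C.carrier = (Finset.univ.filter (fun x : X => ConjClasses.mk x = C)).card := by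
      rw [← Fintype.card_subtype, ← Nat.card_eq_fintype_card]
      exact Nat.card_congr (Equiv.subtypeEquivRight (fun x => ConjClasses.mem_carrier_iff_mk_eq))
    rw [hc]
    congr 1
    ext x
    simp only [Finset.mem_filter, Finset.mem_univ, true_and]
    constructor
    · exact fun h => h.2
    · intro h; exact ⟨by rw [hsz x h]; exact hS, h⟩
  · rw [Finset.card_eq_zero, Finset.filter_eq_empty_iff]
    intro x hx hxC
    rw [Finset.mem_filter] at hx
    exact hS (by rw [← hsz x hxC]; exact hx.2)

variable {G H : Type*} [Group G] [Finite G] [Group H] [Finite H]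

/-- Same number of classes of each size: any class-size predicate holds for the same number of
elements. -/
theorem card_pred_eq
    (h : ∀ k : ℕ, Nat.card {C : ConjClasses G // Nat.card C.carrier = k} =
      Nat.card {C : ConjClasses H // Nat.card C.carrier = k}) (S : ℕ → Prop) :
    Nat.card {x : G // S (cs x)} = Nat.card {y : H // S (cs y)} := by
  classical
  letI : Fintype (ConjClasses G) := Fintype.ofFinite _
  letI : Fintype (ConjClasses H) := Fintype.ofFinite _
  let φ : ConjClasses G ≃ ConjClasses H :=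
    Equiv.ofFiberEquiv (f := fun C : ConjClasses G => Nat.card C.carrier)
      (g := fun C : ConjClasses H => Nat.card C.carrier)
      (fun k => Classical.choice (Finite.card_eq.mp (h k)))
  have hφ : ∀ C, Nat.card (φ C).carrier = Nat.card C.carrier := fun C =>
    Equiv.ofFiberEquiv_map (f := fun C : ConjClasses G => Nat.card C.carrier)
      (g := fun C : ConjClasses H => Nat.card C.carrier)
      (fun k => Classical.choice (Finite.card_eq.mp (h k))) C
  rw [card_pred_eq_sum S, card_pred_eq_sum S]
  refine Fintype.sum_equiv φ _ _ fun C => ?_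
  rw [hφ]

end Count

section Helper

/-- The fixed point congruence on an invariant subset. -/
theorem card_inv_modEq {Γ X : Type*} [Group Γ] [Finite X] {p : ℕ} [Fact p.Prime]
    (hΓ : IsPGroup p Γ) (φ : Γ →* Equiv.Perm X) (S : Set X) (hS : ∀ g, ∀ x ∈ S, φ g x ∈ S) :
    Nat.card S ≡ Nat.card {x : X // x ∈ S ∧ ∀ g, φ g x = x} [MOD p] := by
  letI : MulAction Γ X := MulAction.compHom X φ
  let S' : SubMulAction Γ X := { carrier := S, smul_mem' := fun g x hx => hS g x hx }
  haveI : Finite S' := Finite.of_injective (fun x : S' => (x : X)) Subtype.val_injective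
  have h := hΓ.card_modEq_card_fixedPoints S'
  have e2 : Nat.card (MulAction.fixedPoints Γ S') = Nat.card {x : X // x ∈ S ∧ ∀ g, φ g x = x} := by
    refine Nat.card_congr
      { toFun := fun x => ⟨x.1.1, x.1.2, fun g => congrArg Subtype.val (x.2 g)⟩
        invFun := fun x => ⟨⟨x.1, x.2.1⟩, fun g => Subtype.ext (x.2.2 g)⟩
        left_inv := fun x => rfl
        right_inv := fun x => rfl }
  rw [e2] at h
  exact h

variable {G : Type*} [Group G] [Finite G] {p : ℕ} [hp : Fact p.Prime]

/-- A `p`-element commuting with a Sylow subgroup lies in it. -/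
theorem mem_sylow_of_commute (Q : Sylow p G) {g : G} (hg : ∃ k : ℕ, orderOf g = p ^ k)
    (hc : ∀ q ∈ (Q : Subgroup G), q * g = g * q) : g ∈ (Q : Subgroup G) := by
  have hP : IsPGroup p (zpowers g) := Cfsg.Agent.Lib.PGroups.isPGroup_zpowers_iff.mpr hg
  have hn : g ∈ normalizer ((Q : Subgroup G) : Set G) :=
    Cfsg.Agent.Lib.PGroups.mem_normalizer_of_forall_commute (fun z hz => (hc z hz).symm)
  have hle : zpowers g ≤ normalizer ((Q : Subgroup G) : Set G) := Subgroup.zpowers_le.mpr hn
  have := hP.sylow_mem_fixedPoints_iff.mp ((zpowers g).sylow_mem_fixedPoints_iff.mpr hle)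
  exact this (mem_zpowers g)

/-- A subgroup of index prime to `p` contains a Sylow `p`-subgroup. -/
theorem exists_sylow_le_of_not_dvd (C : Subgroup G) (h : ¬ p ∣ C.index) :
    ∃ R : Sylow p G, (R : Subgroup G) ≤ C := by
  obtain ⟨S⟩ : Nonempty (Sylow p C) := inferInstance
  have hS : IsPGroup p ((S : Subgroup C).map C.subtype) := S.isPGroup'.map C.subtype
  obtain ⟨R, hR⟩ := hS.exists_le_sylow
  refine ⟨R, ?_⟩
  have hcardS : Nat.card ((S : Subgroup C).map C.subtype) = Nat.card S :=
    Nat.card_congr (Subgroup.equivMapOfInjective _ _ C.subtype_injective).symm.toEquiv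
  have h1 : Nat.card R = p ^ (Nat.card G).factorization p := Sylow.card_eq_multiplicity R
  have h2 : Nat.card S = p ^ (Nat.card C).factorization p := Sylow.card_eq_multiplicity S
  have h3 : Nat.card G = Nat.card C * C.index := by
    rw [mul_comm]; exact (Subgroup.index_mul_card C).symm
  have h4 : (Nat.card G).factorization p = (Nat.card C).factorization p := by
    rw [h3, Nat.factorization_mul (Nat.pos_of_ne_zero Nat.card_pos.ne').ne'
      Subgroup.index_ne_zero_of_finite]
    simp [Nat.factorization_eq_zero_of_not_dvd h]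
  have heq : (S : Subgroup C).map C.subtype = (R : Subgroup G) := by
    apply Subgroup.eq_of_le_of_card_ge hR
    rw [hcardS, h1, h2, h4]
  rw [← heq]
  exact Subgroup.map_subtype_le _

/-- The number of central `p`-elements: `|Z(G)| = |Q ∩ Z(G)| * t` with `t` prime to `p`. -/
theorem card_center_eq (Q : Sylow p G) :
    ∃ t : ℕ, ¬ p ∣ t ∧ Nat.card (center G) = Nat.card ((Q : Subgroup G) ⊓ center G : Subgroup G) * t := by
  obtain ⟨S⟩ : Nonempty (Sylow p (center G)) := inferInstance
  let T : Subgroup (center G) := ((Q : Subgroup G) ⊓ center G).subgroupOf (center G)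
  have hST : (S : Subgroup (center G)) ≤ T := by
    intro s hs
    rw [mem_subgroupOf]
    refine ⟨?_, s.2⟩
    refine mem_sylow_of_commute Q ?_ ?_
    · exact Cfsg.Agent.Lib.PGroups.exists_orderOf_of_mem_isPGroup
        (S.isPGroup'.map (center G).subtype) (Subgroup.mem_map_of_mem _ hs)
    · intro q _
      exact mem_center_iff.mp s.2 q
  have h1 : ¬ p ∣ T.index := fun hd => S.not_dvd_index (hd.trans (Subgroup.index_dvd_of_le hST))
  refine ⟨T.index, h1, ?_⟩
  have h2 : Nat.card T = Nat.card ((Q : Subgroup G) ⊓ center G : Subgroup G) :=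
    Nat.card_congr (Subgroup.subgroupOfEquivOfLe inf_le_right).toEquiv
  rw [← h2, mul_comm]
  exact (Subgroup.index_mul_card T).symm

end Helper

section StepOne

variable {G : Type*} [Group G] [Finite G] {p : ℕ} [hp : Fact p.Prime]

/-- Elements of class size prime to `p` are not conjugate to their central `p`-translates. -/
theorem eq_one_of_conj_mul {x z : G} (hz : z ∈ center G) (hzo : ∃ k : ℕ, orderOf z = p ^ k)
    (hx : ¬ p ∣ cs x) {g : G} (hg : g * x * g⁻¹ = x * z) : z = 1 := by
  by_contra hne
  have hzc : ∀ (n : ℕ) (t : G), t * z ^ n = z ^ n * t := fun n t =>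
    ((show Commute t z from mem_center_iff.mp hz t).pow_right n)
  have hgn : ∀ n : ℕ, g ^ n * x * (g ^ n)⁻¹ = x * z ^ n := by
    intro n
    induction n with
    | zero => simp
    | succ n ih =>
      calc g ^ (n + 1) * x * (g ^ (n + 1))⁻¹ = g * (g ^ n * x * (g ^ n)⁻¹) * g⁻¹ := by
            rw [pow_succ']; group
        _ = g * (x * z ^ n) * g⁻¹ := by rw [ih]
        _ = (g * x * g⁻¹) * (g * z ^ n * g⁻¹) := by group
        _ = (x * z) * (z ^ n) := by rw [hg, hzc n g]; group
        _ = x * z ^ (n + 1) := by rw [pow_succ']; group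
  have hT : IsPGroup p (zpowers z) := Cfsg.Agent.Lib.PGroups.isPGroup_zpowers_iff.mpr hzo
  let S : Set G := {w | IsConj x w}
  have hinv : ∀ t : zpowers z, ∀ w ∈ S, MulAction.toPermHom (zpowers z) G t w ∈ S := by
    rintro ⟨t, ht⟩ w hw
    obtain ⟨n, rfl⟩ := (mem_powers_iff_mem_zpowers.mpr ht)
    change IsConj x (z ^ n * w)
    obtain ⟨h, rfl⟩ := isConj_iff.mp hw
    refine isConj_iff.mpr ⟨h * g ^ n, ?_⟩
    calc (h * g ^ n) * x * (h * g ^ n)⁻¹ = h * (g ^ n * x * (g ^ n)⁻¹) * h⁻¹ := by group
      _ = h * (x * z ^ n) * h⁻¹ := by rw [hgn]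
      _ = h * x * (z ^ n * h⁻¹) := by group
      _ = h * x * (h⁻¹ * z ^ n) := by rw [hzc n h⁻¹]
      _ = (h * x * h⁻¹) * z ^ n := by group
      _ = z ^ n * (h * x * h⁻¹) := hzc n _
  have hmod := card_inv_modEq hT (MulAction.toPermHom (zpowers z) G) S hinv
  have hempty : Nat.card {w : G // w ∈ S ∧ ∀ t : zpowers z, MulAction.toPermHom (zpowers z) G t w = w} = 0 := by
    rw [Nat.card_eq_zero]
    left
    refine ⟨fun w => ?_⟩
    have := w.2.2 ⟨z, mem_zpowers z⟩
    have h5 : z * w.1 = w.1 := this
    exact hne (mul_eq_right.mp h5)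
  rw [hempty] at hmod
  have hc : Nat.card S = cs x := Cfsg.Agent.Lib.Struct.card_isConj_eq_index x
  rw [hc] at hmod
  exact hx (Nat.modEq_zero_iff_dvd.mp hmod)

/-- **Step 1.** If the elements of class size prime to `p` number `|Q ∩ Z(G)| * m` with `m` prime
to `p`, then `Z(Q)` is central in `G`. -/
theorem center_sylow_le (Q : Sylow p G) (m : ℕ) (hm : ¬ p ∣ m)
    (hA : Nat.card {x : G // ¬ p ∣ cs x} = Nat.card ((Q : Subgroup G) ⊓ center G : Subgroup G) * m) :
    ∀ y ∈ (Q : Subgroup G), (∀ q ∈ (Q : Subgroup G), q * y = y * q) → y ∈ center G := by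
  classical
  set N : Subgroup G := (Q : Subgroup G) ⊓ center G with hN
  haveI hNn : N.Normal := by
    refine ⟨fun n hn g => ?_⟩
    rw [show g * n * g⁻¹ = n by
      rw [(mem_center_iff.mp hn.2 g)]; group]
    exact hn
  have hNz : N ≤ center G := inf_le_right
  have hNQ : N ≤ (Q : Subgroup G) := inf_le_left
  let A : Set G := {x | ¬ p ∣ cs x}
  let mk' : G → G ⧸ N := QuotientGroup.mk
  let Abar : Set (G ⧸ N) := mk' '' A
  -- saturation
  have hsat : mk' ⁻¹' Abar = A := by
    ext x
    constructor
    · rintro ⟨x', hx', he⟩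
      have h1 : x'⁻¹ * x ∈ N := QuotientGroup.eq.mp he
      have h2 : cs (x' * (x'⁻¹ * x)) = cs x' := cs_mul_central (hNz h1)
      rw [mul_inv_cancel_left] at h2
      change ¬ p ∣ cs x
      rw [h2]
      exact hx'
    · intro hx
      exact ⟨x, hx, rfl⟩
  have hcardA : Nat.card A = Nat.card N * Nat.card Abar := by
    rw [← hsat, ← Nat.card_prod]
    exact Nat.card_congr (QuotientGroup.preimageMkEquivSubgroupProdSet N Abar)
  have hNpos : 0 < Nat.card N := Nat.card_pos
  have hAbar : Nat.card Abar = m := by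
    have h1 : Nat.card A = Nat.card N * m := hA
    exact Nat.eq_of_mul_eq_mul_left hNpos (hcardA.symm.trans h1)
  -- the action of `Q`
  let φ : (Q : Subgroup G) →* Equiv.Perm (G ⧸ N) :=
    (MulAut.toPerm (G ⧸ N)).comp ((MulAut.conj (G := G ⧸ N)).comp
      ((QuotientGroup.mk' N).comp (Q : Subgroup G).subtype))
  have hφ : ∀ (q : (Q : Subgroup G)) (x : G), φ q (x : G ⧸ N) = ((q * x * (q : G)⁻¹ : G) : G ⧸ N) := by
    intro q x
    rfl
  have hinv : ∀ g, ∀ y ∈ Abar, φ g y ∈ Abar := by
    rintro g y ⟨x, hx, rfl⟩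
    refine ⟨g * x * (g : G)⁻¹, ?_, (hφ g x).symm⟩
    change ¬ p ∣ cs _
    rw [cs_conj]
    exact hx
  have hmod := card_inv_modEq Q.isPGroup' φ Abar hinv
  rw [hAbar] at hmod
  -- the fixed points
  let F : Set (G ⧸ N) := {y | y ∈ Abar ∧ ∀ g, φ g y = y}
  let C : Subgroup G := centralizer ((Q : Subgroup G) : Set G)
  have hC : ∀ x : G, x ∈ C ↔ ∀ q ∈ (Q : Subgroup G), q * x = x * q := by
    intro x
    exact mem_centralizer_iff
  have hpre : mk' ⁻¹' F = (C : Set G) := by
    ext x
    constructor
    · rintro ⟨hx1, hx2⟩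
      have hxA : x ∈ A := by rw [← hsat]; exact hx1
      rw [SetLike.mem_coe, hC]
      intro q hq
      have h1 : φ ⟨q, hq⟩ (x : G ⧸ N) = (x : G ⧸ N) := hx2 ⟨q, hq⟩
      rw [hφ] at h1
      have h2 : x⁻¹ * (q * x * q⁻¹) ∈ N := QuotientGroup.eq.mp h1.symm
      set z := x⁻¹ * (q * x * q⁻¹) with hz
      have h3 : q * x * q⁻¹ = x * z := by rw [hz]; group
      have h4 : z = 1 := eq_one_of_conj_mul (hNz h2)
        (Cfsg.Agent.Lib.PGroups.exists_orderOf_of_mem_isPGroup Q.isPGroup' (hNQ h2)) hxA h3
      rw [h4, mul_one] at h3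
      exact mul_inv_eq_iff_eq_mul.mp h3
    · intro hx
      rw [SetLike.mem_coe, hC] at hx
      have hxA : x ∈ A := by
        change ¬ p ∣ cs x
        intro hd
        have hle : (Q : Subgroup G) ≤ cent x := fun q hq => mem_cent_iff.mpr (hx q hq)
        exact Q.not_dvd_index (hd.trans (Subgroup.index_dvd_of_le hle))
      refine ⟨⟨x, hxA, rfl⟩, ?_⟩
      rintro ⟨q, hq⟩
      rw [hφ]
      congr 1
      rw [hx q hq]
      group
  have hcardC : Nat.card C = Nat.card N * Nat.card F := by
    have : Nat.card (mk' ⁻¹' F) = Nat.card N * Nat.card F := by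
      rw [← Nat.card_prod]
      exact Nat.card_congr (QuotientGroup.preimageMkEquivSubgroupProdSet N F)
    rw [← this, hpre]
    rfl
  have hFm : Nat.card F ≡ m [MOD p] := by
    have : Nat.card F = Nat.card {x : G ⧸ N // x ∈ Abar ∧ ∀ g, φ g x = x} := rfl
    rw [this]
    exact hmod.symm
  have hpF : ¬ p ∣ Nat.card F := by
    intro hd
    apply hm
    exact (Nat.modEq_zero_iff_dvd.mp (hFm.symm.trans (Nat.modEq_zero_iff_dvd.mpr hd)))
  -- conclude
  intro y hy hyc
  let W : Subgroup G := (center (Q : Subgroup G)).map (Q : Subgroup G).subtype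
  have hWC : W ≤ C := by
    rintro _ ⟨⟨w, hw⟩, hw2, rfl⟩
    rw [hC]
    intro q hq
    have := mem_center_iff.mp hw2 ⟨q, hq⟩
    exact congrArg Subtype.val this
  have hNW : N ≤ W := by
    intro n hn
    refine ⟨⟨n, hNQ hn⟩, ?_, rfl⟩
    rw [SetLike.mem_coe, mem_center_iff]
    intro q
    apply Subtype.ext
    exact mem_center_iff.mp (hNz hn) q
  have hWp : IsPGroup p W := (Q.isPGroup'.to_subgroup _).map _
  have hNp : IsPGroup p N := Q.isPGroup'.to_le hNQ
  obtain ⟨c, hc⟩ := IsPGroup.iff_card.mp hWp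
  obtain ⟨j, hj⟩ := IsPGroup.iff_card.mp hNp
  have hdvd : Nat.card W ∣ Nat.card N * Nat.card F := by
    rw [← hcardC]
    exact Subgroup.card_dvd_of_le hWC
  have hdvd2 : Nat.card W ∣ Nat.card N := by
    have hco : (Nat.card W).Coprime (Nat.card F) := by
      rw [hc]
      exact Nat.Coprime.pow_left c ((Nat.Prime.coprime_iff_not_dvd hp.out).mpr hpF)
    exact hco.dvd_of_dvd_mul_right hdvd
  have hWN : N = W := by
    apply Subgroup.eq_of_le_of_card_ge hNW
    exact Nat.le_of_dvd hNpos hdvd2
  have hyW : y ∈ W := by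
    refine ⟨⟨y, hy⟩, ?_, rfl⟩
    rw [SetLike.mem_coe, mem_center_iff]
    rintro ⟨q, hq⟩
    exact Subtype.ext (hyc q hq)
  rw [← hWN] at hyW
  exact hNz hyW

end StepOne

section StepTwo

variable {G : Type*} [Group G] [Finite G] {p : ℕ} [hp : Fact p.Prime]

/-- **Baer.** A `p`-element of `p`-power class size lies in every Sylow `p`-subgroup. -/
theorem mem_sylow_of_pow_class (Q : Sylow p G) {g : G} (hg : ∃ k : ℕ, orderOf g = p ^ k)
    (hc : ∃ a : ℕ, cs g = p ^ a) : g ∈ (Q : Subgroup G) := by
  have hP : IsPGroup p (zpowers g) := Cfsg.Agent.Lib.PGroups.isPGroup_zpowers_iff.mpr hg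
  obtain ⟨Q₀, hQ₀⟩ := hP.exists_le_sylow
  have hgQ : g ∈ (Q₀ : Subgroup G) := hQ₀ (mem_zpowers g)
  obtain ⟨t, ht⟩ := MulAction.exists_smul_eq G Q₀ Q
  obtain ⟨a, ha⟩ := hc
  have hco : (cent g).index.Coprime (Q₀ : Subgroup G).index := by
    rw [show (cent g).index = p ^ a from ha]
    exact Nat.Coprime.pow_left a ((Nat.Prime.coprime_iff_not_dvd hp.out).mpr Q₀.not_dvd_index)
  obtain ⟨c, hc1, q, hq, rfl⟩ := Cfsg.Agent.Lib.Basic.exists_mul_of_index_coprime (cent g) _ hco t
  have hmem : g ∈ (((c * q) • Q₀ : Sylow p G) : Subgroup G) := by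
    rw [Sylow.smul_def, Sylow.pointwise_smul_def, Subgroup.mem_pointwise_smul_iff_inv_smul_mem]
    have hcg : c⁻¹ * g * c = g := by
      have : c * g = g * c := mem_cent_iff.mp hc1
      calc c⁻¹ * g * c = c⁻¹ * (g * c) := by group
        _ = c⁻¹ * (c * g) := by rw [this]
        _ = g := by group
    have : (MulAut.conj (c * q))⁻¹ • g = q⁻¹ * g * q := by
      rw [MulAut.smul_def, MulAut.conj_inv_apply]
      calc (c * q)⁻¹ * g * (c * q) = q⁻¹ * (c⁻¹ * g * c) * q := by group
        _ = q⁻¹ * g * q := by rw [hcg]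
    rw [this]
    exact Q₀.toSubgroup.mul_mem (Q₀.toSubgroup.mul_mem (Q₀.toSubgroup.inv_mem hq) hgQ) hq
  rw [ht] at hmem
  exact hmem

/-- With all Sylow centres central: an element of `p`-power class size lies in `Q Z(G)`. -/
theorem mem_sup_center_of_pow_class
    (hcent : ∀ (r : ℕ) [Fact r.Prime] (R : Sylow r G), ∀ y ∈ (R : Subgroup G),
      (∀ q ∈ (R : Subgroup G), q * y = y * q) → y ∈ center G)
    (Q : Sylow p G) {x : G} (hx : ∃ a : ℕ, cs x = p ^ a) :
    x ∈ (Q : Subgroup G) ⊔ center G := by
  apply Cfsg.Agent.Lib.PGroups.mem_of_primary_powers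
  intro g hg hprim
  obtain ⟨a, ha⟩ := hx
  obtain ⟨b, -, hb⟩ := (Nat.dvd_prime_pow hp.out).mp (ha ▸ cs_dvd_of_mem_zpowers hg)
  obtain ⟨r, k, hr, hk, hrk⟩ := (isPrimePow_nat_iff _).mp hprim
  haveI : Fact r.Prime := ⟨hr⟩
  by_cases hrp : r = p
  · subst hrp
    exact Subgroup.mem_sup_left (mem_sylow_of_pow_class Q ⟨k, hrk.symm⟩ ⟨b, hb⟩)
  · apply Subgroup.mem_sup_right
    have hnd : ¬ r ∣ (cent g).index := by
      rw [show (cent g).index = p ^ b from hb]
      intro hd
      exact hrp ((Nat.prime_dvd_prime_iff_eq hr hp.out).mp (hr.dvd_of_dvd_pow hd))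
    obtain ⟨R, hR⟩ := exists_sylow_le_of_not_dvd (p := r) (cent g) hnd
    have hc : ∀ q ∈ (R : Subgroup G), q * g = g * q := fun q hq => mem_cent_iff.mp (hR hq)
    exact hcent r R g (mem_sylow_of_commute R ⟨k, hrk.symm⟩ hc) hc

/-- The cardinality of `Q Z(G)`. -/
theorem card_sup_center (Q : Sylow p G) {t : ℕ}
    (ht : Nat.card (center G) = Nat.card ((Q : Subgroup G) ⊓ center G : Subgroup G) * t) :
    Nat.card ((Q : Subgroup G) ⊔ center G : Subgroup G) = Nat.card Q * t := by
  have h1 : Nat.card ((Q : Subgroup G) ⊔ center G : Subgroup G) =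
      Nat.card (center G) * (center G).relIndex (Q : Subgroup G) :=
    Cfsg.Agent.Lib.Basic.card_sup_eq_of_normal _ _
  have h3 : Nat.card (Q : Subgroup G) =
      Nat.card (center G ⊓ (Q : Subgroup G) : Subgroup G) * (center G).relIndex (Q : Subgroup G) := by
    rw [← Subgroup.relIndex_bot_left (Q : Subgroup G), ← Subgroup.relIndex_bot_left (center G ⊓ (Q : Subgroup G)),
      ← Subgroup.inf_relIndex_right (center G) (Q : Subgroup G)]
    exact (Subgroup.relIndex_mul_relIndex ⊥ _ _ bot_le inf_le_right).symm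
  rw [h1, ht, inf_comm] at *
  have h4 : Nat.card Q = Nat.card (Q : Subgroup G) := rfl
  rw [h4, h3, inf_comm]
  ring

end StepTwo

section Nilpotent

variable {H : Type*} [Group H] [Finite H]

theorem prod_count {α β X : Type*} (f : α × β ≃ X) (A : X → Prop) (U : α → Prop) (V : β → Prop)
    (h : ∀ a b, A (f (a, b)) ↔ U a ∧ V b) :
    Nat.card {x // A x} = Nat.card {a // U a} * Nat.card {b // V b} := by
  rw [← Nat.card_prod]
  refine Nat.card_congr ((Equiv.subtypeEquiv f.symm ?_).trans Equiv.subtypeProdEquivProd)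
  intro x
  have := h (f.symm x).1 (f.symm x).2
  simpa using this

/-- The class-size counts in a nilpotent group. -/
theorem nilp_counts (hH : Group.IsNilpotent H) (p : ℕ) [hp : Fact p.Prime] :
    ∃ a b m e : ℕ, (∃ i, a = p ^ i) ∧ ¬ p ∣ b ∧ ¬ p ∣ m ∧ Nat.card H = p ^ e * m ∧
      Nat.card {x : H // ¬ p ∣ cs x} = a * m ∧
      Nat.card {x : H // ∃ k : ℕ, cs x = p ^ k} = p ^ e * b ∧
      Nat.card {x : H // cs x = 1} = a * b := by
  classical
  obtain ⟨P⟩ : Nonempty (Sylow p H) := inferInstance
  have hSyl : ∀ (p : ℕ) (_hp : Fact p.Prime) (P : Sylow p H), (↑P : Subgroup H).Normal :=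
    ((Group.isNilpotent_of_finite_tfae (G := H)).out 0 3).mp hH
  haveI hPn : (P : Subgroup H).Normal := hSyl p hp P
  obtain ⟨K, hK⟩ := Subgroup.exists_right_complement'_of_coprime P.card_coprime_index
  have hcard : Nat.card (P : Subgroup H) * Nat.card K = Nat.card H := hK.card_mul_card
  obtain ⟨e, he⟩ := IsPGroup.iff_card.mp P.isPGroup'
  have hKidx : Nat.card K = (P : Subgroup H).index := by
    have := Subgroup.card_mul_index (P : Subgroup H)
    exact Nat.eq_of_mul_eq_mul_left Nat.card_pos (hcard.trans this.symm)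
  have hpK : ¬ p ∣ Nat.card K := by rw [hKidx]; exact P.not_dvd_index
  have hco : ∀ y ∈ (P : Subgroup H), ∀ u ∈ K, y * u = u * y := by
    intro y hy u hu
    apply Cfsg.Agent.Lib.OddLocal.commute_of_coprime_of_nilpotent
    obtain ⟨k, hk⟩ := Cfsg.Agent.Lib.PGroups.exists_orderOf_of_mem_isPGroup P.isPGroup' hy
    rw [hk]
    apply Nat.Coprime.pow_left
    rw [Nat.Prime.coprime_iff_not_dvd hp.out]
    intro hd
    apply hpK
    exact hd.trans (Subgroup.orderOf_dvd_natCard K hu)
  let f : ↥(P : Subgroup H) × ↥K ≃ H :=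
    Equiv.ofBijective (fun x : ↥(P : Subgroup H) × ↥K => (x.1 : H) * x.2) hK
  have hf : ∀ y u, f (y, u) = (y : H) * u := fun _ _ => rfl
  haveI hKn : K.Normal := by
    refine ⟨fun k hk g => ?_⟩
    obtain ⟨⟨y, u⟩, rfl⟩ := f.surjective g
    rw [hf]
    have h1 : (u : H) * k * (u : H)⁻¹ ∈ K := K.mul_mem (K.mul_mem u.2 hk) (K.inv_mem u.2)
    have h2 := hco y y.2 _ h1
    have h3 : (y : H) * u * k * ((y : H) * u)⁻¹ = (y : H) * ((u : H) * k * (u : H)⁻¹) * (y : H)⁻¹ := by
      group
    rw [h3, h2]
    simpa using h1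
  have hIdxK : K.index = Nat.card (P : Subgroup H) := by
    have := Subgroup.card_mul_index K
    rw [mul_comm] at hcard
    exact Nat.eq_of_mul_eq_mul_left Nat.card_pos (this.trans hcard.symm)
  have hA : ∀ (y : (P : Subgroup H)) (u : K), ¬ p ∣ cs (f (y, u)) ↔ y ∈ center (P : Subgroup H) := by
    intro y u
    rw [hf]
    constructor
    · intro h
      have hle : (P : Subgroup H) ≤ cent ((y : H) * u) := by
        apply le_of_coprime_index
        rw [he]
        exact Nat.Coprime.pow_left e ((Nat.Prime.coprime_iff_not_dvd hp.out).mpr h)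
      rw [mem_center_iff]
      intro y'
      apply Subtype.ext
      have h1 : (y' : H) * (y * u) = y * u * y' := mem_cent_iff.mp (hle y'.2)
      have h2 : (y' : H) * u = u * y' := hco _ y'.2 _ u.2
      have h3 : (y' : H) * y * u = y * y' * u := by
        calc (y' : H) * y * u = (y' : H) * (y * u) := by group
          _ = y * u * y' := h1
          _ = y * (u * y') := by group
          _ = y * (y' * u) := by rw [h2]
          _ = y * y' * u := by group
      exact mul_right_cancel h3
    · intro h hd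
      have hle : (P : Subgroup H) ≤ cent ((y : H) * u) := by
        intro y' hy'
        rw [mem_cent_iff]
        have h1 : (⟨y', hy'⟩ : (P : Subgroup H)) * y = y * ⟨y', hy'⟩ := mem_center_iff.mp h _
        have h2 : y' * y = y * y' := congrArg Subtype.val h1
        have h3 : y' * u = u * y' := hco _ hy' _ u.2
        calc y' * (y * u) = y' * y * u := by group
          _ = y * y' * u := by rw [h2]
          _ = y * (y' * u) := by group
          _ = y * (u * y') := by rw [h3]
          _ = y * u * y' := by group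
      exact P.not_dvd_index (hd.trans (Subgroup.index_dvd_of_le hle))
  have hB : ∀ (y : (P : Subgroup H)) (u : K), (∃ k : ℕ, cs (f (y, u)) = p ^ k) ↔ u ∈ center K := by
    intro y u
    rw [hf]
    constructor
    · rintro ⟨k, hk⟩
      have hle : K ≤ cent ((y : H) * u) := by
        apply le_of_coprime_index
        rw [show (cent ((y : H) * u)).index = p ^ k from hk]
        apply Nat.Coprime.symm
        apply Nat.Coprime.pow_left
        exact (Nat.Prime.coprime_iff_not_dvd hp.out).mpr hpK
      rw [mem_center_iff]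
      intro k'
      apply Subtype.ext
      have h1 : (k' : H) * (y * u) = y * u * k' := mem_cent_iff.mp (hle k'.2)
      have h2 : (k' : H) * y = y * k' := (hco _ y.2 _ k'.2).symm
      have h3 : (y : H) * (k' * u) = y * (u * k') := by
        calc (y : H) * (k' * u) = y * k' * u := by group
          _ = k' * y * u := by rw [h2]
          _ = k' * (y * u) := by group
          _ = y * u * k' := h1
          _ = y * (u * k') := by group
      exact mul_left_cancel h3
    · intro h
      have hle : K ≤ cent ((y : H) * u) := by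
        intro k' hk'
        rw [mem_cent_iff]
        have h1 : (⟨k', hk'⟩ : K) * u = u * ⟨k', hk'⟩ := mem_center_iff.mp h _
        have h2 : k' * u = u * k' := congrArg Subtype.val h1
        have h3 : k' * y = y * k' := (hco _ y.2 _ hk').symm
        calc k' * (y * u) = k' * y * u := by group
          _ = y * k' * u := by rw [h3]
          _ = y * (k' * u) := by group
          _ = y * (u * k') := by rw [h2]
          _ = y * u * k' := by group
      have hd : cs ((y : H) * u) ∣ p ^ e := by
        rw [← he, ← hIdxK]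
        exact Subgroup.index_dvd_of_le hle
      obtain ⟨j, -, hj⟩ := (Nat.dvd_prime_pow hp.out).mp hd
      exact ⟨j, hj⟩
  have hZ : ∀ (y : (P : Subgroup H)) (u : K), cs (f (y, u)) = 1 ↔
      y ∈ center (P : Subgroup H) ∧ u ∈ center K := by
    intro y u
    constructor
    · intro h
      refine ⟨(hA y u).mp ?_, (hB y u).mp ⟨0, by simpa using h⟩⟩
      rw [h]
      exact hp.out.one_lt.ne' ∘ Nat.dvd_one.mp
    · rintro ⟨h1, h2⟩
      rw [cs_eq_one_iff, mem_center_iff, hf]
      intro g
      obtain ⟨⟨y', u'⟩, rfl⟩ := f.surjective g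
      rw [hf]
      have c1 : (y' : H) * y = y * y' := congrArg Subtype.val (mem_center_iff.mp h1 y')
      have c2 : (u' : H) * u = u * u' := congrArg Subtype.val (mem_center_iff.mp h2 u')
      have c3 : (u' : H) * y = y * u' := (hco _ y.2 _ u'.2).symm
      have c4 : (y' : H) * u = u * y' := hco _ y'.2 _ u.2
      calc (y' : H) * u' * (y * u) = y' * (u' * y) * u := by group
        _ = y' * (y * u') * u := by rw [c3]
        _ = (y' * y) * (u' * u) := by group
        _ = (y * y') * (u * u') := by rw [c1, c2]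
        _ = y * (y' * u) * u' := by group
        _ = y * (u * y') * u' := by rw [c4]
        _ = y * u * (y' * u') := by group
  refine ⟨Nat.card (center (P : Subgroup H)), Nat.card (center K), Nat.card K, e, ?_, ?_, hpK, ?_, ?_, ?_, ?_⟩
  · obtain ⟨i, hi⟩ := IsPGroup.iff_card.mp (P.isPGroup'.to_subgroup (center (P : Subgroup H)))
    exact ⟨i, hi⟩
  · intro hd
    apply hpK
    exact hd.trans (Subgroup.card_subgroup_dvd_card _)
  · rw [← hcard, he]
  · have := prod_count f (fun x => ¬ p ∣ cs x) (fun y => y ∈ center (P : Subgroup H)) (fun _ : K => True)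
      (fun a b => by simpa using hA a b)
    rw [this]
    congr 1
    exact Nat.card_congr (Equiv.subtypeUnivEquiv (fun _ => trivial))
  · have := prod_count f (fun x => ∃ k : ℕ, cs x = p ^ k) (fun _ : (P : Subgroup H) => True)
      (fun u => u ∈ center K) (fun a b => by simpa using hB a b)
    rw [this, ← he]
    congr 1
    exact Nat.card_congr (Equiv.subtypeUnivEquiv (fun _ => trivial))
  · exact prod_count f (fun x => cs x = 1) (fun y => y ∈ center (P : Subgroup H))
      (fun u => u ∈ center K) hZ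

end Nilpotent

/-- Powers of `p` and cofactors: `p^i * b = p^j * c` with `b, c` prime to `p`. -/
theorem pow_mul_inj {p i j b c : ℕ} (hp : p.Prime) (hb : ¬ p ∣ b) (hc : ¬ p ∣ c)
    (h : p ^ i * b = p ^ j * c) : i = j ∧ b = c := by
  have hb0 : b ≠ 0 := fun h0 => hb (h0 ▸ dvd_zero p)
  have hc0 : c ≠ 0 := fun h0 => hc (h0 ▸ dvd_zero p)
  have h1 : (p ^ i * b).factorization p = i := by
    rw [Nat.factorization_mul (pow_ne_zero _ hp.ne_zero) hb0, Finsupp.add_apply,
      Nat.factorization_pow, Nat.factorization_eq_zero_of_not_dvd hb]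
    simp [hp.factorization_self]
  have h2 : (p ^ j * c).factorization p = j := by
    rw [Nat.factorization_mul (pow_ne_zero _ hp.ne_zero) hc0, Finsupp.add_apply,
      Nat.factorization_pow, Nat.factorization_eq_zero_of_not_dvd hc]
    simp [hp.factorization_self]
  have hij : i = j := by rw [← h1, ← h2, h]
  subst hij
  exact ⟨rfl, Nat.eq_of_mul_eq_mul_left (pow_pos hp.pos _) h⟩

/-- **Cossey–Hawkes–Mann.** -/
theorem isNilpotent_of_same_class_sizes {G H : Type*} [Group G] [Finite G] [Group H] [Finite H]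
    (hH : Group.IsNilpotent H)
    (h : ∀ k : ℕ, Nat.card {C : ConjClasses G // Nat.card C.carrier = k} =
      Nat.card {C : ConjClasses H // Nat.card C.carrier = k}) :
    Group.IsNilpotent G := by
  classical
  -- the numerology in `G`
  have key : ∀ (p : ℕ) [Fact p.Prime] (Q : Sylow p G), ∃ b e : ℕ,
      Nat.card (Q : Subgroup G) = p ^ e ∧
      Nat.card {x : G // ∃ k : ℕ, cs x = p ^ k} = p ^ e * b ∧
      Nat.card (center G) = Nat.card ((Q : Subgroup G) ⊓ center G : Subgroup G) * b ∧
      (∃ m, ¬ p ∣ m ∧ Nat.card {x : G // ¬ p ∣ cs x} =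
        Nat.card ((Q : Subgroup G) ⊓ center G : Subgroup G) * m) := by
    intro p hp Q
    obtain ⟨a, b, m, e, ⟨i, hi⟩, hb, hm, hcard, hA, hB, hZ⟩ := nilp_counts hH p
    have hGcard : Nat.card G = p ^ e * m := by
      have := card_pred_eq h (fun _ => True)
      have h1 : Nat.card {x : G // True} = Nat.card G :=
        Nat.card_congr (Equiv.subtypeUnivEquiv (fun _ => trivial))
      have h2 : Nat.card {x : H // True} = Nat.card H :=
        Nat.card_congr (Equiv.subtypeUnivEquiv (fun _ => trivial))
      rw [← h1, this, h2, hcard]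
    have hAG := (card_pred_eq h (fun s => ¬ p ∣ s)).trans hA
    have hBG := (card_pred_eq h (fun s => ∃ k : ℕ, s = p ^ k)).trans hB
    have hZG := (card_pred_eq h (fun s => s = 1)).trans hZ
    have hZc : Nat.card (center G) = a * b := by
      rw [← hZG]
      exact Nat.card_congr (Equiv.subtypeEquivRight (fun x => cs_eq_one_iff.symm))
    obtain ⟨t, ht, hct⟩ := card_center_eq Q
    obtain ⟨j, hj⟩ := IsPGroup.iff_card.mp (Q.isPGroup'.to_le (inf_le_left :
      (Q : Subgroup G) ⊓ center G ≤ Q))
    obtain ⟨f, hf⟩ := IsPGroup.iff_card.mp Q.isPGroup'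
    have hQe : f = e := by
      have h1 := Subgroup.card_mul_index (Q : Subgroup G)
      rw [hf, hGcard] at h1
      exact (pow_mul_inj hp.out Q.not_dvd_index hm h1).1
    have hij : i = j ∧ b = t := pow_mul_inj hp.out hb ht (by rw [← hi, ← hj, ← hZc]; exact hct)
    refine ⟨b, e, by rw [hf, hQe], hBG, ?_, m, hm, ?_⟩
    · rw [hct, hij.2]
    · rw [hj, ← hij.1, ← hi]; exact hAG
  have hcent : ∀ (r : ℕ) [Fact r.Prime] (R : Sylow r G), ∀ y ∈ (R : Subgroup G),
      (∀ q ∈ (R : Subgroup G), q * y = y * q) → y ∈ center G := by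
    intro r _ R
    obtain ⟨_, _, _, _, _, m, hm, hA⟩ := key r R
    exact center_sylow_le R m hm hA
  -- equality `B = Q Z(G)`
  have heq : ∀ (p : ℕ) [Fact p.Prime] (Q : Sylow p G),
      {x : G | ∃ k : ℕ, cs x = p ^ k} = ((Q : Subgroup G) ⊔ center G : Subgroup G) := by
    intro p hp Q
    obtain ⟨b, e, hQ, hB, hZ, _⟩ := key p Q
    apply Set.eq_of_subset_of_ncard_le
    · intro x hx
      exact mem_sup_center_of_pow_class hcent Q hx
    · rw [← Nat.card_coe_set_eq, ← Nat.card_coe_set_eq]
      have h1 := card_sup_center Q hZ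
      have h2 : Nat.card ((Q : Subgroup G) : Subgroup G) = p ^ e := hQ
      have h3 : Nat.card {x : G | ∃ k : ℕ, cs x = p ^ k} = p ^ e * b := hB
      rw [h3]
      have h4 : Nat.card (((Q : Subgroup G) ⊔ center G : Subgroup G) : Set G) =
        Nat.card ((Q : Subgroup G) ⊔ center G : Subgroup G) := rfl
      rw [h4, h1]
      exact le_of_eq (by rw [show Nat.card Q = p ^ e from hQ])
    · exact Set.toFinite _
  have hTF : (∀ (p : ℕ) (_hp : Fact p.Prime) (P : Sylow p G), (↑P : Subgroup G).Normal) →
      Group.IsNilpotent G := ((Group.isNilpotent_of_finite_tfae (G := G)).out 3 0).mp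
  refine hTF ?_
  intro p hp P
  haveI : Subsingleton (Sylow p G) := by
    refine ⟨fun Q Q' => ?_⟩
    have hle : ∀ Q Q' : Sylow p G, (Q' : Subgroup G) ≤ Q := by
      intro Q Q' y hy
      have h1 : y ∈ ((Q' : Subgroup G) ⊔ center G : Subgroup G) := Subgroup.mem_sup_left hy
      have h2 : y ∈ (((Q' : Subgroup G) ⊔ center G : Subgroup G) : Set G) := h1
      rw [← heq p Q', heq p Q] at h2
      have h3 : y ∈ ((Q : Subgroup G) : Set G) * (center G : Set G) := by
        rw [← Subgroup.mul_normal]; exact h2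
      obtain ⟨q, hq, z, hz, rfl⟩ := Set.mem_mul.mp h3
      have hqQ : q ∈ (Q : Subgroup G) := hq
      have hzc : z ∈ center G := hz
      have hcomm : Commute q⁻¹ (q * z) := by
        have : Commute q z := (mem_center_iff.mp hzc q)
        exact (Commute.refl q).mul_right this |>.inv_left
      obtain ⟨k1, hk1⟩ := Q.isPGroup' ⟨q, hqQ⟩
      obtain ⟨k2, hk2⟩ := Q'.isPGroup' ⟨q * z, hy⟩
      have hq1 : q ^ p ^ k1 = 1 := by simpa [Subtype.ext_iff] using hk1
      have hq2 : (q * z) ^ p ^ k2 = 1 := by simpa [Subtype.ext_iff] using hk2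
      have hzp : z ^ p ^ (k1 + k2) = 1 := by
        have hz1 : z = q⁻¹ * (q * z) := by group
        rw [hz1, hcomm.mul_pow, inv_pow, pow_add]
        have a1 : (q ^ (p ^ k1 * p ^ k2))⁻¹ = 1 := by
          rw [pow_mul, hq1, one_pow, inv_one]
        have a2 : (q * z) ^ (p ^ k1 * p ^ k2) = 1 := by
          rw [mul_comm, pow_mul, hq2, one_pow]
        rw [a1, a2, one_mul]
      have hzo : ∃ k : ℕ, orderOf z = p ^ k :=
        Cfsg.Agent.Lib.PGroups.exists_pow_eq_one_iff_orderOf.mp ⟨_, hzp⟩
      have hzQ : z ∈ (Q : Subgroup G) :=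
        mem_sylow_of_commute Q hzo (fun g _ => mem_center_iff.mp hzc g)
      exact (Q : Subgroup G).mul_mem hqQ hzQ
    exact Sylow.ext (le_antisymm (hle Q' Q) (hle Q Q'))
  exact Sylow.normal_of_subsingleton P

end Cfsg.Agent.Lib.Char.SameClass
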