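import Mathlib
import Cfsg.Agent.Lib.Char.Galois

set_option autoImplicit false

/-!
Fields of values as indices of stabilizers in the Galois group of a cyclotomic field.
-/

namespace Cfsg.Agent.Lib.Char.Schur

open Cfsg Cfsg.Agent.Lib.Char ComplexConjugate

universe u

/-- The degree of the field of values. -/
noncomputable def dF {X : Type*} (f : X → ℂ) : ℕ :=
  Module.finrank ℚ (IntermediateField.adjoin ℚ (Set.range f))

section Gal

variable (n : ℕ) [NeZero n]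

/-- The stabilizer of a function in the Galois group. -/
def stabGal {X : Type*} (f : X → ℂ) (hf : ∀ x, f x ∈ cycField n) :
    Subgroup (cycField n ≃ₐ[ℚ] cycField n) where
  carrier := {τ | ∀ x, τ ⟨f x, hf x⟩ = ⟨f x, hf x⟩}
  mul_mem' := by
    intro a b ha hb x
    rw [AlgEquiv.mul_apply, hb x, ha x]
  one_mem' := by
    intro x
    rfl
  inv_mem' := by
    intro a ha x
    have h1 : (a⁻¹ * a) ⟨f x, hf x⟩ = a⁻¹ ⟨f x, hf x⟩ := by
      rw [AlgEquiv.mul_apply, ha x]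
    rw [inv_mul_cancel] at h1
    exact h1.symm

theorem mem_stabGal {X : Type*} {f : X → ℂ} {hf : ∀ x, f x ∈ cycField n}
    {τ : cycField n ≃ₐ[ℚ] cycField n} :
    τ ∈ stabGal n f hf ↔ ∀ x, τ ⟨f x, hf x⟩ = ⟨f x, hf x⟩ := Iff.rfl

theorem dF_eq_index {X : Type*} (f : X → ℂ) (hf : ∀ x, f x ∈ cycField n) :
    dF f = (stabGal n f hf).index := by
  classical
  let E := cycField n
  let S' : Set E := Set.range (fun x => (⟨f x, hf x⟩ : E))
  let L' : IntermediateField ℚ E := IntermediateField.adjoin ℚ S'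
  have h1 : L'.fixingSubgroup = stabGal n f hf := by
    apply le_antisymm
    · intro τ hτ x
      have h2 : (⟨f x, hf x⟩ : E) ∈ L' :=
        IntermediateField.subset_adjoin ℚ S' ⟨x, rfl⟩
      exact hτ ⟨_, h2⟩
    · apply (IntermediateField.le_iff_le _ _).mp
      rw [IntermediateField.adjoin_le_iff]
      rintro _ ⟨x, rfl⟩ ⟨τ, hτ⟩
      exact hτ x
  have h2 := IntermediateField.finrank_eq_fixingSubgroup_index (F := ℚ) (E' := E) L'
  rw [h1] at h2
  rw [← h2]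
  let v : E →ₐ[ℚ] ℂ := RingHom.toRatAlgHom (algebraMap E ℂ)
  have h3 : IntermediateField.adjoin ℚ (Set.range f) = L'.map v := by
    rw [IntermediateField.adjoin_map]
    congr 1
    ext z
    simp only [S', Set.mem_range, Set.mem_image, exists_exists_eq_and]
    rfl
  unfold dF
  rw [h3]
  exact (IntermediateField.equivMap L' v).toLinearEquiv.finrank_eq.symm

theorem exists_sigma_of_aut (τ : cycField n ≃ₐ[ℚ] cycField n) :
    ∃ k : ℕ, k.Coprime n ∧ ∃ σ : ℂ →+* ℂ, (∀ ε : ℂ, ε ^ n = 1 → σ ε = ε ^ k) ∧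
      ∀ x : cycField n, σ x = τ x := by
  have hζ := isPrimitiveRoot_zetaK n
  have hfζ : IsPrimitiveRoot (τ (zetaK n)) n := hζ.map_of_injective τ.injective
  obtain ⟨k, -, hk⟩ := hζ.eq_pow_of_pow_eq_one hfζ.pow_eq_one
  have hcop : k.Coprime n := by
    rw [← hk] at hfζ
    exact (hζ.pow_iff_coprime (NeZero.pos n) k).mp hfζ
  obtain ⟨σ, hσ⟩ := exists_ringHom_extend (cycField n) τ.toRingEquiv
  have h1 : σ (zetaC n) = zetaC n ^ k := by
    have := hσ (zetaK n)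
    simp only [AlgEquiv.coe_ringEquiv, ← hk] at this
    exact this
  refine ⟨k, hcop, σ, ?_, fun x => hσ x⟩
  intro ε hε
  obtain ⟨j, -, rfl⟩ := (isPrimitiveRoot_zetaC n).eq_pow_of_pow_eq_one hε
  rw [map_pow, h1, ← pow_mul, ← pow_mul, mul_comm]

theorem mem_cyc {Y : Type*} [Group Y] [Finite Y] (hY : Nat.card Y ∣ n) {ψ : Y → ℂ}
    (hψ : IsCharacter Y ψ) (y : Y) : ψ y ∈ cycField n := by
  obtain ⟨m, ρ, rfl⟩ := hψ
  obtain ⟨μ, h1, h2⟩ := character_pow_eq_sum_eigen ρ y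
  have h3 := h2 1
  simp only [pow_one] at h3
  rw [h3]
  refine sum_mem fun i _ => ?_
  apply mem_cycField_of_pow_eq_one
  obtain ⟨d, hd⟩ := (orderOf_dvd_natCard y).trans hY
  rw [hd, pow_mul, h1, one_pow]

theorem aut_apply {Y : Type*} [Group Y] [Finite Y] (hY : Nat.card Y ∣ n) {ψ : Y → ℂ}
    (hψ : IsCharacter Y ψ) {τ : cycField n ≃ₐ[ℚ] cycField n} {k : ℕ} {σ : ℂ →+* ℂ}
    (hσ : ∀ ε : ℂ, ε ^ n = 1 → σ ε = ε ^ k) (hτ : ∀ x : cycField n, σ x = τ x) (y : Y) :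
    ((τ ⟨ψ y, mem_cyc n hY hψ y⟩ : cycField n) : ℂ) = ψ (y ^ k) := by
  rw [← hτ]
  apply sigma_character hψ σ k
  intro ε hε
  apply hσ
  obtain ⟨d, hd⟩ := hY
  rw [hd, pow_mul, hε, one_pow]

end Gal

end Cfsg.Agent.Lib.Char.Schur
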