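import Mathlib
import Cfsg.Agent.Lib.Char.SchurA
import Cfsg.Agent.Lib.Char.IndNormal
import Cfsg.Agent.Lib.Char.FRamA
import Cfsg.Agent.Lib.Char.FRamB
import Cfsg.Agent.Lib.Char.MGroup
import Cfsg.Agent.Lib.Char.Kernel

set_option autoImplicit false

/-!
The field of values of a character induced from a normal subgroup.
-/

namespace Cfsg.Agent.Lib.Char.Schur

open Cfsg Cfsg.Agent.Lib.Char ComplexConjugate

universe u

section Key

variable {P : Type u} [Group P] [Fintype P] (M : Subgroup P) [hM : M.Normal] [Fintype M]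

theorem conjFun_eq_of_mem {θ : M → ℂ} (hθ : IsClassFunction M θ) {a b : P} (h : a⁻¹ * b ∈ M) :
    conjFun M a θ = conjFun M b θ := by
  have h1 : b = a * (a⁻¹ * b) := by group
  have h2 : conjFun M (a⁻¹ * b) θ = θ := le_inertia M hθ h
  rw [h1, conjFun_mul, h2]

theorem key {θ : M → ℂ} (hθ : IsIrrCharacter M θ) {χ : P → ℂ} (hχ : IsIrrCharacter P χ)
    (hind : indFun M θ = χ) :
    dF θ ≤ dF χ ∨ (dF θ ≤ M.index * dF χ ∧ ∃ g : P, g ∉ M ∧
      ∀ x : M, θ ⟨g⁻¹ * x * g, hM.conj_mem' x x.2 g⟩ = θ 1 ↔ θ x = θ 1) := by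
  classical
  letI : Fintype (P ⧸ M) := Fintype.ofFinite _
  haveI : NeZero (Nat.card P) := ⟨Nat.card_pos.ne'⟩
  set n := Nat.card P with hn
  have hMn : Nat.card M ∣ n := Subgroup.card_subgroup_dvd_card M
  have hθc := IsIrrCharacter.isCharacter hθ
  have hχc := IsIrrCharacter.isCharacter hχ
  have hθcl := IsCharacter.isClassFunction hθc
  have hχcl := IsCharacter.isClassFunction hχc
  have hθm : ∀ x, θ x ∈ cycField n := mem_cyc n hMn hθc
  have hχm : ∀ x, χ x ∈ cycField n := mem_cyc n dvd_rfl hχc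
  have hfin : Finite (cycField n ≃ₐ[ℚ] cycField n) := inferInstance
  set S := stabGal n χ hχm with hS
  set T := stabGal n θ hθm with hT
  have hdχ : dF χ = S.index := dF_eq_index n χ hχm
  have hdθ : dF θ = T.index := dF_eq_index n θ hθm
  have hTpos : 0 < (T ⊓ S).index := Nat.pos_of_ne_zero Subgroup.index_ne_zero_of_finite
  by_cases hST : S ≤ T
  · left
    rw [hdχ, hdθ]
    exact Nat.le_of_dvd (Nat.pos_of_ne_zero Subgroup.index_ne_zero_of_finite)
      (Subgroup.index_dvd_of_le hST)
  right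
  have h1 : classInner (resFun M χ) θ ≠ 0 := by
    have h2 := classInner_indFun_right M θ χ hχcl
    rw [hind, classInner_irr_self hχ] at h2
    change classInner (resFun M χ) θ ≠ 0
    rw [← h2]
    exact one_ne_zero
  have hexists : ∀ τ : S, ∃ g : P, ∀ x : M,
      ((τ.1 ⟨θ x, hθm x⟩ : cycField n) : ℂ) = conjFun M g θ x := by
    intro τ
    obtain ⟨k, hk, σ, hσ, hτσ⟩ := exists_sigma_of_aut n τ.1
    have hkM : k.Coprime (Nat.card M) := Nat.Coprime.coprime_dvd_right hMn hk
    have hθk := isIrrCharacter_pow hθ hkM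
    have hχk : ∀ x : P, χ (x ^ k) = χ x := by
      intro x
      have h2 := aut_apply n dvd_rfl hχc hσ hτσ x
      rw [← h2]
      have h3 := τ.2 x
      have h4 : τ.1 ⟨χ x, mem_cyc n dvd_rfl hχc x⟩ = ⟨χ x, mem_cyc n dvd_rfl hχc x⟩ := h3
      rw [h4]
    have h2 : classInner (resFun M χ) (fun x => θ (x ^ k)) ≠ 0 := by
      have h3 : classInner (resFun M χ) (fun x => θ (x ^ k)) = classInner (resFun M χ) θ := by
        simp only [classInner]
        congr 1
        have h4 := sum_pow_eq hkM (fun x : M => χ x * conj (θ x))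
        rw [← h4]
        refine Finset.sum_congr rfl fun x _ => ?_
        have h5 : ((x ^ k : M) : P) = (x : P) ^ k := rfl
        simp only [h5, hχk]
      rw [h3]
      exact h1
    obtain ⟨g, hg⟩ := clifford_constituent M hχ hθ hθk h1 h2
    refine ⟨g, fun x => ?_⟩
    rw [← hg]
    exact aut_apply n hMn hθc hσ hτσ x
  choose gg hgg using hexists
  have hrel : T.relIndex S ≤ M.index := by
    let φ : S ⧸ T.subgroupOf S → P ⧸ M := fun q => (gg (Quotient.out q) : P ⧸ M)
    have hφ : Function.Injective φ := by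
      intro q q' hq
      have h2 : (gg (Quotient.out q))⁻¹ * gg (Quotient.out q') ∈ M := QuotientGroup.eq.mp hq
      have h3 := conjFun_eq_of_mem M hθcl h2
      rw [← Quotient.out_eq' q, ← Quotient.out_eq' q']
      apply QuotientGroup.eq.mpr
      rw [Subgroup.mem_subgroupOf]
      intro x
      have h4 := hgg (Quotient.out q) x
      have h5 := hgg (Quotient.out q') x
      rw [h3, ← h5] at h4
      have h6 := Subtype.ext h4
      show (((Quotient.out q : S)⁻¹ * Quotient.out q' : S) : cycField n ≃ₐ[ℚ] cycField n)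
        ⟨θ x, hθm x⟩ = ⟨θ x, hθm x⟩
      rw [Subgroup.coe_mul, Subgroup.coe_inv, AlgEquiv.mul_apply, ← h6, ← AlgEquiv.mul_apply,
        inv_mul_cancel]
      rfl
    exact Nat.card_le_card_of_injective φ hφ
  have hne : ∃ τ : S, τ.1 ∉ T := by
    obtain ⟨τ, hτ, hτT⟩ := Set.not_subset.mp hST
    exact ⟨⟨τ, hτ⟩, hτT⟩
  obtain ⟨τ, hτT⟩ := hne
  constructor
  · rw [hdθ, hdχ]
    calc T.index ≤ (T ⊓ S).index := Nat.le_of_dvd hTpos (Subgroup.index_dvd_of_le inf_le_left)
      _ = (T ⊓ S).relIndex S * S.index := (Subgroup.relIndex_mul_index inf_le_right).symm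
      _ = T.relIndex S * S.index := by rw [Subgroup.inf_relIndex_right]
      _ ≤ M.index * S.index := Nat.mul_le_mul_right _ hrel
  · refine ⟨gg τ, ?_, ?_⟩
    · intro hg
      apply hτT
      intro x
      have h2 : conjFun M (gg τ) θ = θ := le_inertia M hθcl hg
      have h3 := hgg τ x
      rw [h2] at h3
      exact Subtype.ext h3
    · intro x
      have h2 := hgg τ x
      rw [conjFun_apply] at h2
      rw [← h2]
      have h3 : τ.1 ⟨θ 1, hθm 1⟩ = ⟨θ 1, hθm 1⟩ := by
        have h4 : (⟨θ 1, hθm 1⟩ : cycField n) = ((charDegree θ : ℕ) : cycField n) := by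
          apply Subtype.ext
          simpa using apply_one_eq_charDegree hθc
        rw [h4, map_natCast]
      constructor
      · intro h4
        have h5 : τ.1 ⟨θ x, hθm x⟩ = τ.1 ⟨θ 1, hθm 1⟩ := by
          rw [h3]
          exact Subtype.ext h4
        have h6 := τ.1.injective h5
        exact congrArg Subtype.val h6
      · intro h4
        have h5 : (⟨θ x, hθm x⟩ : cycField n) = ⟨θ 1, hθm 1⟩ := Subtype.ext h4
        rw [h5, h3]

end Key

end Cfsg.Agent.Lib.Char.Schur
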