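import Mathlib
import Cfsg.Agent.Lib.Char.SchurB

set_option autoImplicit false

/-!
The bound on the order of a `p`-group in terms of the degree and the field of values of a
faithful irreducible character.
-/

namespace Cfsg.Agent.Lib.Char.Schur

open Cfsg Cfsg.Agent.Lib.Char ComplexConjugate

universe u

theorem arith_A {p a a' f' t : ℕ} (hp : 2 ≤ p) (ha : 1 ≤ a) (hf : 1 ≤ f') (h1 : a - 1 ≤ a' * p)
    (h2 : (p - 1) * a' ≤ (f' - 1) + (p - 1) * (t + 1) * f') :
    (p - 1) * a ≤ (p * f' - 1) + (p - 1) * (t + 1) * (p * f') := by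
  obtain ⟨q, rfl⟩ : ∃ q, p = q + 1 := ⟨p - 1, by omega⟩
  obtain ⟨u, rfl⟩ : ∃ u, f' = u + 1 := ⟨f' - 1, by omega⟩
  obtain ⟨b, rfl⟩ : ∃ b, a = b + 1 := ⟨a - 1, by omega⟩
  simp only [Nat.add_sub_cancel] at *
  have e : (q + 1) * (u + 1) - 1 = q * u + q + u := by
    have : (q + 1) * (u + 1) = q * u + q + u + 1 := by ring
    rw [this]
    simp
  rw [e]
  have h3 : q * b ≤ q * (a' * (q + 1)) := Nat.mul_le_mul_left q h1
  have h4 : (q + 1) * (q * a') ≤ (q + 1) * (u + q * (t + 1) * (u + 1)) := Nat.mul_le_mul_left _ h2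
  nlinarith

theorem arith_B {p a f' t : ℕ} (hp : 2 ≤ p) (ha : 1 ≤ a) (hf : 1 ≤ f')
    (h : (p - 1) * (a - 1) ≤ (f' - 1) + (p - 1) * (t + 1 + 1) * f') :
    (p - 1) * a ≤ (p * f' - 1) + (p - 1) * (t + 1) * (p * f') := by
  obtain ⟨q, rfl⟩ : ∃ q, p = q + 1 := ⟨p - 1, by omega⟩
  obtain ⟨u, rfl⟩ : ∃ u, f' = u + 1 := ⟨f' - 1, by omega⟩
  obtain ⟨b, rfl⟩ : ∃ b, a = b + 1 := ⟨a - 1, by omega⟩
  simp only [Nat.add_sub_cancel] at *
  have e : (q + 1) * (u + 1) - 1 = q * u + q + u := by
    have : (q + 1) * (u + 1) = q * u + q + u + 1 := by ring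
    rw [this]
    simp
  rw [e]
  have hq : 1 ≤ q := by omega
  have h5 : t + 2 ≤ (t + 1) * (q + 1) := by nlinarith
  have h6 : q * (u + 1) * (t + 2) ≤ q * (u + 1) * ((t + 1) * (q + 1)) := Nat.mul_le_mul_left _ h5
  nlinarith

section Groups

variable {P : Type u} [Group P] [Fintype P]

theorem exists_max_normal {p : ℕ} [hp : Fact p.Prime] (hP : IsPGroup p P) (T : Subgroup P)
    (hT : T ≠ ⊤) : ∃ M : Subgroup P, T ≤ M ∧ M.Normal ∧ M.index = p := by
  classical
  obtain ⟨M, hTM, hmax⟩ := Finite.exists_le_maximal (p := fun N : Subgroup P => N ≠ ⊤) (a := T) hT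
  haveI : Group.IsNilpotent P := hP.isNilpotent
  have hMt : M ≠ ⊤ := hmax.prop
  have hnorm : M.Normal := by
    have hlt : M < ⊤ := lt_top_iff_ne_top.mpr hMt
    have h1 := normalizerCondition_of_isNilpotent (G := P) M hlt
    by_cases h2 : Subgroup.normalizer (M : Set P) = ⊤
    · exact Subgroup.normalizer_eq_top_iff.mp h2
    · exact absurd (hmax.le_of_ge h2 h1.le) (not_le_of_gt h1)
  haveI := hnorm
  refine ⟨M, hTM, hnorm, ?_⟩
  have hQ : IsPGroup p (P ⧸ M) := hP.to_quotient M
  have hnt : Nontrivial (P ⧸ M) := by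
    rw [QuotientGroup.nontrivial_iff]
    exact hMt
  obtain ⟨k, hk⟩ := IsPGroup.iff_card.mp hQ
  have hk0 : k ≠ 0 := by
    rintro rfl
    have := Finite.one_lt_card (α := P ⧸ M)
    rw [hk] at this
    simp at this
  have hpd : p ∣ Nat.card (P ⧸ M) := by
    rw [hk]
    exact dvd_pow_self p hk0
  obtain ⟨x, hx⟩ := exists_prime_orderOf_dvd_card' p hpd
  let U : Subgroup P := (Subgroup.zpowers x).comap (QuotientGroup.mk' M)
  have hMU : M ≤ U := by
    intro m hm
    have h1 : (m : P ⧸ M) = 1 := (QuotientGroup.eq_one_iff m).mpr hm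
    change ((QuotientGroup.mk' M) m) ∈ Subgroup.zpowers x
    rw [QuotientGroup.mk'_apply, h1]
    exact Subgroup.one_mem _
  have hUt : U = ⊤ := by
    by_contra hU
    have h1 : U ≤ M := hmax.le_of_ge hU hMU
    obtain ⟨y, rfl⟩ := QuotientGroup.mk_surjective x
    have h2 : y ∈ U := by
      change ((QuotientGroup.mk' M) y) ∈ Subgroup.zpowers _
      exact Subgroup.mem_zpowers _
    have h3 : ((y : P) : P ⧸ M) = 1 := (QuotientGroup.eq_one_iff y).mpr (h1 h2)
    rw [h3, orderOf_one] at hx
    exact hp.out.one_lt.ne hx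
  have htop : Subgroup.zpowers x = ⊤ := by
    rw [eq_top_iff]
    intro q _
    obtain ⟨y, rfl⟩ := QuotientGroup.mk_surjective q
    have h2 : y ∈ U := by
      rw [hUt]
      trivial
    exact h2
  rw [Subgroup.index, ← hx, ← Nat.card_zpowers, htop, Subgroup.card_top]

theorem exists_max_induced {p : ℕ} [hp : Fact p.Prime] (hP : IsPGroup p P) {χ : P → ℂ}
    (hχ : IsIrrCharacter P χ) (hf : charKer χ = ⊥) (h1 : χ 1 ≠ 1) :
    ∃ (M : Subgroup P) (_ : M.Normal) (θ : M → ℂ), M.index = p ∧ IsIrrCharacter M θ ∧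
      indFun M θ = χ := by
  classical
  haveI : Group.IsNilpotent P := hP.isNilpotent
  have hcomm : ¬ ∀ a b : P, a * b = b * a := fun h =>
    h1 ((comm_iff_irr_degree_one (G := P)).mp h ⟨χ, hχ⟩)
  obtain ⟨A, hAn, hab, hA⟩ := exists_abelian_normal_not_central hcomm
  haveI := hAn
  obtain ⟨T, ψ, hT, hψ, hind⟩ := exists_proper_induced hχ hf A hab hA
  obtain ⟨M, hTM, hMn, hidx⟩ := exists_max_normal hP T hT
  haveI := hMn
  letI : Fintype M := Fintype.ofFinite _
  have hχc := IsIrrCharacter.isCharacter hχ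
  have hoff : ∀ g, g ∉ M → χ g = 0 := by
    intro g hg
    rw [← hind, indFun_apply]
    have h2 : ∀ x, extendByZero T ψ (x⁻¹ * g * x) = 0 := by
      intro x
      apply extendByZero_of_notMem
      intro h
      apply hg
      have := hMn.conj_mem _ (hTM h) x
      simpa [mul_assoc] using this
    simp [h2]
  obtain ⟨ξ, hξ, hne⟩ := exists_under hχ M
  have hin : inertia M ξ ≤ M := by
    by_contra hnot
    have hMI : M ≤ inertia M ξ := le_inertia M (IsCharacter.isClassFunction (IsIrrCharacter.isCharacter hξ))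
    have htop : inertia M ξ = ⊤ := by
      have h2 : (inertia M ξ).index ∣ M.index := Subgroup.index_dvd_of_le hMI
      rw [hidx] at h2
      rcases (Nat.dvd_prime hp.out).mp h2 with h3 | h3
      · exact Subgroup.index_eq_one.mp h3
      · exfalso
        apply hnot
        have h4 := Subgroup.relIndex_mul_index hMI
        rw [hidx, h3] at h4
        have h5 : M.relIndex (inertia M ξ) = 1 := by
          have := hp.out.pos
          nlinarith
        exact Subgroup.relIndex_eq_one.mp h5
    have hinv : ∀ g, conjFun M g ξ = ξ := fun g => by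
      have h2 : g ∈ inertia M ξ := by
        rw [htop]
        trivial
      exact h2
    obtain ⟨e, he⟩ := exists_multiplicity M hχc hξ
    have hres := FRam.res_eq_smul_of_invariant M hξ hinv hχ hne
    rw [he] at hres
    have h2 := FRam.norm_sum_eq hχ
    have h3 := FRam.norm_sum_eq hξ
    have h4 : ∑ g : P, Complex.normSq (χ g) = ∑ m : M, Complex.normSq (χ m) := by
      symm
      apply Fintype.sum_of_injective (fun m : M => (m : P)) Subtype.val_injective
      · intro g hg
        have : g ∉ M := fun h => hg ⟨⟨g, h⟩, rfl⟩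
        rw [hoff g this, map_zero]
      · intro m
        rfl
    have h5 : ∑ m : M, Complex.normSq (χ m) = (e : ℝ) ^ 2 * Nat.card M := by
      rw [← h3, Finset.mul_sum]
      refine Finset.sum_congr rfl fun m _ => ?_
      rw [hres m, map_mul, Complex.normSq_natCast]
      ring
    rw [h4, h5] at h2
    have h6 : (Nat.card P : ℝ) = Nat.card M * p := by
      rw [← hidx]
      exact_mod_cast (Subgroup.card_mul_index M).symm
    rw [h6] at h2
    have hMc : (Nat.card M : ℝ) ≠ 0 := by exact_mod_cast Nat.card_pos.ne'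
    have h7 : (e : ℝ) ^ 2 = p := by
      apply mul_right_cancel₀ hMc
      rw [h2]
      ring
    have h8 : e ^ 2 = p := by exact_mod_cast h7
    have h9 := hp.out.eq_one_or_self_of_dvd e ⟨e, by rw [← h8]; ring⟩
    have h2p := hp.out.two_le
    rcases h9 with h9 | h9
    · rw [h9] at h8
      omega
    · rw [h9] at h8
      nlinarith
  have hirr := isIrrCharacter_indFun_of_inertia M hξ hin
  refine ⟨M, hMn, ξ, hidx, hξ, ?_⟩
  by_contra hneq
  have h2 := classInner_irr_of_ne hχ hirr (Ne.symm hneq)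
  rw [classInner_indFun_right M ξ χ (IsCharacter.isClassFunction hχc)] at h2
  exact hne h2

theorem card_le_index_pow (M : Subgroup P) [hM : M.Normal] (K : Subgroup M) [hK : K.Normal]
    (hcore : ∀ x : M, (∀ y : P, (⟨y⁻¹ * x * y, hM.conj_mem' x x.2 y⟩ : M) ∈ K) → x = 1) :
    Nat.card M ≤ K.index ^ M.index := by
  classical
  letI : Fintype (P ⧸ M) := Fintype.ofFinite _
  let f : P ⧸ M → Subgroup M := fun c =>
    K.comap (MulAut.conjNormal (Quotient.out c)⁻¹ : MulAut M).toMonoidHom
  have hf : ∀ c, (f c).index = K.index := fun c =>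
    Subgroup.index_comap_of_surjective K (MulEquiv.surjective _)
  have h1 : (⨅ c, f c) = ⊥ := by
    rw [eq_bot_iff]
    intro x hx
    rw [Subgroup.mem_bot]
    apply hcore
    intro y
    have h2 := Subgroup.mem_iInf.mp hx (y : P ⧸ M)
    obtain ⟨h, hh⟩ := QuotientGroup.mk_out_eq_mul M y
    have h3 : (MulAut.conjNormal (Quotient.out (y : P ⧸ M))⁻¹ : MulAut M) x ∈ K := h2
    have h4 := hK.conj_mem _ h3 h
    convert h4 using 1
    apply Subtype.ext
    have h5 : Quotient.out (y : P ⧸ M) = y * h := hh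
    simp only [Subgroup.coe_mul, Subgroup.coe_inv, MulAut.conjNormal_apply, h5]
    group
  have h4 := Subgroup.index_iInf_le f
  rw [h1, Subgroup.index_bot] at h4
  simp only [hf, Finset.prod_const, Finset.card_univ] at h4
  have h5 : M.index = Fintype.card (P ⧸ M) := by
    rw [Subgroup.index, Nat.card_eq_fintype_card]
  rw [h5]
  exact h4

theorem base {p a t : ℕ} [hp : Fact p.Prime] (hcard : Nat.card P = p ^ a) {χ : P → ℂ}
    (hχ : IsCharacter P χ) (h1 : χ 1 = 1) (hf : ∀ g, χ g = χ 1 → g = 1)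
    (ht : dF χ ≤ (p - 1) * p ^ t) : a ≤ t + 1 := by
  classical
  rcases Nat.eq_zero_or_pos a with h0 | hapos
  · omega
  obtain ⟨b, rfl⟩ : ∃ b, a = b + 1 := ⟨a - 1, by omega⟩
  obtain ⟨lam, rfl⟩ := IsCharacter.exists_monoidHom hχ h1
  have hinj0 : Function.Injective lam := by
    rw [injective_iff_map_eq_one]
    intro g hg
    apply hf
    simp [hg]
  let φ : P →* ℂ := (Units.coeHom ℂ).comp lam
  have hφ : Function.Injective φ := fun x y h => hinj0 (Units.ext h)
  have hcyc : IsCyclic P := isCyclic_of_subgroup_isDomain φ hφ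
  obtain ⟨g, hg⟩ := hcyc.exists_generator
  have hog : orderOf g = p ^ (b + 1) := by
    rw [← hcard]
    exact orderOf_eq_card_of_forall_mem_zpowers hg
  set ζ : ℂ := φ g with hζ
  have hord : orderOf ζ = p ^ (b + 1) := by
    rw [hζ, orderOf_injective φ hφ g, hog]
  have hprim : IsPrimitiveRoot ζ (p ^ (b + 1)) := by
    rw [← hord]
    exact IsPrimitiveRoot.orderOf ζ
  have hpos : 0 < p ^ (b + 1) := pow_pos hp.out.pos _
  have hint : IsIntegral ℚ ζ := (hprim.isIntegral hpos).tower_top
  have hfr : Module.finrank ℚ (IntermediateField.adjoin ℚ {ζ}) = p ^ b * (p - 1) := by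
    have h2 := IntermediateField.adjoin.finrank hint
    rw [h2, ← Polynomial.cyclotomic_eq_minpoly_rat hprim hpos, Polynomial.natDegree_cyclotomic,
      Nat.totient_prime_pow_succ hp.out]
  haveI : NeZero (Nat.card P) := ⟨Nat.card_pos.ne'⟩
  have hmem : ∀ x, ((fun g => (lam g : ℂ)) x) ∈ cycField (Nat.card P) := mem_cyc _ dvd_rfl hχ
  have hidx := dF_eq_index (Nat.card P) (fun g => (lam g : ℂ)) hmem
  have hdpos : 0 < dF (fun g => (lam g : ℂ)) := by
    rw [hidx]
    exact Nat.pos_of_ne_zero Subgroup.index_ne_zero_of_finite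
  set L := IntermediateField.adjoin ℚ (Set.range (fun g => (lam g : ℂ))) with hL
  haveI : FiniteDimensional ℚ L := Module.finite_of_finrank_pos hdpos
  have hle : IntermediateField.adjoin ℚ {ζ} ≤ L := by
    rw [IntermediateField.adjoin_simple_le_iff]
    exact IntermediateField.subset_adjoin ℚ _ ⟨g, rfl⟩
  have hfr2 : Module.finrank ℚ (IntermediateField.adjoin ℚ {ζ}) ≤ Module.finrank ℚ L :=
    LinearMap.finrank_le_finrank_of_injective
      (f := (IntermediateField.inclusion hle).toLinearMap) (IntermediateField.inclusion hle).injective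
  rw [hfr] at hfr2
  have hq : 0 < p - 1 := by
    have := hp.out.two_le
    omega
  have h3 : p ^ b * (p - 1) ≤ (p - 1) * p ^ t := hfr2.trans ht
  have h4 : p ^ b ≤ p ^ t := by
    rw [mul_comm] at h3
    exact Nat.le_of_mul_le_mul_left h3 hq
  have h5 : b ≤ t := (Nat.pow_le_pow_iff_right hp.out.one_lt).mp h4
  omega

theorem main_aux (p : ℕ) [hp : Fact p.Prime] : ∀ (f : ℕ) (P : Type u) [Group P] [Fintype P] (a : ℕ),
    Nat.card P = p ^ a → ∀ χ : P → ℂ, IsIrrCharacter P χ → charKer χ = ⊥ → charDegree χ = f →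
      ∀ t : ℕ, dF χ ≤ (p - 1) * p ^ t → (p - 1) * a ≤ (f - 1) + (p - 1) * (t + 1) * f := by
  intro f
  induction f using Nat.strong_induction_on with
  | _ f ih =>
  intro P _ _ a hcard χ hχ hf hdeg t ht
  classical
  have hP : IsPGroup p P := IsPGroup.of_card hcard
  have hp2 := hp.out.two_le
  have hχc := IsIrrCharacter.isCharacter hχ
  have hdpos : 0 < f := by
    rw [← hdeg]
    exact charDegree_pos hχ
  have hfaith : ∀ g, χ g = χ 1 → g = 1 := by
    intro g hg
    have h2 : g ∈ charKer χ := (mem_charKer hχc).mpr hg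
    rw [hf] at h2
    exact h2
  by_cases h1 : f = 1
  · subst h1
    have hone : χ 1 = 1 := by
      rw [apply_one_eq_charDegree hχc, hdeg]
      simp
    have h2 := base hcard hχc hone hfaith ht
    simp only [Nat.sub_self, zero_add, mul_one]
    exact Nat.mul_le_mul_left _ h2
  have hne1 : χ 1 ≠ 1 := by
    intro h2
    apply h1
    rw [apply_one_eq_charDegree hχc, hdeg] at h2
    exact_mod_cast h2
  obtain ⟨M, hMn, θ, hidx, hθ, hind⟩ := exists_max_induced hP hχ hf hne1
  haveI := hMn
  letI : Fintype M := Fintype.ofFinite _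
  have hθc := IsIrrCharacter.isCharacter hθ
  have hθcl := IsCharacter.isClassFunction hθc
  have hcardM : Nat.card M * p = p ^ a := by
    have h2 := Subgroup.card_mul_index M
    rw [hidx, hcard] at h2
    exact h2
  have ha : 1 ≤ a := by
    by_contra h2
    have h3 : a = 0 := by omega
    rw [h3, pow_zero] at hcardM
    have : 0 < Nat.card M := Nat.card_pos
    nlinarith
  have hcardM' : Nat.card M = p ^ (a - 1) := by
    have h2 : p ^ a = p ^ (a - 1) * p := by
      rw [← pow_succ]
      congr 1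
      omega
    rw [h2] at hcardM
    exact Nat.eq_of_mul_eq_mul_right hp.out.pos hcardM
  have hfeq : f = p * charDegree θ := by
    rw [← hdeg, ← hind, charDegree_indFun hθc, hidx]
  set f' := charDegree θ with hf'
  have hf'pos : 0 < f' := charDegree_pos hθ
  have hf'lt : f' < f := by
    rw [hfeq]
    nlinarith
  let K := charKer θ
  haveI hKn : K.Normal := charKer_normal hθc
  letI : Fintype K := Fintype.ofFinite _
  letI : Fintype (M ⧸ K) := Fintype.ofFinite _
  obtain ⟨β, hβ, hθβ⟩ := exists_deflate K hθ le_rfl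
  have hβc := IsIrrCharacter.isCharacter hβ
  have hβθ : ∀ y : M, β (y : M ⧸ K) = θ y := by
    intro y
    rw [hθβ]
  have hβ1 : β 1 = θ 1 := by
    have := hβθ 1
    simpa using this
  have hβker : charKer β = ⊥ := by
    rw [eq_bot_iff]
    intro q hq
    obtain ⟨y, rfl⟩ := QuotientGroup.mk_surjective q
    have h2 := (mem_charKer hβc).mp hq
    rw [hβθ, hβ1] at h2
    have h3 : y ∈ K := (mem_charKer hθc).mpr h2
    rw [Subgroup.mem_bot]
    exact (QuotientGroup.eq_one_iff y).mpr h3
  have hβdeg : charDegree β = f' := by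
    apply charDegree_eq
    rw [hβ1, apply_one_eq_charDegree hθc]
  have hβd : dF β = dF θ := by
    unfold dF
    have h2 : Set.range β = Set.range θ := by
      ext z
      constructor
      · rintro ⟨q, rfl⟩
        obtain ⟨y, rfl⟩ := QuotientGroup.mk_surjective q
        exact ⟨y, (hβθ y).symm⟩
      · rintro ⟨y, rfl⟩
        exact ⟨(y : M ⧸ K), hβθ y⟩
    rw [h2]
  obtain ⟨a', ha'⟩ : ∃ a', Nat.card (M ⧸ K) = p ^ a' := by
    have h2 : Nat.card (M ⧸ K) ∣ p ^ (a - 1) := by
      rw [← hcardM']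
      exact Subgroup.card_quotient_dvd_card K
    obtain ⟨c, -, hc⟩ := (Nat.dvd_prime_pow hp.out).mp h2
    exact ⟨c, hc⟩
  have hKidx : K.index = p ^ a' := ha'
  have hcore : ∀ x : M, (∀ y : P, (⟨y⁻¹ * x * y, hMn.conj_mem' x x.2 y⟩ : M) ∈ K) → x = 1 := by
    intro x hx
    have h2 : χ x = χ 1 := by
      rw [← hind, indFun_one, indFun_apply]
      have h3 : ∀ y : P, extendByZero M θ (y⁻¹ * x * y) = θ 1 := by
        intro y
        rw [extendByZero_of_mem M θ (hMn.conj_mem' x x.2 y)]
        exact (mem_charKer hθc).mp (hx y)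
      simp only [h3]
      rw [Finset.sum_const, Finset.card_univ, nsmul_eq_mul, ← Nat.card_eq_fintype_card]
      have h4 : (Nat.card P : ℂ) = Nat.card M * M.index := by
        exact_mod_cast (Subgroup.card_mul_index M).symm
      rw [h4]
      have h5 : (Nat.card M : ℂ) ≠ 0 := by exact_mod_cast Nat.card_pos.ne'
      field_simp
    have h3 := hfaith _ h2
    exact Subtype.ext h3
  rcases key M hθ hχ hind with hA | ⟨hB, g, hg, hgk⟩
  · have hIH := ih f' hf'lt (M ⧸ K) a' ha' β hβ hβker hβdeg t (by rw [hβd]; exact hA.trans ht)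
    have hle : Nat.card M ≤ K.index ^ M.index := card_le_index_pow M K hcore
    rw [hcardM', hKidx, hidx, ← pow_mul] at hle
    have h2 : a - 1 ≤ a' * p := (Nat.pow_le_pow_iff_right hp.out.one_lt).mp hle
    rw [hfeq]
    exact arith_A hp2 ha hf'pos h2 hIH
  · -- the kernel is normal
    let U : Subgroup P :=
      { carrier := {y | ∀ x : M, θ ⟨y⁻¹ * x * y, hMn.conj_mem' x x.2 y⟩ = θ 1 ↔ θ x = θ 1}
        mul_mem' := by
          intro u v hu hv x
          have h2 := hu x
          have h3 := hv ⟨u⁻¹ * x * u, hMn.conj_mem' x x.2 u⟩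
          rw [← h2, ← h3]
          have h4 : (⟨v⁻¹ * ((⟨u⁻¹ * x * u, hMn.conj_mem' x x.2 u⟩ : M) : P) * v, hMn.conj_mem' _ (Subtype.property _) v⟩ : M) =
              ⟨(u * v)⁻¹ * x * (u * v), hMn.conj_mem' x x.2 (u * v)⟩ := by
            apply Subtype.ext
            simp only [mul_inv_rev]
            group
          rw [h4]
        one_mem' := by
          intro x
          have h4 : (⟨(1 : P)⁻¹ * x * 1, hMn.conj_mem' x x.2 1⟩ : M) = x := by
            apply Subtype.ext
            simp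
          rw [h4]
        inv_mem' := by
          intro u hu x
          have h2 := hu ⟨u⁻¹⁻¹ * x * u⁻¹, hMn.conj_mem' x x.2 u⁻¹⟩
          rw [← h2]
          have h4 : (⟨u⁻¹ * ((⟨u⁻¹⁻¹ * x * u⁻¹, hMn.conj_mem' x x.2 u⁻¹⟩ : M) : P) * u, hMn.conj_mem' _ (Subtype.property _) u⟩ : M) = x := by
            apply Subtype.ext
            simp only
            group
          rw [h4] }
    have hMU : M ≤ U := by
      intro m hm x
      have h2 := hθcl x ⟨m, hm⟩⁻¹
      have h4 : (⟨m⁻¹ * x * m, hMn.conj_mem' x x.2 m⟩ : M) = (⟨m, hm⟩ : M)⁻¹ * x * (⟨m, hm⟩ : M)⁻¹⁻¹ := by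
        apply Subtype.ext
        simp
      rw [h4, h2]
    have hgU : g ∈ U := hgk
    have hUt : U = ⊤ := by
      have h2 : U.index ∣ M.index := Subgroup.index_dvd_of_le hMU
      rw [hidx] at h2
      rcases (Nat.dvd_prime hp.out).mp h2 with h3 | h3
      · exact Subgroup.index_eq_one.mp h3
      · exfalso
        apply hg
        have h4 := Subgroup.relIndex_mul_index hMU
        rw [hidx, h3] at h4
        have h5 : M.relIndex U = 1 := by
          have := hp.out.pos
          nlinarith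
        exact (Subgroup.relIndex_eq_one.mp h5) hgU
    have hKb : K = ⊥ := by
      rw [eq_bot_iff]
      intro x hx
      rw [Subgroup.mem_bot]
      apply hcore
      intro y
      have h2 : y ∈ U := by
        rw [hUt]
        trivial
      exact (mem_charKer hθc).mpr ((h2 x).mpr ((mem_charKer hθc).mp hx))
    have hKidx2 : K.index = Nat.card M := by
      rw [hKb]
      exact Subgroup.index_bot
    have ha'eq : a' = a - 1 := by
      rw [hKidx, hcardM'] at hKidx2
      exact Nat.pow_right_injective hp2 hKidx2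
    have hIH := ih f' hf'lt (M ⧸ K) a' ha' β hβ hβker hβdeg (t + 1) (by
      rw [hβd]
      rw [hidx] at hB
      calc dF θ ≤ p * dF χ := hB
        _ ≤ p * ((p - 1) * p ^ t) := Nat.mul_le_mul_left _ ht
        _ = (p - 1) * p ^ (t + 1) := by ring)
    rw [ha'eq] at hIH
    rw [hfeq]
    exact arith_B hp2 ha hf'pos hIH

end Groups

end Cfsg.Agent.Lib.Char.Schur
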