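import Mathlib
import Cfsg.Agent.Lib.Char.PrimeDeg

/-! Simple groups and the primes dividing character degrees: reduction to simple groups and the
Burnside column argument. -/

set_option autoImplicit false
set_option linter.unusedSectionVars false

namespace Cfsg.Agent.Lib.Char.SimpleDeg

open Cfsg Cfsg.Agent.Lib.Char Cfsg.Agent.Lib.Small.BD Subgroup
open scoped commutatorElement

universe u

/-- A divisor-closed property of degrees failing on every nonabelian simple group forces solvability. -/
theorem isSolvable_of_dvd_closed (P : ℕ → Prop) (hP : ∀ d e : ℕ, P d → e ∣ d → P e)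
    (hS : ∀ (S : Type u) [Group S] [Fintype S] [IsSimpleGroup S], ¬ IsMulCommutative S →
      ∃ χ : IrrCharacter S, ¬ P (charDegree (χ : S → ℂ))) :
    ∀ (n : ℕ) (G : Type u) [Group G] [Finite G], Nat.card G = n →
      (∀ d ∈ charDegrees G, P d) → Group.IsSolvable G := by
  intro n
  induction n using Nat.strong_induction_on with
  | _ n ih =>
    intro G _ _ hn hdeg
    classical
    letI : Fintype G := Fintype.ofFinite G
    by_cases hc : commutator G = ⊤
    · -- perfect
      by_cases hsub : Subsingleton G
      · exact isSolvable_of_comm (fun a b => Subsingleton.elim _ _)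
      · exfalso
        haveI hnt : Nontrivial G := not_subsingleton_iff_nontrivial.mp hsub
        have htop : (⊤ : Subgroup G) ≠ ⊥ := top_ne_bot
        let S : Set (Subgroup G) := {R | R.Normal ∧ R < ⊤}
        have hS' : S.Nonempty := ⟨⊥, inferInstance, bot_lt_iff_ne_bot.2 htop⟩
        obtain ⟨R, hR⟩ := (Set.toFinite S).exists_maximal hS'
        obtain ⟨⟨hRn, hRU⟩, hRmax⟩ := hR
        haveI := hRn
        have hmax : ∀ N : Subgroup G, N.Normal → R ≤ N → N = R ∨ N = ⊤ := by
          intro N hNn hRN
          by_cases hNe : N = ⊤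
          · exact Or.inr hNe
          · left
            have h1 : N ∈ S := ⟨hNn, lt_top_iff_ne_top.mpr hNe⟩
            exact le_antisymm (hRmax h1 hRN) hRN
        haveI hsimple : IsSimpleGroup (G ⧸ R) := PrimeDeg.isSimple_quotient_of_max R hRU hmax
        letI : Fintype (G ⧸ R) := Fintype.ofFinite _
        have hnc : ¬ IsMulCommutative (G ⧸ R) := by
          intro hcomm
          have h1 := commutator_quotient_eq_top hc R
          have h2 : commutator (G ⧸ R) = ⊥ := by
            rw [eq_bot_iff, commutator_eq_closure, Subgroup.closure_le]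
            rintro _ ⟨a, b, rfl⟩
            have : a * b = b * a := hcomm.is_comm.comm a b
            exact commutatorElement_eq_one_iff_mul_comm.mpr this
          rw [h2] at h1
          have h3 : (⊥ : Subgroup (G ⧸ R)) ≠ ⊤ := bot_ne_top
          exact h3 h1
        obtain ⟨χ, hχ⟩ := hS (G ⧸ R) hnc
        apply hχ
        have hχ' := isIrrCharacter_inflate R χ.2
        have h1 : charDegree (inflate R (χ : (G ⧸ R) → ℂ)) = charDegree (χ : (G ⧸ R) → ℂ) := by
          apply charDegree_eq
          show (χ : (G ⧸ R) → ℂ) ((1 : G) : G ⧸ R) = _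
          exact apply_one_eq_charDegree (IsIrrCharacter.isCharacter χ.2)
        rw [← h1]
        exact hdeg _ ⟨⟨_, hχ'⟩, rfl⟩
    · -- not perfect
      set N := commutator G with hN
      haveI hNn : N.Normal := inferInstance
      letI : Fintype N := Fintype.ofFinite _
      have hlt : Nat.card N < n := by
        rw [← hn]
        have h1 : Nat.card N * N.index = Nat.card G := Subgroup.card_mul_index N
        have h2 : N.index ≠ 1 := fun h => hc (Subgroup.index_eq_one.mp h)
        have h3 : N.index ≠ 0 := Subgroup.index_ne_zero_of_finite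
        have h4 : 2 ≤ N.index := by omega
        have h5 : 0 < Nat.card N := Nat.card_pos
        nlinarith
      have hdegN : ∀ d ∈ charDegrees N, P d := by
        rintro d ⟨θ, rfl⟩
        obtain ⟨χ, hχ, hne⟩ := exists_over N θ.2
        have h1 := RelGraph.degree_dvd_degree N hχ θ.2 hne
        exact hP _ _ (hdeg (charDegree χ) ⟨⟨χ, hχ⟩, rfl⟩) h1
      haveI hNs : Group.IsSolvable N := ih _ hlt N rfl hdegN
      haveI : Group.IsSolvable (G ⧸ N) := by
        apply isSolvable_of_comm
        intro a b
        obtain ⟨a, rfl⟩ := QuotientGroup.mk_surjective a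
        obtain ⟨b, rfl⟩ := QuotientGroup.mk_surjective b
        rw [← QuotientGroup.mk_mul, ← QuotientGroup.mk_mul, QuotientGroup.eq]
        have : (a * b)⁻¹ * (b * a) = ⁅b⁻¹, a⁻¹⁆ := by
          simp only [commutatorElement_def]
          group
        rw [this]
        exact Subgroup.commutator_mem_commutator (Subgroup.mem_top _) (Subgroup.mem_top _)
      refine solvable_of_ker_le_range N.subtype (QuotientGroup.mk' N) ?_
      intro x hx
      have h1 : x ∈ N := (QuotientGroup.eq_one_iff x).mp hx
      exact ⟨⟨x, h1⟩, rfl⟩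

variable {G : Type u} [Group G] [Fintype G]

/-- The column of a non-identity element: not every nonprincipal character can have degree divisible
by `q` or vanish there. -/
theorem false_of_vanish_or_dvd {q : ℕ} (hq : q.Prime) {g : G} (hg : g ≠ 1)
    (h : ∀ χ : IrrCharacter G, χ ≠ one' G → q ∣ charDegree (χ : G → ℂ) ∨ (χ : G → ℂ) g = 0) : False := by
  classical
  have hsum := sum_irr_degree_mul_apply g
  rw [if_neg hg] at hsum
  have hsplit := Finset.add_sum_erase Finset.univ (fun χ : IrrCharacter G => (χ : G → ℂ) 1 * (χ : G → ℂ) g)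
    (Finset.mem_univ (one' G))
  have hone : ((one' G : IrrCharacter G) : G → ℂ) 1 * ((one' G : IrrCharacter G) : G → ℂ) g = 1 := by
    show (1 : ℂ) * 1 = 1
    simp
  rw [hsum, hone] at hsplit
  have hall : ∀ χ ∈ Finset.univ.erase (one' G), ∃ γ : ℂ, IsIntegral ℤ γ ∧
      (χ : G → ℂ) 1 * (χ : G → ℂ) g = (q : ℂ) * γ := by
    intro χ hχ
    have hne := Finset.ne_of_mem_erase hχ
    rcases h χ hne with hdvd | h0
    · obtain ⟨c, hc⟩ := hdvd
      refine ⟨(c : ℂ) * (χ : G → ℂ) g, IsIntegral.mul isIntegral_algebraMap (IsCharacter.isIntegral (IsIrrCharacter.isCharacter χ.2) g), ?_⟩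
      rw [apply_one_eq_charDegree (IsIrrCharacter.isCharacter χ.2), hc]
      push_cast
      ring
    · refine ⟨0, isIntegral_zero, ?_⟩
      rw [h0]
      simp
  choose! γ hγ1 hγ2 using hall
  have hp0 : (q : ℂ) ≠ 0 := by exact_mod_cast hq.ne_zero
  have h1 : (1 : ℂ) / (q : ℂ) = - ∑ χ ∈ Finset.univ.erase (one' G), γ χ := by
    have h2 : ∑ χ ∈ Finset.univ.erase (one' G), (χ : G → ℂ) 1 * (χ : G → ℂ) g = (q : ℂ) * ∑ χ ∈ Finset.univ.erase (one' G), γ χ := by
      rw [Finset.mul_sum]
      exact Finset.sum_congr rfl fun χ hχ => hγ2 χ hχ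
    rw [h2] at hsplit
    field_simp
    linear_combination hsplit
  have h3 : IsIntegral ℤ (((1 : ℕ) : ℂ) / (q : ℂ)) := by
    rw [Nat.cast_one, h1]
    exact (IsIntegral.sum _ fun χ hχ => hγ1 χ hχ).neg
  have h4 := H8Group.nat_dvd_of_isIntegral_div hq.ne_zero h3
  exact hq.one_lt.ne' (Nat.dvd_one.mp h4)

/-- A non-identity element of the centre of a Sylow subgroup. -/
theorem exists_center_sylow {p : ℕ} [hp : Fact p.Prime] (hpG : p ∣ Nat.card G) (P : Sylow p G) :
    ∃ x : G, x ≠ 1 ∧ x ∈ (P : Subgroup G) ∧ ∀ y ∈ (P : Subgroup G), y * x = x * y := by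
  classical
  letI : Fintype (P : Subgroup G) := Fintype.ofFinite _
  have hqP : p ∣ Nat.card (P : Subgroup G) := by
    have h1 := P.pow_dvd_card_of_pow_dvd_card (n := 1) (by simpa using hpG)
    simpa using h1
  haveI hnt : Nontrivial (P : Subgroup G) := by
    apply Finite.one_lt_card_iff_nontrivial.mp
    have := Nat.le_of_dvd Nat.card_pos hqP
    have := hp.out.one_lt
    omega
  haveI hnz : Nontrivial (center (P : Subgroup G)) := IsPGroup.center_nontrivial P.isPGroup'
  obtain ⟨z, hz⟩ := exists_ne (1 : center (P : Subgroup G))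
  refine ⟨((z : center (P : Subgroup G)) : (P : Subgroup G)), ?_, (z : (P : Subgroup G)).2, ?_⟩
  · intro e
    apply hz
    apply Subtype.ext
    apply Subtype.ext
    exact e
  · intro y hy
    have := mem_center_iff.mp z.2 ⟨y, hy⟩
    exact congrArg Subtype.val this

/-- An element centralising a Sylow subgroup has class size prime to `p`. -/
theorem not_dvd_index_of_center {p : ℕ} [hp : Fact p.Prime] (P : Sylow p G) {x : G}
    (hc : ∀ y ∈ (P : Subgroup G), y * x = x * y) : ¬ p ∣ (centralizer ({x} : Set G)).index := by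
  have hle : (P : Subgroup G) ≤ centralizer ({x} : Set G) := by
    intro y hy
    rw [mem_centralizer_iff]
    intro w hw
    rw [Set.mem_singleton_iff.mp hw]
    exact (hc y hy).symm
  exact fun h => P.not_dvd_index (h.trans (Subgroup.index_dvd_of_le hle))

/-- Burnside's vanishing in a simple group: coprime class size forces a zero. -/
theorem apply_eq_zero_of_coprime [IsSimpleGroup G] (hnc : ¬ IsMulCommutative G) {χ : IrrCharacter G}
    (hχ1 : χ ≠ one' G) {x : G} (hx : x ≠ 1)
    (hcop : Nat.Coprime (charDegree (χ : G → ℂ)) (centralizer ({x} : Set G)).index) : (χ : G → ℂ) x = 0 := by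
  have hd := apply_one_eq_charDegree (IsIrrCharacter.isCharacter χ.2)
  rcases apply_eq_zero_or_norm_eq_of_coprime χ.2 hd x hcop with h | h
  · exact h
  · exact absurd (eq_one_of_norm_eq hnc hχ1 h) hx

/-- A nonabelian simple group has degrees involving at least three primes. -/
theorem simple_false_two [IsSimpleGroup G] (hnc : ¬ IsMulCommutative G) {p q : ℕ} (hp : p.Prime) (hq : q.Prime)
    (hdeg : ∀ χ : IrrCharacter G, ∀ s : ℕ, s.Prime → s ∣ charDegree (χ : G → ℂ) → s = p ∨ s = q) : False := by
  classical
  -- the main case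
  have key : ∀ p q : ℕ, p.Prime → q.Prime → (∀ χ : IrrCharacter G, ∀ s : ℕ, s.Prime → s ∣ charDegree (χ : G → ℂ) → s = p ∨ s = q) →
      p ∣ Nat.card G → False := by
    intro p q hp hq hdeg hpG
    haveI : Fact p.Prime := ⟨hp⟩
    obtain ⟨P⟩ : Nonempty (Sylow p G) := inferInstance
    obtain ⟨x, hx1, -, hxc⟩ := exists_center_sylow hpG P
    have hnd := not_dvd_index_of_center P hxc
    refine false_of_vanish_or_dvd hq hx1 (fun χ hχ => ?_)
    by_cases hqχ : q ∣ charDegree (χ : G → ℂ)
    · exact Or.inl hqχ
    · right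
      refine apply_eq_zero_of_coprime hnc hχ hx1 ?_
      refine Nat.coprime_of_dvd fun s hs h1 h2 => ?_
      rcases hdeg χ s hs h1 with rfl | rfl
      · exact hnd h2
      · exact hqχ h1
  by_cases hpG : p ∣ Nat.card G
  · exact key p q hp hq hdeg hpG
  by_cases hqG : q ∣ Nat.card G
  · exact key q p hq hp (fun χ s hs h => (hdeg χ s hs h).symm) hqG
  apply hnc
  refine ⟨⟨(comm_iff_irr_degree_one (G := G)).2 ?_⟩⟩
  intro χ
  have h4 : charDegree (χ : G → ℂ) = 1 := by
    by_contra hne
    obtain ⟨s, hs, hsd⟩ := Nat.exists_prime_and_dvd hne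
    have h5 := hsd.trans (charDegree_dvd_card χ.2)
    rcases hdeg χ s hs hsd with rfl | rfl
    · exact hpG h5
    · exact hqG h5
  rw [apply_one_eq_charDegree (IsIrrCharacter.isCharacter χ.2), h4]
  simp

end Cfsg.Agent.Lib.Char.SimpleDeg
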