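import Cfsg.Agent.Lib.Char.ClassGraph
import Cfsg.Agent.Lib.PGroups.CoverCount
import Cfsg.Agent.Lib.Fusion2.StrongRes
import Cfsg.Agent.Lib.LocalEven.Frat
import Cfsg.Agent.Lib.LocalEven.Basic

/-!
# Class sizes of `π`-elements

Two `π`-elements with class sizes involving primes from two disjoint sets without edges between
them (edges coming from classes of `π`-singular elements) cannot exist if `π` does not divide the
order of the centre.
-/

set_option autoImplicit false

namespace Cfsg.Agent.Lib.Char.SingGraph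

open Subgroup Cfsg.Agent.Lib.Char.TwoLargest Cfsg.Agent.Lib.Char.DiscGraph
  Cfsg.Agent.Lib.Char.ClassGraph

variable {G : Type*} [Group G] [Finite G]

/-- `π`-elements. -/
def PE (π : ℕ) (g : G) : Prop := ∃ k : ℕ, orderOf g = π ^ k

variable {π : ℕ}

theorem PE.conj {g : G} (h : PE π g) (t : G) : PE π (t * g * t⁻¹) := by
  obtain ⟨k, hk⟩ := h
  exact ⟨k, by rw [orderOf_conj', hk]⟩

theorem PE.of_dvd (hπ : π.Prime) {g : G} {m : ℕ} (h : orderOf g ∣ π ^ m) : PE π g := by
  obtain ⟨i, -, hi⟩ := (Nat.dvd_prime_pow hπ).mp h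
  exact ⟨i, hi⟩

theorem PE.of_mem_zpowers (hπ : π.Prime) {g b : G} (h : PE π g) (hb : b ∈ zpowers g) : PE π b := by
  obtain ⟨k, hk⟩ := h
  apply PE.of_dvd hπ (m := k)
  rw [← hk]
  exact orderOf_dvd_of_mem_zpowers hb

theorem PE.mul (hπ : π.Prime) {a b : G} (hc : Commute a b) (ha : PE π a) (hb : PE π b) : PE π (a * b) := by
  obtain ⟨k, hk⟩ := ha
  obtain ⟨l, hl⟩ := hb
  apply PE.of_dvd hπ (m := k + l)
  apply orderOf_dvd_of_pow_eq_one
  rw [hc.mul_pow]
  have h1 : a ^ π ^ (k + l) = 1 := by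
    rw [pow_add, pow_mul, ← hk, pow_orderOf_eq_one, one_pow]
  have h2 : b ^ π ^ (k + l) = 1 := by
    rw [add_comm, pow_add, pow_mul, ← hl, pow_orderOf_eq_one, one_pow]
  rw [h1, h2, one_mul]

theorem PE.dvd_order {g : G} (h : PE π g) (hne : g ≠ 1) : π ∣ orderOf g := by
  obtain ⟨k, hk⟩ := h
  rw [hk]
  apply dvd_pow_self
  rintro rfl
  rw [pow_zero, orderOf_eq_one_iff] at hk
  exact hne hk

theorem PE.of_mem [Fact π.Prime] {Q : Subgroup G} (hQ : IsPGroup π Q) {w : G} (hw : w ∈ Q) : PE π w := by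
  obtain ⟨k, hk⟩ := IsPGroup.iff_orderOf.mp hQ ⟨w, hw⟩
  exact ⟨k, by rw [← hk, Subgroup.orderOf_mk]⟩

theorem PE.coprime (hπ : π.Prime) {g : G} {n : ℕ} (h : PE π g) (hn : ¬ π ∣ n) : (orderOf g).Coprime n := by
  obtain ⟨k, hk⟩ := h
  rw [hk]
  exact Nat.Coprime.pow_left k ((Nat.Prime.coprime_iff_not_dvd hπ).mpr hn)

/-- `π`-elements with coprime class sizes commute. -/
theorem comm_of_coprime (hπ : π.Prime) {u v : G} (hu : PE π u) (hv : PE π v)
    (hco : (cc u).Coprime (cc v)) : u * v = v * u := by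
  haveI : Fact π.Prime := ⟨hπ⟩
  have key : ∀ {u v : G}, PE π v → (cc u).Coprime (cc v) → ¬ π ∣ cc u → u * v = v * u := by
    intro u v hv hco hu'
    obtain ⟨k, hk⟩ := hv
    obtain ⟨t, ht⟩ := exists_conj_mem_of_not_dvd (cent u) hk hu'
    obtain ⟨q, hq1, hq2⟩ := pair_conj hco 1 t
    simp only [one_mul, mul_one, inv_one] at hq1
    have h1 := mem_cent_iff.mp ht
    have h2 : q * (u * v) * q⁻¹ = q * (v * u) * q⁻¹ := by
      have h3 : q * (u * v) * q⁻¹ = (q * u * q⁻¹) * (q * v * q⁻¹) := by group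
      have h4 : q * (v * u) * q⁻¹ = (q * v * q⁻¹) * (q * u * q⁻¹) := by group
      rw [h3, h4, hq1, hq2]
      exact h1.symm
    exact mul_left_cancel (mul_right_cancel h2)
  by_cases h : π ∣ cc u
  · have hv' : ¬ π ∣ cc v := fun h2 => hπ.one_lt.ne' (Nat.eq_one_of_dvd_coprimes hco h h2)
    exact (key hu hco.symm hv').symm
  · exact key hv hco h

section Lemma

variable {J : Type*} [Group J] [Finite J]

/-- Every element of `g` normalises a Sylow subgroup if classes of `π'`-elements have size prime to `π`. -/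
theorem exists_sylow_of_class [Fact π.Prime] (h : ∀ f : J, (orderOf f).Coprime π → ¬ π ∣ cc f)
    (f x : J) (hf : (orderOf f).Coprime π) (hx : PE π x) (hfx : x ∈ cent f) :
    ∃ R : Sylow π J, x ∈ (R : Subgroup J) ∧ (R : Subgroup J) ≤ cent f := by
  classical
  set K := cent f with hK
  let x₀ : K := ⟨x, hfx⟩
  have hx₀ : IsPGroup π (zpowers x₀) := by
    apply Cfsg.Agent.Lib.PGroups.isPGroup_zpowers_iff.mpr
    obtain ⟨k, hk⟩ := hx
    exact ⟨k, by rw [Subgroup.orderOf_mk, hk]⟩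
  obtain ⟨R₁, hR₁⟩ := hx₀.exists_le_sylow
  have hcard : Nat.card ((R₁ : Subgroup K).map K.subtype) = π ^ (Nat.card J).factorization π := by
    rw [Subgroup.card_map_of_injective K.subtype_injective, Sylow.card_eq_multiplicity]
    have h1 : Nat.card K * K.index = Nat.card J := Subgroup.card_mul_index K
    have hidx : K.index ≠ 0 := Subgroup.index_ne_zero_of_finite
    have h2 : (Nat.card J).factorization π = (Nat.card K).factorization π := by
      rw [← h1, Nat.factorization_mul Nat.card_pos.ne' hidx, Finsupp.add_apply,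
        Nat.factorization_eq_zero_of_not_dvd (h f hf), add_zero]
    rw [h2]
  refine ⟨Sylow.ofCard _ hcard, ?_, ?_⟩
  · exact ⟨x₀, hR₁ (mem_zpowers x₀), rfl⟩
  · rintro _ ⟨y, -, rfl⟩
    exact y.2

/-- A group whose `π'`-classes have size prime to `π` has a normal Sylow `π`-subgroup, centralised
by the `π'`-elements. -/
theorem normal_sylow_of_class [Fact π.Prime] (h : ∀ f : J, (orderOf f).Coprime π → ¬ π ∣ cc f)
    (Q : Sylow π J) : (Q : Subgroup J).Normal ∧ ∀ f : J, (orderOf f).Coprime π → ∀ x ∈ (Q : Subgroup J), f * x = x * f := by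
  classical
  have hcover : ∀ g : J, ∃ R : Sylow π J, g ∈ normalizer ((R : Subgroup J) : Set J) := by
    intro g
    obtain ⟨x, f, rfl, hx, hf, hxp, hfc, hc⟩ :=
      Cfsg.Agent.Lib.LocalEven.exists_p_decomp (p := π) g (isOfFinOrder_of_finite g)
    obtain ⟨R, hxR, hRf⟩ := exists_sylow_of_class h f x hfc hxp (mem_cent_iff.mpr hc)
    refine ⟨R, mul_mem (Subgroup.le_normalizer hxR) ?_⟩
    rw [Subgroup.mem_normalizer_iff]
    intro n
    constructor
    · intro hn
      have h1 := mem_cent_iff.mp (hRf hn)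
      have h2 : f * n * f⁻¹ = n := by rw [← h1]; group
      rwa [h2]
    · intro hn
      have h1 := mem_cent_iff.mp (hRf hn)
      have h2 : f⁻¹ * (f * n * f⁻¹) * f = f * n * f⁻¹ := by
        have h3 : (f * n * f⁻¹) * f = f * (f * n * f⁻¹) := h1
        calc f⁻¹ * (f * n * f⁻¹) * f = f⁻¹ * ((f * n * f⁻¹) * f) := by group
          _ = f⁻¹ * (f * (f * n * f⁻¹)) := by rw [h3]
          _ = _ := by group
      have h4 : n = f * n * f⁻¹ := by
        rw [← h2]
        group
      rwa [h4]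
  have hN : normalizer ((Q : Subgroup J) : Set J) = ⊤ := by
    by_contra hne
    have h1 := Cfsg.Agent.Lib.PGroups.ncard_conjUnion_lt _ hne
    have h2 : Cfsg.Agent.Lib.PGroups.conjUnion (normalizer ((Q : Subgroup J) : Set J)) = Set.univ := by
      ext g
      simp only [Set.mem_univ, iff_true]
      obtain ⟨R, hR⟩ := hcover g
      obtain ⟨t, rfl⟩ := MulAction.exists_smul_eq J Q R
      refine ⟨t, ?_⟩
      have h3 : g • (t • Q) = t • Q := Sylow.smul_eq_iff_mem_normalizer.mpr hR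
      apply Sylow.smul_eq_iff_mem_normalizer.mp
      rw [mul_smul, mul_smul, h3, inv_smul_smul]
    rw [h2, Set.ncard_univ] at h1
    exact lt_irrefl _ h1
  have hQn : (Q : Subgroup J).Normal := Subgroup.normalizer_eq_top_iff.mp hN
  refine ⟨hQn, ?_⟩
  intro f hf x hx
  obtain ⟨R, -, hRf⟩ := exists_sylow_of_class h f 1 hf ⟨0, by simp⟩ (one_mem _)
  have hRQ : R = Q := by
    haveI := Sylow.unique_of_normal Q hQn
    exact Subsingleton.elim _ _
  rw [hRQ] at hRf
  exact (mem_cent_iff.mp (hRf hx)).symm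

end Lemma

/-- The data. -/
structure Sg (G : Type*) [Group G] (X Y : Set ℕ) (π : ℕ) (a y₀ : G) : Prop where
  hπ : π.Prime
  hZ : ¬ π ∣ Nat.card (center G)
  hdisj : ∀ t : ℕ, t.Prime → t ∈ X → t ∈ Y → False
  hmix : ∀ (g : G) (u v : ℕ), π ∣ orderOf g → u.Prime → v.Prime → u ∈ X → v ∈ Y → u ∣ cc g → v ∣ cc g → False
  ha : PE π a
  hy : PE π y₀
  hax : IsIn X a
  hyY : IsIn Y y₀
  hmax : ∀ g : G, PE π g → IsIn X g ∨ IsIn Y g → cc g ≤ cc y₀

variable {X Y : Set ℕ} {a y₀ : G}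

theorem Sg.coprime (D : Sg G X Y π a y₀) {u h : G} (hu : IsIn X u) (hh : IsIn Y h) :
    (cc u).Coprime (cc h) := by
  apply Nat.coprime_of_dvd
  intro k hk h1 h2
  exact D.hdisj k hk (hu.2 k hk h1) (hh.2 k hk h2)

/-- Products of powers of `a` with `y₀` have class size at most that of `y₀`. -/
theorem Sg.le_part (D : Sg G X Y π a y₀) : ∀ b ∈ zpowers a, cc (b * y₀) ≤ cc y₀ := by
  intro b hb
  by_cases hz : b ∈ center G
  · have h1 : b * y₀ = y₀ * b := mem_center_iff.mp hz y₀ |>.symm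
    rw [h1, cc, cent_mul_central hz]
  have hbX : IsIn X b :=
    ⟨hz, fun t ht hd => D.hax.2 t ht (hd.trans (cc_dvd_of_le (cent_le_of_mem_zpowers hb)))⟩
  have hbP : PE π b := D.ha.of_mem_zpowers D.hπ hb
  have hco := D.coprime hbX D.hyY
  have hc : Commute b y₀ := comm_of_coprime D.hπ hbP D.hy hco
  have hP := PE.mul D.hπ hc hbP D.hy
  have h5 := D.hyY.one_lt
  have h6 := cc_le_cc_mul hco
  have hnc : b * y₀ ∉ center G := by
    intro hc
    have h4 := cc_eq_one_iff.mpr hc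
    omega
  have hne : b * y₀ ≠ 1 := fun h => hnc (h ▸ one_mem _)
  have hdv := cc_mul_dvd hco
  have hprimes : ∀ t : ℕ, t.Prime → t ∣ cc (b * y₀) → t ∈ X ∨ t ∈ Y := by
    intro t ht hd
    rcases (Nat.Prime.dvd_mul ht).mp (hd.trans hdv) with h1 | h1
    · exact Or.inl (hbX.2 t ht h1)
    · exact Or.inr (D.hyY.2 t ht h1)
  apply D.hmax _ hP
  by_cases h1 : ∀ t : ℕ, t.Prime → t ∣ cc (b * y₀) → t ∈ X
  · exact Or.inl ⟨hnc, h1⟩
  · push Not at h1
    obtain ⟨s, hs, hsd, hsX⟩ := h1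
    have hsY : s ∈ Y := (hprimes s hs hsd).resolve_left hsX
    refine Or.inr ⟨hnc, ?_⟩
    intro t ht hd
    rcases hprimes t ht hd with h2 | h2
    · exact (D.hmix _ t s (hP.dvd_order hne) ht hs h2 hsY hd hsd).elim
    · exact h2

theorem Sg.mem_closN (D : Sg G X Y π a y₀) : a ∈ closN a := by
  have hco := D.coprime D.hax D.hyY
  obtain ⟨r, hr, z, hz, hrz⟩ :=
    mem_closN_mul_center_of hco (D.le_part a (mem_zpowers a)) D.le_part
  set n := Nat.card (center G) with hn
  have hzn : z ^ n = 1 := by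
    have := pow_card_eq_one' (x := (⟨z, hz⟩ : center G))
    exact congrArg Subtype.val this
  have hc : Commute r z := (mem_center_iff.mp hz r)
  have h1 : a ^ n = r ^ n := by
    rw [hrz, hc.mul_pow, hzn, mul_one]
  have h2 : (orderOf a).Coprime n := D.ha.coprime D.hπ D.hZ
  obtain ⟨k, hk⟩ := eq_zpow_of_coprime h2
  have h5 : (r ^ n) ^ k ∈ closN a := zpow_mem (pow_mem hr n) k
  rwa [← h1, hk] at h5

theorem Sg.a_ne_one (D : Sg G X Y π a y₀) : a ≠ 1 := fun h => D.hax.1 (h ▸ one_mem _)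

theorem Sg.pi_dvd (D : Sg G X Y π a y₀) : π ∣ cc y₀ := by
  have hco := D.coprime D.hax D.hyY
  have h1 : Nat.card (closN a) ∣ cc y₀ :=
    card_dvd_cc (closN a) y₀ (closN_stab hco (D.le_part a (mem_zpowers a)))
  have h2 : orderOf a ∣ Nat.card (closN a) := Subgroup.orderOf_dvd_natCard _ D.mem_closN
  exact ((D.ha.dvd_order D.a_ne_one).trans h2).trans h1

theorem Sg.piY (D : Sg G X Y π a y₀) : π ∈ Y := D.hyY.2 π D.hπ D.pi_dvd

theorem Sg.not_pi_dvd (D : Sg G X Y π a y₀) {u : G} (hu : IsIn X u) : ¬ π ∣ cc u :=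
  fun h => D.hdisj π D.hπ (hu.2 π D.hπ h) D.piY

/-- A `π`-element not commuting with `y₀` has class size without primes in `X`. -/
theorem Sg.not_X (D : Sg G X Y π a y₀) {w : G} (hw : PE π w) (hwy : w ∉ cent y₀) {t : ℕ} (ht : t.Prime)
    (htX : t ∈ X) : ¬ t ∣ cc w := by
  intro hd
  have hne : w ≠ 1 := fun h => hwy (h ▸ one_mem _)
  apply hwy
  apply mem_cent_iff.mpr
  apply comm_of_coprime D.hπ hw D.hy
  apply Nat.coprime_of_dvd
  intro k hk h1 h2
  exact D.hmix w t k (hw.dvd_order hne) ht hk htX (D.hyY.2 k hk h2) hd h1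

theorem Sg.coprime_of_not_comm (D : Sg G X Y π a y₀) {w u : G} (hw : PE π w) (hwy : w ∉ cent y₀)
    (hu : IsIn X u) : (cc w).Coprime (cc u) := by
  apply Nat.coprime_of_dvd
  intro k hk h1 h2
  exact D.not_X hw hwy hk (hu.2 k hk h2) h1

/-- All `π`-elements commute with `a`. -/
theorem Sg.comm_a (D : Sg G X Y π a y₀) {u : G} (hu : PE π u) : u * a = a * u := by
  haveI : Fact π.Prime := ⟨D.hπ⟩
  have hd' : π ∣ (cent y₀).relIndex ⊤ := by
    rw [Subgroup.relIndex_top_right]
    exact D.pi_dvd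
  obtain ⟨c, -, hcy, j, hcj⟩ := exists_element_of_dvd_relIndex (cent y₀) ⊤ hd'
  have hcz : IsPGroup π (zpowers c) := Cfsg.Agent.Lib.PGroups.isPGroup_zpowers_iff.mpr ⟨j, hcj⟩
  obtain ⟨Q, hQ⟩ := hcz.exists_le_sylow
  have hcQ : c ∈ (Q : Subgroup G) := hQ (mem_zpowers c)
  have hkey : ∀ w ∈ (Q : Subgroup G), ∀ t : G, w * (t * a * t⁻¹) = (t * a * t⁻¹) * w := by
    intro w hw t
    have hX := D.hax.conj t
    have hP := D.ha.conj t
    have hcase : ∀ w ∈ (Q : Subgroup G), w ∉ cent y₀ → w * (t * a * t⁻¹) = (t * a * t⁻¹) * w := by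
      intro w hw hwy
      have hwP := PE.of_mem Q.isPGroup' hw
      exact comm_of_coprime D.hπ hwP hP (D.coprime_of_not_comm hwP hwy hX)
    by_cases hwy : w ∈ cent y₀
    · have h1 : c * w ∉ cent y₀ := fun h => hcy (by
        have := mul_mem h (inv_mem hwy)
        simpa using this)
      have h2 := hcase _ (mul_mem hcQ hw) h1
      have h3 := hcase _ hcQ hcy
      have h4 : c * (w * (t * a * t⁻¹)) = c * ((t * a * t⁻¹) * w) := by
        calc c * (w * (t * a * t⁻¹)) = c * w * (t * a * t⁻¹) := by group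
          _ = (t * a * t⁻¹) * (c * w) := h2
          _ = ((t * a * t⁻¹) * c) * w := by group
          _ = (c * (t * a * t⁻¹)) * w := by rw [h3]
          _ = _ := by group
      exact mul_left_cancel h4
    · exact hcase w hw hwy
  obtain ⟨k, hk⟩ := hu
  obtain ⟨t, ht⟩ := exists_conj_mem_of_not_dvd (Q : Subgroup G) hk Q.not_dvd_index
  have h1 := hkey _ ht t
  have h2 : t * (u * a) * t⁻¹ = t * (a * u) * t⁻¹ := by
    calc t * (u * a) * t⁻¹ = (t * u * t⁻¹) * (t * a * t⁻¹) := by group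
      _ = (t * a * t⁻¹) * (t * u * t⁻¹) := h1
      _ = _ := by group
  exact mul_left_cancel (mul_right_cancel h2)

/-- The hypothesis of the lemma on classes for the centraliser of `a`. -/
theorem Sg.not_dvd_rel (D : Sg G X Y π a y₀) {f : G} (hf : f ∈ cent a) (hfc : (orderOf f).Coprime π) :
    ¬ π ∣ (cent f).relIndex (cent a) := by
  intro hd
  have hc : Commute a f := (mem_cent_iff.mp hf).symm
  have hco : (orderOf a).Coprime (orderOf f) := D.ha.coprime D.hπ (fun h => by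
    have := Nat.Coprime.eq_one_of_dvd hfc.symm h
    exact D.hπ.one_lt.ne' this)
  have hord := hc.orderOf_mul_eq_mul_orderOf_of_coprime hco
  have hsing : π ∣ orderOf (a * f) := by
    rw [hord]
    exact (D.ha.dvd_order D.a_ne_one).trans (dvd_mul_right _ _)
  have haz : a ∈ zpowers (a * f) := by
    obtain ⟨k, hk⟩ := eq_zpow_of_coprime hco
    have h1 : (a * f) ^ orderOf f = a ^ orderOf f := by
      rw [hc.mul_pow, pow_orderOf_eq_one, mul_one]
    have h5 : ((a * f) ^ orderOf f) ^ k ∈ zpowers (a * f) := zpow_mem (pow_mem (mem_zpowers _) _) k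
    rwa [h1, hk] at h5
  have hfz : f ∈ zpowers (a * f) := by
    have h3 : a⁻¹ * (a * f) ∈ zpowers (a * f) := mul_mem (inv_mem haz) (mem_zpowers _)
    rwa [inv_mul_cancel_left] at h3
  have hle : cent (a * f) ≤ cent f ⊓ cent a :=
    le_inf (cent_le_of_mem_zpowers hfz) (cent_le_of_mem_zpowers haz)
  have hd2 : (cent f).relIndex (cent a) ∣ cc (a * f) := by
    have h3 := Subgroup.relIndex_mul_index (H := cent f ⊓ cent a) (K := cent a) inf_le_right
    rw [Subgroup.inf_relIndex_right] at h3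
    have h4 : (cent f ⊓ cent a).index ∣ cc (a * f) := Subgroup.index_dvd_of_le hle
    rw [← h3] at h4
    exact (Dvd.intro _ rfl).trans h4
  have hd3 : cc a ∣ cc (a * f) := cc_dvd_of_le (cent_le_of_mem_zpowers haz)
  have hne : cc a ≠ 1 := fun h => D.hax.1 (cc_eq_one_iff.mp h)
  obtain ⟨t, ht, htd⟩ := Nat.exists_prime_and_dvd hne
  exact D.hmix _ t π hsing ht D.hπ (D.hax.2 t ht htd) D.piY (htd.trans hd3) (hd.trans hd2)

/-- The normal Sylow `π`-subgroup. -/
theorem Sg.exists_P (D : Sg G X Y π a y₀) : ∃ P : Subgroup G, P.Normal ∧ IsPGroup π P ∧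
    (∀ x, PE π x → x ∈ P) ∧ (∀ f ∈ cent a, (orderOf f).Coprime π → ∀ x ∈ P, f * x = x * f) := by
  classical
  haveI : Fact π.Prime := ⟨D.hπ⟩
  set J := cent a with hJ
  have hcl : ∀ f : J, (orderOf f).Coprime π → ¬ π ∣ cc f := by
    intro f hf
    have h1 : cc f = (cent (f : G)).relIndex J := by
      rw [Subgroup.relIndex, cc]
      congr 1
      ext x
      rw [Subgroup.mem_subgroupOf, mem_cent_iff, mem_cent_iff]
      constructor
      · intro h
        exact congrArg Subtype.val h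
      · intro h
        exact Subtype.ext h
    rw [h1]
    apply D.not_dvd_rel f.2
    rwa [Subgroup.orderOf_coe]
  let Q : Sylow π J := default
  obtain ⟨hQn, hQc⟩ := normal_sylow_of_class hcl Q
  have hmem : ∀ x : J, PE π (x : G) → x ∈ (Q : Subgroup J) := by
    intro x hx
    have hz : IsPGroup π (zpowers x) := by
      apply Cfsg.Agent.Lib.PGroups.isPGroup_zpowers_iff.mpr
      obtain ⟨k, hk⟩ := hx
      exact ⟨k, by rw [← Subgroup.orderOf_coe, hk]⟩
    obtain ⟨R, hR⟩ := hz.exists_le_sylow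
    have hRQ : R = Q := by
      haveI := Sylow.unique_of_normal Q hQn
      exact Subsingleton.elim _ _
    rw [← hRQ]
    exact hR (mem_zpowers x)
  set P := (Q : Subgroup J).map J.subtype with hP
  have hPelt : ∀ x ∈ P, PE π x := by
    rintro _ ⟨y, hy, rfl⟩
    obtain ⟨k, hk⟩ := PE.of_mem Q.isPGroup' hy
    exact ⟨k, by rw [Subgroup.coe_subtype, Subgroup.orderOf_coe, hk]⟩
  have hPall : ∀ x, PE π x → x ∈ P := by
    intro x hx
    have hxJ : x ∈ J := mem_cent_iff.mpr (D.comm_a hx)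
    exact ⟨⟨x, hxJ⟩, hmem ⟨x, hxJ⟩ hx, rfl⟩
  refine ⟨P, ⟨?_⟩, ?_, hPall, ?_⟩
  · intro n hn g
    exact hPall _ ((hPelt n hn).conj g)
  · exact IsPGroup.iff_orderOf.mpr (fun x => by
      obtain ⟨k, hk⟩ := hPelt x x.2
      exact ⟨k, by rw [← Subgroup.orderOf_coe, hk]⟩)
  · intro f hf hfc x hx
    obtain ⟨y, hy, rfl⟩ := hx
    have h1 := hQc ⟨f, hf⟩ (by rwa [Subgroup.orderOf_mk]) y hy
    exact congrArg Subtype.val h1

/-- The final contradiction. -/
theorem Sg.false (D : Sg G X Y π a y₀) : False := by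
  classical
  haveI : Fact π.Prime := ⟨D.hπ⟩
  obtain ⟨P, hPn, hPp, hPall, hPc⟩ := D.exists_P
  have hN : (⁅P, P⁆ : Subgroup G).Normal := Subgroup.commutator_normal P P
  -- the action modulo the commutator subgroup
  have hstep : ∀ w ∈ P, w ∉ cent y₀ → ∀ g : G, g⁻¹ * w * g * w⁻¹ ∈ (⁅P, P⁆ : Subgroup G) := by
    intro w hw hwy g
    have hwP := PE.of_mem hPp hw
    have hco := D.coprime_of_not_comm hwP hwy D.hax
    obtain ⟨q, hq1, hq2⟩ := pair_conj hco 1 g
    simp only [one_mul, mul_one, inv_one] at hq1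
    set j := g⁻¹ * q with hj
    have hjJ : j ∈ cent a := by
      rw [mem_cent_iff]
      have h1 : q * a = g * a * g⁻¹ * q := by
        rw [← hq2]
        group
      calc j * a = g⁻¹ * (q * a) := by rw [hj]; group
        _ = g⁻¹ * (g * a * g⁻¹ * q) := by rw [h1]
        _ = a * j := by rw [hj]; group
    obtain ⟨x, f, hxf, hx, hf, hxp, hfc, hc⟩ :=
      Cfsg.Agent.Lib.LocalEven.exists_p_decomp (p := π) j (isOfFinOrder_of_finite j)
    have hfJ : f ∈ cent a := by
      obtain ⟨k, rfl⟩ := hf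
      exact zpow_mem hjJ k
    have h2 := hPc f hfJ hfc w hw
    have h3 : j * w * j⁻¹ = x * w * x⁻¹ := by
      rw [hxf]
      calc x * f * w * (x * f)⁻¹ = x * (f * w) * f⁻¹ * x⁻¹ := by group
        _ = x * (w * f) * f⁻¹ * x⁻¹ := by rw [h2]
        _ = _ := by group
    have h4 : j * w * j⁻¹ = g⁻¹ * w * g := by
      calc j * w * j⁻¹ = g⁻¹ * (q * w * q⁻¹) * g := by rw [hj]; group
        _ = _ := by rw [hq1]
    rw [← h4, h3]
    exact Subgroup.commutator_mem_commutator (hPall x hxp) hw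
  have hd' : π ∣ (cent y₀).relIndex ⊤ := by
    rw [Subgroup.relIndex_top_right]
    exact D.pi_dvd
  obtain ⟨c, -, hcy, j, hcj⟩ := exists_element_of_dvd_relIndex (cent y₀) ⊤ hd'
  have hcP : c ∈ P := hPall c ⟨j, hcj⟩
  have hall : ∀ u ∈ P, ∀ g : G, g⁻¹ * u * g * u⁻¹ ∈ (⁅P, P⁆ : Subgroup G) := by
    intro u hu g
    by_cases huy : u ∈ cent y₀
    · have h1 : c * u ∉ cent y₀ := fun h => hcy (by
        have := mul_mem h (inv_mem huy)
        simpa using this)
      have hα := hstep c hcP hcy g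
      have hβ := hstep (c * u) (mul_mem hcP hu) h1 g
      have h2 : g⁻¹ * u * g * u⁻¹ = c⁻¹ * ((g⁻¹ * c * g * c⁻¹)⁻¹ * (g⁻¹ * (c * u) * g * (c * u)⁻¹)) * c⁻¹⁻¹ := by
        group
      rw [h2]
      exact hN.conj_mem _ (mul_mem (inv_mem hα) hβ) c⁻¹
    · exact hstep u hu huy g
  -- coprime elements centralise `P`
  have hcent : ∀ e : G, (orderOf e).Coprime π → ∀ u ∈ P, e * u = u * e := by
    intro e he
    let α : MulAut P := MulAut.conjNormal e
    have hαv : ∀ x : P, ((α x : P) : G) = e * x * e⁻¹ := fun x => MulAut.conjNormal_apply e x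
    have hαo : (orderOf α).Coprime π := by
      apply Nat.Coprime.coprime_dvd_left _ he
      exact orderOf_map_dvd _ _
    have h1 : α = 1 := by
      apply Cfsg.Agent.Lib.Fusion2.aut_eq_one_of_frattini hPp hαo
      intro x
      have h2 := hall x x.2 e⁻¹
      rw [inv_inv] at h2
      obtain ⟨y, hy, hyv⟩ := Cfsg.Agent.Lib.LocalEven.commutator_le_frattini_map P hPp h2
      have h3 : α x * x⁻¹ = y := by
        apply Subtype.ext
        rw [Subgroup.coe_mul, hαv]
        simpa using hyv.symm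
      rw [h3]
      exact hy
    intro u hu
    have h2 : ((α ⟨u, hu⟩ : P) : G) = u := by rw [h1]; rfl
    rw [hαv] at h2
    calc e * u = e * u * e⁻¹ * e := by group
      _ = u * e := by rw [h2]
  have hne : cc a ≠ 1 := fun h => D.hax.1 (cc_eq_one_iff.mp h)
  obtain ⟨t, ht, htd⟩ := Nat.exists_prime_and_dvd hne
  haveI : Fact t.Prime := ⟨ht⟩
  have hd2 : t ∣ (cent a).relIndex ⊤ := by
    rw [Subgroup.relIndex_top_right]
    exact htd
  obtain ⟨e, -, hea, i, hei⟩ := exists_element_of_dvd_relIndex (cent a) ⊤ hd2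
  have htπ : t ≠ π := by
    rintro rfl
    exact D.not_pi_dvd D.hax htd
  have heo : (orderOf e).Coprime π := by
    rw [hei]
    exact Nat.Coprime.pow_left i ((Nat.coprime_primes ht D.hπ).mpr htπ)
  exact hea (mem_cent_iff.mpr (hcent e heo a (hPall a D.ha)))

end Cfsg.Agent.Lib.Char.SingGraph
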