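import Mathlib
import Cfsg.Agent.Lib.Char.SchurC

set_option autoImplicit false

/-!
Representations of `p`-groups in characteristic `p`: fixed vectors, the socle of the regular
representation, and a rigidity statement for the conjugation action on matrices.
-/

namespace Cfsg.Agent.Lib.Char.TISyl

open Module Matrix

universe u v w

section Fixed

variable {k : Type v} {W : Type w} [Field k] [AddCommGroup W] [Module k W] (p : ℕ) [hp : Fact p.Prime]
  [CharP k p]

include p in
theorem exists_fixed : ∀ (m : ℕ) (P : Type u) [Group P] [Finite P], Nat.card P = m → IsPGroup p P →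
    ∀ (σ : Representation k P W) (U : Submodule k W), (∀ x, ∀ u ∈ U, σ x u ∈ U) → U ≠ ⊥ →
      ∃ u ∈ U, u ≠ 0 ∧ ∀ x, σ x u = u := by
  intro m
  induction m using Nat.strong_induction_on with
  | _ m ih =>
  intro P _ _ hm hP σ U hU hne
  classical
  letI : Fintype P := Fintype.ofFinite P
  obtain ⟨u₁, hu₁, hu₁0⟩ := Submodule.exists_mem_ne_zero_of_ne_bot hne
  by_cases hsub : Subsingleton P
  · refine ⟨u₁, hu₁, hu₁0, fun x => ?_⟩
    rw [Subsingleton.elim x 1, map_one]
    rfl
  rw [not_subsingleton_iff_nontrivial] at hsub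
  obtain ⟨Q, -, hQn, hQidx⟩ := Cfsg.Agent.Lib.Char.Schur.exists_max_normal hP (⊥ : Subgroup P) bot_ne_top
  haveI := hQn
  have hQlt : Nat.card Q < m := by
    rw [← hm]
    have h1 := Subgroup.card_mul_index Q
    rw [hQidx] at h1
    have h2 : 0 < Nat.card Q := Nat.card_pos
    have h3 := hp.out.two_le
    nlinarith
  obtain ⟨u₀, hu₀, hu₀0, hu₀Q⟩ := ih _ hQlt Q rfl (hP.to_subgroup Q)
    (σ.comp Q.subtype) U (fun x u hu => hU x u hu) hne
  have hQne : Q ≠ ⊤ := by
    intro h
    rw [h, Subgroup.index_top] at hQidx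
    exact hp.out.one_lt.ne hQidx
  obtain ⟨y, -, hy⟩ : ∃ y ∈ (⊤ : Subgroup P), y ∉ Q := by
    by_contra hcon
    push Not at hcon
    exact hQne (eq_top_iff.mpr hcon)
  haveI : Nontrivial W := ⟨⟨u₀, 0, hu₀0⟩⟩
  haveI : CharP (Module.End k W) p :=
    charP_of_injective_algebraMap (algebraMap k (Module.End k W)).injective p
  let T : Module.End k W := σ y
  let A : Module.End k W := T - 1
  have hAp : A ^ p = T ^ p - 1 := by
    have := sub_pow_char_of_commute (p := p) (x := T) (y := (1 : Module.End k W)) (Commute.one_right T)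
    rw [one_pow] at this
    exact this
  have hTp : T ^ p = σ (y ^ p) := by
    simp only [T, map_pow]
  have hypQ : y ^ p ∈ Q := by
    have := Subgroup.pow_index_mem Q y
    rwa [hQidx] at this
  have hAu : (A ^ p) u₀ = 0 := by
    rw [hAp, hTp]
    have h1 := hu₀Q ⟨y ^ p, hypQ⟩
    have h2 : σ (y ^ p) u₀ = u₀ := h1
    rw [LinearMap.sub_apply, h2, Module.End.one_apply, sub_self]
  -- stability
  have hstab : ∀ j : ℕ, (A ^ j) u₀ ∈ U ∧ ∀ q ∈ Q, σ q ((A ^ j) u₀) = (A ^ j) u₀ := by
    intro j
    induction j with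
    | zero =>
      refine ⟨hu₀, fun q hq => ?_⟩
      exact hu₀Q ⟨q, hq⟩
    | succ j ihj =>
      obtain ⟨h1, h2⟩ := ihj
      have h3 : (A ^ (j + 1)) u₀ = T ((A ^ j) u₀) - (A ^ j) u₀ := by
        rw [pow_succ', Module.End.mul_apply]
        rfl
      rw [h3]
      refine ⟨U.sub_mem (hU y _ h1) h1, fun q hq => ?_⟩
      rw [map_sub, h2 q hq]
      congr 1
      have h4 : q * y = y * (y⁻¹ * q * y) := by group
      have h5 : y⁻¹ * q * y ∈ Q := by
        have := hQn.conj_mem q hq y⁻¹
        simpa using this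
      show σ q (σ y _) = σ y _
      rw [← Module.End.mul_apply, ← map_mul, h4, map_mul, Module.End.mul_apply, h2 _ h5]
  have hex : ∃ i, (A ^ i) u₀ = 0 := ⟨p, hAu⟩
  let i := Nat.find hex
  have hi : (A ^ i) u₀ = 0 := Nat.find_spec hex
  have hi0 : i ≠ 0 := by
    intro h0
    rw [h0] at hi
    exact hu₀0 hi
  obtain ⟨c, hc⟩ : ∃ c, i = c + 1 := ⟨i - 1, by omega⟩
  have hcne : (A ^ c) u₀ ≠ 0 := Nat.find_min hex (by omega : c < i)
  set u := (A ^ c) u₀ with hu
  have hTu : σ y u = u := by
    have h1 : (A ^ (c + 1)) u₀ = T u - u := by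
      rw [pow_succ', Module.End.mul_apply]
      rfl
    rw [← hc, hi] at h1
    exact (sub_eq_zero.mp h1.symm)
  refine ⟨u, (hstab c).1, hcne, ?_⟩
  -- all of `P`
  let F : Subgroup P :=
    { carrier := {g | σ g u = u}
      mul_mem' := by
        intro a b ha hb
        show σ (a * b) u = u
        rw [map_mul, Module.End.mul_apply]
        rw [hb, ha]
      one_mem' := by
        show σ 1 u = u
        rw [map_one]
        rfl
      inv_mem' := by
        intro a ha
        show σ a⁻¹ u = u
        have h1 : σ a⁻¹ (σ a u) = u := by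
          rw [← Module.End.mul_apply, ← map_mul, inv_mul_cancel, map_one]
          rfl
        have ha' : σ a u = u := ha
        rwa [ha'] at h1 }
  have hQF : Q ≤ F := fun q hq => (hstab c).2 q hq
  have hyF : y ∈ F := hTu
  have hFt : F = ⊤ := by
    have h2 : F.index ∣ Q.index := Subgroup.index_dvd_of_le hQF
    rw [hQidx] at h2
    rcases (Nat.dvd_prime hp.out).mp h2 with h3 | h3
    · exact Subgroup.index_eq_one.mp h3
    · exfalso
      apply hy
      have h4 := Subgroup.relIndex_mul_index hQF
      rw [hQidx, h3] at h4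
      have h5 : Q.relIndex F = 1 := by
        have := hp.out.pos
        nlinarith
      exact (Subgroup.relIndex_eq_one.mp h5) hyF
  intro x
  have h1 : x ∈ F := by
    rw [hFt]
    trivial
  exact h1

theorem indep_of_sum_ne {P : Type u} [Group P] [Fintype P] (hP : IsPGroup p P)
    (σ : Representation k P W) (w₀ : W) (h : ∑ x, σ x w₀ ≠ 0) :
    LinearIndependent k (fun x : P => σ x w₀) := by
  classical
  rw [Fintype.linearIndependent_iff]
  intro a ha
  by_contra hcon
  push Not at hcon
  let Λ : (P → k) →ₗ[k] W :=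
    { toFun := fun a => ∑ x, a x • σ x w₀
      map_add' := by
        intro a b
        simp [add_smul, Finset.sum_add_distrib]
      map_smul' := by
        intro c a
        simp [Finset.smul_sum, smul_smul] }
  let τ : Representation k P (P → k) :=
    { toFun := fun y => LinearMap.funLeft k k (fun x => y⁻¹ * x)
      map_one' := by
        refine LinearMap.ext fun a => funext fun x => ?_
        simp [LinearMap.funLeft_apply]
      map_mul' := by
        intro y z
        refine LinearMap.ext fun a => funext fun x => ?_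
        simp [LinearMap.funLeft_apply, mul_assoc] }
  have hτ : ∀ (y : P) (a : P → k) (x : P), τ y a x = a (y⁻¹ * x) := fun _ _ _ => rfl
  have hΛτ : ∀ (y : P) (a : P → k), Λ (τ y a) = σ y (Λ a) := by
    intro y a
    show ∑ x, τ y a x • σ x w₀ = σ y (∑ x, a x • σ x w₀)
    rw [map_sum]
    rw [← Equiv.sum_comp (Equiv.mulLeft y)]
    refine Finset.sum_congr rfl fun x _ => ?_
    simp only [Equiv.coe_mulLeft, hτ, inv_mul_cancel_left, map_smul]
    rw [map_mul, Module.End.mul_apply]
  have hK : LinearMap.ker Λ ≠ ⊥ := by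
    intro h0
    obtain ⟨x, hx⟩ := hcon
    have h1 : a ∈ LinearMap.ker Λ := ha
    rw [h0, Submodule.mem_bot] at h1
    exact hx (congrFun h1 x)
  obtain ⟨u, huK, hu0, huf⟩ := exists_fixed p _ P rfl hP τ (LinearMap.ker Λ) (by
    intro y a ha'
    rw [LinearMap.mem_ker] at ha' ⊢
    rw [hΛτ, ha', map_zero]) hK
  have hconst : ∀ x, u x = u 1 := by
    intro x
    have h1 := congrFun (huf x⁻¹) 1
    rw [hτ] at h1
    simpa using h1
  have hu1 : u 1 ≠ 0 := by
    intro h0
    apply hu0
    funext x
    rw [hconst x, h0]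
    rfl
  have h2 : Λ u = 0 := huK
  have h3 : Λ u = u 1 • ∑ x, σ x w₀ := by
    show ∑ x, u x • σ x w₀ = _
    rw [Finset.smul_sum]
    exact Finset.sum_congr rfl fun x _ => by rw [hconst x]
  rw [h3] at h2
  exact h ((smul_eq_zero.mp h2).resolve_left hu1)

/-- The conjugation representation on matrices. -/
def conjRep {P : Type u} [Group P] {n : ℕ} (M : P →* Matrix (Fin n) (Fin n) k) :
    Representation k P (Matrix (Fin n) (Fin n) k) where
  toFun x :=
    { toFun := fun A => M x * A * M x⁻¹
      map_add' := by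
        intro A B
        rw [mul_add, add_mul]
      map_smul' := by
        intro c A
        simp [Matrix.mul_smul, Matrix.smul_mul] }
  map_one' := by
    ext1 A
    simp
  map_mul' := by
    intro x y
    ext1 A
    simp [mul_assoc]

theorem conjRep_apply {P : Type u} [Group P] {n : ℕ} (M : P →* Matrix (Fin n) (Fin n) k) (x : P)
    (A : Matrix (Fin n) (Fin n) k) : conjRep M x A = M x * A * M x⁻¹ := rfl

theorem card_le_one_of_conj_sum_ne {P : Type u} [Group P] [Fintype P] (hP : IsPGroup p P) {n : ℕ}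
    (M : P →* Matrix (Fin n) (Fin n) k) (ψ : Matrix (Fin n) (Fin n) k)
    (h : ∑ x, M x * ψ * M x⁻¹ ≠ 0) (hn : n ^ 2 ≤ Nat.card P) : Nat.card P ≤ 1 := by
  classical
  set σ := conjRep M with hσ
  have hsum : ∑ x, σ x ψ ≠ 0 := h
  have hli := indep_of_sum_ne p hP σ ψ hsum
  have hle := hli.fintype_card_le_finrank
  rw [Module.finrank_matrix, Fintype.card_fin, Module.finrank_self, mul_one] at hle
  have hcard : Fintype.card P = n * n := by
    apply le_antisymm hle
    rw [← Nat.card_eq_fintype_card, ← pow_two]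
    exact hn
  have hcard' : Fintype.card P = finrank k (Matrix (Fin n) (Fin n) k) := by
    rw [Module.finrank_matrix, Fintype.card_fin, Module.finrank_self, mul_one, hcard]
  have hne : Nonempty P := ⟨1⟩
  let B : Basis P k (Matrix (Fin n) (Fin n) k) := basisOfLinearIndependentOfCardEqFinrank hli hcard'
  have hB : ∀ x, B x = σ x ψ := fun x => by
    simp [B]
  set T := ∑ x, σ x ψ with hT
  have hfix : ∀ Y : Matrix (Fin n) (Fin n) k, (∀ y, σ y Y = Y) → ∃ c : k, Y = c • T := by
    intro Y hY
    set c := B.repr Y with hc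
    have h1 : Y = ∑ x, c x • B x := (B.sum_repr Y).symm
    have h2 : ∀ y x, c (y⁻¹ * x) = c x := by
      intro y x
      have h3 : σ y Y = ∑ x, c (y⁻¹ * x) • B x := by
        conv_lhs => rw [h1]
        rw [map_sum, ← Equiv.sum_comp (Equiv.mulLeft y⁻¹)]
        refine Finset.sum_congr rfl fun z _ => ?_
        simp only [Equiv.coe_mulLeft, map_smul, hB]
        rw [← Module.End.mul_apply, ← map_mul]
        congr 2
        group
      rw [hY] at h3
      have h4 := congrArg (fun Z => B.repr Z x) h3
      simp only [B.repr_sum_self] at h4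
      exact h4.symm
    refine ⟨c 1, ?_⟩
    rw [h1, hT, Finset.smul_sum]
    refine Finset.sum_congr rfl fun x _ => ?_
    rw [hB]
    congr 1
    have := h2 x⁻¹ 1
    simpa using this
  rcases Nat.eq_zero_or_pos n with h0 | hpos
  · subst h0
    exfalso
    apply hsum
    exact Subsingleton.elim _ _
  haveI : Nonempty (Fin n) := ⟨⟨0, hpos⟩⟩
  -- the identity is fixed
  have h1fix : ∀ y, σ y (1 : Matrix (Fin n) (Fin n) k) = 1 := by
    intro y
    rw [hσ, conjRep_apply, mul_one, ← map_mul, mul_inv_cancel, map_one]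
  obtain ⟨c₁, hc₁⟩ := hfix 1 h1fix
  have hc₁0 : c₁ ≠ 0 := by
    rintro rfl
    rw [zero_smul] at hc₁
    have h2 := congrFun (congrFun hc₁ ⟨0, hpos⟩) ⟨0, hpos⟩
    simp at h2
  have hscal : ∀ Y : Matrix (Fin n) (Fin n) k, (∀ y, σ y Y = Y) → ∃ d : k, Y = d • 1 := by
    intro Y hY
    obtain ⟨c, hc⟩ := hfix Y hY
    refine ⟨c * c₁⁻¹, ?_⟩
    rw [hc, hc₁, smul_smul, mul_assoc, inv_mul_cancel₀ hc₁0, mul_one]
  have hn1 : n = 1 := by
    by_contra hn2
    have hn2' : 2 ≤ n := by omega
    -- fixed vector and covector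
    let α : Representation k P (Fin n → k) :=
      { toFun := fun x => Matrix.toLin' (M x)
        map_one' := by
          rw [map_one, Matrix.toLin'_one]
          rfl
        map_mul' := by
          intro x y
          rw [map_mul, Matrix.toLin'_mul]
          rfl }
    let β : Representation k P (Fin n → k) :=
      { toFun := fun x => Matrix.toLin' (M x⁻¹).transpose
        map_one' := by
          rw [inv_one, map_one, Matrix.transpose_one, Matrix.toLin'_one]
          rfl
        map_mul' := by
          intro x y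
          rw [_root_.mul_inv_rev, map_mul, Matrix.transpose_mul, Matrix.toLin'_mul]
          rfl }
    have htop : (⊤ : Submodule k (Fin n → k)) ≠ ⊥ := top_ne_bot
    obtain ⟨v, -, hv0, hv⟩ := exists_fixed p _ P rfl hP α ⊤ (fun _ _ _ => Submodule.mem_top) htop
    obtain ⟨w', -, hw0, hw⟩ := exists_fixed p _ P rfl hP β ⊤ (fun _ _ _ => Submodule.mem_top) htop
    have hv' : ∀ x, M x *ᵥ v = v := fun x => hv x
    have hw' : ∀ x, w' ᵥ* M x⁻¹ = w' := by
      intro x
      have h2 : (M x⁻¹).transpose *ᵥ w' = w' := hw x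
      rwa [Matrix.mulVec_transpose] at h2
    let R : Matrix (Fin n) (Fin n) k := Matrix.vecMulVec v w'
    have hR : ∀ y, σ y R = R := by
      intro y
      rw [hσ, conjRep_apply, Matrix.mul_vecMulVec, Matrix.vecMulVec_mul, hv', hw']
    obtain ⟨d, hd⟩ := hscal R hR
    have hRij : ∀ i j, v i * w' j = d * (1 : Matrix (Fin n) (Fin n) k) i j := by
      intro i j
      have h2 := congrFun (congrFun hd i) j
      simpa [R, Matrix.vecMulVec_apply] using h2
    obtain ⟨i₀, hi₀⟩ : ∃ i, v i ≠ 0 := by
      by_contra hcon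
      push Not at hcon
      exact hv0 (funext hcon)
    obtain ⟨j₀, hj₀⟩ : ∃ j, w' j ≠ 0 := by
      by_contra hcon
      push Not at hcon
      exact hw0 (funext hcon)
    have h3 := hRij i₀ j₀
    have hij : i₀ = j₀ := by
      by_contra hne'
      rw [Matrix.one_apply_ne hne', mul_zero] at h3
      exact mul_ne_zero hi₀ hj₀ h3
    subst hij
    rw [Matrix.one_apply_eq, mul_one] at h3
    have hd0 : d ≠ 0 := by
      rw [← h3]
      exact mul_ne_zero hi₀ hj₀
    obtain ⟨j, hj⟩ : ∃ j : Fin n, j ≠ i₀ := by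
      by_contra hcon
      push Not at hcon
      have h4 : ∀ j : Fin n, j = ⟨0, hpos⟩ := fun j => by
        rw [hcon j, hcon ⟨0, hpos⟩]
      have h5 : (⟨1, by omega⟩ : Fin n) = ⟨0, hpos⟩ := h4 _
      have := congrArg Fin.val h5
      simp at this
    have h4 := hRij j j
    rw [Matrix.one_apply_eq, mul_one] at h4
    have hvj : v j ≠ 0 := by
      intro h0
      rw [h0, zero_mul] at h4
      exact hd0 h4.symm
    have h5 := hRij j i₀
    rw [Matrix.one_apply_ne hj, mul_zero] at h5
    exact (mul_ne_zero hvj hj₀) h5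
  rw [Nat.card_eq_fintype_card, hcard, hn1]

end Fixed

end Cfsg.Agent.Lib.Char.TISyl
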