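import Mathlib

set_option autoImplicit false

/-!
Integral bases for representations over a valuation subring of `ℂ`.
-/

namespace Cfsg.Agent.Lib.Char.TISyl

open Module

universe u

theorem exists_valuationSubring_prime (p : ℕ) (hp : p.Prime) :
    ∃ O : ValuationSubring ℂ, (p : ℂ) ∈ O.nonunits := by
  let A : Subring ℂ := (Int.castRingHom ℂ).range
  let pA : A := ⟨(p : ℂ), ⟨(p : ℤ), by simp⟩⟩
  have hI : Ideal.span {pA} ≠ ⊤ := by
    intro h
    rw [Ideal.span_singleton_eq_top] at h
    obtain ⟨⟨u, m, hm⟩, hu⟩ := h.exists_right_inv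
    have h1 : ((p : ℂ)) * u = 1 := by
      have := congrArg Subtype.val hu
      simpa [pA] using this
    have h2 : (u : ℂ) = (m : ℂ) := by
      rw [← hm]
      rfl
    rw [h2] at h1
    have h3 : (p : ℤ) * m = 1 := by exact_mod_cast h1
    have h4 : (p : ℤ) ∣ 1 := ⟨m, h3.symm⟩
    have h5 : p ∣ 1 := by exact_mod_cast h4
    exact hp.one_lt.ne' (Nat.dvd_one.mp h5)
  obtain ⟨O, -, hO⟩ := Ideal.image_subset_nonunits_valuationSubring _ hI
  refine ⟨O, hO ⟨pA, Ideal.mem_span_singleton_self _, rfl⟩⟩

theorem exists_integral_basis {G : Type u} [Group G] [Finite G] {n : ℕ}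
    (ρ : Representation ℂ G (Fin n → ℂ)) (O : ValuationSubring ℂ) :
    ∃ b : Basis (Fin n) ℂ (Fin n → ℂ), ∀ g i j, b.repr (ρ g (b i)) j ∈ O := by
  classical
  let V := Fin n → ℂ
  let gen : G × Fin n → V := fun x => ρ x.1 (Pi.single x.2 1)
  let L : Submodule O V := Submodule.span O (Set.range gen)
  have hLfg : L.FG := Submodule.fg_span (Set.finite_range gen)
  have hPex : ∃ m : ℕ, ∃ w : Fin m → V, Submodule.span O (Set.range w) = L := by
    obtain ⟨m, w, hw⟩ := (Submodule.fg_iff_exists_fin_generating_family).mp hLfg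
    exact ⟨m, w, hw⟩
  obtain ⟨w, hw⟩ := Nat.find_spec hPex
  have hmin : ∀ m' < Nat.find hPex, ¬ ∃ w : Fin m' → V, Submodule.span O (Set.range w) = L :=
    fun m' hm' => Nat.find_min hPex hm'
  generalize Nat.find hPex = m at w hw hmin
  have hstab : ∀ g, ∀ v ∈ L, ρ g v ∈ L := by
    intro g v hv
    induction hv using Submodule.span_induction with
    | mem x hx =>
      obtain ⟨⟨h, i⟩, rfl⟩ := hx
      apply Submodule.subset_span
      refine ⟨(g * h, i), ?_⟩
      simp only [gen, map_mul, Module.End.mul_apply]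
    | zero => rw [map_zero]; exact L.zero_mem
    | add x y _ _ hx hy => rw [map_add]; exact L.add_mem hx hy
    | smul c x _ hx =>
      have h1 : ρ g (c • x) = c • ρ g x := by
        have h2 : c • x = ((c : O) : ℂ) • x := rfl
        have h3 : c • ρ g x = ((c : O) : ℂ) • ρ g x := rfl
        rw [h2, h3, map_smul]
      rw [h1]
      exact L.smul_mem c hx
  -- independence
  have hli : LinearIndependent ℂ w := by
    rw [Fintype.linearIndependent_iff]
    intro c hc
    by_contra hcon
    push Not at hcon
    obtain ⟨i₁, hi₁⟩ := hcon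
    cases m with
    | zero => exact i₁.elim0
    | succ m' =>
    obtain ⟨j₀, -, hj₀⟩ := Finset.exists_max_image Finset.univ (fun i => O.valuation (c i))
      ⟨i₁, Finset.mem_univ _⟩
    have hcj : c j₀ ≠ 0 := by
      intro h0
      have h1 := hj₀ i₁ (Finset.mem_univ _)
      rw [h0, map_zero, le_zero_iff, map_eq_zero] at h1
      exact hi₁ h1
    have hd : ∀ i, c i / c j₀ ∈ O := by
      intro i
      rw [← ValuationSubring.valuation_le_one_iff, map_div₀]
      have h1 : O.valuation (c j₀) ≠ 0 := by
        rw [Ne, map_eq_zero]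
        exact hcj
      exact div_le_one_of_le₀ (hj₀ i (Finset.mem_univ _)) zero_le'
    apply hmin m' (Nat.lt_succ_self _)
    refine ⟨fun i => w (j₀.succAbove i), le_antisymm ?_ ?_⟩
    · rw [← hw]
      apply Submodule.span_mono
      rintro _ ⟨i, rfl⟩
      exact ⟨_, rfl⟩
    · rw [← hw, Submodule.span_le]
      have hsub : ∀ i, w (j₀.succAbove i) ∈
          Submodule.span O (Set.range fun i => w (j₀.succAbove i)) := fun i =>
        Submodule.subset_span ⟨i, rfl⟩
      rintro _ ⟨i, rfl⟩
      induction i using Fin.succAboveCases j₀ with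
      | x =>
        have h1 : w j₀ = - ∑ i, (c (j₀.succAbove i) / c j₀) • w (j₀.succAbove i) := by
          have h2 := hc
          rw [Fin.sum_univ_succAbove _ j₀] at h2
          have h3 : c j₀ • w j₀ = - ∑ i, c (j₀.succAbove i) • w (j₀.succAbove i) :=
            eq_neg_of_add_eq_zero_left h2
          have h4 : w j₀ = (c j₀)⁻¹ • (c j₀ • w j₀) := by
            rw [smul_smul, inv_mul_cancel₀ hcj, one_smul]
          rw [h4, h3, smul_neg, Finset.smul_sum]
          congr 1
          refine Finset.sum_congr rfl fun i _ => ?_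
          rw [smul_smul]
          congr 1
          field_simp
        rw [h1]
        refine Submodule.neg_mem _ (Submodule.sum_mem _ fun i _ => ?_)
        have h2 : (c (j₀.succAbove i) / c j₀) • w (j₀.succAbove i) =
            (⟨_, hd (j₀.succAbove i)⟩ : O) • w (j₀.succAbove i) := rfl
        rw [h2]
        exact Submodule.smul_mem _ _ (hsub i)
      | p i => exact hsub i
  have hspan : ⊤ ≤ Submodule.span ℂ (Set.range w) := by
    have h1 : L ≤ (Submodule.span ℂ (Set.range w)).restrictScalars O := by
      rw [← hw]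
      exact Submodule.span_le_restrictScalars O ℂ _
    have h2 : (Submodule.span ℂ (Set.range (fun i : Fin n => (Pi.single i 1 : V)))) ≤
        Submodule.span ℂ (Set.range w) := by
      rw [Submodule.span_le]
      rintro _ ⟨i, rfl⟩
      have h3 : (Pi.single i 1 : V) ∈ L := by
        apply Submodule.subset_span
        refine ⟨(1, i), ?_⟩
        simp only [gen, map_one, Module.End.one_apply]
      exact h1 h3
    refine le_trans ?_ h2
    have h3 := (Pi.basisFun ℂ (Fin n)).span_eq
    have h4 : (⇑(Pi.basisFun ℂ (Fin n))) = fun i : Fin n => (Pi.single i 1 : V) := by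
      funext i
      simp [Pi.basisFun_apply]
    rw [h4] at h3
    exact h3.ge
  let B : Basis (Fin m) ℂ V := Basis.mk hli hspan
  have hBw : ∀ i, B i = w i := fun i => by simp [B]
  have hmn : m = n := by
    have h1 := Module.finrank_eq_card_basis B
    have h2 := Module.finrank_eq_card_basis (Pi.basisFun ℂ (Fin n))
    simpa using h1.symm.trans h2
  subst hmn
  refine ⟨B, fun g i j => ?_⟩
  have h1 : ρ g (w i) ∈ L := by
    apply hstab
    rw [← hw]
    exact Submodule.subset_span ⟨i, rfl⟩
  rw [← hw, Submodule.mem_span_range_iff_exists_fun] at h1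
  obtain ⟨c, hc⟩ := h1
  rw [hBw i, ← hc]
  have h2 : ∑ i, c i • w i = ∑ i, ((c i : O) : ℂ) • B i := by
    refine Finset.sum_congr rfl fun i _ => ?_
    rw [hBw]
    rfl
  rw [h2, B.repr_sum_self]
  exact (c j).2

end Cfsg.Agent.Lib.Char.TISyl
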