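import Mathlib
import Cfsg.Agent.Lib.Char.TIA
import Cfsg.Agent.Lib.Char.TIB
import Cfsg.Agent.Lib.Char.Kernel

set_option autoImplicit false

/-!
Averaging over a Sylow normalizer with a trivial-intersection Sylow subgroup: rigidity of
small-dimensional representations.
-/

namespace Cfsg.Agent.Lib.Char.TISyl

open Module Matrix
open scoped Pointwise

universe u v w

theorem exists_free_sum_ne {P : Type u} {Y : Type v} {A : Type w} [Group P] [Fintype P]
    [MulAction P Y] [Fintype Y] [AddCommGroup A]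
    (c₀ : Y) (hc₀ : ∀ x : P, x • c₀ = c₀) (hfree : ∀ c, c ≠ c₀ → ∀ x : P, x • c = c → x = 1)
    (f : Y → A) (hsum : ∑ c, f c = 0) (hf : f c₀ ≠ 0) :
    ∃ c, c ≠ c₀ ∧ ∑ x : P, f (x • c) ≠ 0 := by
  classical
  by_contra hcon
  push Not at hcon
  apply hf
  letI : Fintype (MulAction.orbitRel.Quotient P Y) := Fintype.ofFinite _
  let π : Y → MulAction.orbitRel.Quotient P Y := fun c => Quotient.mk'' c
  have hπ : ∀ a b : Y, π a = π b ↔ a ∈ MulAction.orbit P b := by
    intro a b
    have : π a = π b ↔ (MulAction.orbitRel P Y).r a b := Quotient.eq''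
    rw [this]
    exact MulAction.orbitRel_apply
  have h1 : ∑ ω : MulAction.orbitRel.Quotient P Y, ∑ c ∈ Finset.univ.filter (fun c => π c = ω), f c
      = ∑ c, f c := Finset.sum_fiberwise _ _ _
  rw [hsum, Finset.sum_eq_single (π c₀)] at h1
  · have h2 : Finset.univ.filter (fun c => π c = π c₀) = {c₀} := by
      ext c
      simp only [Finset.mem_filter, Finset.mem_univ, true_and, Finset.mem_singleton]
      rw [hπ]
      constructor
      · rintro ⟨x, rfl⟩
        exact hc₀ x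
      · rintro rfl
        exact MulAction.mem_orbit_self _
    rw [h2, Finset.sum_singleton] at h1
    exact h1
  · intro ω _ hω
    obtain ⟨r, rfl⟩ : ∃ r, π r = ω := Quotient.exists_rep ω
    have hr : r ≠ c₀ := by
      rintro rfl
      exact hω rfl
    have h2 : Finset.univ.filter (fun c => π c = π r) = Finset.univ.image (fun x : P => x • r) := by
      ext c
      simp only [Finset.mem_filter, Finset.mem_univ, true_and, Finset.mem_image]
      rw [hπ]
      constructor
      · rintro ⟨x, rfl⟩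
        exact ⟨x, rfl⟩
      · rintro ⟨x, rfl⟩
        exact ⟨x, rfl⟩
    rw [h2, Finset.sum_image]
    · exact hcon r hr
    · intro x _ y _ hxy
      have h3 : (y⁻¹ * x) • r = r := by
        rw [mul_smul]
        show y⁻¹ • (x • r) = r
        have hxy' : x • r = y • r := hxy
        rw [hxy', inv_smul_smul]
      have h4 := hfree r hr _ h3
      rw [inv_mul_eq_one] at h4
      exact h4.symm
  · intro h
    exact absurd (Finset.mem_univ _) h

variable {G : Type u} [Group G]

theorem ti_free {p : ℕ} [Fact p.Prime] (P : Sylow p G)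
    (hTI : ∀ g : G, g ∉ Subgroup.normalizer ((P : Subgroup G) : Set G) →
      (P : Subgroup G) ⊓ (MulAut.conj g • (P : Subgroup G)) = ⊥)
    {g : G} (hg : g ∉ Subgroup.normalizer ((P : Subgroup G) : Set G)) {x : G}
    (hx : x ∈ (P : Subgroup G)) (hy : g⁻¹ * x * g ∈ Subgroup.normalizer ((P : Subgroup G) : Set G)) :
    x = 1 := by
  let U : Subgroup G := (P : Subgroup G).map (MulAut.conj g⁻¹).toMonoidHom
  have hU : IsPGroup p U := P.isPGroup'.map _
  have hyU : g⁻¹ * x * g ∈ U := ⟨x, hx, by simp⟩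
  have h1 := hU.inf_normalizer_sylow P
  have h3 : g⁻¹ * x * g ∈ (P : Subgroup G) := (h1.le ⟨hyU, hy⟩).2
  have h4 : x ∈ MulAut.conj g • (P : Subgroup G) := by
    rw [Subgroup.mem_pointwise_smul_iff_inv_smul_mem]
    simpa using h3
  have h5 : x ∈ (P : Subgroup G) ⊓ (MulAut.conj g • (P : Subgroup G)) := ⟨hx, h4⟩
  rw [hTI g hg] at h5
  exact h5

section Key

variable [Fintype G] {n : ℕ}

/-- Sum of conjugates of a matrix. -/
noncomputable def avg {Q : Type*} [Group Q] [Fintype Q] {R : Type*} [Ring R] (M : Q →* Matrix (Fin n) (Fin n) R)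
    (Y : Matrix (Fin n) (Fin n) R) : Matrix (Fin n) (Fin n) R :=
  ∑ g, M g * Y * M g⁻¹

theorem avg_comm {Q : Type*} [Group Q] [Fintype Q] {R : Type*} [Ring R]
    (M : Q →* Matrix (Fin n) (Fin n) R) (Y : Matrix (Fin n) (Fin n) R) (h : Q) :
    M h * avg M Y = avg M Y * M h := by
  unfold avg
  rw [Finset.mul_sum, Finset.sum_mul,
    ← Equiv.sum_comp (Equiv.mulLeft h) (fun g => M g * Y * M g⁻¹ * M h)]
  refine Finset.sum_congr rfl fun g _ => ?_
  simp only [Equiv.coe_mulLeft, _root_.mul_inv_rev, map_mul]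
  have h1 : M h⁻¹ * M h = 1 := by rw [← map_mul, inv_mul_cancel, map_one]
  simp only [Matrix.mul_assoc]
  rw [h1, Matrix.mul_one]

theorem avg_smul {Q : Type*} [Group Q] [Fintype Q] (M : Q →* Matrix (Fin n) (Fin n) ℂ) (c : ℂ)
    (Y : Matrix (Fin n) (Fin n) ℂ) : avg M (c • Y) = c • avg M Y := by
  unfold avg
  rw [Finset.smul_sum]
  refine Finset.sum_congr rfl fun g _ => ?_
  rw [Matrix.mul_smul, Matrix.smul_mul]

theorem avg_sum {Q : Type*} [Group Q] [Fintype Q] {ι : Type*} (s : Finset ι)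
    (M : Q →* Matrix (Fin n) (Fin n) ℂ) (Y : ι → Matrix (Fin n) (Fin n) ℂ) :
    avg M (∑ i ∈ s, Y i) = ∑ i ∈ s, avg M (Y i) := by
  unfold avg
  rw [Finset.sum_comm]
  refine Finset.sum_congr rfl fun g _ => ?_
  rw [Finset.mul_sum, Finset.sum_mul]

theorem key_aux {p : ℕ} [hp : Fact p.Prime] (P : Sylow p G)
    (hTI : ∀ g : G, g ∉ Subgroup.normalizer ((P : Subgroup G) : Set G) →
      (P : Subgroup G) ⊓ (MulAut.conj g • (P : Subgroup G)) = ⊥)
    (M : G →* Matrix (Fin n) (Fin n) ℂ) (O : ValuationSubring ℂ) (hO : (p : ℂ) ∈ O.nonunits)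
    (hM : ∀ g i j, M g i j ∈ O) (hn : n ^ 2 ≤ Nat.card (P : Subgroup G))
    (φ : Matrix (Fin n) (Fin n) ℂ)
    (hφ : ∀ a ∈ Subgroup.normalizer ((P : Subgroup G) : Set G), M a * φ = φ * M a)
    (hS : avg M φ = 0) (hφO : ∀ i j, φ i j ∈ O) (i₀ j₀ : Fin n) (h1 : φ i₀ j₀ = 1) : False := by
  classical
  let N : Subgroup G := Subgroup.normalizer ((P : Subgroup G) : Set G)
  letI : Fintype (P : Subgroup G) := Fintype.ofFinite _
  letI : Fintype (G ⧸ N) := Fintype.ofFinite _
  let k := IsLocalRing.ResidueField O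
  let res : O →+* k := IsLocalRing.residue O
  haveI : CharP k p := by
    rw [CharP.charP_iff_prime_eq_zero hp.out]
    have h2 : ((p : O)) ∈ IsLocalRing.maximalIdeal O := by
      obtain ⟨h3, h4⟩ := ValuationSubring.mem_nonunits_iff_exists_mem_maximalIdeal.mp hO
      have h5 : (⟨(p : ℂ), h3⟩ : O) = (p : O) := by
        apply Subtype.ext
        simp
      rwa [h5] at h4
    have h3 : res (p : O) = 0 := (IsLocalRing.residue_eq_zero_iff _).mpr h2
    simpa using h3
  let ι : O →+* ℂ := O.subtype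
  have hι : Function.Injective ι := Subtype.val_injective
  let ιM : Matrix (Fin n) (Fin n) O →+* Matrix (Fin n) (Fin n) ℂ := ι.mapMatrix
  have hιM : Function.Injective ιM := by
    intro A B hAB
    ext i j
    have := congrFun (congrFun hAB i) j
    exact this
  let toO : (A : Matrix (Fin n) (Fin n) ℂ) → (∀ i j, A i j ∈ O) → Matrix (Fin n) (Fin n) O :=
    fun A hA i j => ⟨A i j, hA i j⟩
  have htoO : ∀ A hA, ιM (toO A hA) = A := fun A hA => by
    ext i j
    rfl
  let MO : G →* Matrix (Fin n) (Fin n) O :=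
    { toFun := fun g => toO (M g) (hM g)
      map_one' := by
        apply hιM
        rw [htoO, map_one, map_one]
      map_mul' := by
        intro x y
        apply hιM
        show ιM (toO (M (x * y)) _) = ιM (toO (M x) _ * toO (M y) _)
        rw [htoO, map_mul ιM, htoO, htoO, map_mul] }
  have hMO : ∀ g, ιM (MO g) = M g := fun g => htoO _ _
  let φO := toO φ hφO
  have hφO' : ιM φO = φ := htoO _ _
  let resM : Matrix (Fin n) (Fin n) O →+* Matrix (Fin n) (Fin n) k := res.mapMatrix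
  let Mb : G →* Matrix (Fin n) (Fin n) k := resM.toMonoidHom.comp MO
  have hMb : ∀ g, Mb g = resM (MO g) := fun _ => rfl
  let FO : G → Matrix (Fin n) (Fin n) O := fun g => MO g * φO * MO g⁻¹
  have hFO : ∀ g, ιM (FO g) = M g * φ * M g⁻¹ := fun g => by
    simp only [FO, map_mul, hMO, hφO']
  have hFOa : ∀ g, ∀ a ∈ N, FO (g * a) = FO g := by
    intro g a ha
    apply hιM
    rw [hFO, hFO]
    have h2 : M a⁻¹ = (M a)⁻¹ := by
      rw [Matrix.inv_eq_right_inv]
      rw [← map_mul, mul_inv_cancel, map_one]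
    have h3 := hφ a ha
    have h4 : M a * M a⁻¹ = 1 := by rw [← map_mul, mul_inv_cancel, map_one]
    rw [_root_.mul_inv_rev, map_mul, map_mul]
    calc M g * M a * φ * (M a⁻¹ * M g⁻¹) = M g * (M a * φ) * (M a⁻¹ * M g⁻¹) := by
          simp only [Matrix.mul_assoc]
      _ = M g * φ * (M a * M a⁻¹) * M g⁻¹ := by
          rw [h3]
          simp only [Matrix.mul_assoc]
      _ = _ := by rw [h4, Matrix.mul_one]
  let fO : G ⧸ N → Matrix (Fin n) (Fin n) O := fun c => FO c.out
  have hfO : ∀ g : G, fO (g : G ⧸ N) = FO g := by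
    intro g
    obtain ⟨a, ha⟩ := QuotientGroup.mk_out_eq_mul N g
    show FO (g : G ⧸ N).out = _
    rw [ha]
    exact hFOa g a a.2
  have hsumO : ∑ c, fO c = 0 := by
    apply hιM
    rw [map_zero, map_sum]
    ext i j
    have h2 := sum_comp_mk N (fun c : G ⧸ N => ιM (fO c) i j)
    simp only [hfO, hFO] at h2
    have h3 : ∑ g : G, (M g * φ * M g⁻¹) i j = 0 := by
      have h4 := congrFun (congrFun hS i) j
      simpa [avg, Matrix.sum_apply] using h4
    rw [h3] at h2
    have h5 : (Nat.card N : ℂ) ≠ 0 := by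
      exact_mod_cast (Nat.card_pos (α := N)).ne'
    have h6 := (mul_eq_zero.mp h2.symm).resolve_left h5
    simpa [Matrix.sum_apply] using h6
  let f : G ⧸ N → Matrix (Fin n) (Fin n) k := fun c => resM (fO c)
  have hfsum : ∑ c, f c = 0 := by
    simp only [f]
    rw [← map_sum, hsumO, map_zero]
  have hf0 : f ((1 : G) : G ⧸ N) ≠ 0 := by
    intro h0
    simp only [f] at h0
    rw [hfO] at h0
    have h2 : FO 1 = φO := by
      simp only [FO, inv_one, map_one, Matrix.one_mul, Matrix.mul_one]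
    rw [h2] at h0
    have h3 := congrFun (congrFun h0 i₀) j₀
    have h4 : φO i₀ j₀ = 1 := by
      apply Subtype.ext
      exact h1
    have h5 : resM φO i₀ j₀ = res (φO i₀ j₀) := rfl
    rw [h5, h4, map_one] at h3
    exact one_ne_zero h3
  have hPN : (P : Subgroup G) ≤ N := Subgroup.le_normalizer
  have hc₀ : ∀ x : (P : Subgroup G), x • (((1 : G) : G ⧸ N)) = ((1 : G) : G ⧸ N) := by
    intro x
    have h2 : x • (((1 : G) : G ⧸ N)) = (((x : G) * 1 : G) : G ⧸ N) := rfl
    rw [h2, mul_one, QuotientGroup.eq]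
    simpa using N.inv_mem (hPN x.2)
  have hfree : ∀ c : G ⧸ N, c ≠ ((1 : G) : G ⧸ N) → ∀ x : (P : Subgroup G), x • c = c → x = 1 := by
    intro c hc x hx
    obtain ⟨g, rfl⟩ := QuotientGroup.mk_surjective c
    have hg : g ∉ N := by
      intro hg
      apply hc
      rw [QuotientGroup.eq]
      simpa using N.inv_mem hg
    have h2 : x • ((g : G) : G ⧸ N) = (((x : G) * g : G) : G ⧸ N) := rfl
    rw [h2, QuotientGroup.eq] at hx
    have h3 : g⁻¹ * (x : G) * g ∈ N := by
      have h4 := N.inv_mem hx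
      simpa [mul_assoc] using h4
    have h5 := ti_free P hTI hg x.2 h3
    exact Subtype.ext h5
  obtain ⟨c, hc, hcsum⟩ := exists_free_sum_ne (P := (P : Subgroup G)) _ hc₀ hfree f hfsum hf0
  obtain ⟨g, rfl⟩ := QuotientGroup.mk_surjective c
  have hg : g ∉ N := by
    intro hg
    apply hc
    rw [QuotientGroup.eq]
    simpa using N.inv_mem hg
  have h2 : ∑ x : (P : Subgroup G), (Mb.comp (P : Subgroup G).subtype) x * resM (FO g) *
      (Mb.comp (P : Subgroup G).subtype) x⁻¹ ≠ 0 := by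
    intro h0
    apply hcsum
    rw [← h0]
    refine Finset.sum_congr rfl fun x _ => ?_
    have h3 : x • ((g : G) : G ⧸ N) = (((x : G) * g : G) : G ⧸ N) := rfl
    simp only [f]
    rw [h3, hfO]
    simp only [FO, MonoidHom.comp_apply, Subgroup.coe_subtype, hMb, InvMemClass.coe_inv,
      _root_.mul_inv_rev, map_mul]
    simp only [Matrix.mul_assoc]
  have h3 := card_le_one_of_conj_sum_ne p (P.isPGroup') (Mb.comp (P : Subgroup G).subtype)
    (resM (FO g)) h2 hn
  have h4 : (P : Subgroup G) = ⊥ := (Subgroup.card_le_one_iff_eq_bot _).mp h3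
  apply hg
  show g ∈ Subgroup.normalizer ((P : Subgroup G) : Set G)
  rw [h4]
  have h5 : ((⊥ : Subgroup G) : Set G) = {1} := Subgroup.coe_bot
  rw [Subgroup.mem_normalizer_iff]
  intro h
  simp

theorem key {p : ℕ} [hp : Fact p.Prime] (P : Sylow p G)
    (hTI : ∀ g : G, g ∉ Subgroup.normalizer ((P : Subgroup G) : Set G) →
      (P : Subgroup G) ⊓ (MulAut.conj g • (P : Subgroup G)) = ⊥)
    (M : G →* Matrix (Fin n) (Fin n) ℂ) (O : ValuationSubring ℂ) (hO : (p : ℂ) ∈ O.nonunits)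
    (hM : ∀ g i j, M g i j ∈ O) (hn : n ^ 2 ≤ Nat.card (P : Subgroup G))
    (φ : Matrix (Fin n) (Fin n) ℂ)
    (hφ : ∀ a ∈ Subgroup.normalizer ((P : Subgroup G) : Set G), M a * φ = φ * M a)
    (hS : avg M φ = 0) : φ = 0 := by
  classical
  by_contra hne
  obtain ⟨i₁, j₁, hne₁⟩ : ∃ i j, φ i j ≠ 0 := by
    by_contra hcon
    push Not at hcon
    apply hne
    ext i j
    exact hcon i j
  obtain ⟨x₀, -, hx₀⟩ := Finset.exists_max_image (Finset.univ : Finset (Fin n × Fin n))
    (fun x => O.valuation (φ x.1 x.2)) ⟨(i₁, j₁), Finset.mem_univ _⟩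
  obtain ⟨i₀, j₀⟩ := x₀
  have hc : φ i₀ j₀ ≠ 0 := by
    intro h0
    have h1 := hx₀ (i₁, j₁) (Finset.mem_univ _)
    simp only [h0, map_zero, le_zero_iff, map_eq_zero] at h1
    exact hne₁ h1
  refine key_aux P hTI M O hO hM hn ((φ i₀ j₀)⁻¹ • φ) ?_ ?_ ?_ i₀ j₀ ?_
  · intro a ha
    rw [Matrix.mul_smul, Matrix.smul_mul, hφ a ha]
  · have h1 : avg M ((φ i₀ j₀)⁻¹ • φ) = (φ i₀ j₀)⁻¹ • avg M φ := by
      unfold avg
      rw [Finset.smul_sum]
      refine Finset.sum_congr rfl fun g _ => ?_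
      rw [Matrix.mul_smul, Matrix.smul_mul]
    rw [h1, hS, smul_zero]
  · intro i j
    have h1 : ((φ i₀ j₀)⁻¹ • φ) i j = φ i j / φ i₀ j₀ := by
      rw [Matrix.smul_apply, smul_eq_mul, div_eq_inv_mul]
    rw [h1, ← ValuationSubring.valuation_le_one_iff, map_div₀]
    exact div_le_one_of_le₀ (hx₀ (i, j) (Finset.mem_univ _)) zero_le'
  · rw [Matrix.smul_apply, smul_eq_mul, inv_mul_cancel₀ hc]

theorem fixed_of_fixed {p : ℕ} [hp : Fact p.Prime] (P : Sylow p G)
    (hTI : ∀ g : G, g ∉ Subgroup.normalizer ((P : Subgroup G) : Set G) →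
      (P : Subgroup G) ⊓ (MulAut.conj g • (P : Subgroup G)) = ⊥)
    (M : G →* Matrix (Fin n) (Fin n) ℂ) (O : ValuationSubring ℂ) (hO : (p : ℂ) ∈ O.nonunits)
    (hM : ∀ g i j, M g i j ∈ O) (hn : n ^ 2 ≤ Nat.card (P : Subgroup G))
    (φ : Matrix (Fin n) (Fin n) ℂ)
    (hφ : ∀ a ∈ Subgroup.normalizer ((P : Subgroup G) : Set G), M a * φ = φ * M a) (g : G) :
    M g * φ = φ * M g := by
  have hG : (Nat.card G : ℂ) ≠ 0 := by
    exact_mod_cast (Nat.card_pos (α := G)).ne'
  set T := (Nat.card G : ℂ)⁻¹ • avg M φ with hT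
  have hTc : ∀ h, M h * T = T * M h := by
    intro h
    rw [hT, Matrix.mul_smul, Matrix.smul_mul, avg_comm]
  have havg : ∀ Y : Matrix (Fin n) (Fin n) ℂ, (∀ h, M h * Y = Y * M h) → avg M Y = (Nat.card G : ℂ) • Y := by
    intro Y hY
    unfold avg
    have h1 : ∀ h : G, M h * Y * M h⁻¹ = Y := by
      intro h
      rw [hY, Matrix.mul_assoc, ← map_mul, mul_inv_cancel, map_one, Matrix.mul_one]
    simp only [h1, Finset.sum_const, Finset.card_univ, Nat.card_eq_fintype_card]
    rw [Nat.cast_smul_eq_nsmul]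
  have hsub : avg M (φ - T) = 0 := by
    have h1 : avg M (φ - T) = avg M φ - avg M T := by
      unfold avg
      rw [← Finset.sum_sub_distrib]
      refine Finset.sum_congr rfl fun h _ => ?_
      rw [Matrix.mul_sub, Matrix.sub_mul]
    rw [h1, havg T hTc, hT, smul_smul, mul_inv_cancel₀ hG, one_smul, sub_self]
  have h0 := key P hTI M O hO hM hn (φ - T) (by
    intro a ha
    rw [Matrix.mul_sub, Matrix.sub_mul, hφ a ha, hTc]) hsub
  have h1 : φ = T := sub_eq_zero.mp h0
  rw [h1]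
  exact hTc g

theorem avg_eq {p : ℕ} [hp : Fact p.Prime] (P : Sylow p G)
    (hTI : ∀ g : G, g ∉ Subgroup.normalizer ((P : Subgroup G) : Set G) →
      (P : Subgroup G) ⊓ (MulAut.conj g • (P : Subgroup G)) = ⊥)
    (M : G →* Matrix (Fin n) (Fin n) ℂ) (O : ValuationSubring ℂ) (hO : (p : ℂ) ∈ O.nonunits)
    (hM : ∀ g i j, M g i j ∈ O) (hn : n ^ 2 ≤ Nat.card (P : Subgroup G))
    (H : Subgroup G) [Fintype H] (hH : Subgroup.normalizer ((P : Subgroup G) : Set G) ≤ H)
    (Y : Matrix (Fin n) (Fin n) ℂ) :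
    (Nat.card G : ℂ)⁻¹ • avg M Y = (Nat.card H : ℂ)⁻¹ • avg (M.comp H.subtype) Y := by
  have hG : (Nat.card G : ℂ) ≠ 0 := by
    exact_mod_cast (Nat.card_pos (α := G)).ne'
  have hHne : (Nat.card H : ℂ) ≠ 0 := by
    exact_mod_cast (Nat.card_pos (α := H)).ne'
  set Z := (Nat.card H : ℂ)⁻¹ • avg (M.comp H.subtype) Y with hZ
  have hZH : ∀ h : H, M h * Z = Z * M h := by
    intro h
    rw [hZ, Matrix.mul_smul, Matrix.smul_mul]
    congr 1
    exact avg_comm (M.comp H.subtype) Y h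
  have hZG : ∀ g, M g * Z = Z * M g :=
    fixed_of_fixed P hTI M O hO hM hn Z (fun a ha => hZH ⟨a, hH ha⟩)
  have h1 : avg M Z = (Nat.card G : ℂ) • Z := by
    unfold avg
    have h2 : ∀ h : G, M h * Z * M h⁻¹ = Z := by
      intro h
      rw [hZG, Matrix.mul_assoc, ← map_mul, mul_inv_cancel, map_one, Matrix.mul_one]
    simp only [h2, Finset.sum_const, Finset.card_univ, Nat.card_eq_fintype_card]
    rw [Nat.cast_smul_eq_nsmul]
  have h3 : ∀ h : H, avg M (M h * Y * M (h : G)⁻¹) = avg M Y := by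
    intro h
    unfold avg
    rw [← Equiv.sum_comp (Equiv.mulRight (h : G)) (fun g => M g * Y * M g⁻¹)]
    refine Finset.sum_congr rfl fun g _ => ?_
    simp only [Equiv.coe_mulRight, _root_.mul_inv_rev, map_mul]
    simp only [Matrix.mul_assoc]
  have h4 : avg M Z = avg M Y := by
    have h5 : avg M Z = (Nat.card H : ℂ)⁻¹ • ∑ h : H, avg M (M h * Y * M (h : G)⁻¹) := by
      rw [hZ]
      have h6 : avg (M.comp H.subtype) Y = ∑ h : H, M h * Y * M (h : G)⁻¹ := rfl
      rw [h6, avg_smul, avg_sum]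
    rw [h5]
    simp only [h3, Finset.sum_const, Finset.card_univ]
    rw [← Nat.cast_smul_eq_nsmul ℂ, smul_smul, ← Nat.card_eq_fintype_card, inv_mul_cancel₀ hHne, one_smul]
  rw [← h4, h1, smul_smul, inv_mul_cancel₀ hG, one_smul]

end Key

end Cfsg.Agent.Lib.Char.TISyl
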