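import Mathlib
import Cfsg.Agent.Lib.Char.TIC
import Cfsg.Agent.Lib.Char.Degree
import Cfsg.Prelude.Def_Blocks

set_option autoImplicit false

namespace Cfsg.Agent.Lib.Char.TISyl

open Module Matrix
open scoped Pointwise ComplexConjugate

universe u

variable {G : Type u} [Group G] [Fintype G]

theorem mul_single_mul_apply {n : ℕ} (A B : Matrix (Fin n) (Fin n) ℂ) (k l i j : Fin n) :
    (A * Matrix.single k l (1 : ℂ) * B) i j = A i k * B l j := by
  classical
  rw [Matrix.mul_assoc, Matrix.mul_apply]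
  rw [Finset.sum_eq_single k]
  · congr 1
    rw [Matrix.mul_apply, Finset.sum_eq_single l]
    · simp [Matrix.single]
    · intro m _ hm
      simp [Matrix.single, hm.symm]
    · simp
  · intro m _ hm
    have : (Matrix.single k l (1 : ℂ) * B) m j = 0 := by
      rw [Matrix.mul_apply]
      refine Finset.sum_eq_zero fun q _ => ?_
      simp [Matrix.single, hm.symm]
    rw [this, mul_zero]
  · simp

theorem sum_tr {Q : Type*} [Group Q] [Fintype Q] {n : ℕ} (c : ℂ) (M : Q →* Matrix (Fin n) (Fin n) ℂ) :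
    ∑ i, ∑ j, (c • avg M (Matrix.single i j (1 : ℂ))) i j =
      c * ∑ g, Matrix.trace (M g) * Matrix.trace (M g⁻¹) := by
  simp only [Matrix.smul_apply, smul_eq_mul, avg, Matrix.sum_apply, mul_single_mul_apply]
  simp only [← Finset.mul_sum]
  congr 1
  simp only [Matrix.trace, Matrix.diag_apply]
  calc ∑ i, ∑ j, ∑ g, M g i i * M g⁻¹ j j = ∑ i, ∑ g, ∑ j, M g i i * M g⁻¹ j j :=
        Finset.sum_congr rfl fun i _ => Finset.sum_comm
    _ = ∑ g, ∑ i, ∑ j, M g i i * M g⁻¹ j j := Finset.sum_comm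
    _ = _ := Finset.sum_congr rfl fun g _ => (Finset.sum_mul_sum _ _ _ _).symm

theorem classInner_res_eq {p : ℕ} [hp : Fact p.Prime] (P : Sylow p G)
    (hTI : ∀ g : G, g ∉ Subgroup.normalizer ((P : Subgroup G) : Set G) →
      (P : Subgroup G) ⊓ (MulAut.conj g • (P : Subgroup G)) = ⊥)
    (χ : G → ℂ) (hχ : Cfsg.IsCharacter G χ)
    (hdeg : Cfsg.charDegree χ ^ 2 ≤ Nat.card ↥(P : Subgroup G)) (H : Subgroup G) [Fintype ↥H]
    (hH : Subgroup.normalizer ((P : Subgroup G) : Set G) ≤ H) :
    Cfsg.classInner χ χ = Cfsg.classInner (fun h : ↥H => χ h) (fun h : ↥H => χ h) := by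
  classical
  obtain ⟨n, ρ, rfl⟩ := hχ
  have hdegn : Cfsg.charDegree ρ.character = n := by
    apply Cfsg.Agent.Lib.Char.charDegree_eq
    simp [Representation.character]
  rw [hdegn] at hdeg
  obtain ⟨O, hO⟩ := exists_valuationSubring_prime p hp.out
  obtain ⟨b, hb⟩ := exists_integral_basis ρ O
  let M : G →* Matrix (Fin n) (Fin n) ℂ :=
    { toFun := fun g => LinearMap.toMatrix b b (ρ g)
      map_one' := by
        rw [map_one]
        exact LinearMap.toMatrix_one b
      map_mul' := by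
        intro x y
        rw [map_mul]
        exact LinearMap.toMatrix_mul b _ _ }
  have hM : ∀ g i j, M g i j ∈ O := by
    intro g i j
    show LinearMap.toMatrix b b (ρ g) i j ∈ O
    rw [LinearMap.toMatrix_apply]
    exact hb g j i
  have htr : ∀ g, ρ.character g = Matrix.trace (M g) := by
    intro g
    show LinearMap.trace ℂ _ (ρ g) = Matrix.trace (LinearMap.toMatrix b b (ρ g))
    rw [LinearMap.trace_eq_matrix_trace ℂ b]
  have hconj : ∀ g, conj (ρ.character g) = Matrix.trace (M g⁻¹) := by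
    intro g
    rw [← htr, Cfsg.Agent.Lib.Char.character_inv]
  have hconj' : ∀ h : H, conj (ρ.character h) = Matrix.trace (M (h : G)⁻¹) := fun h => hconj h
  have h1 : ∀ Y, _ := avg_eq P hTI M O hO hM hdeg H hH
  have h2 := sum_tr (Nat.card G : ℂ)⁻¹ M
  have h3 := sum_tr (Nat.card H : ℂ)⁻¹ (M.comp H.subtype)
  simp only [← h1] at h3
  rw [h2] at h3
  have e1 : ∑ g, ρ.character g * conj (ρ.character g) =
      ∑ g, Matrix.trace (M g) * Matrix.trace (M g⁻¹) :=
    Finset.sum_congr rfl fun g _ => by rw [hconj, htr]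
  have e2 : ∑ h : H, ρ.character h * conj (ρ.character h) =
      ∑ h : H, Matrix.trace ((M.comp H.subtype) h) * Matrix.trace ((M.comp H.subtype) h⁻¹) :=
    Finset.sum_congr rfl fun h _ => by
      rw [hconj, htr]
      rfl
  unfold Cfsg.classInner
  rw [e1, e2]
  exact h3

end Cfsg.Agent.Lib.Char.TISyl
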