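import Mathlib
import Cfsg.Prelude.Def_Solvable
import Cfsg.Agent.Lib.Basic.Core
import Cfsg.Agent.Lib.Basic.Index2

set_option autoImplicit false

/-!
Groups with a trivial-intersection Sylow subgroup and trivial `p`- and `p'`-cores: the socle
is non-abelian simple and self-centralizing, and its Sylow subgroups are again TI.
-/

namespace Cfsg.Agent.Lib.Char.TISylow

open Cfsg Cfsg.Agent.Lib.Basic Subgroup
open scoped Pointwise

variable {H : Type*} [Group H] [Finite H] {p : ℕ} [hp : Fact p.Prime]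

/-- A `p`-element normalizing a Sylow subgroup lies in it. -/
theorem mem_of_normalizes (P : Sylow p H) {u : H} (hu : u ∈ normalizer ((P : Subgroup H) : Set H))
    (hpu : IsPGroup p (zpowers u)) : u ∈ (P : Subgroup H) := by
  have hle : zpowers u ≤ normalizer ((P : Subgroup H) : Set H) := by
    rw [zpowers_le]; exact hu
  have h1 := IsPGroup.to_sup_of_normal_right' hpu P.isPGroup' hle
  have h2 := P.is_maximal' h1 le_sup_right
  rw [← h2]
  exact (le_sup_left : zpowers u ≤ zpowers u ⊔ (P : Subgroup H)) (mem_zpowers u)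

theorem isPGroup_zpowers_of_mem {Q : Subgroup H} (hQ : IsPGroup p Q) {u : H} (hu : u ∈ Q) :
    IsPGroup p (zpowers u) := by
  have h : zpowers u ≤ Q := by rw [zpowers_le]; exact hu
  exact hQ.to_le h

theorem isPGroup_zpowers_conj {u : H} (hu : IsPGroup p (zpowers u)) (g : H) :
    IsPGroup p (zpowers (g * u * g⁻¹)) := by
  have h1 : IsPGroup p ((zpowers u).map (MulAut.conj g).toMonoidHom) := hu.map _
  have h2 : (zpowers u).map (MulAut.conj g).toMonoidHom = zpowers (g * u * g⁻¹) := by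
    rw [MonoidHom.map_zpowers]
    rfl
  rwa [h2] at h1

/-- Conjugates of subgroups, described by membership. -/
def conjS (g : H) (S : Subgroup H) : Subgroup H where
  carrier := {y | g⁻¹ * y * g ∈ S}
  mul_mem' := by
    intro a b ha hb
    have : g⁻¹ * (a * b) * g = (g⁻¹ * a * g) * (g⁻¹ * b * g) := by group
    show g⁻¹ * (a * b) * g ∈ S
    rw [this]
    exact mul_mem ha hb
  one_mem' := by
    show g⁻¹ * 1 * g ∈ S
    simp [one_mem]
  inv_mem' := by
    intro a ha
    have : g⁻¹ * a⁻¹ * g = (g⁻¹ * a * g)⁻¹ := by group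
    show g⁻¹ * a⁻¹ * g ∈ S
    rw [this]
    exact inv_mem ha

@[simp] theorem mem_conjS {g y : H} {S : Subgroup H} : y ∈ conjS g S ↔ g⁻¹ * y * g ∈ S := Iff.rfl

theorem conjS_mono {g : H} {S T : Subgroup H} (h : S ≤ T) : conjS g S ≤ conjS g T := fun _ hy => h hy

theorem conjS_inv_conjS (g : H) (S : Subgroup H) : conjS g⁻¹ (conjS g S) = S := by
  ext y
  simp only [mem_conjS]
  have : g⁻¹ * (g⁻¹⁻¹ * y * g⁻¹) * g = y := by group
  rw [this]

theorem conjS_conjS_inv (g : H) (S : Subgroup H) : conjS g (conjS g⁻¹ S) = S := by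
  have := conjS_inv_conjS g⁻¹ S
  rwa [inv_inv] at this

theorem conjS_of_normal (g : H) {N : Subgroup H} (hN : N.Normal) : conjS g N = N := by
  ext y
  simp only [mem_conjS]
  constructor
  · intro h
    have := hN.conj_mem _ h g
    have h2 : g * (g⁻¹ * y * g) * g⁻¹ = y := by group
    rwa [h2] at this
  · intro h
    have := hN.conj_mem _ h g⁻¹
    simpa using this

theorem conjS_conj_inv_aux (g : H) (S : Subgroup H) : conjS g (conjS g⁻¹ S) = S :=
  conjS_conjS_inv g S

theorem conjS_ne_bot {g : H} {S : Subgroup H} (h : S ≠ ⊥) : conjS g S ≠ ⊥ := by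
  intro h1
  apply h
  rw [eq_bot_iff]
  intro y hy
  have h2 : g * y * g⁻¹ ∈ conjS g S := by
    simp only [mem_conjS]
    have : g⁻¹ * (g * y * g⁻¹) * g = y := by group
    rwa [this]
  rw [h1, mem_bot] at h2
  have h3 : y = g⁻¹ * (g * y * g⁻¹) * g := by group
  rw [h3, h2]
  simp

/-- Nontrivial normal subgroups have order divisible by `p`. -/
theorem dvd_card_of_normal (hO : pPrimeCore p H = ⊥) {K : Subgroup H} (hK : K.Normal) (h1 : K ≠ ⊥) :
    p ∣ Nat.card K := by
  by_contra hd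
  have hc : (Nat.card K).Coprime p :=
    (Nat.Prime.coprime_iff_not_dvd hp.out).mpr hd |>.symm
  have := le_pPrimeCore hK hc
  rw [hO, le_bot_iff] at this
  exact h1 this

/-- Every `p`-element is conjugate into a given Sylow subgroup. -/
theorem exists_conj_mem (P : Sylow p H) {x : H} (hpg : IsPGroup p (zpowers x)) :
    ∃ g : H, g * x * g⁻¹ ∈ (P : Subgroup H) := by
  obtain ⟨S, hS⟩ := hpg.exists_le_sylow
  obtain ⟨h, hh⟩ := MulAction.exists_smul_eq H P S
  have h1 : x ∈ (S : Subgroup H) := hS (mem_zpowers _)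
  rw [← hh, Sylow.coe_subgroup_smul, mem_smul_pointwise_iff_exists] at h1
  obtain ⟨s, hs, hsx⟩ := h1
  refine ⟨h⁻¹, ?_⟩
  have h2 : h⁻¹ * x * h⁻¹⁻¹ = s := by
    rw [← hsx]
    simp [MulAut.smul_def, MulAut.conj_apply]
    group
  rw [h2]
  exact hs

/-- A normal subgroup with order divisible by `p` meets each Sylow subgroup. -/
theorem exists_mem_inf (P : Sylow p H) {K : Subgroup H} (hK : K.Normal) (hd : p ∣ Nat.card K) :
    ∃ t ∈ K, t ∈ (P : Subgroup H) ∧ t ≠ 1 := by
  obtain ⟨x, hx⟩ := exists_prime_orderOf_dvd_card' p hd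
  have hxo : orderOf (x : H) = p := by rw [orderOf_coe]; exact hx
  have hpg : IsPGroup p (zpowers (x : H)) :=
    IsPGroup.of_card (n := 1) (by rw [Nat.card_zpowers, hxo, pow_one])
  obtain ⟨g, hg⟩ := exists_conj_mem P hpg
  refine ⟨_, hK.conj_mem _ x.2 g, hg, ?_⟩
  intro h
  have h1 : (x : H) = 1 := by
    have h2 : (x : H) = g⁻¹ * (g * x * g⁻¹) * g := by group
    rw [h2, h]
    simp
  rw [h1, orderOf_one] at hxo
  exact hp.out.one_lt.ne hxo

/-- The TI property in a convenient form. -/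
def IsTI (P : Subgroup H) : Prop :=
  ∀ g y : H, y ≠ 1 → y ∈ P → g * y * g⁻¹ ∈ P → g ∈ normalizer (P : Set H)

theorem isTI_of_hyp (P : Subgroup H)
    (hTI : ∀ g : H, g ∉ normalizer (P : Set H) → P ⊓ (MulAut.conj g • P) = ⊥) : IsTI P := by
  intro g y hy hyP hgy
  by_contra hg
  have h := hTI g hg
  have h1 : g * y * g⁻¹ ∈ P ⊓ (MulAut.conj g • P) := by
    refine mem_inf.mpr ⟨hgy, ?_⟩
    rw [mem_smul_pointwise_iff_exists]
    exact ⟨y, hyP, rfl⟩
  rw [h, mem_bot] at h1
  apply hy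
  have h2 : y = g⁻¹ * (g * y * g⁻¹) * g := by group
  rw [h2, h1]
  simp

theorem conjS_mem_normalizer {P : Subgroup H} {c g : H}
    (hg : c⁻¹ * g * c ∈ normalizer (P : Set H)) : g ∈ normalizer ((conjS c P : Subgroup H) : Set H) := by
  rw [mem_normalizer_iff] at hg ⊢
  intro h
  have h1 := hg (c⁻¹ * h * c)
  have h2 : c⁻¹ * g * c * (c⁻¹ * h * c) * (c⁻¹ * g * c)⁻¹ = c⁻¹ * (g * h * g⁻¹) * c := by group
  rw [h2] at h1
  exact h1

theorem isTI_conjS {P : Subgroup H} (hP : IsTI P) (c : H) : IsTI (conjS c P) := by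
  intro g y hy hyP hgy
  apply conjS_mem_normalizer
  refine hP (c⁻¹ * g * c) (c⁻¹ * y * c) ?_ hyP ?_
  · intro h
    apply hy
    have h2 : y = c * (c⁻¹ * y * c) * c⁻¹ := by group
    rw [h2, h]
    simp
  · have h2 : c⁻¹ * g * c * (c⁻¹ * y * c) * (c⁻¹ * g * c)⁻¹ = c⁻¹ * (g * y * g⁻¹) * c := by group
    rw [h2]
    exact hgy

/-- A normal subgroup inside the normalizer of a TI Sylow subgroup is trivial. -/
theorem eq_bot_of_le_normalizer (hO : pCore p H = ⊥) (hO' : pPrimeCore p H = ⊥) (P : Sylow p H)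
    {K : Subgroup H} (hK : K.Normal) (hle : K ≤ normalizer ((P : Subgroup H) : Set H)) : K = ⊥ := by
  by_contra h1
  obtain ⟨t, htK, htP, ht1⟩ := exists_mem_inf P hK (dvd_card_of_normal hO' hK h1)
  have hn : (K ⊓ (P : Subgroup H)).Normal := by
    refine ⟨fun u hu g => ⟨hK.conj_mem _ hu.1 g, ?_⟩⟩
    apply mem_of_normalizes P (hle (hK.conj_mem _ hu.1 g))
    exact isPGroup_zpowers_conj (isPGroup_zpowers_of_mem P.isPGroup' hu.2) g
  have hpg : IsPGroup p (K ⊓ (P : Subgroup H) : Subgroup H) := P.isPGroup'.to_le inf_le_right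
  have h2 := le_pCore hn hpg
  rw [hO, le_bot_iff] at h2
  have h3 : t ∈ K ⊓ (P : Subgroup H) := ⟨htK, htP⟩
  rw [h2, mem_bot] at h3
  exact ht1 h3

/-- Subgroups centralizing a nontrivial element of a TI subgroup normalize it. -/
theorem le_normalizer_of_commute {P : Subgroup H} (hP : IsTI P) {t : H} (ht : t ∈ P) (ht1 : t ≠ 1)
    {K : Subgroup H} (hK : ∀ k ∈ K, k * t = t * k) : K ≤ normalizer (P : Set H) := by
  intro k hk
  refine hP k t ht1 ht ?_
  rw [hK k hk]
  simpa using ht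


theorem pCore_sub_eq_bot (hO : pCore p H = ⊥) (N : Subgroup H) [hN : N.Normal] : pCore p N = ⊥ := by
  haveI hCc : (pCore p N).Characteristic := pCore_characteristic p
  have hnorm : ((pCore p N).map N.subtype).Normal := by
    have h3 := le_normalizer_map_of_characteristic (K := N) (pCore p N)
    rw [normalizer_eq_top_iff.mpr hN, top_le_iff] at h3
    exact normalizer_eq_top_iff.mp h3
  have hpg : IsPGroup p ((pCore p N).map N.subtype) := (pCore_isPGroup p).map _
  have hle := le_pCore hnorm hpg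
  rw [hO, le_bot_iff] at hle
  exact (map_eq_bot_iff_of_injective _ N.subtype_injective).mp hle

theorem pPrimeCore_sub_eq_bot (hO : pPrimeCore p H = ⊥) (N : Subgroup H) [hN : N.Normal] :
    pPrimeCore p N = ⊥ := by
  haveI hCc : (pPrimeCore p N).Characteristic := pPrimeCore_characteristic p
  have hnorm : ((pPrimeCore p N).map N.subtype).Normal := by
    have h3 := le_normalizer_map_of_characteristic (K := N) (pPrimeCore p N)
    rw [normalizer_eq_top_iff.mpr hN, top_le_iff] at h3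
    exact normalizer_eq_top_iff.mp h3
  have hcop : (Nat.card ((pPrimeCore p N).map N.subtype)).Coprime p := by
    rw [card_map_of_injective N.subtype_injective]
    exact pPrimeCore_coprime (G := N) p
  have hle := le_pPrimeCore hnorm hcop
  rw [hO, le_bot_iff] at hle
  exact (map_eq_bot_iff_of_injective _ N.subtype_injective).mp hle

/-- Subgroups of `H` normal in `N`. -/
def NormalIn (N S : Subgroup H) : Prop := S ≤ N ∧ ∀ n ∈ N, ∀ s ∈ S, n * s * n⁻¹ ∈ S

theorem NormalIn.subgroupOf_normal {N S : Subgroup H} (h : NormalIn N S) : (S.subgroupOf N).Normal := by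
  refine ⟨fun s hs n => ?_⟩
  rw [mem_subgroupOf] at hs ⊢
  exact h.2 n n.2 s hs

theorem NormalIn.conjS {N S : Subgroup H} (hN : N.Normal) (h : NormalIn N S) (g : H) :
    NormalIn N (conjS g S) := by
  refine ⟨fun y hy => ?_, fun n hn s hs => ?_⟩
  · have := h.1 hy
    rw [← conjS_of_normal g hN]
    exact this
  · simp only [mem_conjS] at hs ⊢
    have h1 := h.2 (g⁻¹ * n * g) (by
      have := hN.conj_mem _ hn g⁻¹
      simpa using this) _ hs
    have h2 : g⁻¹ * (n * s * n⁻¹) * g = g⁻¹ * n * g * (g⁻¹ * s * g) * (g⁻¹ * n * g)⁻¹ := by group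
    rw [h2]
    exact h1

/-- Nontrivial subgroups normal in a normal subgroup have order divisible by `p`. -/
theorem dvd_card_of_normalIn (hO : pPrimeCore p H = ⊥) {N S : Subgroup H} (hN : N.Normal)
    (h : NormalIn N S) (h1 : S ≠ ⊥) : p ∣ Nat.card S := by
  haveI := hN
  by_contra hd
  have hc : (Nat.card S).Coprime p :=
    (Nat.Prime.coprime_iff_not_dvd hp.out).mpr hd |>.symm
  have hc2 : (Nat.card (S.subgroupOf N)).Coprime p := by
    rw [(subgroupOfEquivOfLe h.1).toEquiv |> Nat.card_congr]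
    exact hc
  have h3 := le_pPrimeCore h.subgroupOf_normal hc2
  rw [pPrimeCore_sub_eq_bot hO N, le_bot_iff, subgroupOf_eq_bot] at h3
  apply h1
  rw [eq_bot_iff]
  exact fun y hy => (disjoint_iff_inf_le.mp h3) ⟨hy, h.1 hy⟩

/-- Main structural step: a minimal normal subgroup is simple. -/
theorem isSimple_of_minimal (hO : pCore p H = ⊥) (hO' : pPrimeCore p H = ⊥) (P : Sylow p H)
    (hTI : IsTI (P : Subgroup H)) {N : Subgroup H} (hN : N.Normal) (hN1 : N ≠ ⊥)
    (hmin : ∀ K : Subgroup H, K.Normal → K ≠ ⊥ → K ≤ N → N ≤ K) :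
    IsSimpleGroup N := by
  classical
  haveI := hN
  haveI : Nontrivial N := (nontrivial_iff_ne_bot N).mpr hN1
  refine ⟨fun M hM => ?_⟩
  by_contra hcon
  push Not at hcon
  obtain ⟨hMb, hMt⟩ := hcon
  let M' : Subgroup H := M.map N.subtype
  have hM' : NormalIn N M' := by
    refine ⟨map_subtype_le M, ?_⟩
    rintro n hn s ⟨s', hs', rfl⟩
    exact ⟨⟨n, hn⟩ * s' * ⟨n, hn⟩⁻¹, hM.conj_mem _ hs' _, rfl⟩
  have hM'b : M' ≠ ⊥ := by
    intro h
    exact hMb ((map_eq_bot_iff_of_injective _ N.subtype_injective).mp h)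
  have hM'N : M' ≠ N := by
    intro h
    apply hMt
    rw [eq_top_iff]
    intro y _
    have : (y : H) ∈ M' := by rw [h]; exact y.2
    obtain ⟨z, hz, hzy⟩ := this
    have : z = y := Subtype.ext hzy
    rwa [← this]
  -- a minimal member
  let 𝓢 : Set (Subgroup H) := {S | NormalIn N S ∧ S ≠ ⊥}
  obtain ⟨S, hSM, hS⟩ := (Set.toFinite 𝓢).exists_le_minimal (a := M') ⟨hM', hM'b⟩
  have hSN : S ≠ N := by
    intro h
    apply hM'N
    exact le_antisymm hM'.1 (h ▸ hSM)
  have hcnj : ∀ g : H, ∀ X : Subgroup H, NormalIn N X → X ≠ ⊥ → X ≤ conjS g S → conjS g S ≤ X := by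
    intro g X hX hXb hle
    have h1 : conjS g⁻¹ X ≤ S := by
      have := conjS_mono (g := g⁻¹) hle
      rwa [conjS_inv_conjS] at this
    have h2 : conjS g⁻¹ X ∈ 𝓢 := ⟨hX.conjS hN _, conjS_ne_bot hXb⟩
    have h3 : S ≤ conjS g⁻¹ X := hS.2 h2 h1
    have := conjS_mono (g := g) h3
    rwa [conjS_conj_inv_aux] at this
  -- a conjugate of `S` meeting `P`
  obtain ⟨x, hx⟩ := exists_prime_orderOf_dvd_card' p (dvd_card_of_normalIn hO' hN hS.1.1 hS.1.2)
  have hxo : orderOf (x : H) = p := by rw [orderOf_coe]; exact hx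
  have hxpg : IsPGroup p (zpowers (x : H)) :=
    IsPGroup.of_card (n := 1) (by rw [Nat.card_zpowers, hxo, pow_one])
  obtain ⟨c, hc⟩ := exists_conj_mem P hxpg
  have hx1 : (x : H) ≠ 1 := by
    intro h
    rw [h, orderOf_one] at hxo
    exact hp.out.one_lt.ne hxo
  let t : H := c * x * c⁻¹
  have ht1 : t ≠ 1 := by
    intro h
    apply hx1
    have h2 : (x : H) = c⁻¹ * (c * x * c⁻¹) * c := by group
    rw [h2]
    show c⁻¹ * t * c = 1
    rw [h]
    simp
  let S₁ := conjS c S
  have htS₁ : t ∈ S₁ := by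
    simp only [S₁, mem_conjS, t]
    have h2 : c⁻¹ * (c * (x : H) * c⁻¹) * c = x := by group
    rw [h2]
    exact x.2
  -- a conjugate different from `S₁`
  have hex : ∃ h : H, conjS h S₁ ≠ S₁ := by
    by_contra hall
    push Not at hall
    have hS₁n : S₁.Normal := by
      refine ⟨fun u hu g => ?_⟩
      have h1 := hall g
      rw [← h1]
      simp only [mem_conjS]
      have h2 : g⁻¹ * (g * u * g⁻¹) * g = u := by group
      rw [h2]
      exact hu
    have hS₁N : S₁ ≤ N := (hS.1.1.conjS hN c).1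
    have h1 := hmin S₁ hS₁n (conjS_ne_bot hS.1.2) hS₁N
    have h2 : N ≤ S := by
      have h3 := conjS_mono (g := c⁻¹) h1
      rwa [conjS_of_normal _ hN, conjS_inv_conjS] at h3
    exact hSN (le_antisymm hS.1.1.1 h2)
  obtain ⟨h, hh⟩ := hex
  let S₂ := conjS h S₁
  have hS₁i : NormalIn N S₁ := hS.1.1.conjS hN c
  have hS₂i : NormalIn N S₂ := hS₁i.conjS hN h
  have hS₂S : S₂ = conjS (h * c) S := by
    ext y
    simp only [S₂, S₁, mem_conjS]
    have : c⁻¹ * (h⁻¹ * y * h) * c = (h * c)⁻¹ * y * (h * c) := by group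
    rw [this]
  have hinf : S₁ ⊓ S₂ = ⊥ := by
    by_contra hne
    have hiN : NormalIn N (S₁ ⊓ S₂) :=
      ⟨inf_le_left.trans hS₁i.1, fun n hn s hs => ⟨hS₁i.2 n hn s hs.1, hS₂i.2 n hn s hs.2⟩⟩
    have h1 : S₁ ≤ S₁ ⊓ S₂ := hcnj c _ hiN hne inf_le_left
    have h2 : S₁ ≤ S₂ := h1.trans inf_le_right
    have h3 : S₂ ≤ S₁ := by
      rw [hS₂S]
      refine hcnj (h * c) S₁ hS₁i (conjS_ne_bot hS.1.2) ?_
      rw [← hS₂S]
      exact h2
    exact hh (le_antisymm h3 h2)
  have hcomm : ∀ b ∈ S₂, b * t = t * b := by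
    intro b hb
    have h1 : t * b * t⁻¹ * b⁻¹ ∈ S₁ ⊓ S₂ := by
      refine mem_inf.mpr ⟨?_, ?_⟩
      · have h2 := hS₁i.2 b (hS₂i.1 hb) _ (inv_mem htS₁)
        have h3 : t * b * t⁻¹ * b⁻¹ = t * (b * t⁻¹ * b⁻¹) := by group
        rw [h3]
        exact mul_mem htS₁ h2
      · have h2 := hS₂i.2 t (hS₁i.1 htS₁) _ hb
        exact mul_mem h2 (inv_mem hb)
    rw [hinf, mem_bot] at h1
    have h2 : t * b * t⁻¹ = b := by
      rwa [mul_inv_eq_one] at h1
    rw [mul_inv_eq_iff_eq_mul] at h2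
    exact h2.symm
  have hS₂P : S₂ ≤ normalizer ((P : Subgroup H) : Set H) :=
    le_normalizer_of_commute hTI hc ht1 hcomm
  -- `S₂` contains `p`-elements, which lie in `P`
  have hS₂b : S₂ ≠ ⊥ := conjS_ne_bot (conjS_ne_bot hS.1.2)
  obtain ⟨y, hy⟩ := exists_prime_orderOf_dvd_card' p (dvd_card_of_normalIn hO' hN hS₂i hS₂b)
  have hyo : orderOf (y : H) = p := by rw [orderOf_coe]; exact hy
  have hypg : IsPGroup p (zpowers (y : H)) :=
    IsPGroup.of_card (n := 1) (by rw [Nat.card_zpowers, hyo, pow_one])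
  have hyP : (y : H) ∈ (P : Subgroup H) := mem_of_normalizes P (hS₂P y.2) hypg
  have hy1 : (y : H) ≠ 1 := by
    intro h
    rw [h, orderOf_one] at hyo
    exact hp.out.one_lt.ne hyo
  have hL : NormalIn N (S₂ ⊓ (P : Subgroup H)) := by
    refine ⟨inf_le_left.trans hS₂i.1, fun n hn s hs => ⟨hS₂i.2 n hn s hs.1, ?_⟩⟩
    apply mem_of_normalizes P (hS₂P (hS₂i.2 n hn s hs.1))
    exact isPGroup_zpowers_conj (isPGroup_zpowers_of_mem P.isPGroup' hs.2) n
  have hLp : IsPGroup p ((S₂ ⊓ (P : Subgroup H)).subgroupOf N) := by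
    intro g
    obtain ⟨k, hk⟩ := P.isPGroup' ⟨g.1.1, (mem_subgroupOf.mp g.2).2⟩
    have h7 : ((g.1.1 : H)) ^ p ^ k = 1 := by
      have := congrArg (fun z : (P : Subgroup H) => (z : H)) hk
      simpa using this
    refine ⟨k, Subtype.ext (Subtype.ext ?_)⟩
    simpa using h7
  have h5 := le_pCore hL.subgroupOf_normal hLp
  rw [pCore_sub_eq_bot hO N, le_bot_iff] at h5
  have h6 : (⟨y, hS₂i.1 y.2⟩ : N) ∈ (S₂ ⊓ (P : Subgroup H)).subgroupOf N := by
    rw [mem_subgroupOf]
    exact ⟨y.2, hyP⟩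
  rw [h5, mem_bot] at h6
  exact hy1 (congrArg Subtype.val h6)

/-- The socle theorem. -/
theorem main (hO : pCore p H = ⊥) (hO' : pPrimeCore p H = ⊥) (P : Sylow p H)
    (hP1 : (P : Subgroup H) ≠ ⊥)
    (hTI' : ∀ g : H, g ∉ normalizer ((P : Subgroup H) : Set H) →
      (P : Subgroup H) ⊓ (MulAut.conj g • (P : Subgroup H)) = ⊥) :
    ∃ N : Subgroup H, N.Normal ∧ N ≠ ⊥ ∧ (∀ K : Subgroup H, K.Normal → K ≠ ⊥ → N ≤ K) ∧
      IsSimpleGroup N ∧ ¬ IsMulCommutative N ∧ centralizer (N : Set H) = ⊥ ∧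
      ∀ Q : Sylow p N, (Q : Subgroup N) ≠ ⊥ ∧
        ∀ n : N, n ∉ normalizer ((Q : Subgroup N) : Set N) →
          (Q : Subgroup N) ⊓ (MulAut.conj n • (Q : Subgroup N)) = ⊥ := by
  classical
  have hTI := isTI_of_hyp (P : Subgroup H) hTI'
  have hnt : (⊤ : Subgroup H) ≠ ⊥ := by
    intro h
    apply hP1
    rw [eq_bot_iff]
    intro y _
    have : y ∈ (⊤ : Subgroup H) := trivial
    rwa [h] at this
  let 𝓝 : Set (Subgroup H) := {K | K.Normal ∧ K ≠ ⊥}
  obtain ⟨N, -, hN⟩ := (Set.toFinite 𝓝).exists_le_minimal (a := ⊤) ⟨inferInstance, hnt⟩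
  have hNn : N.Normal := hN.1.1
  have hN1 : N ≠ ⊥ := hN.1.2
  have hmin : ∀ K : Subgroup H, K.Normal → K ≠ ⊥ → K ≤ N → N ≤ K :=
    fun K hK hK1 hle => hN.2 ⟨hK, hK1⟩ hle
  obtain ⟨t, htN, htP, ht1⟩ := exists_mem_inf P hNn (dvd_card_of_normal hO' hNn hN1)
  -- normal subgroups commuting with `N` are trivial
  have hcent : centralizer (N : Set H) = ⊥ := by
    haveI := hNn
    apply eq_bot_of_le_normalizer hO hO' P inferInstance
    refine le_normalizer_of_commute hTI htP ht1 fun k hk => ?_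
    exact ((mem_centralizer_iff.mp hk) t htN).symm
  have huniq : ∀ K : Subgroup H, K.Normal → K ≠ ⊥ → N ≤ K := by
    intro K hK hK1
    by_contra hle
    have hinf : N ⊓ K = ⊥ := by
      by_contra hne
      have h1 : (N ⊓ K).Normal := inferInstance
      exact hle ((hmin _ h1 hne inf_le_left).trans inf_le_right)
    apply hK1
    apply eq_bot_of_le_normalizer hO hO' P hK
    refine le_normalizer_of_commute hTI htP ht1 fun k hk => ?_
    have := Subgroup.commute_of_normal_of_disjoint N K hNn hK (disjoint_iff.mpr hinf) t k htN hk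
    exact this.eq.symm
  refine ⟨N, hNn, hN1, huniq, isSimple_of_minimal hO hO' P hTI hNn hN1 hmin, ?_, hcent, ?_⟩
  · intro hcomm
    apply hN1
    rw [eq_bot_iff, ← hcent]
    intro a ha
    rw [mem_centralizer_iff]
    intro b hb
    have := hcomm.1.comm ⟨b, hb⟩ ⟨a, ha⟩
    exact congrArg Subtype.val this
  · intro Q
    have hdN : p ∣ Nat.card N := dvd_card_of_normal hO' hNn hN1
    refine ⟨Q.ne_bot_of_dvd_card hdN, fun n hn => ?_⟩
    by_contra hne
    obtain ⟨⟨u, hu⟩, hu1⟩ := (Subgroup.ne_bot_iff_exists_ne_one).mp hne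
    have hu1' : u ≠ 1 := fun h => hu1 (Subtype.ext h)
    have hQp : IsPGroup p ((Q : Subgroup N).map N.subtype) := Q.isPGroup'.map _
    obtain ⟨R, hR⟩ := hQp.exists_le_sylow
    obtain ⟨c, hc⟩ := MulAction.exists_smul_eq H P R
    have hRc : (R : Subgroup H) = conjS c (P : Subgroup H) := by
      ext y
      rw [← hc, Sylow.coe_subgroup_smul, mem_smul_pointwise_iff_exists, mem_conjS]
      constructor
      · rintro ⟨s, hs, rfl⟩
        have : c⁻¹ * (MulAut.conj c • s) * c = s := by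
          simp [MulAut.smul_def, MulAut.conj_apply]
          group
        rwa [this]
      · intro h
        refine ⟨_, h, ?_⟩
        simp [MulAut.smul_def, MulAut.conj_apply]
        group
    have hTIR : IsTI (R : Subgroup H) := by
      rw [hRc]
      exact isTI_conjS hTI c
    have hQR : ∀ q : N, q ∈ (Q : Subgroup N) ↔ (q : H) ∈ (R : Subgroup H) := by
      intro q
      constructor
      · intro hq
        exact hR ⟨q, hq, rfl⟩
      · intro hq
        have hW : IsPGroup p ((R : Subgroup H).subgroupOf N) := by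
          intro g
          obtain ⟨k, hk⟩ := R.isPGroup' ⟨g.1.1, mem_subgroupOf.mp g.2⟩
          have h7 : ((g.1.1 : H)) ^ p ^ k = 1 := by
            have := congrArg (fun z : (R : Subgroup H) => (z : H)) hk
            simpa using this
          refine ⟨k, Subtype.ext (Subtype.ext ?_)⟩
          simpa using h7
        have hle : (Q : Subgroup N) ≤ (R : Subgroup H).subgroupOf N := by
          intro q' hq'
          rw [mem_subgroupOf]
          exact hR ⟨q', hq', rfl⟩
        have := Q.is_maximal' hW hle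
        rw [← this, mem_subgroupOf]
        exact hq
    have hu2 := (mem_inf.mp hu).2
    rw [mem_smul_pointwise_iff_exists] at hu2
    obtain ⟨v, hv, hvu⟩ := hu2
    have hvu' : (n : N) * v * n⁻¹ = u := hvu
    have huQ := (mem_inf.mp hu).1
    have hv1 : ((v : N) : H) ≠ 1 := by
      intro h
      have h1 : v = 1 := Subtype.ext h
      apply hu1'
      rw [← hvu', h1]
      simp
    have hnR : (n : H) ∈ normalizer ((R : Subgroup H) : Set H) := by
      refine hTIR n v hv1 ((hQR v).mp hv) ?_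
      have := (hQR u).mp huQ
      rw [← hvu'] at this
      simpa using this
    apply hn
    rw [mem_normalizer_iff]
    intro q
    rw [hQR q, hQR (n * q * n⁻¹)]
    have := (mem_normalizer_iff.mp hnR) (q : H)
    simpa using this

end Cfsg.Agent.Lib.Char.TISylow
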