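import Cfsg.Agent.Lib.Char.DefectZero

/-!
# Character tables restricted to the fixed points of a `p`-group

If a `p`-group `Q` acts compatibly on the rows and the columns of a matrix over the local ring whose
inverse also has local coefficients and is compatible with the action, then the restriction to the
`Q`-fixed rows and columns is still invertible.  So compatible permutations of fixed rows and
fixed columns have equally many fixed points.
-/

set_option autoImplicit false
set_option linter.unusedSectionVars false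

namespace Cfsg.Agent.Lib.Char.TabFix

open Cfsg Cfsg.Agent.Lib.Blocks Cfsg.Agent.Lib.Char Matrix
open scoped ComplexConjugate

variable {p : ℕ} {M : Ideal AlgInt}

/-- The sum of an invariant function over the points moved by a `p`-group lies in the local ideal. -/
theorem sum_local_fixed (hM : IsPModular p M) {Q Y : Type*} [Group Q] [Finite Q] (hQ : IsPGroup p Q)
    [MulAction Q Y] [Fintype Y] [DecidablePred fun y : Y => ∀ u : Q, u • y = y] (f : Y → ℂ) (hf : ∀ y, MemLocalRing M (f y))
    (hinv : ∀ (u : Q) (y : Y), f (u • y) = f y) :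
    MemLocalIdeal M (∑ y, f y - ∑ y : {y : Y // ∀ u : Q, u • y = y}, f y) := by
  classical
  haveI := isPrime_of_modular hM
  haveI : Fact p.Prime := ⟨hM.1⟩
  let Ω := MulAction.orbitRel.Quotient Q Y
  let q : Y → Ω := fun y => Quotient.mk (MulAction.orbitRel Q Y) y
  have hsum : ∑ y, f y - ∑ y : {y : Y // ∀ u : Q, u • y = y}, f y =
      ∑ y, (if ∀ u : Q, u • y = y then 0 else f y) := by
    have h1 : ∑ y : {y : Y // ∀ u : Q, u • y = y}, f y =
        ∑ y, (if ∀ u : Q, u • y = y then f y else 0) := by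
      rw [← Finset.sum_filter, ← Finset.sum_subtype_eq_sum_filter]
      simp only [Finset.subtype_univ]
    rw [h1, ← Finset.sum_sub_distrib]
    refine Finset.sum_congr rfl fun y _ => ?_
    split_ifs <;> simp
  rw [hsum, ← Finset.sum_fiberwise (s := Finset.univ) (g := q)]
  apply MemLocalIdeal.sum
  intro ω _
  obtain ⟨y₀, rfl⟩ : ∃ y₀, q y₀ = ω := Quotient.exists_rep ω
  have hq : ∀ y, q y = q y₀ ↔ y ∈ MulAction.orbit Q y₀ := fun y => by
    show Quotient.mk _ y = Quotient.mk _ y₀ ↔ _
    rw [Quotient.eq]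
    exact MulAction.orbitRel_apply
  by_cases hfix : ∀ u : Q, u • y₀ = y₀
  · rw [Finset.sum_eq_zero]
    · exact memLocalIdeal_zero
    · intro y hy
      rw [Finset.mem_filter] at hy
      obtain ⟨u, rfl⟩ := (hq y).1 hy.2
      have : ∀ v : Q, v • (fun m => m • y₀) u = (fun m => m • y₀) u := by
        intro v
        show v • u • y₀ = u • y₀
        rw [hfix, hfix]
      rw [if_pos this]
  · have hstep : ∀ y ∈ Finset.univ.filter (fun y => q y = q y₀),
        (if ∀ u : Q, u • y = y then 0 else f y) = f y₀ := by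
      intro y hy
      rw [Finset.mem_filter] at hy
      obtain ⟨u, rfl⟩ := (hq y).1 hy.2
      have hne : ¬ ∀ v : Q, v • (fun m => m • y₀) u = (fun m => m • y₀) u := by
        intro h
        apply hfix
        have h1 : y₀ = u • y₀ := by
          have := h u⁻¹
          simpa using this
        intro v
        rw [h1]
        exact h v
      rw [if_neg hne]
      exact hinv u y₀
    rw [Finset.sum_congr rfl hstep, Finset.sum_const, nsmul_eq_mul]
    apply MemLocalIdeal.mul_right _ (hf y₀)
    rw [natCast_memLocalIdeal_iff hM]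
    have hcard : (Finset.univ.filter (fun y => q y = q y₀)).card = Nat.card (MulAction.orbit Q y₀) := by
      rw [Nat.card_eq_fintype_card, ← Fintype.card_coe]
      refine Fintype.card_congr (Equiv.subtypeEquivRight fun y => ?_)
      rw [Finset.mem_filter]
      simp [hq]
    rw [hcard]
    obtain ⟨n, hn⟩ := hQ.card_orbit y₀
    rw [hn]
    rcases n with _ | n
    · exfalso
      apply hfix
      rw [pow_zero] at hn
      intro u
      have h1 : Subsingleton (MulAction.orbit Q y₀) := (Nat.card_eq_one_iff_unique.mp hn).1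
      have h2 := h1.elim ⟨u • y₀, MulAction.mem_orbit _ _⟩ ⟨y₀, MulAction.mem_orbit_self _⟩
      exact congrArg Subtype.val h2
    · exact dvd_pow_self p (Nat.succ_ne_zero n)

/-- Two compatible maps preserving the fixed rows and columns have equally many fixed points
there. -/
theorem card_fixed_eq_of_table (hM : IsPModular p M) {Q X Y : Type*} [Group Q] [Finite Q]
    (hQ : IsPGroup p Q) [MulAction Q X] [MulAction Q Y] [Fintype X] [Fintype Y]
    [DecidableEq X] [DecidableEq Y]
    (a : Matrix X Y ℂ) (b : Matrix Y X ℂ) (ha : ∀ x y, MemLocalRing M (a x y))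
    (hb : ∀ y x, MemLocalRing M (b y x))
    (hainv : ∀ (u : Q) (x : X) (y : Y), a (u • x) (u • y) = a x y)
    (hbinv : ∀ (u : Q) (x : X) (y : Y), b (u • y) (u • x) = b y x)
    (hab : a * b = 1) (hba : b * a = 1)
    (π₁ : X → X) (π₂ : Y → Y)
    (h1 : ∀ x, (∀ u : Q, u • x = x) → ∀ u : Q, u • π₁ x = π₁ x)
    (h2 : ∀ y, (∀ u : Q, u • y = y) → ∀ u : Q, u • π₂ y = π₂ y)
    (hπ : ∀ x y, (∀ u : Q, u • x = x) → (∀ u : Q, u • y = y) → a (π₁ x) y = a x (π₂ y)) :
    Nat.card {x : X // (∀ u : Q, u • x = x) ∧ π₁ x = x} =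
      Nat.card {y : Y // (∀ u : Q, u • y = y) ∧ π₂ y = y} := by
  classical
  haveI := isPrime_of_modular hM
  let I := {x : X // ∀ u : Q, u • x = x}
  let J := {y : Y // ∀ u : Q, u • y = y}
  let D : Matrix I J ℂ := fun x y => a x.1 y.1
  let D' : Matrix J I ℂ := fun y x => b y.1 x.1
  have hU : ∀ s t : I, MemLocalIdeal M ((D * D') s t - (1 : Matrix I I ℂ) s t) := by
    intro s t
    have h := sum_local_fixed hM hQ (fun y => a s.1 y * b y t.1)
      (fun y => MemLocalRing.mul (ha _ _) (hb _ _)) (by
        intro u y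
        show a s.1 (u • y) * b (u • y) t.1 = a s.1 y * b y t.1
        have h3 := hainv u s.1 y
        have h4 := hbinv u t.1 y
        rw [s.2 u] at h3
        rw [t.2 u] at h4
        rw [h3, h4])
    have h5 : ∑ y, a s.1 y * b y t.1 = (1 : Matrix I I ℂ) s t := by
      have h6 := congrFun (congrFun hab s.1) t.1
      rw [Matrix.mul_apply] at h6
      rw [h6]
      by_cases hst : s = t
      · subst hst; simp
      · have hst' : s.1 ≠ t.1 := fun h => hst (Subtype.ext h)
        rw [Matrix.one_apply_ne hst, Matrix.one_apply_ne hst']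
    rw [h5] at h
    apply MemLocalIdeal.symm
    rw [Matrix.mul_apply]
    exact h
  have hV : ∀ s t : J, MemLocalIdeal M ((D' * D) s t - (1 : Matrix J J ℂ) s t) := by
    intro s t
    have h := sum_local_fixed hM hQ (fun x => b s.1 x * a x t.1)
      (fun x => MemLocalRing.mul (hb _ _) (ha _ _)) (by
        intro u x
        show b s.1 (u • x) * a (u • x) t.1 = b s.1 x * a x t.1
        have h3 := hainv u x t.1
        have h4 := hbinv u x s.1
        rw [s.2 u] at h4
        rw [t.2 u] at h3
        rw [h3, h4])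
    have h5 : ∑ x, b s.1 x * a x t.1 = (1 : Matrix J J ℂ) s t := by
      have h6 := congrFun (congrFun hba s.1) t.1
      rw [Matrix.mul_apply] at h6
      rw [h6]
      by_cases hst : s = t
      · subst hst; simp
      · have hst' : s.1 ≠ t.1 := fun h => hst (Subtype.ext h)
        rw [Matrix.one_apply_ne hst, Matrix.one_apply_ne hst']
    rw [h5] at h
    apply MemLocalIdeal.symm
    rw [Matrix.mul_apply]
    exact h
  have hUu : IsUnit (D * D').det := isUnit_iff_ne_zero.mpr (det_ne_zero_of_congr (M := M) _ hU)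
  have hVu : IsUnit (D' * D).det := isUnit_iff_ne_zero.mpr (det_ne_zero_of_congr (M := M) _ hV)
  have hUU : (D * D') * (D * D')⁻¹ = 1 := Matrix.mul_nonsing_inv _ hUu
  have hUU' : (D * D')⁻¹ * (D * D') = 1 := Matrix.nonsing_inv_mul _ hUu
  have hVV : (D' * D) * (D' * D)⁻¹ = 1 := Matrix.mul_nonsing_inv _ hVu
  let E : Matrix J I ℂ := D' * (D * D')⁻¹
  have hDE : D * E = 1 := by
    show D * (D' * (D * D')⁻¹) = 1
    rw [← Matrix.mul_assoc, hUU]
  have hED : E * D = 1 := by
    have h3 : (D * D')⁻¹ * D = D * (D' * D)⁻¹ := by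
      calc (D * D')⁻¹ * D = (D * D')⁻¹ * D * ((D' * D) * (D' * D)⁻¹) := by rw [hVV, Matrix.mul_one]
        _ = (D * D')⁻¹ * (D * D') * (D * (D' * D)⁻¹) := by simp only [Matrix.mul_assoc]
        _ = D * (D' * D)⁻¹ := by rw [hUU', Matrix.one_mul]
    calc E * D = D' * ((D * D')⁻¹ * D) := Matrix.mul_assoc _ _ _
      _ = D' * (D * (D' * D)⁻¹) := by rw [h3]
      _ = (D' * D) * (D' * D)⁻¹ := (Matrix.mul_assoc _ _ _).symm
      _ = 1 := hVV
  let PI : Matrix I I ℂ := fun x x' => if π₁ x.1 = x'.1 then 1 else 0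
  let PJ : Matrix J J ℂ := fun y' y => if y'.1 = π₂ y.1 then 1 else 0
  have hcomm : PI * D = D * PJ := by
    ext x y
    rw [Matrix.mul_apply, Matrix.mul_apply]
    rw [Finset.sum_eq_single (⟨π₁ x.1, h1 x.1 x.2⟩ : I),
      Finset.sum_eq_single (⟨π₂ y.1, h2 y.1 y.2⟩ : J)]
    · simp only [PI, PJ, if_true, one_mul, mul_one]
      exact hπ x.1 y.1 x.2 y.2
    · intro y' _ hy'
      have : y'.1 ≠ π₂ y.1 := fun h => hy' (Subtype.ext h)
      simp [PJ, this]
    · intro h; exact absurd (Finset.mem_univ _) h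
    · intro x' _ hx'
      have : π₁ x.1 ≠ x'.1 := fun h => hx' (Subtype.ext h.symm)
      simp [PI, this]
    · intro h; exact absurd (Finset.mem_univ _) h
  have htr : Matrix.trace PI = Matrix.trace PJ := by
    calc Matrix.trace PI = Matrix.trace (PI * (D * E)) := by rw [hDE, Matrix.mul_one]
      _ = Matrix.trace (D * PJ * E) := by rw [← hcomm, Matrix.mul_assoc]
      _ = Matrix.trace (D * (PJ * E)) := by rw [Matrix.mul_assoc]
      _ = Matrix.trace (PJ * E * D) := Matrix.trace_mul_comm _ _
      _ = Matrix.trace (PJ * (E * D)) := by rw [Matrix.mul_assoc]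
      _ = Matrix.trace PJ := by rw [hED, Matrix.mul_one]
  have htrI : Matrix.trace PI = (Nat.card {x : X // (∀ u : Q, u • x = x) ∧ π₁ x = x} : ℂ) := by
    have e : {x : X // (∀ u : Q, u • x = x) ∧ π₁ x = x} ≃ {x : I // π₁ x.1 = x.1} :=
      (Equiv.subtypeSubtypeEquivSubtypeInter _ _).symm
    have h3 : Matrix.trace PI = ∑ x : I, (if π₁ x.1 = x.1 then (1 : ℂ) else 0) := rfl
    rw [Nat.card_congr e, Nat.card_eq_fintype_card, Fintype.card_subtype, h3, Finset.sum_boole]
  have htrJ : Matrix.trace PJ = (Nat.card {y : Y // (∀ u : Q, u • y = y) ∧ π₂ y = y} : ℂ) := by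
    have e : {y : Y // (∀ u : Q, u • y = y) ∧ π₂ y = y} ≃ {y : J // π₂ y.1 = y.1} :=
      (Equiv.subtypeSubtypeEquivSubtypeInter _ _).symm
    have h3 : Matrix.trace PJ = ∑ y : J, (if y.1 = π₂ y.1 then (1 : ℂ) else 0) := rfl
    rw [Nat.card_congr e, Nat.card_eq_fintype_card, Fintype.card_subtype, h3, Finset.sum_boole]
    simp only [eq_comm]
  rw [htrI, htrJ] at htr
  exact_mod_cast htr

end Cfsg.Agent.Lib.Char.TabFix
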