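import Cfsg.Agent.Lib.Char.Equiv
import Cfsg.Agent.Lib.Char.Schur

/-!
# Schur's lemma for tensor products of characters

If `χ χ'` is irreducible, then
`χ(1)χ'(1) ∑_g χ(g a g⁻¹ x) χ'(g b g⁻¹ y) = |G| χ(a) χ'(b) χ(x) χ'(y)`.
-/

set_option autoImplicit false

namespace Cfsg.Agent.Lib.Char

open Cfsg Module
open scoped TensorProduct

universe u

variable {G : Type u} [Group G] [Fintype G]

theorem sum_conj_tensor {χ χ' : G → ℂ} (hχ : IsCharacter G χ) (hχ' : IsCharacter G χ')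
    (hψ : IsIrrCharacter G (fun g => χ g * χ' g)) (a b x y : G) :
    (χ 1 * χ' 1) * ∑ g : G, χ (g * a * g⁻¹ * x) * χ' (g * b * g⁻¹ * y) =
      (Nat.card G : ℂ) * (χ a * χ' b * (χ x * χ' y)) := by
  classical
  obtain ⟨n, ρ, rfl⟩ := hχ
  obtain ⟨m, σ, rfl⟩ := hχ'
  obtain ⟨k, τ, hτ, hτc⟩ := hψ
  set T := Representation.tprod ρ σ with hT
  have hTc : T.character = fun g => ρ.character g * σ.character g := by
    rw [hT, Representation.char_tensor]
    rfl
  obtain ⟨φ⟩ := equiv_of_character_eq τ T (by rw [hτc, hTc])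
  haveI : T.IsIrreducible := isIrreducible_of_equiv φ
  let B : Module.End ℂ ((Fin n → ℂ) ⊗[ℂ] (Fin m → ℂ)) := TensorProduct.map (ρ a) (σ b)
  let X : Module.End ℂ ((Fin n → ℂ) ⊗[ℂ] (Fin m → ℂ)) := ∑ g : G, T g * B * T g⁻¹
  have hXg : ∀ g : G, T g * B * T g⁻¹ = TensorProduct.map (ρ (g * a * g⁻¹)) (σ (g * b * g⁻¹)) := by
    intro g
    simp only [hT, Representation.tprod_apply, B, map_mul]
    rw [Module.End.mul_eq_comp, Module.End.mul_eq_comp, ← TensorProduct.map_comp,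
      ← TensorProduct.map_comp]
    rfl
  have hcomm : ∀ h : G, X * T h = T h * X := by
    intro h
    simp only [X, Finset.sum_mul, Finset.mul_sum]
    symm
    refine Fintype.sum_equiv (Equiv.mulLeft h) _ _ fun g => ?_
    simp only [Equiv.coe_mulLeft]
    rw [mul_inv_rev, map_mul, map_mul]
    have h1 : T h⁻¹ * T h = 1 := by rw [← map_mul]; simp
    calc T h * (T g * B * T g⁻¹) = T h * T g * B * T g⁻¹ * (T h⁻¹ * T h) := by
          rw [h1]; noncomm_ring
      _ = _ := by noncomm_ring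
  obtain ⟨c, hc⟩ := schur_scalar T X (fun h => hcomm h)
  have htr : ∀ x y : G, LinearMap.trace ℂ _ (X * TensorProduct.map (ρ x) (σ y)) =
      ∑ g : G, ρ.character (g * a * g⁻¹ * x) * σ.character (g * b * g⁻¹ * y) := by
    intro x y
    simp only [X, Finset.sum_mul, map_sum, hXg]
    refine Finset.sum_congr rfl fun g _ => ?_
    rw [Module.End.mul_eq_comp, ← TensorProduct.map_comp, LinearMap.trace_tensorProduct']
    show LinearMap.trace ℂ (Fin n → ℂ) (ρ (g * a * g⁻¹) ∘ₗ ρ x) *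
        LinearMap.trace ℂ (Fin m → ℂ) (σ (g * b * g⁻¹) ∘ₗ σ y) =
      LinearMap.trace ℂ (Fin n → ℂ) (ρ (g * a * g⁻¹ * x)) *
        LinearMap.trace ℂ (Fin m → ℂ) (σ (g * b * g⁻¹ * y))
    rw [map_mul ρ (g * a * g⁻¹) x, map_mul σ (g * b * g⁻¹) y]
    rfl
  have h1 := htr x y
  have h2 := htr 1 1
  have hXeq : X = c • (1 : Module.End ℂ ((Fin n → ℂ) ⊗[ℂ] (Fin m → ℂ))) := hc
  rw [hXeq, smul_mul_assoc, one_mul, map_smul, LinearMap.trace_tensorProduct', smul_eq_mul] at h1 h2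
  simp only [Representation.character, map_one, mul_one] at h1 h2
  have h3 : ∀ g : G, LinearMap.trace ℂ (Fin n → ℂ) (ρ (g * a * g⁻¹)) = LinearMap.trace ℂ (Fin n → ℂ) (ρ a) :=
    fun g => Representation.char_conj ρ a g
  have h4 : ∀ g : G, LinearMap.trace ℂ (Fin m → ℂ) (σ (g * b * g⁻¹)) = LinearMap.trace ℂ (Fin m → ℂ) (σ b) :=
    fun g => Representation.char_conj σ b g
  simp only [h3, h4, Finset.sum_const, Finset.card_univ, nsmul_eq_mul] at h2
  rw [← Nat.card_eq_fintype_card] at h2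
  simp only [Representation.character]
  simp only [map_one]
  rw [← h1]
  linear_combination (LinearMap.trace ℂ (Fin n → ℂ) (ρ x) * LinearMap.trace ℂ (Fin m → ℂ) (σ y)) * h2

end Cfsg.Agent.Lib.Char
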