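import Cfsg.Agent.Lib.Char.ZassFeit
import Cfsg.Agent.Lib.OddChar.FrobEnd
import Cfsg.Agent.Lib.Perm.ZSub
import Cfsg.Agent.S0042
import Cfsg.Agent.S0878

/-!
# Feit's theorem on Zassenhaus groups.
-/

set_option autoImplicit false

namespace Cfsg.Agent.Lib.Char.Zass

open Cfsg Cfsg.Agent.Lib.Char Cfsg.Agent.Lib.OddChar
open scoped Pointwise

universe u v

section Kernel

variable {G : Type u} {Ω : Type v} [Group G] [Finite G] [MulAction G Ω] [Fintype Ω]

/-- The kernel of the stabilizer of a point is nilpotent. -/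
theorem kernel_nilpotent (hZ : IsZassenhausGroup G Ω) {a b : Ω} (hab : a ≠ b) {H : Subgroup G}
    (hHa : H ≤ MulAction.stabilizer G a)
    (hHfix : ∀ u ∈ H, u ≠ 1 → ∀ c : Ω, u • c = c → c = a) : Group.IsNilpotent H := by
  classical
  let S : Subgroup G := MulAction.stabilizer G a
  let E' : Subgroup G := MulAction.stabilizer G a ⊓ MulAction.stabilizer G b
  let K : Subgroup S := E'.subgroupOf S
  have hmemK : ∀ s : S, s ∈ K ↔ (s : G) • b = b := by
    intro s
    constructor
    · intro h
      exact (Subgroup.mem_subgroupOf.mp h).2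
    · intro h
      exact Subgroup.mem_subgroupOf.mpr ⟨s.2, h⟩
  have hconj : ∀ (w v : S), v ∈ MulAut.conj w • K ↔ ((w : G)⁻¹ * v * w) • b = b := by
    intro w v
    rw [Subgroup.mem_pointwise_smul_iff_inv_smul_mem, hmemK]
    have : (((MulAut.conj w)⁻¹ • v : S) : G) = (w : G)⁻¹ * v * w := by
      simp [MulAut.smul_def]
    rw [this]
  have hK : IsFrobeniusComplement K := by
    refine ⟨?_, ?_, ?_⟩
    · intro h
      obtain ⟨x, hx1, hxa, hxb⟩ := exists_ne_one_fix hZ hab
      have h1 : (⟨x, hxa⟩ : S) ∈ K := (hmemK _).mpr hxb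
      rw [h, Subgroup.mem_bot] at h1
      exact hx1 (congrArg Subtype.val h1)
    · intro h
      obtain ⟨c, hca, hcb⟩ := exists_third hZ hab
      obtain ⟨w, hw1, hw2⟩ := two_trans hZ hab (Ne.symm hca)
      have h1 : (⟨w, hw1⟩ : S) ∈ K := by
        rw [h]
        trivial
      have h2 := (hmemK _).mp h1
      apply hcb
      rw [← hw2]
      exact h2
    · intro g hg
      rw [Subgroup.eq_bot_iff_forall]
      rintro x ⟨hx1, hx2⟩
      have hgb : (g : G) • b ≠ b := fun h => hg ((hmemK g).mpr h)
      have hga : (g : G) • a = a := g.2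
      have hxb : (x : G) • b = b := (hmemK x).mp hx1
      have hxa : (x : G) • a = a := x.2
      have hxc : ((g : G)⁻¹ * x * g) • b = b := (hconj g x).mp (by exact hx2)
      have hxc' : (x : G) • ((g : G) • b) = (g : G) • b := by
        rw [mul_smul, mul_smul, inv_smul_eq_iff] at hxc
        exact hxc
      have hgba : (g : G) • b ≠ a := by
        intro h
        apply hab
        have : (g : G) • b = (g : G) • a := by rw [h, hga]
        exact (smul_left_cancel _ this).symm
      apply Subtype.ext
      exact eq_one_of_three hZ hab hgb.symm hgba.symm hxa hxb hxc'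
  obtain ⟨N, hNset, -, hnil⟩ := Cfsg.Agent.S0042.result K hK
  have hmemN : ∀ u : H, (⟨u, hHa u.2⟩ : S) ∈ N := by
    intro u
    have h1 : (⟨u, hHa u.2⟩ : S) ∈ frobeniusKernel K := by
      by_cases hu : (u : G) = 1
      · left
        exact Subtype.ext hu
      · right
        intro g hg
        have h2 := (hconj g _).mp hg
        have h3 : (u : G) • ((g : G) • b) = (g : G) • b := by
          rw [mul_smul, mul_smul, inv_smul_eq_iff] at h2
          exact h2
        have h4 := hHfix u u.2 hu _ h3
        apply hab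
        have h5 : (g : G) • a = a := g.2
        have : (g : G) • b = (g : G) • a := by rw [h4, h5]
        exact (smul_left_cancel _ this).symm
    rw [← hNset] at h1
    exact h1
  let f : H →* N :=
    { toFun := fun u => ⟨⟨u, hHa u.2⟩, hmemN u⟩
      map_one' := rfl
      map_mul' := fun _ _ => rfl }
  have hf : Function.Injective f := by
    intro x y hxy
    have h1 := congrArg (fun z : N => ((z : S) : G)) hxy
    exact Subtype.ext h1
  exact nilpotent_of_mulEquiv (MonoidHom.ofInjective hf).symm

end Kernel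

section Simple

variable {G : Type u} {Ω : Type v} [Group G] [Fintype G] [MulAction G Ω] [Fintype Ω]

theorem commutator_eq_subgroupOf (H : Subgroup G) : commutator H = ⁅H, H⁆.subgroupOf H := by
  rw [← H.map_subtype_commutator]
  exact (Subgroup.comap_map_eq_self_of_injective H.subtype_injective _).symm

/-- Feit's theorem for simple groups. -/
theorem feit_simple (hZ : IsZassenhausGroup G Ω) {a b : Ω} (hab : a ≠ b) [IsSimpleGroup G] (h e : ℕ)
    (hh : Fintype.card Ω = h + 1)
    (he : Nat.card ↥(MulAction.stabilizer G a ⊓ MulAction.stabilizer G b : Subgroup G) = e)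
    (hodd : Odd e) (H : Subgroup G) (hHa : H ≤ MulAction.stabilizer G a)
    (hHcard : Nat.card H + 1 = Fintype.card Ω)
    (hHfix : ∀ u ∈ H, u ≠ 1 → ∀ c : Ω, u • c = c → c = a) :
    h - 1 ≤ 2 * e ∨ (IsPGroup 2 H ∧ (∃ u v : H, u * v ≠ v * u) ∧
      (commutator H).index ≤ 4 * e ^ 2 + 1) := by
  classical
  by_contra hcon
  push Not at hcon
  obtain ⟨hlt, hrest⟩ := hcon
  subst he
  obtain ⟨t, hta, htb, ht3⟩ := exists_swap_inv hZ hab hodd
  let D : KData G Ω := ⟨hZ, a, b, hab, hodd, t, ht3, hta, htb, H, hHcard, hHa, hHfix⟩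
  have hlt' : 2 * Nat.card D.E < h - 1 := hlt
  have hHc : Nat.card H = h := by omega
  have hH1 : H ≠ ⊥ := by
    rintro rfl
    have h1 : Nat.card (⊥ : Subgroup G) = 1 := Subgroup.card_bot
    omega
  have hnil := kernel_nilpotent hZ hab hHa hHfix
  have hS878 := Cfsg.Agent.S0878.result hZ a H hHa hHcard hHfix
  have hTI : ∀ g : G, g ∉ D.S → ∀ k ∈ H, g * k * g⁻¹ ∈ H → k = 1 := hS878.1
  have hnorm : ∀ x ∈ D.S, ∀ k ∈ H, x * k * x⁻¹ ∈ H := fun x hx k hk =>
    conj_mem_kernel hZ hHcard hHa hHfix hx hk
  have hC : ∀ k ∈ H, k ≠ 1 → Subgroup.centralizer ({k} : Set G) ≤ H := by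
    intro k hk hk1 x hx
    have h1 : x * k = k * x := (Subgroup.mem_centralizer_singleton_iff.mp hx)
    exact D.mem_H_of_commute hk hk1 h1
  have hindex : (H.subgroupOf D.S).index = Nat.card D.E := by
    have h1 := Subgroup.card_mul_index (H.subgroupOf D.S)
    have h2 : Nat.card (H.subgroupOf D.S) = Nat.card H :=
      Nat.card_congr (Subgroup.subgroupOfEquivOfLe hHa).toEquiv
    have h3 := D.card_S
    have h4 : Nat.card D.H = Nat.card H := rfl
    rw [h2, h3, h4] at h1
    exact Nat.eq_of_mul_eq_mul_left Nat.card_pos h1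
  letI : Fintype D.S := D.instFintypeS
  rcases ti_main H D.S hH1 hnil hTI hHa hnorm hC with ⟨-, h2, -⟩ | hcoh | ⟨r, hr, ⟨m, hm⟩, hna, hx⟩
  · rw [hindex] at h2
    have h3 : Nat.card D.E = Nat.card ↥(MulAction.stabilizer G a ⊓ MulAction.stabilizer G b : Subgroup G) := rfl
    omega
  · exact D.false_of_coherent hh hlt' hcoh
  · by_cases hr2 : r = 2
    · subst hr2
      have h5 : ∃ u v : H, u * v ≠ v * u := by
        by_contra hcomm
        push Not at hcomm
        exact hna ⟨⟨fun x y => hcomm x y⟩⟩
      have h6 := hrest (IsPGroup.of_card hm) h5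
      rw [hindex] at hx
      rw [commutator_eq_subgroupOf] at h6
      exact absurd hx (not_le.mpr h6)
    · have hN : Subgroup.normalizer (H : Set G) = D.S := hS878.2
      have hTIs : IsTISubset (H : Set G) := by
        intro g hg k hk hgk
        rw [hN] at hg
        exact hTI g hg k hk hgk
      have hltS : H < D.S := by
        refine lt_of_le_of_ne hHa ?_
        intro heq
        obtain ⟨y, hy1, hya, hyb⟩ := exists_ne_one_fix hZ hab
        have hyH : y ∈ H := by
          rw [heq]
          exact hya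
        exact hab (hHfix y hyH hy1 b hyb).symm
      have hKodd : ¬ 2 ∣ Nat.card H := by
        rw [hm]
        intro h2
        have h3 := Nat.prime_two.dvd_of_dvd_pow h2
        exact hr2 ((Nat.prime_dvd_prime_iff_eq Nat.prime_two hr).mp h3).symm
      exact D.false_of_coherent hh hlt' (ti_odd H D.S hH1 hnil hTIs hN hltS hC hKodd hna)

end Simple

section Main

variable {Ω : Type v} [Fintype Ω]

theorem index_commutator_equiv {A B : Type*} [Group A] [Group B] (φ : A ≃* B) :
    (commutator B).index = (commutator A).index := by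
  have h1 : commutator B = (commutator A).map (φ : A →* B) := by
    rw [commutator_def, commutator_def, Subgroup.map_commutator,
      Subgroup.map_top_of_surjective _ φ.surjective]
  rw [h1, Subgroup.index_map_equiv]

/-- Feit's theorem on Zassenhaus groups, by induction on the order of the group. -/
theorem feit_main (n : ℕ) : ∀ (G : Type u) [Group G] [Finite G] [MulAction G Ω], Nat.card G = n →
    IsZassenhausGroup G Ω → ∀ {a b : Ω} (_ : a ≠ b) (h e : ℕ) (_ : Fintype.card Ω = h + 1)
    (_ : Nat.card ↥(MulAction.stabilizer G a ⊓ MulAction.stabilizer G b : Subgroup G) = e)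
    (_ : Odd e) (H : Subgroup G) (_ : H ≤ MulAction.stabilizer G a)
    (_ : Nat.card H + 1 = Fintype.card Ω)
    (_ : ∀ u ∈ H, u ≠ 1 → ∀ c : Ω, u • c = c → c = a),
    h - 1 ≤ 2 * e ∨ (IsPGroup 2 H ∧ (∃ u v : H, u * v ≠ v * u) ∧
      (commutator H).index ≤ 4 * e ^ 2 + 1) := by
  induction n using Nat.strong_induction_on with
  | _ n ih =>
  intro G _ _ _ hn hZ a b hab h e hh he hodd H hHa hHcard hHfix
  classical
  letI : Fintype G := Fintype.ofFinite G
  by_cases hs : IsSimpleGroup G
  · exact feit_simple hZ hab h e hh he hodd H hHa hHcard hHfix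
  · obtain ⟨y, hy1, hya, hyb⟩ := exists_ne_one_fix hZ hab
    haveI : Nontrivial G := ⟨⟨y, 1, hy1⟩⟩
    have hex : ∃ N : Subgroup G, N.Normal ∧ N ≠ ⊥ ∧ N ≠ ⊤ := by
      by_contra hcon
      push Not at hcon
      apply hs
      refine ⟨fun N hN => ?_⟩
      by_cases h1 : N = ⊥
      · exact Or.inl h1
      · exact Or.inr (hcon N hN h1)
    obtain ⟨N, hNn, hN1, hNt⟩ := hex
    have hZN : IsZassenhausGroup N Ω := Cfsg.Agent.Lib.Perm.zsub_main hZ N hNn hN1
    obtain ⟨z, hz1, hza, hzb⟩ := exists_ne_one_fix hZN hab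
    have hHN : H ≤ N := Cfsg.Agent.Lib.Perm.zsub_kernel_le hZ hNn hab z.2
      (fun h' => hz1 (Subtype.ext h')) hza hzb hHcard hHa hHfix
    have hlt : Nat.card N < n := by
      rw [← hn]
      have h1 := Subgroup.card_mul_index N
      have h2 : N.index ≠ 1 := fun h' => hNt (Subgroup.index_eq_one.mp h')
      have h3 : N.index ≠ 0 := Subgroup.index_ne_zero_of_finite
      have h4 : 0 < Nat.card N := Nat.card_pos
      have h5 : 2 ≤ N.index := by omega
      nlinarith
    let f : ↥(MulAction.stabilizer N a ⊓ MulAction.stabilizer N b : Subgroup N) →*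
        ↥(MulAction.stabilizer G a ⊓ MulAction.stabilizer G b : Subgroup G) :=
      { toFun := fun x => ⟨((x : N) : G), x.2.1, x.2.2⟩
        map_one' := rfl
        map_mul' := fun _ _ => rfl }
    have hf : Function.Injective f := by
      intro x y hxy
      have h1 : ((x : N) : G) = ((y : N) : G) := congrArg (fun w : ↥(MulAction.stabilizer G a ⊓ MulAction.stabilizer G b : Subgroup G) => (w : G)) hxy
      exact Subtype.ext (Subtype.ext h1)
    have hdvd := Subgroup.card_dvd_of_injective f hf
    rw [he] at hdvd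
    have hodd' := Odd.of_dvd_nat hodd hdvd
    have hepos : 0 < e := hodd.pos
    have hle := Nat.le_of_dvd hepos hdvd
    let H' : Subgroup N := H.subgroupOf N
    let φ : H' ≃* H := Subgroup.subgroupOfEquivOfLe hHN
    have hHa' : H' ≤ MulAction.stabilizer N a := fun x hx => hHa hx
    have hHcard' : Nat.card H' + 1 = Fintype.card Ω := by
      rw [Nat.card_congr φ.toEquiv]
      exact hHcard
    have hHfix' : ∀ u ∈ H', u ≠ 1 → ∀ c : Ω, u • c = c → c = a := fun u hu hu1 c hc =>
      hHfix u hu (fun h' => hu1 (Subtype.ext h')) c hc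
    rcases ih _ hlt N rfl hZN hab h _ hh rfl hodd' H' hHa' hHcard' hHfix' with h1 | ⟨hp, ⟨u, v, huv⟩, hidx⟩
    · left
      omega
    · right
      refine ⟨hp.of_surjective φ.toMonoidHom φ.surjective, ⟨φ u, φ v, ?_⟩, ?_⟩
      · intro heq
        apply huv
        apply φ.injective
        rw [map_mul, map_mul]
        exact heq
      · rw [index_commutator_equiv φ]
        refine hidx.trans ?_
        have : Nat.card ↥(MulAction.stabilizer N a ⊓ MulAction.stabilizer N b : Subgroup N) ^ 2 ≤ e ^ 2 :=
          Nat.pow_le_pow_left hle 2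
        omega

end Main

end Cfsg.Agent.Lib.Char.Zass
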