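import Cfsg.Agent.Lib.Char.ZassFeit2
import Cfsg.Agent.Lib.Perm.ZFinalS
import Cfsg.Agent.S0738
import Cfsg.Agent.S0731
import Cfsg.Agent.S0347

/-!
# The classification of finite simple Zassenhaus groups.
-/

set_option autoImplicit false
set_option linter.style.haveILetI false

namespace Cfsg.Agent.Lib.Char.Zass

open Cfsg Cfsg.Agent.Lib.Char Cfsg.Agent.Lib.Perm MulAction OnePoint

universe u v

variable {G : Type u} {Ω : Type v} [Group G] [Finite G] [MulAction G Ω] [Fintype Ω]

/-- Kernel data for a Zassenhaus group. -/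
theorem kernel_all (hZ : IsZassenhausGroup G Ω) {a b : Ω} (hab : a ≠ b) :
    ∃ F : Subgroup G, Nat.card F + 1 = Fintype.card Ω ∧ F ≤ stabilizer G a ∧
      (∀ u ∈ F, u ≠ 1 → ∀ c : Ω, u • c = c → c = a) ∧
      (F.subgroupOf (stabilizer G a)).Normal ∧
      (∀ y z : Ω, y ≠ a → z ≠ a → ∃! u : F, (u : G) • y = z) := by
  classical
  obtain ⟨F, hcard, hFa, hFfix⟩ := zf_kernel hZ hab
  refine ⟨F, hcard, hFa, hFfix, ?_, ?_⟩
  · refine ⟨fun x hx g => ?_⟩
    rw [Subgroup.mem_subgroupOf] at hx ⊢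
    exact conj_mem_kernel hZ hcard hFa hFfix g.2 hx
  · intro y z hy hz
    obtain ⟨u, hu, huy⟩ := regular_of_kernel hcard hFa hFfix hy hz
    refine ⟨⟨u, hu⟩, huy, ?_⟩
    rintro ⟨v, hv⟩ hvy
    apply Subtype.ext
    change v = u
    by_contra hne
    have h1 : u⁻¹ * v ≠ 1 := by
      intro h
      exact hne (inv_mul_eq_one.mp h).symm
    have h2 := hFfix _ (F.mul_mem (F.inv_mem hu) hv) h1 y (by
      have hvy' : v • y = z := hvy
      rw [mul_smul, hvy', inv_smul_eq_iff, huy])
    exact hy h2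

/-- The odd case: the dichotomy from Feit's theorem. -/
theorem odd_dichotomy (hZ : IsZassenhausGroup G Ω) {a b : Ω} (hab : a ≠ b)
    (hodd : Odd (Nat.card ↥(stabilizer G a ⊓ stabilizer G b : Subgroup G))) :
    ∃ F : Subgroup G, Nat.card F + 1 = Fintype.card Ω ∧ F ≤ stabilizer G a ∧
      (∀ u ∈ F, u ≠ 1 → ∀ c : Ω, u • c = c → c = a) ∧
      (F.subgroupOf (stabilizer G a)).Normal ∧
      (∀ y z : Ω, y ≠ a → z ≠ a → ∃! u : F, (u : G) • y = z) ∧
      ((IsMulCommutative F ∧ ∃ p f : ℕ, p.Prime ∧ (∀ u ∈ F, u ^ p = 1) ∧ Fintype.card Ω = p ^ f + 1) ∨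
        (IsPGroup 2 F ∧ ∃ u v : F, u * v ≠ v * u)) := by
  classical
  obtain ⟨F, hcard, hFa, hFfix, hFn, hreg⟩ := kernel_all hZ hab
  refine ⟨F, hcard, hFa, hFfix, hFn, hreg, ?_⟩
  have h1 : Fintype.card Ω = (Fintype.card Ω - 1) + 1 := by
    have : 0 < Fintype.card Ω := Fintype.card_pos_iff.mpr ⟨a⟩
    omega
  rcases feit_main (Nat.card G) G rfl hZ hab (Fintype.card Ω - 1) _ h1 rfl hodd F hFa hcard hFfix with
    h2 | ⟨h2, h3, -⟩
  · left
    have h4 : Fintype.card Ω - 2 ≤ 2 * Nat.card ↥(stabilizer G a ⊓ stabilizer G b : Subgroup G) := by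
      omega
    exact Cfsg.Agent.S0738.result hZ hab h4 F hFa hFn hreg
  · right
    exact ⟨h2, h3⟩

/-- The degree of a finite simple Zassenhaus group is one more than a prime power. -/
theorem simple_degree (hZ : IsZassenhausGroup G Ω) [IsSimpleGroup G] :
    IsPrimePow (Fintype.card Ω - 1) := by
  classical
  obtain ⟨g, -, a, b, hab, -, -⟩ := hZ.2.2.2.1
  obtain ⟨c, hca, hcb⟩ := Zass.exists_third hZ hab
  have hΩ3 : 3 ≤ Fintype.card Ω := by
    have : ({a, b, c} : Finset Ω).card ≤ Fintype.card Ω := Finset.card_le_univ _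
    rw [Finset.card_eq_three.mpr ⟨a, b, c, hab, hca.symm, hcb.symm, rfl⟩] at this
    exact this
  rcases Nat.even_or_odd (Nat.card ↥(stabilizer G a ⊓ stabilizer G b : Subgroup G)) with heven | hodd
  · have hd := zfin_even_degree hZ hab heven
    obtain ⟨K, iF, iT, hK, -⟩ := zq_even_psl hZ hab heven hd
    have h1 : Fintype.card Ω - 1 = Fintype.card K := by
      rw [← Nat.card_eq_fintype_card (α := K)]
      omega
    rw [h1]
    exact Fintype.isPrimePow_card_of_field
  · obtain ⟨F, hcard, hFa, hFfix, hFn, hreg, h⟩ := odd_dichotomy hZ hab hodd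
    rcases h with ⟨-, p, f, hp, -, hf⟩ | ⟨h2, u, v, huv⟩
    · have h1 : Fintype.card Ω - 1 = p ^ f := by omega
      rw [h1]
      have hf0 : f ≠ 0 := by
        rintro rfl
        simp at hf
        omega
      exact hp.isPrimePow.pow hf0
    · have h1 : Fintype.card Ω - 1 = Nat.card F := by omega
      rw [h1]
      obtain ⟨n, hn⟩ := IsPGroup.iff_card.mp h2
      rw [hn]
      have hn0 : n ≠ 0 := by
        rintro rfl
        rw [pow_zero] at hn
        haveI : Subsingleton F := (Nat.card_eq_one_iff_unique.mp hn).1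
        exact huv (Subsingleton.elim _ _)
      exact Nat.prime_two.isPrimePow.pow hn0

/-- The sharply triply transitive case of odd degree. -/
theorem sharp_odd_psl (hZ : IsZassenhausGroup G Ω) [IsSimpleGroup G] {a b : Ω} (hab : a ≠ b)
    (hodd : Odd (Nat.card ↥(stabilizer G a ⊓ stabilizer G b : Subgroup G)))
    {F : Subgroup G} (hFa : F ≤ stabilizer G a)
    (hFn : (F.subgroupOf (stabilizer G a)).Normal)
    (hFc : IsMulCommutative F)
    (hreg : ∀ y z : Ω, y ≠ a → z ≠ a → ∃! u : F, (u : G) • y = z)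
    (h3t : IsMultiplyPretransitive G Ω 3) :
    ∃ (K : Type) (_ : Field K) (_ : Fintype K),
      Nonempty (G ≃* Matrix.ProjectiveSpecialLinearGroup (Fin 2) K) := by
  classical
  have hS : Sh3 G Ω := by
    constructor
    · intro a b c a' b' c' hab hac hbc hab' hac' hbc'
      obtain ⟨g, hg⟩ := h3t.exists_smul_eq (mk3 a b c hab hac hbc) (mk3 a' b' c' hab' hac' hbc')
      exact ⟨g, congrArg (fun f : Fin 3 ↪ Ω => f 0) hg, congrArg (fun f : Fin 3 ↪ Ω => f 1) hg,
        congrArg (fun f : Fin 3 ↪ Ω => f 2) hg⟩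
    · intro g a b c hab hac hbc h1 h2 h3
      exact hZ.2.2.1 g a b c hab hbc hac h1 h2 h3
  have hfaith : ∀ g : G, (∀ x : Ω, g • x = x) → g = 1 := by
    intro g hg
    haveI := hZ.1
    apply FaithfulSMul.eq_of_smul_eq_smul (α := Ω)
    intro x
    rw [one_smul]
    exact hg x
  -- the third point
  obtain ⟨c₀, hca₀, hcb₀⟩ := Zass.exists_third hZ hab
  set d := Nat.card ↥(stabilizer G a ⊓ stabilizer G b : Subgroup G) with hdd
  have hdpos : 0 < d := Nat.card_pos
  have hoff := zq_card_off hab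
  have hd : d + 2 = Fintype.card Ω := by
    have h1 : Nat.card {y : Ω // y ≠ a ∧ y ≠ b} ≤ d := by
      let φ : ↥(stabilizer G a ⊓ stabilizer G b : Subgroup G) → {y : Ω // y ≠ a ∧ y ≠ b} :=
        fun k => ⟨(k : G) • c₀, by
          constructor
          · intro h
            exact hca₀ (MulAction.injective (k : G) (h.trans ((k.2.1 : (k : G) • a = a).symm)))
          · intro h
            exact hcb₀ (MulAction.injective (k : G) (h.trans ((k.2.2 : (k : G) • b = b).symm)))⟩
      have hφ : Function.Surjective φ := by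
        rintro ⟨y, hya, hyb⟩
        obtain ⟨g, h1, h2, h3⟩ := hS.trans a b c₀ a b y hab hca₀.symm hcb₀.symm hab hya.symm hyb.symm
        exact ⟨⟨g, h1, h2⟩, Subtype.ext h3⟩
      exact Nat.card_le_card_of_surjective φ hφ
    have h2 := zs_dvd hZ hab
    have h3 : Fintype.card Ω - 2 ≠ 0 := by
      have : 0 < Nat.card {y : Ω // y ≠ a ∧ y ≠ b} :=
        Nat.card_pos_iff.mpr ⟨⟨⟨c₀, hca₀, hcb₀⟩⟩, by infer_instance⟩
      omega
    have h4 := Nat.le_of_dvd (Nat.pos_of_ne_zero h3) h2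
    omega
  have hcardG := zs_card hZ hab
  obtain ⟨hcyc, J, hJo, hJa, hJb, hJinv⟩ := zfin_cyclic hZ hab
  have hJJ : J ^ 2 = 1 := by rw [← hJo]; exact pow_orderOf_eq_one J
  -- fixed point of the involution
  have hΩodd : Odd (Fintype.card Ω) := by
    rw [← hd]
    exact hodd.add_even (by decide)
  obtain ⟨c, hJc⟩ : ∃ c : Ω, J • c = c := by
    by_contra hcon
    push Not at hcon
    have h1 : (MulAction.toPerm J : Equiv.Perm Ω) ^ 2 = 1 := by
      ext x
      rw [pow_two, Equiv.Perm.mul_apply, Equiv.Perm.one_apply]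
      change J • J • x = x
      rw [← mul_smul, ← pow_two, hJJ, one_smul]
    have h2 := Equiv.Perm.two_dvd_card_support h1
    have h3 : (MulAction.toPerm J : Equiv.Perm Ω).support = Finset.univ := by
      ext x
      simp [Equiv.Perm.mem_support, hcon x]
    rw [h3, Finset.card_univ] at h2
    exact (Nat.not_even_iff_odd.mpr hΩodd) (even_iff_two_dvd.mpr h2)
  have hca : c ≠ a := by
    rintro rfl
    exact hab (hJc.symm.trans hJa)
  have hcb : c ≠ b := by
    rintro rfl
    exact hab (hJb.symm.trans hJc)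
  -- commutativity of two-point stabiliser
  have hHc : ∀ h k : G, h • a = a → h • b = b → k • a = a → k • b = b → h * k = k * h := by
    intro h k h1 h2 h3 h4
    letI : CommGroup ↥(stabilizer G a ⊓ stabilizer G b : Subgroup G) := IsCyclic.commGroup
    have := mul_comm (⟨h, h1, h2⟩ : ↥(stabilizer G a ⊓ stabilizer G b : Subgroup G)) ⟨k, h3, h4⟩
    exact congrArg Subtype.val this
  have hFc' : ∀ u ∈ F, ∀ v ∈ F, u * v = v * u := by
    intro u hu v hv
    have := hFc.is_comm.comm ⟨u, hu⟩ ⟨v, hv⟩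
    exact congrArg Subtype.val this
  have hFn' : ∀ g : G, g • a = a → ∀ u ∈ F, g * u * g⁻¹ ∈ F := by
    intro g hg u hu
    have h1 := hFn.conj_mem ⟨u, hFa hu⟩ (by rw [Subgroup.mem_subgroupOf]; exact hu) ⟨g, hg⟩
    rw [Subgroup.mem_subgroupOf] at h1
    exact h1
  obtain ⟨K, iF, iT, ρ, h1, h2, h3, h4, h5, h6, h7, h8⟩ :=
    sh3_coords hS hab hca.symm hcb.symm (fun u hu => hFa hu) hFn' hFc' hreg hHc
  -- characteristic two
  have hKeven : Even (Fintype.card K) := by
    rw [← Nat.card_eq_fintype_card]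
    have e1 : Nat.card K = d + 1 := by
      rw [Nat.card_eq_fintype_card (α := Ω)] at h4
      omega
    rw [e1]
    exact hodd.add_one
  have hchar : ringChar K = 2 := FiniteField.even_card_iff_char_two.mpr
    (Nat.even_iff.mp hKeven)
  have h2K : (2 : K) = 0 := by
    haveI : CharP K 2 := by rw [← hchar]; exact ringChar.charP K
    exact CharTwo.two_eq_zero
  have hneg : (1 : K) * 1 * 1 = -1 := by
    rw [mul_one, mul_one]
    have : (1 : K) + 1 = 0 := by
      have := h2K
      rwa [← one_add_one_eq_two] at this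
    exact eq_neg_of_add_eq_zero_left this
  have hq := Cfsg.Agent.Lib.Classical.card_PSL_two_mul (F := K)
  have hcard : Nat.card G = Nat.card (Matrix.ProjectiveSpecialLinearGroup (Fin 2) K) := by
    rw [Nat.card_eq_fintype_card (α := Ω)] at h4
    set q := Nat.card K with hqq
    have hqe : Even q := by
      rw [hqq, Nat.card_eq_fintype_card]
      exact hKeven
    have hq1 : q = d + 1 := by omega
    have hgcd : Nat.gcd 2 (q - 1) = 1 := by
      have : q - 1 = d := by omega
      rw [this]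
      exact (Nat.coprime_two_left.mpr hodd)
    rw [hgcd, one_mul] at hq
    have hOm : Fintype.card Ω = q + 1 := h4.symm
    rw [hOm, show q + 1 - 1 = q by omega] at hcardG
    have hd' : d = q - 1 := by omega
    rw [← hdd] at hcardG
    have e5 : q ^ 2 - q = q * (q - 1) := by
      rw [Nat.mul_sub, pow_two, mul_one]
    have e6 : q ^ 2 - 1 = (q + 1) * (q - 1) := by
      obtain ⟨m, hm⟩ : ∃ m, q = m + 1 := ⟨q - 1, by omega⟩
      rw [hm]
      simp only [Nat.add_sub_cancel]
      have : (m + 1) ^ 2 = (m + 1 + 1) * m + 1 := by ring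
      omega
    rw [e5, e6] at hq
    have hqpos : 0 < q - 1 := by omega
    have e7 : (q - 1) * Nat.card (Matrix.ProjectiveSpecialLinearGroup (Fin 2) K) =
        (q - 1) * ((q + 1) * q * (q - 1)) := by
      rw [hq]
      ring
    have e8 := Nat.eq_of_mul_eq_mul_left hqpos e7
    rw [e8, hcardG, hd']
  have hJx : ∀ x : K, x ≠ 0 → J • ρ (x : OnePoint K) = ρ (((1 : K) * x⁻¹ : K) : OnePoint K) := by
    intro x hx
    obtain ⟨k, hka, hkb, hk⟩ := h8 x hx
    have e1 : k • ρ ((x⁻¹ : K) : OnePoint K) = ρ ((1 : K) : OnePoint K) := by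
      rw [hk, mul_inv_cancel₀ hx]
    have e2 : ρ ((x : K) : OnePoint K) = k • ρ ((1 : K) : OnePoint K) := by
      rw [hk, mul_one]
    have e3 : J * k = k⁻¹ * J := by
      have := hJinv k ⟨hka, hkb⟩
      calc J * k = (J * k * J⁻¹) * J := by group
        _ = k⁻¹ * J := by rw [this]
    rw [one_mul, e2, ← mul_smul, e3, mul_smul, h3, hJc, inv_smul_eq_iff, ← h3, e1]
  obtain ⟨e⟩ := zf_recog_psl (K := K) ρ hfaith hcard F (stabilizer G a ⊓ stabilizer G b) J
    (by rw [h1]; exact fun u hu => hFa hu) h5 h6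
    (by rw [h1, h2]; exact fun g g1 g2 => ⟨g1, g2⟩) (by rw [h1]; exact fun h hh => hh.1)
    (by
      intro k hk
      obtain ⟨r, hr, hrx⟩ := h7 k hk.1 hk.2
      obtain ⟨s, hs⟩ := FiniteField.isSquare_of_char_two hchar r
      have hs0 : s ≠ 0 := by
        rintro rfl
        rw [mul_zero] at hs
        exact hr hs
      refine ⟨s, hs0, fun x => ?_⟩
      rw [hrx, hs])
    1 1 hneg (by rw [h1, h2]; exact hJa) (by rw [h1, h2]; exact hJb) hJx
  obtain ⟨K', iF', iT', ⟨eK⟩⟩ := zf_type0 K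
  exact ⟨K', iF', iT', ⟨e.trans (Cfsg.Agent.Lib.Classical.pslCongr eK)⟩⟩

/-- Classification of finite simple Zassenhaus groups. -/
theorem simple_classification (hZ : IsZassenhausGroup G Ω) [IsSimpleGroup G] :
    (∃ (F : Type) (_ : Field F) (_ : Fintype F),
      Nonempty (G ≃* Matrix.ProjectiveSpecialLinearGroup (Fin 2) F)) ∨ Cfsg.IsSuzuki G := by
  classical
  obtain ⟨g, -, a, b, hab, -, -⟩ := hZ.2.2.2.1
  rcases Nat.even_or_odd (Nat.card ↥(stabilizer G a ⊓ stabilizer G b : Subgroup G)) with heven | hodd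
  · obtain ⟨K, iF, iT, -, hK⟩ := zfin_even_psl hZ hab heven
    exact Or.inl ⟨K, iF, iT, hK⟩
  · obtain ⟨F, hcard, hFa, hFfix, hFn, hreg, h⟩ := odd_dichotomy hZ hab hodd
    rcases h with ⟨hFc, -⟩ | ⟨h2, hna⟩
    · rcases Cfsg.Agent.S0731.result hZ a F hFa hFn hFc hreg with ⟨h3t, -⟩ | ⟨K, iF, iT, -, hK⟩
      · exact Or.inl (sharp_odd_psl hZ hab hodd hFa hFn hFc hreg h3t)
      · exact Or.inl ⟨K, iF, iT, hK⟩
    · exact Or.inr (Cfsg.Agent.S0347.result hZ a F hFa hFn h2 hna hreg)

end Cfsg.Agent.Lib.Char.Zass
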